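import Cfsg.Statements.S2146
import Cfsg.Agent.Lib.MinIdx.OFinal
import Cfsg.Agent.Lib.OrthE.OrderP

set_option autoImplicit false
open Cfsg

namespace Cfsg.Agent.S2146

open CfsgLib.MinIdx CfsgLib.OrthE Module

/-- Minimal index of a proper subgroup of the even-dimensional orthogonal groups of plus type over the field with 2 elements: for m ≥ 4, every proper subgroup of Ω⁺_2m(2) (for the form Σ xᵢyᵢ) has index at least 2^(m−1)(2^m − 1), and that index is attained. -/
theorem result {F : Type*} [Field F] [Fintype F] (hF : Fintype.card F = 2) (m : ℕ) (hm : 4 ≤ m) : (∀ H : Subgroup (Cfsg.POmega F (Cfsg.quadFormPlus m F)), H ≠ ⊤ → 2 ^ (m - 1) * (2 ^ m - 1) ≤ H.index) ∧ (∃ H : Subgroup (Cfsg.POmega F (Cfsg.quadFormPlus m F)), H.index = 2 ^ (m - 1) * (2 ^ m - 1)) := by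
  obtain ⟨k, rfl⟩ : ∃ k, m = k + 1 := ⟨m - 1, by omega⟩
  have hQ := nondeg_qPlus (F := F) (k + 1)
  have hd : finrank F (Fin (k + 1) ⊕ Fin (k + 1) → F) = 2 * k + 2 := by simp; ring
  have hr : Nat.card F = 1 + 1 := by rw [Nat.card_eq_fintype_card, hF]
  have h2 : (2 : F) = 0 := by
    by_contra h
    have := odd_card_of_two_ne_zero h
    rw [hF] at this
    exact absurd this (by decide)
  have hh := hyp_qPlus (F := F) (m := k + 1) 0
  have hv := hh.Q_add_smul 1
  have h1 := (om_index_ns hQ (by omega) (hv.trans_ne one_ne_zero)).1 h2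
  have h3 := card_zeros_qPlus (F := F) k
  have h4 : ∀ c : F, c ≠ 0 → Nat.card {v // qPlus F (k + 1) v = c} = 2 ^ k * (2 ^ (k + 1) - 1) :=
    fun c hc => by rw [card_level_qPlus k hc, hr]
  rw [hv, h4 1 one_ne_zero] at h1
  have h5 : 2 ^ k * (2 ^ (k + 1) - 1) + 2 ^ k = 2 ^ (2 * k + 1) := by
    zify [Nat.one_le_two_pow (n := k + 1)]; ring
  have h6 : 2 ^ (2 * k + 1) = 16 * 2 ^ (finrank F (Fin (k + 1) ⊕ Fin (k + 1) → F) - 5) := by
    rw [hd, show (16 : ℕ) = 2 ^ 4 by norm_num, ← pow_add]; congr 1; omega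
  have h7 := Nat.one_le_two_pow (n := k)
  refine pomega_min (qPlus_eq _) hQ (by omega) (om_lower hQ (by omega) hr
    (by change _ ≤ 18 * 2 ^ _; simp only [Nat.add_sub_cancel]; omega) (fun _ => ⟨by simp only [Nat.add_sub_cancel]; omega, ⟨k + 1, by omega⟩⟩)
    (by omega) (fun h8 _ _ _ => Or.inl ⟨rfl, ?_⟩) ?_
    fun c hc => ⟨fun _ => (h4 c hc).ge, fun h => absurd h2 h⟩) h1
  · obtain rfl : k = 3 := by omega
    norm_num
  · simp only [Nat.add_sub_cancel]
    rw [hr] at h3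
    zify at h5 h7 ⊢
    rw [h3]
    norm_num [pow_succ] at h5 ⊢
    linarith

end Cfsg.Agent.S2146
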