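import Cfsg.Statements.S2147
import Cfsg.Agent.Lib.MinIdx.OFinal
import Cfsg.Agent.Lib.OrthE.OrderP

set_option autoImplicit false
open Cfsg

namespace Cfsg.Agent.S2147

open CfsgLib.MinIdx CfsgLib.OrthE Module

/-- Minimal index of a proper subgroup of the even-dimensional orthogonal groups of minus type: for m ≥ 4 and a field F with q elements, every proper subgroup of PΩ⁻_2m(F) (for the form Σ_{i<m−1} xᵢyᵢ + z₁² + a z₁z₂ + b z₂² with anisotropic binary part) has index at least (q^m + 1)(q^(m−1) − 1)/(q − 1), and that index is attained. -/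
theorem result {F : Type*} [Field F] [Fintype F] {q : ℕ} (hF : Fintype.card F = q) (m : ℕ) (hm : 4 ≤ m) (a b : F) (hab : ∀ z₁ z₂ : F, z₁ ^ 2 + a * z₁ * z₂ + b * z₂ ^ 2 = 0 → z₁ = 0 ∧ z₂ = 0) : (∀ H : Subgroup (Cfsg.POmega F (Cfsg.quadFormMinus (m - 1) F a b)), H ≠ ⊤ → (q ^ m + 1) * (q ^ (m - 1) - 1) / (q - 1) ≤ H.index) ∧ (∃ H : Subgroup (Cfsg.POmega F (Cfsg.quadFormMinus (m - 1) F a b)), H.index = (q ^ m + 1) * (q ^ (m - 1) - 1) / (q - 1)) := by
  obtain ⟨k, rfl⟩ : ∃ k, m = k + 1 := ⟨m - 1, by omega⟩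
  simp only [Nat.add_sub_cancel]
  have hQ := nondeg_qMinus (F := F) k hab
  have hd : finrank F ((Fin k ⊕ Fin k) ⊕ Fin 2 → F) = 2 * k + 2 := by simp; ring
  have hq : 1 < q := hF ▸ Fintype.one_lt_card
  obtain ⟨r, rfl⟩ : ∃ r, q = r + 1 := ⟨q - 1, by omega⟩
  have hr : Nat.card F = r + 1 := by rw [Nat.card_eq_fintype_card, hF]
  have hh := hyp_qMinus (F := F) (m := k) a b ⟨0, by omega⟩
  have h1 := om_index_sing hQ (by omega) hh.e_ne hh.he hr
  have h3 := card_zeros_qMinus (F := F) k hab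
  set D := (lineStab (CfsgLib.RootMax.Om (qMinus F k a b)).subtype _).index with hD
  have h2 : D * r + 1 + (r + 1) ^ (k + 1) = (r + 1) ^ (2 * k + 1) + (r + 1) ^ k := by
    rw [h1]; zify; rw [h3, hr]; push_cast; ring
  have h5 : 1 ≤ (r + 1) ^ k := Nat.one_le_pow _ _ (by omega)
  have h4 : ((r + 1) ^ (k + 1) + 1) * ((r + 1) ^ k - 1) / (r + 1 - 1) = D := by
    refine Nat.div_eq_of_eq_mul_left (by omega) ?_
    zify [h5] at h2 ⊢
    simp only [Nat.add_sub_cancel]
    linear_combination -h2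
  rw [h4]
  have h6 : (r + 1) ^ (2 * k + 1) =
      (r + 1) ^ 4 * (r + 1) ^ (finrank F ((Fin k ⊕ Fin k) ⊕ Fin 2 → F) - 5) := by
    rw [hd, ← pow_add]; congr 1; omega
  have h7 : D * r < (r + 1) ^ (2 * k + 1) := by rw [pow_succ _ k] at h2; nlinarith
  refine pomega_min (qMinus_eq _ a b) hQ (by omega) (om_lower hQ (by omega) hr
    (by rw [add_mul, ← h6, mul_comm]; omega)
    ?_ ?_ (fun h8 S h9 h10 => ?_) h1.le fun c hc => ?_) hD.symm
  · rintro rfl
    exact ⟨by norm_num at h6 h7 ⊢; omega, ⟨k + 1, by omega⟩⟩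
  · rintro rfl
    norm_num at h6 h7 ⊢; omega
  · have := finrank_le_of_ts_qMinus hab h9
    omega
  · have h8 := level_ge_even hc k _ hQ hd
    rw [hr] at h8
    rw [pow_succ _ k] at h2
    refine ⟨fun _ => by nlinarith, fun h => ?_⟩
    have h9 : 2 ≤ r := by
      have := odd_card_of_two_ne_zero h
      rw [hF, Nat.odd_iff] at this
      omega
    nlinarith

end Cfsg.Agent.S2147
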