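import Cfsg.Statements.S3816
import Cfsg.Agent.Lib.FlavF.B
import Cfsg.Agent.Lib.Coprime.Aut

set_option autoImplicit false
open Cfsg

namespace Cfsg.Agent.S3816

/-- Let p be an odd prime, H a finite solvable group of order prime to p, and x an automorphism of H of order p (so P = ⟨x⟩ has prime order p > 2 and acts coprimely on H). For h ∈ H let [h, P] be the subgroup generated by the commutators h⁻¹·xⁱ(h), and let [H, P] be the subgroup generated by all of these. Then the fixed points of x in [H, P] are generated by the fixed points of x in the subgroups [h, P], h ∈ H. -/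
theorem result {H : Type*} [Group H] [Finite H]
    [Group.IsSolvable H] {p : ℕ} [Fact p.Prime] (hp : p ≠ 2) (hcop : (Nat.card H).Coprime p)
    (x : MulAut H) (hx : orderOf x = p) :
    Subgroup.closure {c : H | ∃ h : H, ∃ i : ℕ, c = h⁻¹ * (x ^ i) h} ⊓ (x : H →* H).eqLocus (MonoidHom.id H) =
      ⨆ h : H, Subgroup.closure {c : H | ∃ i : ℕ, c = h⁻¹ * (x ^ i) h} ⊓ (x : H →* H).eqLocus (MonoidHom.id H) := by
  refine le_antisymm ?_ (iSup_le fun h => inf_le_inf_right _
    (Subgroup.closure_mono fun c ⟨i, hi⟩ => ⟨h, i, hi⟩))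
  have : Finite (MulAut H) := Finite.of_injective _ (DFunLike.coe_injective (F := MulAut H))
  let φ := MonoidHom.id (MulAut H)
  have := CfsgLib.Coprime.finite_sd (φ := φ)
  let f : H →* H ⋊[φ] MulAut H := SemidirectProduct.inl
  let y : H ⋊[φ] MulAut H := SemidirectProduct.inr x
  have hf : Function.Injective f := SemidirectProduct.inl_injective
  have e : ∀ (i : ℕ) (h : H), y ^ i * f h * (y ^ i)⁻¹ = f ((x ^ i) h) := fun i h => by
    rw [← map_pow]; exact CfsgLib.Coprime.inr_conj_inl (φ := φ) _ _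
  have hC : ∀ c : H, f c ∈ CfsgLib.FlavF.Cx y ↔ c ∈ (x : H →* H).eqLocus (MonoidHom.id H) := fun c => by
    have := e 1 c
    rw [pow_one, pow_one] at this
    rw [CfsgLib.FlavF.mem_Cx, this, hf.eq_iff]; rfl
  have hN : (Subgroup.map f ⊤).Normal := CfsgLib.Coprime.sdL_top_normal
  have hcard : Nat.card (Subgroup.map f ⊤) = Nat.card H := by
    rw [Subgroup.card_map_of_injective hf, Subgroup.card_top]
  have key := CfsgLib.FlavF.main_aux (Fact.out : p.Prime) hp _ _ y (Subgroup.map f ⊤) rfl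
    ((orderOf_injective _ SemidirectProduct.inr_injective x).trans hx) Subgroup.le_normalizer_of_normal
    (CfsgLib.Core.isSolvable_map f ⊤) (hcard ▸ hcop.symm)
  rintro c ⟨c1, c2⟩
  rw [← Subgroup.mem_map_iff_mem hf]
  refine (le_trans key (iSup₂_le ?_)) ⟨?_, (hC c).2 c2⟩
  · rintro _ ⟨h, -, rfl⟩ d ⟨d1, d2⟩
    have e1 : CfsgLib.FlavF.Lg y (f h) ≤
        (Subgroup.closure {c : H | ∃ i : ℕ, c = h⁻¹ * (x ^ i) h}).map f := by
      rw [CfsgLib.FlavF.Lg, Subgroup.closure_le]
      rintro _ ⟨i, rfl⟩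
      exact ⟨_, Subgroup.subset_closure ⟨i, rfl⟩, by rw [e, map_mul, map_inv]⟩
    obtain ⟨d, d3, rfl⟩ := e1 d1
    exact Subgroup.mem_map_of_mem f (Subgroup.mem_iSup_of_mem h ⟨d3, (hC d).1 d2⟩)
  · refine (Subgroup.map_le_iff_le_comap.2 ((Subgroup.closure_le _).2 ?_) :
      _ ≤ ⁅Subgroup.map f ⊤, Subgroup.zpowers y⁆) (Subgroup.mem_map_of_mem f c1)
    rintro _ ⟨h, i, rfl⟩
    have := Subgroup.commutator_mem_commutator (Subgroup.mem_map_of_mem f (Subgroup.mem_top h⁻¹))
      (Subgroup.pow_mem _ (Subgroup.mem_zpowers y) i)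
    change f _ ∈ ⁅Subgroup.map f ⊤, Subgroup.zpowers y⁆
    rw [map_mul, ← e, map_inv]
    simpa [commutatorElement_def, mul_assoc] using this

end Cfsg.Agent.S3816
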