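import Cfsg.Statements.S0063
import Cfsg.Agent.Lib.Core.Fitting

set_option autoImplicit false
open Cfsg

namespace Cfsg.Agent.S0063

theorem aux.{u} (p : ℕ) [hp : Fact p.Prime] (m : ℕ) : ∀ (G : Type u) [Group G] [Finite G],
    Nat.card G = p ^ m → 1 < m → Group.nilpotencyClass G ≤ m - 1 := by
  induction m using Nat.strong_induction_on with
  | _ m ih =>
    intro G _ _ hG hm
    have hP : IsPGroup p G := IsPGroup.of_card hG
    have := hP.isNilpotent
    have : Nontrivial G := hP.nontrivial_iff_card.2 ⟨m, by omega, hG⟩
    obtain ⟨k, hk⟩ := (hP.to_quotient (Subgroup.center G)).exists_card_eq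
    have hkm : k < m := by
      have := CfsgLib.Core.card_quotient_lt_of_ne_bot (Group.IsNilpotent.center_ne_bot G)
      rw [hk, hG] at this
      exact (Nat.pow_lt_pow_iff_right hp.out.one_lt).1 this
    by_cases hk1 : 1 < k
    · rw [Group.nilpotencyClass_eq_quotient_center_plus_one]
      have := ih k hkm _ hk hk1
      omega
    · have : IsCyclic (G ⧸ Subgroup.center G) := by
        apply isCyclic_of_card_dvd_prime (p := p)
        rw [hk]
        exact (pow_dvd_pow p (not_lt.1 hk1)).trans (pow_one p).dvd
      have := isMulCommutative_of_isCyclic_quotient_center_self G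
      have := Group.IsNilpotent.nilpotencyClass_le_one_iff.2 this
      omega

/-- A finite group of prime-power order p ^ m with m > 1 is nilpotent of class at most m - 1. -/
theorem result {G : Type*} [Group G] [Finite G] (p m : ℕ) [Fact p.Prime]
    (hG : Nat.card G = p ^ m) (hm : 1 < m) : Group.nilpotencyClass G ≤ m - 1 := by
  exact aux p m G hG hm

end Cfsg.Agent.S0063
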