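import Cfsg.Statements.S0800
import Cfsg.Agent.Lib.SL2.Normalizer

set_option autoImplicit false
open Cfsg

namespace Cfsg.Agent.S0800


/-- Tori of SL_2(q): if g ∈ SL_2(q) has order coprime to the characteristic p, then the order of g divides q − 1 or q + 1. -/
theorem result {F : Type*} [Field F] [Fintype F] {q : ℕ} (hF : Fintype.card F = q) (p : ℕ) [Fact p.Prime] [CharP F p] (g : Matrix.SpecialLinearGroup (Fin 2) F) (hg : Nat.Coprime (orderOf g) p) : orderOf g ∣ q - 1 ∨ orderOf g ∣ q + 1 := by
  subst hF
  have hp : ringChar F = p := ringChar.eq F p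
  by_cases h2 : orderOf g ∣ 2
  · by_cases h : p = 2
    · subst h
      rcases (Nat.dvd_prime Nat.prime_two).mp h2 with e | e
      · rw [e]; exact Or.inl (one_dvd _)
      · rw [e] at hg; simp at hg
    · right
      refine h2.trans ?_
      have := FiniteField.odd_card_of_char_ne_two (F := F) (hp ▸ h)
      omega
  · by_contra hc
    rw [not_or] at hc
    exact hc.2 (orderOf_dvd_of_pow_eq_one (CfsgLib.SL2.noEig_of_orderOf h2 (hp ▸ hg) hc.1).pow_card)

end Cfsg.Agent.S0800
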