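import Mathlib
import Cfsg.Statements.S4198
import Cfsg.Agent.Lib.AltAut.Basic
-- import your own Cfsg.Agent.* helpers here

set_option autoImplicit false
open Cfsg

namespace Cfsg.Agent.S4198

open Equiv Equiv.Perm CfsgLib.AltAut

theorem card_partition_le {n : ℕ} (hn : 5 ≤ n) : Nat.card (Nat.Partition n) ≤ 2 ^ (n - 2) := by
  classical
  let f : Composition (n - 1) → Multiset ℕ := fun c =>
    if c.blocks = 1 :: 3 :: List.replicate (n - 5) 1 then Multiset.replicate n 1
    else (c.blocks.headI + 1) ::ₘ (c.blocks.tail : Multiset ℕ)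
  have h : ∀ l : Nat.Partition n, ∃ c, f c = l.parts := by
    intro l
    have hs := l.parts_sum
    have h0 : l.parts ≠ 0 := fun e => by rw [e] at hs; simp at hs; omega
    obtain ⟨a, ha, hmax⟩ := l.parts.toFinset.exists_max_image id
      (Multiset.toFinset_nonempty.2 h0)
    simp only [Multiset.mem_toFinset, id] at ha hmax
    have ha0 := l.parts_pos ha
    by_cases h1 : a = 1
    · have h2 : l.parts = Multiset.replicate l.parts.card 1 :=
        Multiset.eq_replicate_card.2 fun b hb => by
          have := hmax b hb; have := l.parts_pos hb; omega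
      have h3 : l.parts.card = n := by rw [h2] at hs; simpa using hs
      refine ⟨⟨1 :: 3 :: List.replicate (n - 5) 1, fun hi => ?_, by simp; omega⟩, ?_⟩
      · simp only [List.mem_cons, List.mem_replicate] at hi
        omega
      · rw [h2, h3]; exact if_pos rfl
    · have h2 := Multiset.cons_erase ha
      refine ⟨⟨(a - 1) :: (l.parts.erase a).toList, fun hi => ?_, ?_⟩, ?_⟩
      · simp only [List.mem_cons, Multiset.mem_toList] at hi
        rcases hi with rfl | hi
        · omega
        · exact l.parts_pos (Multiset.mem_of_mem_erase hi)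
      · rw [← h2, Multiset.sum_cons] at hs
        rw [List.sum_cons, Multiset.sum_toList]
        omega
      · refine (if_neg fun e => ?_).trans ?_
        · simp only [List.cons.injEq] at e
          have : 3 ∈ (l.parts.erase a).toList := by rw [e.2]; simp
          have := hmax 3 (Multiset.mem_of_mem_erase (Multiset.mem_toList.1 this))
          omega
        · simp only [List.headI_cons, List.tail_cons, Multiset.coe_toList]
          rw [Nat.sub_add_cancel ha0, h2]
  choose g hg using h
  have := Nat.card_le_card_of_injective g fun a b e =>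
    Nat.Partition.ext (by rw [← hg, ← hg, e])
  rwa [Nat.card_eq_fintype_card (α := Composition _), composition_card, Nat.sub_sub] at this

theorem isConj_of_type {n : ℕ} {a b : alternatingGroup (Fin n)} (h : IsConj (a : Perm (Fin n)) b)
    (ht : (∃ k ∈ (a : Perm (Fin n)).cycleType, Even k) ∨ (a : Perm (Fin n)).cycleType.sum + 2 ≤ n) :
    IsConj a b := by
  rcases ht with ⟨k, hk, he⟩ | ht
  · rw [cycleType_def, Multiset.mem_map] at hk
    obtain ⟨c, hc, rfl⟩ := hk
    have hc' : c ∈ (a : Perm (Fin n)).cycleFactorsFinset := hc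
    refine isConj_of_odd_commute h (w := c) ?_ (self_mem_cycle_factors_commute hc')
    rw [mem_alternatingGroup, (mem_cycleFactorsFinset_iff.1 hc').1.sign]
    rw [Function.comp_apply] at he
    rw [he.neg_one_pow]
    decide
  · rw [sum_cycleType] at ht
    have h1 : 1 < ((a : Perm (Fin n)).supportᶜ).card := by
      rw [Finset.card_compl, Fintype.card_fin]; omega
    obtain ⟨x, hx, y, hy, hxy⟩ := Finset.one_lt_card.1 h1
    rw [Finset.mem_compl, notMem_support] at hx hy
    refine isConj_of_odd_commute h (w := swap x y) ?_ ?_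
    · rw [mem_alternatingGroup, sign_swap hxy]; decide
    · rw [mul_swap_eq_swap_mul, hx, hy]

theorem isConj_of_not {n : ℕ} {a b c : alternatingGroup (Fin n)}
    (hb : IsConj (a : Perm (Fin n)) b) (hc : IsConj (a : Perm (Fin n)) c) (h1 : ¬ IsConj a b)
    (h2 : ¬ IsConj a c) : IsConj b c := by
  obtain ⟨x, hx⟩ := isConj_iff.1 hb
  obtain ⟨y, hy⟩ := isConj_iff.1 hc
  have hx' : sign x = -1 := (Int.units_eq_one_or _).resolve_left fun e =>
    h1 (isConj_iff.2 ⟨⟨x, e⟩, Subtype.ext hx⟩)
  have hy' : sign y = -1 := (Int.units_eq_one_or _).resolve_left fun e =>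
    h2 (isConj_iff.2 ⟨⟨y, e⟩, Subtype.ext hy⟩)
  refine isConj_iff.2 ⟨⟨y * x⁻¹, by simp [mem_alternatingGroup, hx', hy']⟩, Subtype.ext ?_⟩
  change y * x⁻¹ * b * (y * x⁻¹)⁻¹ = c
  rw [← hx, ← hy]; group

theorem cons_inj {a b : ℕ} {s t : Multiset ℕ} (ha : Even a) (hb : Even b) (ht : ∀ k ∈ t, ¬ Even k)
    (e : a ::ₘ s = b ::ₘ t) : a = b ∧ s = t := by
  have h1 : a ∈ b ::ₘ t := e ▸ Multiset.mem_cons_self a s
  have h2 : a = b := (Multiset.mem_cons.1 h1).resolve_right fun h => ht a h ha
  subst h2
  exact ⟨rfl, (Multiset.cons_inj_right a).1 e⟩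

theorem sign_eq {n : ℕ} {g : Perm (Fin n)} {a : ℕ} {s : Multiset ℕ} (ha : Even a)
    (hs : ∀ k ∈ s, ¬ Even k) (e : g.cycleType = a ::ₘ s) : sign g = -1 := by
  rw [sign_of_cycleType, e]
  refine Odd.neg_one_pow ?_
  have h : Even (s.sum + s.card) := by
    clear e
    induction s using Multiset.induction_on with
    | empty => simp
    | cons k s ih =>
      have h1 := ih fun j hj => hs j (Multiset.mem_cons_of_mem hj)
      have h2 := hs k (Multiset.mem_cons_self k s)
      rw [Multiset.sum_cons, Multiset.card_cons]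
      rw [Nat.even_iff] at *
      omega
  rw [Multiset.sum_cons, Multiset.card_cons, Nat.odd_iff]
  rw [Nat.even_iff] at ha h
  omega

theorem card_lt {n : ℕ} (hn : 5 ≤ n) : Nat.card (ConjClasses (alternatingGroup (Fin n))) <
    Nat.card (ConjClasses (Perm (Fin n))) := by
  classical
  -- a base element for every cycle type
  let ty : alternatingGroup (Fin n) → Multiset ℕ := fun a => (a : Perm (Fin n)).cycleType
  let base : alternatingGroup (Fin n) → alternatingGroup (Fin n) := fun a => Function.invFun ty (ty a)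
  have hbase : ∀ a, ty (base a) = ty a := fun a => Function.invFun_eq ⟨a, rfl⟩
  have hconj : ∀ a, IsConj (base a : Perm (Fin n)) a := fun a => isConj_iff_cycleType_eq.2 (hbase a)
  have h : ∀ a : alternatingGroup (Fin n), ∃ g : Perm (Fin n), (IsConj (base a) a ∧ g = a) ∨
      (¬ IsConj (base a) a ∧ ∃ k s, Even k ∧ (∀ j ∈ s, ¬ Even j) ∧ n ≤ k + s.sum + 2 ∧
        ty a = (k + 1) ::ₘ s ∧ g.cycleType = k ::ₘ s) := by
    intro a
    by_cases h1 : IsConj (base a) a
    · exact ⟨a, Or.inl ⟨h1, rfl⟩⟩
    have h2 := mt (isConj_of_type (hconj a)) h1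
    rw [show (base a : Perm (Fin n)).cycleType = ty a from hbase a] at h2
    push Not at h2
    obtain ⟨k, hk⟩ : ∃ k, k ∈ ty a := Multiset.exists_mem_of_ne_zero fun e => by
      have := h2.2; rw [e] at this; simp at this; omega
    have h3 := two_le_of_mem_cycleType hk
    have h4 := h2.1 k hk
    rw [Nat.even_iff] at h4
    have h5 := Multiset.cons_erase hk
    have h6 : k + ((ty a).erase k).sum = (ty a).sum := by rw [← Multiset.sum_cons, h5]
    have h7 : (ty a).sum ≤ n := by simpa using sum_cycleType_le (a : Perm (Fin n))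
    obtain ⟨g, hg⟩ := (exists_with_cycleType_iff (Fin n) (m := (k - 1) ::ₘ (ty a).erase k)).2
      ⟨by rw [Multiset.sum_cons, Fintype.card_fin]; omega, fun j hj => by
        rcases Multiset.mem_cons.1 hj with rfl | hj
        · omega
        · exact two_le_of_mem_cycleType (Multiset.mem_of_mem_erase hj)⟩
    refine ⟨g, Or.inr ⟨h1, k - 1, _, by rw [Nat.even_iff]; omega,
      fun j hj => h2.1 j (Multiset.mem_of_mem_erase hj), by omega, ?_, hg⟩⟩
    rw [Nat.sub_add_cancel (by omega), h5]
  choose g hg using h
  have hinj : ∀ a b, IsConj (g a) (g b) → IsConj a b := by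
    intro a b e
    have e' := isConj_iff_cycleType_eq.1 e
    rcases hg a with ⟨h1, h2⟩ | ⟨h1, k, s, h2, h3, -, h4, h5⟩ <;>
      rcases hg b with ⟨h1', h2'⟩ | ⟨h1', k', s', h2', h3', -, h4', h5'⟩
    · rw [h2, h2'] at e'
      have : base a = base b := congrArg (Function.invFun ty) e'
      exact h1.symm.trans (this ▸ h1')
    · have := sign_eq h2' h3' (e'.trans h5')
      rw [h2, a.2] at this
      exact absurd this (by decide)
    · have := sign_eq h2 h3 (e'.symm.trans h5)
      rw [h2', b.2] at this
      exact absurd this (by decide)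
    · obtain ⟨rfl, rfl⟩ := cons_inj h2 h2' h3' (h5.symm.trans (e'.trans h5'))
      have : base a = base b := congrArg (Function.invFun ty) (h4.trans h4'.symm)
      exact isConj_of_not (hconj a) (this ▸ hconj b) h1 (this ▸ h1')
  have := Fintype.ofFinite (ConjClasses (alternatingGroup (Fin n)))
  have := Fintype.ofFinite (ConjClasses (Perm (Fin n)))
  rw [Nat.card_eq_fintype_card, Nat.card_eq_fintype_card]
  refine Fintype.card_lt_of_injective_not_surjective (fun C => ConjClasses.mk (g C.out))
    (fun C D e => ?_) fun hs => ?_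
  · rw [← Quotient.out_eq C, ← Quotient.out_eq D]
    exact ConjClasses.mk_eq_mk_iff_isConj.2 (hinj _ _ (ConjClasses.mk_eq_mk_iff_isConj.1 e))
  · obtain ⟨t, ht⟩ := (exists_with_cycleType_iff (Fin n) (m := 2 ::ₘ 0)).2
      ⟨by simp; omega, by simp⟩
    obtain ⟨C, hC⟩ := hs (ConjClasses.mk t)
    have e := (isConj_iff_cycleType_eq.1 (ConjClasses.mk_eq_mk_iff_isConj.1 hC)).trans ht
    rcases hg C.out with ⟨-, h2⟩ | ⟨-, k, s, h2, h3, h4, -, h5⟩
    · have := sign_eq even_two (by simp) e
      rw [h2, C.out.2] at this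
      exact absurd this (by decide)
    · obtain ⟨rfl, rfl⟩ := cons_inj h2 even_two (by simp) (h5.symm.trans e)
      simp at h4
      omega

/-- For n ≥ 5 the alternating group of degree n has strictly fewer conjugacy classes than the symmetric group of degree n, and the symmetric group of degree n (whose classes correspond to the partitions of n) has at most 2^(n−2) conjugacy classes. -/
theorem result (n : ℕ) (hn : 5 ≤ n) : Nat.card (ConjClasses (alternatingGroup (Fin n))) < Nat.card (ConjClasses (Equiv.Perm (Fin n))) ∧ Nat.card (ConjClasses (Equiv.Perm (Fin n))) ≤ 2 ^ (n - 2) := by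
  refine ⟨card_lt hn, le_trans ?_ (card_partition_le hn)⟩
  rw [← congrArg (fun k => Nat.card (Nat.Partition k)) (Fintype.card_fin n)]
  refine Nat.card_le_card_of_injective (fun C => C.out.partition) fun C D e => ?_
  rw [← Quotient.out_eq C, ← Quotient.out_eq D]
  exact ConjClasses.mk_eq_mk_iff_isConj.2 (partition_eq_of_isConj.2 e)

end Cfsg.Agent.S4198
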