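import Mathlib
-- Template for statement S1480 (row 1480; see /opt/grader/pristine/manifest.json for weights).
-- Copy to Cfsg/Agent/S1480.lean and replace the sorry. The statement below is byte-identical to the frozen
-- statement Cfsg.CfsgFrozen.S1480 (Cfsg/Statements/S1480.lean; the theorem Cfsg.transitivity_theorem_p_constrained_locals);
-- the grader kernel-checks Cfsg.Agent.S1480.result against that frozen type. Keep the theorem IN THIS FILE
-- (a `result` declared elsewhere and merely imported here is not credited); helpers may live anywhere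
-- under Cfsg/Agent/.
import Cfsg.Statements.S1480
import Cfsg.Agent.Lib.TB.Trans

set_option autoImplicit false
open Cfsg

namespace Cfsg.Agent.S1480

/-- Let G be a finite group and p a prime such that the normalizer of every nontrivial p-subgroup of G is p-constrained; if p = 2 assume also that the Sylow 2-subgroups of G have nilpotency class at most 2. Let E be an abelian p-subgroup containing an elementary abelian subgroup of order p ^ 3 and containing every element of p-power order of C_G(E). Then for every prime q ≠ p, any two maximal E-invariant q-subgroups of G are conjugate by an element of O_{p'}(C_G(E)). -/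
theorem result {G : Type*} [Group G] [Finite G] (p : ℕ) [Fact p.Prime]
    (hloc : ∀ T : Subgroup G, IsPGroup p T → T ≠ ⊥ → Cfsg.IsPConstrained p ↥(Subgroup.normalizer (T : Set G)))
    (h2 : p = 2 → ∀ S : Sylow p G, Group.IsNilpotent (S : Subgroup G) ∧ Group.nilpotencyClass (S : Subgroup G) ≤ 2)
    (E : Subgroup G) (hEp : IsPGroup p E) (hEc : IsMulCommutative E) (hE3 : ¬ Cfsg.PRankLE p 2 E)
    (hEfull : ∀ x ∈ Subgroup.centralizer (E : Set G), IsPGroup p (Subgroup.zpowers x) → x ∈ E)
    (q : ℕ) [Fact q.Prime] (hqp : q ≠ p) :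
    ∀ Q₁ ∈ Cfsg.maxInvSubgroups ⊤ E {q}, ∀ Q₂ ∈ Cfsg.maxInvSubgroups ⊤ E {q},
        ∃ k ∈ Cfsg.piCoreOf (Cfsg.primesNotDvd p) (Subgroup.centralizer (E : Set G)), Q₂ = Q₁.map (MulAut.conj k).toMonoidHom := by
  intro Q₁ h₁ Q₂ h₂
  have hp : p.Prime := Fact.out
  unfold Cfsg.PRankLE at hE3
  push Not at hE3
  obtain ⟨A, -, hA, h3⟩ := hE3
  rw [CfsgLib.BG.pcore_congr (ρ := {p}ᶜ) fun r hr => by
    rw [CfsgLib.BG.mem_primesNotDvd, Nat.prime_dvd_prime_iff_eq hr hp]; simp [hr]]
  refine CfsgLib.TB.transitivity hp Fact.out hqp (fun h S hS => ?_) hEp hEc (E₀ := A.map E.subtype)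
    (Subgroup.map_subtype_le _) ?_ (by rwa [Subgroup.card_map_of_injective E.subtype_injective])
    (fun x hx k hk => hEfull x hx ?_) (fun b hb hb1 => ⟨_, ?_, hloc (Subgroup.zpowers b) ?_ (by simpa using hb1)⟩)
    h₁ h₂
  · obtain ⟨T, hT⟩ := hS.exists_le_sylow
    obtain ⟨h1, h1'⟩ := h2 h T
    have h4 := CfsgLib.Core.nilpotencyClass_le_two_iff.mp h1'
    rw [CfsgLib.BG.commG1]
    refine (CfsgLib.BG.dergS hT).trans (le_trans ?_ (CfsgLib.BG.centS hT))
    rw [← Subgroup.map_subtype_commutator]
    refine (Subgroup.map_mono h4).trans ?_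
    rw [← CfsgLib.BG.centerOf_eq_map]
    exact CfsgLib.BG.centerOf_le_cent _
  · rintro _ ⟨a, ha, rfl⟩
    exact congrArg Subtype.val (hA a ha)
  · exact CfsgLib.Core.isPGroup_subgroup_iff.mpr fun y hy => by
      obtain ⟨n, rfl⟩ := Subgroup.mem_zpowers_iff.mp hy
      exact ⟨k, by rw [← zpow_natCast, ← zpow_mul, mul_comm, zpow_mul, zpow_natCast, hk, one_zpow]⟩
  · rw [← CfsgLib.BG.cent_zpowers]
    exact CfsgLib.BG.cent_sub _
  · exact hEp.to_le (Subgroup.zpowers_le.mpr (Subgroup.map_subtype_le _ hb))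

end Cfsg.Agent.S1480
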