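import Mathlib
import Cfsg.Statements.S4447
import Cfsg.Agent.Lib.Glaub.Ext

set_option autoImplicit false
open Cfsg

namespace Cfsg.Agent.S4447

open CfsgLib.Glaub CfsgLib.Char

theorem le_normalizer_of_conj {Γ : Type*} [Group Γ] {S G : Subgroup Γ}
    (hnorm : ∀ s ∈ S, ∀ g ∈ G, s * g * s⁻¹ ∈ G) : S ≤ Subgroup.normalizer (G : Set Γ) := by
  intro s hs
  rw [Subgroup.mem_normalizer_iff]
  intro g
  refine ⟨hnorm s hs g, fun h => ?_⟩
  have := hnorm s⁻¹ (S.inv_mem hs) _ h
  simpa [mul_assoc] using this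


/-- Inside a finite group Γ let S normalise G and also normalise a normal subgroup N of G, with the order of S coprime to the index of N in G and S or G/N solvable. Then for every S-invariant irreducible character χ of G, the restriction of χ to N has an S-invariant irreducible constituent. -/
theorem result {Γ : Type*} [Group Γ] [Fintype Γ] (G S N : Subgroup Γ) [Fintype G] [Fintype N] (hnorm : ∀ s ∈ S, ∀ g ∈ G, s * g * s⁻¹ ∈ G) (hNG : N ≤ G) [hNn : (N.subgroupOf G).Normal] (hNS : ∀ s ∈ S, ∀ n ∈ N, s * n * s⁻¹ ∈ N) (hcop : (N.relIndex G).Coprime (Nat.card S)) (hsolv : Group.IsSolvable S ∨ Group.IsSolvable (G ⧸ N.subgroupOf G)) (χ : Cfsg.IrrCharacter G) (hinv : (∀ s ∈ S, ∀ g g' : G, (g' : Γ) = s * g * s⁻¹ → (χ : G → ℂ) g' = (χ : G → ℂ) g)) : ∃ θ : Cfsg.IrrCharacter N, Cfsg.classInner (fun n : N => (χ : G → ℂ) ⟨n, hNG n.2⟩) (θ : N → ℂ) ≠ 0 ∧ (∀ s ∈ S, ∀ g g' : N, (g' : Γ) = s * g * s⁻¹ → (θ : N → ℂ) g' = (θ : N → ℂ) g) := by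
  classical
  let L : Subgroup Γ := Subgroup.normalizer (N : Set Γ)
  have hL : ∀ s ∈ L, ∀ n ∈ N, s * n * s⁻¹ ∈ N := fun s hs n hn =>
    (Subgroup.mem_normalizer_iff.mp hs n).mp hn
  have hGL : G ≤ L := le_normalizer_of_conj fun g hg n hn =>
    hNn.conj_mem ⟨n, hNG hn⟩ hn ⟨g, hg⟩
  have hSL : S ≤ L := le_normalizer_of_conj hNS
  have hNL : N ≤ L := hNG.trans hGL
  have hrn : (Subgroup.inclusion hNG).range.Normal := by rwa [Subgroup.inclusion_range]
  let _ := irrAct (conjAut L N hL)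
  have hsm : ∀ (x : L) (θ : IrrCharacter N) (n : N),
      ((x • θ : IrrCharacter N) : N → ℂ) n = (θ : N → ℂ) (conjAut L N hL x⁻¹ n) := fun _ _ _ => rfl
  have hmultG : ∀ (x : L), (x : Γ) ∈ G → ∀ θ : IrrCharacter N,
      mult (Subgroup.inclusion hNG) χ (x • θ : IrrCharacter N) =
        mult (Subgroup.inclusion hNG) χ θ := by
    intro x hx θ
    have := mult_comp_aut (Subgroup.inclusion hNG) (MulAut.conj (⟨x, hx⟩ : G)⁻¹)
      (conjAut L N hL x⁻¹) (fun _ => Subtype.ext rfl) χ θ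
    rw [← this]
    congr 1
    funext g
    exact (irr_isClassFunction χ g _).symm
  have hmultS : ∀ (x : L), (x : Γ) ∈ S → ∀ θ : IrrCharacter N,
      mult (Subgroup.inclusion hNG) χ (x • θ : IrrCharacter N) =
        mult (Subgroup.inclusion hNG) χ θ := by
    intro x hx θ
    have := mult_comp_aut (Subgroup.inclusion hNG) (conjAut S G hnorm (⟨x, hx⟩ : S)⁻¹)
      (conjAut L N hL x⁻¹) (fun _ => Subtype.ext rfl) χ θ
    rw [← this]
    congr 1
    funext g
    exact ((inv_conjAut_iff S G hnorm _).mpr hinv _ g).symm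
  obtain ⟨θ, hθ, h0⟩ := exists_irr_under (Subgroup.inclusion hNG) χ.2
  obtain ⟨k, hk, h⟩ := exists_fixed_rel (K := G.subgroupOf L) (A := S.subgroupOf L)
    (N.subgroupOf L) (le_normalizer_of_conj fun s hs g hg => hnorm s hs g hg)
    (by
      rw [Subgroup.relIndex_subgroupOf hGL, Nat.card_congr (Subgroup.subgroupOfEquivOfLe hSL).toEquiv]
      exact hcop.symm)
    (by
      rcases hsolv with hs | hs
      · exact Or.inl (Group.isSolvable_of_surjective
          (f := (Subgroup.subgroupOfEquivOfLe hSL).symm.toMonoidHom)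
          (Subgroup.subgroupOfEquivOfLe hSL).symm.surjective)
      · refine Or.inr (Group.isSolvable_of_surjective (f := QuotientGroup.map (N.subgroupOf G)
          ((N.subgroupOf L).subgroupOf (G.subgroupOf L))
          (Subgroup.subgroupOfEquivOfLe hGL).symm.toMonoidHom (fun x hx => hx)) ?_)
        intro q
        induction q using QuotientGroup.induction_on with
        | H g => exact ⟨(Subgroup.subgroupOfEquivOfLe hGL g : G), rfl⟩)
    (⟨θ, hθ⟩ : IrrCharacter N)
    (by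
      intro n hn
      refine Subtype.ext (funext fun m => ?_)
      rw [hsm]
      exact isClassFunction_of_isIrr hθ m (⟨n, hn⟩ : N)⁻¹)
    (by
      intro a ha
      obtain ⟨g, hg⟩ := clifford_hom (Subgroup.inclusion hNG) (Subgroup.inclusion_injective hNG)
        χ.2 hθ (a • (⟨θ, hθ⟩ : IrrCharacter N)).2 h0 (by rw [hmultS a ha]; exact h0)
      refine ⟨⟨g⁻¹, hGL (G.inv_mem g.2)⟩, G.inv_mem g.2, Subtype.ext (funext fun m => ?_)⟩
      rw [hsm (⟨g⁻¹, hGL (G.inv_mem g.2)⟩ : L)]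
      apply hg
      apply Subtype.ext
      change ((g : Γ)⁻¹)⁻¹ * m * (((g : Γ)⁻¹)⁻¹)⁻¹ = g * m * (g : Γ)⁻¹
      rw [inv_inv])
  refine ⟨k • (⟨θ, hθ⟩ : IrrCharacter N), ?_, ?_⟩
  · have h1 := hmultG k hk ⟨θ, hθ⟩
    exact (mult_ne_zero_iff (Subgroup.inclusion hNG) (irr_isCharacter χ) (irr_isCharacter _)).mp
      (by rw [h1]; exact h0)
  · intro s hs g g' hg
    have h1 := congrFun (congrArg Subtype.val (h ⟨s, hSL hs⟩⁻¹ (S.inv_mem hs))) g
    rw [hsm, inv_inv] at h1
    rw [← h1]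
    exact congrArg _ (Subtype.ext hg)

end Cfsg.Agent.S4447
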