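import Cfsg.Statements.S2912
import Mathlib
import Cfsg.Agent.Lib.PGroup.Extraspecial
import Cfsg.Agent.Lib.Coprime.Abelian
import Cfsg.Agent.Lib.Core.MinNormal
import Cfsg.Agent.Lib.Frob.Complement

set_option autoImplicit false
open Cfsg

namespace Cfsg.Agent.S2912

open Subgroup CfsgLib
open scoped commutatorElement

theorem dim {E K W : Type*} [Group E] [Finite E] [Field K] [AddCommGroup W] [Module K W]
    [Module.Finite K W] [Nontrivial W] (ρ : E →* Module.End K W)
    (hc : ∀ x y : E, ⁅x, y⁆ ∈ center E) (h : ∀ z ∈ center E, ∃ a : K, ρ z = algebraMap K _ a)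
    (hf : ∀ z ∈ center E, ρ z = 1 → z = 1) : (center E).index ≤ Module.finrank K W ^ 2 := by
  classical
  have := Fintype.ofFinite (E ⧸ center E)
  choose l hl using h
  have inj := (algebraMap K (Module.End K W)).injective
  let χ : E → E →* K := fun g =>
    { toFun := fun x => l _ (hc x g)
      map_one' := inj (by rw [← hl, commutatorElement_one_left, map_one, map_one])
      map_mul' := fun x y => inj (by
        rw [map_mul, ← hl, ← hl, ← hl, ← map_mul]
        congr 1
        calc ⁅x * y, g⁆ = x * ⁅y, g⁆ * x⁻¹ * ⁅x, g⁆ := by simp only [commutatorElement_def]; group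
          _ = ⁅x, g⁆ * ⁅y, g⁆ := by
            rw [mem_center_iff.1 (hc y g) x, mul_inv_cancel_right, mem_center_iff.1 (hc y g)]) }
  have hχ : Function.Injective fun q : E ⧸ center E => χ q.out := fun a b e => by
    rw [← a.out_eq', ← b.out_eq', QuotientGroup.eq]
    refine mem_center_iff.2 fun x => ?_
    have e1 : ρ ⁅x, a.out⁆ = ρ ⁅x, b.out⁆ := by
      rw [hl _ (hc _ _), hl _ (hc _ _)]; exact congrArg _ (DFunLike.congr_fun e x)
    have e2 := hf _ (mul_mem (inv_mem (hc x a.out)) (hc x b.out)) (by
      rw [map_mul, ← e1, ← map_mul, inv_mul_cancel, map_one])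
    calc x * (a.out⁻¹ * b.out) = a.out⁻¹ * (⁅x, a.out⁆⁻¹ * ⁅x, b.out⁆) * b.out * x := by
          simp only [commutatorElement_def]; group
      _ = _ := by rw [e2, mul_one]
  have li : LinearIndependent K fun q : E ⧸ center E => ρ q.out := by
    refine Fintype.linearIndependent_iff.2 fun c hc0 q => ?_
    have key : ∀ φ : Module.Dual K (Module.End K W), c q * φ (ρ q.out) = 0 := fun φ => by
      refine Fintype.linearIndependent_iff.1 ((linearIndependent_monoidHom E K).comp _ hχ)
        (fun q => c q * φ (ρ q.out)) (funext fun x => ?_) q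
      have h1 := congrArg (fun f => φ (ρ x * f * ρ x⁻¹)) hc0
      simp only [Finset.mul_sum, Finset.sum_mul, map_sum, mul_zero, zero_mul, map_zero] at h1
      rw [Finset.sum_apply, Pi.zero_apply, ← h1]
      refine Finset.sum_congr rfl fun a _ => ?_
      rw [mul_smul_comm, smul_mul_assoc, ← map_mul, ← map_mul,
        show x * a.out * x⁻¹ = ⁅x, a.out⁆ * a.out by rw [commutatorElement_def]; group, map_mul,
        hl _ (hc _ _), ← Algebra.smul_def, map_smul, map_smul]
      change c a * φ _ * l _ (hc x a.out) = c a * (l _ (hc x a.out) * φ _)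
      ring
    by_contra h0
    have : ρ q.out = 0 := (Module.forall_dual_apply_eq_zero_iff K _).1 fun φ =>
      (mul_eq_zero.1 (key φ)).resolve_left h0
    exact ((Group.isUnit q.out).map ρ).ne_zero this
  have := li.fintype_card_le_finrank
  rwa [Module.finrank_linearMap, ← Nat.card_eq_fintype_card, ← pow_two] at this


/-- Let p and r be distinct primes, let E be an extraspecial subgroup of order p^(2w+1) of a finite group, and let A be an elementary abelian r-subgroup normalized by E on which E acts faithfully (C_E(A) = 1). If n ≥ 1 is least with p dividing rⁿ − 1 (the smallest dimension of a faithful representation of a group of order p over the field with r elements), then the order of A is at least r^(n·p^w). -/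
theorem result {G : Type*} [Group G] [Finite G] {p r : ℕ} [Fact p.Prime] [hr : Fact r.Prime] (hpr : p ≠ r) (E A : Subgroup G) (w : ℕ) (hE : Cfsg.IsExtraspecial p ↥E) (hEcard : Nat.card ↥E = p ^ (2 * w + 1)) (hA : Cfsg.IsElementaryAbelian r A) (hnorm : E ≤ Subgroup.normalizer (A : Set G)) (hfaith : E ⊓ Subgroup.centralizer (A : Set G) = ⊥) (n : ℕ) (hn : 1 ≤ n) (hdiv : p ∣ r ^ n - 1) (hmin : ∀ k : ℕ, 1 ≤ k → p ∣ r ^ k - 1 → n ≤ k) : r ^ (n * p ^ w) ≤ Nat.card ↥A := by
  classical
  have hp : p.Prime := Fact.out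
  obtain ⟨z, oz, hz⟩ := PGroup.IsExtraspecial.exists_center_eq_zpowers hE
  have := hA.1
  have hAr := Core.isElementaryAbelian_isPGroup hA
  have hZE : zpowers (z : G) ≤ E := zpowers_le.2 z.2
  have zc : ∀ g ∈ E, g * z = z * g := fun g hg =>
    congrArg Subtype.val (mem_center_iff.1 (hz.ge (mem_zpowers z)) ⟨g, hg⟩)
  have z1 : z ≠ 1 := fun e => by rw [e, orderOf_one] at oz; exact hp.one_lt.ne oz
  have hcop : (Nat.card (zpowers (z : G))).Coprime (Nat.card A) := by
    rw [Nat.card_zpowers, Subgroup.orderOf_coe, oz]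
    exact Coprime.coprime_card_of_isPGroup hAr ((Nat.coprime_primes hp hr.out).2 hpr)
  have h0 := Coprime.centralizer_inf_commutator_eq_bot (hZE.trans hnorm) hcop
  obtain ⟨W, hW, hW0, hWK, hmin'⟩ := Core.exists_minimal_normalized_le (A := E)
    (K := ⁅A, zpowers (z : G)⁆) (Coprime.le_normalizer_commutator hnorm ((le_centralizer_iff.1
      (zpowers_le.2 zc)).trans (centralizer_le_normalizer _))) fun e => z1 (Subtype.ext (mem_bot.1
        (hfaith.le ⟨z.2, le_centralizer_iff.1 (commutator_eq_bot_iff_le_centralizer.1 e)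
          (mem_zpowers _)⟩)))
  have hWA : W ≤ A := hWK.trans (Coprime.commutator_le_of_le_normalizer (hZE.trans hnorm))
  letI : CommGroup W := { (inferInstance : Group W) with
    mul_comm := fun a b => Subtype.ext (setLike_mul_comm (s := A) (hWA a.2) (hWA b.2)) }
  have : Nontrivial W := (nontrivial_iff_ne_bot W).2 hW0
  let φ : E →* MulAut W := W.normalizerMonoidHom.comp (inclusion hW)
  let ρ₀ : E →* Module.End ℤ (Additive W) :=
    { toFun := fun g => (MonoidHom.toAdditive (φ g).toMonoidHom).toIntLinearMap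
      map_one' := by ext x; rw [map_one]; rfl
      map_mul' := fun a b => by ext x; rw [map_mul]; rfl }
  have cz : ∀ g, Commute (ρ₀ g) (ρ₀ z) := fun g =>
    Commute.map (Subtype.ext (zc g g.2) : g * z = z * g) ρ₀
  let K := Algebra.adjoin ℤ {ρ₀ z}
  have cK : ∀ g, ∀ f : K, Commute (ρ₀ g) f := fun g f =>
    Algebra.commute_of_mem_adjoin_singleton_of_commute f.2 (cz g)
  have injK : ∀ f : K, f ≠ 0 → Function.Injective (f : Module.End ℤ (Additive W)) := fun f hf => by
    let M : Subgroup W := (MonoidHom.toAdditive.symm (f : Module.End ℤ (Additive W)).toAddMonoidHom).ker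
    have hM : E ≤ normalizer ((M.map W.subtype : Subgroup G) : Set G) := fun g hg =>
      Coprime.mem_normalizer_iff_conj_smul_eq.2 (eq_of_le_of_card_ge (Coprime.conj_smul_le_iff.2 (by
        rintro _ ⟨x, hx, rfl⟩
        refine ⟨φ ⟨g, hg⟩ x, ?_, rfl⟩
        have h1 := LinearMap.congr_fun (cK ⟨g, hg⟩ f) (Additive.ofMul x)
        have h2 : (f : Module.End ℤ (Additive W)) (Additive.ofMul x) = 0 := hx
        rw [Module.End.mul_apply, h2, map_zero] at h1
        exact h1.symm)) (Coprime.card_conj_smul g _).ge)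
    rcases hmin' _ hM (map_subtype_le M) with e | e
    · rw [map_eq_bot_iff_of_injective _ W.subtype_injective] at e
      exact (injective_iff_map_eq_zero _).2 fun x hx => mem_bot.1 (e.le (x := Additive.toMul x) hx)
    · refine absurd (Subtype.ext (LinearMap.ext fun x => ?_)) hf
      obtain ⟨y, hy, e'⟩ := e.ge (Additive.toMul x).2
      rw [show y = Additive.toMul x from Subtype.ext e'] at hy
      exact hy
  have : Finite (Module.End ℤ (Additive W)) := Finite.of_injective _ DFunLike.coe_injective
  have : NoZeroDivisors K := ⟨fun {a b} hab => or_iff_not_imp_left.2 fun ha =>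
    Subtype.ext (LinearMap.ext fun x => injK a ha 
      ((LinearMap.congr_fun (congrArg Subtype.val hab) x).trans (map_zero _).symm))⟩
  have : IsDomain K := NoZeroDivisors.to_isDomain K
  letI : Field K := (Finite.isField_of_domain K).toField
  let ρ : E →* Module.End K (Additive W) :=
    { toFun := fun g => ⟨(ρ₀ g).toAddHom, fun f x => LinearMap.congr_fun (cK g f) x⟩
      map_one' := LinearMap.ext fun x => LinearMap.congr_fun (map_one ρ₀) x
      map_mul' := fun a b => LinearMap.ext fun x => LinearMap.congr_fun (map_mul ρ₀ a b) x }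
  let T : K := ⟨ρ₀ z, Algebra.self_mem_adjoin_singleton ℤ _⟩
  have nat : ∀ y ∈ center E, ∃ k : ℕ, z ^ k = y := fun y hy => mem_powers_iff_mem_zpowers.2 (hz.le hy)
  have hf : ∀ y ∈ center E, ρ y = 1 → y = 1 := fun y hy e => by
    by_contra y1
    obtain ⟨k, hk⟩ := (mem_powers_iff_mem_zpowers.2 (Frob.mem_zpowers_of_mem_of_prime (oz ▸ hp)
      (hz.le hy) y1) : ∃ k : ℕ, y ^ k = z)
    have e' : ρ z = 1 := by rw [← hk, map_pow, e, one_pow]
    refine hW0 (le_bot_iff.1 (h0.le.trans' (le_inf (le_centralizer_iff.1 (zpowers_le.2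
      fun x hx => ?_)) hWK)))
    have : (z : G) * x * (z : G)⁻¹ = x := congrArg (fun v => ((Additive.toMul v : W) : G))
      (LinearMap.congr_fun e' (Additive.ofMul ⟨x, hx⟩))
    exact (mul_inv_eq_iff_eq_mul.1 this).symm
  have hT : ρ z = algebraMap K _ T := rfl
  have h1 := dim ρ (PGroup.IsExtraspecial.commutatorElement_mem_center hE) (fun y hy => by
    obtain ⟨k, rfl⟩ := nat y hy
    exact ⟨T ^ k, by rw [map_pow, map_pow, hT]⟩) hf
  have h2 : (center E).index = (p ^ w) ^ 2 := by
    have := (center E).card_mul_index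
    rw [hE.2, hEcard, pow_succ'] at this
    rw [← pow_mul, mul_comm w]
    exact Nat.eq_of_mul_eq_mul_left hp.pos this
  rw [h2, Nat.pow_le_pow_iff_left two_ne_zero] at h1
  have h3 : Nat.card W = Nat.card K ^ Module.finrank K (Additive W) :=
    Module.natCard_eq_pow_finrank (K := K) (V := Additive W)
  obtain ⟨k, hk⟩ := (hAr.to_le hWA).exists_card_eq
  obtain ⟨m, -, hm⟩ := (Nat.dvd_prime_pow hr.out).1 ((dvd_pow_self _
    ((pow_pos hp.pos w).trans_le h1).ne').trans (h3.symm.trans hk).dvd)
  have oT : orderOf T = p := orderOf_eq_prime (by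
      apply (algebraMap K (Module.End K (Additive W))).injective
      rw [map_pow, ← hT, ← map_pow, ← oz, pow_orderOf_eq_one, map_one, map_one])
    fun e => z1 (hf z (hz.ge (mem_zpowers z)) (by rw [hT, e, map_one]))
  have T0 : T ≠ 0 := fun e => by
    have := pow_orderOf_eq_one T
    rw [oT, e, zero_pow hp.ne_zero] at this
    exact zero_ne_one this
  have h4 : p ∣ r ^ m - 1 := by
    rw [← hm, ← Nat.card_units, ← oT, ← Units.val_mk0 T0, orderOf_units]
    exact orderOf_dvd_natCard _
  have h5 : 1 ≤ m := Nat.pos_of_ne_zero fun e => by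
    rw [e, pow_zero] at hm
    exact (Finite.one_lt_card (α := K)).ne' hm
  refine le_trans ?_ (card_le_of_le hWA)
  rw [h3, hm, ← pow_mul]
  exact Nat.pow_le_pow_right hr.out.pos (Nat.mul_le_mul (hmin m h5 h4) h1)

end Cfsg.Agent.S2912
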