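import Mathlib
import Cfsg.Statements.S3087

set_option autoImplicit false
open Cfsg

namespace Cfsg.Agent.S3087

theorem card_mul_card_le {V : Type*} [AddCommGroup V] [Finite V] (X Y : AddSubgroup V) :
    Nat.card X * Nat.card Y = Nat.card ↥(X ⊓ Y) * Nat.card ↥(X ⊔ Y) := by
  have h1 := AddSubgroup.relIndex_mul_relIndex ⊥ (X ⊓ Y) X bot_le inf_le_left
  have h2 := AddSubgroup.relIndex_mul_relIndex ⊥ Y (X ⊔ Y) bot_le le_sup_right
  rw [AddSubgroup.relIndex_bot_left, AddSubgroup.relIndex_bot_left] at h1 h2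
  rw [AddSubgroup.relIndex_sup_right] at h2
  rw [AddSubgroup.inf_relIndex_left] at h1
  rw [← h1, ← h2]
  ring

/-- Let p be a prime, G a finite group acting linearly on a finite vector space V over the field with p elements, W a G-invariant subspace, and A a subgroup of G with |A|·|C_V(A)| ≥ |B|·|C_V(B)| for every subgroup B of A. Then |A|·|C_W(A)| ≥ |B|·|C_W(B)| for every subgroup B of A that contains C_A(W); that is, the image of A in the group induced on W satisfies the same maximality condition. -/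
theorem result {G V : Type*} [Group G] [Finite G] [AddCommGroup V] [Finite V] (p : ℕ) [Fact p.Prime] [Module (ZMod p) V]
    (ρ : Representation (ZMod p) G V) (W : Submodule (ZMod p) V) (hW : ∀ g : G, ∀ w ∈ W, ρ g w ∈ W)
    (A : Subgroup G)
    (hP : ∀ B : Subgroup G, B ≤ A →
      Nat.card ↥B * Nat.card {v : V // ∀ b ∈ B, ρ b v = v} ≤ Nat.card ↥A * Nat.card {v : V // ∀ a ∈ A, ρ a v = v})
    (B : Subgroup G) (hBA : B ≤ A) (hCB : ∀ a ∈ A, (∀ w ∈ W, ρ a w = w) → a ∈ B) :
    Nat.card ↥B * Nat.card {w : W // ∀ b ∈ B, ρ b w = w} ≤ Nat.card ↥A * Nat.card {w : W // ∀ a ∈ A, ρ a w = w} := by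
  let C : Subgroup G → AddSubgroup V := fun H =>
    { carrier := {v | ∀ b ∈ H, ρ b v = v}
      add_mem' := fun {a b} ha hb g hg => by rw [map_add, ha g hg, hb g hg]
      zero_mem' := fun g _ => map_zero _
      neg_mem' := fun {a} ha g hg => by rw [map_neg, ha g hg] }
  have e1 : ∀ H : Subgroup G, Nat.card {v : V // ∀ b ∈ H, ρ b v = v} = Nat.card (C H) :=
    fun H => rfl
  have e2 : ∀ H : Subgroup G, Nat.card {w : W // ∀ b ∈ H, ρ b w = w} =
      Nat.card ↥(W.toAddSubgroup ⊓ C H) := by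
    intro H
    refine Nat.card_congr
      { toFun := fun w => ⟨w.1.1, w.1.2, w.2⟩
        invFun := fun w => ⟨⟨w.1, w.2.1⟩, w.2.2⟩
        left_inv := fun _ => rfl
        right_inv := fun _ => rfl }
  have hanti : C A ≤ C B := fun v hv b hb => hv b (hBA hb)
  have h1 := card_mul_card_le (W.toAddSubgroup ⊓ C B) (C A)
  rw [inf_assoc, inf_eq_right.2 hanti] at h1
  have h2 : Nat.card ↥(W.toAddSubgroup ⊓ C B ⊔ C A) ≤ Nat.card (C B) :=
    AddSubgroup.card_le_of_le (sup_le inf_le_right hanti)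
  have h3 := hP B hBA
  rw [e1, e1] at h3
  rw [e2, e2]
  have hpos : 0 < Nat.card (C A) := Nat.card_pos
  apply Nat.le_of_mul_le_mul_right _ hpos
  calc Nat.card B * Nat.card ↥(W.toAddSubgroup ⊓ C B) * Nat.card (C A)
      = Nat.card B * (Nat.card ↥(W.toAddSubgroup ⊓ C A) * Nat.card ↥(W.toAddSubgroup ⊓ C B ⊔ C A)) := by
        rw [mul_assoc, h1]
    _ ≤ Nat.card B * (Nat.card ↥(W.toAddSubgroup ⊓ C A) * Nat.card (C B)) := by gcongr
    _ = Nat.card ↥(W.toAddSubgroup ⊓ C A) * (Nat.card B * Nat.card (C B)) := by ring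
    _ ≤ Nat.card ↥(W.toAddSubgroup ⊓ C A) * (Nat.card A * Nat.card (C A)) := by gcongr
    _ = _ := by ring

end Cfsg.Agent.S3087
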