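import Cfsg.Statements.S0618
import Cfsg.Agent.Lib.PLocal.FFApply

set_option autoImplicit false
open Cfsg

namespace Cfsg.Agent.S0618

/-- A p-separable group with trivial p'-core in which the Thompson factorization fails has p = 2 or 3, and J(G) induces on the normal closure of Ω₁(Z(S)) a group containing a normal SL(2, p). -/
theorem result {G : Type*} [Group G] [Finite G] {p : ℕ} [Fact p.Prime] (hsep : Cfsg.IsPSolvable p G) (hO : Cfsg.pPrimeCore p G = ⊥) (hnf : ¬ Cfsg.IsThompsonFactorizable p G) : (p = 2 ∨ p = 3) ∧ ∃ E : Subgroup G, Subgroup.centralizer ((⨆ S : Sylow p G, Cfsg.omegaOne p ((S : Subgroup G) ⊓ Subgroup.centralizer ((S : Subgroup G) : Set G))) : Set G) ≤ E ∧ E ≤ Cfsg.thompsonSubgroup p G ⊔ Subgroup.centralizer ((⨆ S : Sylow p G, Cfsg.omegaOne p ((S : Subgroup G) ⊓ Subgroup.centralizer ((S : Subgroup G) : Set G))) : Set G) ∧ Cfsg.thompsonSubgroup p G ⊔ Subgroup.centralizer ((⨆ S : Sylow p G, Cfsg.omegaOne p ((S : Subgroup G) ⊓ Subgroup.centralizer ((S : Subgroup G) : Set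 G))) : Set G) ≤ Subgroup.normalizer (E : Set G) ∧ ∃ hn : ((Subgroup.centralizer ((⨆ S : Sylow p G, Cfsg.omegaOne p ((S : Subgroup G) ⊓ Subgroup.centralizer ((S : Subgroup G) : Set G))) : Set G)).subgroupOf E).Normal, Nonempty ((↥E ⧸ (Subgroup.centralizer ((⨆ S : Sylow p G, Cfsg.omegaOne p ((S : Subgroup G) ⊓ Subgroup.centralizer ((S : Subgroup G) : Set G))) : Set G)).subgroupOf E) ≃* Matrix.SpecialLinearGroup (Fin 2) (ZMod p)) := by
  open Subgroup CfsgLib.PLocal CfsgLib.PLocal.FF CfsgLib.PLocal.Holo in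
  have hC : Subgroup.centralizer ((⨆ S : Sylow p G, Cfsg.omegaOne p ((S : Subgroup G) ⊓
      Subgroup.centralizer ((S : Subgroup G) : Set G))) : Set G) =
      centralizer (omegaClosure p G : Set G) := by
    rw [omegaClosure, iSup_eq_closure, centralizer_closure]
    rfl
  open Subgroup CfsgLib.PLocal CfsgLib.PLocal.FF CfsgLib.PLocal.Holo in
  rw [hC]
  open Subgroup CfsgLib.PLocal CfsgLib.PLocal.FF CfsgLib.PLocal.Holo in
  · have := omegaClosure_normal (p := p) (G := G)
    set V := omegaClosure p G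
    have h := ffHyp_thompson_top (V := V) (elemAb_omegaClosure (PSolv.centralizer_pCore_le hsep hO))
      hsep (pCore_quotient_centralizer_eq_bot omegaClosure_le_iSup)
      fun h => hnf (isThompsonFactorizable_of_le h)
    obtain ⟨E, hE⟩ := h.exists_factor
    obtain ⟨e⟩ := h.nonempty_equiv hE
    refine ⟨h.prime, E.comap (rho V), ?_, ?_, ?_, inferInstance, ⟨?_⟩⟩
    · rw [← ker_rho]
      exact ker_le_comap _ _
    · rw [← ker_rho, ← comap_map_eq]
      exact comap_mono hE.le
    · rw [← ker_rho, ← comap_map_eq]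
      exact (comap_mono (h.le_normalizer hE)).trans (le_normalizer_comap _)
    · have hs : Function.Surjective ((rho V).subgroupComap E) := by
        intro y
        obtain ⟨x, hx⟩ := (hE.le.trans (map_le_range _ _)) y.2
        exact ⟨⟨x, by rw [mem_comap, hx]; exact y.2⟩, Subtype.ext hx⟩
      refine (QuotientGroup.quotientMulEquivOfEq ?_).trans
        ((QuotientGroup.quotientKerEquivOfSurjective _ hs).trans e)
      ext x
      rw [mem_subgroupOf, ← rho_eq_one_iff, MonoidHom.mem_ker, Subtype.ext_iff]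
      rfl

end Cfsg.Agent.S0618
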