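import Mathlib
import Cfsg.Statements.S4735
import Cfsg.Agent.Lib.Cover.Quot
import Cfsg.Agent.Lib.Block.Principal
-- import your own Cfsg.Agent.* helpers here

set_option autoImplicit false
open Cfsg

namespace Cfsg.Agent.S4735

open CfsgLib CfsgLib.Block CfsgLib.Char CfsgLib.Cover

theorem finsum_infl {G : Type*} [Group G] [Finite G] {p : ℕ} {M : Ideal AlgInt} (hM : IsPModular p M)
    {β : Type*} [AddCommMonoid β] (f : IrrCharacter G → β) : ∑ᶠ χ ∈ principalBlock M G, f χ =
      ∑ᶠ ψ ∈ principalBlock M (G ⧸ pPrimeCore p G),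
        f (infl (QuotientGroup.mk' _) (QuotientGroup.mk'_surjective _) ψ) := by
  rw [← finsum_mem_image (infl_injective _ _).injOn]
  congr! 3 with χ
  refine ⟨fun h => ?_, fun ⟨ψ, h, e⟩ => e ▸ sameBlock_infl hM _ _ (χ := irrOne _) h⟩
  obtain ⟨ψ, h1, h2⟩ := exists_infl_eq_of_sameBlock hM (QuotientGroup.mk' (pPrimeCore p G))
    (QuotientGroup.mk'_surjective _) (by simpa using Core.not_dvd_card_pPrimeCore hM.1 G)
    (χ := irrOne _) h
  exact ⟨ψ, h2, h1⟩

theorem exists_nat {G : Type*} [Group G] [Finite G] {p : ℕ} {M : Ideal AlgInt} (hM : IsPModular p M)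
    (x : G) : ∃ n : ℕ, 0 < n ∧ ∑ᶠ χ ∈ principalBlock M G, Complex.normSq ((χ : G → ℂ) x) = n := by
  classical
  have := Fintype.ofFinite G
  rw [finsum_mem_irr']
  obtain ⟨n, hn⟩ := exists_int_of_pow_eq (isGenChar_sum (Finset.univ.filter (· ∈ principalBlock M G))
    fun χ _ => isGenChar_mul (isGenChar_of_isIrr χ.2) (isGenChar_conj (isGenChar_of_isIrr χ.2))) x
    fun k hk => by
      simp only [Finset.sum_apply, Pi.mul_apply]
      have hi : Function.Injective fun χ : IrrCharacter G =>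
          (⟨_, isIrr_pow_of_coprime χ.2 hk⟩ : IrrCharacter G) := fun χ ψ h => Subtype.ext (funext fun g => by
        obtain ⟨g, rfl⟩ := (powCoprime hk.symm).surjective g
        exact congrFun (congrArg Subtype.val h) g)
      rw [← Finset.sum_image (f := fun χ : IrrCharacter G => (χ : G → ℂ) x * (starRingEnd ℂ) ((χ : G → ℂ) x))
        hi.injOn, Finset.eq_of_subset_of_card_le _ (Finset.card_image_of_injective _ hi).ge]
      intro ψ hψ
      obtain ⟨χ, hχ, rfl⟩ := Finset.mem_image.1 hψ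
      refine Finset.mem_filter.2 ⟨Finset.mem_univ _, mem_principalBlock_iff.2 fun g => ?_⟩
      have e : Subgroup.centralizer ({g} : Set G) = Subgroup.centralizer {g ^ k} := by
        rw [← Subgroup.centralizer_closure {g}, ← Subgroup.centralizer_closure {g ^ k},
          ← Subgroup.zpowers_eq_closure, ← Subgroup.zpowers_eq_closure]
        congr 2
        exact le_antisymm (Subgroup.zpowers_le.2 (mem_zpowers_pow_iff.2 (hk.coprime_dvd_right
          (orderOf_dvd_natCard g)))) (Subgroup.zpowers_le.2 (Subgroup.npow_mem_zpowers _ _))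
      simpa [centralChar, e] using mem_principalBlock_iff.1 (Finset.mem_filter.1 hχ).2 (g ^ k)
  simp only [Finset.sum_apply, Pi.mul_apply, Complex.mul_conj] at hn
  have h1 : ∑ χ ∈ Finset.univ.filter (· ∈ principalBlock M G), Complex.normSq ((χ : G → ℂ) x) = n := by
    exact_mod_cast hn
  have h2 : (0 : ℝ) < n := h1 ▸ Finset.sum_pos' (fun _ _ => Complex.normSq_nonneg _)
    ⟨irrOne G, Finset.mem_filter.2 ⟨Finset.mem_univ _, irrOne_mem_principalBlock hM⟩, by simp [irrOne_coe]⟩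
  lift n to ℕ using by exact_mod_cast h2.le
  exact ⟨n, by exact_mod_cast h2, by exact_mod_cast h1⟩

/-- Let p be a prime, M a maximal ideal of the algebraic integers containing p, G a finite group, H = O_p'(G) and Ḡ = G/H. For x ∈ G write λ(G, x) for the sum of |χ(x)|^2 over the irreducible characters χ in the principal p-block of G. Then λ(G, x) is a positive integer, λ(G, x) = λ(Ḡ, x̄) where x̄ is the image of x, and λ(G, x) ≤ #C_Ḡ(x̄). Moreover λ(G, 1) = [G : H] if and only if the principal block is the only p-block of Ḡ. -/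
theorem result {G : Type*} [Group G] [Finite G] (p : ℕ) [Fact p.Prime] (M : Ideal Cfsg.AlgInt) (hM : Cfsg.IsPModular p M) (x : G) : (∃ n : ℕ, 0 < n ∧ ∑ᶠ χ ∈ Cfsg.principalBlock M G, Complex.normSq ((χ : G → ℂ) x) = n) ∧ ∑ᶠ χ ∈ Cfsg.principalBlock M G, Complex.normSq ((χ : G → ℂ) x) = ∑ᶠ ψ ∈ Cfsg.principalBlock M (G ⧸ Cfsg.pPrimeCore p G), Complex.normSq ((ψ : G ⧸ Cfsg.pPrimeCore p G → ℂ) (QuotientGroup.mk x)) ∧ ∑ᶠ χ ∈ Cfsg.principalBlock M G, Complex.normSq ((χ : G → ℂ) x) ≤ (Nat.card ↥(Subgroup.centralizer ({(QuotientGroup.mk x : G ⧸ Cfsg.pPrimeCore p G)} : Set (G ⧸ Cfsg.pPrimeCore p G))) : ℝ) ∧ ((∑ᶠ χ ∈ Cfsg.principalBlock M G, Cfsg.charDegree (χ : G → ℂ) ^ 2) = (Cfsg.pPrimeCore p G).index ↔ ∀ B : Set (Cfsg.IrrCharacter (G ⧸ Cfsg.pPrimeCore p G)), Cfsg.IsPBlock M B → B = Cfsg.principalBlock M (G ⧸ Cfsg.pPrimeCore p G)) := by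
  classical
  have := Fintype.ofFinite (G ⧸ pPrimeCore p G)
  refine ⟨exists_nat hM x, finsum_infl hM _, ?_, ?_⟩
  · rw [finsum_infl hM, finsum_mem_irr', ← sum_normSq_irr]
    simp only [Complex.normSq_eq_norm_sq]
    exact Finset.sum_le_univ_sum_of_nonneg fun _ => sq_nonneg _
  · have h : ∑ ψ : IrrCharacter (G ⧸ pPrimeCore p G), charDegree (ψ : G ⧸ pPrimeCore p G → ℂ) ^ 2 =
        (pPrimeCore p G).index := by
      have := sum_irr_one_sq (G := G ⧸ pPrimeCore p G)
      simp only [← charDegree_eq (irr_isCharacter _)] at this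
      exact_mod_cast this
    rw [finsum_infl hM, finsum_mem_irr', ← h]
    simp only [charDegree_infl]
    refine ⟨fun h B ⟨ψ, hB⟩ => block_eq_of_mem hM ⟨ψ, hB⟩ isPBlock_principalBlock
      (hB ▸ mem_blockOf_self hM ψ) (by_contra fun hψ => ?_), fun h => Finset.sum_congr
        (Finset.filter_true_of_mem fun ψ _ => h _ (isPBlock_blockOf ψ) ▸ mem_blockOf_self hM ψ)
        fun _ _ => rfl⟩
    exact (Finset.sum_lt_sum_of_subset (Finset.subset_univ _) (Finset.mem_univ ψ) (by simpa using hψ)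
      (pow_pos (Nat.pos_of_ne_zero (charDegree_ne_zero ψ.2)) 2) fun _ _ _ => Nat.zero_le _).ne h

end Cfsg.Agent.S4735
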