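import Cfsg.Statements.S1081
import Cfsg.Agent.Lib.Stein.Graph

set_option autoImplicit false
open Cfsg

open Cfsg.Lie CfsgLib.Stein CfsgLib.Chev

namespace Cfsg.Agent.S1081

/-- Graph automorphisms: for E₆ with ρ = (p₁ p₆)(p₃ p₅) and for D₄ with ρ the 3-cycle on the outer nodes there is a group automorphism sending `x_p(t) ↦ x_{ρ(p)}(t)` and `x_{-p}(t) ↦ x_{-ρ(p)}(t)` for every fundamental root `p`. -/
theorem result {F : Type*} [Field F] (p : Cfsg.Lie.ChevalleyDatum × List ℕ)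
    (hp : p ∈ [(Cfsg.Lie.chevE6, [5, 1, 4, 3, 2, 0]), (Cfsg.Lie.chevD4, [2, 1, 3, 0]), (Cfsg.Lie.chevD4, [3, 1, 0, 2])]) :
    ∃ α : ↥(p.1.group F) ≃* ↥(p.1.group F), ∀ (g : ↥(p.1.group F)) (i : ℕ) (t : F), i < p.1.rank →
      (((g : GL p.1.Idx F) : Matrix p.1.Idx p.1.Idx F) = p.1.x F (p.1.simple i) t →
        ((α g : GL p.1.Idx F) : Matrix p.1.Idx p.1.Idx F) = p.1.x F (p.1.simple (p.2.getD i 0)) t) ∧
      (((g : GL p.1.Idx F) : Matrix p.1.Idx p.1.Idx F) = p.1.x F (p.1.neg (p.1.simple i)) t →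
        ((α g : GL p.1.Idx F) : Matrix p.1.Idx p.1.Idx F) = p.1.x F (p.1.neg (p.1.simple (p.2.getD i 0))) t) := by
  have key : ∀ (D : ChevalleyDatum) [Good D] (π : List ℕ) (ρ : ℕ → ℕ) (ε : ℕ → ℤ),
      (∃ α : D.group F ≃* D.group F, ∀ r < D.nroots, ∀ t, α (xG D F r t) = xG D F (ρ r) (ε r * t)) →
      (∀ i < D.rank, ρ (D.simple i) = D.simple (π.getD i 0) ∧ ε (D.simple i) = 1 ∧
        ρ (D.neg (D.simple i)) = D.neg (D.simple (π.getD i 0)) ∧ ε (D.neg (D.simple i)) = 1) →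
      ∃ α : ↥(D.group F) ≃* ↥(D.group F), ∀ (g : ↥(D.group F)) (i : ℕ) (t : F), i < D.rank →
      (((g : GL D.Idx F) : Matrix D.Idx D.Idx F) = D.x F (D.simple i) t →
        ((α g : GL D.Idx F) : Matrix D.Idx D.Idx F) = D.x F (D.simple (π.getD i 0)) t) ∧
      (((g : GL D.Idx F) : Matrix D.Idx D.Idx F) = D.x F (D.neg (D.simple i)) t →
        ((α g : GL D.Idx F) : Matrix D.Idx D.Idx F) = D.x F (D.neg (D.simple (π.getD i 0))) t) := by
    rintro D _ π ρ ε ⟨α, hα⟩ h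
    refine ⟨α, fun g i t hi => ?_⟩
    obtain ⟨h1, h2, h3, h4⟩ := h i hi
    simp only [eq_xG_iff]
    constructor
    · rintro rfl; rw [hα _ (simple_lt hi), h1, h2]; simp
    · rintro rfl; rw [hα _ (neg_lt (simple_lt hi)), h3, h4]; simp
  simp only [List.mem_cons, List.not_mem_nil, or_false] at hp
  rcases hp with rfl | rfl | rfl
  · exact key chevE6 _ _ _ exists_graphE6 (by decide +kernel)
  · exact key chevD4 _ _ _ exists_graphD4a (by decide +kernel)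
  · exact key chevD4 _ _ _ exists_graphD4b (by decide +kernel)

end Cfsg.Agent.S1081
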