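import Cfsg.Statements.S0427
import Cfsg.Agent.Lib.Steiner.S3622

set_option autoImplicit false
open Cfsg

namespace Cfsg.Agent.S0427

open Finset CfsgLib.Steiner in
theorem card_filter_coe {α : Type*} [Fintype α] {B : Set (Finset α)} [Fintype B]
    (p : Finset α → Prop) [DecidablePred p] :
    #(univ.filter fun c : B => p c) = #((blocks B).filter p) := by
  apply Finset.card_bij (fun (c : B) _ => (c : Finset α))
  · intro c hc
    exact mem_filter.2 ⟨mem_blocks.2 c.2, (mem_filter.1 hc).2⟩
  · intro a _ b _ h
    exact Subtype.ext h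
  · intro b hb
    exact ⟨⟨b, mem_blocks.1 (mem_filter.1 hb).1⟩, mem_filter.2 ⟨mem_univ _, (mem_filter.1 hb).2⟩, rfl⟩

theorem adj_iff {α : Type*} {B : Set (Finset α)} (hB : Cfsg.IsSteinerSystem 3 6 B) (b c : B) :
    (Cfsg.blockGraph B).Adj b c ↔ Disjoint (c : Finset α) b := by
  rw [blockGraph, SimpleGraph.fromRel_adj]
  constructor
  · rintro ⟨-, h | h⟩
    · exact h.symm
    · exact h
  · intro h
    refine ⟨?_, Or.inr h⟩
    rintro rfl
    have := hB.1 b b.2
    rw [Finset.disjoint_self_iff_empty] at h
    rw [h] at this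
    simp at this

open Finset CfsgLib.Steiner in

/-- The block graph (adjacent = disjoint) of an S(3, 6, 22) is strongly regular with parameters (77, 16, 0, 4). -/
theorem result {α : Type*} [Fintype α] (hα : Fintype.card α = 22) {B : Set (Finset α)} (hB : Cfsg.IsSteinerSystem 3 6 B) [Fintype B] [DecidableRel (Cfsg.blockGraph B).Adj] : (Cfsg.blockGraph B).IsSRGWith 77 16 0 4 := by
  classical
  have hcn : ∀ b c : B, Fintype.card ((blockGraph B).commonNeighbors b c) =
      #((blocks B).filter (fun d => Disjoint d (b : Finset α) ∧ Disjoint d (c : Finset α))) := by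
    intro b c
    rw [← card_filter_coe, ← Set.toFinset_card]
    congr 1
    ext d
    simp [SimpleGraph.mem_commonNeighbors, adj_iff hB]
  refine ⟨?_, ?_, ?_, ?_⟩
  · have := card_filter_coe (B := B) (fun _ => True)
    rw [filter_true, filter_true, card_blocks_3622 hα hB] at this
    exact this
  · intro b
    rw [← card_disjoint_3622 hα hB b.2, ← card_filter_coe, ← SimpleGraph.card_neighborFinset_eq_degree]
    congr 1
    ext d
    simp [adj_iff hB]
  · intro b c h
    rw [hcn, card_disjoint_two_3622 hα hB b.2 c.2 (fun h' => h.ne (Subtype.ext h'))]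
    rw [adj_iff hB] at h
    rw [disjoint_iff_inter_eq_empty.1 h.symm]
    rfl
  · intro b c hbc h
    have hne : (b : Finset α) ≠ c := fun h' => hbc (Subtype.ext h')
    rw [hcn, card_disjoint_two_3622 hα hB b.2 c.2 hne]
    rw [adj_iff hB] at h
    rcases inter_3622 hα hB c.2 b.2 hne with h0 | h2
    · exact absurd (disjoint_iff_inter_eq_empty.2 (card_eq_zero.1 h0)).symm h
    · rw [h2]

end Cfsg.Agent.S0427
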