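import Cfsg.Statements.S0428
import Cfsg.Agent.S0427

set_option autoImplicit false
open Cfsg

namespace Cfsg.Agent.S0428

section
variable {α : Type*} {B : Set (Finset α)}

theorem adj_nn : ¬ (pointBlockGraph B).Adj none none := fun h => h.ne rfl
theorem adj_iff' (v w : Option (α ⊕ B)) : (pointBlockGraph B).Adj v w ↔
    v ≠ w ∧ (pointBlockRel B v w ∨ pointBlockRel B w v) := SimpleGraph.fromRel_adj _ _ _
theorem adj_np (a : α) : (pointBlockGraph B).Adj none (some (Sum.inl a)) :=
  (adj_iff' _ _).2 ⟨by simp, Or.inl trivial⟩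
theorem adj_pn (a : α) : (pointBlockGraph B).Adj (some (Sum.inl a)) none := (adj_np a).symm
theorem adj_nb (b : B) : ¬ (pointBlockGraph B).Adj none (some (Sum.inr b)) :=
  fun h => ((adj_iff' _ _).1 h).2.elim id id
theorem adj_bn (b : B) : ¬ (pointBlockGraph B).Adj (some (Sum.inr b)) none :=
  fun h => adj_nb b h.symm
theorem adj_pp (a a' : α) : ¬ (pointBlockGraph B).Adj (some (Sum.inl a)) (some (Sum.inl a')) :=
  fun h => ((adj_iff' _ _).1 h).2.elim id id
theorem adj_pb (a : α) (b : B) :
    (pointBlockGraph B).Adj (some (Sum.inl a)) (some (Sum.inr b)) ↔ a ∈ (b : Finset α) :=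
  ⟨fun h => ((adj_iff' _ _).1 h).2.elim id False.elim, fun h => (adj_iff' _ _).2 ⟨by simp, Or.inl h⟩⟩
theorem adj_bp (a : α) (b : B) :
    (pointBlockGraph B).Adj (some (Sum.inr b)) (some (Sum.inl a)) ↔ a ∈ (b : Finset α) := by
  rw [SimpleGraph.adj_comm, adj_pb]
theorem adj_bb (hB : Cfsg.IsSteinerSystem 3 6 B) (b c : B) :
    (pointBlockGraph B).Adj (some (Sum.inr b)) (some (Sum.inr c)) ↔ Disjoint (c : Finset α) b := by
  rw [← S0427.adj_iff hB, adj_iff', blockGraph, SimpleGraph.fromRel_adj]
  exact and_congr (by simp) Iff.rfl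

open Finset in
theorem card_split [Fintype α] [Fintype B] (p : Option (α ⊕ B) → Prop) [DecidablePred p] :
    #(univ.filter p) = (if p none then 1 else 0) + #(univ.filter fun a => p (some (Sum.inl a)))
      + #(univ.filter fun b => p (some (Sum.inr b))) := by
  simp only [card_filter]
  rw [Fintype.sum_option, Fintype.sum_sum_type, add_assoc]

end

open Finset CfsgLib.Steiner in

/-- The point-block graph of an S(3, 6, 22) is strongly regular with parameters (100, 22, 0, 6). -/
theorem result {α : Type*} [Fintype α] (hα : Fintype.card α = 22) {B : Set (Finset α)} (hB : Cfsg.IsSteinerSystem 3 6 B) [Fintype B] [DecidableRel (Cfsg.pointBlockGraph B).Adj] : (Cfsg.pointBlockGraph B).IsSRGWith 100 22 0 6 := by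
  classical
  have hcn : ∀ v w, Fintype.card ((pointBlockGraph B).commonNeighbors v w) =
      #(univ.filter fun x => (pointBlockGraph B).Adj v x ∧ (pointBlockGraph B).Adj w x) := by
    intro v w
    rw [← Set.toFinset_card]
    congr 1
    ext d
    simp [SimpleGraph.mem_commonNeighbors]
  have hsymm : ∀ v w, Fintype.card ((pointBlockGraph B).commonNeighbors v w) =
      Fintype.card ((pointBlockGraph B).commonNeighbors w v) := by
    intro v w
    rw [hcn, hcn]
    simp only [and_comm]
  have hb6 : ∀ b : B, #(univ.filter fun a => a ∈ (b : Finset α)) = 6 := by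
    intro b
    rw [← hB.1 b b.2]
    simp
  have c_np : ∀ a, Fintype.card ((pointBlockGraph B).commonNeighbors none (some (Sum.inl a))) = 0 := by
    intro a
    rw [hcn, card_split]
    simp [adj_pp, adj_nb]
  have c_nb : ∀ b, Fintype.card ((pointBlockGraph B).commonNeighbors none (some (Sum.inr b))) = 6 := by
    intro b
    rw [hcn, card_split]
    simp only [adj_nn, adj_np, adj_nb, adj_bp, false_and, true_and, if_false, hb6]
    simp
  have c_pp : ∀ a a', a ≠ a' →
      Fintype.card ((pointBlockGraph B).commonNeighbors (some (Sum.inl a)) (some (Sum.inl a'))) = 6 := by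
    intro a a' h
    rw [hcn, card_split]
    simp only [adj_pn, adj_pp, adj_pb, and_self, if_true, filter_false, card_empty]
    rw [S0427.card_filter_coe (fun c => a ∈ c ∧ a' ∈ c)]
    have := lam2_3622 hα hB h
    simp only [lam, insert_subset_iff, singleton_subset_iff] at this
    rw [this]
  have c_pb : ∀ a (b : B),
      Fintype.card ((pointBlockGraph B).commonNeighbors (some (Sum.inl a)) (some (Sum.inr b))) =
        #((blocks B).filter (fun c => a ∈ c ∧ Disjoint c (b : Finset α))) := by
    intro a b
    rw [hcn, card_split]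
    simp only [adj_bn, adj_pp, adj_pb, adj_bb hB, and_false, false_and, if_false, filter_false,
      card_empty, zero_add]
    rw [S0427.card_filter_coe (fun c => a ∈ c ∧ Disjoint c (b : Finset α))]
  have c_bb : ∀ b c : B, b ≠ c →
      Fintype.card ((pointBlockGraph B).commonNeighbors (some (Sum.inr b)) (some (Sum.inr c))) =
        3 * #((b : Finset α) ∩ c) := by
    intro b c h
    rw [hcn, card_split]
    simp only [adj_bn, adj_bp, adj_bb hB, and_false, if_false, zero_add]
    rw [S0427.card_filter_coe (fun d => Disjoint d (b : Finset α) ∧ Disjoint d (c : Finset α)),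
      card_disjoint_two_3622 hα hB b.2 c.2 (fun h' => h (Subtype.ext h'))]
    have : (univ.filter fun a => a ∈ (b : Finset α) ∧ a ∈ (c : Finset α)) = (b : Finset α) ∩ c := by
      ext; simp
    rw [this]; ring
  refine ⟨?_, ?_, ?_, ?_⟩
  · have := S0427.card_filter_coe (B := B) (fun _ => True)
    rw [filter_true, filter_true, card_blocks_3622 hα hB, card_univ] at this
    rw [Fintype.card_option, Fintype.card_sum, hα, this]
  · intro v
    rw [← SimpleGraph.card_neighborFinset_eq_degree, SimpleGraph.neighborFinset_eq_filter, card_split]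
    rcases v with _ | a | b
    · simp [adj_np, adj_nb, hα]
    · simp only [adj_pn, adj_pp, adj_pb, if_true, filter_false, card_empty]
      rw [S0427.card_filter_coe (fun c => a ∈ c)]
      have := lam1_3622 hα hB a
      simp only [lam, singleton_subset_iff] at this
      rw [this]
    · simp only [adj_bn, adj_bp, adj_bb hB, if_false, hb6]
      rw [S0427.card_filter_coe (fun c => Disjoint c (b : Finset α)), card_disjoint_3622 hα hB b.2]
  · have h1 : ∀ a (b : B), a ∈ (b : Finset α) →
        Fintype.card ((pointBlockGraph B).commonNeighbors (some (Sum.inl a)) (some (Sum.inr b))) = 0 := by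
      intro a b h
      rw [c_pb, card_eq_zero, filter_eq_empty_iff]
      rintro c - ⟨h1, h2⟩
      exact disjoint_left.1 h2 h1 h
    rintro (_ | a | b) (_ | a' | c) h
    · exact absurd h adj_nn
    · exact c_np _
    · exact absurd h (adj_nb _)
    · rw [hsymm]; exact c_np _
    · exact absurd h (adj_pp _ _)
    · exact h1 _ _ ((adj_pb _ _).1 h)
    · exact absurd h (adj_bn _)
    · rw [hsymm]; exact h1 _ _ ((adj_bp _ _).1 h)
    · rw [c_bb b c (fun h' => h.ne (by rw [h'])),
        disjoint_iff_inter_eq_empty.1 ((adj_bb hB _ _).1 h).symm]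
      rfl
  · rintro (_ | a | b) (_ | a' | c) hne h
    · exact absurd rfl hne
    · exact absurd (adj_np _) h
    · exact c_nb _
    · exact absurd (adj_pn _) h
    · exact c_pp _ _ (fun h' => hne (by rw [h']))
    · rw [c_pb]; exact card_disjoint_mem_3622 hα hB c.2 (fun h' => h ((adj_pb _ _).2 h'))
    · rw [hsymm]; exact c_nb _
    · rw [hsymm, c_pb]; exact card_disjoint_mem_3622 hα hB b.2 (fun h' => h ((adj_bp _ _).2 h'))
    · have hbc : b ≠ c := fun h' => hne (by rw [h'])
      rw [c_bb b c hbc]
      rw [adj_bb hB] at h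
      rcases inter_3622 hα hB c.2 b.2 (fun h' => hbc (Subtype.ext h')) with h0 | h2
      · exact absurd (disjoint_iff_inter_eq_empty.2 (card_eq_zero.1 h0)).symm h
      · rw [h2]

end Cfsg.Agent.S0428
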