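import Cfsg.Statements.S3878
import Cfsg.Agent.Lib.SolvStruct.Subnormal

set_option autoImplicit false
open Cfsg

namespace Cfsg.Agent.S3878

open Equiv Equiv.Perm MulAction

theorem exists_conj_mem {G : Type*} [Group G] [Finite G] {p : ℕ} (hp : p.Prime) {H : Subgroup G}
    (hH : ¬ p ∣ H.index) {x : G} (hx : x ^ p = 1) : ∃ g : G, g * x * g⁻¹ ∈ H := by
  haveI : Fact p.Prime := ⟨hp⟩
  have h1 : IsPGroup p (Subgroup.zpowers x) := by
    rintro ⟨_, m, rfl⟩
    refine ⟨1, Subtype.ext ?_⟩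
    show (x ^ m) ^ p ^ 1 = 1
    rw [pow_one, ← zpow_natCast, ← zpow_mul, mul_comm, zpow_mul, zpow_natCast, hx, one_zpow]
  obtain ⟨q, hq⟩ := h1.nonempty_fixed_point_of_prime_not_dvd_card (G ⧸ H) hH
  obtain ⟨g, rfl⟩ := QuotientGroup.mk_surjective q
  have h2 := hq ⟨x, Subgroup.mem_zpowers x⟩
  have h3 : ((x * g : G) : G ⧸ H) = g := h2
  rw [eq_comm, QuotientGroup.eq] at h3
  exact ⟨g⁻¹, by simpa [mul_assoc] using h3⟩

theorem dvd_card_of_not_dvd_index {G : Type*} [Group G] {p : ℕ} (hp : p.Prime) {H : Subgroup G}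
    (hH : ¬ p ∣ H.index) (h : p ∣ Nat.card G) : p ∣ Nat.card H := by
  rw [← H.card_mul_index] at h
  exact (hp.dvd_mul.1 h).resolve_right hH

theorem caseA {p q : ℕ} (hp : p.Prime) (hq : q.Prime) (hp2 : p ≠ 2) (hpq : p < q)
    (H : Subgroup (Perm (Fin q))) (h1 : ¬ p ∣ H.index) (h2 : ¬ q ∣ H.index) : 2 ∣ Nat.card H := by
  classical
  have hp3 : 3 ≤ p := by have := hp.two_le; omega
  haveI : Fact q.Prime := ⟨hq⟩
  have hqH : q ∣ Nat.card H := dvd_card_of_not_dvd_index hq h2 (by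
    rw [Nat.card_perm, Nat.card_eq_fintype_card, Fintype.card_fin]
    exact Nat.dvd_factorial hq.pos le_rfl)
  obtain ⟨σ, hσ⟩ := exists_prime_orderOf_dvd_card' q hqH
  have hσ1 : orderOf (σ : Perm (Fin q)) = Fintype.card (Fin q) := by
    rw [Subgroup.orderOf_coe, hσ, Fintype.card_fin]
  have hσ2 : IsCycle (σ : Perm (Fin q)) := isCycle_of_prime_order'' (by simpa using hq) hσ1
  have hσ3 : (σ : Perm (Fin q)).support = Finset.univ :=
    Finset.eq_univ_of_card _ (hσ2.orderOf.symm.trans hσ1)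
  haveI : IsPretransitive H (Fin q) := by
    constructor
    intro a b
    obtain ⟨i, hi⟩ := hσ2.exists_zpow_eq (x := a) (y := b)
      (mem_support.1 (hσ3 ▸ Finset.mem_univ a)) (mem_support.1 (hσ3 ▸ Finset.mem_univ b))
    exact ⟨σ ^ i, hi⟩
  have hprim : IsPreprimitive H (Fin q) := IsPreprimitive.of_prime_card (by simpa using hq)
  obtain ⟨x, hx⟩ := (exists_with_cycleType_iff (Fin q) (m := {p})).2 ⟨by simpa using hpq.le, by
    simpa using hp.two_le⟩
  have hxc : x.IsCycle := card_cycleType_eq_one.1 (by rw [hx]; rfl)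
  have hsupp : x.support.card = p := by
    have := x.sum_cycleType
    rw [hx] at this
    simpa using this.symm
  have hxp : x ^ p = 1 := by rw [← hsupp, ← hxc.orderOf]; exact pow_orderOf_eq_one x
  obtain ⟨g, hg⟩ := exists_conj_mem hp h1 hxp
  have hyc : (g * x * g⁻¹).IsCycle := hxc.conj
  have hys : (g * x * g⁻¹).support.card = p := by rw [card_support_conj, hsupp]
  have hcompl : ((g * x * g⁻¹).support : Set (Fin q))ᶜ.ncard = (q - p - 1) + 1 := by
    rw [← Finset.coe_compl, Set.ncard_coe_finset, Finset.card_compl, hys, Fintype.card_fin]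
    omega
  have h2t := hprim.is_two_pretransitive hcompl (by simp; omega)
    (isPretransitive_of_isCycle_mem hyc hg)
  let a : Fin q := ⟨0, by omega⟩
  let b : Fin q := ⟨1, by omega⟩
  have hab : a ≠ b := by simp [a, b]
  obtain ⟨k, hk1, hk2⟩ := is_two_pretransitive_iff.1 h2t hab hab.symm
  refine Dvd.dvd.trans ?_ (orderOf_dvd_natCard k)
  by_contra hodd
  obtain ⟨m, hm⟩ : Odd (orderOf k) := Nat.odd_iff.2 (by omega)
  have h3 : ∀ j : ℕ, k ^ (2 * j) • a = a := by
    intro j
    induction j with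
    | zero => simp
    | succ j ih => rw [mul_add, pow_add, mul_smul, mul_one, pow_two, mul_smul, hk1, hk2, ih]
  have h4 : k ^ orderOf k • a = a := by rw [pow_orderOf_eq_one, one_smul]
  rw [hm, pow_succ', mul_smul, h3, hk1] at h4
  exact hab h4.symm

theorem caseB {q : ℕ} (hq : q.Prime)
    (H : Subgroup (Perm (Fin q))) (h1 : ¬ 2 ∣ H.index) (h2 : ¬ q ∣ H.index) : H = ⊤ := by
  classical
  have hqH : q ∣ Nat.card H := dvd_card_of_not_dvd_index hq h2 (by
    rw [Nat.card_perm, Nat.card_eq_fintype_card, Fintype.card_fin]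
    exact Nat.dvd_factorial hq.pos le_rfl)
  have h2q := hq.two_le
  let a : Fin q := ⟨0, by omega⟩
  let b : Fin q := ⟨1, by omega⟩
  have hab : a ≠ b := by simp [a, b]
  obtain ⟨g, hg⟩ := exists_conj_mem Nat.prime_two h1 (x := swap a b) (by rw [pow_two]; simp)
  refine subgroup_eq_top_of_swap_mem (by simpa using hq) (by simpa using hqH) hg ?_
  rw [← swap_apply_apply]
  exact ⟨_, _, g.injective.ne hab, rfl⟩

theorem caseC {r : ℕ} (hr : r.Prime) (hr5 : 5 ≤ r) (H : Subgroup (Perm (Fin (r + 1))))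
    (h1 : ∀ s : ℕ, s.Prime → s ∣ H.index → r ≤ s) : r ∣ Nat.card H := by
  classical
  by_contra hrH
  have hcard : Nat.card (Perm (Fin (r + 1))) = (r + 1).factorial := by
    rw [Nat.card_perm, Nat.card_eq_fintype_card, Fintype.card_fin]
  have hid : H.index ∣ (r + 1).factorial := hcard ▸ H.index_dvd_card
  have hodd : Odd r := hr.odd_of_ne_two (by omega)
  have hall : ∀ s : ℕ, s.Prime → s ∣ H.index → s = r := by
    intro s hs hd
    have h2 := h1 s hs hd
    have h3 := (hs.dvd_factorial).1 (hd.trans hid)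
    rcases h3.eq_or_lt with h4 | h4
    · exfalso
      have := hs.odd_of_ne_two (by omega)
      rw [h4] at this
      exact (Nat.not_even_iff_odd.2 this) hodd.add_one
    · omega
  have hpow : H.index = r ^ H.index.primeFactorsList.length :=
    Nat.eq_prime_pow_of_unique_prime_dvd Subgroup.index_ne_zero_of_finite (fun hs hd => hall _ hs hd)
  have hsq : ¬ r ^ 2 ∣ (r + 1).factorial := by
    rw [Nat.factorial_succ]
    intro h
    have hc : Nat.Coprime (r ^ 2) (r + 1) := Nat.Coprime.pow_left 2 (by simp)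
    have h2 := hc.dvd_of_dvd_mul_left h
    obtain ⟨m, rfl⟩ : ∃ m, r = m + 1 := ⟨r - 1, by omega⟩
    rw [Nat.factorial_succ, pow_two] at h2
    have h3 := Nat.dvd_of_mul_dvd_mul_left hr.pos h2
    have := (hr.dvd_factorial).1 h3
    omega
  have hir : H.index ∣ r := by
    rw [hpow] at hid ⊢
    have : H.index.primeFactorsList.length ≤ 1 := by
      by_contra h
      exact hsq ((pow_dvd_pow r (by omega)).trans hid)
    simpa using pow_dvd_pow r this
  set A := alternatingGroup (Fin (r + 1)) with hA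
  haveI : IsSimpleGroup A := alternatingGroup.isSimpleGroup (by simp; omega)
  have hK : (H.subgroupOf A).index ∣ r :=
    (CfsgLib.SolvStruct.relIndex_dvd_index_of_normal_right H A).trans hir
  have hAc : 2 * Nat.card A = (r + 1).factorial := by
    haveI : Nontrivial (Fin (r + 1)) := Fin.nontrivial_iff_two_le.2 (by omega)
    rw [← hcard, Nat.card_eq_fintype_card, Nat.card_eq_fintype_card]
    exact two_mul_card_alternatingGroup
  have hrA : r ∣ Nat.card A := by
    have h2 : r ∣ 2 * Nat.card A := hAc ▸ Nat.dvd_factorial hr.pos (by omega)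
    refine (hr.dvd_mul.1 h2).resolve_left ?_
    intro h3
    have := Nat.le_of_dvd two_pos h3
    omega
  rcases (H.subgroupOf A).normalCore_normal.eq_bot_or_eq_top with h | h
  · have hinj : Function.Injective (MulAction.toPermHom A (A ⧸ H.subgroupOf A)) := by
      rw [← MonoidHom.ker_eq_bot_iff, ← Subgroup.normalCore_eq_ker, h]
    have h2 := Nat.le_of_dvd Nat.card_pos (Subgroup.card_dvd_of_injective _ hinj)
    rw [Nat.card_perm] at h2
    have h3 : (Nat.card (A ⧸ H.subgroupOf A)).factorial ≤ r.factorial :=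
      Nat.factorial_le (Nat.le_of_dvd hr.pos hK)
    rw [Nat.factorial_succ] at hAc
    have h4 := Nat.factorial_pos r
    nlinarith
  · have h2 : H.subgroupOf A = ⊤ := eq_top_iff.2 (h ▸ Subgroup.normalCore_le _)
    exact hrH (hrA.trans (Subgroup.card_dvd_of_le (Subgroup.subgroupOf_eq_top.1 h2)))

theorem necessity (π : Set ℕ) (h : ∀ (G : Type) [Group G] [Finite G], Cfsg.IsEPiGroup π G) :
    ((∀ p q : ℕ, p.Prime → q.Prime → p ∈ π → q ∈ π → p = q) ∨ ∀ p : ℕ, p.Prime → p ∈ π) := by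
  classical
  by_contra hc
  push Not at hc
  obtain ⟨⟨p, q, hp, hq, hpπ, hqπ, hpq⟩, hr⟩ := hc
  by_cases h2 : 2 ∈ π
  · let r := Nat.find hr
    have hr1 : r.Prime ∧ r ∉ π := Nat.find_spec hr
    have hr2 : ∀ s, s.Prime → s ∉ π → r ≤ s := fun s h1 h2 => Nat.find_min' hr ⟨h1, h2⟩
    by_cases h3 : r = 3
    · obtain ⟨s, hs, hsπ, hs2⟩ : ∃ s : ℕ, s.Prime ∧ s ∈ π ∧ s ≠ 2 := by
        by_cases h : p = 2
        · exact ⟨q, hq, hqπ, fun h' => hpq (h.trans h'.symm)⟩
        · exact ⟨p, hp, hpπ, h⟩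
      obtain ⟨H, hH1, hH2⟩ := h (Perm (Fin s))
      have := caseB hs H (hH2 2 Nat.prime_two h2) (hH2 s hs hsπ)
      subst this
      apply hr1.2
      apply hH1 r hr1.1
      rw [Subgroup.card_top, Nat.card_perm, Nat.card_eq_fintype_card, Fintype.card_fin]
      have := hs.two_le
      exact Nat.dvd_factorial hr1.1.pos (by omega)
    · have hr5 : 5 ≤ r := by
        have h4 : r ≠ 2 := fun h => hr1.2 (h ▸ h2)
        exact hr1.1.five_le_of_ne_two_of_ne_three h4 h3
      obtain ⟨H, hH1, hH2⟩ := h (Perm (Fin (r + 1)))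
      exact hr1.2 (hH1 r hr1.1 (caseC hr1.1 hr5 H
        (fun s hs hd => hr2 s hs (fun hsπ => hH2 s hs hsπ hd))))
  · wlog hlt : p < q generalizing p q
    · exact this q p hq hp hqπ hpπ hpq.symm (by omega)
    obtain ⟨H, hH1, hH2⟩ := h (Perm (Fin q))
    exact h2 (hH1 2 Nat.prime_two (caseA hp hq (fun h => h2 (h ▸ hpπ)) hlt H (hH2 p hp hpπ)
      (hH2 q hq hqπ)))

theorem eOfD (π : Set ℕ) (G : Type) [Group G] [Finite G] (h : Cfsg.IsDPiGroup π G) :
    Cfsg.IsEPiGroup π G := by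
  have hb : Cfsg.IsPiSubgroup π (⊥ : Subgroup G) := by
    intro p hp hd
    rw [Subgroup.card_bot] at hd
    exact absurd (Nat.dvd_one.1 hd) hp.one_lt.ne'
  obtain ⟨H, -, hH⟩ := Finite.exists_le_maximal hb
  refine ⟨H, hH.1, fun p hp hpπ => ?_⟩
  haveI : Fact p.Prime := ⟨hp⟩
  obtain ⟨P⟩ : Nonempty (Sylow p G) := inferInstance
  have hP : Cfsg.IsPiSubgroup π (P : Subgroup G) := by
    intro s hs hd
    obtain ⟨k, hk⟩ := P.2.exists_card_eq
    rw [hk] at hd
    rwa [(Nat.prime_dvd_prime_iff_eq hs hp).1 (hs.dvd_of_dvd_pow hd)]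
  obtain ⟨K, hPK, hK⟩ := Finite.exists_le_maximal hP
  obtain ⟨g, hg⟩ := h H K hH hK
  have h1 : K.index = H.index := by
    rw [hg]
    exact Subgroup.index_map_of_bijective (MulAut.conj g).bijective H
  rw [← h1]
  exact fun hd => P.not_dvd_index (hd.trans (Subgroup.index_dvd_of_le hPK))

theorem sufficiency (π : Set ℕ)
    (h : (∀ p q : ℕ, p.Prime → q.Prime → p ∈ π → q ∈ π → p = q) ∨ ∀ p : ℕ, p.Prime → p ∈ π)
    (G : Type) [Group G] [Finite G] : Cfsg.IsDPiGroup π G := by
  intro H K hH hK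
  rcases h with h | h
  · by_cases hex : ∃ p : ℕ, p.Prime ∧ p ∈ π
    · obtain ⟨p, hp, hpπ⟩ := hex
      haveI : Fact p.Prime := ⟨hp⟩
      have hiff : ∀ L : Subgroup G, Cfsg.IsPiSubgroup π L ↔ IsPGroup p L := by
        intro L
        constructor
        · intro hL
          exact IsPGroup.of_card (Nat.eq_prime_pow_of_unique_prime_dvd Nat.card_pos.ne'
            (fun hs hd => h _ _ hs hp (hL _ hs hd) hpπ))
        · intro hL s hs hd
          obtain ⟨k, hk⟩ := hL.exists_card_eq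
          rw [hk] at hd
          rwa [(Nat.prime_dvd_prime_iff_eq hs hp).1 (hs.dvd_of_dvd_pow hd)]
      let P : Sylow p G := ⟨H, (hiff H).1 hH.1, fun hQ hle => (hH.eq_of_le ((hiff _).2 hQ) hle).symm⟩
      let Q : Sylow p G := ⟨K, (hiff K).1 hK.1, fun hQ hle => (hK.eq_of_le ((hiff _).2 hQ) hle).symm⟩
      obtain ⟨g, hg⟩ := MulAction.exists_smul_eq G P Q
      exact ⟨g, (congrArg (fun S : Sylow p G => (S : Subgroup G)) hg).symm⟩
    · push Not at hex
      have hb : ∀ L : Subgroup G, Cfsg.IsPiSubgroup π L → L = ⊥ := by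
        intro L hL
        rw [← Subgroup.card_eq_one]
        by_contra h1
        obtain ⟨s, hs, hd⟩ := Nat.exists_prime_and_dvd h1
        exact hex s hs (hL s hs hd)
      exact ⟨1, by rw [hb H hH.1, hb K hK.1, Subgroup.map_bot]⟩
  · have ht : Cfsg.IsPiSubgroup π (⊤ : Subgroup G) := fun p hp _ => h p hp
    refine ⟨1, ?_⟩
    rw [hH.eq_of_le ht le_top, hK.eq_of_le ht le_top,
      Subgroup.map_top_of_surjective _ (MulAut.conj (1 : G)).surjective]

/-- For a set of primes π the following are equivalent: every finite group has a Hall π-subgroup; in every finite group the maximal π-subgroups are pairwise conjugate; π contains at most one prime or contains every prime. -/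
theorem result (π : Set ℕ) :
    ((∀ (G : Type) [Group G] [Finite G], Cfsg.IsEPiGroup π G) ↔
      ((∀ p q : ℕ, p.Prime → q.Prime → p ∈ π → q ∈ π → p = q) ∨ ∀ p : ℕ, p.Prime → p ∈ π)) ∧
    ((∀ (G : Type) [Group G] [Finite G], Cfsg.IsDPiGroup π G) ↔
      ((∀ p q : ℕ, p.Prime → q.Prime → p ∈ π → q ∈ π → p = q) ∨ ∀ p : ℕ, p.Prime → p ∈ π)) := by
  exact ⟨⟨necessity π, fun h G _ _ => eOfD π G (sufficiency π h G)⟩,
    ⟨fun h => necessity π (fun G _ _ => eOfD π G (h G)), fun h G _ _ => sufficiency π h G⟩⟩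

end Cfsg.Agent.S3878
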