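import Mathlib
import Cfsg.Statements.S4444
import Cfsg.Agent.Lib.Glaub.PGroup

set_option autoImplicit false
open Cfsg

namespace Cfsg.Agent.S4444

open CfsgLib.Glaub CfsgLib.Char


/-- The Glauberman correspondence for a p-group of operators. Inside a finite group Γ let S normalise G with the orders of G and S coprime, S a p-group, and let C = G ⊓ C(S) be the fixed points. Call an irreducible character χ of G S-invariant when χ(s g s⁻¹) = χ(g) for s ∈ S, g ∈ G. Then: (i) for every S-invariant χ there is exactly one irreducible character β of C whose multiplicity [χ_C, β] in the restriction of χ is not divisible by p; (ii) that multiplicity is ≡ 1 or ≡ −1 (mod p); (iii) distinct S-invariant χ give distinct β; (iv) every irreducible character of C arises in this way. So χ ↦ β is a bijection from the S-invariant irreducible characters of G onto the irreducible characters of C. -/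
theorem result {Γ : Type*} [Group Γ] [Fintype Γ] (G S : Subgroup Γ) [Fintype G] (hnorm : ∀ s ∈ S, ∀ g ∈ G, s * g * s⁻¹ ∈ G) (hcop : (Nat.card G).Coprime (Nat.card S)) (p : ℕ) (hp : p.Prime) (hS : IsPGroup p S) (C : Subgroup Γ) [Fintype C] (hC : C = G ⊓ Subgroup.centralizer (S : Set Γ)) (hCG : C ≤ G) : (∀ χ : Cfsg.IrrCharacter G, (∀ s ∈ S, ∀ g g' : G, (g' : Γ) = s * g * s⁻¹ → (χ : G → ℂ) g' = (χ : G → ℂ) g) → ∃! β : Cfsg.IrrCharacter C, ∃ m : ℕ, Cfsg.classInner (fun c : C => (χ : G → ℂ) ⟨c, hCG c.2⟩) (β : C → ℂ) = (m : ℂ) ∧ ¬ p ∣ m) ∧ (∀ χ : Cfsg.IrrCharacter G, (∀ s ∈ S, ∀ g g' : G, (g' : Γ) = s * g * s⁻¹ → (χ : G → ℂ) g' = (χ : G → ℂ) g) → ∀ β : Cfsg.IrrCharacter C, ∀ m : ℕ, Cfsg.classInner (fun c : C => (χ : G → ℂ) ⟨c, hCG c.2⟩) (β : C → ℂ) = (m : ℂ) → ¬ p ∣ m → ((m : ℤ) ≡ 1 [ZMOD p] ∨ (m : ℤ) ≡ -1 [ZMOD p])) ∧ (∀ χ χ' : Cfsg.IrrCharacter G, (∀ s ∈ S, ∀ g g' : G, (g' : Γ) =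 s * g * s⁻¹ → (χ : G → ℂ) g' = (χ : G → ℂ) g) → (∀ s ∈ S, ∀ g g' : G, (g' : Γ) = s * g * s⁻¹ → (χ' : G → ℂ) g' = (χ' : G → ℂ) g) → ∀ β : Cfsg.IrrCharacter C, ∀ m m' : ℕ, Cfsg.classInner (fun c : C => (χ : G → ℂ) ⟨c, hCG c.2⟩) (β : C → ℂ) = (m : ℂ) → ¬ p ∣ m → Cfsg.classInner (fun c : C => (χ' : G → ℂ) ⟨c, hCG c.2⟩) (β : C → ℂ) = (m' : ℂ) → ¬ p ∣ m' → χ = χ') ∧ (∀ β : Cfsg.IrrCharacter C, ∃ χ : Cfsg.IrrCharacter G, (∀ s ∈ S, ∀ g g' : G, (g' : Γ) = s * g * s⁻¹ → (χ : G → ℂ) g' = (χ : G → ℂ) g) ∧ ∃ m : ℕ, Cfsg.classInner (fun c : C => (χ : G → ℂ) ⟨c, hCG c.2⟩) (β : C → ℂ) = (m : ℂ) ∧ ¬ p ∣ m) := by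
  haveI : Fact p.Prime := ⟨hp⟩
  obtain ⟨e, he⟩ := glauberman_pgroup' hS (conjAut S G hnorm) hcop (Subgroup.inclusion hCG)
    (Subgroup.inclusion_injective hCG) (by
      intro g
      constructor
      · rintro ⟨c, rfl⟩ a
        have hc : (c : Γ) ∈ G ⊓ Subgroup.centralizer (S : Set Γ) := hC ▸ c.2
        apply Subtype.ext
        change (a : Γ) * c * (a : Γ)⁻¹ = c
        rw [hc.2 a a.2]; group
      · intro h
        have : (g : Γ) ∈ C := by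
          rw [hC]
          refine ⟨g.2, fun s hs => ?_⟩
          have := congrArg Subtype.val (h ⟨s, hs⟩)
          change s * g * s⁻¹ = g at this
          rw [← mul_inv_eq_iff_eq_mul]; exact this
        exact ⟨⟨g, this⟩, rfl⟩)
  have hm : ∀ (χ : IrrCharacter G) (β : IrrCharacter C) (m : ℕ),
      classInner (fun c : C => (χ : G → ℂ) ⟨c, hCG c.2⟩) (β : C → ℂ) = (m : ℂ) ↔
        mult (Subgroup.inclusion hCG) χ β = m := by
    intro χ β m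
    refine ⟨fun h => mult_eq_of_eq _ h, fun h => ?_⟩
    rw [← h]
    exact mult_spec (Subgroup.inclusion hCG) (irr_isCharacter χ) (irr_isCharacter β)
  simp only [← inv_conjAut_iff S G hnorm, hm]
  refine ⟨fun χ hχ => ⟨e ⟨χ, hχ⟩, ⟨_, rfl, ((he ⟨χ, hχ⟩ _).2).mp rfl⟩, ?_⟩, ?_, ?_, ?_⟩
  · rintro β ⟨m, rfl, h⟩
    exact ((he ⟨χ, hχ⟩ _).2).mpr h
  · rintro χ hχ β m rfl h
    have := (he ⟨χ, hχ⟩ β).1 (((he ⟨χ, hχ⟩ _).2).mpr h)
    rw [← ZMod.intCast_eq_intCast_iff, ← ZMod.intCast_eq_intCast_iff]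
    push_cast
    exact this
  · rintro χ χ' hχ hχ' β m m' rfl h rfl h'
    have h1 := ((he ⟨χ, hχ⟩ _).2).mpr h
    have h2 := ((he ⟨χ', hχ'⟩ _).2).mpr h'
    exact congrArg Subtype.val (e.injective (h1.symm.trans h2))
  · intro β
    exact ⟨(e.symm β).1, (e.symm β).2, _, rfl, ((he (e.symm β) β).2).mp (by simp)⟩

end Cfsg.Agent.S4444
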