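import Cfsg.Statements.S0048
import Mathlib
import Cfsg.Agent.Lib.Core.MinNormal

set_option autoImplicit false
open Cfsg

namespace Cfsg.Agent.S0048

open CfsgLib.Core Subgroup

universe u

theorem aux (n : ℕ) : ∀ {G : Type u} [Group G] [Finite G] [Group.IsSolvable G]
    (M : Subgroup G), IsCoatom M → Nat.card G = n → IsPrimePow M.index := by
  induction n using Nat.strong_induction_on with
  | _ n ih =>
  intro G _ _ _ M hM hn
  subst hn
  have : Nontrivial G := by
    by_contra h
    rw [not_nontrivial_iff_subsingleton] at h
    exact hM.1 (Subsingleton.elim _ _)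
  obtain ⟨p, N, hp, hN, hN1, hel, -⟩ := exists_elementaryAbelian_minimal_normal G
  by_cases h : N ≤ M
  · have hs := QuotientGroup.mk'_surjective N
    have hk : (QuotientGroup.mk' N).ker ≤ M := by rwa [QuotientGroup.ker_mk']
    have h1 : (M.map (QuotientGroup.mk' N)).comap (QuotientGroup.mk' N) = M :=
      comap_map_eq_self hk
    have h2 : IsCoatom (M.map (QuotientGroup.mk' N)) := by
      constructor
      · intro e
        rw [e, comap_top] at h1
        exact hM.1 h1.symm
      · intro K hK
        have := hM.2 (K.comap (QuotientGroup.mk' N)) (by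
          rw [← h1]
          exact (comap_lt_comap_of_surjective hs).2 hK)
        rw [← map_comap_eq_self_of_surjective hs K, this, map_top_of_surjective _ hs]
    rw [← index_map_eq M hs hk]
    exact ih _ (card_quotient_lt_of_ne_bot hN1) _ h2 rfl
  · have h1 : M ⊔ N = ⊤ := hM.2 _ (left_lt_sup.2 h)
    have := Fact.mk hp
    obtain ⟨k, hk⟩ := (isElementaryAbelian_isPGroup hel).exists_card_eq
    have h2 := card_sup_mul_card_inf_of_normal M N
    rw [h1, card_top, ← M.index_mul_card, mul_assoc, mul_comm (Nat.card M) (Nat.card N),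
      mul_comm (Nat.card M), ← mul_assoc] at h2
    have h3 := Nat.eq_of_mul_eq_mul_right Nat.card_pos h2
    obtain ⟨j, -, hj⟩ := (Nat.dvd_prime_pow hp).1 (hk ▸ Dvd.intro _ h3)
    refine ⟨p, j, hp.prime, Nat.pos_of_ne_zero ?_, hj.symm⟩
    rintro rfl
    exact hM.1 (index_eq_one.1 hj)

/-- In a finite solvable group every maximal subgroup has index a prime power. -/
theorem result {G : Type*} [Group G] [Finite G] [Group.IsSolvable G]
    (M : Subgroup G) (hM : IsCoatom M) : IsPrimePow M.index := by
  exact aux _ M hM rfl

end Cfsg.Agent.S0048
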