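import Cfsg.Statements.S0276
import Cfsg.Agent.Lib.Classical.SL2Torus

set_option autoImplicit false
open Cfsg

namespace Cfsg.Agent.S0276

open CfsgLib.Classical in
theorem card_sylow_aux {G : Type*} [Group G] [Finite G] {k m : ℕ} (h : Nat.card G = 2 ^ k * m)
    (hm : Odd m) (P : Sylow 2 G) : Nat.card P = 2 ^ k := by
  rw [P.card_eq_multiplicity, h, Nat.factorization_mul (by positivity) hm.pos.ne',
    Nat.prime_two.factorization_pow]
  simp [Nat.factorization_eq_zero_of_not_dvd (Nat.two_dvd_ne_zero.2 (Nat.odd_iff.1 hm))]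

/-- For q = 3 or 5 mod 8 the Sylow 2-subgroups of PSL_2(q) are elementary abelian of order 4. -/
theorem result {F : Type*} [Field F] [Fintype F] {q : ℕ} (hF : Fintype.card F = q) (hq : q % 8 = 3 ∨ q % 8 = 5) (P : Sylow 2 (Matrix.ProjectiveSpecialLinearGroup (Fin 2) F)) : IsKleinFour (P : Subgroup (Matrix.ProjectiveSpecialLinearGroup (Fin 2) F)) := by
  subst hF
  set q := Fintype.card F with hqdef
  have hodd : Odd q := Nat.odd_iff.2 (by omega)
  have h2 := CfsgLib.Classical.sl_two_ne_zero_of_odd_card hodd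
  obtain ⟨m, hm, hqm⟩ : ∃ m, Odd m ∧ q ^ 2 - 1 = 8 * m := by
    obtain ⟨t, ht⟩ : ∃ t, q = 8 * t + q % 8 := ⟨q / 8, by omega⟩
    rcases hq with h | h
    · refine ⟨8 * t ^ 2 + 6 * t + 1, ⟨4 * t ^ 2 + 3 * t, by ring⟩, ?_⟩
      rw [h] at ht
      have : q ^ 2 = 8 * (8 * t ^ 2 + 6 * t + 1) + 1 := by rw [ht]; ring
      omega
    · refine ⟨8 * t ^ 2 + 10 * t + 3, ⟨4 * t ^ 2 + 5 * t + 1, by ring⟩, ?_⟩
      rw [h] at ht
      have : q ^ 2 = 8 * (8 * t ^ 2 + 10 * t + 3) + 1 := by rw [ht]; ring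
      omega
  have hSL : Nat.card (Matrix.SpecialLinearGroup (Fin 2) F) = 2 ^ 3 * (q * m) := by
    rw [CfsgLib.Classical.sl2_card, ← hqdef, hqm]; ring
  have hPSL : Nat.card (Matrix.ProjectiveSpecialLinearGroup (Fin 2) F) = 2 ^ 2 * (q * m) := by
    have h := CfsgLib.Classical.psl2_card_mul (F := F)
    rw [← hqdef, hqm, Nat.gcd_eq_left (by omega : 2 ∣ q - 1)] at h
    apply Nat.eq_of_mul_eq_mul_left two_pos
    rw [h]; ring
  have hc : Nat.card P = 4 := card_sylow_aux hPSL (hodd.mul hm) P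
  obtain ⟨Q, hQ⟩ := Sylow.mapSurjective_surjective
    (f := QuotientGroup.mk' (Subgroup.center (Matrix.SpecialLinearGroup (Fin 2) F)))
    (QuotientGroup.mk'_surjective _) 2 P
  have hQc : Nat.card Q = 2 ^ 3 := card_sylow_aux hSL (hodd.mul hm) Q
  obtain ⟨k, hk, ⟨e⟩⟩ := CfsgLib.Classical.sl2_sylow_two_quaternion hodd Q
  have hk1 : k = 1 := by
    rw [Nat.card_congr e.toEquiv, Nat.card_eq_fintype_card, QuaternionGroup.card] at hQc
    have : 2 ^ k = 2 ^ 1 := by omega
    exact Nat.pow_right_injective le_rfl this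
  subst hk1
  have hsq : ∀ x : P, x ^ 2 = 1 := by
    rintro ⟨x, hx⟩
    have hx' : x ∈ (Q : Subgroup _).map (QuotientGroup.mk' _) := by
      rw [← hQ] at hx; exact hx
    obtain ⟨y, hy, rfl⟩ := hx'
    have h4 : (⟨y, hy⟩ : Q) ^ 4 = 1 := by
      apply e.injective
      rw [map_pow, map_one]
      generalize e ⟨y, hy⟩ = z
      revert z
      decide
    have h4' : y ^ 2 * y ^ 2 = 1 := by
      rw [← pow_add]; exact congrArg Subtype.val h4
    apply Subtype.ext
    change (QuotientGroup.mk' _ y) ^ 2 = 1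
    rw [← map_pow, QuotientGroup.mk'_apply, QuotientGroup.eq_one_iff]
    by_cases h1 : y ^ 2 = 1
    · rw [h1]; exact one_mem _
    · have := CfsgLib.Classical.sl2_eq_neg_one_of_mul_self h2 _ h1 h4'
      rw [Subgroup.mem_center_iff]
      intro g
      apply Subtype.ext
      change g.1 * (y ^ 2).1 = (y ^ 2).1 * g.1
      rw [this]; simp
  refine ⟨hc, ?_⟩
  have : Nontrivial P := Finite.one_lt_card_iff_nontrivial.1 (by omega)
  rw [Monoid.exponent_eq_prime_iff Nat.prime_two]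
  intro g hg
  exact orderOf_eq_prime (hsq g) hg

end Cfsg.Agent.S0276
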