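import Cfsg.Statements.S0341
import Cfsg.Agent.Lib.Perm.MultiTransHuppert
import Cfsg.Agent.Lib.FT.OddOrder

set_option autoImplicit false
open Cfsg

namespace Cfsg.Agent.S0341

open Subgroup MulAction CfsgLib CfsgLib.Perm
open scoped IsMulCommutative


/-- If a finite group acts faithfully and doubly transitively, no non-identity element fixes three points, some
non-identity element fixes two points, and some normal subgroup acts regularly, then the number of points
is `2^p` with `p` prime. -/
theorem result {G Ω : Type*} [Group G]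
    [MulAction G Ω] [Fintype Ω] [FaithfulSMul G Ω] (h2 : MulAction.IsMultiplyPretransitive G Ω 2)
    (h3 : ∀ g : G, ∀ a b c : Ω, a ≠ b → b ≠ c → a ≠ c → g • a = a → g • b = b → g • c = c → g = 1)
    (hfix : ∃ g : G, g ≠ 1 ∧ ∃ a b : Ω, a ≠ b ∧ g • a = a ∧ g • b = b)
    (N : Subgroup G) [N.Normal] (hNt : MulAction.IsPretransitive N Ω)
    (hNr : ∀ a : Ω, MulAction.stabilizer N a = ⊥) :
    ∃ p : ℕ, p.Prime ∧ Fintype.card Ω = 2 ^ p := by
  classical
  have : Finite G := Finite.of_injective _ (MulAction.toPerm_injective (α := G) (β := Ω))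
  obtain ⟨g₀, hg₀, a, b, hab, hga, hgb⟩ := hfix
  have hinj : ∀ m n : N, (m : G) • a = (n : G) • a → m = n := fun m n h =>
    (inv_mul_eq_one.1 (mem_bot.1 ((hNr a).le (show (n⁻¹ * m) • a = a by
      rw [mul_smul, inv_smul_eq_iff]; exact h)))).symm
  let ε : N ≃ Ω := Equiv.ofBijective (fun n => (n : G) • a) ⟨hinj, fun b => exists_smul_eq N a b⟩
  have hε : ∀ n, ε n = (n : G) • a := fun _ => rfl
  have hε1 : ε 1 = a := one_smul G a
  let _ : MulDistribMulAction (stabilizer G a) N :=
    MulDistribMulAction.compHom N ((MulAut.conjNormal : G →* MulAut N).comp (stabilizer G a).subtype)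
  have hsm : ∀ (h : stabilizer G a) (n : N), ε (h • n) = (h : G) • ε n := fun h n => by
    change ((h : G) * n * (h : G)⁻¹) • a = (h : G) • (n : G) • a
    rw [mul_smul, mul_smul, show (h : G)⁻¹ • a = a from inv_mem h.2]
  have hfix : ∀ h : stabilizer G a, h ≠ 1 → ∀ v w : N, v ≠ 1 → w ≠ 1 → h • v = v → h • w = w →
      v = w := fun h hh v w hv hw h1 h2 => by
    by_contra hvw
    exact hh (Subtype.ext (h3 h a (ε v) (ε w) (fun e => hv (ε.injective (e.symm.trans hε1.symm)))
      (ε.injective.ne hvw) (fun e => hw (ε.injective (e.symm.trans hε1.symm))) h.2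
      (by rw [← hsm, h1]) (by rw [← hsm, h2])))
  have htr : ∀ v w : N, v ≠ 1 → w ≠ 1 → ∃ g : stabilizer G a, g • v = w := fun v w hv hw => by
    obtain ⟨g, h1, h2⟩ := is_two_pretransitive_iff.1 h2
      (show a ≠ ε v from fun e => hv (ε.injective (e.symm.trans hε1.symm)))
      (show a ≠ ε w from fun e => hw (ε.injective (e.symm.trans hε1.symm)))
    exact ⟨⟨g, h1⟩, ε.injective ((hsm _ _).trans h2)⟩
  obtain ⟨v, rfl⟩ := ε.surjective b
  have hv : v ≠ 1 := fun e => hab (by rw [e, hε1])
  have hgv : (⟨g₀, hga⟩ : stabilizer G a) • v = v := ε.injective ((hsm _ _).trans hgb)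
  have hg1 : (⟨g₀, hga⟩ : stabilizer G a) ≠ 1 := fun e => hg₀ (congrArg Subtype.val e)
  have hsq : ∀ w : N, w ^ 2 = 1 := fun w => by
    by_cases hw : w = 1
    · rw [hw, one_pow]
    obtain ⟨g, rfl⟩ := htr v w hv hw
    by_contra h
    have h1 : v ^ 2 ≠ 1 := fun e => h (by rw [← smul_pow', e, smul_one])
    exact hv (by simpa [sq] using hfix _ hg1 _ _ h1 hv (by rw [smul_pow', hgv]) hgv)
  have : IsMulCommutative N := ⟨⟨fun x y => Commute.of_orderOf_dvd_two
    (fun w => orderOf_dvd_of_pow_eq_one (hsq w)) x y⟩⟩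
  have : Fact (Nat.Prime 2) := ⟨Nat.prime_two⟩
  obtain ⟨n, hn⟩ := IsPGroup.iff_card.1 (show IsPGroup 2 N from fun w => ⟨1, hsq w⟩)
  rw [← Nat.card_eq_fintype_card, ← Nat.card_congr ε]
  rcases Nat.even_or_odd (Nat.card (stabilizer G a)) with hev | hodd
  · obtain ⟨t, ht⟩ := exists_prime_orderOf_dvd_card' 2 hev.two_dvd
    have ht1 : t ≠ 1 := by rintro rfl; simp at ht
    let C : Subgroup N := (MulDistribMulAction.toMonoidHom N t).eqLocus (MonoidHom.id N)
    let f : N →* N := MulDistribMulAction.toMonoidHom N t * MonoidHom.id N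
    have hC : Nat.card C ≤ 2 := by
      by_cases h : ∃ w ∈ C, w ≠ 1
      · obtain ⟨w, hw, hw1⟩ := h
        refine (Set.ncard_le_ncard (s := C) (t := {1, w}) fun u hu => ?_).trans
          (Set.ncard_pair hw1.symm).le
        exact or_iff_not_imp_left.2 fun h => hfix t ht1 u w h hw1 hu hw
      · push Not at h
        rw [(eq_bot_iff_forall C).2 h, card_bot]
        omega
    have h1 : f.ker ≤ C := fun w hw =>
      mul_right_cancel ((show t • w * w = 1 from hw).trans ((sq w).symm.trans (hsq w)).symm)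
    have h2 : f.range ≤ C := by
      rintro _ ⟨w, rfl⟩
      change t • (t • w * w) = t • w * w
      rw [smul_mul', smul_smul, ← sq, ← ht, pow_orderOf_eq_one, one_smul, mul_comm]
    have h4 := Nat.mul_le_mul ((card_le_of_le h1).trans hC) ((card_le_of_le h2).trans hC)
    rw [← index_ker, f.ker.card_mul_index, hn] at h4
    have h5 : 2 < Nat.card N := by
      by_contra h
      refine hg₀ (FaithfulSMul.eq_of_smul_eq_smul (α := Ω) fun x => ?_)
      obtain ⟨w, rfl⟩ := ε.surjective x
      have : ({1, v} : Set N) = Set.univ := Set.eq_of_subset_of_ncard_le (Set.subset_univ _) (by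
        rw [Set.ncard_pair hv.symm, Set.ncard_univ]; omega)
      rcases (this ▸ Set.mem_univ w : w ∈ ({1, v} : Set N)) with rfl | rfl
      · rw [one_smul, hε1, hga]
      · rw [one_smul, hgb]
    rw [hn] at h5 ⊢
    have h6 : n ≤ 2 := (Nat.pow_le_pow_iff_right one_lt_two).1 h4
    exact ⟨2, Nat.prime_two, by interval_cases n <;> omega⟩
  have := FT.odd_order_solvable hodd
  have : Nontrivial N := ⟨v, 1, hv⟩
  let _ : DistribMulAction (stabilizer G a) (Additive N) :=
    { smul := fun g v => .ofMul (g • v.toMul)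
      one_smul := fun v => congrArg Additive.ofMul (one_smul _ v.toMul)
      mul_smul := fun g h v => congrArg Additive.ofMul (mul_smul g h v.toMul)
      smul_zero := fun g => congrArg Additive.ofMul (smul_one g)
      smul_add := fun g v w => congrArg Additive.ofMul (smul_mul' g v.toMul w.toMul) }
  have : FaithfulSMul (stabilizer G a) (Additive N) := ⟨fun {g h} e =>
    Subtype.ext (FaithfulSMul.eq_of_smul_eq_smul (α := Ω) fun x => by
      obtain ⟨w, rfl⟩ := ε.surjective x
      rw [← hsm, ← hsm]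
      exact congrArg ε (e (.ofMul w)))⟩
  rcases huppert (G := stabilizer G a) (V := Additive N) htr Nat.prime_two hn with
    ⟨F, _, _, e, he⟩ | ⟨A, E, -, -, h4, h5, -⟩
  swap
  · exact absurd (h4.trans h5) (by norm_num)
  obtain ⟨r, hr, hrd⟩ := Nat.exists_prime_and_dvd (n := Nat.card (zpowers (⟨g₀, hga⟩ :
    stabilizer G a))) (by rwa [Nat.card_zpowers, Ne, orderOf_eq_one_iff])
  obtain ⟨h, hh, hhr⟩ := Core.exists_mem_orderOf_eq_of_dvd_card hr hrd
  have hh1 : h ≠ 1 := by rintro rfl; exact hr.one_lt.ne (by rw [← hhr, orderOf_one])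
  have hhv : h • v = v := (zpowers_le.2 (show _ ∈ stabilizer _ v from hgv)) hh
  obtain ⟨c, σ, hc⟩ := he h
  set u := e (.ofMul v) with hu
  have hu0 : u ≠ 0 := fun h0 => hv ((map_eq_zero_iff _ e.injective).1 h0)
  have hcu : c * σ u = u := (hc _).symm.trans (congrArg e hhv)
  have hact : ∀ (k : ℕ) (y : F), e (h ^ k • e.symm (u * y)) = u * (σ ^ k) y := fun k y => by
    induction k with
    | zero => simp
    | succ k ih => rw [pow_succ', mul_smul, hc, ih, map_mul, ← mul_assoc, hcu, pow_succ']; rfl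
  have := Fact.mk hr
  have hσ : orderOf σ = r := by
    refine orderOf_eq_prime (RingEquiv.ext fun y => mul_left_cancel₀ hu0 ?_) fun h1 => hh1 ?_
    · rw [← hact, ← hhr, pow_orderOf_eq_one, one_smul, e.apply_symm_apply]; rfl
    · refine FaithfulSMul.eq_of_smul_eq_smul (α := Additive N) fun x => e.injective ?_
      have := hact 1 (u⁻¹ * e x)
      rw [mul_inv_cancel_left₀ hu0, e.symm_apply_apply, pow_one, pow_one, h1] at this
      rw [this, one_smul]
      exact mul_inv_cancel_left₀ hu0 _
  refine ⟨r, hr, ?_⟩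
  have : Finite (RingAut F) := Finite.of_injective (fun f : RingAut F => (f : F → F))
    DFunLike.coe_injective
  have := Fintype.ofFinite (zpowers σ)
  have h4 := FixedPoints.finrank_eq_card (zpowers σ) F
  rw [← Nat.card_eq_fintype_card, Nat.card_zpowers, hσ] at h4
  rw [← h4, show Nat.card N = Nat.card F from Nat.card_congr e.toEquiv,
    Module.natCard_eq_pow_finrank (K := FixedPoints.subfield (zpowers σ) F)]
  congr 1
  rw [← Set.ncard_pair (zero_ne_one (α := F))]
  refine congrArg Set.ncard (Set.ext fun y => ⟨fun hy => ?_, ?_⟩ :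
    (FixedPoints.subfield (zpowers σ) F : Set F) = {0, 1})
  · refine or_iff_not_imp_left.2 fun hy0 => mul_left_cancel₀ hu0 ?_
    have h5 := hact 1 y
    rw [pow_one, pow_one, show σ y = y from hy ⟨σ, mem_zpowers σ⟩, ← e.eq_symm_apply] at h5
    have h6 := hfix h hh1 (e.symm (u * y)).toMul v
      (fun e' => mul_ne_zero hu0 hy0 ((map_eq_zero_iff _ e.symm.injective).1 e')) hv h5 hhv
    rw [mul_one]
    exact (e.apply_symm_apply _).symm.trans (congrArg (fun x => e (.ofMul x)) h6)
  · rintro (rfl | rfl)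
    · exact zero_mem _
    · exact one_mem _

end Cfsg.Agent.S0341
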