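import Cfsg.Statements.S0429
import Cfsg.Agent.S0410

set_option autoImplicit false
open Cfsg

namespace Cfsg.Agent.S0429

open Finset

section
variable {V : Type*} [Fintype V] [DecidableEq V] (G : SimpleGraph V) [DecidableRel G.Adj]

/-- adjacency matrix -/
def a (u v : V) : ℤ := if G.Adj u v then 1 else 0
/-- Gram matrix -/
def N (u v : V) : ℤ := (if u = v then 2 else 0) + 1 - a G u v
/-- the parameters -/
structure Hyp : Prop where
  card : Fintype.card V = 77
  deg : ∀ u, ∑ v, a G u v = 16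
  com : ∀ u v, ∑ w, a G u w * a G v w = (if u = v then 12 else 0) + 4 - 4 * a G u v
/-- eigenfunctions for the eigenvalue `-6` modulo constants -/
def Eig (k : ℤ) (p : V → ℤ) : Prop := ∀ u, ∑ w, a G u w * p w = 2 * k - 6 * p u
/-- the function of a pair of non-adjacent vertices -/
def q (x y z : V) : ℤ := ∑ b, a G x b * a G y b * N G b z + 2 * N G x z + 2 * N G y z - 6
/-- distinct and non-adjacent -/
def NA (x y : V) : Prop := x ≠ y ∧ ¬ G.Adj x y
/-- lines -/
def Ln (p : V → ℤ) : Prop := ∃ x y, NA G x y ∧ p = q G x y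
/-- indicator -/
def ind (C : Finset V) (z : V) : ℤ := if z ∈ C then 1 else 0
/-- points -/
def Pt (C : Finset V) : Prop := Eig G 3 (ind C)
/-- vertices of a line -/
def L (p : V → ℤ) : Finset V := univ.filter fun z => p z = 2

variable {G}

omit [Fintype V] [DecidableEq V] in
theorem a_comm (u v : V) : a G u v = a G v u := by simp [a, G.adj_comm]
omit [Fintype V] [DecidableEq V] in
theorem a_adj {u v : V} (h : G.Adj u v) : a G u v = 1 := if_pos h
omit [Fintype V] [DecidableEq V] in
theorem a_na {u v : V} (h : ¬ G.Adj u v) : a G u v = 0 := if_neg h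
omit [Fintype V] [DecidableEq V] in
theorem a_nonneg (u v : V) : 0 ≤ a G u v := by unfold a; split_ifs <;> norm_num
omit [Fintype V] in
theorem N_comm (u v : V) : N G u v = N G v u := by simp [N, a_comm u v, eq_comm]
omit [Fintype V] [DecidableEq V] [DecidableRel G.Adj] in
theorem NA.symm {x y : V} (h : NA G x y) : NA G y x := ⟨h.1.symm, fun e => h.2 e.symm⟩
theorem q_comm (x y : V) : q G x y = q G y x := by
  funext z
  simp only [q, mul_comm (a G x _) (a G y _)]
  ring

theorem hyp_of (h : G.IsSRGWith 77 16 0 4) : Hyp G := by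
  have e : ∀ u v, ∑ w, a G u w * a G v w = Fintype.card (G.commonNeighbors u v) := by
    intro u v
    rw [Fintype.card_subtype, card_filter]
    push_cast
    refine sum_congr rfl fun w _ => ?_
    simp only [a, SimpleGraph.mem_commonNeighbors]
    by_cases h1 : G.Adj u w <;> by_cases h2 : G.Adj v w <;> simp [h1, h2]
  have d : ∀ u, ∑ v, a G u v = 16 := by
    intro u
    have := h.regular u
    rw [SimpleGraph.degree, SimpleGraph.neighborFinset_eq_filter, card_filter] at this
    unfold a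
    exact_mod_cast this
  refine ⟨h.card, d, fun u v => ?_⟩
  by_cases h1 : u = v
  · subst h1
    rw [if_pos rfl, a_na (G.irrefl), sum_congr rfl (g := a G u) fun w _ => by unfold a; split_ifs <;> rfl, d]
    rfl
  · rw [e, if_neg h1]
    by_cases h2 : G.Adj u v
    · rw [h.of_adj u v h2, a_adj h2]; rfl
    · rw [h.of_not_adj h1 h2, a_na h2]; rfl

variable (h : Hyp G)
include h

theorem Eig.sum {k : ℤ} {p : V → ℤ} (hp : Eig G k p) : ∑ z, p z = 7 * k := by
  have h1 : ∑ u, ∑ w, a G u w * p w = ∑ u, (2 * k - 6 * p u) := sum_congr rfl fun u _ => hp u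
  rw [sum_comm, sum_congr rfl fun w _ => by
    rw [← sum_mul, sum_congr rfl fun u _ => a_comm u w, h.deg]] at h1
  simp only [sum_sub_distrib, ← mul_sum, sum_const, card_univ, h.card, nsmul_eq_mul, Nat.cast_ofNat] at h1
  omega

theorem Eig.N_ip {k : ℤ} {p : V → ℤ} (hp : Eig G k p) (u : V) : ∑ z, N G u z * p z = 8 * p u + 5 * k := by
  have h1 := hp u
  have h2 := hp.sum h
  simp only [N, sub_mul, add_mul, one_mul, sum_sub_distrib, sum_add_distrib, ite_mul, zero_mul, sum_ite_eq,
    mem_univ, if_true]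
  omega

theorem eig_N (u : V) : Eig G 9 (N G u) := fun v => by
  have h1 := h.com v u
  have h2 := h.deg v
  simp only [N, mul_sub, mul_add, mul_one, sum_sub_distrib, sum_add_distrib, mul_ite, mul_zero, sum_ite_eq,
    mem_univ, if_true, h1, h2, a_comm v u, eq_comm (a := v)]
  split_ifs <;> omega

theorem com_na {x y : V} (hxy : NA G x y) : ∑ b, a G x b * a G y b = 4 := by
  rw [h.com, if_neg hxy.1, a_na hxy.2]; rfl

theorem eig_q {x y : V} (hxy : NA G x y) : Eig G 6 (q G x y) := fun v => by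
  have h1 : ∑ w, a G v w * ∑ b, a G x b * a G y b * N G b w =
      72 - 6 * ∑ b, a G x b * a G y b * N G b v := by
    simp only [mul_sum]
    rw [sum_comm, sum_congr rfl fun b _ => show ∑ w, a G v w * (a G x b * a G y b * N G b w) =
      18 * (a G x b * a G y b) - 6 * (a G x b * a G y b * N G b v) by
        rw [sum_congr rfl fun w _ => mul_left_comm _ _ _, ← mul_sum, eig_N h b v]; ring,
      sum_sub_distrib, ← mul_sum, com_na h hxy]
    rfl
  have h2 := eig_N h x v
  have h3 := eig_N h y v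
  have h4 := h.deg v
  simp only [q, mul_sub, mul_add, sum_sub_distrib, sum_add_distrib, h1, mul_left_comm _ (2 : ℤ), ← mul_sum,
    ← sum_mul, h2, h3, h4]
  ring

theorem q_ip {x y : V} (hxy : NA G x y) {k : ℤ} {p : V → ℤ} (hp : Eig G k p) :
    ∑ z, q G x y z * p z = 8 * (∑ b, a G x b * a G y b * p b + 2 * p x + 2 * p y) - 2 * k := by
  have h1 : ∑ z, (∑ b, a G x b * a G y b * N G b z) * p z = 8 * ∑ b, a G x b * a G y b * p b + 20 * k := by
    simp only [sum_mul]
    rw [sum_comm, sum_congr rfl fun b _ => show ∑ w, a G x b * a G y b * N G b w * p w =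
      8 * (a G x b * a G y b * p b) + 5 * k * (a G x b * a G y b) by
        rw [sum_congr rfl fun w _ => mul_assoc _ _ _, ← mul_sum, hp.N_ip h b]; ring,
      sum_add_distrib, ← mul_sum, ← mul_sum, com_na h hxy]
    ring
  simp only [q, sub_mul, add_mul, sum_sub_distrib, sum_add_distrib, h1, mul_assoc (2 : ℤ), ← mul_sum,
    hp.N_ip h, hp.sum h]
  ring

theorem tri {x z b : V} (h1 : G.Adj x z) (h2 : G.Adj x b) : ¬ G.Adj b z := fun h3 => by
  have h4 := h.com x z
  rw [if_neg h1.ne, a_adj h1] at h4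
  have h5 := single_le_sum (f := fun w => a G x w * a G z w)
    (fun w _ => mul_nonneg (a_nonneg _ _) (a_nonneg _ _)) (mem_univ b)
  simp only [a_adj h2, a_adj h3.symm] at h5
  omega

theorem q_adj {x y z : V} (hxy : NA G x y) (hz : G.Adj x z) : q G x y z = 0 := by
  have h1 : ∑ b, a G x b * a G y b * N G b z = ∑ b, ((if b = z then 2 * a G y z else 0) + a G x b * a G y b) := by
    refine sum_congr rfl fun b _ => ?_
    by_cases hb : G.Adj x b
    · rw [N, a_na (tri h hz hb), a_adj hb]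
      split_ifs with e
      · rw [e]; ring
      · ring
    · rw [a_na hb, if_neg (by rintro rfl; exact hb hz)]; ring
  have h2 : y ≠ z := by rintro rfl; exact hxy.2 hz
  rw [q, h1, sum_add_distrib, com_na h hxy, N, N, if_neg hz.ne, if_neg h2, a_adj hz]
  simp only [sum_ite_eq', mem_univ, if_true]
  ring

omit h in
theorem q_self {x y : V} (hxy : NA G x y) : q G x y x = 2 := by
  rw [q, sum_eq_zero, N, N, if_pos rfl, if_neg hxy.1.symm, a_na G.irrefl, a_na hxy.symm.2]
  · rfl
  · intro b _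
    by_cases hb : G.Adj x b
    · rw [N, if_neg hb.ne', a_adj hb.symm]; ring
    · rw [a_na hb]; ring

theorem ipL {p : V → ℤ} {k : ℤ} (hp : Eig G k p) {x z : V} (h0 : ∀ b, G.Adj x b → p b = 0) (hxz : NA G x z) :
    ∑ w, q G x z w * p w = 16 * p x + 16 * p z - 2 * k := by
  rw [q_ip h hxz hp, sum_eq_zero]
  · ring
  · intro b _
    by_cases hb : G.Adj x b
    · rw [h0 b hb, mul_zero]
    · rw [a_na hb]; ring

theorem ipq {x y z : V} (hxy : NA G x y) (hxz : NA G x z) :
    ∑ w, q G x z w * q G x y w = 20 + 16 * q G x y z := by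
  rw [ipL h (eig_q h hxy) (fun b hb => q_adj h hxy hb) hxz, q_self hxy]; ring

theorem q_sq {x y : V} (hxy : NA G x y) : ∑ w, q G x y w * q G x y w = 52 := by
  rw [ipq h hxy hxy, q_comm, q_self hxy.symm]; rfl

theorem q_diff {x y z : V} (hxy : NA G x y) (hxz : NA G x z) :
    ∑ w, (q G x z w - q G x y w) ^ 2 = 64 - 32 * q G x y z := by
  rw [sum_congr rfl fun w _ => show (q G x z w - q G x y w) ^ 2 =
    q G x z w * q G x z w + q G x y w * q G x y w - 2 * (q G x z w * q G x y w) by ring,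
    sum_sub_distrib, sum_add_distrib, ← mul_sum, q_sq h hxy, q_sq h hxz, ipq h hxy hxz]
  ring

theorem q_range {x y : V} (hxy : NA G x y) (z : V) : 0 ≤ q G x y z ∧ q G x y z ≤ 2 := by
  by_cases h1 : x = z
  · rw [← h1, q_self hxy]; norm_num
  by_cases h2 : y = z
  · rw [← h2, q_comm, q_self hxy.symm]; norm_num
  by_cases h3 : G.Adj x z
  · rw [q_adj h hxy h3]; norm_num
  by_cases h4 : G.Adj y z
  · rw [q_comm, q_adj h hxy.symm h4]; norm_num
  have hxz : NA G x z := ⟨h1, h3⟩
  have hyz : NA G y z := ⟨h2, h4⟩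
  have e1 := ipq h hxy hxz
  have e2 := ipq h hxy.symm hyz
  have e3 := ipq h hyz hxy.symm
  have e4 := ipq h hyz.symm hxz.symm
  rw [q_comm y x] at e2 e3
  rw [q_comm z x, q_comm z y] at e4
  rw [sum_congr rfl fun w _ => mul_comm _ _, e2] at e3
  have e5 := q_diff h hxy hxz
  have e6 : 0 ≤ ∑ w, (q G x z w - q G x y w) ^ 2 := sum_nonneg fun w _ => sq_nonneg _
  have e7 := sq_sum_le_card_mul_sum_sq (s := univ) (f := fun w => q G x y w + q G x z w + q G y z w)
  rw [sum_congr rfl fun w _ => show (q G x y w + q G x z w + q G y z w) ^ 2 =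
    q G x y w * q G x y w + q G x z w * q G x z w + q G y z w * q G y z w + 2 * (q G x z w * q G x y w) +
      2 * (q G y z w * q G x y w) + 2 * (q G x z w * q G y z w) by ring] at e7
  simp only [sum_add_distrib, ← mul_sum, q_sq h hxy, q_sq h hxz, q_sq h hyz, e1, e2, e4, (eig_q h hxy).sum h,
    (eig_q h hxz).sum h, (eig_q h hyz).sum h, card_univ, h.card] at e7
  omega

theorem q_eq {x y z : V} (hxy : NA G x y) (h2 : q G x y z = 2) (hz : x ≠ z) : NA G x z ∧ q G x y = q G x z := by
  have hxz : NA G x z := ⟨hz, fun e => by rw [q_adj h hxy e] at h2; omega⟩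
  have e := q_diff h hxy hxz
  rw [h2] at e
  refine ⟨hxz, funext fun w => ?_⟩
  have := (sum_eq_zero_iff_of_nonneg fun w _ => sq_nonneg _).1 e w (mem_univ w)
  exact (sub_eq_zero.1 (pow_eq_zero_iff two_ne_zero |>.1 this)).symm

theorem Ln.base {p : V → ℤ} (hp : Ln G p) {u : V} (hu : p u = 2) : ∃ y, NA G u y ∧ p = q G u y := by
  obtain ⟨x, y, hxy, rfl⟩ := hp
  by_cases e : x = u
  · exact ⟨y, e ▸ hxy, e ▸ rfl⟩
  · obtain ⟨h1, h2⟩ := q_eq h hxy hu e
    exact ⟨x, h1.symm, h2.trans (q_comm _ _)⟩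

theorem Ln.two {p : V → ℤ} (hp : Ln G p) {u v : V} (hu : p u = 2) (hv : p v = 2) (e : u ≠ v) :
    NA G u v ∧ p = q G u v := by
  obtain ⟨y, h1, rfl⟩ := hp.base h hu
  exact q_eq h h1 hv e

theorem Ln.ip {p : V → ℤ} (hp : Ln G p) {x z : V} (hx : p x = 2) (hxz : NA G x z) :
    ∑ w, q G x z w * p w = 20 + 16 * p z := by
  obtain ⟨y, h1, rfl⟩ := hp.base h hx
  exact ipq h h1 hxz

theorem Ln.card {p : V → ℤ} (hp : Ln G p) : (L p).card = 5 := by
  obtain ⟨x, y, hxy, rfl⟩ := hp
  have h1 : ∑ w, (q G x y w * q G x y w - q G x y w) = ∑ w, 2 * if q G x y w = 2 then 1 else 0 := by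
    refine sum_congr rfl fun w _ => ?_
    obtain ⟨h1, h2⟩ := q_range h hxy w
    generalize q G x y w = t at *
    interval_cases t <;> rfl
  rw [sum_sub_distrib, q_sq h hxy, (eig_q h hxy).sum h, ← mul_sum, sum_boole] at h1
  change _ = 2 * ((L (q G x y)).card : ℤ) at h1
  omega

theorem Pt.card {C : Finset V} (hC : Pt G C) : C.card = 21 := by
  have := Eig.sum h hC
  simp only [ind, sum_boole, filter_mem_eq_inter, univ_inter] at this
  omega

omit h in
theorem Pt.na {C : Finset V} (hC : Pt G C) {u b : V} (hu : u ∈ C) (hb : G.Adj u b) : b ∉ C := fun e => by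
  have h1 := hC u
  have h5 := single_le_sum (f := fun w => a G u w * ind C w)
    (fun w _ => mul_nonneg (a_nonneg _ _) (by unfold ind; split_ifs <;> norm_num)) (mem_univ b)
  simp only [a_adj hb, h1] at h5
  simp [ind, hu, e] at h5

theorem Pt.other {C : Finset V} (hC : Pt G C) {u v : V} (hu : u ∈ C) (hv : v ∈ C) (e : u ≠ v) :
    ∃ D, Pt G D ∧ ∀ z, q G u v z = ind C z + ind D z := by
  have huv : NA G u v := ⟨e, fun e => hC.na hu e hv⟩
  have h1 := ipL h hC (fun b hb => if_neg (hC.na hu hb)) huv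
  rw [ind, ind, if_pos hu, if_pos hv] at h1
  have h2 : ∑ w, (q G u v w - ind C w) * (q G u v w - ind C w - 1) = 0 := by
    rw [sum_congr rfl fun w _ => show (q G u v w - ind C w) * (q G u v w - ind C w - 1) =
      q G u v w * q G u v w - 2 * (q G u v w * ind C w) + 2 * ind C w - q G u v w by
        unfold ind; split_ifs <;> ring]
    simp only [sum_sub_distrib, sum_add_distrib, ← mul_sum, q_sq h huv, h1, Eig.sum h hC, (eig_q h huv).sum h]
    rfl
  have h3 : ∀ z, q G u v z = ind C z + ind (univ.filter fun w => q G u v w - ind C w = 1) z := by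
    intro z
    have := (sum_eq_zero_iff_of_nonneg fun w _ => by
      generalize q G u v w - ind C w = t
      rcases le_or_gt t 0 with h | h <;> nlinarith).1 h2 z (mem_univ z)
    rw [ind.eq_1 (univ.filter _)]
    simp only [mem_filter, mem_univ, true_and]
    rcases mul_eq_zero.1 this with h | h <;> split_ifs <;> omega
  refine ⟨_, fun w => ?_, h3⟩
  have h4 := eig_q h huv w
  have h5 := hC w
  generalize (univ.filter fun w => q G u v w - ind C w = 1) = D at h3 ⊢
  simp only [h3, mul_add, sum_add_distrib] at h4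
  omega

theorem Ln.build {p : V → ℤ} (hp : Ln G p) {z : V} (hz : p z = 1) :
    ∃ C, Pt G C ∧ z ∈ C ∧ L p ⊆ C ∧ ∀ D, Pt G D → z ∈ D → L p ⊆ D → D = C := by
  have mL : ∀ {p : V → ℤ} {x : V}, x ∈ L p ↔ p x = 2 := by simp [L]
  have na : ∀ x ∈ L p, NA G x z := fun x hx => by
    obtain ⟨y, h1, rfl⟩ := hp.base h (mL.1 hx)
    refine ⟨?_, fun e => by rw [q_adj h h1 e] at hz; omega⟩
    rintro rfl
    rw [mL.1 hx] at hz; omega
  have ln : ∀ x ∈ L p, Ln G (q G x z) := fun x hx => ⟨x, z, na x hx, rfl⟩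
  have qz : ∀ x ∈ L p, q G x z z = 2 := fun x hx => by rw [q_comm, q_self (na x hx).symm]
  have one : ∀ x ∈ L p, ∀ y ∈ L p, x ≠ y → q G x z y = 1 := fun x hx y hy e => by
    obtain ⟨h1, h2⟩ := hp.two h (mL.1 hx) (mL.1 hy) e
    have h3 := hp.ip h (mL.1 hx) (na x hx)
    have h4 := ipq h (na x hx) h1
    rw [← h2, sum_congr rfl fun w _ => mul_comm _ _, h3, hz] at h4
    omega
  have ip36 : ∀ x ∈ L p, ∀ y ∈ L p, ∑ w, q G y z w * q G x z w = (if y = x then 16 else 0) + 36 := by
    intro x hx y hy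
    split_ifs with e
    · rw [e, q_sq h (na x hx)]; rfl
    · rw [q_comm y, (ln x hx).ip h (qz x hx) (na y hy).symm, one x hx y hy (Ne.symm e)]; rfl
  let C := univ.filter fun u => ∃ x ∈ L p, q G x z u = 2
  have mC : ∀ {u}, u ∈ C ↔ ∃ x ∈ L p, q G x z u = 2 := by simp [C]
  let e : V → ℤ := fun u => ∑ x ∈ L p, q G x z u - 2 * N G z u
  have val : ∀ u ≠ z, ∀ x ∈ L p, q G x z u = 2 → ∀ y ∈ L p, q G y z u = (if x = y then 1 else 0) + 1 := by
    intro u hu x hx h2 y hy
    split_ifs with e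
    · rw [← e, h2]; rfl
    · obtain ⟨h3, h4⟩ := (ln x hx).two h (qz x hx) h2 hu.symm
      have h5 := (ln y hy).ip h (qz y hy) h3
      rw [← h4, ip36 y hy x hx, if_neg e] at h5
      omega
  have e4 : ∀ u ∈ C, e u = 4 := by
    intro u hu
    by_cases h1 : u = z
    · simp only [e, h1]
      rw [sum_congr rfl qz, sum_const, hp.card h, N, if_pos rfl, a_na G.irrefl]; rfl
    · obtain ⟨x, hx, h2⟩ := mC.1 hu
      obtain ⟨h3, -⟩ := (ln x hx).two h (qz x hx) h2 (Ne.symm h1)
      simp only [e]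
      rw [sum_congr rfl (val u h1 x hx h2), sum_add_distrib, sum_ite_eq, if_pos hx, sum_const, hp.card h, N,
        if_neg h3.1, a_na h3.2]
      rfl
  have cC : (21 : ℤ) ≤ ∑ u, ind C u := by
    have h1 : ∑ x ∈ L p, ∑ u, (if q G x z u = 2 then (1 : ℤ) else 0) = 25 := by
      rw [sum_congr rfl fun x hx => show _ = (5 : ℤ) by
        rw [sum_boole]; exact_mod_cast (ln x hx).card h, sum_const, hp.card h]
      rfl
    have h2 : ∑ u, ∑ x ∈ L p, (if q G x z u = 2 then (1 : ℤ) else 0) ≤ ∑ u, ((if u = z then 4 else 0) + ind C u) := by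
      refine sum_le_sum fun u _ => ?_
      by_cases h4 : u ∈ C
      · rw [ind, if_pos h4]
        split_ifs with h1
        · rw [h1, sum_congr rfl fun x hx => if_pos (qz x hx), sum_const, hp.card h]; rfl
        · obtain ⟨x, hx, h2⟩ := mC.1 h4
          rw [sum_congr rfl (g := fun y => if x = y then 1 else 0) fun y hy => by
            rw [val u h1 x hx h2 y hy]; by_cases e : x = y <;> simp [e], sum_ite_eq, if_pos hx]
          rfl
      · rw [sum_eq_zero fun x hx => if_neg fun e => h4 (mC.2 ⟨x, hx, e⟩), ind, if_neg h4]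
        split_ifs <;> norm_num
    rw [sum_comm, h1, sum_add_distrib, sum_ite_eq', if_pos (mem_univ _)] at h2
    omega
  have ee : ∑ u, e u ^ 2 = 336 := by
    have h1 : ∑ u, (∑ x ∈ L p, q G x z u) * (∑ x ∈ L p, q G x z u) = 980 := by
      simp only [sum_mul_sum]
      rw [sum_comm, sum_congr rfl fun y hy => show _ = (196 : ℤ) by
        rw [sum_comm, sum_congr rfl fun x hx => ip36 x hx y hy, sum_add_distrib, sum_ite_eq, if_pos hy, sum_const,
          hp.card h]
        rfl, sum_const, hp.card h]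
      rfl
    have h2 : ∑ u, N G z u * ∑ x ∈ L p, q G x z u = 230 := by
      simp only [mul_sum]
      rw [sum_comm, sum_congr rfl fun x hx => show _ = (46 : ℤ) by
        rw [(eig_q h (na x hx)).N_ip h, qz x hx]; rfl, sum_const, hp.card h]
      rfl
    have h3 := (eig_N h z).N_ip h z
    rw [N.eq_1 G z z, if_pos rfl, a_na G.irrefl] at h3
    rw [sum_congr rfl fun u _ => show e u ^ 2 = (∑ x ∈ L p, q G x z u) * (∑ x ∈ L p, q G x z u) -
      4 * (N G z u * ∑ x ∈ L p, q G x z u) + 4 * (N G z u * N G z u) by simp only [e]; ring,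
      sum_add_distrib, sum_sub_distrib, ← mul_sum, ← mul_sum, h1, h2, h3]
    rfl
  have e0 : ∀ u, e u = 4 * ind C u := by
    have h1 : ∑ u, (e u - 4 * ind C u) ^ 2 = ∑ u, (e u ^ 2 - 16 * ind C u) := by
      refine sum_congr rfl fun u _ => ?_
      unfold ind
      split_ifs with h4
      · rw [e4 u h4]; rfl
      · ring
    rw [sum_sub_distrib, ← mul_sum, ee] at h1
    have h2 : ∑ u, (e u - 4 * ind C u) ^ 2 = 0 := le_antisymm (by omega) (sum_nonneg fun w _ => sq_nonneg _)
    intro u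
    exact sub_eq_zero.1 (pow_eq_zero_iff two_ne_zero |>.1
      ((sum_eq_zero_iff_of_nonneg fun w _ => sq_nonneg _).1 h2 u (mem_univ u)))
  have hC : Pt G C := fun v => by
    have h1 : ∑ w, a G v w * e w = 24 - 6 * e v := by
      simp only [e, mul_sub, sum_sub_distrib, mul_left_comm _ (2 : ℤ), ← mul_sum, eig_N h z v]
      simp only [mul_sum]
      rw [sum_comm, sum_congr rfl fun x hx => eig_q h (na x hx) v, sum_sub_distrib, sum_const, hp.card h]
      ring
    simp only [e0, mul_left_comm _ (4 : ℤ), ← mul_sum] at h1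
    omega
  obtain ⟨x0, hx0⟩ : (L p).Nonempty := card_pos.1 (by rw [hp.card h]; norm_num)
  refine ⟨C, hC, mC.2 ⟨x0, hx0, qz x0 hx0⟩, fun x hx => mC.2 ⟨x, hx, q_self (na x hx)⟩, fun D hD h1 h2 => ?_⟩
  refine (eq_of_subset_of_card_le (fun u hu => ?_) (by rw [hC.card h, hD.card h])).symm
  obtain ⟨x, hx, h3⟩ := mC.1 hu
  obtain ⟨D', -, h4⟩ := hD.other h (h2 hx) h1 (na x hx).1
  rw [h4] at h3
  by_contra h5
  unfold ind at h3
  rw [if_neg h5] at h3
  split_ifs at h3 <;> omega

theorem two_pts {u v : V} (huv : NA G u v) :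
    ∃ C D, C ≠ D ∧ ∀ E, (Pt G E ∧ u ∈ E ∧ v ∈ E) ↔ E = C ∨ E = D := by
  have hp : Ln G (q G u v) := ⟨u, v, huv, rfl⟩
  have mL : ∀ {x : V}, x ∈ L (q G u v) ↔ q G u v x = 2 := by simp [L]
  have hu : q G u v u = 2 := q_self huv
  have hv : q G u v v = 2 := by rw [q_comm, q_self huv.symm]
  obtain ⟨z, hz⟩ : ∃ z, q G u v z = 1 := by
    by_contra h1
    have h2 : ∑ w, q G u v w * q G u v w = ∑ w, 2 * q G u v w := by
      refine sum_congr rfl fun w _ => ?_
      obtain ⟨h3, h4⟩ := q_range h huv w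
      have h5 : q G u v w ≠ 1 := fun e => h1 ⟨w, e⟩
      generalize q G u v w = t at *
      interval_cases t <;> simp_all
    rw [q_sq h huv, ← mul_sum, (eig_q h huv).sum h] at h2
    omega
  obtain ⟨C, hC, h1, h2, h3⟩ := hp.build h hz
  obtain ⟨D, hD, h4⟩ := hC.other h (h2 (mL.2 hu)) (h2 (mL.2 hv)) huv.1
  have sub : ∀ {E E' : Finset V}, (∀ z, q G u v z = ind E z + ind E' z) → L (q G u v) ⊆ E ∧ L (q G u v) ⊆ E' := by
    intro E E' h5
    constructor <;> intro x hx <;> have h6 := mL.1 hx <;> rw [h5] at h6 <;> unfold ind at h6 <;>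
      split_ifs at h6 <;> first | assumption | omega
  refine ⟨C, D, ?_, fun E => ⟨fun ⟨hE, e1, e2⟩ => ?_, ?_⟩⟩
  · rintro rfl
    rw [h4] at hz; omega
  · obtain ⟨E', hE', h5⟩ := hE.other h e1 e2 huv.1
    by_cases h6 : z ∈ E
    · exact .inl (h3 E hE h6 (sub h5).1)
    · have h7 : z ∈ E' := by
        by_contra h7
        rw [h5, ind, ind, if_neg h6, if_neg h7] at hz; omega
      rw [h3 E' hE' h7 (sub h5).2] at h5
      refine .inr (Finset.ext fun w => ?_)
      have h8 : ind E w = ind D w := by have := h4 w; have := h5 w; omega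
      unfold ind at h8
      split_ifs at h8 <;> simp_all
  · rintro (rfl | rfl)
    · exact ⟨hC, h2 (mL.2 hu), h2 (mL.2 hv)⟩
    · exact ⟨hD, (sub h4).2 (mL.2 hu), (sub h4).2 (mL.2 hv)⟩

theorem design : ∃ (B : V → Finset (Fin 22)), Function.Injective B ∧ IsSteinerSystem 3 6 (Set.range B) ∧
    ∀ u v, G.Adj u v ↔ Disjoint (B u) (B v) := by
  classical
  let P := {C : Finset V // Pt G C}
  let B : V → Finset P := fun z => univ.filter fun C => z ∈ C.1
  have mB : ∀ {z C}, C ∈ B z ↔ z ∈ C.1 := by simp [B]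
  have h1 : ∀ u v, u ≠ v → ((B u ∩ B v).card : ℤ) = 2 - 2 * a G u v := by
    intro u v e
    by_cases h2 : G.Adj u v
    · rw [a_adj h2, eq_empty_of_forall_notMem (s := B u ∩ B v) fun C hC =>
        C.2.na (mB.1 (mem_inter.1 hC).1) h2 (mB.1 (mem_inter.1 hC).2)]
      rfl
    · obtain ⟨C, D, h3, h4⟩ := two_pts h ⟨e, h2⟩
      have hC := (h4 C).2 (.inl rfl)
      have hD := (h4 D).2 (.inr rfl)
      have : B u ∩ B v = {⟨C, hC.1⟩, ⟨D, hD.1⟩} := by
        ext E
        rw [mem_inter, mB, mB, mem_insert, mem_singleton, Subtype.ext_iff, Subtype.ext_iff, ← h4]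
        exact ⟨fun h => ⟨E.2, h⟩, fun h => h.2⟩
      rw [this, card_pair fun e => h3 (congrArg Subtype.val e), a_na h2]
      rfl
  have dc : ∀ s : Finset P, ∑ v, (s ∩ B v).card = s.card * 21 := by
    intro s
    rw [sum_congr rfl fun v _ => show (s ∩ B v).card = ∑ C ∈ s, if v ∈ C.1 then 1 else 0 by
      rw [← card_filter]; congr 1; ext C; simp [mB], sum_comm,
      sum_congr rfl fun C _ => show _ = 21 by rw [← card_filter, filter_mem_eq_inter, univ_inter, C.2.card h],
      sum_const, smul_eq_mul]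
  have h6 : ∀ z, (B z).card = 6 := by
    intro z
    have h2 : ((∑ v, (B z ∩ B v).card : ℕ) : ℤ) =
        ∑ v, ((if z = v then ((B z).card : ℤ) - 2 else 0) + 2 - 2 * a G z v) := by
      push_cast
      refine sum_congr rfl fun v _ => ?_
      split_ifs with e
      · rw [← e, inter_self, a_na G.irrefl]; ring
      · rw [h1 z v e]; ring
    rw [dc] at h2
    simp only [sum_sub_distrib, sum_add_distrib, ← mul_sum, h.deg, sum_ite_eq, mem_univ, if_true, sum_const,
      card_univ, h.card, nsmul_eq_mul, Nat.cast_ofNat] at h2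
    omega
  have hP : Fintype.card P = 22 := by
    have := dc univ
    simp only [univ_inter, h6, sum_const, card_univ, h.card, smul_eq_mul] at this
    omega
  have h3 : ∀ u v, ∀ s : Finset P, s.card = 3 → s ⊆ B u → s ⊆ B v → u = v := by
    intro u v s hs e1 e2
    by_contra e
    have := card_le_card (subset_inter e1 e2)
    have := h1 u v e
    have := a_nonneg (G := G) u v
    omega
  have h4 : ∀ s : Finset P, s.card = 3 → ∃ u, s ⊆ B u := by
    intro s hs
    have : univ.biUnion (fun u => powersetCard 3 (B u)) = powersetCard 3 univ := by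
      refine eq_of_subset_of_card_le (fun t ht => ?_) ?_
      · obtain ⟨u, -, hu⟩ := mem_biUnion.1 ht
        exact mem_powersetCard.2 ⟨subset_univ _, (mem_powersetCard.1 hu).2⟩
      · rw [card_biUnion fun u _ v _ e => disjoint_left.2 fun t h1 h2 => e (h3 u v t (mem_powersetCard.1 h1).2
          (mem_powersetCard.1 h1).1 (mem_powersetCard.1 h2).1)]
        simp only [card_powersetCard, h6, sum_const, card_univ, hP, h.card]
        decide
    obtain ⟨u, -, hu⟩ := mem_biUnion.1 (this ▸ mem_powersetCard.2 ⟨subset_univ s, hs⟩ :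
      s ∈ univ.biUnion (fun u => powersetCard 3 (B u)))
    exact ⟨u, (mem_powersetCard.1 hu).1⟩
  let f : P ≃ Fin 22 := Fintype.equivFinOfCardEq hP
  refine ⟨fun z => (B z).map f.toEmbedding, fun u v e => ?_, ⟨?_, fun s hs => ?_⟩, fun u v => ?_⟩
  · obtain ⟨s, h5, hs⟩ := exists_subset_card_eq (s := B u) (n := 3) (by rw [h6]; norm_num)
    exact h3 u v s hs h5 (map_injective _ e ▸ h5)
  · rintro _ ⟨u, rfl⟩
    rw [card_map, h6]
  · have key : ∀ u, s ⊆ (B u).map f.toEmbedding ↔ s.map f.symm.toEmbedding ⊆ B u := fun u => by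
      rw [← map_subset_map (f := f.toEmbedding), map_map]
      simp
    obtain ⟨u, hu⟩ := h4 (s.map f.symm.toEmbedding) (by rw [card_map, hs])
    refine ⟨_, ⟨⟨u, rfl⟩, (key u).2 hu⟩, ?_⟩
    rintro _ ⟨⟨v, rfl⟩, hv⟩
    rw [h3 v u _ (by rw [card_map, hs]) ((key v).1 hv) hu]
  · rw [disjoint_map, disjoint_iff_inter_eq_empty, ← card_eq_zero]
    by_cases e : u = v
    · rw [e, inter_self, h6]; simp
    · have := h1 u v e
      by_cases h2 : G.Adj u v
      · rw [a_adj h2] at this; simp only [h2, true_iff]; omega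
      · rw [a_na h2] at this; simp only [h2, false_iff]; omega

end

/-- Uniqueness of the strongly regular graph with parameters (77, 16, 0, 4). -/
theorem result {V W : Type*} [Fintype V] [Fintype W] {G : SimpleGraph V} {H : SimpleGraph W} [DecidableRel G.Adj] [DecidableRel H.Adj] (hG : G.IsSRGWith 77 16 0 4) (hH : H.IsSRGWith 77 16 0 4) : Nonempty (G ≃g H) := by
  classical
  obtain ⟨B, b1, b2, b3⟩ := design (hyp_of hG)
  obtain ⟨B', c1, c2, c3⟩ := design (hyp_of hH)
  obtain ⟨e, he⟩ := Cfsg.Agent.S0410.result (by simp) (by simp) b2 c2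
  have h1 : ∀ v, ∃ w, B' w = (B v).image e := fun v => he.le ⟨_, ⟨v, rfl⟩, rfl⟩
  choose f hf using h1
  have h2 : Function.Injective f := fun u v h =>
    b1 (image_injective e.injective ((hf u).symm.trans (h ▸ hf v)))
  refine ⟨⟨Equiv.ofBijective f ((Fintype.bijective_iff_injective_and_card f).2 ⟨h2, hG.card.trans hH.card.symm⟩),
    fun {u v} => ?_⟩⟩
  rw [Equiv.ofBijective_apply, Equiv.ofBijective_apply, c3, b3, hf, hf, disjoint_image e.injective]

end Cfsg.Agent.S0429
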