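import Cfsg.Statements.S0436

set_option autoImplicit false
open Cfsg

namespace Cfsg.Agent.S0436

theorem sq_one {G : Type*} [Group G] {E : Set G} (hE : Cfsg.IsThreeTranspositionSet E) {a : G}
    (ha : a ∈ E) : a * a = 1 := by
  have h := pow_orderOf_eq_one a
  rw [hE.1 a ha, pow_two] at h
  exact h

theorem inv_self {G : Type*} [Group G] {E : Set G} (hE : Cfsg.IsThreeTranspositionSet E) {a : G}
    (ha : a ∈ E) : a⁻¹ = a :=
  inv_eq_of_mul_eq_one_right (sq_one hE ha)

/-- two non-commuting members satisfy the braid relation -/
theorem braid {G : Type*} [Group G] {E : Set G} (hE : Cfsg.IsThreeTranspositionSet E) {a e : G}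
    (ha : a ∈ E) (he : e ∈ E) (h : ¬ Commute e a) : e * a * e = a * e * a := by
  have ha2 := sq_one hE ha
  have he2 := sq_one hE he
  rcases hE.2 e he a ha with h2 | h3
  · exfalso
    apply h
    have h4 : e * a * (e * a) = 1 := by rw [← pow_two]; exact h2
    have h5 : (e * a)⁻¹ = e * a := inv_eq_of_mul_eq_one_right h4
    rw [mul_inv_rev, inv_self hE ha, inv_self hE he] at h5
    exact h5.symm
  · have h4 : (e * a * e) * (a * e * a) = 1 := by
      rw [← h3]; simp only [pow_succ, pow_zero, one_mul, mul_assoc]
    have h5 : (e * a * e)⁻¹ = a * e * a := inv_eq_of_mul_eq_one_right h4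
    rw [← h5]
    simp only [mul_inv_rev, inv_self hE ha, inv_self hE he, mul_assoc]


/-- For distinct commuting members a, b of a set of 3-transpositions E, a member e of E centralises the product a * b if and only if it centralises both a and b. -/
theorem result {G : Type*} [Group G] {E : Set G} (hE : Cfsg.IsThreeTranspositionSet E) {a b e : G} (ha : a ∈ E) (hb : b ∈ E) (he : e ∈ E) (hab : a ≠ b) (hcomm : Commute a b) : Commute e (a * b) ↔ (Commute e a ∧ Commute e b) := by
  constructor
  · intro h
    have ha2 := sq_one hE ha
    have hb2 := sq_one hE hb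
    have he2 := sq_one hE he
    by_cases h1 : Commute e a
    · refine ⟨h1, ?_⟩
      have : b = a * (a * b) := by rw [← mul_assoc, ha2, one_mul]
      rw [this]
      exact h1.mul_right h
    · by_cases h2 : Commute e b
      · refine ⟨?_, h2⟩
        have : a = (a * b) * b := by rw [mul_assoc, hb2, mul_one]
        rw [this]
        exact h.mul_right h2
      · exfalso
        have b1 := braid hE ha he h1
        have b2 := braid hE hb he h2
        have h3 : (e * a * e) * (e * b * e) = a * b := by
          calc (e * a * e) * (e * b * e) = e * a * (e * e) * b * e := by simp only [mul_assoc]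
            _ = e * (a * b) * e := by rw [he2]; simp only [mul_assoc, mul_one]
            _ = (a * b) * (e * e) := by rw [h.eq]; simp only [mul_assoc]
            _ = a * b := by rw [he2, mul_one]
        rw [b1, b2] at h3
        have h4 : e * (a * b) * e = 1 := by
          have : a * (e * (a * b) * e) * b = a * 1 * b := by
            rw [mul_one]
            exact Eq.trans (by simp only [mul_assoc]) h3
          exact mul_left_cancel (mul_right_cancel this)
        have h5 : a * b = 1 := by
          rw [h.eq, mul_assoc, he2, mul_one] at h4
          exact h4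
        apply hab
        calc a = a * (b * b) := by rw [hb2, mul_one]
          _ = b := by rw [← mul_assoc, h5, one_mul]
  · rintro ⟨h1, h2⟩
    exact h1.mul_right h2

end Cfsg.Agent.S0436
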