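import Cfsg.Statements.S0437
import Cfsg.Agent.S0436

set_option autoImplicit false
open Cfsg

namespace Cfsg.Agent.S0437

/-- For three distinct, pairwise commuting members a, b, c of a set of 3-transpositions E, a member e of E centralises a * b * c if and only if it centralises each of a, b and c. -/
theorem result {G : Type*} [Group G] {E : Set G} (hE : Cfsg.IsThreeTranspositionSet E) {a b c e : G} (ha : a ∈ E) (hb : b ∈ E) (hc : c ∈ E) (he : e ∈ E) (hab : a ≠ b) (hac : a ≠ c) (hbc : b ≠ c) (h₁ : Commute a b) (h₂ : Commute a c) (h₃ : Commute b c) : Commute e (a * b * c) ↔ (Commute e a ∧ Commute e b ∧ Commute e c) := by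
  constructor
  · intro h
    have ha2 := S0436.sq_one hE ha
    have hb2 := S0436.sq_one hE hb
    have hc2 := S0436.sq_one hE hc
    have he2 := S0436.sq_one hE he
    by_cases h3 : Commute e c
    · have h4 : Commute e (a * b) := by
        have : a * b = (a * b * c) * c := by rw [mul_assoc (a * b), hc2, mul_one]
        rw [this]
        exact h.mul_right h3
      have := (S0436.result hE ha hb he hab h₁).1 h4
      exact ⟨this.1, this.2, h3⟩
    by_cases h1 : Commute e a
    · have h4 : Commute e (b * c) := by
        have : b * c = a * (a * b * c) := by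
          rw [mul_assoc a b c, ← mul_assoc, ha2, one_mul]
        rw [this]
        exact h1.mul_right h
      exact absurd ((S0436.result hE hb hc he hbc h₃).1 h4).2 h3
    by_cases h2 : Commute e b
    · have h4 : Commute e (a * c) := by
        have : a * c = b * (a * b * c) := by
          rw [h₁.eq, mul_assoc b a c, ← mul_assoc, hb2, one_mul]
        rw [this]
        exact h2.mul_right h
      exact absurd ((S0436.result hE ha hc he hac h₂).1 h4).2 h3
    exfalso
    have b1 := S0436.braid hE ha he h1
    have b2 := S0436.braid hE hb he h2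
    have b3 := S0436.braid hE hc he h3
    set z := a * b * c with hz
    have hza : Commute z a := ((Commute.refl a).mul_left h₁.symm).mul_left h₂.symm
    have hzb : Commute z b := (h₁.mul_left (Commute.refl b)).mul_left h₃.symm
    have hab2 : (a * b) * (a * b) = 1 := by
      rw [mul_assoc, ← mul_assoc b a b, ← h₁.eq, mul_assoc a b b, hb2, mul_one, ha2]
    have hz2 : z * z = 1 := by
      have hcab : Commute c (a * b) := h₂.symm.mul_right h₃.symm
      rw [hz, mul_assoc (a * b) c, ← mul_assoc c (a * b) c, hcab.eq, mul_assoc (a * b) c c, hc2,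
        mul_one, hab2]
    have hcz : c = a * b * z := by rw [hz, ← mul_assoc, hab2, one_mul]
    have hec3 : (e * c) ^ 3 = 1 := by
      calc (e * c) ^ 3 = (e * c * e) * (c * e * c) := by
            simp only [pow_succ, pow_zero, one_mul, mul_assoc]
        _ = (e * c * e) * (e * c * e) := by rw [b3]
        _ = e * (c * (e * e) * c) * e := by simp only [mul_assoc]
        _ = 1 := by rw [he2, mul_one, hc2, mul_one, he2]
    set y := e * (a * b) with hy
    have hyz : Commute y z := h.mul_left (hza.symm.mul_left hzb.symm)
    have hy2 : y * y = (a * e) * (a * b) * (a * e)⁻¹ := by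
      rw [mul_inv_rev, S0436.inv_self hE ha, S0436.inv_self hE he]
      calc y * y = e * a * (b * e * (a * b)) := by simp only [hy, mul_assoc]
        _ = e * a * (b * e * b) * a := by rw [h₁.eq]; simp only [mul_assoc]
        _ = (e * a * e) * b * e * a := by rw [← b2]; simp only [mul_assoc]
        _ = a * e * (a * b) * (e * a) := by rw [b1]; simp only [mul_assoc]
    have hy4 : y ^ 4 = 1 := by
      calc y ^ 4 = (y * y) * (y * y) := by simp only [pow_succ, pow_zero, one_mul, mul_assoc]
        _ = (a * e) * ((a * b) * (a * b)) * (a * e)⁻¹ := by rw [hy2]; group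
        _ = 1 := by rw [hab2]; group
    have hecy : e * c = y * z := by rw [hy, mul_assoc, ← hcz]
    have h5 : y ^ 3 * z = 1 := by
      rw [hecy, hyz.mul_pow] at hec3
      have : z ^ 3 = z := by rw [pow_succ, pow_two, hz2, one_mul]
      rw [this] at hec3
      exact hec3
    have h6 : z = y := by
      calc z = y ^ 4 * z := by rw [hy4, one_mul]
        _ = y * (y ^ 3 * z) := by rw [pow_succ' y 3, mul_assoc y (y ^ 3) z]
        _ = y := by rw [h5, mul_one]
    have h7 : e * c = 1 := by rw [hecy, ← h6, hz2]
    apply h3
    have : c = e := by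
      calc c = (e * e) * c := by rw [he2, one_mul]
        _ = e := by rw [mul_assoc, h7, mul_one]
    rw [this]
  · rintro ⟨h1, h2, h3⟩
    exact (h1.mul_right h2).mul_right h3

end Cfsg.Agent.S0437
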