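import Cfsg.Statements.S0444
import Cfsg.Agent.S0436

set_option autoImplicit false
open Cfsg

namespace Cfsg.Agent.S0444

/-- the six words in two generators -/
def wd {G : Type*} [Group G] (d e : G) : Fin 6 → G :=
  ![1, d, e, d * e, e * d, d * (e * d)]

/-- multiplication table of the six words -/
def tab : Fin 6 → Fin 6 → Fin 6 :=
  ![![0, 1, 2, 3, 4, 5], ![1, 0, 3, 2, 5, 4], ![2, 4, 0, 5, 1, 3],
    ![3, 5, 1, 4, 0, 2], ![4, 2, 5, 0, 3, 1], ![5, 3, 4, 1, 2, 0]]

theorem wd_mul {G : Type*} [Group G] (d e : G) (hd : d * d = 1) (he : e * e = 1)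
    (hb : e * d * e = d * e * d) (i j : Fin 6) : wd d e (tab i j) = wd d e i * wd d e j := by
  have hd' : ∀ x, d * (d * x) = x := fun x => by rw [← mul_assoc, hd, one_mul]
  have he' : ∀ x, e * (e * x) = x := fun x => by rw [← mul_assoc, he, one_mul]
  have hb1 : e * (d * e) = d * (e * d) := by simpa only [mul_assoc] using hb
  have hb2 : ∀ x, e * (d * (e * x)) = d * (e * (d * x)) := fun x => by
    simp only [← mul_assoc, hb]
  fin_cases i <;> fin_cases j <;>
    simp [wd, tab, mul_assoc, hd, he, hd', he', hb1, hb2]

theorem bij : Function.Bijective (wd (Equiv.swap (0 : Fin 3) 1) (Equiv.swap (1 : Fin 3) 2)) := by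
  decide


/-- Two members of a set of 3-transpositions which do not commute generate a subgroup isomorphic to the symmetric group on three letters. -/
theorem result {G : Type*} [Group G] {E : Set G} (hE : Cfsg.IsThreeTranspositionSet E) {d e : G} (hd : d ∈ E) (he : e ∈ E) (h : ¬ Commute d e) : Nonempty (Subgroup.closure ({d, e} : Set G) ≃* Equiv.Perm (Fin 3)) := by
  have hd2 := S0436.sq_one hE hd
  have he2 := S0436.sq_one hE he
  have hb : e * d * e = d * e * d := S0436.braid hE hd he (fun h' => h h'.symm)
  let p := Equiv.ofBijective _ bij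
  have hp : ∀ i j, p (tab i j) = p i * p j := fun i j =>
    wd_mul _ _ (by decide) (by decide) (by decide) i j
  let f : Equiv.Perm (Fin 3) →* G := MonoidHom.mk' (fun σ => wd d e (p.symm σ)) (by
    intro σ τ
    obtain ⟨i, rfl⟩ := p.surjective σ
    obtain ⟨j, rfl⟩ := p.surjective τ
    rw [← hp, p.symm_apply_apply, p.symm_apply_apply, p.symm_apply_apply, wd_mul d e hd2 he2 hb])
  have hf : ∀ i, f (p i) = wd d e i := fun i => by
    show wd d e (p.symm (p i)) = _
    rw [p.symm_apply_apply]
  have hinj : Function.Injective f := by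
    rw [injective_iff_map_eq_one]
    intro σ hσ
    obtain ⟨i, rfl⟩ := p.surjective σ
    rw [hf] at hσ
    have hde : d * e ≠ 1 := by
      intro h1
      apply h
      have : e = d := by
        calc e = (d * d) * e := by rw [hd2, one_mul]
          _ = d := by rw [mul_assoc, h1, mul_one]
      rw [this]
    fin_cases i
    · rfl
    · exact absurd (by have : d = 1 := hσ; rw [this]; exact Commute.one_left e) h
    · exact absurd (by have : e = 1 := hσ; rw [this]; exact Commute.one_right d) h
    · exact absurd hσ hde
    · exact absurd (mul_eq_one_comm.1 hσ) hde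
    · have h1 : d * (e * d) = 1 := hσ
      have h2 : e * d * d = 1 := mul_eq_one_comm.1 h1
      rw [mul_assoc, hd2, mul_one] at h2
      exact absurd (by rw [h2]; exact Commute.one_right d) h
  have hr : f.range = Subgroup.closure ({d, e} : Set G) := by
    apply le_antisymm
    · rintro _ ⟨σ, rfl⟩
      obtain ⟨i, rfl⟩ := p.surjective σ
      rw [hf]
      have h1 : d ∈ Subgroup.closure ({d, e} : Set G) := Subgroup.subset_closure (by simp)
      have h2 : e ∈ Subgroup.closure ({d, e} : Set G) := Subgroup.subset_closure (by simp)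
      fin_cases i
      · exact one_mem _
      · exact h1
      · exact h2
      · exact mul_mem h1 h2
      · exact mul_mem h2 h1
      · exact mul_mem h1 (mul_mem h2 h1)
    · rw [Subgroup.closure_le]
      rintro x (rfl | rfl)
      · exact ⟨p 1, hf 1⟩
      · exact ⟨p 2, hf 2⟩
  exact ⟨(MulEquiv.subgroupCongr hr.symm).trans (MonoidHom.ofInjective hinj).symm⟩

end Cfsg.Agent.S0444
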