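import Cfsg.Statements.S0454
import Cfsg.Agent.Lib.Ly.Main

set_option autoImplicit false
open Cfsg

namespace Cfsg.Agent.S0454

/-- Existence of the Lyons group: there is a transitive permutation group of degree 8835156, simple of order 51765179004000000, whose point stabiliser is simple of the order of a group of type G2, and which has an involution whose centraliser is a non-split double cover of the alternating group of degree 11. -/
theorem result : ∃ H : Subgroup (Equiv.Perm (Fin 8835156)), Cfsg.IsLy H ∧ MulAction.IsPretransitive H (Fin 8835156) ∧ Cfsg.IsG2 (MulAction.stabilizer H (0 : Fin 8835156)) ∧ ∃ t : H, orderOf t = 2 ∧ Cfsg.IsNonsplitDoubleCover (Subgroup.centralizer ({t} : Set H)) (alternatingGroup (Fin 11)) := by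
  have := CfsgLib.Ly.simple
  have := CfsgLib.Ly.simple_H0
  obtain ⟨K, e, h1, ⟨e'⟩⟩ := CfsgLib.Ly.exists_permFin_coset CfsgLib.Ly.index_eq (by decide)
  let e2 := (CfsgLib.Ly.ψ.ofInjective CfsgLib.Ly.psi_inj).trans e'
  refine ⟨K, ⟨e.symm.isSimpleGroup, (Nat.card_congr e.toEquiv).symm.trans CfsgLib.Ly.card_eq⟩, h1,
    ⟨e2.symm.isSimpleGroup, 5, Nat.prime_five.prime.isPrimePow, by decide, ?_⟩, e CfsgLib.Ly.t,
    (e.orderOf_eq _).trans CfsgLib.Ly.orderOf_t, CfsgLib.Fischer.nonsplit_congr ((e.subgroupMap _).trans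
      (MulEquiv.subgroupCongr (CfsgLib.Fischer.centralizer_map_equiv e _))) CfsgLib.Ly.nonsplit_t⟩
  rw [← Nat.card_congr e2.toEquiv, CfsgLib.Ly.card_H0]
  norm_num

end Cfsg.Agent.S0454
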