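import Cfsg.Statements.S0473
import Cfsg.Agent.Lib.Fischer.He24

set_option autoImplicit false
open Cfsg

namespace Cfsg.Agent.S0473

open CfsgLib.Fischer Cfsg.Spor

theorem fi23_congr {K : Type*} [Group K] (e : Fi23 ≃* K) : Cfsg.IsFi23 K :=
  ⟨have := simple23; e.symm.isSimpleGroup, (Nat.card_congr e.toEquiv).symm.trans card23⟩


/-- The largest Fischer 3-transposition group: a group of order 2 · 1255205709190661721292800 generated by a conjugacy class of 306936 3-transpositions, in which a transposition centraliser has order 2 · 4089470473293004800 and contains a simple subgroup of order 4089470473293004800; its subgroup of index 2 is simple and contains simple subgroups of orders 4089470473293004800 and 4030387200. -/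
theorem result : ∃ (G : Type) (_ : Group G) (_ : Finite G), Nat.card G = 2 * 1255205709190661721292800 ∧ ∃ D : Set G, Cfsg.IsThreeTranspositionClass D ∧ Nat.card D = 306936 ∧ (∀ d ∈ D, Nat.card (Subgroup.centralizer ({d} : Set G)) = 2 * 4089470473293004800 ∧ ∃ K : Subgroup G, K ≤ Subgroup.centralizer ({d} : Set G) ∧ Cfsg.IsFi23 K) ∧ ∃ H : Subgroup G, H.index = 2 ∧ Cfsg.IsFi24' H ∧ (∃ K : Subgroup H, Cfsg.IsFi23 K) ∧ (∃ K : Subgroup H, Cfsg.IsHe K) := by
  refine ⟨Fi24, inferInstance, inferInstance, card24, _, model24.cls, model24.ncard_eq, fun d hd => ?_,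
    commutator Fi24, index_commutator24, ⟨simple24, card24'⟩, ?_, ?_⟩
  · rw [← class_l24] at hd
    obtain ⟨x, rfl⟩ := isConj_iff.1 hd
    rw [← centralizer_conj]
    refine ⟨?_, psi24.range.map (MulAut.conj x).toMonoidHom, Subgroup.map_mono ?_,
      fi23_congr ((MonoidHom.ofInjective psi24_inj).trans ((MulAut.conj x).subgroupMap _))⟩
    · rw [Subgroup.card_map_of_injective (MulAut.conj x).injective, cent24, card_H24]
    · rintro _ ⟨y, rfl⟩
      exact Subgroup.mem_centralizer_singleton_iff.2 (psi24_comm y).eq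
  · obtain ⟨L, ⟨e⟩⟩ := exists_sub_commutator psi24 psi24_inj perfect23
    exact ⟨L, fi23_congr e⟩
  · obtain ⟨φ, h⟩ := exists_he24_inj
    have := CfsgLib.He.simple
    obtain ⟨L, ⟨e⟩⟩ := exists_sub_commutator φ h (perfect_of_simple (by rw [CfsgLib.He.card_eq]; norm_num))
    exact ⟨L, e.symm.isSimpleGroup, (Nat.card_congr e.toEquiv).symm.trans CfsgLib.He.card_eq⟩

end Cfsg.Agent.S0473
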