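import Cfsg.Statements.S0684
import Cfsg.Agent.Lib.FrobCompl.NearField

set_option autoImplicit false
open Cfsg

namespace Cfsg.Agent.S0684

open CfsgLib CfsgLib.FrobCompl Subgroup


/-- Point stabiliser of a sharply doubly transitive group not of semilinear type: a maximal normal abelian subgroup `A` of a linear group `H` that is regular on non-zero vectors and has no irreducible cyclic normal subgroup is cyclic and reducible, and the order of `A` divides `p ^ k - 1` for `k` the dimension of a minimal `A`-invariant subspace. -/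
theorem result {p : ℕ} [Fact p.Prime] {V : Type*} [AddCommGroup V] [Module (ZMod p) V] [Finite V] (H : Subgroup (V ≃ₗ[ZMod p] V)) (hreg : ∀ v w : V, v ≠ 0 → w ≠ 0 → ∃! h : H, (h : V ≃ₗ[ZMod p] V) v = w) (hI : ∀ A : Subgroup H, A.Normal → IsCyclic A → ∃ W : Submodule (ZMod p) V, W ≠ ⊥ ∧ W ≠ ⊤ ∧ ∀ a ∈ A, ∀ v ∈ W, ((a : H) : V ≃ₗ[ZMod p] V) v ∈ W) (A : Subgroup H) (hAn : A.Normal) (hAc : IsMulCommutative A) (hAmax : ∀ B : Subgroup H, B.Normal → IsMulCommutative B → A ≤ B → B = A) : IsCyclic A ∧ ∃ W : Submodule (ZMod p) V, W ≠ ⊥ ∧ W ≠ ⊤ ∧ (∀ a ∈ A, ∀ v ∈ W, ((a : H) : V ≃ₗ[ZMod p] V) v ∈ W) ∧ (∀ W' : Submodule (ZMod p) V, W' ≤ W → (∀ a ∈ A, ∀ v ∈ W', ((a : H) : V ≃ₗ[ZMod p] V) v ∈ W') → W' = ⊥ ∨ W' = W) ∧ Nat.card A ∣ p ^ Module.finrank (ZMod p) W - 1 := by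
  have h : Reg H V := hreg
  obtain ⟨W₀, h0, h1, -⟩ := hI ⊥ inferInstance inferInstance
  have : Nontrivial V := by
    by_contra hn
    exact h0 (by rw [not_nontrivial_iff_subsingleton] at hn; exact Subsingleton.elim _ _)
  have := h.finite
  have hc := (h.hasFree (p := p)).pqCond.isCyclic_subgroup A hAc
  refine ⟨hc, ?_⟩
  obtain ⟨W, ⟨h2, h3, h4⟩, hmin⟩ := (wellFounded_lt (α := Submodule (ZMod p) V)).has_min
    {W | W ≠ ⊥ ∧ W ≠ ⊤ ∧ ∀ a ∈ A, ∀ v ∈ W, ((a : H) : V ≃ₗ[ZMod p] V) v ∈ W} (hI A hAn hc)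
  refine ⟨W, h2, h3, h4, fun W' h5 h6 => or_iff_not_imp_left.2 fun h7 =>
    eq_of_le_of_not_lt h5 (hmin W' ⟨h7, fun e => h3 (top_le_iff.1 (e ▸ h5)), h6⟩), ?_⟩
  have h5 := h.card_dvd A W.toAddSubgroup h4
  have h6 := Module.natCard_eq_pow_finrank (K := ZMod p) (V := W)
  rw [Nat.card_zmod] at h6
  exact h6 ▸ h5

end Cfsg.Agent.S0684
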