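import Cfsg.Statements.S0685
import Cfsg.Agent.Lib.FrobCompl.NearField

set_option autoImplicit false
open Cfsg

namespace Cfsg.Agent.S0685

open CfsgLib CfsgLib.FrobCompl Subgroup


/-- In a linear group over the prime field that is regular on non-zero vectors and has no irreducible cyclic normal subgroup, a maximal normal abelian subgroup is properly contained in its centraliser, which is non-abelian. -/
theorem result {p : ℕ} [Fact p.Prime] {V : Type*} [AddCommGroup V] [Module (ZMod p) V] [Finite V] (H : Subgroup (V ≃ₗ[ZMod p] V)) (hreg : ∀ v w : V, v ≠ 0 → w ≠ 0 → ∃! h : H, (h : V ≃ₗ[ZMod p] V) v = w) (hI : ∀ A : Subgroup H, A.Normal → IsCyclic A → ∃ W : Submodule (ZMod p) V, W ≠ ⊥ ∧ W ≠ ⊤ ∧ ∀ a ∈ A, ∀ v ∈ W, ((a : H) : V ≃ₗ[ZMod p] V) v ∈ W) (A : Subgroup H) (hAn : A.Normal) (hAc : IsMulCommutative A) (hAmax : ∀ B : Subgroup H, B.Normal → IsMulCommutative B → A ≤ B → B = A) : A < Subgroup.centralizer (A : Set H) ∧ ¬ IsMulCommutative (Subgroup.centralizer (A : Set H)) := by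
  have h : Reg H V := hreg
  obtain ⟨W₀, h0, h1, -⟩ := hI ⊥ inferInstance inferInstance
  have : Nontrivial V := by
    by_contra hn
    exact h0 (by rw [not_nontrivial_iff_subsingleton] at hn; exact Subsingleton.elim _ _)
  have := h.finite
  have hne : centralizer (A : Set H) ≠ A := fun e => by
    obtain ⟨K, _, _, _, σ, ι, -, -, hker⟩ := Perm.exists_field_of_comm h.trans A
    obtain ⟨d, h2, h3⟩ := two_pow_le_card (V := V) σ
    obtain ⟨W, h4, h5, h6⟩ := hI A hAn ((h.hasFree (p := p)).pqCond.isCyclic_subgroup A hAc)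
    exact h.false_of_index_le A W.toAddSubgroup (fun e => h4 (Submodule.toAddSubgroup_injective e)) (by simpa using h5) h6
      (by rwa [hker, e] at h2) h3
  exact ⟨(le_centralizer A).lt_of_ne hne.symm, fun hc => hne (hAmax _ inferInstance hc (le_centralizer A))⟩

end Cfsg.Agent.S0685
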