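import Cfsg.Statements.S0686
import Cfsg.Agent.Lib.FrobCompl.NearField
import Cfsg.Agent.Lib.FrobCompl.Zassenhaus
import Cfsg.Agent.Lib.FrobCompl.Solv
import Cfsg.Agent.Lib.Core.Commutator

set_option autoImplicit false
open Cfsg

namespace Cfsg.Agent.S0686

open CfsgLib CfsgLib.FrobCompl Subgroup

theorem equiv_Q8_of_class_two {G : Type*} [Group G] [Finite G] (h : Frob.PQCond G)
    (h2 : IsPGroup 2 G) (hna : ¬ IsMulCommutative G) (hc : commutator G ≤ center G) :
    Nonempty (G ≃* Q8) := by
  rcases Frob.exists_gens_of_forall_mem_zpowers h2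
    (Frob.mem_zpowers_of_forall_card_sq_isCyclic h2 h.card_ne_sq) with
    hc | ⟨-, a, b, m, hi, ha, hb, hm, hb2, hba⟩
  · exact absurd hc.isMulCommutative hna
  have h3 : a * (b * a * b⁻¹)⁻¹ ∈ center G := hc (by
    have := commutator_mem_commutator (mem_top a) (mem_top b)
    rwa [commutatorElement_def, show a * b * a⁻¹ * b⁻¹ = a * (b * a * b⁻¹)⁻¹ by group] at this)
  rw [hba, inv_inv] at h3
  have h4 : a ^ 2 ^ 2 = 1 := by
    have h5 : b * (a * a) * b⁻¹ = a⁻¹ * a⁻¹ := by rw [← hba]; group
    rw [mem_center_iff.1 h3 b, mul_inv_cancel_right] at h5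
    rw [show a ^ 2 ^ 2 = a * a * (a⁻¹ * a⁻¹)⁻¹ by group, ← h5, mul_inv_cancel]
  have h5 := orderOf_dvd_of_pow_eq_one h4
  rw [ha, Nat.pow_dvd_pow_iff_le_right one_lt_two] at h5
  obtain rfl := le_antisymm hm h5
  exact Frob.nonempty_quaternion_of_gens hi ha hb (by norm_num) hb2 hba


/-- In a linear group over the prime field that is regular on non-zero vectors and has no irreducible cyclic normal subgroup, let `A` be a maximal normal abelian subgroup and `N` a normal subgroup centralising `A` that is minimal among non-abelian normal subgroups centralising `A`. Then `N` is quaternion of order 8 or isomorphic to `SL(2,5)`. -/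
theorem result {p : ℕ} [Fact p.Prime] {V : Type*} [AddCommGroup V] [Module (ZMod p) V] [Finite V] (H : Subgroup (V ≃ₗ[ZMod p] V)) (hreg : ∀ v w : V, v ≠ 0 → w ≠ 0 → ∃! h : H, (h : V ≃ₗ[ZMod p] V) v = w) (hI : ∀ A : Subgroup H, A.Normal → IsCyclic A → ∃ W : Submodule (ZMod p) V, W ≠ ⊥ ∧ W ≠ ⊤ ∧ ∀ a ∈ A, ∀ v ∈ W, ((a : H) : V ≃ₗ[ZMod p] V) v ∈ W) (A : Subgroup H) (hAn : A.Normal) (hAc : IsMulCommutative A) (hAmax : ∀ B : Subgroup H, B.Normal → IsMulCommutative B → A ≤ B → B = A) (N : Subgroup H) (hNn : N.Normal) (hNle : N ≤ Subgroup.centralizer (A : Set H)) (hNna : ¬ IsMulCommutative N) (hNmin : ∀ M : Subgroup H, M.Normal → M ≤ N → ¬ IsMulCommutative M → M = N) : Nonempty (N ≃* QuaternionGroup 2) ∨ Nonempty (N ≃* Matrix.SpecialLinearGroup (Fin 2) (ZMod 5)) := by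
  have h : Reg H V := hreg
  obtain ⟨W₀, h0, h1, -⟩ := hI ⊥ inferInstance inferInstance
  have : Nontrivial V := by
    by_contra hn
    exact h0 (by rw [not_nontrivial_iff_subsingleton] at hn; exact Subsingleton.elim _ _)
  have := h.finite
  have hF := (h.hasFree (p := p)).subgroup N
  by_cases hc : IsMulCommutative (⁅N, N⁆ : Subgroup H)
  swap
  · have : Nontrivial N := by
      by_contra hn
      rw [not_nontrivial_iff_subsingleton] at hn
      exact hNna ⟨⟨fun _ _ => Subsingleton.elim _ _⟩⟩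
    refine Or.inr (hF.equiv_SL25_of_perfect (map_injective N.subtype_injective ?_))
    rw [map_subtype_commutator, hNmin _ inferInstance (commutator_le_left _ _) hc,
      ← MonoidHom.range_eq_map, range_subtype]
  left
  have h2 : ⁅N, N⁆ ≤ A := by
    have h3 : ⁅N, N⁆ ≤ centralizer (A : Set H) := (commutator_le_left _ _).trans hNle
    refine le_sup_right.trans (hAmax (A ⊔ ⁅N, N⁆) inferInstance ?_ le_sup_left).le
    rw [← le_centralizer_iff_isMulCommutative]
    exact sup_le (le_centralizer_iff.1 (sup_le (le_centralizer A) h3))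
      (le_centralizer_iff.1 (sup_le (le_centralizer_iff.1 h3) (le_centralizer _)))
  have h3 : commutator N ≤ center N := fun x hx => mem_center_iff.2 fun y =>
    Subtype.ext (hNle y.2 x (h2 (map_subtype_commutator N ▸ mem_map_of_mem N.subtype hx))).symm
  have : Group.IsNilpotent N := Core.isNilpotent_of_commutator_le_center h3
  have h4 : ¬ IsMulCommutative ((pCore 2 N).map N.subtype) := fun h4 => by
    have : IsZGroup N := isZGroup_of_sylow_two hF.pqCond fun P =>
      hF.pqCond.isCyclic_subgroup _ ⟨⟨fun x y => Subtype.ext (Subtype.ext (setLike_mul_comm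
          (mem_map_of_mem N.subtype (Core.le_pCore_of_isNilpotent P.isPGroup' x.2))
          (mem_map_of_mem N.subtype (Core.le_pCore_of_isNilpotent P.isPGroup' y.2))))⟩⟩
    exact hNna (inferInstance : IsCyclic N).isMulCommutative
  have h5 := hNmin _ (Core.map_pCore_of_normal (p := 2) N ▸ inferInstance) (map_subtype_le _) h4
  exact equiv_Q8_of_class_two hF.pqCond (h5 ▸ (Core.isPGroup_pCore 2 N).map _) hNna h3

end Cfsg.Agent.S0686
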