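import Cfsg.Statements.S0688
import Cfsg.Agent.Lib.FrobCompl.NearField

set_option autoImplicit false
open Cfsg

namespace Cfsg.Agent.S0688

open CfsgLib CfsgLib.FrobCompl Subgroup


/-- Degrees of the soluble exceptional sharply doubly transitive groups: if a solvable linear group over the prime field is regular on the non-zero vectors of `V` and has no irreducible cyclic normal subgroup, then `V` has 25, 49, 121 or 529 elements. -/
theorem result {p : ℕ} [Fact p.Prime] {V : Type*} [AddCommGroup V] [Module (ZMod p) V] [Finite V] (H : Subgroup (V ≃ₗ[ZMod p] V)) (hreg : ∀ v w : V, v ≠ 0 → w ≠ 0 → ∃! h : H, (h : V ≃ₗ[ZMod p] V) v = w) (hI : ∀ A : Subgroup H, A.Normal → IsCyclic A → ∃ W : Submodule (ZMod p) V, W ≠ ⊥ ∧ W ≠ ⊤ ∧ ∀ a ∈ A, ∀ v ∈ W, ((a : H) : V ≃ₗ[ZMod p] V) v ∈ W) (hsolv : Group.IsSolvable H) : Nat.card V = 25 ∨ Nat.card V = 49 ∨ Nat.card V = 121 ∨ Nat.card V = 529 := by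
  have h : Reg H V := hreg
  obtain ⟨W₀, h0, h1, -⟩ := hI ⊥ inferInstance inferInstance
  have : Nontrivial V := by
    by_contra hn
    exact h0 (by rw [not_nontrivial_iff_subsingleton] at hn; exact Subsingleton.elim _ _)
  have := h.finite
  have hp : p.Prime := Fact.out
  have hV := Module.natCard_eq_pow_finrank (K := ZMod p) (V := V)
  rw [Nat.card_zmod] at hV
  have hc := h.card_eq
  rcases Perm.huppert h.trans hp hV with ⟨F, _, _, e, he⟩ | ⟨A, E, -, -, h2, h3, h4, h5⟩
  · exfalso
    let _ : Module F V := e.module F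
    have hsm : ∀ (c : F) (v : V), e (c • v) = c * e v := fun c v => by
      change e (e.symm _) = _
      rw [e.apply_symm_apply]; rfl
    obtain ⟨σ, hσ⟩ := Perm.exists_ringAut_hom (G := H) (V := V) (K := F) fun g c => by
      obtain ⟨a, τ, hg⟩ := he g
      exact ⟨τ c, fun v => e.injective (by rw [hg, hsm, hsm, hg, map_mul, mul_left_comm])⟩
    obtain ⟨d, h2, h3⟩ := two_pow_le_card (V := V) σ
    have key : ∀ g ∈ σ.ker, ∀ v, e (g • v) = e v * e (g • e.symm 1) := fun g hg v => by
      rw [← hsm, ← show σ g (e v) = e v from by rw [hg]; rfl, ← hσ]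
      congr 2
      exact e.injective (by rw [hsm, e.apply_symm_apply, mul_one])
    obtain ⟨W, h4, h5, h6⟩ := hI σ.ker inferInstance
      ((h.hasFree (p := p)).pqCond.isCyclic_subgroup _ ⟨⟨fun x y => Subtype.ext
        (FaithfulSMul.eq_of_smul_eq_smul (α := V) fun v => e.injective (by
          rw [coe_mul, coe_mul, mul_smul, mul_smul, key _ x.2, key _ y.2 v, key _ y.2 (x.1 • v), key _ x.2 v,
            mul_right_comm]))⟩⟩)
    exact h.false_of_index_le _ W.toAddSubgroup (fun e => h4 (Submodule.toAddSubgroup_injective e)) (by simpa using h5) h6 h2 h3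
  have h6 := E.card_mul_index
  rcases h5 with ⟨h7, h8⟩ | ⟨h7, rfl⟩
  · rw [h7] at hV h4
    rw [hV] at hc ⊢
    have hp2 := hp.two_le
    obtain ⟨q, rfl⟩ := Nat.exists_eq_add_of_le' hp.one_le
    rw [Nat.add_sub_cancel] at h3
    obtain ⟨t, ht⟩ := h3
    have ha : 0 < Nat.card A := Nat.card_pos
    have h9 : t * (q + 2) = 4 * E.index := Nat.eq_of_mul_eq_mul_left ha (by
      rw [← mul_assoc, ← ht]; nlinarith)
    have h10 : q + 2 ≤ 24 := Nat.le_of_dvd (by norm_num) ((Dvd.intro_left t h9).trans (by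
      rcases h8 with e | e <;> norm_num [e]))
    have h11 : 0 < t := Nat.pos_of_ne_zero (by rintro rfl; omega)
    obtain ⟨a, ha2⟩ := h2
    have h12 : t * (q + 2) = 12 ∨ t * (q + 2) = 24 := by omega
    have h13 : t ∣ q := Dvd.intro_left _ ht.symm
    have h14 := Nat.le_of_dvd (by omega) h13
    have h15 : 2 ∣ q := ⟨a * t, by rw [ht, ha2, mul_assoc]⟩
    have h16 : q ≤ 22 := by omega
    interval_cases q <;> first | omega | exact absurd hp (by norm_num)
  · rw [h7] at hV h4
    obtain ⟨a, ha⟩ := h2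
    have := Dvd.intro _ h6
    rw [h4, ha, show Nat.card H = 80 by omega] at this
    exact absurd ((show 32 ∣ 2 * a * 4 ^ 2 from ⟨a, by ring⟩).trans this) (by norm_num)

end Cfsg.Agent.S0688
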