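import Cfsg.Statements.S0737
import Cfsg.Agent.Lib.Perm.MultiTransHuppert
import Cfsg.Agent.Lib.Perm.MultiTransBurnside
import Cfsg.Agent.Lib.FT.OddOrder

set_option autoImplicit false
open Cfsg

namespace Cfsg.Agent.S0737

open Subgroup MulAction CfsgLib CfsgLib.Perm
open scoped IsMulCommutative

theorem exists_pair {G α : Type*} [Group G] [MulAction G α] [DecidableEq α]
    (h2 : IsPretransitive G (Set.powersetCard α 2)) {a b c d : α} (hab : a ≠ b) (hcd : c ≠ d) :
    ∃ g : G, (g • a = c ∧ g • b = d) ∨ (g • a = d ∧ g • b = c) := by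
  obtain ⟨g, hg⟩ := exists_smul_eq G (⟨{a, b}, Finset.card_pair hab⟩ : Set.powersetCard α 2)
    ⟨{c, d}, Finset.card_pair hcd⟩
  have h := congrArg (fun s : Set.powersetCard α 2 => ((s : Finset α) : Set α)) hg
  simp only [Set.powersetCard.coe_smul, Finset.coe_smul_finset, Finset.coe_pair,
    Set.smul_set_insert, Set.smul_set_singleton] at h
  exact ⟨g, Set.pair_eq_pair_iff.1 h⟩

theorem exists_field {G N : Type*} [Group G] [Finite G] [Group.IsSolvable G] [CommGroup N]
    [Finite N] [Nontrivial N] [MulDistribMulAction G N]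
    (htr : ∀ v w : N, v ≠ 1 → w ≠ 1 → ∃ g : G, g • v = w ∨ g • v = w⁻¹) {p f : ℕ} (hp : p.Prime)
    (hN : Nat.card N = p ^ f) (h4 : p ^ f % 4 = 3) :
    ∃ (F : Type) (_ : Field F) (_ : Fintype F) (e : Additive N ≃+ F), ∀ g : G,
      ∃ (a : F) (σ : F ≃+* F), ∀ v : N, e (.ofMul (g • v)) = a * σ (e (.ofMul v)) := by
  let φ : G × Multiplicative ℤ →* MulAut N := (MulDistribMulAction.toMulAut G N).noncommCoprod
    (zpowersHom _ (MulEquiv.inv N)) fun g k => Commute.zpow_right (MulEquiv.ext fun v => by simp) _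
  have h0 : ∀ g v, φ (g, 1) v = g • v := fun g v => rfl
  have h1 : ∀ g v, φ (g, .ofAdd 1) v = (g • v)⁻¹ := fun g v => by
    change g • (MulEquiv.inv N ^ (1 : ℤ)) v = _
    simp
  have : Group.IsSolvable φ.range :=
    Group.isSolvable_of_surjective φ.rangeRestrict_surjective
  let _ : DistribMulAction φ.range (Additive N) :=
    { smul := fun g v => .ofMul (g.1 v.toMul)
      one_smul := fun _ => rfl
      mul_smul := fun _ _ _ => rfl
      smul_zero := fun g => congrArg Additive.ofMul (map_one g.1)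
      smul_add := fun g v w => congrArg Additive.ofMul (map_mul g.1 v.toMul w.toMul) }
  have : FaithfulSMul φ.range (Additive N) :=
    ⟨fun h => Subtype.ext (MulEquiv.ext fun v => h (.ofMul v))⟩
  rcases huppert (G := φ.range) (V := Additive N) (fun v w hv hw => by
    obtain ⟨g, h | h⟩ := htr v.toMul w.toMul hv hw
    · exact ⟨⟨_, (g, 1), rfl⟩, congrArg Additive.ofMul ((h0 _ _).trans h)⟩
    · exact ⟨⟨_, (g, .ofAdd 1), rfl⟩, congrArg Additive.ofMul
        ((h1 _ _).trans (inv_eq_iff_eq_inv.2 h))⟩) hp hN with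
    ⟨F, _, _, e, h⟩ | ⟨A, E, -, -, -, -, -, ⟨rfl, -⟩ | ⟨rfl, rfl⟩⟩
  · refine ⟨F, _, inferInstance, e, fun g => ?_⟩
    obtain ⟨a, σ, h⟩ := h ⟨_, (g, 1), rfl⟩
    refine ⟨a, σ, fun v => Eq.trans (congrArg e ?_) (h _)⟩
    exact congrArg Additive.ofMul (h0 _ _).symm
  · rw [sq, Nat.mul_mod] at h4
    have := Nat.mod_lt p (by norm_num : 0 < 4)
    interval_cases p % 4 <;> omega
  · norm_num at h4


/-- A non-trivial 2-homogeneous permutation group that is not doubly transitive has odd order and degree `p^f ≡ 3 (mod 4)`, and is permutation-isomorphic to a group of semi-affine transformations `x ↦ a φ(x) + b` of the field with `p^f` elements containing all translations. -/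
theorem result {α : Type*} [Fintype α] [DecidableEq α] (G : Subgroup (Equiv.Perm α)) (hne : G ≠ ⊥) (h2 : MulAction.IsPretransitive G (Set.powersetCard α 2)) (hn2 : ¬ MulAction.IsMultiplyPretransitive G α 2) : Odd (Nat.card G) ∧ ∃ (p f : ℕ) (_ : Fact p.Prime), p ≠ 2 ∧ Fintype.card α = p ^ f ∧ p ^ f % 4 = 3 ∧ ∃ e : α ≃ GaloisField p f, (∀ g : G, e.symm.trans (((g : Equiv.Perm α)).trans e) ∈ Cfsg.semiaffineGroup (GaloisField p f)) ∧ ∀ b : GaloisField p f, ∃ g : G, ∀ x : α, e ((g : Equiv.Perm α) x) = e x + b := by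
  have hodd : Odd (Nat.card G) := by
    refine Nat.not_even_iff_odd.1 fun h => hn2 (is_two_pretransitive_iff.2 ?_)
    have : Fact (Nat.Prime 2) := ⟨Nat.prime_two⟩
    obtain ⟨t, ht⟩ := exists_prime_orderOf_dvd_card' (G := G) 2 h.two_dvd
    obtain ⟨a, ha⟩ : ∃ a : α, a ≠ t • a := by
      by_contra h
      push Not at h
      rw [show t = 1 from Subtype.ext (Equiv.ext fun a => (h a).symm), orderOf_one] at ht
      omega
    have h1 : t • t • a = a := by rw [smul_smul, ← sq, ← ht, pow_orderOf_eq_one, one_smul]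
    have key : ∀ c d : α, c ≠ d → ∃ g : G, g • a = c ∧ g • t • a = d := fun c d hcd => by
      obtain ⟨g, h | h⟩ := exists_pair h2 ha hcd
      · exact ⟨g, h⟩
      · exact ⟨g * t, by rw [mul_smul, h.2], by rw [mul_smul, h1, h.1]⟩
    intro b c d e hbc hde
    obtain ⟨g, rfl, rfl⟩ := key b c hbc
    obtain ⟨g', rfl, rfl⟩ := key d e hde
    exact ⟨g' * g⁻¹, by simp [mul_smul], by simp [mul_smul]⟩
  have := FT.odd_order_solvable hodd
  have := (nontrivial_iff_ne_bot G).2 hne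
  obtain ⟨p, N, hp, hN, hN0, hel, -⟩ := Core.exists_elementaryAbelian_minimal_normal G
  have := hel.1
  have := Fact.mk hp
  obtain ⟨a, n₀, hn₀, ha⟩ : ∃ a : α, ∃ n ∈ N, a ≠ n • a := by
    by_contra h
    push Not at h
    exact hN0 (eq_bot_iff.2 fun n hn => Subtype.ext (Equiv.ext fun a => (h a n hn).symm))
  have htr : ∀ c d : α, ∃ n ∈ N, n • c = d := fun c d => by
    by_cases hcd : c = d
    · exact ⟨1, one_mem _, by rw [one_smul, hcd]⟩
    obtain ⟨g, ⟨rfl, rfl⟩ | ⟨rfl, rfl⟩⟩ := exists_pair h2 ha hcd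
    · exact ⟨_, hN.conj_mem _ hn₀ g, by simp [mul_smul]⟩
    · exact ⟨_, hN.conj_mem _ (inv_mem hn₀) g, by simp [mul_smul]⟩
  have hinj : ∀ m n : N, (m : G) • a = (n : G) • a → m = n := fun m n h =>
    (inv_mul_eq_one.1 (Subtype.ext (eq_one_of_commute_of_fix (a := a) (fun b => by
      obtain ⟨k, hk, h⟩ := htr a b
      exact ⟨k, setLike_mul_comm (s := N) (n⁻¹ * m).2 hk, h⟩)
        (by rw [coe_mul, mul_smul, h, coe_inv, inv_smul_smul])))).symm
  let ε : N ≃ α := Equiv.ofBijective (fun n => (n : G) • a) ⟨hinj, fun b => by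
    obtain ⟨k, hk, h⟩ := htr a b
    exact ⟨⟨k, hk⟩, h⟩⟩
  have hε : ∀ n, ε n = (n : G) • a := fun _ => rfl
  obtain ⟨f, hf⟩ := IsPGroup.iff_card.1 (Core.isElementaryAbelian_isPGroup hel)
  have hα : Fintype.card α = p ^ f := by
    rw [← hf, Nat.card_congr ε, Nat.card_eq_fintype_card]
  have hNnt := (nontrivial_iff_ne_bot N).2 hN0
  have hf0 : f ≠ 0 := by
    rintro rfl
    exact (Finite.one_lt_card (α := N)).ne' hf
  have ho1 : Odd (p ^ f) := hodd.of_dvd_nat (hf ▸ N.card_subgroup_dvd_card)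
  have h4 : p ^ f % 4 = 3 := by
    have h5 := (stabilizer G (⟨{a, n₀ • a}, Finset.card_pair ha⟩ :
      Set.powersetCard α 2)).index_dvd_card
    rw [index_stabilizer_of_transitive, Set.powersetCard.card, Nat.card_eq_fintype_card, hα,
      Nat.choose_two_right] at h5
    have h6 := Nat.odd_iff.1 (hodd.of_dvd_nat h5)
    have h7 := Nat.odd_iff.1 ho1
    by_contra h
    obtain ⟨k, hk⟩ : ∃ k, p ^ f = 4 * k + 1 := ⟨p ^ f / 4, by omega⟩
    rw [hk, Nat.add_sub_cancel, show (4 * k + 1) * (4 * k) = 4 * ((4 * k + 1) * k) by ring] at h6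
    omega
  let _ : MulDistribMulAction (stabilizer G a) N :=
    MulDistribMulAction.compHom N ((MulAut.conjNormal : G →* MulAut N).comp (stabilizer G a).subtype)
  have hsm : ∀ (h : stabilizer G a) (n : N), ε (h • n) = (h : G) • ε n := fun h n => by
    change ((h : G) * n * (h : G)⁻¹) • a = (h : G) • (n : G) • a
    rw [mul_smul, mul_smul, show (h : G)⁻¹ • a = a from inv_mem h.2]
  obtain ⟨F, _, _, e, he⟩ := exists_field (G := stabilizer G a) (N := N) (fun v w hv hw => by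
    obtain ⟨g, ⟨h1, h3⟩ | ⟨h1, h3⟩⟩ := exists_pair h2 (a := a) (b := ε v) (c := a) (d := ε w)
      (fun h => hv (hinj v 1 (h.symm.trans (one_smul _ _).symm)))
      fun h => hw (hinj w 1 (h.symm.trans (one_smul _ _).symm))
    · exact ⟨⟨g, h1⟩, Or.inl (ε.injective ((hsm _ _).trans h3))⟩
    · refine ⟨⟨(w : G)⁻¹ * g, by rw [mem_stabilizer_iff, mul_smul, h1, hε, inv_smul_smul]⟩,
        Or.inr (ε.injective ((hsm _ _).trans ?_))⟩
      rw [mul_smul, h3]
      rfl) hp hf h4
  have := Fintype.ofFinite (GaloisField p f)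
  let ψ : F ≃+* GaloisField p f := FiniteField.ringEquivOfCardEq (by
    rw [← Nat.card_eq_fintype_card, ← Nat.card_eq_fintype_card, GaloisField.card p f hf0, ← hf,
      ← Nat.card_congr e.toEquiv]
    rfl)
  let E : α ≃ GaloisField p f := ε.symm.trans (Additive.ofMul.trans (e.toEquiv.trans ψ.toEquiv))
  have hE : ∀ n : N, E (ε n) = ψ (e (.ofMul n)) := fun n => by simp [E]
  have hadd : ∀ (n : N) (x : α), E ((n : G) • x) = E x + ψ (e (.ofMul n)) := fun n x => by
    obtain ⟨m, rfl⟩ := ε.surjective x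
    rw [hE, ← map_add, ← map_add, ← ofMul_mul, ← hE, mul_comm, hε, hε, coe_mul, mul_smul]
  refine ⟨hodd, p, f, ⟨hp⟩, ?_, hα, h4, E, fun g => ?_, fun b => ?_⟩
  · rintro rfl
    exact (Nat.not_even_iff_odd.2 ho1) (Nat.even_pow.2 ⟨even_two, hf0⟩)
  · obtain ⟨n, hn, h⟩ := htr a (g • a)
    obtain ⟨c, σ, hc⟩ := he ⟨n⁻¹ * g, by rw [mem_stabilizer_iff, mul_smul, ← h, inv_smul_smul]⟩
    have hc0 : ψ c ≠ 0 := fun h0 => by
      obtain ⟨v, hv⟩ := exists_ne (1 : N)
      have := hc v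
      rw [(map_eq_zero_iff _ ψ.injective).1 h0, zero_mul, map_eq_zero_iff _ e.injective] at this
      exact hv (MulAction.injective _ ((ofMul_eq_zero.1 this).trans (smul_one _).symm))
    refine ⟨Units.mk0 _ hc0, ψ (e (.ofMul ⟨n, hn⟩)), ψ.symm.trans (σ.trans ψ), fun x => ?_⟩
    obtain ⟨x, rfl⟩ := E.surjective x
    obtain ⟨m, rfl⟩ := ε.surjective x
    change E (g • E.symm (E (ε m))) = ψ c * ψ (σ (ψ.symm (E (ε m)))) + _
    rw [E.symm_apply_apply, hE, ψ.symm_apply_apply, ← map_mul, ← hc, ← hE, hsm, ← hadd, smul_smul,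
      mul_inv_cancel_left]
  · refine ⟨(e.symm (ψ.symm b)).toMul, fun x => (hadd _ x).trans ?_⟩
    simp

end Cfsg.Agent.S0737
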