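import Cfsg.Statements.S0802
import Cfsg.Agent.Lib.Dickson.Plat

set_option autoImplicit false
open Cfsg

namespace Cfsg.Agent.S0802


/-- PSL_2(p^n) has a subgroup isomorphic to A_4 if and only if it is not the case that p = 2 and n is odd. -/
theorem result {F : Type*} [Field F] [Fintype F] (p n : ℕ) [Fact p.Prime] [CharP F p] (hF : Fintype.card F = p ^ n) : (∃ H : Subgroup (Matrix.ProjectiveSpecialLinearGroup (Fin 2) F), Nonempty (H ≃* alternatingGroup (Fin 4))) ↔ ¬ (p = 2 ∧ Odd n) := by
  rw [CfsgLib.Dickson.exists_psl_subgroup_iff]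
  have h3 : Fact (Nat.Prime 3) := ⟨by norm_num⟩
  have hpos : 0 < 2 ^ n := by positivity
  constructor
  · rintro ⟨H, -, h⟩ ⟨rfl, m, rfl⟩
    have h2 : (2 : F) = 0 := CharP.cast_eq_zero F 2
    obtain ⟨c, hc⟩ := CfsgLib.Dickson.exists_root_of_A4 h2 h
    have h0 : c ≠ 0 := by rintro rfl; simp at hc
    have h1 : c ^ 3 = 1 := by linear_combination (c - 1) * hc
    have h4 : ∀ k : ℕ, c ^ (4 ^ k) = c := by
      intro k
      induction k with
      | zero => simp
      | succ k ih => rw [pow_succ, pow_mul, ih]; linear_combination c * h1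
    have h5 := FiniteField.pow_card c
    rw [hF, pow_succ, pow_mul, pow_mul, show 2 ^ 2 = 4 from rfl, h4] at h5
    exact one_ne_zero (show (1 : F) = 0 by linear_combination hc - h5 - c * h2)
  · intro h
    by_cases hp : p = 2
    · subst hp
      have h2 : (2 : F) = 0 := CharP.cast_eq_zero F 2
      obtain ⟨m, rfl⟩ : Even n := Nat.not_odd_iff_even.mp fun e => h ⟨rfl, e⟩
      classical
      obtain ⟨u, hu⟩ := exists_prime_orderOf_dvd_card (G := Fˣ) 3 (by
        rw [Fintype.card_units, hF, ← two_mul, pow_mul]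
        simpa using Nat.sub_dvd_pow_sub_pow 4 1 m)
      have h1 : (u : F) ^ 3 = 1 := by
        rw [← Units.val_pow_eq_pow_val, ← hu, pow_orderOf_eq_one, Units.val_one]
      have h0 : (u : F) - 1 ≠ 0 := by
        intro e
        have : u = 1 := Units.ext (sub_eq_zero.mp e)
        rw [this, orderOf_one] at hu; omega
      obtain ⟨H, hH⟩ := CfsgLib.Dickson.exists_A4_of_root (c := (u : F))
        (mul_left_cancel₀ h0 (by linear_combination h1 - (u - 1) * u * h2))
      exact ⟨H, CfsgLib.Dickson.A4_le_psl hH, hH⟩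
    · obtain ⟨H, hH⟩ := CfsgLib.Dickson.exists_A4 (K := F) (by
        intro e
        exact hp ((Nat.prime_dvd_prime_iff_eq Fact.out Nat.prime_two).mp
          ((CharP.cast_eq_zero_iff F p 2).mp e)))
      exact ⟨H, CfsgLib.Dickson.A4_le_psl hH, hH⟩

end Cfsg.Agent.S0802
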