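import Cfsg.Statements.S0807
import Cfsg.Agent.Lib.Dickson.Klein

set_option autoImplicit false
open Cfsg

namespace Cfsg.Agent.S0807

open CfsgLib.Dickson Matrix MatrixGroups


/-- For q odd, twelve times the number of Klein four-subgroups of PSL_2(q) equals the order of PSL_2(q). -/
theorem result {F : Type*} [Field F] [Fintype F] {q : ℕ} (hF : Fintype.card F = q) (hodd : Odd q) : 12 * Nat.card {V : Subgroup (Matrix.ProjectiveSpecialLinearGroup (Fin 2) F) // IsKleinFour V} = Nat.card (Matrix.ProjectiveSpecialLinearGroup (Fin 2) F) := by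
  rw [← hF, ← Nat.card_eq_fintype_card] at hodd
  have h2 := two_ne_zero_of_odd_card hodd
  obtain ⟨V, hV, hP, hN⟩ := exists_klein h2
  have e : Nat.card {V : Subgroup PSL(2, F) // IsKleinFour V} =
      Nat.card {W : Subgroup PGL(2, F) // ∃ g, W = V.map (MulAut.conj g).toMonoidHom} := by
    refine Nat.card_congr (Equiv.ofBijective (fun W => ⟨W.1.map (pslPGL F), klein_conj h2 hV
      ((isKleinFour_map_iff pslPGL_injective).mpr W.2) hP (Subgroup.map_le_range _ _)⟩) ⟨?_, ?_⟩)
    · intro a b h
      exact Subtype.ext (Subgroup.map_injective pslPGL_injective (congrArg Subtype.val h))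
    · rintro ⟨_, g, rfl⟩
      have h1 := Subgroup.map_comap_eq_self (map_conj_le_of_normal psl_normal hP g)
      refine ⟨⟨(V.map (MulAut.conj g).toMonoidHom).comap (pslPGL F), (isKleinFour_map_iff pslPGL_injective).mp ?_⟩, Subtype.ext h1⟩
      rw [h1]
      exact CfsgLib.Classif.isKleinFour_map_conj hV g
  have h1 := (Subgroup.normalizer (V : Set PGL(2, F))).card_mul_index
  have h3 := (pslPGL F).range.card_mul_index
  rw [card_of_equiv hN, card_S4] at h1
  rw [index_psl_odd hodd, card_range_pslPGL] at h3
  rw [e, card_conjugates]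
  omega

end Cfsg.Agent.S0807
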