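import Cfsg.Statements.S0808
import Cfsg.Agent.Lib.Dickson.Klein

set_option autoImplicit false
open Cfsg

namespace Cfsg.Agent.S0808

open CfsgLib.Dickson Matrix MatrixGroups

theorem transfer {F : Type*} [Field F] {V W : Subgroup PSL(2, F)} :
    (∃ g : PSL(2, F), W = V.map (MulAut.conj g).toMonoidHom) ↔
      ∃ g ∈ (pslPGL F).range, W.map (pslPGL F) = (V.map (pslPGL F)).map (MulAut.conj g).toMonoidHom := by
  constructor
  · rintro ⟨g, rfl⟩
    exact ⟨_, ⟨g, rfl⟩, map_map_conj _ _ _⟩
  · rintro ⟨_, ⟨g, rfl⟩, h⟩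
    exact ⟨g, Subgroup.map_injective pslPGL_injective (h.trans (map_map_conj _ _ _).symm)⟩


/-- Conjugacy classes of four-groups in PSL_2(q), q odd: if q ≡ 3 or 5 (mod 8) all Klein four-subgroups are conjugate; if q ≡ 1 or 7 (mod 8) there are two Klein four-subgroups which are not conjugate, and every Klein four-subgroup is conjugate to one of them. -/
theorem result {F : Type*} [Field F] [Fintype F] {q : ℕ} (hF : Fintype.card F = q) (hodd : Odd q) : ((q % 8 = 3 ∨ q % 8 = 5) → ∀ V W : Subgroup (Matrix.ProjectiveSpecialLinearGroup (Fin 2) F), IsKleinFour V → IsKleinFour W → ∃ g : Matrix.ProjectiveSpecialLinearGroup (Fin 2) F, W = V.map (MulAut.conj g).toMonoidHom) ∧ ((q % 8 = 1 ∨ q % 8 = 7) → ∃ V₁ V₂ : Subgroup (Matrix.ProjectiveSpecialLinearGroup (Fin 2) F), IsKleinFour V₁ ∧ IsKleinFour V₂ ∧ (¬ ∃ g : Matrix.ProjectiveSpecialLinearGroup (Fin 2) F, V₂ = V₁.map (MulAut.conj g).toMonoidHom) ∧ ∀ W : Subgroup (Matrix.ProjectiveSpecialLinearGroup (Fin 2) F), IsKleinFour W →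 (∃ g : Matrix.ProjectiveSpecialLinearGroup (Fin 2) F, W = V₁.map (MulAut.conj g).toMonoidHom) ∨ (∃ g : Matrix.ProjectiveSpecialLinearGroup (Fin 2) F, W = V₂.map (MulAut.conj g).toMonoidHom)) := by
  rw [← Nat.card_eq_fintype_card] at hF
  subst hF
  have h2 := two_ne_zero_of_odd_card hodd
  have hi := index_psl_odd hodd
  obtain ⟨U, hU, hP, hN⟩ := exists_klein h2
  have hS := (S4_le_psl_iff hN).trans isSquare_two_iff'
  have kl : ∀ {W : Subgroup PSL(2, F)}, IsKleinFour W →
      ∃ k, W.map (pslPGL F) = U.map (MulAut.conj k).toMonoidHom := fun hW =>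
    klein_conj h2 hU ((isKleinFour_map_iff pslPGL_injective).mpr hW) hP (Subgroup.map_le_range _ _)
  constructor
  · intro hq V W hV hW
    obtain ⟨n, hn, hn'⟩ := SetLike.not_le_iff_exists.mp (fun h => by have := hS.mp h; omega)
    obtain ⟨k, hk⟩ := kl hV
    obtain ⟨l, hl⟩ := kl hW
    rw [transfer, hk, hl]
    by_cases h : l * k⁻¹ ∈ (pslPGL F).range
    · exact ⟨_, h, by rw [map_conj_map_conj, inv_mul_cancel_right]⟩
    · refine ⟨l * n * k⁻¹, ?_, ?_⟩
      · rw [show l * n * k⁻¹ = (l * k⁻¹) * (k * n * k⁻¹) by group, Subgroup.mul_mem_iff_of_index_two hi]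
        exact iff_of_false h fun e => hn' (by simpa [mul_assoc] using psl_normal.conj_mem' _ e k)
      · rw [map_conj_map_conj, inv_mul_cancel_right, ← map_conj_map_conj,
          mem_normalizer_iff_map_conj.mp hn]
  · intro hq
    have hle := hS.mpr (by omega)
    obtain ⟨t, -, ht⟩ := SetLike.not_le_iff_exists.mp (fun h : ⊤ ≤ (pslPGL F).range => by
      rw [top_le_iff.mp h, Subgroup.index_top] at hi; omega)
    have h1 := Subgroup.map_comap_eq_self hP
    have h3 := Subgroup.map_comap_eq_self (map_conj_le_of_normal psl_normal hP t)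
    refine ⟨U.comap (pslPGL F), (U.map (MulAut.conj t).toMonoidHom).comap (pslPGL F),
      (isKleinFour_map_iff pslPGL_injective).mp (by rw [h1]; exact hU),
      (isKleinFour_map_iff pslPGL_injective).mp
        (by rw [h3]; exact CfsgLib.Classif.isKleinFour_map_conj hU t), ?_, fun W hW => ?_⟩
    · rw [transfer, h1, h3]
      rintro ⟨g, hg, e⟩
      have := hle (map_conj_eq_iff.mp e)
      exact ht (by simpa using inv_mem ((Subgroup.mul_mem_cancel_right _ hg).mp this))
    · obtain ⟨k, hk⟩ := kl hW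
      rw [transfer, transfer, h1, h3, hk]
      by_cases h : k ∈ (pslPGL F).range
      · exact Or.inl ⟨k, h, rfl⟩
      · refine Or.inr ⟨k * t⁻¹, ?_, by rw [map_conj_map_conj, inv_mul_cancel_right]⟩
        rw [Subgroup.mul_mem_iff_of_index_two hi, inv_mem_iff]
        exact iff_of_false h ht

end Cfsg.Agent.S0808
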