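import Mathlib
import Cfsg.Statements.S0848
import Cfsg.Agent.Lib.D8Cent.Main

set_option autoImplicit false
open Cfsg

namespace Cfsg.Agent.S0848

open Subgroup CfsgLib CfsgLib.Tech
open scoped Pointwise commutatorElement

/-- If a finite group equals its own commutator subgroup and contains an involution whose centralizer is isomorphic to the dihedral group of order 8, then the group has order 168 or 360. -/
theorem result {G : Type*} [Group G] [Finite G] (hperf : commutator G = ⊤) (t : G) (ht : orderOf t = 2) (e : Subgroup.centralizer ({t} : Set G) ≃* DihedralGroup 4) : Nat.card G = 168 ∨ Nat.card G = 360 := by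
  obtain ⟨r, s, rfl, h⟩ := D8Cent.exists_isD8 ht e
  refine h.card_of_no_index_two fun M hM => ?_
  have := normal_of_index_eq_two hM
  have h1 : IsMulCommutative (G ⧸ M) := by
    have : IsCyclic (G ⧸ M) := isCyclic_of_prime_card (p := 2) hM
    infer_instance
  have h2 := (Subgroup.Normal.quotient_commutative_iff_commutator_le (N := M)).1 h1
  rw [hperf, top_le_iff] at h2
  rw [h2] at hM
  simp at hM

end Cfsg.Agent.S0848
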