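import Cfsg.Statements.S0998
import Cfsg.Agent.Lib.Tuan.Main
import Cfsg.Agent.S0999
import Cfsg.Agent.Lib.SylNum.Basic

set_option autoImplicit false
open Cfsg

namespace Cfsg.Agent.S0998

open scoped MatrixGroups

theorem aux {G : Type*} [Group G] [Finite G] [IsSimpleGroup G] (hG : ¬ IsCyclic G) (p q r b : ℕ)
    (hp : p.Prime) (hq : q.Prime) (hr : r.Prime) (hpq : p ≠ q) (hpr : r < p) (hqr : q ≠ r)
    (hG' : Nat.card G = p * r * q ^ b) :
    (∃ (F : Type) (_ : Field F) (_ : Fintype F), Fintype.card F = 5 ∧ Nonempty (G ≃* PSL(2, F))) ∨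
    (∃ (F : Type) (_ : Field F) (_ : Fintype F), Fintype.card F = 7 ∧ Nonempty (G ≃* PSL(2, F))) := by
  have := Fact.mk hp
  have hnc : ¬ IsMulCommutative G := CfsgLib.PSL2Rec.not_comm_of_simple fun h => hG (have := Fact.mk h
    isCyclic_of_prime_card (p := Nat.card G) rfl)
  have hna : ∃ a b : G, a * b ≠ b * a := by
    by_contra! h
    exact hnc ⟨⟨h⟩⟩
  have hr2 := hr.two_le
  have key : ∀ {m : ℕ}, 2 ≤ m → 2 ^ m ∣ r * q ^ b → q = 2 := fun {m} hm h => by
    by_contra h2
    have h3 := (((Nat.coprime_primes Nat.prime_two hq).2 (Ne.symm h2)).pow m b).dvd_of_dvd_mul_right h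
    have h4 := (pow_dvd_pow 2 hm).trans h3
    rcases hr.eq_one_or_self_of_dvd _ ((by norm_num : 2 ∣ 2 ^ 2).trans h4) with h5 | h5
    · omega
    · rw [← h5] at h4; norm_num at h4
  have key2 : ∀ {m u : ℕ}, q = 2 → Odd u → 2 ^ m * u = r * q ^ b → u = r := fun {m u} h2 hu h => by
    subst h2
    have h3 : Odd r := hr.odd_of_ne_two hqr.symm
    exact Nat.dvd_antisymm ((hu.coprime_two_right.pow_right b).dvd_of_dvd_mul_right ⟨_, by rw [← h, mul_comm]⟩)
      ((h3.coprime_two_right.pow_right m).dvd_of_dvd_mul_left ⟨_, h⟩)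
  by_cases h3 : r = p - 1
  · have hr2 : r = 2 := by
      by_contra h
      have := hr.odd_of_ne_two h
      have := hp.odd_of_ne_two (by omega)
      grind
    have h4 := CfsgLib.SylNum.four_dvd_of_two_dvd hnc (by rw [hG', hr2]; exact ⟨p * q ^ b, by ring⟩)
    rw [hG', (by omega : p = 3), mul_assoc] at h4
    exact absurd (key le_rfl ((by norm_num : Nat.Coprime 4 3).dvd_of_dvd_mul_left h4)) (by omega)
  obtain ⟨h1, m, hm⟩ := CfsgLib.Tuan.tuan hna hq hpq (hG'.trans (mul_right_comm _ _ _)) (by omega)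
  rcases Cfsg.Agent.S0999.result hG p hp (by rw [hG', mul_assoc]; exact dvd_mul_right _ _) h1 with
    ⟨F, _, _, h2, h4, ⟨e⟩⟩ | ⟨m, F, _, _, h2, hm, h4, ⟨e⟩⟩
  · have h5 := CfsgLib.Classical.psl2_card_mul (F := F)
    have hodd := hp.odd_of_ne_two (by omega)
    rw [h2, ← Nat.card_congr e.toEquiv, hG', Nat.gcd_eq_left (by grind), mul_assoc, mul_left_comm] at h5
    replace h5 := Nat.eq_of_mul_eq_mul_left hp.pos h5
    have h6 : p = 5 ∨ p = 7 := by
      obtain ⟨k, rfl⟩ : ∃ k, m = k + 2 := by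
        refine ⟨m - 2, ?_⟩
        by_contra h
        have : m < 2 := by omega
        interval_cases m <;> omega
      obtain ⟨u, hu⟩ : ∃ u, 2 ^ k = u + 1 := ⟨2 ^ k - 1, by have := Nat.one_le_two_pow (n := k); omega⟩
      have h6 : 2 ^ (k + 2) = 4 * u + 4 := by rw [pow_add, hu]; ring
      have h7 : u % 3 = 0 ∨ u % 3 = 1 := by
        have : ¬ 3 ∣ u + 1 := fun h => absurd (Nat.prime_three.dvd_of_dvd_pow (hu ▸ h)) (by norm_num)
        omega
      rw [h6] at hm
      rcases hm with hm | hm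
      · have h8 : 2 ^ (k + 2) * (2 * u + 3) = r * q ^ b := by
          have : p ^ 2 = 2 * (2 ^ (k + 2) * (2 * u + 3)) + 1 := by rw [hm, h6]; ring
          omega
        have h9 := key2 (key (by omega) ⟨_, h8.symm⟩) (by grind) h8
        rcases h7 with h | h
        · have := (Nat.prime_dvd_prime_iff_eq Nat.prime_three hr).1 (by omega); omega
        · have := (Nat.prime_dvd_prime_iff_eq Nat.prime_three hp).1 (by omega); omega
      · have h8 : 2 ^ (k + 2) * (2 * u + 1) = r * q ^ b := by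
          have : p ^ 2 = 2 * (2 ^ (k + 2) * (2 * u + 1)) + 1 := by
            rw [(by omega : p = 4 * u + 3), h6]; ring
          omega
        have h9 := key2 (key (by omega) ⟨_, h8.symm⟩) (by grind) h8
        rcases h7 with h | h
        · have := (Nat.prime_dvd_prime_iff_eq Nat.prime_three hp).1 (by omega); omega
        · have := (Nat.prime_dvd_prime_iff_eq Nat.prime_three hr).1 (by omega); omega
    exact h6.imp (fun h => ⟨F, _, _, h2.trans h, ⟨e⟩⟩) fun h => ⟨F, _, _, h2.trans h, ⟨e⟩⟩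
  · have h5 := CfsgLib.Classical.psl2_card_mul (F := F)
    obtain ⟨k, rfl⟩ : ∃ k, m = k + 2 := by
      refine ⟨m - 2, ?_⟩
      by_contra h
      have : m < 2 := by omega
      interval_cases m <;> omega
    obtain ⟨u, hu⟩ : ∃ u, 2 ^ k = u + 1 := ⟨2 ^ k - 1, by have := Nat.one_le_two_pow (n := k); omega⟩
    have h6 : 2 ^ (k + 2) = 4 * u + 4 := by rw [pow_add, hu]; ring
    rw [h2, ← Nat.card_congr e.toEquiv, hG', h6, (by omega : 4 * u + 4 - 1 = 1 + 2 * (2 * u + 1)),
      Nat.gcd_add_mul_left_right, Nat.gcd_one_right, one_mul,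
      (by rw [Nat.sub_eq_iff_eq_add (Nat.one_le_pow _ _ (by omega)), hm, h6]; ring :
        (4 * u + 4) ^ 2 - 1 = p * (4 * u + 3)), mul_assoc, mul_left_comm _ p, ← h6] at h5
    have h8 := (Nat.eq_of_mul_eq_mul_left hp.pos h5).symm
    have hq2 := key (by omega) ⟨_, h8.symm⟩
    have h9 := key2 hq2 (by grind) h8
    have h7 : u % 3 = 1 ∨ u % 3 = 0 := by
      have : ¬ 3 ∣ u + 1 := fun h => absurd (Nat.prime_three.dvd_of_dvd_pow (hu ▸ h)) (by norm_num)
      omega
    rcases h7 with h | h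
    · have := (Nat.prime_dvd_prime_iff_eq Nat.prime_three hp).1 (by omega); omega
    have := (Nat.prime_dvd_prime_iff_eq Nat.prime_three hr).1 (by omega)
    have : Fact (Nat.Prime 5) := ⟨by norm_num⟩
    refine Or.inl ⟨ZMod 5, inferInstance, inferInstance, ZMod.card 5,
      CfsgLib.PSL2Rec.simple_iso_psl_prime' (p := 5) (d := 2) this.out rfl ?_ (by decide) (ZMod.card 5)⟩
    rw [hG', mul_assoc, ← h8, hm, h6, (by omega : u = 0)]; rfl

/-- A non-cyclic finite simple group whose order has the form p * r * q^b for distinct primes p, q, r is isomorphic to the projective special linear group of dimension 2 over the field with 5 or with 7 elements. -/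
theorem result {G : Type*} [Group G] [Finite G] [IsSimpleGroup G] (hG : ¬ IsCyclic G) (p q r b : ℕ) (hp : p.Prime) (hq : q.Prime) (hr : r.Prime) (hpq : p ≠ q) (hpr : p ≠ r) (hqr : q ≠ r) (hG' : Nat.card G = p * r * q ^ b) : (∃ (F : Type) (_ : Field F) (_ : Fintype F), Fintype.card F = 5 ∧ Nonempty (G ≃* Matrix.ProjectiveSpecialLinearGroup (Fin 2) F)) ∨ (∃ (F : Type) (_ : Field F) (_ : Fintype F), Fintype.card F = 7 ∧ Nonempty (G ≃* Matrix.ProjectiveSpecialLinearGroup (Fin 2) F)) := by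
  rcases lt_or_gt_of_ne hpr with h | h
  · exact aux hG r q p b hr hq hp hqr.symm h hpq.symm (by rw [hG', mul_comm p])
  · exact aux hG p q r b hp hq hr hpq h hqr hG'

end Cfsg.Agent.S0998
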