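import Mathlib
import Cfsg.Statements.S0988
import Cfsg.Agent.Lib.Char.Burnside
import Cfsg.Agent.Lib.Dickson.Subfield
import Cfsg.Agent.S0998
-- import your own Cfsg.Agent.* helpers here

set_option autoImplicit false
open Cfsg

namespace Cfsg.Agent.S0988

open CfsgLib.Char

/-- If a finite simple group has order p^2 * q * r with p, q and r prime, then its order is 60. -/
theorem result {G : Type*} [Group G] [Finite G] [IsSimpleGroup G] (p q r : ℕ) (hp : p.Prime) (hq : q.Prime) (hr : r.Prime) (hG : Nat.card G = p ^ 2 * q * r) : Nat.card G = 60 := by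
  have hna : ¬ ∀ a b : G, a * b = b * a := fun h => by
    have h1 : (Nat.card G).Prime := by
      let : CommGroup G := { mul_comm := h }
      exact IsSimpleGroup.prime_card
    rw [hG, sq, mul_assoc, mul_assoc] at h1
    exact Nat.not_prime_mul hp.ne_one (mt (mul_eq_one.1 · |>.1) hp.ne_one) h1
  have hs : ∀ {s t : ℕ}, s.Prime → t.Prime → (p = s ∨ p = t) → (q = s ∨ q = t) → (r = s ∨ r = t) →
      False := fun hs ht h1 h2 h3 => hna (IsSimpleGroup.comm_iff_isSolvable.2
    (isSolvable_of_prime_dvd_card hs ht fun u hu h => by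
      rw [hG] at h
      rcases (Nat.Prime.dvd_mul hu).1 h with h | h
      · rcases (Nat.Prime.dvd_mul hu).1 h with h | h
        · exact (Nat.prime_dvd_prime_iff_eq hu hp).1 (hu.dvd_of_dvd_pow h) ▸ h1
        · exact (Nat.prime_dvd_prime_iff_eq hu hq).1 h ▸ h2
      · exact (Nat.prime_dvd_prime_iff_eq hu hr).1 h ▸ h3))
  have hqp : q ≠ p := fun h => hs hp hr (.inl rfl) (.inl h) (.inr rfl)
  have hrp : r ≠ p := fun h => hs hp hq (.inl rfl) (.inr rfl) (.inl h)
  have hqr : q ≠ r := fun h => hs hp hr (.inl rfl) (.inr h) (.inr rfl)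
  rcases S0998.result (G := G) (fun h => hna fun a b => mul_comm' a b) q p r 2 hq hp hr hqp hqr hrp.symm
    (by rw [hG]; ring) with ⟨F, _, _, h, ⟨e⟩⟩ | ⟨F, _, _, h, ⟨e⟩⟩
  all_goals
    have h1 := CfsgLib.Dickson.card_psl (K := F)
    rw [← Nat.card_congr e.toEquiv, Nat.card_eq_fintype_card (α := F), h] at h1
    norm_num at h1
  · omega
  · have h2 := congrArg ArithmeticFunction.cardFactors (show p ^ 2 * q * r = 168 by omega)
    rw [ArithmeticFunction.cardFactors_mul (mul_pos (pow_pos hp.pos 2) hq.pos).ne' hr.ne_zero,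
      ArithmeticFunction.cardFactors_mul (pow_pos hp.pos 2).ne' hq.ne_zero,
      ArithmeticFunction.cardFactors_apply_prime_pow hp, ArithmeticFunction.cardFactors_apply_prime hq,
      ArithmeticFunction.cardFactors_apply_prime hr] at h2
    simp [ArithmeticFunction.cardFactors_apply, Nat.primeFactorsList_ofNat] at h2

end Cfsg.Agent.S0988
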