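import Cfsg.Statements.S0992
import Cfsg.Agent.Lib.SmallSimple.NC

set_option autoImplicit false
open Cfsg

namespace Cfsg.Agent.S0992

/-- Let G be a non-abelian finite simple group of even order not divisible by 8, and T a Sylow 2-subgroup. Then T is a Klein four-group and the centralizer of T has index 3 in the normalizer of T. -/
theorem result {G : Type*} [Group G] [Finite G] [IsSimpleGroup G] (hG : ¬ IsMulCommutative G) (h2 : Even (Nat.card G)) (h8 : ¬ 8 ∣ Nat.card G) (T : Sylow 2 G) : IsKleinFour ↥(T : Subgroup G) ∧ (Subgroup.centralizer ((T : Subgroup G) : Set G)).relIndex (Subgroup.normalizer ((T : Subgroup G) : Set G)) = 3 := by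
  have h2' : 2 ∣ Nat.card G := h2.two_dvd
  have hmin : (Nat.card G).minFac = 2 := (Nat.minFac_eq_two_iff _).mpr h2'
  have hnc : ¬ IsCyclic (T : Subgroup G) := fun hc =>
    CfsgLib.SmallSimple.not_normalizer_le_centralizer hG T h2' (hc.normalizer_le_centralizer hmin)
  obtain ⟨k, hk⟩ := IsPGroup.iff_card.mp T.2
  have hk3 : k < 3 := by
    by_contra h
    apply h8
    have : 2 ^ 3 ∣ 2 ^ k := Nat.pow_dvd_pow _ (by omega)
    exact this.trans (hk ▸ Subgroup.card_subgroup_dvd_card _)
  have hk2 : k = 2 := by
    interval_cases k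
    · exfalso; apply hnc
      haveI := (Nat.card_eq_one_iff_unique.mp hk).1
      infer_instance
    · exact absurd (isCyclic_of_prime_card (p := 2) hk) hnc
    · rfl
  subst hk2
  have hK : IsKleinFour (T : Subgroup G) := by
    refine ⟨hk, ?_⟩
    have h1 : Monoid.exponent (T : Subgroup G) ∣ 2 ^ 2 := hk ▸ Group.exponent_dvd_nat_card
    obtain ⟨j, hj, hj'⟩ := (Nat.dvd_prime_pow Nat.prime_two).mp h1
    haveI := IsPGroup.isMulCommutative_of_card_eq_prime_sq hk
    interval_cases j
    · exfalso; apply hnc
      haveI : Subsingleton (T : Subgroup G) := Monoid.exp_eq_one_iff.mp hj'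
      infer_instance
    · exact hj'
    · exfalso; apply hnc
      letI : CommGroup (T : Subgroup G) :=
        { (inferInstance : Group (T : Subgroup G)) with mul_comm := this.is_comm.comm }
      exact IsCyclic.of_exponent_eq_card (hj'.trans hk.symm)
  refine ⟨hK, ?_⟩
  have h1 := (CfsgLib.SmallSimple.relIndex_centralizer_dvd_card_mulAut (T : Subgroup G)).trans
    (CfsgLib.SmallSimple.card_mulAut_dvd_factorial _)
  have h3 := CfsgLib.SmallSimple.not_dvd_relIndex_centralizer T IsKleinFour.isMulCommutative
  have h4 := CfsgLib.SmallSimple.one_lt_relIndex_centralizer hG T h2'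
  rw [hk] at h1
  generalize (Subgroup.centralizer ((T : Subgroup G) : Set G)).relIndex
    (Subgroup.normalizer ((T : Subgroup G) : Set G)) = e at *
  have h5 : e ∣ 6 := h1
  have h6 := Nat.le_of_dvd (by norm_num) h5
  interval_cases e <;> omega

end Cfsg.Agent.S0992
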