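import Cfsg.Statements.S1008
import Cfsg.Agent.Lib.PSL2Rec.O168

set_option autoImplicit false
open Cfsg

namespace Cfsg.Agent.S1008

open CfsgLib.PSL2Rec.O168 CfsgLib.DefectOne Subgroup in

/-- In a simple group of order 168 every maximal subgroup is either isomorphic to the symmetric group of degree 4 or non-abelian of order 21; the maximal subgroups of order 21 form one conjugacy class and those isomorphic to the symmetric group of degree 4 form exactly two conjugacy classes. -/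
theorem result {G : Type*} [Group G] [Finite G] [IsSimpleGroup G] (h : Nat.card G = 168) : (∀ M : Subgroup G, IsCoatom M → Nonempty (↥M ≃* Equiv.Perm (Fin 4)) ∨ (Nat.card ↥M = 21 ∧ ¬ IsMulCommutative ↥M)) ∧ (∀ M M' : Subgroup G, IsCoatom M → IsCoatom M' → Nat.card ↥M = 21 → Nat.card ↥M' = 21 → ∃ g : G, M' = M.map (MulAut.conj g).toMonoidHom) ∧ ∃ M₁ M₂ : Subgroup G, IsCoatom M₁ ∧ IsCoatom M₂ ∧ Nonempty (↥M₁ ≃* Equiv.Perm (Fin 4)) ∧ Nonempty (↥M₂ ≃* Equiv.Perm (Fin 4)) ∧ (∀ g : G, M₂ ≠ M₁.map (MulAut.conj g).toMonoidHom) ∧ ∀ M : Subgroup G, IsCoatom M → Nonempty (↥M ≃* Equiv.Perm (Fin 4)) → ∃ g : G, M = M₁.map (MulAut.conj g).toMonoidHom ∨ M = M₂.map (MulAut.conj g).toMonoidHom := by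
  refine ⟨fun M hM => ?_, fun M M' hM hM' h1 h2 => ?_, ?_⟩
  · by_cases h7 : 7 ∣ Nat.card M
    · obtain ⟨x, hx, rfl⟩ := eq_NN h hM h7
      refine Or.inr ⟨n7 h hx, fun hc => ?_⟩
      have := card_le_of_le (show NN x ≤ CC x from fun g hg => mem_CC.2 (congrArg Subtype.val
        (hc.is_comm.comm (⟨x, CC_le_NN x (self_mem_CC x)⟩ : NN x) ⟨g, hg⟩)))
      rw [n7 h hx, c7 h hx] at this
      omega
    · obtain ⟨U, hU, rfl⟩ := coatom_cases h hM h7
      exact Or.inl (norm_S4 h hU)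
  · obtain ⟨x, hx, rfl⟩ := eq_NN h hM (by rw [h1]; decide)
    obtain ⟨y, hy, rfl⟩ := eq_NN h hM' (by rw [h2]; decide)
    have hs : Syl 7 y := ⟨by norm_num, hy, by rw [h]; decide⟩
    obtain ⟨g, hg⟩ := hs.exists_conj_mem (v := x) (hx ▸ pow_orderOf_eq_one x)
    refine ⟨g, ?_⟩
    rw [NN, NN, map_equiv_normalizer_eq, MonoidHom.map_zpowers, ← hs.zpowers_eq hg]
    · rfl
    · rw [Ne, conj_eq_one_iff, ← orderOf_eq_one_iff, hx]
      decide
  · obtain ⟨T⟩ : Nonempty (Sylow 2 G) := inferInstance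
    obtain ⟨U, W, h1, h2, h3⟩ := klein h T
    have hU := ((h1 U).2 (Or.inl rfl)).2
    have hW := ((h1 W).2 (Or.inr rfl)).2
    refine ⟨_, _, coatom h (card_norm h hU), coatom h (card_norm h hW), norm_S4 h hU, norm_S4 h hW,
      fun g e => h2 g ?_, fun M hM ⟨e⟩ => ?_⟩
    · rw [map_equiv_normalizer_eq] at e
      exact (norm_inj h hW (CfsgLib.DihSyl.isKleinFour_map_conj hU g) e).symm
    · obtain ⟨V, hV, rfl⟩ := coatom_cases h hM (by
        rw [Nat.card_congr e.toEquiv, Nat.card_perm, Nat.card_eq_fintype_card, Fintype.card_fin]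
        decide)
      obtain ⟨g, hg⟩ := h3 V hV
      have h4 : normalizer (V : Set G) = (normalizer (V.map (MulAut.conj g).toMonoidHom :
          Set G)).map (MulAut.conj g⁻¹).toMonoidHom := by
        rw [← map_equiv_normalizer_eq, map_map]
        convert (map_id _).symm
        ext; simp [mul_assoc]
      exact ⟨g⁻¹, hg.imp (fun e => by rw [h4, e]) fun e => by rw [h4, e]⟩

end Cfsg.Agent.S1008
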