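import Cfsg.Statements.S1009
import Cfsg.Agent.Lib.PSL2Rec.Fix

set_option autoImplicit false
open Cfsg

namespace Cfsg.Agent.S1009


/-- Brodkey's Theorem: if a finite group has abelian Sylow p-subgroups, then there are two Sylow p-subgroups whose intersection equals the intersection of all Sylow p-subgroups. -/
theorem result {G : Type*} [Group G] [Finite G] (p : ℕ) [Fact p.Prime] (hab : ∀ P : Sylow p G, IsMulCommutative ↥(P : Subgroup G)) : ∃ P Q : Sylow p G, (P : Subgroup G) ⊓ (Q : Subgroup G) = ⨅ R : Sylow p G, (R : Subgroup G) := by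
  obtain ⟨D, ⟨P, Q, rfl⟩, hmin⟩ := (wellFounded_lt (α := Subgroup G)).has_min
    {D | ∃ P Q : Sylow p G, D = (P : Subgroup G) ⊓ (Q : Subgroup G)}
    ⟨_, default, default, rfl⟩
  refine ⟨P, Q, le_antisymm (le_iInf fun S => ?_) (le_inf (iInf_le _ P) (iInf_le _ Q))⟩
  set D : Subgroup G := (P : Subgroup G) ⊓ (Q : Subgroup G) with hD
  have hle : ∀ R : Sylow p G, D ≤ R → (R : Subgroup G) ≤ Subgroup.centralizer (D : Set G) := by
    intro R hR x hx y hy
    exact congrArg Subtype.val ((hab R).1.1 (⟨y, hR hy⟩ : (R : Subgroup G)) ⟨x, hx⟩)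
  set C := Subgroup.centralizer (D : Set G) with hC
  have hP := hle P inf_le_left
  have hQ := hle Q inf_le_right
  obtain ⟨T, hT⟩ := (S.2.comap_subtype (K := C)).exists_le_sylow
  obtain ⟨x, hx⟩ := MulAction.exists_smul_eq C (P.subtype hP) T
  -- `x⁻¹ • S ⊓ Q ≤ D`
  have h1 : (((x : G)⁻¹ • S : Sylow p G) : Subgroup G) ⊓ Q ≤ D := by
    rintro y ⟨hy1, hy2⟩
    refine ⟨?_, hy2⟩
    have hy3 := (CfsgLib.PSL2Rec.mem_smul_sylow_iff _ _ _).mp hy1
    rw [inv_inv] at hy3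
    have hyC : y ∈ C := hQ hy2
    have hy4 : x * ⟨y, hyC⟩ * x⁻¹ ∈ (T : Subgroup C) := hT hy3
    rw [← hx, CfsgLib.PSL2Rec.mem_smul_sylow_iff] at hy4
    have hy5 : (⟨y, hyC⟩ : C) ∈ (P.subtype hP : Subgroup C) := by
      convert hy4 using 1
      group
    exact hy5
  have h2 : (((x : G)⁻¹ • S : Sylow p G) : Subgroup G) ⊓ Q = D :=
    h1.eq_or_lt.resolve_right (hmin _ ⟨_, _, rfl⟩)
  intro y hy
  have hy1 : y ∈ (((x : G)⁻¹ • S : Sylow p G) : Subgroup G) := (h2.ge hy).1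
  rw [CfsgLib.PSL2Rec.mem_smul_sylow_iff, inv_inv, ← x.2 y hy, mul_inv_cancel_right] at hy1
  exact hy1

end Cfsg.Agent.S1009
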