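import Cfsg.Statements.S1022
import Cfsg.Agent.Lib.Tuan.BT

set_option autoImplicit false
open Cfsg

namespace Cfsg.Agent.S1022

open CfsgLib.Char CfsgLib.Block CfsgLib.Tuan CfsgLib.DefectOne CfsgLib.DefectOne.B43

theorem sum3 {ι : Type*} (s : Finset ι) (f : ι → ℤ) (h : ∀ i ∈ s, f i = 96 ∨ f i = -56 ∨ f i = -189) :
    ∃ a b c : ℕ, a + b + c = s.card ∧ ∑ i ∈ s, f i = 96 * a - 56 * b - 189 * c ∧
      (s.filter (fun i => f i = 96)).card = a := by
  classical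
  induction s using Finset.induction_on with
  | empty => exact ⟨0, 0, 0, by simp⟩
  | insert i s hi ih =>
    obtain ⟨a, b, c, h1, h2, h3⟩ := ih fun j hj => h j (Finset.mem_insert_of_mem hj)
    rw [Finset.card_insert_of_notMem hi, Finset.sum_insert hi, Finset.filter_insert, h2]
    rcases h i (Finset.mem_insert_self _ _) with h4 | h4 | h4 <;> rw [h4]
    · refine ⟨a + 1, b, c, by omega, by push_cast; ring, ?_⟩
      rw [if_pos rfl, Finset.card_insert_of_notMem (fun h => hi (Finset.mem_filter.1 h).1), h3]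
    · exact ⟨a, b + 1, c, by omega, by push_cast; ring, by rw [if_neg (by norm_num), h3]⟩
    · exact ⟨a, b, c + 1, by omega, by push_cast; ring, by rw [if_neg (by norm_num), h3]⟩

theorem d1 : ∀ n ∈ Nat.divisors 24192, n % 19 = 1 → n = 1 ∨ n = 96 ∨ n = 1008 := by decide +kernel
theorem d2 : ∀ n ∈ Nat.divisors 1728, n % 19 = 1 ∨ n % 19 = 18 → n ^ 2 ≤ 459648 →
    n = 1 ∨ n = 18 ∨ n = 96 := by decide +kernel
theorem d3 : ∀ n ∈ Nat.divisors 6048, n % 19 = 1 ∨ n % 19 = 18 → n ^ 2 ≤ 459648 →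
    n = 1 ∨ n = 18 ∨ n = 96 ∨ n = 56 ∨ n = 189 := by decide +kernel
theorem d4 : ∀ e ∈ Nat.divisors 18, e ≠ 1 → ¬ 1 + 96 * (e - 1) ∣ 459648 := by decide +kernel
theorem d5 : ∀ a : ℕ, a < 6 → ∀ b : ℕ, b < 6 → ∀ c : ℕ, c < 6 → a + b + c + 1 ∣ 6 → a + b + c ≠ 0 →
    (1 + 96 * (a : ℤ) - 56 * (b : ℤ) - 189 * (c : ℤ)).natAbs ∣ 459648 → a = 2 ∧ b = 2 ∧ c = 1 := by
  intro a ha b hb c hc
  interval_cases a <;> interval_cases b <;> interval_cases c <;> decide +kernel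

/-- No finite simple group has order 459648 = 2^7 * 3^3 * 7 * 19. -/
theorem result {G : Type*} [Group G] [Finite G] [IsSimpleGroup G] : Nat.card G ≠ 459648 := by
  classical
  intro hG
  have hna : ∃ a b : G, a * b ≠ b * a := by
    by_contra! h
    exact CfsgLib.PSL2Rec.not_comm_of_simple (G := G) (by rw [hG]; norm_num) ⟨⟨h⟩⟩
  have hperf := commutator_eq_top hna
  have : Fact (Nat.Prime 19) := ⟨by norm_num⟩
  have : Fact (Nat.Prime 7) := ⟨by norm_num⟩
  obtain ⟨x, hs⟩ := exists_syl (G := G) (p := 19) (by rw [hG]; norm_num) (by rw [hG]; norm_num)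
  obtain ⟨ζ, hζ, ⟨D⟩⟩ := exists_data hs
  have h1 := card_eq_mul hs
  obtain ⟨k, hk⟩ := dvd_card_CC hs
  have h2 := ee_dvd hs
  have h3 := ee_ne_one_of_perfect hs hperf
  have h4 := card_sylow_ne_one_of_perfect hs hperf
  have h5 := CfsgLib.PSL2Rec.card_sylow_mod (G := G) (p := 19)
  set n := Nat.card (Sylow 19 G) with hn
  set e := ee x with he
  rw [hG, hk] at h1
  have h6 : k * e * n = 24192 := by nlinarith
  have h7 := d1 n (Nat.mem_divisors.2 ⟨⟨k * e, by rw [← h6]; ring⟩, by norm_num⟩) h5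
  have he18 : e ≤ 18 := Nat.le_of_dvd (by norm_num) h2
  have hk1 : k ≠ 1 := by
    rintro rfl
    rcases h7 with h | h | h <;> rw [h] at h6 <;> omega
  obtain ⟨y, hy, hy', hy1⟩ := exists_reg_ne_one hs (by omega)
  have hX : ∀ χ ∈ D.X.erase (irrOne G), dg χ ∣ e * n ∧ (dg χ % 19 = 1 ∨ dg χ % 19 = 18) ∧
      dg χ ^ 2 ≤ 459648 ∧ dg χ ≠ 1 ∧ dg χ ≠ 18 ∧ (dg χ % 19 = 1 → D.δ χ = 1) ∧
      (dg χ % 19 = 18 → D.δ χ = -1) := by
    intro χ hχ
    obtain ⟨hχ1, hχ⟩ := Finset.mem_erase.1 hχ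
    have h8 := D.X_deg χ hχ
    refine ⟨deg_X_dvd D hs hχ, ?_, hG ▸ dg_sq_le χ, (one_lt_dg hna hχ1).ne', fun h => ?_,
      fun h => ?_, fun h => ?_⟩
    · unfold Int.ModEq at h8
      rcases D.δ_sign χ hχ with h | h <;> rw [h] at h8 <;> unfold dg <;> omega
    · exact hy1 (eq_one_of_eq hχ1 (X_ker D hs (by norm_num) hχ (by omega) hy hy'))
    · exact δ_eq_of_modEq D (by norm_num) hχ (Or.inl rfl) (by unfold Int.ModEq; omega)
    · exact δ_eq_of_modEq D (by norm_num) hχ (Or.inr rfl) (by unfold Int.ModEq; omega)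
  have hdeg := deg_eq' D
  have hcard := card_erase D hs
  have hz := z0_dvd_card D
  have hz0 : (z0 D : ℤ).natAbs = (D.ε * z0 D).natAbs := by
    rcases D.ε_sign with h | h <;> simp [h]
  rw [Int.natAbs_natCast, hdeg] at hz0
  rw [hG] at hz
  rcases h7 with h7 | h7 | h7
  · exact h4 h7
  · have h8 : ∀ χ ∈ D.X.erase (irrOne G), D.δ χ * dg χ = 96 := by
      intro χ hχ
      obtain ⟨a1, a2, a3, a4, a5, a6, a7⟩ := hX χ hχ
      have := d2 _ (Nat.mem_divisors.2 ⟨a1.trans (h7 ▸ Nat.mul_dvd_mul_right h2 96), by norm_num⟩) a2 a3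
      have h9 : dg χ = 96 := by omega
      rw [a6 (by omega), h9]; norm_num
    rw [Finset.sum_congr rfl h8, Finset.sum_const, nsmul_eq_mul] at hz0
    refine d4 e (Nat.mem_divisors.2 ⟨h2, by norm_num⟩) h3 ?_
    convert hz using 1
    omega
  rw [h7] at h6
  have he6 : e ∣ 6 := by
    have : e ∣ 24 := ⟨k, by linarith⟩
    exact Nat.dvd_gcd this h2
  have h8 : ∀ χ ∈ D.X.erase (irrOne G), (D.δ χ * dg χ = 96 ∧ dg χ = 96) ∨
      (D.δ χ * dg χ = -56 ∧ dg χ = 56) ∨ (D.δ χ * dg χ = -189 ∧ dg χ = 189) := by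
    intro χ hχ
    obtain ⟨a1, a2, a3, a4, a5, a6, a7⟩ := hX χ hχ
    have := d3 _ (Nat.mem_divisors.2 ⟨a1.trans (h7 ▸ Nat.mul_dvd_mul_right he6 1008), by norm_num⟩) a2 a3
    rcases (by omega : dg χ = 96 ∨ dg χ = 56 ∨ dg χ = 189) with h | h | h
    · exact Or.inl ⟨by rw [a6 (by omega), h]; norm_num, h⟩
    · exact Or.inr (Or.inl ⟨by rw [a7 (by omega), h]; norm_num, h⟩)
    · exact Or.inr (Or.inr ⟨by rw [a7 (by omega), h]; norm_num, h⟩)
  obtain ⟨a, b, c, h9, h10, h11⟩ := sum3 (D.X.erase (irrOne G)) (fun χ => D.δ χ * dg χ)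
    fun χ hχ => by rcases h8 χ hχ with h | h | h <;> simp [h.1]
  have he6' : e ≤ 6 := Nat.le_of_dvd (by norm_num) he6
  rw [h10] at hz0 hdeg
  obtain ⟨rfl, rfl, rfl⟩ := d5 a (by omega) b (by omega) c (by omega) (by rw [h9, hcard]; exact he6)
    (by omega) (by convert hz using 1; rw [hz0]; congr 1; ring)
  have hz1 : z0 D = 108 := by rw [hz0]; rfl
  have hε : D.ε = -1 := by rw [hz1] at hdeg; omega
  have he' : e = 6 := by omega
  have hk4 : k = 4 := by rw [he'] at h6; omega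
  obtain ⟨M, hM⟩ := exists_isPModular' (by norm_num : Nat.Prime 7)
  have hf : (Nat.card G).factorization 7 = 1 := by
    rw [hG, (by norm_num : 459648 = 7 * 65664), Nat.factorization_mul (by norm_num) (by norm_num)]
    simp [Nat.Prime.factorization_self (by norm_num : Nat.Prime 7),
      Nat.factorization_eq_zero_of_not_dvd (by norm_num : ¬ 7 ∣ 65664)]
  have hbt := bt D hs hζ (by norm_num : Nat.Prime 7) (by rw [hk, hk4]; norm_num) hM
    (isPBlock_principalBlock (G := G))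
  set S := D.X.filter (· ∈ principalBlock M G) with hS
  have hS1 : irrOne G ∈ S := Finset.mem_filter.2 ⟨D.one_mem, irrOne_mem_principalBlock hM⟩
  have hS2 : ∀ χ ∈ S.erase (irrOne G), D.δ χ * dg χ = 96 ∧ dg χ = 96 := by
    intro χ hχ
    obtain ⟨b1, b2⟩ := Finset.mem_erase.1 hχ
    obtain ⟨b2, b3⟩ := Finset.mem_filter.1 b2
    have b4 : ¬ 7 ∣ dg χ := fun h =>
      not_mem_principal_of_defect_zero hM (by rw [hG]; norm_num) (by rwa [hf, pow_one]) b3
    rcases h8 χ (Finset.mem_erase.2 ⟨b1, b2⟩) with h | h | h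
    · exact h
    · exact absurd (by rw [h.2]; norm_num) b4
    · exact absurd (by rw [h.2]; norm_num) b4
  have hS3 : (S.erase (irrOne G)).card ≤ 2 := by
    rw [← h11]
    refine Finset.card_le_card fun χ hχ => Finset.mem_filter.2 ⟨?_, (hS2 χ hχ).1⟩
    exact Finset.erase_subset_erase _ (Finset.filter_subset _ _) hχ
  have hS4 : ((Ys D).filter (· ∈ principalBlock M G)).card ≤ 3 := by
    refine (Finset.card_filter_le _ _).trans ?_
    have := card_Ys_mul D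
    rw [card_U D hs, ← he, he'] at this
    omega
  rw [← Finset.add_sum_erase _ _ hS1, Finset.sum_congr rfl fun χ hχ => (hS2 χ hχ).1, D.δ_one, dg_one,
    Finset.sum_const, hf, hε, ← he, he', hz1] at hbt
  simp only [nsmul_eq_mul] at hbt
  have hS5 : 0 < (S.erase (irrOne G)).card ∧ 0 < ((Ys D).filter (· ∈ principalBlock M G)).card := by
    omega
  obtain ⟨χ, hχ⟩ := Finset.card_pos.1 hS5.1
  obtain ⟨θ, hθ⟩ := Finset.card_pos.1 hS5.2
  obtain ⟨w, hw⟩ := exists_syl (G := G) (p := 7) (by rw [hG]; norm_num) (by rw [hG]; norm_num)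
  obtain ⟨ζ', hζ', ⟨D'⟩⟩ := exists_data hw
  have hχ1 := (hS2 χ hχ).2
  have hθ1 : dg θ = 108 := by
    obtain ⟨a, rfl⟩ := (mem_Ys D).1 (Finset.mem_filter.1 hθ).1
    exact (deg_Y D a).trans hz1
  have e1 := dg_eq_z0_of_mem D' hw hζ' hM (Finset.mem_filter.1 (Finset.mem_erase.1 hχ).2).2
    (by rw [hχ1]; decide) (by rw [hχ1]; decide)
  have e2 := dg_eq_z0_of_mem D' hw hζ' hM (Finset.mem_filter.1 hθ).2
    (by rw [hθ1]; decide) (by rw [hθ1]; decide)
  omega

end Cfsg.Agent.S1022
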