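import Cfsg.Statements.S1075
import Cfsg.Agent.Lib.Ree.Three
import Cfsg.Agent.Lib.Ree.Twisted
import Cfsg.Agent.Lib.Classical.SmallIso

set_option autoImplicit false
open Cfsg

namespace Cfsg.Agent.S1075

/-- The derived subgroup of ²G₂(3) (θ = identity over the field with three elements) has order 504 = 1512/3 and is isomorphic to PSL₂ over the field with eight elements. -/
theorem result {L : Type*} [Field L] [Fintype L] (hL : Fintype.card L = 8) :
    Nat.card ↥(commutator ↥(Cfsg.Lie.twistedG2 (ZMod 3) 1)) = 504 ∧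
      Nonempty (↥(commutator ↥(Cfsg.Lie.twistedG2 (ZMod 3) 1)) ≃* Matrix.ProjectiveSpecialLinearGroup (Fin 2) L) := by
  have hK : Fintype.card (ZMod 3) = 3 ^ (2 * 0 + 1) := rfl
  have hG := (CfsgLib.Ree.reeModel hK).card_G (CfsgLib.Ree.isTits_tits hK)
  rw [CfsgLib.Ree.natCard_eq hK] at hG
  have : Finite (Cfsg.Lie.twistedG2 (ZMod 3) (3 ^ 0)) := Nat.finite_of_card_ne_zero (by rw [hG]; simp)
  obtain ⟨h1, ⟨e⟩⟩ := CfsgLib.Ree.Three.commutator_equiv (CfsgLib.Ree.reeModel hK) hG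
  exact ⟨h1, ⟨e.trans (CfsgLib.Classical.pslMapEquiv
    (FiniteField.ringEquivOfCardEq (CfsgLib.Recog.F8.card_eq.trans hL.symm)))⟩⟩

end Cfsg.Agent.S1075
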