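import Cfsg.Statements.S1313
import Cfsg.Agent.Lib.Comp.FStar

set_option autoImplicit false
open Cfsg

namespace Cfsg.Agent.S1313

/-- For a finite group H, |H| ≤ |F*(H)|!. -/
theorem result {H : Type*} [Group H] [Finite H] : Nat.card H ≤ Nat.factorial (Nat.card ↥(Cfsg.generalizedFittingSubgroup H)) := by
  classical
  haveI := CfsgLib.Comp.fstar_normal (G := H)
  set F := Cfsg.generalizedFittingSubgroup H with hF
  have hker : (MulAut.conjNormal : H →* MulAut F).ker ≤ F := by
    refine le_trans ?_ CfsgLib.Comp.centralizer_fstar_le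
    intro x hx g hg
    have h1 := congrArg Subtype.val (MulEquiv.congr_fun (MonoidHom.mem_ker.mp hx) ⟨g, hg⟩)
    simp only [MulAut.conjNormal_apply, MulAut.one_apply] at h1
    calc g * x = (x * g * x⁻¹) * x := by rw [h1]
      _ = x * g := by group
  have haut : Nat.card (MulAut F) ≤ (Nat.card F - 1).factorial := by
    let f : MulAut F → Equiv.Perm {x : F // x ≠ 1} := fun a =>
      Equiv.Perm.subtypePerm a.toEquiv (by intro x; simp)
    have hf : Function.Injective f := by
      intro a b hab
      ext x
      by_cases hx : x = 1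
      · simp [hx]
      · exact congrArg (fun y : {x : F // x ≠ 1} => (y.1 : H)) (Equiv.congr_fun hab ⟨x, hx⟩)
    refine (Nat.card_le_card_of_injective f hf).trans (le_of_eq ?_)
    haveI := Fintype.ofFinite F
    rw [Nat.card_perm, Nat.card_eq_fintype_card, Nat.card_eq_fintype_card, Fintype.card_subtype_compl,
      Fintype.card_subtype_eq]
  have h1 : Nat.card H = Nat.card (MulAut.conjNormal : H →* MulAut F).ker *
      Nat.card (MulAut.conjNormal : H →* MulAut F).range := by
    rw [← Subgroup.index_ker, Subgroup.card_mul_index]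
  have h2 : Nat.card (MulAut.conjNormal : H →* MulAut F).range ≤ Nat.card (MulAut F) :=
    Subgroup.card_le_card_group _
  have h3 : 0 < Nat.card F := Nat.card_pos
  calc Nat.card H ≤ Nat.card F * (Nat.card F - 1).factorial := by
        rw [h1]; exact Nat.mul_le_mul (Subgroup.card_le_of_le hker) (h2.trans haut)
    _ = (Nat.card F).factorial := Nat.mul_factorial_pred h3.ne'

end Cfsg.Agent.S1313
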