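import Mathlib
-- Template for statement S1349 (row 1349; see /opt/grader/pristine/manifest.json for weights).
-- Copy to Cfsg/Agent/S1349.lean and replace the sorry. The statement below is byte-identical to the frozen
-- statement Cfsg.CfsgFrozen.S1349 (Cfsg/Statements/S1349.lean; the theorem Cfsg.thompson_dihedral_lemma);
-- the grader kernel-checks Cfsg.Agent.S1349.result against that frozen type. Keep the theorem IN THIS FILE
-- (a `result` declared elsewhere and merely imported here is not credited); helpers may live anywhere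
-- under Cfsg/Agent/.
import Cfsg.Statements.S1349
import Cfsg.Agent.Lib.MinS.Mod1a
import Cfsg.Agent.Lib.BG.S1_1
import Cfsg.Agent.Lib.BG.AmbCore
import Cfsg.Agent.Lib.TwoGrp.Pres

set_option autoImplicit false
open Cfsg

namespace Cfsg.Agent.S1349

open Subgroup CfsgLib


/-- Let G be finite, L ≤ G solvable of odd order, and A an elementary abelian 2-subgroup of order 2^d (d ≥ 1) normalizing L with C_A(L) = 1. Then there are subgroups A_1, …, A_d of A of order 2 generating A and subgroups L_1, …, L_d of L such that each A_i ⊔ L_i is dihedral of order 2 n_i with n_i odd and at least 3, and A_i ⊔ L_i commutes elementwise with A_j ⊔ L_j for i ≠ j. -/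
theorem result {G : Type*} [Group G] [Finite G] (L A : Subgroup G) (hLs : Group.IsSolvable ↥L) (hLodd : Odd (Nat.card ↥L)) (hA : Cfsg.IsElementaryAbelian 2 A) (d : ℕ) (hd : 1 ≤ d) (hAd : Nat.card ↥A = 2 ^ d) (hAL : A ≤ Subgroup.normalizer (L : Set G)) (hfaith : A ⊓ Subgroup.centralizer (L : Set G) = ⊥) : ∃ (Ai : Fin d → Subgroup G) (Li : Fin d → Subgroup G) (n : Fin d → ℕ), (∀ i, Ai i ≤ A ∧ Nat.card ↥(Ai i) = 2 ∧ Li i ≤ L ∧ Odd (n i) ∧ 3 ≤ n i ∧ Nonempty (↥(Ai i ⊔ Li i) ≃* DihedralGroup (n i))) ∧ (⨆ i, Ai i) = A ∧ ∀ i j, i ≠ j → ∀ x ∈ Ai i ⊔ Li i, ∀ y ∈ Ai j ⊔ Li j, x * y = y * x := by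
  have hsq : ∀ x ∈ A, x * x = 1 := fun x hx => by rw [← pow_two, hA.2 x hx]
  obtain ⟨k, a, e, h⟩ := MinS.exists_td (F := fittingOf L)
    (hLodd.of_dvd_nat (card_dvd_of_le (BG.Fitting_sub L))) (BG.Fitting_nil L) hsq
    (BG.norms_Fitting hAL) (BG.coprime_trivg_cent_Fitting hAL
      (hAd ▸ (Nat.coprime_two_right.2 hLodd).pow_right d) hLs hfaith)
  obtain rfl : k = d := Nat.pow_right_injective le_rfl (h.card.symm.trans hAd)
  have h2 : ∀ i, orderOf (a i) = 2 := fun i =>
    orderOf_eq_prime (hA.2 _ (h.a_mem i)) (h.a_ne_one i).1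
  refine ⟨fun i => zpowers (a i), fun i => zpowers (e i), fun i => orderOf (e i), fun i =>
    ⟨zpowers_le.2 (h.a_mem i), by rw [Nat.card_zpowers, h2], zpowers_le.2
      (BG.Fitting_sub L (h.d_mem i)), h.odd i, ?_, ?_⟩, ?_, fun i j hij x hx y hy => ?_⟩
  · have := (h.prime i).two_le
    have := Nat.odd_iff.1 (h.odd i)
    show 3 ≤ orderOf (e i)
    omega
  · rw [sup_comm]
    exact TwoGrp.nonempty_sup_mulEquiv_dihedral rfl (hsq _ (h.a_mem i)) (h.inv i)
      fun k => absurd ((h.odd i).of_dvd_nat (orderOf_dvd_of_mem_zpowers k)) (by rw [h2]; decide)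
  · rw [h.gen, ← Set.iUnion_singleton_eq_range, Subgroup.closure_iUnion]
    simp only [zpowers_eq_closure]
  · have k : ∀ {u v w : G}, u * w = w * u → v * w = w * v → zpowers u ⊔ zpowers v ≤ centralizer {w} :=
      fun h1 h2 => sup_le (zpowers_le.2 (mem_centralizer_singleton_iff.2 h1))
        (zpowers_le.2 (mem_centralizer_singleton_iff.2 h2))
    exact (mem_centralizer_singleton_iff.1 (k
      (mem_centralizer_singleton_iff.1 (k (MinS.M1.comm_of_sq hsq (h.a_mem i) (h.a_mem j))
        (h.cent i j hij).symm hx)).symm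
      (mem_centralizer_singleton_iff.1 (k (h.cent j i hij.symm) (h.comm i j) hx)).symm hy)).symm

end Cfsg.Agent.S1349
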