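import Cfsg.Statements.S1606
import Cfsg.Agent.Lib.MSub.M22
import Cfsg.Agent.S0378

set_option autoImplicit false
open scoped Pointwise
open Cfsg

namespace Cfsg.Agent.S1606

/-- The stabiliser of two points in the group of the length-24 code has no subgroups of index 56 or 210. -/
theorem result (p q : Cfsg.GolayPt) (hpq : p ≠ q) (H : Subgroup ↥(MulAction.stabilizer Cfsg.M24 p ⊓ MulAction.stabilizer Cfsg.M24 q)) : H.index ≠ 56 ∧ H.index ≠ 210 := by
  have h1 := H.index_mul_card
  rw [Cfsg.Agent.S0378.result p q hpq, ← Subgroup.card_map_of_injective (Subgroup.subtype_injective _)] at h1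
  refine ⟨fun h => CfsgLib.MSub.not_7920 (K := H.map (Subgroup.subtype _)) hpq ?_ ?_ (by rw [h] at h1; omega),
    fun h => CfsgLib.MSub.not_2112 (H.map (Subgroup.subtype _)) (by rw [h] at h1; omega)⟩
  · rintro _ ⟨g, -, rfl⟩; exact g.2.1
  · rintro _ ⟨g, -, rfl⟩; exact g.2.2

end Cfsg.Agent.S1606
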