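import Cfsg.Statements.S1616
import Cfsg.Agent.Lib.FTHM.Ident
import Cfsg.Agent.Lib.FTHM.A2

set_option autoImplicit false
open Cfsg

namespace Cfsg.Agent.S1616

open CfsgLib.ThreeTrans CfsgLib.FTHM

/-- If O₂(⟨D_x⟩) is not central in ⟨D_x⟩ for some transposition x, the 3-transposition group is some Sp(2n, 2) or PSU(n, 2). -/
theorem result {G : Type*} [Group G] [Finite G] (hsol : ∀ N : Subgroup G, N.Normal → Group.IsSolvable ↥N → N = ⊥) (hperf : ⁅commutator G, commutator G⁆ = commutator G) {D : Set G} (hD : Cfsg.IsThreeTranspositionClass D) (x : G) (hx : x ∈ D) (h : ¬ Cfsg.pCore 2 ↥(Subgroup.closure {y : G | y ∈ D ∧ y ≠ x ∧ Commute x y}) ≤ Subgroup.center ↥(Subgroup.closure {y : G | y ∈ D ∧ y ≠ x ∧ Commute x y})) : (∃ n : ℕ, Nonempty (G ≃* Matrix.symplecticGroup (Fin n) (ZMod 2))) ∨ ∃ (F : Type) (_ : Field F) (_ : Fintype F) (n : ℕ), Fintype.card F = 4 ∧ Nonempty (G ≃* Cfsg.PSU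 n F 2) := by
  obtain ⟨hP, hZ⟩ := prim_of_fischer hsol hperf hD
  have hK := kprim_of_prim hP
  rcases a2 hK ((hK.locV_iff hx).2 h) with ⟨m, hm, T⟩ | ⟨n, hn, T⟩
  · obtain ⟨e, -⟩ := T.ident (by omega) hK.tt hD.2.2 hZ
    exact Or.inl ⟨m, ⟨e⟩⟩
  · obtain ⟨e, -⟩ := T.ident hn hK.tt hD.2.2 hZ
    exact Or.inr ⟨_, inferInstance, inferInstance, n, CfsgLib.Classical.card_GF4, ⟨e⟩⟩

end Cfsg.Agent.S1616
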