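import Cfsg.Statements.S1892
import Cfsg.Agent.Lib.LAE.CharP
import Cfsg.Agent.Lib.Coprime.Action
import Cfsg.Agent.Lib.PLocal.PSolvable

set_option autoImplicit false
open Cfsg

namespace Cfsg.Agent.S1892

open Subgroup CfsgLib.LAE

/-- Let S be a finite p-solvable group with no nontrivial normal subgroup of order prime to p, A a p-subgroup of S, and Q a nontrivial A-invariant subgroup of order prime to p with [A, Q] = Q. Then the commutator [O_p(S), A, Q] is nontrivial. -/
theorem result {S : Type*} [Group S] [Finite S] {p : ℕ} [Fact p.Prime]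
    (hS : Cfsg.IsPSolvable p S) (hred : Cfsg.pPrimeCore p S = ⊥)
    (A Q : Subgroup S) (hA : IsPGroup p A) (hQ : ¬ p ∣ Nat.card Q) (hQ1 : Q ≠ ⊥)
    (hinv : ∀ a ∈ A, ∀ x ∈ Q, a * x * a⁻¹ ∈ Q) (hAQ : ⁅A, Q⁆ = Q) :
    ⁅⁅Cfsg.pCore p S, A⁆, Q⁆ ≠ ⊥ := by
  intro h
  set V := Cfsg.pCore p S with hV
  set C := V ⊓ centralizer (Q : Set S) with hC
  have hAQn : A ≤ normalizer (Q : Set S) := fun a ha =>
    mem_normalizer_of_conjS_le (conjS_le_iff_forall.2 (hinv a ha))
  have hQC : Q ≤ normalizer (C : Set S) :=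
    le_normalizer_inf le_normalizer_of_normal (le_normalizer_centralizer le_normalizer)
  have hAC : A ≤ normalizer (C : Set S) :=
    le_normalizer_inf le_normalizer_of_normal (le_normalizer_centralizer hAQn)
  have h1 : ⁅V, A⁆ ≤ C := le_inf (commutator_le_left _ _) (commutator_eq_bot_iff_le_centralizer.1 h)
  have h2 : ⁅V, ⨆ q : Q, conjS (q : S) A⁆ ≤ C := by
    rw [commutator_comm] at h1 ⊢
    refine commutator_iSup_le (fun q => ?_) (fun q => ?_)
    · rw [← mem_normalizer_iff_conjS.1 (hQC q.2), ← conjS_normalizer]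
      exact conjS_mono hAC
    · rw [← mem_normalizer_iff_conjS.1 (hQC q.2), ← conjS_eq_of_normal (q : S) V, ← conjS_commutator]
      exact conjS_mono h1
  have h3 : Q ≤ ⨆ q : Q, conjS (q : S) A := by
    refine hAQ.ge.trans (commutator_le.2 fun a ha q hq => ?_)
    have h4 : a ∈ ⨆ q : Q, conjS (q : S) A := mem_iSup_of_mem 1 (by rwa [coe_one, conjS_one])
    have h5 : q * a⁻¹ * q⁻¹ ∈ ⨆ q : Q, conjS (q : S) A :=
      mem_iSup_of_mem ⟨q, hq⟩ (conj_mem_conjS.2 (inv_mem ha))
    simpa [commutatorElement_def, mul_assoc] using mul_mem h4 h5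
  have hcop : (Nat.card Q).Coprime p := ((Nat.Prime.coprime_iff_not_dvd Fact.out).2 hQ).symm
  have h4 := CfsgLib.Coprime.le_centralizer_of_commutator_le_centralizer (K := V) (A := Q)
    le_normalizer_of_normal (CfsgLib.Core.isPGroup_coprime_card isPGroup_pCore hcop).symm
    (((commutator_mono le_rfl h3).trans h2).trans inf_le_right)
  apply hQ1
  rw [eq_bot_iff, ← CfsgLib.Core.isPGroup_inf_eq_bot_of_coprime (isPGroup_pCore (p := p)) hcop]
  exact le_inf (h4.trans (CfsgLib.PLocal.PSolv.centralizer_pCore_le hS hred))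
    le_rfl

end Cfsg.Agent.S1892
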