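import Cfsg.Statements.S1893
import Cfsg.Agent.Lib.PLocal.StableClosure
import Cfsg.Agent.Lib.Coprime.Hall
import Cfsg.Agent.Lib.Core.Fitting
import Cfsg.Agent.Lib.Transfer.Residual

set_option autoImplicit false
open Cfsg

namespace Cfsg.Agent.S1893

open Subgroup CfsgLib.Core CfsgLib.Coprime CfsgLib.PLocal
open scoped commutatorElement

variable {X : Type*} [Group X] [Finite X] [Group.IsSolvable X]

theorem mem_fitting_p (hF : ∀ q : ℕ, q.Prime → q ∣ Nat.card (fittingSubgroup X) → 5 ≤ q)
    {p : ℕ} [hp : Fact p.Prime] {a : X} (ha : IsPGroup p (zpowers a))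
    (hq : ⁅⁅fittingSubgroup X, zpowers a⁆, zpowers a⁆ = ⊥) : a ∈ fittingSubgroup X := by
  have hFn := fittingSubgroup_normal X
  obtain ⟨n, hn⟩ := ha.exists_card_eq
  have hcen : ∀ K : Subgroup X, K.Normal → K ≤ fittingSubgroup X → (Nat.card K).Coprime p →
      a ∈ centralizer (K : Set X) := fun K _ hK hc => by
    have := commutator_eq_bot_of_commutator_commutator_eq_bot (K := K) (A := zpowers a)
      le_normalizer_of_normal (hn ▸ hc.symm.pow_left n)
      (eq_bot_iff.2 ((commutator_mono (commutator_mono hK le_rfl) le_rfl).trans hq.le))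
    rw [commutator_comm, commutator_eq_bot_iff_le_centralizer] at this
    exact this (mem_zpowers a)
  by_cases h5 : 5 ≤ p
  swap
  · exact centralizer_fittingSubgroup_le (hcen _ hFn le_rfl
      ((hp.out.coprime_iff_not_dvd.2 fun h => h5 (hF p hp.out h)).symm))
  have hOn := pCore_normal p X
  have hO'n := pPrimeCore_normal p X
  set K : Subgroup X := pPrimeCore p X ⊓ fittingSubgroup X with hK
  have hKc : (Nat.card K).Coprime p :=
    (coprime_card_pPrimeCore p X).coprime_dvd_left (card_dvd_of_le inf_le_left)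
  have hNn : ((frattini (pCore p X)).map (pCore p X).subtype).Normal := inferInstance
  obtain ⟨D, hDn, -, ⟨k, hk⟩, haD⟩ := StableW.isPStableOnSection_of_isPStableOn (p := p)
    (StableW.isPStableOn_of_isPSolvable h5 PSolv.of_isSolvable _
      (StableW.elemAb_map_frattini (isPGroup_pCore p X))) a
    (((commutator_mono (commutator_mono (pCore_le_fittingSubgroup hp.out) le_rfl) le_rfl).trans
      hq.le).trans bot_le)
  set M : Subgroup X := D ⊓ centralizer (K : Set X) with hM
  have key : ∀ x ∈ M, (orderOf x).Coprime p → x ∈ K := by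
    intro x hx hxc
    have hker : x ∈ sectionKernel (pCore p X) ((frattini (pCore p X)).map (pCore p X).subtype) := by
      have hn2 : (sectionKernel (pCore p X)
        ((frattini (pCore p X)).map (pCore p X).subtype)).Normal := by
        unfold sectionKernel; infer_instance
      have h1 := pow_relIndex_mem (H := sectionKernel (pCore p X)
        ((frattini (pCore p X)).map (pCore p X).subtype)) hx.1
      rw [hk] at h1
      exact zpowers_le.2 h1 (mem_zpowers_pow_iff.2 (hxc.symm.pow_left k))
    have h1 : zpowers x ≤ centralizer (pCore p X : Set X) := by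
      refine le_centralizer_of_commutator_le_frattini ?_ ?_
      · rw [Nat.card_zpowers]
        obtain ⟨k, hk⟩ := ((isPGroup_pCore p X).to_subgroup (frattini (pCore p X))).exists_card_eq
        rw [hk]
        exact hxc.pow_right _
      · rw [commutator_le]
        intro k hk y hy
        have hy' := (zpowers_le_of_mem hker) hy
        have := hy' _ (mem_map_of_mem (QuotientGroup.mk' _) hk)
        rw [← QuotientGroup.eq_one_iff, ← QuotientGroup.mk'_apply, map_commutatorElement,
          commutatorElement_eq_one_iff_mul_comm]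
        exact this
    have h2 : x ∈ fittingSubgroup X := by
      refine centralizer_fittingSubgroup_le ?_
      rw [← zpowers_le, le_centralizer_iff, fittingSubgroup_eq_pCore_sup hp.out]
      exact sup_le (le_centralizer_iff.1 h1) (le_centralizer_iff.1 (zpowers_le.2 hx.2))
    exact ⟨le_pPrimeCore_of_le_fittingSubgroup (zpowers_le.2 h2) (by rwa [Nat.card_zpowers])
      (mem_zpowers x), h2⟩
  have hMp : IsPGroup p (M ⧸ center M) := by
    intro x
    induction x using QuotientGroup.induction_on with | _ x =>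
    obtain ⟨j, hj⟩ := CfsgLib.Transfer.exists_pow_coprime (p := p) x
    refine ⟨j, ?_⟩
    rw [← QuotientGroup.mk_pow, QuotientGroup.eq_one_iff, mem_center_iff]
    intro g
    exact Subtype.ext (g.2.2 _ (key _ (x ^ p ^ j).2 (by rwa [orderOf_coe]))).symm
  have hMn : Group.IsNilpotent M := Group.of_quotient_center_nilpotent hMp.isNilpotent
  exact le_fittingSubgroup hMn ⟨haD, hcen K inferInstance inf_le_right hKc⟩

theorem mem_fitting (hF : ∀ q : ℕ, q.Prime → q ∣ Nat.card (fittingSubgroup X) → 5 ≤ q)
    {c : X} (hq : ⁅⁅fittingSubgroup X, zpowers c⁆, zpowers c⁆ = ⊥) : c ∈ fittingSubgroup X := by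
  have hn : Group.IsNilpotent (zpowers c) := isNilpotent_subgroup_of_isMulCommutative _
  have h : (⊤ : Subgroup (zpowers c)) ≤ (fittingSubgroup X).subgroupOf (zpowers c) := by
    rw [← iSup_pCore_eq_top_of_isNilpotent]
    refine iSup_le fun p x hx => ?_
    have := Fact.mk p.2
    have h1 : zpowers (x : X) ≤ zpowers c := zpowers_le.2 x.2
    refine mem_fitting_p hF (p := p) (((isPGroup_pCore p _).map (zpowers c).subtype).to_le
      (zpowers_le.2 (mem_map_of_mem _ hx))) ?_
    exact eq_bot_iff.2 ((commutator_mono (commutator_mono le_rfl h1) h1).trans hq.le)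
  exact h (mem_top ⟨c, mem_zpowers c⟩)

/-- Let S be a finite solvable group, π a set of primes containing neither 2 nor 3, H a Hall π-subgroup of S, and A a self-centralizing normal subgroup of the Fitting subgroup F(H). Then C_S(A) = A × D for a normal subgroup D of C_S(A) whose order has no prime divisor in π. -/
theorem result {S : Type*} [Group S] [Finite S] [Group.IsSolvable S]
    (π : Set ℕ) (h2 : 2 ∉ π) (h3 : 3 ∉ π) (H : Subgroup S) (hH : Cfsg.IsPiHall π H)
    (A : Subgroup S) (hA : Cfsg.IsSCN ((Cfsg.fittingSubgroup H).map H.subtype) A) :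
    ∃ D : Subgroup S, D ≤ Subgroup.centralizer (A : Set S) ∧
      (∀ c ∈ Subgroup.centralizer (A : Set S), ∀ d ∈ D, c * d * c⁻¹ ∈ D) ∧
      A ⊓ D = ⊥ ∧ A ⊔ D = Subgroup.centralizer (A : Set S) ∧
      ∀ q : ℕ, q.Prime → q ∣ Nat.card D → q ∉ π := by
  set O : Subgroup S := ordCore (fun n => ∀ q : ℕ, q.Prime → q ∣ n → q ∈ πᶜ) S with hO
  have hOn : O.Normal := ordCore_normal _ S
  have hOc : IsPiNum πᶜ (Nat.card O) := (isOrdClass_pi πᶜ).card_ordCore S
  have hO1 := (isOrdClass_pi πᶜ).ordCore_quotient S
  obtain ⟨hA1, hA2, hA3⟩ := hA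
  have hFH : (fittingSubgroup H).map H.subtype ≤ H := map_subtype_le _
  have hAH : A ≤ H := hA1.trans hFH
  have hHO : (Nat.card H).Coprime (Nat.card O) := IsPiNum.coprime hH.1 hOc
  have hAO : (Nat.card A).Coprime (Nat.card O) := hHO.coprime_dvd_left (card_dvd_of_le hAH)
  have hAc : A ≤ centralizer (A : Set S) := hA3.ge.trans inf_le_right
  set f := QuotientGroup.mk' O with hf
  have hfs : Function.Surjective f := QuotientGroup.mk'_surjective O
  have hker : f.ker = O := QuotientGroup.ker_mk' O
  have hFn := fittingSubgroup_normal (S ⧸ O)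
  have hFπ : IsPiNum π (Nat.card (fittingSubgroup (S ⧸ O))) := by
    intro q hq hd
    by_contra hqπ
    have := Fact.mk hq
    have h1 : pCore q (S ⧸ O) = ⊥ := by
      have := pCore_normal q (S ⧸ O)
      rw [eq_bot_iff, ← hO1]
      exact le_ordCore (isPiNum_card_of_isPGroup hq (isPGroup_pCore q _) hqπ)
    have h2 := (coprime_card_pPrimeCore q (S ⧸ O)).coprime_dvd_left
      (card_dvd_of_le (fittingSubgroup_le_pPrimeCore_of_pCore_eq_bot hq h1))
    exact hq.coprime_iff_not_dvd.1 h2.symm hd
  have hF5 : ∀ q : ℕ, q.Prime → q ∣ Nat.card (fittingSubgroup (S ⧸ O)) → 5 ≤ q := by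
    intro q hq hd
    have h1 := hFπ q hq hd
    have h4 := hq.two_le
    by_contra h
    have : q < 5 := by omega
    interval_cases q
    · exact h2 h1
    · exact h3 h1
    · exact absurd hq (by decide)
  have hFle : fittingSubgroup (S ⧸ O) ≤ ((fittingSubgroup H).map H.subtype).map f := by
    have h1 : fittingSubgroup (S ⧸ O) ≤ H.map f :=
      le_of_isPiHall_of_normal (isPiHall_map_of_surjective hfs hH) hFπ
    have hinj : Function.Injective (f.comp H.subtype) := by
      rw [injective_iff_map_eq_one]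
      intro x hx
      have : (x : S) ∈ H ⊓ O := ⟨x.2, hker ▸ hx⟩
      rw [inf_eq_bot_of_coprime hHO, mem_bot] at this
      exact Subtype.ext this
    have hnil : Group.IsNilpotent ((fittingSubgroup (S ⧸ O)).comap (f.comp H.subtype)) := by
      have := isNilpotent_fittingSubgroup (S ⧸ O)
      exact isNilpotent_comap_of_ker_le_center _ (by rw [(MonoidHom.ker_eq_bot_iff _).2 hinj]; exact bot_le) _
    intro y hy
    obtain ⟨x, hx, rfl⟩ := h1 hy
    exact mem_map_of_mem _ (mem_map_of_mem H.subtype (x := ⟨x, hx⟩) (le_fittingSubgroup hnil hy))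
  have hback : ∀ y ∈ fittingSubgroup (S ⧸ O), y ∈ centralizer (A.map f : Set (S ⧸ O)) →
      y ∈ A.map f := by
    intro y hy hyc
    obtain ⟨x, hx, rfl⟩ := hFle hy
    refine mem_map_of_mem _ (hA3.le ⟨hx, mem_centralizer_iff.2 fun a ha => ?_⟩)
    have h1 : f (a * x * (x * a)⁻¹) = 1 := by
      rw [map_mul, map_inv, mul_inv_eq_one, map_mul, map_mul]
      exact mem_centralizer_iff.1 hyc _ (mem_map_of_mem _ ha)
    have : a * x * (x * a)⁻¹ ∈ H ⊓ O :=
      ⟨H.mul_mem (H.mul_mem (hAH ha) (hFH hx)) (H.inv_mem (H.mul_mem (hFH hx) (hAH ha))), hker ▸ h1⟩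
    rwa [inf_eq_bot_of_coprime hHO, mem_bot, mul_inv_eq_one] at this
  have hmain : centralizer (A.map f : Set (S ⧸ O)) ≤ A.map f := by
    intro c hc
    refine hback c (mem_fitting hF5 ?_) hc
    have hn : fittingSubgroup (S ⧸ O) ≤ normalizer ((A.map f : Subgroup (S ⧸ O)) : Set (S ⧸ O)) :=
      hFle.trans ((map_mono hA2).trans (le_normalizer_map f))
    have h1 : ⁅fittingSubgroup (S ⧸ O), zpowers c⁆ ≤ A.map f := by
      intro y hy
      refine hback y (commutator_le_left _ _ hy) ?_
      refine (commutator_mono le_rfl (zpowers_le.2 hc)).trans ?_ hy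
      exact le_normalizer_iff_commutator_le_right.1 (hn.trans (normalizer_le_normalizer_centralizer _))
    rw [commutator_comm, commutator_eq_bot_iff_le_centralizer, le_centralizer_iff]
    exact h1.trans (le_centralizer_iff.1 (zpowers_le.2 hc))
  refine ⟨O ⊓ centralizer (A : Set S), inf_le_right, fun c hc d hd =>
    ⟨hOn.conj_mem d hd.1 c, Subgroup.mul_mem _ (Subgroup.mul_mem _ hc hd.2) (Subgroup.inv_mem _ hc)⟩, ?_, ?_, ?_⟩
  · exact eq_bot_iff.2 ((inf_le_inf_left A inf_le_left).trans (inf_eq_bot_of_coprime hAO).le)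
  · refine le_antisymm (sup_le hAc inf_le_right) fun c hc => ?_
    obtain ⟨a, ha, e⟩ := hmain (x := f c) (by
      rw [mem_centralizer_iff]
      rintro _ ⟨b, hb, rfl⟩
      rw [← map_mul, ← map_mul, mem_centralizer_iff.1 hc b hb])
    have h1 : a⁻¹ * c ∈ O := by
      rw [← hker, MonoidHom.mem_ker, map_mul, map_inv, e, inv_mul_cancel]
    rw [← mul_inv_cancel_left a c]
    exact mul_mem (mem_sup_left ha) (mem_sup_right ⟨h1, Subgroup.mul_mem _ (Subgroup.inv_mem _ (hAc ha)) hc⟩)
  · exact fun q hq hd => hOc q hq (hd.trans (card_dvd_of_le inf_le_left))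

end Cfsg.Agent.S1893
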