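import Cfsg.Statements.S1894
import Mathlib.GroupTheory.Nilpotent

set_option autoImplicit false
open Cfsg

namespace Cfsg.Agent.S1894

theorem exists_mem_not_mem_commutator {G : Type*} [Group G] [Group.IsNilpotent G]
    {C D : Subgroup G} [D.Normal] (h : ¬ D ≤ C) :
    ∃ x ∈ D, x ∉ C ∧ ∀ g : G, x * g * x⁻¹ * g⁻¹ ∈ C := by
  obtain ⟨n, hn⟩ := Group.IsNilpotent.nilpotent G
  have key : ∀ k : ℕ, (¬ D ⊓ Subgroup.upperCentralSeries G k ≤ C) →
      ∃ x ∈ D, x ∉ C ∧ ∀ g : G, x * g * x⁻¹ * g⁻¹ ∈ C := by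
    intro k
    induction k with
    | zero => intro h; exact absurd (by simp) h
    | succ k ih =>
      intro hk
      by_cases h' : D ⊓ Subgroup.upperCentralSeries G k ≤ C
      · obtain ⟨x, hx, hxC⟩ := SetLike.not_le_iff_exists.1 hk
        refine ⟨x, hx.1, hxC, fun g => h' ⟨?_, Subgroup.mem_upperCentralSeries_succ_iff.1 hx.2 g⟩⟩
        have h1 : g * x⁻¹ * g⁻¹ ∈ D := Subgroup.Normal.conj_mem inferInstance _ (D.inv_mem hx.1) g
        have := D.mul_mem hx.1 h1
        simpa [mul_assoc] using this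
      · exact ih h'
  exact key n (by simpa [hn] using h)

/-- Let P be a finite p-group, A a normal subgroup of P and B an abelian subgroup of A that is normal in P. Then some subgroup C of A containing B is normal in P and is self-centralizing and normal in A (C ∈ SCN(A)). -/
theorem result {P : Type*} [Group P] [Finite P] {p : ℕ} [Fact p.Prime] (hP : IsPGroup p P)
    (A : Subgroup P) [A.Normal] (B : Subgroup P) [B.Normal] (hBA : B ≤ A) (hB : IsMulCommutative B) :
    ∃ C : Subgroup P, C.Normal ∧ B ≤ C ∧ Cfsg.IsSCN A C := by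
  have hnil : Group.IsNilpotent P := hP.isNilpotent
  obtain ⟨C, ⟨hCn, hBC, hCA, hCc⟩, hmax⟩ := Set.Finite.exists_maximal
    (s := {C : Subgroup P | C.Normal ∧ B ≤ C ∧ C ≤ A ∧ ∀ a ∈ C, ∀ b ∈ C, a * b = b * a})
    (Set.toFinite _) ⟨B, inferInstance, le_rfl, hBA, fun a ha b hb =>
      congrArg Subtype.val (hB.is_comm.comm ⟨a, ha⟩ ⟨b, hb⟩)⟩
  refine ⟨C, hCn, hBC, hCA, ?_, le_antisymm ?_ (le_inf hCA ?_)⟩
  · rw [Subgroup.normalizer_eq_top]; exact le_top
  · by_contra hD
    obtain ⟨x, ⟨hxA, hxc⟩, hxC, hx⟩ := exists_mem_not_mem_commutator hD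
    have hxc' : ∀ c ∈ C, c * x = x * c := hxc
    have hmem : ∀ y, y ∈ C ⊔ Subgroup.zpowers x ↔ ∃ c ∈ C, ∃ k : ℤ, c * x ^ k = y := by
      intro y
      rw [← SetLike.mem_coe, Subgroup.normal_mul]
      constructor
      · rintro ⟨c, hc, _, ⟨k, rfl⟩, rfl⟩
        exact ⟨c, hc, k, rfl⟩
      · rintro ⟨c, hc, k, rfl⟩
        exact ⟨c, hc, _, ⟨k, rfl⟩, rfl⟩
    have hle : C ⊔ Subgroup.zpowers x ≤ C := by
      refine hmax ⟨?_, le_sup_of_le_left hBC, sup_le hCA (by simpa using hxA), ?_⟩ le_sup_left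
      · refine ⟨fun y hy g => ?_⟩
        obtain ⟨c, hc, k, rfl⟩ := (hmem y).1 hy
        have h1 : g * (c * x ^ k) * g⁻¹ = (g * c * g⁻¹) * (g * x * g⁻¹) ^ k := by
          rw [conj_zpow]; group
        rw [h1]
        refine Subgroup.mul_mem _ (Subgroup.mem_sup_left (hCn.conj_mem c hc g))
          (Subgroup.zpow_mem _ ?_ k)
        have h2 : g * x * g⁻¹ = (x * g * x⁻¹ * g⁻¹)⁻¹ * x := by group
        rw [h2]
        exact Subgroup.mul_mem _ (Subgroup.mem_sup_left (C.inv_mem (hx g)))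
          (Subgroup.mem_sup_right (Subgroup.mem_zpowers x))
      · intro a ha b hb
        obtain ⟨c, hc, k, rfl⟩ := (hmem a).1 ha
        obtain ⟨d, hd, l, rfl⟩ := (hmem b).1 hb
        have h1 : Commute c d := hCc c hc d hd
        have h2 : Commute c x := hxc' c hc
        have h3 : Commute d x := hxc' d hd
        exact ((h1.mul_right (h2.zpow_right l)).mul_left
          ((h3.symm.zpow_left k).mul_right ((Commute.refl x).zpow_zpow k l))).eq
    exact hxC (hle (Subgroup.mem_sup_right (Subgroup.mem_zpowers x)))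
  · intro a ha
    exact fun b hb => hCc b hb a ha

end Cfsg.Agent.S1894
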