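import Cfsg.Statements.S1895
import Cfsg.Agent.Lib.PGroup.RankTwo
import Cfsg.Agent.Lib.PGroup.MaxClass
import Cfsg.Agent.Lib.Coprime.Abelian
import Cfsg.Agent.Lib.Core.Basic

set_option autoImplicit false
open Cfsg

namespace Cfsg.Agent.S1895

open Subgroup CfsgLib CfsgLib.PGroup
open scoped IsMulCommutative

theorem aux {P : Type*} [Group P] [Finite P] {p : ℕ} [hp : Fact p.Prime] (h2 : p ≠ 2) (hP : IsPGroup p P)
    (hr : PRankLE p 2 P) {M : Subgroup P} (hM : frattini P ≤ M) (hZ : center P ≤ M ∨ center P ⊔ M = ⊤) :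
    M.index ≤ p ^ 2 := by
  have hc := (commutator_le_frattini hP).trans hM
  have h1 : ∀ (N : Subgroup P) (x : P), M ≤ N → Nat.card (N ⊔ zpowers x : Subgroup P) ≤ Nat.card N * p :=
    fun N x hN => by
    have := Normal.of_commutator_le P (hc.trans hN)
    by_cases hx : x ∈ N
    · rw [sup_eq_left.2 (zpowers_le.2 hx)]
      exact Nat.le_mul_of_pos_right _ hp.out.pos
    · exact (card_sup_zpowers hx (hN (hM (pow_mem_frattini hP x)))).le
  have two : ∀ a b c : P, c ∈ M → closure {a, b, c} = ⊤ → M.index ≤ p ^ 2 := fun a b c h e => by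
    have h3 := (h1 _ b (le_sup_left : M ≤ M ⊔ zpowers a)).trans (Nat.mul_le_mul_right _ (h1 M a le_rfl))
    rw [eq_top_iff.2 (e.ge.trans ((closure_le (M ⊔ zpowers a ⊔ zpowers b)).2 (by
      rintro _ (rfl | rfl | rfl)
      exacts [mem_sup_left (mem_sup_right (mem_zpowers _)), mem_sup_right (mem_zpowers _),
        mem_sup_left (mem_sup_left h)]))), card_top, ← M.card_mul_index, mul_assoc, ← sq] at h3
    exact Nat.le_of_mul_le_mul_left h3 Nat.card_pos
  obtain ⟨n, hn⟩ := hP.exists_card_eq
  rcases blackburn_rank_two h2 hn hr with ⟨N, _, h3, h4⟩ | ⟨-, x, y, z, e, -, -, -, h3, h4, -⟩ |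
    ⟨-, s, x, y, z, -, e, -, -, -, -, -, h3⟩ | ⟨-, h3, h4⟩
  · obtain ⟨a, ha⟩ := (Subgroup.isCyclic_iff_exists_zpowers_eq_top N).1 h3
    obtain ⟨b, hb⟩ := h4.exists_generator
    obtain ⟨b, rfl⟩ := QuotientGroup.mk_surjective b
    refine two a b 1 (one_mem _) (eq_top_iff.2 fun g _ => ?_)
    obtain ⟨k, hk⟩ := hb (g : P ⧸ N)
    have h5 : (b ^ k)⁻¹ * g ∈ zpowers a := ha ▸ QuotientGroup.eq.1 hk
    rw [← mul_inv_cancel_left (b ^ k) g]
    exact mul_mem (zpow_mem (subset_closure (by simp)) k)
      (zpowers_le.2 (subset_closure (by simp)) h5)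
  · rcases hZ with h | h
    · refine two x y z (h (mem_center_iff.2 fun g => ?_)) e
      refine mem_centralizer_singleton_iff.1 ((closure_le (centralizer {z})).2 ?_ (e.ge (mem_top g)))
      rintro _ (rfl | rfl | rfl) <;> exact mem_centralizer_singleton_iff.2 (by first | assumption | rfl)
    have := Normal.of_commutator_le P hc
    rw [← relIndex_top_right, ← h, relIndex_sup_right]
    refine (Nat.le_of_dvd (Nat.pos_of_ne_zero index_ne_zero_of_finite) (index_dvd_of_le
      (H := (powMonoidHom p : center P →* center P).range) ?_)).trans ?_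
    · rintro _ ⟨g, rfl⟩
      exact hM (pow_mem_frattini hP _)
    rw [index_range]
    exact rank_le_of_injective (center P).subtype (subtype_injective _) (fun E h => hr E h.1 h.2) _
      ⟨inferInstance, fun _ h => h⟩
  · refine two x z y (hc ?_) (by rw [← e, Set.pair_comm])
    rw [← mul_inv_eq_iff_eq_mul.2 h3]
    simpa [commutatorElement_def, commutator_def] using commutator_mem_commutator (mem_top x⁻¹) (mem_top z)
  obtain rfl | h5 := h3.eq_or_lt
  · exact hn ▸ Nat.le_of_dvd Nat.card_pos M.index_dvd_card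
  have := hP.isNilpotent
  have h6 := nilpotencyClass_le_of_card_le (n - 2) hP (hn.trans (by congr 1; omega)).le
  have h7 := mt Subgroup.lowerCentralSeries_eq_bot_iff_nilpotencyClass_le.2 h4
  rw [← index_commutator_of_maximal_class h5 hn (by omega)]
  exact Nat.le_of_dvd (Nat.pos_of_ne_zero index_ne_zero_of_finite) (index_dvd_of_le hc)

/-- Let p be an odd prime and G a finite p-solvable group with no elementary abelian subgroup of order p³. Then every chief factor H/K of G (H, K normal in G with no normal subgroup of G strictly between them) whose order is a power of p has order p or p². -/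
theorem result {G : Type*} [Group G] [Finite G] {p : ℕ} [Fact p.Prime] (hp : p ≠ 2)
    (hG : Cfsg.IsPSolvable p G) (hr : Cfsg.PRankLE p 2 G)
    (H K : Subgroup G) [H.Normal] [K.Normal] (hKH : K < H) (hpow : ∃ n : ℕ, K.relIndex H = p ^ n)
    (hchief : ∀ L : Subgroup G, L.Normal → K ≤ L → L ≤ H → L = K ∨ L = H) :
    K.relIndex H = p ∨ K.relIndex H = p ^ 2 := by
  obtain ⟨n, hn⟩ := hpow
  obtain ⟨P⟩ : Nonempty (Sylow p H) := inferInstance
  have hF := P.normalizer_sup_eq_top
  have h1 := Coprime.not_dvd_relIndex_sylow P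
  have h2 := P.isPGroup'.map H.subtype
  have h3 := map_subtype_le (P : Subgroup H)
  generalize (P : Subgroup H).map H.subtype = Q at *
  have hc : (Q.relIndex H).Coprime (K.relIndex H) :=
    hn ▸ ((Nat.Prime.coprime_iff_not_dvd Fact.out).2 h1).symm.pow_right n
  have h4 := Coprime.relIndex_eq_of_coprime h3 hc
  have h5 : H ≤ Q ⊔ K := fun g hg => by
    obtain ⟨x, hx, y, hy, rfl⟩ := Coprime.exists_mul_of_coprime_relIndex h3 hc hg
    exact mul_mem_sup hx hy
  have h6 : ∀ C : Subgroup Q, C.Characteristic → C ≤ K.subgroupOf Q ∨ C ⊔ K.subgroupOf Q = ⊤ := fun C _ => by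
    have h7 : normalizer (Q : Set G) ≤ normalizer ((C.map Q.subtype ⊔ K : Subgroup G) : Set G) :=
      Coprime.le_normalizer_sup (Core.normalizer_le_normalizer_map_subtype_of_characteristic C)
        (by simp [normalizer_eq_top])
    rcases hchief (C.map Q.subtype ⊔ K) (normalizer_eq_top_iff.1 (eq_top_iff.2 (hF.ge.trans (sup_le h7
      (h5.trans (sup_le (le_normalizer.trans h7) (le_sup_right.trans le_normalizer))))))) le_sup_right
      (sup_le ((map_subtype_le _).trans h3) hKH.le) with h | h
    · exact .inl (map_le_iff_le_comap.1 (le_sup_left.trans h.le))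
    · refine .inr (eq_top_iff.2 fun g _ => ?_)
      obtain ⟨_, ⟨c, hc, rfl⟩, k, hk, e⟩ := mem_sup_of_normal_right.1 (h.ge (h3 g.2))
      rw [← mul_inv_cancel_left c g]
      exact mul_mem_sup hc (show (c : G)⁻¹ * g ∈ K by rw [← e]; simpa using hk)
  have h7 : K.relIndex H ≠ 1 := fun e => hKH.not_ge (relIndex_eq_one.1 e)
  have h8 := aux hp h2 (fun E a b => rank_le_of_injective Q.subtype (subtype_injective _)
    (fun E h => hr E h.1 h.2) E ⟨a, b⟩) ((h6 _ inferInstance).resolve_right fun e => h7 (h4 ▸ index_eq_one.2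
      (frattini_nongenerating (by rwa [sup_comm])))) (h6 _ inferInstance)
  change K.relIndex Q ≤ _ at h8
  rw [h4, hn, Nat.pow_le_pow_iff_right (Nat.Prime.one_lt Fact.out)] at h8
  rw [hn] at h7 ⊢
  interval_cases n <;> simp at h7 ⊢

end Cfsg.Agent.S1895
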