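import Cfsg.Statements.S1898
import Cfsg.Agent.Lib.PGroup.Power

set_option autoImplicit false
open Cfsg

namespace Cfsg.Agent.S1898


/-- Let X be a finite 2-group whose derived subgroup is elementary abelian and central. Then the subgroup generated by the elements of order dividing 4 has exponent dividing 4, and every automorphism of X fixing each element of order dividing 4 has 2-power order. -/
theorem result {X : Type*} [Group X] [Finite X] (hX : IsPGroup 2 X)
    (hel : Cfsg.IsElementaryAbelian 2 (commutator X)) (hcen : commutator X ≤ Subgroup.center X) :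
    (∀ x ∈ Subgroup.closure {g : X | g ^ 4 = 1}, x ^ 4 = 1) ∧
      ∀ φ : MulAut X, (∀ g : X, g ^ 4 = 1 → φ g = g) → ∃ k : ℕ, φ ^ (2 ^ k) = 1 := by
  have h4 : ∀ x y : X, (x * y) ^ 4 = x ^ 4 * y ^ 4 := by
    intro x y
    have hc := CfsgLib.PGroup.commutator_inv_inv_mem x y
    have hcz : ∀ g : X, Commute _ g := fun g =>
      (Subgroup.mem_center_iff.1 (hcen hc) g).symm
    rw [CfsgLib.PGroup.mul_pow_class_two (CfsgLib.PGroup.mul_eq_mul_mul_commutator x y) (hcz x)
      (hcz y), show Nat.choose 4 2 = 2 * 3 by rfl, pow_mul, hel.2 _ hc, one_pow, mul_one]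
  refine ⟨fun x hx => CfsgLib.PGroup.pow_eq_one_of_mem_closure
    (fun a b ha hb => by rw [h4, ha, hb, one_mul]) hx, ?_⟩
  intro φ hφ
  have hpow : ∀ (n : ℕ) (g : X), g ^ 4 = 1 → (φ ^ n) g = g := by
    intro n g hg
    induction n with
    | zero => rfl
    | succ n ih => rw [pow_succ, MulAut.mul_apply, hφ g hg, ih]
  have key : ∀ (j : ℕ) (x : X), x ^ 2 ^ j = 1 → (φ ^ 2 ^ (2 * j)) x = x := by
    intro j
    induction j with
    | zero => intro x hx; simp at hx; simp [hx]
    | succ j ih =>
      intro x hx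
      have h1 := ih (x ^ 2) (by rw [← pow_mul, ← pow_succ', hx])
      rw [show 2 ^ (2 * (j + 1)) = 2 ^ (2 * j) * 4 by ring, pow_mul]
      have hψ := hpow (2 ^ (2 * j))
      generalize φ ^ 2 ^ (2 * j) = ψ at h1 hψ
      have h2 : (x⁻¹ * ψ x) ^ 4 = 1 := by
        rw [h4, ← map_pow, show x ^ 4 = (x ^ 2) ^ 2 by rw [← pow_mul], map_pow, h1, ← pow_mul,
          inv_pow, inv_mul_cancel]
      have h3 : ∀ n : ℕ, (ψ ^ n) x = x * (x⁻¹ * ψ x) ^ n := by
        intro n
        induction n with
        | zero => simp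
        | succ n ihn =>
          rw [pow_succ', MulAut.mul_apply, ihn, map_mul, map_pow, hψ _ h2, pow_succ' (x⁻¹ * ψ x),
            ← mul_assoc, mul_inv_cancel_left]
      rw [h3, h2, mul_one]
  obtain ⟨k, hk⟩ := hX.exists_card_eq
  refine ⟨2 * k, MulEquiv.ext fun x => key k x ?_⟩
  rw [← hk, pow_card_eq_one']

end Cfsg.Agent.S1898
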