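import Cfsg.Statements.S1899
import Mathlib

set_option autoImplicit false
open Cfsg

namespace Cfsg.Agent.S1899


/-- Let a dihedral group of order 2n, n odd and n > 1, act on a finite abelian 2-group A through automorphisms d and t with d^n = 1, t² = 1 and t d t⁻¹ = d⁻¹, and suppose that d fixes only the identity. Then A is the internal direct product of C_A(t) and its image under d. -/
theorem result {A : Type*} [CommGroup A] [Finite A] (hA : IsPGroup 2 A)
    {n : ℕ} (hn : Odd n) (hn1 : 1 < n) (d t : MulAut A) (hd : d ^ n = 1) (ht : t ^ 2 = 1) (hdt : t * d * t⁻¹ = d⁻¹)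
    (hfix : ∀ a : A, d a = a → a = 1) :
    (MulEquiv.toMonoidHom t).eqLocus (MonoidHom.id A) ⊓ ((MulEquiv.toMonoidHom t).eqLocus (MonoidHom.id A)).map d.toMonoidHom = ⊥ ∧
      (MulEquiv.toMonoidHom t).eqLocus (MonoidHom.id A) ⊔ ((MulEquiv.toMonoidHom t).eqLocus (MonoidHom.id A)).map d.toMonoidHom = ⊤ := by
  have hA2 : ∀ a : A, a * a = 1 → ∀ k : ℕ, Odd k → a ^ k = a := by
    intro a ha k ⟨j, hj⟩
    rw [hj, pow_succ, pow_mul, pow_two, ha, one_pow, one_mul]
  have htt : ∀ a, t (t a) = a := fun a => by
    have := congrArg (fun φ : MulAut A => φ a) ht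
    simpa [pow_two] using this
  have htd : ∀ a, d (t (d a)) = t a := fun a => by
    have h1 : t * d = d⁻¹ * t := by rw [← hdt]; group
    have := congrArg (fun φ : MulAut A => d (φ a)) h1
    simpa using this
  have hfix2 : ∀ a : A, d (d a) = a → a = 1 := by
    intro a ha
    apply hfix
    obtain ⟨k, rfl⟩ := hn
    have h1 : ∀ j : ℕ, (d ^ (2 * j)) a = a := by
      intro j
      induction j with
      | zero => simp
      | succ j ih => rw [mul_add, mul_one, pow_add, MulAut.mul_apply, pow_two, MulAut.mul_apply, ha, ih]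
    have h2 : (d ^ (2 * k + 1)) a = a := by rw [hd]; rfl
    rwa [pow_succ', MulAut.mul_apply, h1] at h2
  constructor
  · rw [eq_bot_iff]
    rintro a ⟨ha, b, hb, rfl⟩
    have ha' : t (d b) = d b := ha
    have hb' : t b = b := hb
    have := htd b
    rw [ha', hb'] at this
    rw [hfix2 b this]
    simp
  · rw [eq_top_iff]
    intro a _
    let φ : A →* A := MonoidHom.mk' (fun x => d (d x) * x⁻¹) (by
      intro x y
      simp only [map_mul, mul_inv]
      rw [mul_mul_mul_comm])
    have hinj : Function.Injective φ := by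
      rw [injective_iff_map_eq_one]
      intro x hx
      exact hfix2 x (mul_inv_eq_one.1 hx)
    obtain ⟨x, rfl⟩ := Finite.surjective_of_injective hinj a
    have : φ x = (x * t x)⁻¹ * d (d x * t (d x)) := by
      show d (d x) * x⁻¹ = _
      rw [map_mul, htd, mul_inv, mul_comm (d (d x)) (t x), mul_assoc, inv_mul_cancel_left, mul_comm]
    rw [this]
    have hmem : ∀ y : A, y * t y ∈ (MulEquiv.toMonoidHom t).eqLocus (MonoidHom.id A) := by
      intro y
      show t (y * t y) = y * t y
      rw [map_mul, htt, mul_comm]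
    exact Subgroup.mul_mem _ (Subgroup.mem_sup_left (Subgroup.inv_mem _ (hmem x)))
      (Subgroup.mem_sup_right ⟨_, hmem (d x), rfl⟩)

end Cfsg.Agent.S1899
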