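import Cfsg.Statements.S1900
import Cfsg.Agent.Lib.Core.MinNormal
import Cfsg.Agent.Lib.Core.Commutator
import Cfsg.Agent.Lib.Coprime.Generation

set_option autoImplicit false
open Cfsg

namespace Cfsg.Agent.S1900

open Subgroup CfsgLib

theorem aux {S : Type*} [Group S] {P Q X Y : Subgroup S} [P.Normal] [Finite S] [IsMulCommutative Q]
    (hX : X ≤ Q) (hY : Y ≤ Q) {M : Subgroup S} [M.Normal] (hMP : M ≤ P)
    (hM : M = ⁅P ⊓ centralizer (X : Set S), P ⊓ centralizer (Y : Set S)⁆)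
    (h1 : M ≤ M ⊓ centralizer (X : Set S) ⊔ M ⊓ centralizer (Y : Set S))
    (h2 : ⁅P ⊓ centralizer (Y : Set S), X⁆ = P ⊓ centralizer (Y : Set S)) : ⁅M, Y⁆ ≤ ⁅M, P⁆ := by
  have hQ : ∀ (N : Subgroup S) [N.Normal], X ≤ normalizer ((N ⊓ centralizer (Y : Set S) : Subgroup S) : Set S) :=
    fun N _ => Coprime.le_normalizer_inf (by simp [normalizer_eq_top]) (Coprime.le_normalizer_centralizer
      ((le_centralizer_iff.1 (hY.trans (le_centralizer_iff.1 (hX.trans (le_centralizer Q))))).trans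
        (centralizer_le_normalizer _)))
  have hP : P ≤ normalizer ((⁅M, P⁆ ⊔ M ⊓ centralizer (Y : Set S) : Subgroup S) : Set S) :=
    Core.le_normalizer_of_commutator_le_of_le le_sup_left (sup_le (commutator_le_left _ _) inf_le_left)
  have h3 : M ≤ ⁅M, P⁆ ⊔ M ⊓ centralizer (Y : Set S) := by
    refine hM.le.trans ?_
    rw [commutator_comm, ← h2]
    refine Core.three_subgroups_of_le_normalizer (inf_le_left.trans hP)
      (Coprime.le_normalizer_sup (by simp [normalizer_eq_top]) (hQ M)) (inf_le_left.trans hP) ?_ ?_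
    · rw [commutator_comm X, commutator_eq_bot_iff_le_centralizer.2 inf_le_right, commutator_bot_left]
      exact bot_le
    · refine (commutator_mono (hM.ge.trans h1) le_rfl).trans (Core.commutator_sup_left_le
        ((inf_le_left.trans hMP).trans hP) ((inf_le_left.trans hMP).trans hP) ?_
        ((Coprime.commutator_le_of_le_normalizer (hQ M)).trans le_sup_right))
      rw [commutator_eq_bot_iff_le_centralizer.2 inf_le_right]
      exact bot_le
  refine (commutator_mono h3 le_rfl).trans (Core.commutator_sup_left_le (by simp [normalizer_eq_top])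
    (by simp [normalizer_eq_top]) (commutator_le_left _ _) ?_)
  rw [commutator_eq_bot_iff_le_centralizer.2 inf_le_right]
  exact bot_le

/-- Let S = PQ be a finite group with P a normal Sylow p-subgroup and Q elementary abelian of order q², q a prime different from p. If exactly two subgroups X₁, X₂ of order q in Q have a nontrivial centralizer in P, then P is the internal direct product of C_P(X₁) and C_P(X₂): they commute elementwise, meet trivially and generate P. -/
theorem result {S : Type*} [Group S] [Finite S] {p q : ℕ} [Fact p.Prime] [Fact q.Prime] (hpq : p ≠ q)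
    (P : Sylow p S) [(P : Subgroup S).Normal] (Q : Subgroup S) (hQ : Cfsg.IsElementaryAbelian q Q) (hQc : Nat.card Q = q ^ 2)
    (hS : (P : Subgroup S) ⊔ Q = ⊤)
    (X₁ X₂ : Subgroup S) (h₁ : X₁ ≤ Q) (h₂ : X₂ ≤ Q) (h₁₂ : X₁ ≠ X₂) (hc₁ : Nat.card X₁ = q) (hc₂ : Nat.card X₂ = q)
    (hf₁ : (P : Subgroup S) ⊓ Subgroup.centralizer (X₁ : Set S) ≠ ⊥)
    (hf₂ : (P : Subgroup S) ⊓ Subgroup.centralizer (X₂ : Set S) ≠ ⊥)
    (honly : ∀ X : Subgroup S, X ≤ Q → Nat.card X = q →
      (P : Subgroup S) ⊓ Subgroup.centralizer (X : Set S) ≠ ⊥ → X = X₁ ∨ X = X₂) :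
    ⁅(P : Subgroup S) ⊓ Subgroup.centralizer (X₁ : Set S), (P : Subgroup S) ⊓ Subgroup.centralizer (X₂ : Set S)⁆ = ⊥ ∧
      ((P : Subgroup S) ⊓ Subgroup.centralizer (X₁ : Set S)) ⊓ ((P : Subgroup S) ⊓ Subgroup.centralizer (X₂ : Set S)) = ⊥ ∧
      ((P : Subgroup S) ⊓ Subgroup.centralizer (X₁ : Set S)) ⊔ ((P : Subgroup S) ⊓ Subgroup.centralizer (X₂ : Set S)) = P := by
  have := hQ.1
  have hq : q.Prime := Fact.out
  have hd : X₁ ⊓ X₂ = ⊥ := Core.inf_eq_bot_of_prime_card_of_not_le (hc₁ ▸ hq) fun h =>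
    h₁₂ (Core.eq_of_le_of_card_le h (hc₂.trans hc₁.symm).le)
  have hn : ∀ {X Y : Subgroup S}, X ≤ Q → Y ≤ Q → X ≤ centralizer (Y : Set S) := fun hX hY =>
    le_centralizer_iff.1 (hY.trans (le_centralizer_iff.1 (hX.trans (le_centralizer Q))))
  have hN : ∀ {X Y : Subgroup S}, X ≤ Q → Y ≤ Q →
      X ≤ normalizer (((P : Subgroup S) ⊓ centralizer (Y : Set S) : Subgroup S) : Set S) := fun hX hY =>
    Coprime.le_normalizer_inf (le_top.trans (normalizer_eq_top _).ge) (Coprime.le_normalizer_centralizer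
      ((hn hX hY).trans (centralizer_le_normalizer _)))
  have hXQ : X₁ ⊔ X₂ = Q := Core.eq_of_le_of_card_le (sup_le h₁ h₂) (by
    rw [Core.card_sup_of_le_normalizer_of_disjoint ((hn h₁ h₂).trans (centralizer_le_normalizer _)) hd,
      hQc, hc₁, hc₂, sq])
  have hz : ∀ a ∈ Q, a ≠ 1 → Nat.card (zpowers a) = q := fun a ha h => by
    rw [Nat.card_zpowers, orderOf_eq_prime (hQ.2 a ha) h]
  have h0 : (P : Subgroup S) ⊓ centralizer (X₁ : Set S) ⊓ (P ⊓ centralizer (X₂ : Set S)) = ⊥ := by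
    by_contra h
    obtain ⟨⟨x, hx⟩, hx1⟩ := ne_bot_iff_exists_ne_one.1 ((one_lt_card_iff_ne_bot _).1 (hc₁ ▸ hq.one_lt))
    obtain ⟨⟨y, hy⟩, hy1⟩ := ne_bot_iff_exists_ne_one.1 ((one_lt_card_iff_ne_bot _).1 (hc₂ ▸ hq.one_lt))
    have h3 : x * y ∉ X₁ := fun k => hy1 (Subtype.ext (hd.le ⟨(mul_mem_cancel_left hx).1 k, hy⟩))
    have h4 : x * y ∉ X₂ := fun k => hx1 (Subtype.ext (hd.le ⟨hx, (mul_mem_cancel_right hy).1 k⟩))
    have h5 := mul_mem (h₁ hx) (h₂ hy)
    have h6 : (P : Subgroup S) ⊓ centralizer (X₁ : Set S) ⊓ (P ⊓ centralizer (X₂ : Set S)) ≤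
        centralizer (Q : Set S) := by
      rw [← hXQ, Core.centralizer_sup]; exact inf_le_inf inf_le_right inf_le_right
    rcases honly _ (zpowers_le.2 h5) (hz _ h5 fun k => h3 (k ▸ one_mem _)) (fun k => h (eq_bot_iff.2
      (le_of_le_of_eq (le_inf (inf_le_left.trans inf_le_left) (le_trans h6 (centralizer_le
        (SetLike.coe_subset_coe.2 (zpowers_le.2 h5))))) k))) with k | k
    exacts [h3 (k ▸ mem_zpowers _), h4 (k ▸ mem_zpowers _)]
  have hc : ∀ {X M : Subgroup S}, X ≤ Q → M ≤ P → (Nat.card X).Coprime (Nat.card M) := fun hX hM =>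
    Coprime.coprime_of_le (Core.isPGroup_coprime_card P.isPGroup' (hQc ▸
      ((Nat.coprime_primes hq Fact.out).2 hpq.symm).pow_left 2)).symm hX hM
  have hg : ∀ (M : Subgroup S) [M.Normal], M ≤ P →
      M ≤ M ⊓ centralizer (X₁ : Set S) ⊔ M ⊓ centralizer (X₂ : Set S) := fun M _ hM => by
    refine Coprime.le_of_forall_centralizer_le (A := Q) (fun h => ?_) (by simp [normalizer_eq_top])
      (hc le_rfl hM) fun a ha h => ?_
    · have h3 := h.exponent_eq_card
      have h4 : Monoid.exponent Q ∣ q := Monoid.exponent_dvd_of_forall_pow_eq_one fun g =>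
        Subtype.ext (hQ.2 g g.2)
      rw [h3, hQc] at h4
      have := Nat.le_of_dvd hq.pos h4
      nlinarith [hq.one_lt]
    rw [← Core.centralizer_zpowers]
    by_cases k : (P : Subgroup S) ⊓ centralizer (zpowers a : Set S) = ⊥
    · exact ((inf_le_inf_right _ hM).trans k.le).trans bot_le
    rcases honly _ (zpowers_le.2 ha) (hz a ha h) k with k | k <;> rw [k]
    exacts [le_sup_left, le_sup_right]
  have hP := le_antisymm (sup_le inf_le_left inf_le_left) (hg P le_rfl)
  refine ⟨?_, h0, hP⟩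
  obtain ⟨M, hM⟩ : ∃ M, M = ⁅(P : Subgroup S) ⊓ centralizer (X₁ : Set S), (P : Subgroup S) ⊓ centralizer (X₂ : Set S)⁆ := ⟨_, rfl⟩
  have : M.Normal := normalizer_eq_top_iff.1 (eq_top_iff.2 (hS.ge.trans (hM ▸ sup_le (hP.ge.trans
    (sup_le (normalizer_commutator_ge_left _ _) (normalizer_commutator_ge_right _ _)))
    (Coprime.le_normalizer_commutator (hN le_rfl h₁) (hN le_rfl h₂)))))
  have hMP : M ≤ P := hM ▸ Core.commutator_le_of_le inf_le_left inf_le_left
  have hs : ∀ {X : Subgroup S}, X ≤ Q → Group.IsSolvable X := fun hX =>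
    Coprime.isSolvable_of_le (Coprime.isSolvable_of_isMulCommutative Q) hX
  have h3 := aux h₁ h₂ hMP hM (hg M hMP) (Coprime.commutator_eq_of_centralizer_eq_bot (hN h₁ h₂)
    (hc h₁ inf_le_left) (.inl (hs h₁)) (eq_bot_iff.2 (le_of_le_of_eq (le_inf (inf_le_inf_right _ inf_le_left)
      inf_le_left) h0)))
  have h4 := aux h₂ h₁ hMP (hM.trans (commutator_comm _ _)) ((hg M hMP).trans_eq (sup_comm _ _))
    (Coprime.commutator_eq_of_centralizer_eq_bot (hN h₂ h₁) (hc h₂ inf_le_left) (.inl (hs h₂))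
      (eq_bot_iff.2 (le_of_le_of_eq (le_inf inf_le_left (inf_le_inf_right _ inf_le_left)) h0)))
  have h5 := Coprime.sup_centralizer_eq_of_commutator_le (A := Q) (commutator_le_left M P)
    (hXQ ▸ Core.commutator_sup_right_le (by simp [normalizer_eq_top]) (by simp [normalizer_eq_top]) h4 h3)
    (hc le_rfl ((commutator_le_left _ _).trans hMP)) (.inl (hs le_rfl))
  rw [← hM]
  refine Coprime.eq_bot_of_le_commutator_of_isNilpotent P.isPGroup'.isNilpotent hMP le_rfl
    (h5.ge.trans (sup_le le_rfl (le_trans ?_ (h0.le.trans bot_le))))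
  rw [← hXQ, Core.centralizer_sup]
  exact le_inf (inf_le_inf hMP inf_le_left) (inf_le_inf hMP inf_le_right)

end Cfsg.Agent.S1900
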