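import Cfsg.Statements.S1901
import Cfsg.Agent.Lib.PLocal.PSolvable
import Cfsg.Agent.Lib.Core.MinNormal
import Cfsg.Agent.Lib.Core.Commutator
import Cfsg.Agent.Lib.Coprime.Action
import Cfsg.Agent.Lib.Coprime.Sylow
import Cfsg.Agent.Lib.Coprime.Abelian

set_option autoImplicit false
open Cfsg

namespace Cfsg.Agent.S1901

open Subgroup CfsgLib
open scoped Pointwise

universe u

theorem aux {p : ℕ} [Fact p.Prime] (n : ℕ) : ∀ (G : Type u) [Group G] [Finite G], Nat.card G = n →
    IsPSolvable p G → ∀ (Q R : Subgroup G) (P : Sylow p G), (Nat.card Q).Coprime p → IsPGroup p R →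
    R ≤ normalizer (Q : Set G) → Q ≤ normalizer ((P : Subgroup G) : Set G) → ⁅Q, R⁆ = ⊥ := by
  induction n using Nat.strong_induction_on with
  | _ n ih =>
  intro G _ _ hn hG Q R P hQ hR hRQ hQP
  by_cases ht : (⊤ : Subgroup G) = ⊥
  · exact eq_bot_iff.2 (le_top.trans ht.le)
  obtain ⟨N, _, hN, -, hN'⟩ := PLocal.PSolv.exists_normal_le hG ⊤ ht
  have h1 : ⁅Q, R⁆ ≤ N := (Core.commutator_le_iff_map_mk'_eq_bot N).2 (ih _
    (hn ▸ Core.card_quotient_lt_of_ne_bot hN) _ rfl (PLocal.PSolv.quotient hG N) _ _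
    (P.mapSurjective (QuotientGroup.mk'_surjective N)) (hQ.coprime_dvd_left (card_map_dvd _ _)) (hR.map _)
    ((map_mono hRQ).trans (le_normalizer_map _)) ((map_mono hQP).trans (le_normalizer_map _)))
  have h2 := Coprime.commutator_le_of_le_normalizer hRQ
  rcases hN' with h | h
  · exact eq_bot_iff.2 ((le_inf h1 h2).trans (Core.isPGroup_inf_eq_bot_of_coprime h hQ).le)
  have h3 : (P : Subgroup G) ≤ centralizer ((⁅Q, R⁆ : Subgroup G) : Set G) := by
    rw [← commutator_eq_bot_iff_le_centralizer]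
    exact eq_bot_iff.2 ((le_inf (Coprime.commutator_le_of_le_normalizer (h2.trans hQP))
      ((commutator_mono le_top h1).trans (commutator_le_right _ _))).trans
      (Core.isPGroup_inf_eq_bot_of_coprime P.isPGroup' h).le)
  have h4 : R ≤ normalizer ((⁅Q, R⁆ : Subgroup G) : Set G) :=
    Coprime.le_normalizer_commutator hRQ le_normalizer
  obtain ⟨k, hk, h5⟩ := Coprime.exists_conj_smul_le_sylow (h3.trans (centralizer_le_normalizer _))
    P.isPGroup' (fun k => P.not_dvd_index (k.trans (relIndex_dvd_index_of_le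
      (h3.trans (centralizer_le_normalizer _))))) h4 hR
  have h6 : R ≤ centralizer ((⁅Q, R⁆ : Subgroup G) : Set G) := h5.trans
    (Coprime.conj_smul_le_of_mem_normalizer (Core.normalizer_le_normalizer_centralizer _ hk) h3)
  rw [← Coprime.commutator_commutator_eq hRQ (Core.isPGroup_coprime_card hR hQ), commutator_comm,
    commutator_eq_bot_iff_le_centralizer]
  exact h6

/-- Let G be a finite p-solvable group and Q a subgroup of order prime to p such that p divides the index of C_G(Q) in N_G(Q). Then Q normalizes no Sylow p-subgroup of G. -/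
theorem result {G : Type*} [Group G] [Finite G] {p : ℕ} [Fact p.Prime]
    (hG : Cfsg.IsPSolvable p G) (Q : Subgroup G) (hQ : ¬ p ∣ Nat.card Q)
    (hA : p ∣ (Subgroup.centralizer (Q : Set G)).relIndex (Subgroup.normalizer (Q : Set G)))
    (P : Sylow p G) : ¬ Q ≤ Subgroup.normalizer ((P : Subgroup G) : Set G) := by
  intro h
  obtain ⟨R, -, h1, h2, h3⟩ := Coprime.exists_le_sylow_relIndex (p := p)
    (bot_le : ⊥ ≤ normalizer (Q : Set G)) IsPGroup.of_bot
  have h4 := aux _ G rfl hG Q R P ((Nat.Prime.coprime_iff_not_dvd Fact.out).2 hQ).symm h2 h1 h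
  rw [commutator_comm, commutator_eq_bot_iff_le_centralizer] at h4
  exact h3 (hA.trans (relIndex_dvd_of_le_left _ h4))

end Cfsg.Agent.S1901
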