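import Cfsg.Statements.S1902
import Cfsg.Agent.Lib.TB.Basic
import Cfsg.Agent.Lib.Core.MinNormal
import Cfsg.Agent.Lib.Coprime.Hall

set_option autoImplicit false
open Cfsg

namespace Cfsg.Agent.S1902

open Subgroup CfsgLib
open scoped Pointwise

/-- Let p be an odd prime, G a finite p-solvable group, and B an elementary abelian subgroup of order p² such that B is the subgroup generated by the elements of order p of some Sylow p-subgroup of C_G(b₀), for some nontrivial b₀ ∈ B. Then every B-invariant subgroup of G of order prime to p lies in O_{p'}(G). -/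
theorem result {G : Type*} [Group G] [Finite G] {p : ℕ} [Fact p.Prime] (hp : p ≠ 2)
    (hG : Cfsg.IsPSolvable p G) (B : Subgroup G) (hB : Cfsg.IsElementaryAbelian p B) (hBc : Nat.card B = p ^ 2)
    (b₀ : G) (hb₀ : b₀ ∈ B) (hb₁ : b₀ ≠ 1) (P : Sylow p ↥(Subgroup.centralizer ({b₀} : Set G)))
    (hBP : B = Subgroup.closure {x : G | x ∈ ((P : Subgroup ↥(Subgroup.centralizer ({b₀} : Set G))).map
      (Subgroup.centralizer ({b₀} : Set G)).subtype : Subgroup G) ∧ orderOf x = p})
    (Q : Subgroup G) (hQ : ¬ p ∣ Nat.card Q) (hinv : ∀ b ∈ B, ∀ x ∈ Q, b * x * b⁻¹ ∈ Q) :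
    Q ≤ Cfsg.pPrimeCore p G := by
  have hp' : p.Prime := Fact.out
  have := hB.1
  refine TB.le_pPrimeCore_of_odd hp' hp (PLocal.Constr.isPConstrained_of_isPSolvable hG)
    (Core.isElementaryAbelian_isPGroup hB) (fun x hx hxp => ?_)
    (Coprime.isPiSubgroup_iff.2 ((Coprime.IsPiNum.compl_singleton_iff hp').2
      (hp'.coprime_iff_not_dvd.2 hQ).symm))
    fun b hb => Core.mem_normalizer_of_forall_conj_mem (hinv b hb)
  have hE : IsElementaryAbelian p (B ⊔ zpowers x : Subgroup G) :=
    Core.isElementaryAbelian_sup hB (Core.isElementaryAbelian_zpowers hxp)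
      (le_centralizer_iff.1 (zpowers_le.2 hx))
  have hC : B ⊔ zpowers x ≤ centralizer {b₀} := sup_le
    (fun b hb => mem_centralizer_singleton_iff.2 (Core.isMulCommutative_iff_forall.1 hB.1 b hb b₀ hb₀))
    (zpowers_le.2 (mem_centralizer_singleton_iff.2 (hx b₀ hb₀).symm))
  obtain ⟨c, -, hc⟩ := Coprime.exists_conj_smul_le_sylow (map_subtype_le _) (P.isPGroup'.map _)
    (Coprime.not_dvd_relIndex_sylow P) hC (Core.isElementaryAbelian_isPGroup hE)
  have h1 : B ⊔ zpowers x ≤ MulAut.conj c • B := fun y hy => by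
    rw [Core.mem_conj_smul_iff]
    by_cases h : y = 1
    · simp [h]
    · rw [hBP]
      refine subset_closure ⟨Core.mem_conj_smul_iff.1 (hc hy), ?_⟩
      rw [← orderOf_eq_prime (hE.2 y hy) h]
      exact (MulAut.conj c⁻¹).orderOf_eq y ▸ by simp
  rw [Core.eq_of_le_of_card_le (le_sup_left : B ≤ B ⊔ zpowers x)
    ((card_le_of_le h1).trans_eq (Core.card_conj_smul B c))]
  exact mem_sup_right (mem_zpowers x)

end Cfsg.Agent.S1902
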