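import Cfsg.Statements.S1905
import Cfsg.Agent.Lib.Tech.Invol

set_option autoImplicit false
open Cfsg

namespace Cfsg.Agent.S1905

open CfsgLib.Tech Subgroup

theorem odd_mul {S : Type*} [Group S] [Finite S] (M : Subgroup S)
    (hC : ∀ i ∈ M, orderOf i = 2 → Subgroup.centralizer ({i} : Set S) ≤ M) {i j : S}
    (hi : i ∈ M) (hi2 : orderOf i = 2) (hj : j ∉ M) (hj2 : orderOf j = 2) :
    Odd (orderOf (i * j)) := by
  rw [← Nat.not_even_iff_odd]
  intro he
  obtain ⟨m, hw, hiw, hjw, -⟩ :=
    exists_central_of_even (mul_self_of_orderOf_two hi2) (mul_self_of_orderOf_two hj2) he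
  have h1 : (i * j) ^ m ∈ M := hC i hi hi2 (mem_centralizer_singleton_iff.2 hiw.symm)
  exact hj (hC _ h1 hw (mem_centralizer_singleton_iff.2 hjw))

theorem strong {S : Type*} [Group S] [Finite S] (M : Subgroup S)
    (hC : ∀ i ∈ M, orderOf i = 2 → Subgroup.centralizer ({i} : Set S) ≤ M) {X : Subgroup S}
    (hX : IsSylowIn 2 X M) (hN : normalizer (X : Set S) ≤ M) {g t : S} (ht : orderOf t = 2)
    (h1 : t ∈ M) (h2 : t ∈ cj g M) : g ∈ M := by
  have hC' : ∀ i ∈ cj g M, orderOf i = 2 → Subgroup.centralizer ({i} : Set S) ≤ cj g M := by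
    intro i hi hi2
    rw [mem_cj] at hi
    have := cj_mono g (hC _ hi (by simpa using (orderOf_conj_eq g⁻¹ i).trans hi2))
    rw [cj_centralizer_singleton] at this
    simpa [mul_assoc] using this
  obtain ⟨Y, hY, htY⟩ := exists_isSylowIn_ge (p := 2)
    (isPGroup_two_zpowers (mul_self_of_orderOf_two ht)) (zpowers_le.2 h1)
  rw [zpowers_le] at htY
  have hY1 : Y ≠ ⊥ := fun e => ne_one_of_orderOf_two ht (by rwa [e, mem_bot] at htY)
  obtain ⟨z, hz, hz2, hzc⟩ := exists_mem_center_of_normalized hY.pgroup le_rfl le_normalizer hY1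
  have hz' : z ∈ cj g M := hC' t h2 ht (mem_centralizer_singleton_iff.2 (hzc t htY).symm)
  have hYle : Y ≤ cj g M := fun y hy => hC' z hz' hz2 (mem_centralizer_singleton_iff.2 (hzc y hy))
  have hY' : IsSylowIn 2 Y (cj g M) :=
    (hX.cj g).of_card_le hY.pgroup hYle (by rw [card_cj, hX.card_eq hY])
  obtain ⟨m, hm, e1⟩ := hY.exists_cj_eq hX
  obtain ⟨m', hm', e2⟩ := (hX.cj g).exists_cj_eq hY'
  have : m * (m' * g) ∈ M := hN (mem_normalizer_iff_cj.2 (by rw [cj_mul, cj_mul, e2, e1]))
  rw [mem_cj] at hm'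
  have h3 : m' * g ∈ M := (M.mul_mem_cancel_left hm).1 this
  have h4 : g = m' * g * (g⁻¹ * m' * g)⁻¹ := by group
  rw [h4]
  exact M.mul_mem h3 (M.inv_mem hm')


/-- Let M be a subgroup of even order of a finite group S such that M contains the centralizer in S of each of its involutions and the normal core of M in S has odd order. Then all involutions of S are conjugate. If moreover N_S(X) ≤ M for a Sylow 2-subgroup X of M and I is an involution in the centre of X, then all involutions of M are conjugate in M and M = M₀ C_M(I) for some subgroup M₀ of M of odd order. -/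
theorem result {S : Type*} [Group S] [Finite S] (M : Subgroup S) (hM : Even (Nat.card M))
    (hC : ∀ i ∈ M, orderOf i = 2 → Subgroup.centralizer ({i} : Set S) ≤ M) (hcore : Odd (Nat.card M.normalCore)) :
    (∀ x y : S, orderOf x = 2 → orderOf y = 2 → IsConj x y) ∧
      ∀ (X : Sylow 2 M) (I : M), I ∈ (Subgroup.center ↥(X : Subgroup ↥M)).map (X : Subgroup ↥M).subtype → orderOf I = 2 →
        Subgroup.normalizer (((X : Subgroup M).map M.subtype : Subgroup S) : Set S) ≤ M →
        (∀ x y : M, orderOf x = 2 → orderOf y = 2 → IsConj x y) ∧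
          ∃ M₀ : Subgroup M, Odd (Nat.card M₀) ∧
            ∀ m : M, ∃ a ∈ M₀, ∃ c ∈ Subgroup.centralizer ({I} : Set M), m = a * c := by
  obtain ⟨i, hiM, hi2⟩ := exists_involution_of_even hM
  obtain ⟨j, hjM, hj2⟩ : ∃ j, j ∉ M ∧ orderOf j = 2 := by
    by_contra hcon
    push Not at hcon
    have : i ∈ M.normalCore := fun b => by
      by_contra h
      exact hcon _ h ((orderOf_conj_eq b i).trans hi2)
    exact odd_card_iff_no_involution.1 hcore i this hi2
  have key : ∀ a ∈ M, ∀ b, b ∉ M → orderOf a = 2 → orderOf b = 2 → IsConj b a := by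
    intro a ha b hb ha2 hb2
    obtain ⟨k, hk⟩ := exists_pow_conj_of_odd (mul_self_of_orderOf_two ha2)
      (mul_self_of_orderOf_two hb2) (odd_mul M hC ha ha2 hb hb2)
    exact isConj_iff.2 ⟨_, hk⟩
  have all : ∀ x : S, orderOf x = 2 → IsConj x i := by
    intro x hx
    by_cases h : x ∈ M
    · exact (key x h j hjM hx hj2).symm.trans (key i hiM j hjM hi2 hj2)
    · exact key i hiM x h hi2 hx
  refine ⟨fun x y hx hy => (all x hx).trans (all y hy).symm, ?_⟩
  intro X I _ hI2 hN
  have hX := IsSylowIn.of_sylow_subgroup X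
  have hI2' : orderOf (I : S) = 2 := by rw [Subgroup.orderOf_coe, hI2]
  constructor
  · intro x y hx hy
    have hx' : orderOf (x : S) = 2 := by rw [Subgroup.orderOf_coe, hx]
    have hy' : orderOf (y : S) = 2 := by rw [Subgroup.orderOf_coe, hy]
    obtain ⟨g, hg⟩ := isConj_iff.1 ((all _ hx').trans (all _ hy').symm)
    have hgM : g ∈ M := strong M hC hX hN hy' y.2 (by rw [← hg, conj_mem_cj]; exact x.2)
    exact isConj_iff.2 ⟨⟨g, hgM⟩, Subtype.ext hg⟩
  · refine ⟨(cj j M).subgroupOf M, ?_, ?_⟩
    · rw [odd_card_iff_no_involution]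
      intro x hx hx2
      exact hjM (strong M hC hX hN (by rw [Subgroup.orderOf_coe, hx2]) x.2 hx)
    · intro m
      have hjj := mul_self_of_orderOf_two hj2
      have hji := inv_eq_of_orderOf_two hj2
      set a : S := m * I * (m : S)⁻¹ with ha
      have haM : a ∈ M := M.mul_mem (M.mul_mem m.2 I.2) (M.inv_mem m.2)
      have ha2 : orderOf a = 2 := (orderOf_conj_eq _ _).trans hI2'
      set s : S := j * I * j⁻¹ with hs
      have hs2 : orderOf s = 2 := (orderOf_conj_eq _ _).trans hI2'
      have hsM : s ∉ M := fun h => hjM (strong M hC hX hN hs2 h (conj_mem_cj.2 I.2))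
      obtain ⟨k, hb1, hb2⟩ := exists_swap_of_odd (mul_self_of_orderOf_two ha2)
        (mul_self_of_orderOf_two hs2) (odd_mul M hC haM ha2 hsM hs2)
      set b := (a * s) ^ k * s with hb
      have hbi : b⁻¹ = b := inv_eq_of_mul_eq_one_right hb1
      have hd : b * j * I * (b * j)⁻¹ = a := by rw [← hb2, hs]; group
      have hdM : b * j ∈ M := strong M hC hX hN ha2 haM (by rw [← hd, conj_mem_cj]; exact I.2)
      have hd' : j * b * a * (j * b)⁻¹ = I := by
        rw [← hd, mul_inv_rev b j, mul_inv_rev j b, hbi, hji]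
        calc j * b * (b * j * I * (j * b)) * (b * j) = j * (b * b) * j * I * (j * (b * b) * j) := by
              group
          _ = I := by rw [hb1, mul_one, hjj, one_mul, mul_one]
      have hdM' : j * b ∈ M := strong M hC hX hN hI2' I.2 (by rw [← hd', conj_mem_cj]; exact haM)
      refine ⟨⟨b * j, hdM⟩, ?_, ⟨b * j, hdM⟩⁻¹ * m, ?_, by group⟩
      · rw [mem_subgroupOf, mem_cj, hji]
        show j * (b * j) * j ∈ M
        rwa [mul_assoc, mul_assoc, hjj, mul_one]
      · rw [mem_centralizer_singleton_iff]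
        apply Subtype.ext
        show (b * j)⁻¹ * m * I = I * ((b * j)⁻¹ * m)
        have : (m : S) * I = a * m := by rw [ha]; group
        rw [mul_assoc, this, ← hd]; group

end Cfsg.Agent.S1905
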