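import Cfsg.Statements.S1906
import Cfsg.Agent.Lib.Transfer.Cocycle
import Cfsg.Agent.Lib.Core.Frattini
import Cfsg.Agent.Lib.PGroup.Basic

set_option autoImplicit false
open Cfsg

namespace Cfsg.Agent.S1906

open Subgroup MulAction CfsgLib CfsgLib.Transfer Matrix

theorem transfer_units {G : Type*} [Group G] [Finite G] (hG : ∀ M : Subgroup G, M.index ≠ 2) {H R : Subgroup G}
    (hH : ¬ 2 ∣ H.index) (hH2 : IsPGroup 2 H) {F : Type*} [Field F] (hF : (-1 : Fˣ) ≠ 1) (ϕ : H →* Fˣ) {u : G}
    (hu : u * u = 1) (hR : IsPGroup 2 R) (hRu : R ≤ centralizer {u}) :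
    ∃ t : G, (∃ h : t⁻¹ * u * t ∈ H, ϕ ⟨_, h⟩ = 1) ∧ ∀ r ∈ R, t⁻¹ * r * t ∈ H := by
  classical
  have := Fintype.ofFinite (G ⧸ H)
  have hc := isCocycle_cosetCocycle ϕ
  have htr : tr ϕ u = 1 := by
    by_contra hne
    obtain ⟨n, hn⟩ := IsPGroup.iff_card.1 hH2
    have hp : IsPGroup 2 (tr ϕ).range := by
      rintro ⟨_, g, rfl⟩
      refine ⟨n, Subtype.ext ?_⟩
      change tr ϕ g ^ 2 ^ n = 1
      rw [← tr_pow, show ϕ ^ 2 ^ n = 1 from MonoidHom.ext fun h => by
        rw [MonoidHom.pow_apply, ← map_pow, ← hn, pow_card_eq_one', map_one, MonoidHom.one_apply], tr_apply]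
      exact Finset.prod_eq_one fun q _ => rfl
    have : Finite (tr ϕ).range := Finite.of_surjective _ (tr ϕ).rangeRestrict_surjective
    obtain ⟨M, -, -, hM⟩ := Core.exists_normal_index_eq_ge_of_isPGroup hp (H := ⊥) fun e =>
      hne (congrArg Subtype.val (mem_bot.1 (e.ge (mem_top (⟨tr ϕ u, u, rfl⟩ : (tr ϕ).range)))))
    exact hG _ ((index_comap_of_surjective M (tr ϕ).rangeRestrict_surjective).trans hM)
  let Z : SubMulAction R (G ⧸ H) :=
    { carrier := {q | u • q = q ∧ cosetCocycle ϕ u q = 1}
      smul_mem' := fun r q hq => by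
        have h3 : (r : G) * u * (r : G)⁻¹ = u := by
          rw [mem_centralizer_singleton_iff.1 (hRu r.2), mul_inv_cancel_right]
        refine ⟨?_, ?_⟩
        · change u • (r : G) • q = (r : G) • q
          rw [← mul_smul, ← mem_centralizer_singleton_iff.1 (hRu r.2), mul_smul, hq.1]
        · change cosetCocycle ϕ u ((r : G) • q) = 1
          rw [← hq.2, ← hc.conj r hq.1, h3] }
  have hodd : ¬ 2 ∣ Nat.card Z := by
    intro hd
    let σ : Fˣ := -1
    have hσ : σ * σ = 1 := by simp [σ]
    have hσ2 : σ ^ 2 = 1 := by rw [pow_two, hσ]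
    let P : G ⧸ H → Prop := fun q => u • q = q ∧ cosetCocycle ϕ u q = 1
    have e1 : ∏ q ∈ Finset.univ.filter (fun q => ¬ P q), cosetCocycle ϕ u q * σ = 1 := by
      refine Finset.prod_involution (fun q _ => u • q) ?_ ?_ ?_ ?_
      · intro q _
        have := hc u u q
        rw [hu, hc.one] at this
        rw [mul_mul_mul_comm, hσ, mul_one, mul_comm, ← this]
      · intro q hq h1 h3
        apply h1
        have := hc u u q
        rw [hu, hc.one, h3] at this
        have h2 : cosetCocycle ϕ u q = 1 ∨ cosetCocycle ϕ u q = -1 := by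
          rcases mul_self_eq_one_iff.1 (congrArg Units.val this).symm with e | e
          · exact Or.inl (Units.ext e)
          · exact Or.inr (Units.ext e)
        rw [h2.resolve_left fun e => (Finset.mem_filter.1 hq).2 ⟨h3, e⟩]
        exact hσ
      · intro q hq
        refine Finset.mem_filter.2 ⟨Finset.mem_univ _, fun h1 => (Finset.mem_filter.1 hq).2 ?_⟩
        rwa [MulAction.injective u h1.1] at h1
      · intro q _
        rw [← mul_smul, hu, one_smul]
    have e2 : ∏ q ∈ Finset.univ.filter P, cosetCocycle ϕ u q * σ = 1 := by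
      rw [Finset.prod_congr rfl (g := fun _ => σ) fun q hq => by
        rw [(Finset.mem_filter.1 hq).2.2, one_mul], Finset.prod_const]
      have : (Finset.univ.filter P).card = Nat.card Z := by
        rw [← Fintype.card_subtype, ← Nat.card_eq_fintype_card]
        rfl
      obtain ⟨m, hm⟩ := hd
      rw [this, hm, pow_mul, hσ2, one_pow]
    have e3 := Finset.prod_filter_mul_prod_filter_not Finset.univ P
      (fun q => cosetCocycle ϕ u q * σ)
    rw [e1, e2, Finset.prod_mul_distrib, ← tr_apply, htr, Finset.prod_const, Finset.card_univ,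
      ← Nat.card_eq_fintype_card, ← index, one_mul, one_mul] at e3
    obtain ⟨m, hm⟩ := Nat.odd_iff.2 (Nat.two_dvd_ne_zero.1 hH)
    rw [hm, pow_succ, pow_mul, hσ2, one_pow, one_mul] at e3
    exact hF e3.symm
  obtain ⟨⟨q, hq1, hq2⟩, hq⟩ := hR.nonempty_fixed_point_of_prime_not_dvd_card Z hodd
  induction q using QuotientGroup.induction_on with | H t => ?_
  have h5 := smul_mk_eq_iff.1 hq1
  exact ⟨t, ⟨h5, by rwa [cosetCocycle_mk ϕ h5] at hq2⟩,
    fun r hr => smul_mk_eq_iff.1 (congrArg Subtype.val (hq ⟨r, hr⟩))⟩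

section mat
variable {F : Type*} [Field F] {A : Matrix (Fin 3) (Fin 3) F}

theorem adj_eq (A : Matrix (Fin 3) (Fin 3) F) :
    adjugate A = A * A - A.trace • A + (adjugate A).trace • (1 : Matrix (Fin 3) (Fin 3) F) := by
  ext i j
  fin_cases i <;> fin_cases j <;>
    simp [adjugate_fin_three, Matrix.mul_apply, Fin.sum_univ_three, trace_fin_three] <;> ring

theorem adj_add (A : Matrix (Fin 3) (Fin 3) F) :
    adjugate (1 + A) = adjugate A - A + (A.trace + 1) • (1 : Matrix (Fin 3) (Fin 3) F) := by
  ext i j
  fin_cases i <;> fin_cases j <;>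
    simp [adjugate_fin_three, trace_fin_three] <;> ring

theorem adj_self (h : A * A = 1) (hd : A.det = 1) : adjugate A = A := by
  rw [← one_mul (adjugate A), ← h, mul_assoc, mul_adjugate, hd, one_smul, mul_one]

theorem trace_eq (h : A * A = 1) (hd : A.det = 1) (h1 : A ≠ 1) : A.trace = -1 := by
  have e := adj_eq A
  rw [adj_self h hd, h] at e
  by_contra hc
  have h0 : A.trace + 1 ≠ 0 := fun e => hc (eq_neg_of_add_eq_zero_left e)
  apply h1
  apply smul_right_injective _ h0
  simp only [add_smul, one_smul]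
  nth_rw 3 [e]
  abel

theorem rank_one {B : Matrix (Fin 3) (Fin 3) F} (h : adjugate B = 0) (g : Matrix (Fin 3) (Fin 3) F) :
    B * g * B = (g * B).trace • B := by
  have e := fun i j => congrFun (congrFun h i) j
  have e00 := e 0 0; have e01 := e 0 1; have e02 := e 0 2
  have e10 := e 1 0; have e11 := e 1 1; have e12 := e 1 2
  have e20 := e 2 0; have e21 := e 2 1; have e22 := e 2 2
  simp [adjugate_fin_three] at e00 e01 e02 e10 e11 e12 e20 e21 e22
  have k : ∀ i j k l, B i j * B k l = B k j * B i l := by
    intro i j k l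
    fin_cases i <;> fin_cases j <;> fin_cases k <;> fin_cases l <;> simp only [Fin.zero_eta, Fin.mk_one,
      Fin.reduceFinMk, Fin.isValue] <;>
    first
      | ring1
      | linear_combination e00 | linear_combination -e00 | linear_combination e01 | linear_combination -e01
      | linear_combination e02 | linear_combination -e02 | linear_combination e10 | linear_combination -e10
      | linear_combination e11 | linear_combination -e11 | linear_combination e12 | linear_combination -e12
      | linear_combination e20 | linear_combination -e20 | linear_combination e21 | linear_combination -e21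
      | linear_combination e22 | linear_combination -e22
  ext i l
  simp only [Matrix.mul_apply, Matrix.smul_apply, trace, diag, smul_eq_mul, Finset.sum_mul]
  rw [Finset.sum_comm]
  refine Finset.sum_congr rfl fun j _ => Finset.sum_congr rfl fun m _ => ?_
  linear_combination g j m * k i j m l

theorem mul_eq_smul (h2 : (2 : F) ≠ 0) (h : A * A = 1) (hd : A.det = 1) (h1 : A ≠ 1) {g : Matrix (Fin 3) (Fin 3) F}
    (hg : A * g = g * A) : g * (1 + A) = ((g * (1 + A)).trace / 2) • (1 + A) := by
  have e := rank_one (B := 1 + A) (by rw [adj_add, adj_self h hd, trace_eq h hd h1]; simp) g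
  apply smul_right_injective _ h2
  simp only [smul_smul]
  rw [mul_div_cancel₀ _ h2, ← e, add_mul, hg, one_mul, add_mul, mul_assoc, mul_add A, h, two_smul, mul_one,
    add_comm A]

theorem trace_one_add (h : A * A = 1) (hd : A.det = 1) (h1 : A ≠ 1) : (1 + A).trace = 2 := by
  rw [trace_add, trace_eq h hd h1, trace_one]; norm_num

theorem orth (h2 : (2 : F) ≠ 0) {B : Matrix (Fin 3) (Fin 3) F} (h : A * A = 1) (hd : A.det = 1) (h1 : A ≠ 1)
    (h' : B * B = 1) (hd' : B.det = 1) (h1' : B ≠ 1) (hc : A * B = B * A) (hne : A ≠ B) : (1 + B) * (1 + A) = 0 := by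
  have e := mul_eq_smul h2 h hd h1 (g := 1 + B) (by rw [mul_add, add_mul, hc, mul_one, one_mul])
  have h3 : (B * A).trace = -1 := trace_eq (by rw [mul_assoc, ← mul_assoc A, hc, mul_assoc, h, mul_one, h'])
    (by rw [det_mul, hd, hd', mul_one]) fun e => hne (by rw [← one_mul A, ← h', mul_assoc, e, mul_one])
  rw [e, add_mul, one_mul, mul_add, mul_one, trace_add, trace_add, trace_add, h3, trace_eq h hd h1,
    trace_eq h' hd' h1', trace_one]
  norm_num

end mat

/-- Let G be a finite group with no subgroup of index 2 whose Sylow 2-subgroup X embeds in GL₃(F) for a finite field F of odd order. If X contains an elementary abelian subgroup of order 8, then X is abelian. -/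
theorem result {G : Type*} [Group G] [Finite G] (hG : ∀ H : Subgroup G, H.index ≠ 2) (X : Sylow 2 G)
    {F : Type*} [Field F] [Fintype F] (hF : Odd (Fintype.card F))
    (f : ↥(X : Subgroup G) →* GL (Fin 3) F) (hf : Function.Injective f)
    (E : Subgroup G) (hE : E ≤ (X : Subgroup G)) (hEa : Cfsg.IsElementaryAbelian 2 E) (hE8 : Nat.card E = 8) :
    IsMulCommutative (X : Subgroup G) := by
  classical
  have h2 : (2 : F) ≠ 0 := by
    intro e
    have := FiniteField.even_card_of_char_two (F := F) (ringChar.eq_iff.2 (CharTwo.of_one_ne_zero_of_two_eq_zero one_ne_zero e))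
    rw [Nat.odd_iff] at hF
    omega
  have hm1 : (-1 : Fˣ) ≠ 1 := fun e => h2 (by
    have := congrArg Units.val e
    simp only [Units.val_neg, Units.val_one] at this
    linear_combination -this)
  let ρ : (X : Subgroup G) →* Matrix (Fin 3) (Fin 3) F := (Units.coeHom _).comp f
  have hρ : Function.Injective ρ := Units.val_injective.comp hf
  let ϕ : (X : Subgroup G) →* Fˣ := GeneralLinearGroup.det.comp f
  have hϕ : ∀ x, (ϕ x : F) = (ρ x).det := fun x => rfl
  obtain ⟨y, hy⟩ : ∃ y, ρ y = -1 := by
    by_contra hc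
    push Not at hc
    let s : E → Matrix (Fin 3) (Fin 3) F := fun e => (ρ (inclusion hE e)).det • ρ (inclusion hE e)
    have hmul : ∀ a b, s (a * b) = s a * s b := fun a b => by
      simp only [s, map_mul, det_mul, smul_mul_smul_comm]
    have hone : s 1 = 1 := by simp [s]
    have hsq : ∀ a : E, a * a = 1 := fun a => Subtype.ext (by rw [← sq]; exact hEa.2 a a.2)
    have hdd : ∀ a : E, (ρ (inclusion hE a)).det * (ρ (inclusion hE a)).det = 1 := fun a => by
      rw [← det_mul, ← map_mul, ← map_mul, hsq, map_one, map_one, det_one]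
    have hdet : ∀ a, (s a).det = 1 := fun a => by
      simp only [s, det_smul, Fintype.card_fin]
      linear_combination ((ρ (inclusion hE a)).det ^ 2 + 1) * hdd a
    have hs1 : ∀ a, a ≠ 1 → s a ≠ 1 := fun a ha e => by
      rcases mul_self_eq_one_iff.1 (hdd a) with e' | e'
      · simp only [s, e', one_smul] at e
        exact ha (inclusion_injective hE (hρ (by rw [e, map_one, map_one])))
      · simp only [s, e', neg_smul, one_smul] at e
        exact hc _ (neg_eq_iff_eq_neg.1 e)
    have hss : ∀ a, s a * s a = 1 := fun a => by rw [← hmul, hsq, hone]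
    have ho : ∀ a b, a ≠ 1 → b ≠ 1 → a ≠ b → (1 + s b) * (1 + s a) = 0 := fun a b ha hb hab =>
      orth h2 (hss a) (hdet a) (hs1 a ha) (hss b) (hdet b) (hs1 b hb) (by
        rw [← hmul, ← hmul, hEa.1.is_comm.comm]) fun e => hs1 (a * b)
          (fun e' => hab (by rw [← mul_one a, ← hsq b, ← mul_assoc, e', one_mul])) (by rw [hmul, e, hss])
    have := Fintype.ofFinite E
    have hex : ∀ T : Finset E, T.card ≤ 4 → ∃ c, c ∉ T := fun T hT => by
      obtain ⟨c, -, hc⟩ := Finset.exists_mem_notMem_of_card_lt_card (s := T) (t := Finset.univ) (by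
        rw [Finset.card_univ, ← Nat.card_eq_fintype_card]; omega)
      exact ⟨c, hc⟩
    obtain ⟨a, ha⟩ := hex {1} (by simp)
    obtain ⟨b, hb⟩ := hex {1, a} (Finset.card_le_two.trans (by norm_num))
    obtain ⟨c, hc⟩ := hex {1, a, b, b * a} Finset.card_le_four
    simp only [Finset.mem_insert, Finset.mem_singleton, not_or] at ha hb hc
    have e1 := ho a b ha hb.1 (Ne.symm hb.2)
    have e2 := ho a c ha hc.1 (Ne.symm hc.2.1)
    have e3 := ho b c hb.1 hc.1 (Ne.symm hc.2.2.1)
    have e4 := ho (b * a) c (fun e => hb.2 (by rw [← mul_one b, ← hsq a, ← mul_assoc, e, one_mul])) hc.1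
      (Ne.symm hc.2.2.2)
    have e5 : 1 + s (b * a) = 1 + 1 - (1 + s a) - (1 + s b) := by
      rw [hmul, ← add_zero (1 + 1 - _ - _), ← e1]; noncomm_ring
    rw [e5, mul_sub, mul_sub, e2, e3, sub_zero, sub_zero, mul_add, mul_one] at e4
    have := congrArg trace e4
    rw [trace_add, trace_one_add (hss c) (hdet c) (hs1 c hc.1), trace_zero, ← two_mul] at this
    exact mul_ne_zero h2 h2 this
  have hyy : y * y = 1 := hρ (by rw [map_mul, hy, map_one]; simp)
  have hyc : ∀ x, x * y = y * x := fun x => hρ (by rw [map_mul, map_mul, hy]; simp)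
  obtain ⟨t, ⟨ht, hϕt⟩, hX⟩ := transfer_units hG X.not_dvd_index X.isPGroup' hm1 ϕ (u := y)
    (congrArg Subtype.val hyy) X.isPGroup' fun x hx =>
      mem_centralizer_singleton_iff.2 (congrArg Subtype.val (hyc ⟨x, hx⟩))
  let c : (X : Subgroup G) →* (X : Subgroup G) :=
    MonoidHom.mk' (fun x => ⟨t⁻¹ * x * t, hX x x.2⟩) fun a b => Subtype.ext (by simp [mul_assoc])
  have hci : Function.Injective c := fun a b e => Subtype.ext (by simpa [c] using e)
  have hcs : Function.Surjective c := Finite.injective_iff_surjective.1 hci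
  have hdy : (ρ (c y)).det = 1 := (hϕ _).symm.trans (congrArg Units.val hϕt)
  have hA : ρ (c y) * ρ (c y) = 1 := by rw [← map_mul, ← map_mul, hyy, map_one, map_one]
  have hA1 : ρ (c y) ≠ 1 := fun e => by
    have : y = 1 := hci (hρ (by rw [e, map_one, map_one]))
    rw [this, map_one] at hy
    have := congrFun (congrFun hy 0) 0
    simp at this
    exact h2 (by linear_combination this)
  have hAc : ∀ x, ρ (c y) * ρ x = ρ x * ρ (c y) := fun x => by
    obtain ⟨x, rfl⟩ := hcs x
    rw [← map_mul, ← map_mul, ← map_mul, ← map_mul, hyc]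
  have hB := trace_one_add hA hdy hA1
  have hB0 : 1 + ρ (c y) ≠ 0 := fun e => h2 (by rw [← hB, e, trace_zero])
  let l : (X : Subgroup G) →* F := MonoidHom.mk (OneHom.mk (fun x => (ρ x * (1 + ρ (c y))).trace / 2)
    (by simp only [map_one, one_mul, hB]; exact div_self h2)) fun a b => smul_left_injective F hB0 (by
      have e1 := mul_eq_smul h2 hA hdy hA1 (hAc a)
      have e2 := mul_eq_smul h2 hA hdy hA1 (hAc b)
      have e3 := mul_eq_smul h2 hA hdy hA1 (hAc (a * b))
      simp only
      generalize (ρ a * (1 + ρ (c y))).trace / 2 = p at e1 ⊢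
      generalize (ρ b * (1 + ρ (c y))).trace / 2 = q at e2 ⊢
      rw [← e3, map_mul, mul_assoc, e2, mul_smul_comm, e1, smul_smul, mul_comm])
  by_contra hna
  obtain ⟨u, hu, -, hu2⟩ := PGroup.exists_mem_center_orderOf_eq X.isPGroup' (_root_.commutator X) fun e =>
    hna ⟨⟨fun a b => commutatorElement_eq_one_iff_mul_comm.1 (mem_bot.1 (e.le
      (commutator_mem_commutator (mem_top a) (mem_top b))))⟩⟩
  have key : ∀ u ∈ _root_.commutator X, orderOf u = 2 → u = c y := by
    intro u hu hu2
    have h1 : l u = 1 := congrArg Units.val (Abelianization.commutator_subset_ker l.toHomUnits hu)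
    have h3 : (ρ u).det = 1 := (hϕ _).symm.trans (congrArg Units.val (Abelianization.commutator_subset_ker ϕ hu))
    have h4 : ρ u * ρ u = 1 := by
      rw [← map_mul, ← sq, orderOf_dvd_iff_pow_eq_one.1 hu2.dvd, map_one]
    have h5 : ρ u ≠ 1 := fun e => by
      rw [hρ (e.trans (map_one ρ).symm), orderOf_one] at hu2
      omega
    by_contra hne
    have e1 := orth h2 hA hdy hA1 h4 h3 h5 (hAc u) fun e => hne (hρ e).symm
    have e2 := mul_eq_smul h2 hA hdy hA1 (hAc u)
    change _ = l u • _ at e2
    rw [add_mul, e2, h1, one_mul, one_smul, ← two_smul F] at e1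
    exact hB0 ((smul_eq_zero.1 e1).resolve_left h2)
  have h1 := key (c u) (by
    have := map_commutator ⊤ ⊤ c
    exact commutator_mono le_top le_top (this.le (mem_map_of_mem c hu))) (by rw [orderOf_injective c hci, hu2])
  rw [hci h1] at hu
  have := (hϕ y).symm.trans (congrArg Units.val (Abelianization.commutator_subset_ker ϕ hu))
  rw [hy, det_neg, det_one] at this
  simp at this
  exact h2 (by linear_combination -this)

end Cfsg.Agent.S1906
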