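import Cfsg.Statements.S1907
import Cfsg.Agent.Lib.PLocal.Constrained
import Cfsg.Agent.Lib.Core.Cores
import Cfsg.Agent.Lib.Tech.SylowIn

set_option autoImplicit false
open Cfsg

namespace Cfsg.Agent.S1907

open Subgroup CfsgLib.Tech

theorem partA {G : Type*} [Group G] [Finite G] {p : ℕ} [Fact p.Prime] {H D : Subgroup G} [D.Normal]
    (hH : IsPGroup p H) (hD : (Nat.card D).Coprime p) {y d : G} (hy : y ∈ normalizer (H : Set G))
    (hyp : IsPGroup p (zpowers y)) (hd : d ∈ D) (hyd : d⁻¹ * y * d ∈ normalizer (H : Set G)) :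
    ∃ d₁ ∈ D ⊓ centralizer ({y} : Set G), ∃ d₂ ∈ D ⊓ centralizer (H : Set G), d = d₁ * d₂ := by
  have hHD : H ⊓ D = ⊥ := CfsgLib.Core.isPGroup_inf_eq_bot_of_coprime hH hD
  have hcen : ∀ c ∈ D, c ∈ normalizer (H : Set G) → c ∈ centralizer (H : Set G) := by
    intro c hc hcN
    rw [mem_centralizer_iff]
    intro h hh
    have : c * h * c⁻¹ * h⁻¹ ∈ H ⊓ D := by
      refine ⟨H.mul_mem (conj_mem_of_mem_normalizer hcN hh) (H.inv_mem hh), ?_⟩
      have := D.mul_mem hc (‹D.Normal›.conj_mem _ (D.inv_mem hc) h)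
      simpa [mul_assoc] using this
    rw [hHD, mem_bot, mul_inv_eq_one, mul_inv_eq_iff_eq_mul] at this
    exact this.symm
  set C := D ⊓ normalizer (H : Set G) with hC
  have hyC : zpowers y ≤ normalizer (C : Set G) := zpowers_le.2
    (inf_normalizer_le_normalizer_inf ⟨by rw [normalizer_eq_top]; trivial, le_normalizer hy⟩)
  have hsyl : IsSylowIn p (zpowers y) (zpowers y ⊔ C) := by
    refine ⟨le_sup_left, hyp, fun h => ?_⟩
    have h1 := CfsgLib.Core.card_sup_dvd_of_le_normalizer hyC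
    rw [← card_mul_relIndex' (le_sup_left : zpowers y ≤ zpowers y ⊔ C)] at h1
    have h2 := (h.trans (Nat.dvd_of_mul_dvd_mul_left Nat.card_pos h1)).trans
      (card_dvd_of_le (inf_le_left : C ≤ D))
    exact (Nat.Prime.coprime_iff_not_dvd Fact.out).1 hD.symm h2
  have h1 : d⁻¹ * y * d ∈ zpowers y ⊔ C := by
    have : d⁻¹ * y * d = y * (y⁻¹ * (d⁻¹ * y * d)) := by group
    rw [this]
    refine mul_mem (mem_sup_left (mem_zpowers y)) (mem_sup_right ⟨?_, Subgroup.mul_mem _ (Subgroup.inv_mem _ hy) hyd⟩)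
    have := D.mul_mem (‹D.Normal›.conj_mem _ (D.inv_mem hd) y⁻¹) hd
    simpa [mul_assoc] using this
  obtain ⟨g, hg, hg'⟩ := hsyl.exists_conj_mem h1 (by
    have := isPGroup_cj d⁻¹ hyp
    rwa [cj_zpowers, inv_inv] at this)
  obtain ⟨z, hz, c, hc, rfl⟩ := (CfsgLib.Core.mem_sup_of_le_normalizer_right hyC).1 hg
  have h2 : c * (d⁻¹ * y * d) * c⁻¹ ∈ zpowers y := by
    have := conj_mem_of_mem_normalizer' (le_normalizer hz) hg'
    simpa [mul_assoc] using this
  have h3 : y⁻¹ * (c * (d⁻¹ * y * d) * c⁻¹) ∈ zpowers y ⊓ D := by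
    refine ⟨Subgroup.mul_mem _ (Subgroup.inv_mem _ (mem_zpowers y)) h2, ?_⟩
    have h4 : d * c⁻¹ ∈ D := D.mul_mem hd (D.inv_mem hc.1)
    have := D.mul_mem (‹D.Normal›.conj_mem _ (D.inv_mem h4) y⁻¹) h4
    simpa [mul_assoc] using this
  rw [CfsgLib.Core.isPGroup_inf_eq_bot_of_coprime hyp hD, mem_bot, inv_mul_eq_one] at h3
  refine ⟨d * c⁻¹, ⟨D.mul_mem hd (D.inv_mem hc.1), mem_centralizer_singleton_iff.2 ?_⟩, c,
    ⟨hc.1, hcen c hc.1 hc.2⟩, by group⟩
  conv_lhs => rw [h3]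
  group


/-- Let P be a Sylow p-subgroup of a finite group G, H = P ∩ O_{p',p}(G), N = N_G(H) and D = O_{p'}(G). (a) If y is an element of p-power order of N and d ∈ D with d⁻¹ y d ∈ N, then d = d₁ d₂ with d₁ ∈ C_D(y) and d₂ ∈ C_D(H). (b) Two elements of P that are conjugate in G are conjugate in N. -/
theorem result {G : Type*} [Group G] [Finite G] {p : ℕ} [Fact p.Prime] (P : Sylow p G) :
    (∀ y ∈ Subgroup.normalizer (((P : Subgroup G) ⊓ Cfsg.pPrimePCore p G : Subgroup G) : Set G), (∃ k : ℕ, orderOf y = p ^ k) →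
      ∀ d ∈ Cfsg.pPrimeCore p G, d⁻¹ * y * d ∈ Subgroup.normalizer (((P : Subgroup G) ⊓ Cfsg.pPrimePCore p G : Subgroup G) : Set G) →
        ∃ d₁ ∈ Cfsg.pPrimeCore p G ⊓ Subgroup.centralizer ({y} : Set G),
          ∃ d₂ ∈ Cfsg.pPrimeCore p G ⊓ Subgroup.centralizer (((P : Subgroup G) ⊓ Cfsg.pPrimePCore p G : Subgroup G) : Set G), d = d₁ * d₂) ∧
    ∀ x y : G, x ∈ (P : Subgroup G) → y ∈ (P : Subgroup G) → IsConj x y →
      ∃ n ∈ Subgroup.normalizer (((P : Subgroup G) ⊓ Cfsg.pPrimePCore p G : Subgroup G) : Set G), n * x * n⁻¹ = y := by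
  have hN := CfsgLib.PLocal.Constr.pPrimePCore_normal (G := G) (p := p)
  have hD := CfsgLib.Core.coprime_card_pPrimeCore p G
  have hH : IsPGroup p ((P : Subgroup G) ⊓ Cfsg.pPrimePCore p G : Subgroup G) :=
    P.isPGroup'.to_inf_left
  refine ⟨fun y hy hyp d hd hyd => partA hH hD hy (isPGroup_zpowers_iff.2 hyp) hd hyd, ?_⟩
  intro x y hx hy hxy
  set H : Subgroup G := (P : Subgroup G) ⊓ Cfsg.pPrimePCore p G with hHdef
  have hPN : (P : Subgroup G) ≤ normalizer (H : Set G) := fun s hs =>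
    inf_normalizer_le_normalizer_inf ⟨le_normalizer hs, by rw [normalizer_eq_top]; trivial⟩
  have hsyl : IsSylowIn p H (Cfsg.pPrimePCore p G) := sylow_inf_normal P _
  have hsup : H ⊔ Cfsg.pPrimeCore p G = Cfsg.pPrimePCore p G := by
    rw [← hsyl.map_toSylow]
    exact CfsgLib.PLocal.Constr.sylow_sup_pPrimeCore _
  obtain ⟨g, rfl⟩ := isConj_iff.1 hxy
  obtain ⟨k, hk, hk'⟩ := hsyl.frattini' (g := g) (by rw [normalizer_eq_top]; trivial)
  rw [← hsup, sup_comm] at hk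
  obtain ⟨d, hd, h, hh, rfl⟩ := mem_sup_of_normal_left.1 hk
  have hn : g * d ∈ normalizer (H : Set G) := by
    rw [← mul_assoc] at hk'
    exact (Subgroup.mul_mem_cancel_right _ (le_normalizer hh)).1 hk'
  obtain ⟨d₁, hd₁, d₂, hd₂, e⟩ := partA hH hD (hPN hx) (isPGroup_zpowers_of_mem P.isPGroup' hx) hd
    (by
      have := conj_mem_of_mem_normalizer' (le_normalizer hn) (hPN hy)
      simpa [mul_assoc] using this)
  refine ⟨g * d * d₂⁻¹, Subgroup.mul_mem _ hn (Subgroup.inv_mem _ (centralizer_le_normalizer _ hd₂.2)), ?_⟩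
  have h1 := mem_centralizer_singleton_iff.1 hd₁.2
  rw [e]
  calc _ = g * (d₁ * x) * d₁⁻¹ * g⁻¹ := by group
    _ = _ := by rw [h1]; group

end Cfsg.Agent.S1907
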