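import Cfsg.Statements.S1908
import Cfsg.Agent.Lib.FT.OddOrder
import Cfsg.Agent.Lib.Coprime.Hall

set_option autoImplicit false
open Cfsg

namespace Cfsg.Agent.S1908

open CfsgLib.Coprime

theorem hallGood_of_sep {G : Type*} [Group G] [Finite G] (π : Set ℕ)
    (hsep : ∃ (n : ℕ) (H : Fin (n + 1) → Subgroup G), H 0 = ⊥ ∧ H (Fin.last n) = ⊤ ∧ Monotone H ∧ (∀ i, (H i).Normal) ∧
      ∀ i : Fin n, (∀ q : ℕ, q.Prime → q ∣ (H i.castSucc).relIndex (H i.succ) → q ∈ π) ∨
        (∀ q : ℕ, q.Prime → q ∣ (H i.castSucc).relIndex (H i.succ) → q ∉ π)) : HallGood π G := by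
  obtain ⟨n, H, h0, hl, -, hn, hs⟩ := hsep
  intro Q _ f hf hQ
  haveI : Finite Q := Finite.of_surjective f hf
  obtain ⟨i, hi1, hi2⟩ : ∃ i : Fin n, H i.castSucc ≤ f.ker ∧ ¬ H i.succ ≤ f.ker := by
    by_contra hc
    push Not at hc
    have : ∀ i : Fin (n + 1), H i ≤ f.ker := by
      intro i
      induction i using Fin.induction with
      | zero => rw [h0]; exact bot_le
      | succ i ih => exact hc i ih
    have h1 := this (Fin.last n)
    rw [hl, top_le_iff] at h1
    obtain ⟨x, hx⟩ := exists_ne (1 : Q)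
    obtain ⟨y, rfl⟩ := hf x
    exact hx (show y ∈ f.ker by rw [h1]; trivial)
  have hd : Nat.card ((H i.succ).map f) ∣ (H i.castSucc).relIndex (H i.succ) := by
    rw [← Subgroup.relIndex_ker]
    exact Subgroup.relIndex_dvd_of_le_left _ hi1
  refine ⟨(H i.succ).map f, (hn _).map f hf, fun h => hi2 ((Subgroup.map_eq_bot_iff _).1 h), ?_⟩
  rcases hs i with h | h
  · exact Or.inl (fun q hq hqd => h q hq (hqd.trans hd))
  · have h1 : IsPiNum πᶜ (Nat.card ((H i.succ).map f)) := fun q hq hqd => h q hq (hqd.trans hd)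
    exact Or.inr ⟨h1, fun U hU => CfsgLib.FT.solvable_or_of_coprime (hU.coprime h1)⟩

/-- Let π be a set of primes and G a finite π-separable group: G has a chain of normal subgroups from 1 to G in which each successive index is divisible only by primes in π or only by primes outside π. Then G has a Hall π-subgroup, any two Hall π-subgroups of G are conjugate, and every subgroup of G whose order is divisible only by primes in π lies in some Hall π-subgroup. -/
theorem result {G : Type*} [Group G] [Finite G] (π : Set ℕ)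
    (hsep : ∃ (n : ℕ) (H : Fin (n + 1) → Subgroup G), H 0 = ⊥ ∧ H (Fin.last n) = ⊤ ∧ Monotone H ∧ (∀ i, (H i).Normal) ∧
      ∀ i : Fin n, (∀ q : ℕ, q.Prime → q ∣ (H i.castSucc).relIndex (H i.succ) → q ∈ π) ∨
        (∀ q : ℕ, q.Prime → q ∣ (H i.castSucc).relIndex (H i.succ) → q ∉ π)) :
    (∃ K : Subgroup G, Cfsg.IsPiHall π K) ∧
      (∀ K L : Subgroup G, Cfsg.IsPiHall π K → Cfsg.IsPiHall π L → ∃ g : G, L = K.map (MulAut.conj g).toMonoidHom) ∧
      ∀ U : Subgroup G, (∀ q : ℕ, q.Prime → q ∣ Nat.card U → q ∈ π) → ∃ K : Subgroup G, Cfsg.IsPiHall π K ∧ U ≤ K := by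
  have h := hallGood_of_sep π hsep
  refine ⟨h.exists_isPiHall, fun K L hK hL => ?_, fun U hU => h.exists_isPiHall_ge hU⟩
  obtain ⟨g, hg⟩ := h.exists_conj_eq hK hL
  exact ⟨g, hg.symm⟩

end Cfsg.Agent.S1908
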