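import Cfsg.Statements.S1924
import Cfsg.Agent.Lib.Transfer.Thompson
import Cfsg.Agent.Lib.Transfer.Residual
import Cfsg.Agent.Lib.PSL2Rec.Fix2

set_option autoImplicit false
open Cfsg

namespace Cfsg.Agent.S1924

open Subgroup MulAction CfsgLib.Transfer

theorem dih {H : Type*} [Group H] {n : ℕ} (e : H ≃* DihedralGroup n) {C : Subgroup H}
    (hC : IsCyclic C) (hi : C.index = 2) {x : H} (hx : x ∉ C) : orderOf x = 2 := by
  obtain ⟨c, hc⟩ := hC.exists_generator
  have hCc : ∀ y ∈ C, ∃ k : ℤ, (c : H) ^ k = y := fun y hy => by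
    obtain ⟨k, hk⟩ := hc ⟨y, hy⟩
    exact ⟨k, congrArg Subtype.val hk⟩
  have hx1 : x ≠ 1 := by rintro rfl; exact hx C.one_mem
  rw [orderOf_eq_prime_iff (p := 2)]
  refine ⟨?_, hx1⟩
  rcases hxe : e x with i | i
  swap
  · apply e.injective
    rw [map_pow, hxe, map_one, sq, DihedralGroup.sr_mul_self]
  rcases hce : e c with j | j
  · exfalso
    have hr : ∀ y ∈ C, ∃ k, e y = DihedralGroup.r k := fun y hy => by
      obtain ⟨k, rfl⟩ := hCc y hy
      exact ⟨_, by rw [map_zpow, hce, DihedralGroup.r_zpow]⟩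
    have hy : e.symm (DihedralGroup.sr 0) ∉ C := fun h => by
      obtain ⟨k, hk⟩ := hr _ h
      simp at hk
    obtain ⟨k, hk⟩ := hr _ ((mul_mem_iff_of_index_two hi).2 (iff_of_false hx hy))
    simp [hxe] at hk
  · obtain ⟨k, hk⟩ := hCc _ (sq_mem_of_index_two hi x)
    have hc2 : (c : H) ^ (2 : ℤ) = 1 := by
      apply e.injective
      rw [map_zpow, hce, map_one, zpow_two, DihedralGroup.sr_mul_self]
    rcases Int.even_or_odd' k with ⟨m, rfl | rfl⟩
    · rw [← hk, zpow_mul, hc2, one_zpow]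
    · exfalso
      rw [zpow_add, zpow_mul, hc2, one_zpow, one_mul, zpow_one] at hk
      have := congrArg e hk
      rw [hce, map_pow, hxe, sq, DihedralGroup.r_mul_r] at this
      simp at this

variable {G : Type*} [Group G] [Finite G]

def mulMap {A B M : Subgroup G} (hA : A ≤ M) (hB : B ≤ M) (p : A × B) : M :=
  ⟨p.1 * p.2, M.mul_mem (hA p.1.2) (hB p.2.2)⟩

omit [Finite G] in
theorem mulMap_inj {A B M : Subgroup G} (hA : A ≤ M) (hB : B ≤ M) (h : B ⊓ A = ⊥) :
    Function.Injective (mulMap hA hB) := by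
  rintro ⟨a, b⟩ ⟨a', b'⟩ e
  have e1 : (a : G) * b = a' * b' := congrArg Subtype.val e
  have e2 : (a' : G)⁻¹ * a = b' * (b : G)⁻¹ := by
    rw [inv_mul_eq_iff_eq_mul, ← mul_assoc, ← e1, mul_inv_cancel_right]
  have h1 : (a' : G)⁻¹ * a ∈ B ⊓ A :=
    ⟨e2 ▸ B.mul_mem b'.2 (B.inv_mem b.2), A.mul_mem (A.inv_mem a'.2) a.2⟩
  rw [h, mem_bot] at h1
  have h2 : (a' : G) = a := inv_mul_eq_one.1 h1
  rw [h1, eq_comm, mul_inv_eq_one] at e2
  exact Prod.ext (Subtype.ext h2.symm) (Subtype.ext e2.symm)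

theorem relIndex_mul_card_of_le {A M : Subgroup G} (h : A ≤ M) :
    A.relIndex M * Nat.card A = Nat.card M := by
  rw [← Nat.card_congr (subgroupOfEquivOfLe h).toEquiv]
  exact (A.subgroupOf M).index_mul_card

theorem card_mul_le {A B M : Subgroup G} (hA : A ≤ M) (hB : B ≤ M) (h : B ⊓ A = ⊥) :
    Nat.card A * Nat.card B ≤ Nat.card M := by
  rw [← Nat.card_prod]
  exact Nat.card_le_card_of_injective _ (mulMap_inj hA hB h)

theorem exists_mul {A B M : Subgroup G} (hA : A ≤ M) (hB : B ≤ M) (h : B ⊓ A = ⊥)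
    (hc : Nat.card A * Nat.card B = Nat.card M) {s : G} (hs : s ∈ M) :
    ∃ a ∈ A, ∃ b ∈ B, a * b = s := by
  have hb := (Nat.bijective_iff_injective_and_card (mulMap hA hB)).2
    ⟨mulMap_inj hA hB h, by rw [Nat.card_prod, hc]⟩
  obtain ⟨⟨a, b⟩, e⟩ := hb.2 ⟨s, hs⟩
  exact ⟨a, a.2, b, b.2, congrArg Subtype.val e⟩

theorem card_eq_mul {A B M : Subgroup G} (hA : A ≤ M) (hB : B ≤ M) (h : B ⊓ A = ⊥)
    (hs : ∀ s ∈ M, ∃ a ∈ A, ∃ b ∈ B, a * b = s) : Nat.card A * Nat.card B = Nat.card M := by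
  rw [← Nat.card_prod]
  refine Nat.card_eq_of_bijective (mulMap hA hB) ⟨mulMap_inj hA hB h, fun s => ?_⟩
  obtain ⟨a, ha, b, hb, e⟩ := hs s s.2
  exact ⟨(⟨a, ha⟩, ⟨b, hb⟩), Subtype.ext e⟩

theorem cyc {K : Type*} [Group K] [Finite K] (hK : pResidual 2 K = ⊤) (T : Subgroup K) {x : K}
    {k m : ℕ} (hx : x ^ 2 ^ (k + 1) = 1) (hi : T.index = 2 ^ (k + 1) * m) (hm : Odd m) :
    ∃ g : K, g * x ^ 2 ^ k * g⁻¹ ∈ T := by
  classical
  by_contra hne
  have := Fintype.ofFinite (K ⧸ T)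
  have hs := CfsgLib.PSL2Rec.sign_of_semiregular (X := K ⧸ T) (x := x) (k := k) hx (by
    intro q e
    induction q using QuotientGroup.induction_on with | _ g =>
    change ((x ^ 2 ^ k * g : K) : K ⧸ T) = g at e
    rw [QuotientGroup.eq, ← inv_mem_iff, mul_inv_rev, inv_inv, ← mul_assoc] at e
    exact hne ⟨g⁻¹, by rwa [inv_inv]⟩) hi hm
  have h2 : IsPGroup 2 ℤˣ := IsPGroup.of_card (n := 1) (by simp)
  have := map_eq_one_of_pResidual_eq_top hK h2 (Equiv.Perm.sign.comp (toPermHom K (K ⧸ T))) x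
  rw [MonoidHom.comp_apply, toPermHom_apply, hs] at this
  exact absurd this (by decide)

/-- A consequence of Thompson's transfer lemma. Let G be a finite group, L a subgroup with O²(L) = L, T a Sylow 2-subgroup of L and S a Sylow 2-subgroup of G containing T. Suppose D ≤ S is a dihedral subgroup of order at least 4 (the four-group counts) with D ∩ T = 1 and S = TD as a set of products (so |S| = |T|·|D|), and C ≤ D is cyclic of index 2 in D. If no involution of D outside C is G-conjugate to an involution of the subgroup generated by T and C, and the involution of C is not G-conjugate to any involution of T, then G has a normal subgroup K, containing every Sylow 2-subgroup of L as a Sylow 2-subgroup, with G = KD. -/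
theorem result {G : Type*} [Group G] [Finite G] (L T S D C : Subgroup G) (hL : Cfsg.pResidual 2 ↥L = ⊤)
    (hTL : T ≤ L) (hT2 : IsPGroup 2 T) (hTsyl : ¬ 2 ∣ T.relIndex L)
    (hS2 : IsPGroup 2 S) (hSsyl : ¬ 2 ∣ S.index) (hTS : T ≤ S)
    (hDS : D ≤ S) (hDih : ∃ n : ℕ, 2 ≤ n ∧ Nonempty (↥D ≃* DihedralGroup n)) (hDT : D ⊓ T = ⊥) (hTD : T ⊔ D = S) (hTDc : Nat.card T * Nat.card D = Nat.card S)
    (hCD : C ≤ D) (hC : IsCyclic ↥C) (hCi : C.relIndex D = 2)
    (h1 : ∀ x ∈ D, x ∉ C → orderOf x = 2 → ∀ g : G, g * x * g⁻¹ ∈ T ⊔ C → False)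
    (h2 : ∀ c ∈ C, orderOf c = 2 → ∀ g : G, g * c * g⁻¹ ∈ T → False) :
    ∃ K : Subgroup G, K.Normal ∧ K ⊔ D = ⊤ ∧
      ∀ T' : Subgroup G, T' ≤ L → IsPGroup 2 T' → ¬ 2 ∣ T'.relIndex L → T' ≤ K ∧ ¬ 2 ∣ T'.relIndex K := by
  obtain ⟨n, -, ⟨e⟩⟩ := hDih
  have hinv : ∀ x ∈ D, x ∉ C → orderOf x = 2 := fun x hx hxC => by
    have hc : IsCyclic (C.subgroupOf D) :=
      isCyclic_of_surjective (subgroupOfEquivOfLe hCD).symm (subgroupOfEquivOfLe hCD).symm.surjective
    have := dih e hc hCi (x := ⟨x, hx⟩) hxC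
    rwa [← orderOf_coe] at this
  set K : Subgroup G := pResidual 2 G with hK
  have hKn : K.Normal := pResidual_normal 2 G
  have hLK : L ≤ K := by
    have := map_pResidual_le (p := 2) L.subtype
    rwa [hL, ← MonoidHom.range_eq_map, range_subtype] at this
  have hTK : T ≤ K := hTL.trans hLK
  have hMS : T ⊔ C ≤ S := sup_le hTS (hCD.trans hDS)
  have hM : (T ⊔ C).relIndex S = 2 := by
    have h3 := card_mul_le (le_sup_left : T ≤ T ⊔ C) le_sup_right
      (eq_bot_iff.2 ((inf_le_inf_right T hCD).trans hDT.le))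
    have h4 := relIndex_mul_card_of_le hMS
    have h5 := relIndex_mul_card_of_le hCD
    have h6 : (T ⊔ C).relIndex S ≠ 1 := by
      rw [Ne, relIndex_eq_one]
      intro h
      have : ¬ D ≤ C := by rw [← relIndex_eq_one, hCi]; decide
      obtain ⟨x, hx, hxC⟩ := SetLike.not_le_iff_exists.1 this
      exact h1 x hx hxC (hinv x hx hxC) 1 (by simpa using h (hDS hx))
    have h7 : (T ⊔ C).relIndex S ≠ 0 := index_ne_zero_of_finite
    have h8 : 0 < Nat.card (T ⊔ C : Subgroup G) := Nat.card_pos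
    rw [hCi] at h5
    have : (T ⊔ C).relIndex S * Nat.card (T ⊔ C : Subgroup G) ≤ 2 * Nat.card (T ⊔ C : Subgroup G) := by
      rw [h4, ← hTDc, ← h5]; nlinarith
    have := Nat.le_of_mul_le_mul_right this h8
    omega
  have hEC : K ⊓ D ≤ C := by
    rintro x ⟨hxK, hx⟩
    by_contra hxC
    rcases thompson_transfer hSsyl hM (hinv x hx hxC) with ⟨M, _, hMi, hxM⟩ | ⟨g, hg⟩
    · exact hxM (pResidual_le_of_index (p := 2) (k := 1) (by simpa using hMi) hxK)
    · exact h1 x hx hxC (hinv x hx hxC) g hg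
  have hodd : ¬ 2 ∣ S.relIndex K := not_dvd_relIndex_sylow_of_normal (hS2.toSylow hSsyl) K
  have hcard : Nat.card T * Nat.card (K ⊓ D : Subgroup G) = Nat.card (S ⊓ K : Subgroup G) := by
    refine card_eq_mul (le_inf hTS hTK) (le_inf (inf_le_right.trans hDS) inf_le_left)
      (eq_bot_iff.2 ((inf_le_inf_right T inf_le_right).trans hDT.le)) ?_
    rintro s ⟨hs, hsK⟩
    obtain ⟨a, ha, b, hb, rfl⟩ := exists_mul hTS hDS hDT hTDc hs
    exact ⟨a, ha, b, ⟨(K.mul_mem_cancel_left (hTK ha)).1 hsK, hb⟩, rfl⟩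
  have hKc : S.relIndex K * Nat.card (S ⊓ K : Subgroup G) = Nat.card K := by
    rw [← inf_relIndex_right]; exact relIndex_mul_card_of_le inf_le_right
  have hE : Nat.card (K ⊓ D : Subgroup G) = 1 := by
    have hEc : IsCyclic (K ⊓ D : Subgroup G) := isCyclic_of_le hEC
    obtain ⟨k, hk⟩ := (hS2.to_le (inf_le_right.trans hDS : K ⊓ D ≤ S)).exists_card_eq
    rcases k with _ | k
    · simpa using hk
    exfalso
    obtain ⟨x, hx⟩ := hEc.exists_ofOrder_eq_natCard
    rw [hk, ← orderOf_coe] at hx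
    have hi : (T.subgroupOf K).index = 2 ^ (k + 1) * S.relIndex K := by
      have h4 := relIndex_mul_card_of_le hTK
      refine Nat.eq_of_mul_eq_mul_right (Nat.card_pos (α := T)) ?_
      change T.relIndex K * _ = _
      rw [h4, ← hKc, ← hcard, hk]; ring
    obtain ⟨g, hg⟩ := cyc (pResidual_pResidual (p := 2) (G := G)) (T.subgroupOf K)
      (x := ⟨x, x.2.1⟩) (k := k) (Subtype.ext (by
        change (x : G) ^ _ = 1
        rw [← hx, pow_orderOf_eq_one])) hi (Nat.odd_iff.2 (Nat.two_dvd_ne_zero.1 hodd))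
    refine h2 ((x : G) ^ 2 ^ k) (C.pow_mem (hEC x.2) _) ?_ g hg
    rw [orderOf_pow_of_dvd (by positivity) (by rw [hx]; exact pow_dvd_pow 2 (Nat.le_succ k)),
      hx, pow_succ, Nat.mul_div_cancel_left _ (by positivity)]
  refine ⟨K, hKn, ?_, fun T' hT'L hT'2 hT'i => ⟨hT'L.trans hLK, ?_⟩⟩
  · rw [eq_top_iff, ← pResidual_sup_eq_top (p := 2) hSsyl, ← hTD]
    exact sup_le le_sup_left (sup_le_sup_right hTK D)
  · have hc : Nat.card T' = Nat.card T := by
      obtain ⟨R, hR⟩ := exists_sylow_subgroupOf hT2 hTsyl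
      obtain ⟨R', hR'⟩ := exists_sylow_subgroupOf hT'2 hT'i
      rw [← Nat.card_congr (subgroupOfEquivOfLe hTL).toEquiv,
        ← Nat.card_congr (subgroupOfEquivOfLe hT'L).toEquiv, ← hR, ← hR',
        Sylow.card_eq_multiplicity, Sylow.card_eq_multiplicity]
    have h4 := relIndex_mul_card_of_le (hT'L.trans hLK)
    rw [← hKc, ← hcard, hE, mul_one, hc] at h4
    rwa [Nat.eq_of_mul_eq_mul_right Nat.card_pos h4]

end Cfsg.Agent.S1924
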