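import Cfsg.Statements.S1935
import Cfsg.Agent.Lib.Push.StrEmb

set_option autoImplicit false
open Cfsg

namespace Cfsg.Agent.S1935

set_option linter.unusedSectionVars false
set_option linter.style.haveILetI false

open Subgroup CfsgLib Polynomial
open scoped commutatorElement

section Lim
variable {R : Type*} [Ring R]

/-- the formal unipotent element `1 + β X` -/
noncomputable def uu (β : R) : R[X] := 1 + C β * X

theorem uu_mul {β : R} (h : β * β = 0) : uu β * uu (-β) = 1 := by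
  have e : (C β * X) * (C β * X) = (0 : R[X]) := by
    rw [mul_assoc, ← mul_assoc X, X_mul_C, ← mul_assoc, ← mul_assoc, ← C_mul, h]; simp
  rw [uu, uu, C_neg, neg_mul, ← sub_eq_add_neg, mul_sub, add_mul, add_mul, e]; simp

theorem uu_mul' {β : R} (h : β * β = 0) : uu (-β) * uu β = 1 := by
  have := uu_mul (β := -β) (by rw [neg_mul_neg, h])
  rwa [neg_neg] at this

theorem uu_conj (β : R) (f : R[X]) : uu β * f * uu (-β) =
    f + (C β * f - f * C β) * X - C β * f * C β * X * X := by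
  have e1 : C β * X * f = C β * f * X := by rw [mul_assoc, X_mul, ← mul_assoc]
  have e2 : C β * f * X * (C β * X) = C β * f * C β * X * X := by
    rw [mul_assoc (C β * f), ← mul_assoc X, X_mul_C]; simp only [mul_assoc]
  rw [uu, uu, C_neg, neg_mul, ← sub_eq_add_neg, add_mul, one_mul, e1, mul_sub, mul_one, add_mul,
    e2, sub_mul, ← mul_assoc f]
  abel

theorem coeff_conj (β : R) (f : R[X]) {K : AddSubgroup R} (hf : ∀ n, f.coeff n ∈ K) (d : ℕ) :
    ∃ a₀ ∈ K, ∃ a₁ ∈ K, ∃ a₂ ∈ K,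
      (uu β * f * uu (-β)).coeff d = a₀ + (β * a₁ - a₁ * β) - β * a₂ * β := by
  rw [uu_conj]
  rcases d with _ | _ | d
  · exact ⟨_, hf 0, 0, zero_mem _, 0, zero_mem _, by simp⟩
  · exact ⟨_, hf 1, _, hf 0, 0, zero_mem _, by simp [coeff_mul_X, coeff_C_mul, coeff_mul_C]⟩
  · exact ⟨_, hf (d + 2), _, hf (d + 1), _, hf d, by
      simp only [coeff_sub, coeff_add, coeff_mul_X, coeff_C_mul, coeff_mul_C]⟩

/-- polynomial sections -/
def PM (β : R) (K : AddSubgroup R) : AddSubgroup R[X] where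
  carrier := {g | ∀ n, (uu (-β) * g * uu β).coeff n ∈ K}
  zero_mem' := fun n => by simp
  add_mem' := fun {f g} hf hg n => by
    rw [mul_add, add_mul, coeff_add]; exact add_mem (hf n) (hg n)
  neg_mem' := fun {f} hf n => by
    rw [mul_neg, neg_mul, coeff_neg]; exact neg_mem (hf n)

theorem PM_X {β : R} {K : AddSubgroup R} {g : R[X]} (hg : g ∈ PM β K) (k : ℕ) :
    g * X ^ k ∈ PM β K := fun n => by
  have e : uu (-β) * (g * X ^ k) * uu β = uu (-β) * g * uu β * X ^ k := by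
    simp only [mul_assoc]; rw [X_pow_mul]
  rw [e, coeff_mul_X_pow']
  split_ifs
  · exact hg _
  · exact zero_mem _

theorem PM_of {β : R} (h : β * β = 0) {K : AddSubgroup R} {f : R[X]} (hf : ∀ n, f.coeff n ∈ K) :
    uu β * f * uu (-β) ∈ PM β K := fun n => by
  have e : uu (-β) * (uu β * f * uu (-β)) * uu β =
      (uu (-β) * uu β) * f * (uu (-β) * uu β) := by simp only [mul_assoc]
  rw [e, uu_mul' h, one_mul, mul_one]
  exact hf n

theorem PM_eq {β : R} (h : β * β = 0) (g : R[X]) :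
    g = uu β * (uu (-β) * g * uu β) * uu (-β) := by
  have e : uu β * (uu (-β) * g * uu β) * uu (-β) =
      (uu β * uu (-β)) * g * (uu β * uu (-β)) := by simp only [mul_assoc]
  rw [e, uu_mul h, one_mul, mul_one]

theorem PM_inv {β : R} {K : AddSubgroup R} (h1 : ∀ a ∈ K, β * a - a * β ∈ K)
    (h2 : ∀ a ∈ K, β * a * β ∈ K) {f : R[X]} (hf : ∀ n, f.coeff n ∈ K) : f ∈ PM β K := fun n => by
  obtain ⟨a₀, h₀, a₁, h₁, a₂, h₂, e⟩ := coeff_conj (-β) f hf n
  rw [neg_neg] at e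
  rw [e]
  refine sub_mem (add_mem h₀ ?_) ?_
  · have := neg_mem (h1 a₁ h₁)
    convert this using 1
    simp only [neg_mul, mul_neg]; abel
  · simpa using h2 a₂ h₂

/-- the limit subgroup -/
def Lim (β : R) (K : AddSubgroup R) : AddSubgroup R where
  carrier := {c | ∃ d, ∃ g ∈ PM β K, g.natDegree ≤ d ∧ g.coeff d = c}
  zero_mem' := ⟨0, 0, zero_mem _, by simp, by simp⟩
  add_mem' := by
    rintro _ _ ⟨d, g, hg, h1, rfl⟩ ⟨e, f, hf, h2, rfl⟩
    refine ⟨d + e, g * X ^ e + f * X ^ d, add_mem (PM_X hg e) (PM_X hf d), ?_, ?_⟩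
    · refine (natDegree_add_le _ _).trans (max_le (natDegree_mul_le.trans ?_)
        (natDegree_mul_le.trans ?_))
      · exact Nat.add_le_add h1 (natDegree_X_pow_le e)
      · rw [add_comm d]; exact Nat.add_le_add h2 (natDegree_X_pow_le d)
    · rw [coeff_add, coeff_mul_X_pow, add_comm d e, coeff_mul_X_pow]
  neg_mem' := by
    rintro _ ⟨d, g, hg, h1, rfl⟩
    exact ⟨d, -g, neg_mem hg, by simpa using h1, by simp⟩

theorem lim_mono {β : R} {K K' : AddSubgroup R} (h : K ≤ K') : Lim β K ≤ Lim β K' := by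
  rintro _ ⟨d, g, hg, h1, rfl⟩
  exact ⟨d, g, fun n => h (hg n), h1, rfl⟩

theorem lim_form {β : R} (h : β * β = 0) {K : AddSubgroup R} {c : R} (hc : c ∈ Lim β K) :
    ∃ a₀ ∈ K, ∃ a₁ ∈ K, ∃ a₂ ∈ K, c = a₀ + (β * a₁ - a₁ * β) - β * a₂ * β := by
  obtain ⟨d, g, hg, -, rfl⟩ := hc
  rw [PM_eq h g]
  exact coeff_conj β _ hg d

theorem lim_mul {β : R} (h : β * β = 0) {K K' : AddSubgroup R}
    (hK : ∀ a ∈ K, ∀ b ∈ K', a * b = 0) {c c' : R} (hc : c ∈ Lim β K) (hc' : c' ∈ Lim β K') :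
    c * c' = 0 := by
  obtain ⟨d, g, hg, h1, rfl⟩ := hc
  obtain ⟨e, f, hf, h2, rfl⟩ := hc'
  have h0 : (uu (-β) * g * uu β) * (uu (-β) * f * uu β) = 0 := by
    ext n
    rw [coeff_mul, coeff_zero]
    exact Finset.sum_eq_zero fun x _ => hK _ (hg _) _ (hf _)
  have h3 : g * f = 0 := by
    have e1 : uu (-β) * (g * f) * uu β = (uu (-β) * g * uu β) * (uu (-β) * f * uu β) := by
      have : (uu (-β) * g * uu β) * (uu (-β) * f * uu β) =
          uu (-β) * (g * (uu β * uu (-β)) * f) * uu β := by simp only [mul_assoc]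
      rw [this, uu_mul h, mul_one]
    rw [PM_eq h (g * f), e1, h0, mul_zero, zero_mul]
  rw [← coeff_mul_add_eq_of_natDegree_le h1 h2, h3, coeff_zero]

theorem le_lim {β : R} {K : AddSubgroup R} (h1 : ∀ a ∈ K, β * a - a * β ∈ K)
    (h2 : ∀ a ∈ K, β * a * β ∈ K) : K ≤ Lim β K := fun a ha =>
  ⟨0, C a, PM_inv h1 h2 fun n => by
    rw [coeff_C]; split_ifs
    exacts [ha, zero_mem _], by simp, by simp⟩

theorem natDegree_conj (β : R) {f : R[X]} {d : ℕ} (hf : f.natDegree ≤ d) :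
    (uu β * f * uu (-β)).natDegree ≤ d + 2 := by
  have hu : ∀ γ : R, (uu γ).natDegree ≤ 1 := fun γ =>
    (natDegree_add_le _ _).trans (max_le (by simp) ((natDegree_C_mul_le _ _).trans natDegree_X_le))
  have := natDegree_mul_le (p := uu β * f) (q := uu (-β))
  have := natDegree_mul_le (p := uu β) (q := f)
  have := hu β
  have := hu (-β)
  omega

theorem mem_lim2 {β : R} (h : β * β = 0) {K : AddSubgroup R} {a : R} (ha : a ∈ K) :
    -(β * a * β) ∈ Lim β K := by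
  refine ⟨2, uu β * C a * uu (-β), PM_of h fun n => ?_, natDegree_conj β (by simp), ?_⟩
  · rw [coeff_C]; split_ifs
    exacts [ha, zero_mem _]
  · rw [uu_conj]
    simp only [coeff_sub, coeff_add, coeff_mul_X, coeff_C_mul, coeff_mul_C, coeff_C]
    simp

theorem mem_lim1 {β : R} (h : β * β = 0) {K K' : AddSubgroup R} (hK : K' ≤ K)
    (h1 : ∀ a ∈ K', β * a - a * β ∈ K') (h2 : ∀ a ∈ K', β * a * β ∈ K') {a : R} (ha : a ∈ K)
    (ha' : β * a * β ∈ K') : β * a - a * β ∈ Lim β K := by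
  have hC : ∀ {L : AddSubgroup R} {x : R}, x ∈ L → ∀ n, (C x).coeff n ∈ L := fun hx n => by
    rw [coeff_C]; split_ifs
    exacts [hx, zero_mem _]
  have hm : uu β * C a * uu (-β) + C (β * a * β) * X ^ 2 ∈ PM β K :=
    add_mem (PM_of h (hC ha)) (PM_X (fun n => hK (PM_inv h1 h2 (hC ha') n)) 2)
  have e : uu β * C a * uu (-β) + C (β * a * β) * X ^ 2 = C a + C (β * a - a * β) * X := by
    rw [uu_conj, pow_two, ← mul_assoc]
    simp only [C_sub, C_mul]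
    abel
  rw [e] at hm
  refine ⟨1, _, hm, ?_, ?_⟩
  · exact (natDegree_add_le _ _).trans (max_le (by simp)
      ((natDegree_C_mul_le _ _).trans natDegree_X_le))
  · simp [coeff_C]

theorem pow_aux (l d : ℕ) : l ^ d * (l + d) ≤ (l + 1) ^ d * l := by
  induction d with
  | zero => simp
  | succ d ih =>
    calc l ^ (d + 1) * (l + (d + 1)) = l ^ d * (l * (l + d + 1)) := by ring
      _ ≤ l ^ d * ((l + d) * (l + 1)) := Nat.mul_le_mul_left _ (by nlinarith)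
      _ = l ^ d * (l + d) * (l + 1) := by ring
      _ ≤ (l + 1) ^ d * l * (l + 1) := Nat.mul_le_mul_right _ ih
      _ = _ := by ring

theorem card_lim [Finite R] {β : R} (h : β * β = 0) (K : AddSubgroup R) :
    Nat.card K ≤ Nat.card (Lim β K) := by
  let P : ℕ → AddSubgroup R[X] := fun d => PM β K ⊓ (degreeLT R d).toAddSubgroup
  have hfin : ∀ d, Finite (P d) := fun d => by
    have : Finite (degreeLT R d) := Finite.of_equiv _ (degreeLTEquiv R d).toEquiv.symm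
    exact Finite.of_injective (fun x : P d => (⟨x.1, x.2.2⟩ : degreeLT R d))
      fun x y hxy => Subtype.ext (Subtype.mk.inj hxy)
  have h1 : ∀ d, Nat.card (P d) ≤ Nat.card (Lim β K) ^ d := by
    intro d
    induction d with
    | zero =>
      have : Subsingleton (P 0) := ⟨fun x y => Subtype.ext (by
        have hx : (x : R[X]) = 0 := by simpa [mem_degreeLT] using x.2.2
        have hy : (y : R[X]) = 0 := by simpa [mem_degreeLT] using y.2.2
        rw [hx, hy])⟩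
      simpa using Finite.card_le_one_iff_subsingleton.2 this
    | succ d ih =>
      have := hfin (d + 1)
      have := hfin d
      let φ : P (d + 1) →+ R := (lcoeff R d).toAddMonoidHom.comp (P (d + 1)).subtype
      have c1 : Nat.card (P (d + 1)) = Nat.card φ.range * Nat.card φ.ker := by
        rw [AddSubgroup.card_eq_card_quotient_mul_card_addSubgroup φ.ker,
          Nat.card_congr (QuotientAddGroup.quotientKerEquivRange φ).toEquiv]
      have c2 : Nat.card φ.range ≤ Nat.card (Lim β K) := by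
        refine AddSubgroup.card_le_of_le ?_
        rintro _ ⟨x, rfl⟩
        refine ⟨d, x.1, x.2.1, ?_, rfl⟩
        have := mem_degreeLT.1 x.2.2
        exact natDegree_le_iff_coeff_eq_zero.2 fun m hm =>
          (degree_lt_iff_coeff_zero _ _).1 this m hm
      have c3 : Nat.card φ.ker ≤ Nat.card (P d) := by
        refine Nat.card_le_card_of_injective (fun x : φ.ker => (⟨x.1.1, x.1.2.1, ?_⟩ : P d))
          fun x y hxy => Subtype.ext (Subtype.ext (Subtype.mk.inj hxy))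
        have h2 := mem_degreeLT.1 x.1.2.2
        have h3 : x.1.1.coeff d = 0 := x.2
        refine mem_degreeLT.2 ((degree_lt_iff_coeff_zero _ _).2 fun m hm => ?_)
        rcases hm.eq_or_lt with rfl | hm
        · exact h3
        · exact (degree_lt_iff_coeff_zero _ _).1 h2 m hm
      rw [c1, pow_succ']
      exact Nat.mul_le_mul c2 (c3.trans ih)
  have h2 : ∀ d, Nat.card K ^ d ≤ Nat.card (P (d + 3)) := by
    intro d
    have := hfin (d + 3)
    let F : (Fin d → K) → R[X] := fun f => ((degreeLTEquiv R d).symm fun i => (f i : R)).1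
    have hF : ∀ f (i : Fin d), (F f).coeff i = f i := fun f i =>
      congrFun ((degreeLTEquiv R d).apply_symm_apply fun i => (f i : R)) i
    have hF' : ∀ f, (F f).degree < d := fun f => mem_degreeLT.1 (Subtype.prop _)
    have hK : ∀ f n, (F f).coeff n ∈ K := fun f n => by
      by_cases hn : n < d
      · have := hF f ⟨n, hn⟩
        rw [show (F f).coeff n = f ⟨n, hn⟩ from this]; exact Subtype.prop _
      · rw [(degree_lt_iff_coeff_zero _ _).1 (hF' f) n (not_lt.1 hn)]; exact zero_mem _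
    have hd : ∀ f, uu β * F f * uu (-β) ∈ degreeLT R (d + 3) := fun f => by
      refine mem_degreeLT.2 (degree_le_natDegree.trans_lt ?_)
      have := natDegree_conj β (natDegree_le_iff_degree_le.2 (hF' f).le)
      exact_mod_cast (by omega : _ < d + 3)
    rw [← Nat.card_fin d, ← Nat.card_fun, Nat.card_fin]
    refine Nat.card_le_card_of_injective
      (fun f : Fin d → K => (⟨uu β * F f * uu (-β), PM_of h (hK f), hd f⟩ : P (d + 3)))
      fun f g hfg => ?_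
    have e1 : uu β * F f * uu (-β) = uu β * F g * uu (-β) := congrArg Subtype.val hfg
    have e2 : F f = F g := by
      have e : ∀ q : R[X], q = uu (-β) * (uu β * q * uu (-β)) * uu β := fun q => by
        have := PM_eq (β := -β) (by rw [neg_mul_neg, h]) q
        rwa [neg_neg] at this
      rw [e (F f), e1, ← e]
    funext i
    exact Subtype.ext (by rw [← hF, ← hF, e2])
  by_contra! hlt
  set l := Nat.card (Lim β K) with hl
  have hpos : 0 < l := Nat.card_pos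
  have h3 := (Nat.pow_le_pow_left hlt (l ^ 4)).trans ((h2 _).trans (h1 _))
  have h4 := (pow_aux l (l ^ 4)).trans (Nat.mul_le_mul_right l h3)
  have h5 : l ^ (l ^ 4) * (l + l ^ 4) ≤ l ^ (l ^ 4) * l ^ 4 := h4.trans (le_of_eq (by ring))
  have := Nat.le_of_mul_le_mul_left h5 (pow_pos hpos _)
  omega

theorem exp3 {x y z : R} (xx : x * x = 0) (yy : y * y = 0) (zz : z * z = 0)
    (xyx : x * (y * x) = 0) (xzx : x * (z * x) = 0) (yxy : y * (x * y) = 0) (yzy : y * (z * y) = 0)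
    (zxz : z * (x * z) = 0) (zyz : z * (y * z) = 0)
    (xyzx : x * (y * (z * x)) = 0) (xzyx : x * (z * (y * x)) = 0)
    (yxzy : y * (x * (z * y)) = 0) (yzxy : y * (z * (x * y)) = 0)
    (zxyz : z * (x * (y * z)) = 0) (zyxz : z * (y * (x * z)) = 0) :
    (1 + (6 : ℤ) • x) * (1 + (6 : ℤ) • y) * (1 + (6 : ℤ) • z) *
      ((1 + (-18 : ℤ) • (x * y - y * x)) * (1 + (-18 : ℤ) • (x * z - z * x)) *
        (1 + (-18 : ℤ) • (y * z - z * y)) *
        (1 + (-72 : ℤ) • ((x * y - y * x) * z - z * (x * y - y * x))) *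
        (1 + (-72 : ℤ) • ((x * z - z * x) * y - y * (x * z - z * x)))) =
      1 + (6 : ℤ) • (x + y + z) + (18 : ℤ) • ((x + y + z) * (x + y + z)) +
        (36 : ℤ) • ((x + y + z) * ((x + y + z) * (x + y + z))) := by
  have t2 : ∀ {a : R}, a * a = 0 → ∀ w, a * (a * w) = 0 := fun h w => by
    rw [← mul_assoc, h, zero_mul]
  have t3 : ∀ {a b : R}, a * (b * a) = 0 → ∀ w, a * (b * (a * w)) = 0 := fun {a b} h w => by
    rw [← mul_assoc b, ← mul_assoc, h, zero_mul]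
  have t4 : ∀ {a b c : R}, a * (b * (c * a)) = 0 → ∀ w, a * (b * (c * (a * w))) = 0 :=
    fun {a b c} h w => by rw [← mul_assoc c, ← mul_assoc b, ← mul_assoc, h, zero_mul]
  simp only [mul_add, add_mul, mul_sub, sub_mul, mul_one, one_mul, smul_mul_assoc, mul_smul_comm,
    mul_assoc, xx, yy, zz, xyx, xzx, yxy, yzy, zxz, zyz, xyzx, xzyx, yxzy, yzxy, zxyz, zyxz,
    t2 xx, t2 yy, t2 zz, t3 xyx, t3 xzx, t3 yxy, t3 yzy, t3 zxz, t3 zyz,
    t4 xyzx, t4 xzyx, t4 yxzy, t4 yzxy, t4 zxyz, t4 zyxz, mul_zero, smul_zero, add_zero, zero_add,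
    sub_zero, sub_self, zero_sub, smul_add, smul_sub, smul_neg, neg_zero, mul_neg, neg_mul]
  module

end Lim

section Grp
variable {R : Type*} [Ring R] {Γ : Type*} [Group Γ] (ρ : Γ →* R)

/-- quadratic subgroups -/
def Quad (A : Subgroup Γ) : Prop := ∀ a ∈ A, ∀ b ∈ A, (ρ a - 1) * (ρ b - 1) = 0

/-- the logarithm of a quadratic subgroup -/
def lg (A : Subgroup Γ) : AddSubgroup R := AddSubgroup.closure {x | ∃ a ∈ A, ρ a = 1 + x}

variable {ρ}

theorem Quad.mono {A B : Subgroup Γ} (h : Quad ρ A) (hB : B ≤ A) : Quad ρ B :=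
  fun a ha b hb => h a (hB ha) b (hB hb)

theorem Quad.mul {A : Subgroup Γ} (h : Quad ρ A) {a b : Γ} (ha : a ∈ A) (hb : b ∈ A) {x y : R}
    (hx : ρ a = 1 + x) (hy : ρ b = 1 + y) : x * y = 0 := by
  have := h a ha b hb
  rwa [hx, hy, add_sub_cancel_left, add_sub_cancel_left] at this

theorem rho_inv {a : Γ} {x : R} (hx : ρ a = 1 + x) (h : x * x = 0) : ρ a⁻¹ = 1 + -x := by
  have e : (1 + x) * (1 + -x) = 1 := by rw [mul_add, mul_one, mul_neg, add_mul, h]; simp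
  rw [← mul_one (ρ a⁻¹), ← e, ← mul_assoc, ← hx, ← map_mul, inv_mul_cancel, map_one, one_mul,
    hx, e]

theorem rho_mul {a b : Γ} {x y : R} (hx : ρ a = 1 + x) (hy : ρ b = 1 + y) (h : x * y = 0) :
    ρ (a * b) = 1 + (x + y) := by
  rw [map_mul, hx, hy, mul_add, mul_one, add_mul, one_mul, h, add_zero, add_assoc]

theorem rho_zpow {a : Γ} {x : R} (hx : ρ a = 1 + x) (h : x * x = 0) (k : ℤ) :
    ρ (a ^ k) = 1 + k • x := by
  induction k using Int.induction_on with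
  | zero => simp
  | succ n ih =>
    rw [zpow_add_one, rho_mul ih hx (by rw [smul_mul_assoc, h, smul_zero]), add_smul, one_smul]
  | pred n ih =>
    rw [zpow_sub_one, rho_mul ih (rho_inv hx h) (by rw [smul_mul_assoc, mul_neg, h]; simp),
      sub_smul, one_smul, sub_eq_add_neg]

theorem mem_lg {A : Subgroup Γ} (h : Quad ρ A) {x : R} : x ∈ lg ρ A ↔ ∃ a ∈ A, ρ a = 1 + x := by
  refine ⟨fun hx => ?_, fun hx => AddSubgroup.subset_closure hx⟩
  induction hx using AddSubgroup.closure_induction with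
  | mem x hx => exact hx
  | zero => exact ⟨1, one_mem _, by simp⟩
  | add x y _ _ hx hy =>
    obtain ⟨a, ha, hx⟩ := hx
    obtain ⟨b, hb, hy⟩ := hy
    exact ⟨a * b, mul_mem ha hb, rho_mul hx hy (h.mul ha hb hx hy)⟩
  | neg x _ hx =>
    obtain ⟨a, ha, hx⟩ := hx
    exact ⟨a⁻¹, inv_mem ha, rho_inv hx (h.mul ha ha hx hx)⟩

theorem lg_mono {A B : Subgroup Γ} (h : A ≤ B) : lg ρ A ≤ lg ρ B :=
  AddSubgroup.closure_mono fun _ ⟨a, ha, e⟩ => ⟨a, h ha, e⟩

theorem lg_mul {A : Subgroup Γ} (h : Quad ρ A) {x y : R} (hx : x ∈ lg ρ A) (hy : y ∈ lg ρ A) :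
    x * y = 0 := by
  obtain ⟨a, ha, hx⟩ := (mem_lg h).1 hx
  obtain ⟨b, hb, hy⟩ := (mem_lg h).1 hy
  exact h.mul ha hb hx hy

/-- mutually normalizing -/
def MN (A B : Subgroup Γ) : Prop := ∀ a ∈ A, ∀ b ∈ B, ⁅a, b⁆ ∈ A ∧ ⁅a, b⁆ ∈ B

theorem MN.symm {A B : Subgroup Γ} (h : MN A B) : MN B A := fun b hb a ha => by
  rw [← commutatorElement_inv]
  exact ⟨inv_mem (h a ha b hb).2, inv_mem (h a ha b hb).1⟩

theorem rho_comm {A B : Subgroup Γ} (hA : Quad ρ A) (hB : Quad ρ B) (h : MN A B) {a b : Γ}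
    (ha : a ∈ A) (hb : b ∈ B) {x y : R} (hx : ρ a = 1 + x) (hy : ρ b = 1 + y) :
    ρ ⁅a, b⁆ = 1 + (x * y - y * x) := by
  have hw : ρ ⁅a, b⁆ = 1 + (ρ ⁅a, b⁆ - 1) := by abel
  set w := ρ ⁅a, b⁆ - 1
  have e : ρ (a * b) = ρ (⁅a, b⁆ * b * a) := by rw [commutatorElement_def]; group
  rw [map_mul _ _ a, rho_mul hw hy (hB.mul (h a ha b hb).2 hb hw hy), map_mul, hx, hy] at e
  have h1 := hA.mul (h a ha b hb).1 ha hw hx
  simp only [mul_add, add_mul, mul_one, one_mul, h1] at e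
  rw [hw]
  congr 1
  rw [eq_sub_iff_add_eq]
  have : 1 + y + x + (w + y * x) = 1 + y + x + x * y := by
    rw [show 1 + y + x + x * y = 1 + x + (y + x * y) by abel, e]; abel
  exact add_left_cancel this

theorem lg_br {A B : Subgroup Γ} (hA : Quad ρ A) (hB : Quad ρ B) (h : MN A B) {x y : R}
    (hx : x ∈ lg ρ A) (hy : y ∈ lg ρ B) : x * y - y * x ∈ lg ρ A := by
  obtain ⟨a, ha, hx⟩ := (mem_lg hA).1 hx
  obtain ⟨b, hb, hy⟩ := (mem_lg hB).1 hy
  exact (mem_lg hA).2 ⟨_, (h a ha b hb).1, rho_comm hA hB h ha hb hx hy⟩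

theorem lg3 {A B : Subgroup Γ} (hA : Quad ρ A) (hB : Quad ρ B) (h : MN A B) {x x' y : R}
    (hx : x ∈ lg ρ A) (hx' : x' ∈ lg ρ A) (hy : y ∈ lg ρ B) : x * (y * x') = 0 := by
  have := lg_mul hA hx (lg_br hA hB h hx' hy)
  rwa [mul_sub, ← mul_assoc, lg_mul hA hx hx', zero_mul, zero_sub, neg_eq_zero] at this

theorem lg4 {A B C : Subgroup Γ} (hA : Quad ρ A) (hB : Quad ρ B) (hC : Quad ρ C) (h : MN A B)
    (h' : MN A C) {x y z : R} (hx : x ∈ lg ρ A) (hy : y ∈ lg ρ B) (hz : z ∈ lg ρ C) :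
    x * (y * (z * x)) = 0 := by
  have := lg3 hA hB h hx (lg_br hA hC h' hx hz) hy
  rwa [mul_sub, mul_sub, ← mul_assoc y, ← mul_assoc x, lg3 hA hB h hx hx hy, zero_mul, zero_sub,
    neg_eq_zero] at this

theorem exp_mem {m : ℤ} (hm : ∀ r : R, (6 : ℤ) • m • r = r) {A B C N N' : Subgroup Γ}
    [hN : N.Normal] (hNN : ∀ n ∈ N, ∀ g, ⁅n, g⁆ ∈ N')
    (hA : Quad ρ A) (hB : Quad ρ B) (hC : Quad ρ C) (hAB : MN A B) (hAC : MN A C) (hBC : MN B C)
    {a b c : Γ} (ha : a ∈ A) (hb : b ∈ B) (hc : c ∈ C) (haN : a ∈ N) (hbN : b ∈ N)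
    {x y z : R} (hx : ρ a = 1 + x) (hy : ρ b = 1 + y) (hz : ρ c = 1 + z)
    (hs : (x + y + z) * (x + y + z) = 0) : ∃ n ∈ N', ρ (a * b * c * n) = 1 + (x + y + z) := by
  have cN : ∀ {n : Γ}, n ∈ N → ∀ g, ⁅n, g⁆ ∈ N := fun {n} hn g => by
    have := N.mul_mem hn (hN.conj_mem _ (N.inv_mem hn) g)
    simpa [commutatorElement_def, mul_assoc] using this
  have ha' := rho_zpow hx (hA.mul ha ha hx hx) m
  have hb' := rho_zpow hy (hB.mul hb hb hy hy) m
  have hc' := rho_zpow hz (hC.mul hc hc hz hz) m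
  have ma := A.zpow_mem ha m
  have mb := B.zpow_mem hb m
  have mc := C.zpow_mem hc m
  have na := N.zpow_mem haN m
  have nb := N.zpow_mem hbN m
  have lx := (mem_lg hA).2 ⟨_, ma, ha'⟩
  have ly := (mem_lg hB).2 ⟨_, mb, hb'⟩
  have lz := (mem_lg hC).2 ⟨_, mc, hc'⟩
  have c1 := rho_comm hA hB hAB ma mb ha' hb'
  have c2 := rho_comm hA hC hAC ma mc ha' hc'
  have c3 := rho_comm hB hC hBC mb mc hb' hc'
  have m1 := (hAB _ ma _ mb).1
  have m2 := (hAC _ ma _ mc).1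
  have m3 := (hBC _ mb _ mc).1
  have c4 := rho_comm hA hC hAC m1 mc c1 hc'
  have c5 := rho_comm hA hB hAB m2 mb c2 hb'
  have m4 := (hAC _ m1 _ mc).1
  have m5 := (hAB _ m2 _ mb).1
  refine ⟨⁅a ^ m, b ^ m⁆ ^ (-18 : ℤ) * ⁅a ^ m, c ^ m⁆ ^ (-18 : ℤ) * ⁅b ^ m, c ^ m⁆ ^ (-18 : ℤ) *
    ⁅⁅a ^ m, b ^ m⁆, c ^ m⁆ ^ (-72 : ℤ) * ⁅⁅a ^ m, c ^ m⁆, b ^ m⁆ ^ (-72 : ℤ),
    mul_mem (mul_mem (mul_mem (mul_mem (zpow_mem (hNN _ na _) _) (zpow_mem (hNN _ na _) _))
      (zpow_mem (hNN _ nb _) _)) (zpow_mem (hNN _ (cN na _) _) _)) (zpow_mem (hNN _ (cN na _) _) _),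
    ?_⟩
  have key := exp3 (lg_mul hA lx lx) (lg_mul hB ly ly) (lg_mul hC lz lz)
    (lg3 hA hB hAB lx lx ly) (lg3 hA hC hAC lx lx lz) (lg3 hB hA hAB.symm ly ly lx)
    (lg3 hB hC hBC ly ly lz) (lg3 hC hA hAC.symm lz lz lx) (lg3 hC hB hBC.symm lz lz ly)
    (lg4 hA hB hC hAB hAC lx ly lz) (lg4 hA hC hB hAC hAB lx lz ly)
    (lg4 hB hA hC hAB.symm hBC ly lx lz) (lg4 hB hC hA hBC hAB.symm ly lz lx)
    (lg4 hC hA hB hAC.symm hBC.symm lz lx ly) (lg4 hC hB hA hBC.symm hAC.symm lz ly lx)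
  have hs' : (m • x + m • y + m • z) * (m • x + m • y + m • z) = 0 := by
    rw [← smul_add, ← smul_add, smul_mul_assoc, mul_smul_comm, hs, smul_zero, smul_zero]
  rw [hs', mul_zero, smul_zero, smul_zero, add_zero, add_zero, smul_add, smul_add, hm, hm, hm]
    at key
  simp only [map_mul]
  rw [hx, hy, hz, rho_zpow c1 (hA.mul m1 m1 c1 c1), rho_zpow c2 (hA.mul m2 m2 c2 c2),
    rho_zpow c3 (hB.mul m3 m3 c3 c3), rho_zpow c4 (hA.mul m4 m4 c4 c4),
    rho_zpow c5 (hA.mul m5 m5 c5 c5), key]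

/-- conjugate subgroup -/
def cj (g : Γ) (A : Subgroup Γ) : Subgroup Γ := A.map (MulAut.conj g).toMonoidHom

theorem Quad.cj {A : Subgroup Γ} (h : Quad ρ A) (g : Γ) : Quad ρ (cj g A) := by
  rintro _ ⟨a, ha, rfl⟩ _ ⟨b, hb, rfl⟩
  have e : ∀ c : Γ, ρ ((MulAut.conj g).toMonoidHom c) - 1 = ρ g * (ρ c - 1) * ρ g⁻¹ := fun c => by
    rw [mul_sub, sub_mul, mul_one, ← map_mul, ← map_mul, ← map_mul, mul_inv_cancel, map_one]; rfl
  rw [e, e, mul_assoc, ← mul_assoc (ρ g⁻¹), ← mul_assoc (ρ g⁻¹), ← map_mul, inv_mul_cancel,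
    map_one, one_mul, mul_assoc, ← mul_assoc (ρ a - 1), h a ha b hb, zero_mul, mul_zero]

theorem mn_cj {A H : Subgroup Γ} (hH : ∀ h ∈ H, ∀ a ∈ A, ∀ c ∈ A, h * a * h⁻¹ * c * (h * a * h⁻¹)⁻¹ ∈ A)
    {g k : Γ} (hg : g ∈ H) (hk : k ∈ H) : MN (cj g A) (cj k A) := by
  rintro _ ⟨a, ha, rfl⟩ _ ⟨c, hc, rfl⟩
  constructor
  · refine ⟨_, mul_mem ha (hH _ (mul_mem (inv_mem hg) hk) c hc _ (inv_mem ha)), ?_⟩
    simp only [MulEquiv.coe_toMonoidHom, MulAut.conj_apply, commutatorElement_def]; group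
  · refine ⟨_, mul_mem (hH _ (mul_mem (inv_mem hk) hg) a ha _ hc) (inv_mem hc), ?_⟩
    simp only [MulEquiv.coe_toMonoidHom, MulAut.conj_apply, commutatorElement_def]; group

theorem rho_conj {b a : Γ} {β x : R} (hb : ρ b = 1 + β) (hβ : β * β = 0) (hx : ρ a = 1 + x) :
    ρ (b * a * b⁻¹) = 1 + (x + (β * x - x * β) - β * x * β) := by
  rw [map_mul, map_mul, rho_inv hb hβ, hb, hx]
  simp only [mul_add, add_mul, mul_one, one_mul, mul_neg, hβ]
  abel

theorem lim_mem {m : ℤ} (hm : ∀ r : R, (6 : ℤ) • m • r = r) (hρ : Function.Injective ρ)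
    {A H N N' : Subgroup Γ} [hN : N.Normal] [hN' : N'.Normal] (hNN : ∀ n ∈ N, ∀ g, ⁅n, g⁆ ∈ N')
    (hN'N : N' ≤ N) (hA : Quad ρ A)
    (hH : ∀ h ∈ H, ∀ a ∈ A, ∀ c ∈ A, h * a * h⁻¹ * c * (h * a * h⁻¹)⁻¹ ∈ A)
    {b : Γ} (hbH : b ∈ H) {β : R} (hb : ρ b = 1 + β) (hβ : β * β = 0)
    {a₀ a₁ a₂ c : R} (h₀ : a₀ ∈ lg ρ (A ⊓ N)) (h₁ : a₁ ∈ lg ρ (A ⊓ N)) (h₂ : a₂ ∈ lg ρ (A ⊓ N))
    (hc : c = a₀ + (β * a₁ - a₁ * β) - β * a₂ * β) (hcc : c * c = 0) :
    ∃ g ∈ N, ρ g = 1 + c ∧ (a₀ = 0 → g ∈ N') := by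
  have hAN : Quad ρ (A ⊓ N) := hA.mono inf_le_left
  obtain ⟨y, hy, z, hz, e1, e2⟩ : ∃ y ∈ lg ρ (A ⊓ N), ∃ z ∈ lg ρ (A ⊓ N),
      y + z = a₂ ∧ y - z = a₁ := by
    refine ⟨(3 : ℤ) • m • (a₂ + a₁), zsmul_mem (zsmul_mem (add_mem h₂ h₁) _) _,
      (3 : ℤ) • m • (a₂ - a₁), zsmul_mem (zsmul_mem (sub_mem h₂ h₁) _) _, ?_, ?_⟩
    · rw [← hm a₂]; rw [hm]; conv_rhs => rw [← hm a₂]
      module
    · conv_rhs => rw [← hm a₁]
      module
  obtain ⟨u, hu, hux⟩ := (mem_lg hAN).1 (sub_mem h₀ h₂)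
  obtain ⟨v, hv, hvy⟩ := (mem_lg hAN).1 hy
  obtain ⟨w, hw, hwz⟩ := (mem_lg hAN).1 hz
  have r1 := rho_conj hb hβ hvy
  have r2 := rho_conj (rho_inv hb hβ) (by rw [neg_mul_neg, hβ]) hwz
  have es : a₀ - a₂ + (y + (β * y - y * β) - β * y * β) +
      (z + (-β * z - z * -β) - -β * z * -β) = c := by
    rw [hc, ← e1, ← e2]
    simp only [mul_add, add_mul, mul_sub, sub_mul, neg_mul, mul_neg]
    abel
  have hA1 : ∀ {g : Γ}, g ∈ H → MN A (cj g A) := fun hg a ha =>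
    have h1 := mn_cj hH (one_mem H) hg a ⟨a, ha, by simp⟩
    fun c hc => ⟨by obtain ⟨x, hx, e⟩ := (h1 c hc).1; rw [← e]; simpa using hx, (h1 c hc).2⟩
  obtain ⟨n, hn, e⟩ := exp_mem hm hNN hA (hA.cj b) (hA.cj b⁻¹)
    (hA1 hbH) (hA1 (inv_mem hbH))
    (mn_cj hH hbH (inv_mem hbH)) hu.1 ⟨v, hv.1, rfl⟩ ⟨w, hw.1, rfl⟩ hu.2
    (hN.conj_mem _ hv.2 b) hux r1 r2 (by rw [es, hcc])
  rw [es] at e
  refine ⟨_, mul_mem (mul_mem (mul_mem hu.2 (hN.conj_mem _ hv.2 b)) (hN.conj_mem _ hw.2 b⁻¹))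
    (hN'N hn), e, fun h0 => ?_⟩
  have h1 : u * v * w = 1 := by
    have q1 := rho_mul hux hvy (hAN.mul hu hv hux hvy)
    have q2 := rho_mul q1 hwz (hAN.mul (mul_mem hu hv) hw q1 hwz)
    apply hρ
    rw [q2, map_one, add_assoc, e1, h0]; simp
  have e3 : u * (b * v * b⁻¹) * (b⁻¹ * w * b⁻¹⁻¹) * n =
      (u * ⁅v, b⁆⁻¹ * u⁻¹) * (u * v * ⁅w, b⁻¹⁆⁻¹ * (u * v)⁻¹) * (u * v * w) * n := by
    simp only [commutatorElement_def]; group
  change u * (b * v * b⁻¹) * (b⁻¹ * w * b⁻¹⁻¹) * n ∈ N'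
  rw [e3, h1, mul_one]
  exact mul_mem (mul_mem (hN'.conj_mem _ (inv_mem (hNN _ hv.2 _)) _)
    (hN'.conj_mem _ (inv_mem (hNN _ hw.2 _)) _)) hn

/-- the exponential of a square-zero additive subgroup -/
def ex (ρ : Γ →* R) (L : AddSubgroup R) (hL : ∀ x ∈ L, ∀ y ∈ L, x * y = 0) : Subgroup Γ where
  carrier := {g | ∃ x ∈ L, ρ g = 1 + x}
  one_mem' := ⟨0, zero_mem _, by simp⟩
  mul_mem' := fun ⟨x, hx, e⟩ ⟨y, hy, e'⟩ => ⟨x + y, add_mem hx hy, rho_mul e e' (hL x hx y hy)⟩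
  inv_mem' := fun ⟨x, hx, e⟩ => ⟨-x, neg_mem hx, rho_inv e (hL x hx x hx)⟩

/-- the fixed vectors -/
def fx (ρ : Γ →* R) (V : AddSubgroup R) (A : Subgroup Γ) : AddSubgroup R where
  carrier := {v | v ∈ V ∧ ∀ a ∈ A, ρ a * v = v}
  zero_mem' := ⟨zero_mem _, by simp⟩
  add_mem' := fun h h' => ⟨add_mem h.1 h'.1, fun a ha => by rw [mul_add, h.2 a ha, h'.2 a ha]⟩
  neg_mem' := fun h => ⟨neg_mem h.1, fun a ha => by rw [mul_neg, h.2 a ha]⟩

/-- quadratic offenders -/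
def Off (ρ : Γ →* R) (V : AddSubgroup R) (A : Subgroup Γ) : Prop :=
  A ≠ ⊥ ∧ Quad ρ A ∧ Nat.card V ≤ Nat.card A * Nat.card (fx ρ V A)

variable [Finite R] [Finite Γ]

theorem card_le_lg (hρ : Function.Injective ρ) (A : Subgroup Γ) :
    Nat.card A ≤ Nat.card (lg ρ A) :=
  Nat.card_le_card_of_injective
    (fun a : A => (⟨ρ a - 1, AddSubgroup.subset_closure ⟨a, a.2, by abel⟩⟩ : lg ρ A))
    fun a b h => Subtype.ext (hρ (sub_left_injective (Subtype.mk.inj h)))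

theorem card_le_ex {M : AddSubgroup R} {B : Subgroup Γ} (h : ∀ c ∈ M, ∃ g ∈ B, ρ g = 1 + c) :
    Nat.card M ≤ Nat.card B := by
  choose f hf using h
  refine Nat.card_le_card_of_injective (fun c : M => (⟨f c c.2, (hf c c.2).1⟩ : B))
    fun c d hcd => Subtype.ext (add_left_cancel (a := (1 : R)) ?_)
  rw [← (hf c c.2).2, ← (hf d d.2).2, Subtype.mk.inj hcd]

theorem step {m : ℤ} (hm : ∀ r : R, (6 : ℤ) • m • r = r) (hρ : Function.Injective ρ)
    [Group.IsNilpotent Γ] {V : AddSubgroup R} (hV1 : ∀ g, ∀ v ∈ V, ρ g * v ∈ V)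
    (hV2 : ∀ g, ∀ v ∈ V, v * ρ g = v) {A H : Subgroup Γ} (hA : Off ρ V A)
    (hmax : ∀ B, Off ρ V B →
      (∀ k, Nat.card ↥(A ⊓ Subgroup.upperCentralSeries Γ k) ≤
        Nat.card ↥(B ⊓ Subgroup.upperCentralSeries Γ k)) →
      ∀ k, Nat.card ↥(B ⊓ Subgroup.upperCentralSeries Γ k) ≤
        Nat.card ↥(A ⊓ Subgroup.upperCentralSeries Γ k))
    (hH : ∀ h ∈ H, ∀ a ∈ A, ∀ c ∈ A, h * a * h⁻¹ * c * (h * a * h⁻¹)⁻¹ ∈ A)
    {b : Γ} (hbH : b ∈ H) (hbq : (ρ b - 1) * (ρ b - 1) = 0) : ∀ a ∈ A, b * a * b⁻¹ ∈ A := by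
  set β := ρ b - 1 with hβdef
  have hb : ρ b = 1 + β := by rw [hβdef]; abel
  have hq := hA.2.1
  set Z := Subgroup.upperCentralSeries Γ with hZ
  obtain ⟨n, hn⟩ := (Group.IsNilpotent.nilpotent' : ∃ n, Subgroup.upperCentralSeries Γ n = ⊤)
  have hL : ∀ x ∈ Lim β (lg ρ A), ∀ y ∈ Lim β (lg ρ A), x * y = 0 := fun x hx y hy =>
    lim_mul hbq (fun _ h1 _ h2 => lg_mul hq h1 h2) hx hy
  set B := ex ρ _ hL with hB
  have hcard : ∀ k, Nat.card ↥(A ⊓ Z k) ≤ Nat.card ↥(B ⊓ Z k) := fun k => by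
    refine (card_le_lg hρ _).trans ((card_lim hbq _).trans (card_le_ex (ρ := ρ) fun c hc => ?_))
    have hc' := lim_mono (lg_mono inf_le_left) hc
    obtain ⟨a₀, h₀, a₁, h₁, a₂, h₂, e⟩ := lim_form hbq hc
    obtain ⟨g, hg, e', -⟩ := lim_mem hm hρ (N := Z k) (N' := Z k) (fun x hx g => by
      have := (Z k).mul_mem hx ((inferInstance : (Z k).Normal).conj_mem _ ((Z k).inv_mem hx) g)
      simpa [commutatorElement_def, mul_assoc] using this) le_rfl hq hH hbH hb hbq h₀ h₁ h₂ e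
      (hL c hc' c hc')
    exact ⟨g, ⟨⟨c, hc', e'⟩, hg⟩, e'⟩
  have hAB : Nat.card A ≤ Nat.card B := by
    have := hcard n
    rwa [hZ, hn, inf_top_eq, inf_top_eq] at this
  have hBoff : Off ρ V B := by
    refine ⟨fun h0 => hA.1 ?_, ?_, hA.2.2.trans (Nat.mul_le_mul hAB
      ((card_lim hbq _).trans (AddSubgroup.card_le_of_le fun v hv => ?_)))⟩
    · rw [h0, card_bot] at hAB
      exact eq_bot_of_card_le _ hAB
    · rintro _ ⟨x, hx, e⟩ _ ⟨y, hy, e'⟩
      rw [e, e', add_sub_cancel_left, add_sub_cancel_left, hL x hx y hy]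
    · refine ⟨?_, ?_⟩
      · obtain ⟨a₀, h₀, a₁, h₁, a₂, h₂, e⟩ := lim_form hbq hv
        have z1 : ∀ w ∈ V, w * β = 0 := fun w hw => by rw [hβdef, mul_sub, hV2 b w hw]; simp
        have z2 : ∀ w ∈ V, β * w ∈ V := fun w hw => by
          rw [hβdef, sub_mul, one_mul]; exact sub_mem (hV1 b w hw) hw
        rw [e, z1 _ h₁.1, z1 _ (z2 _ h₂.1), sub_zero, sub_zero]
        exact add_mem h₀.1 (z2 _ h₁.1)
      · rintro _ ⟨x, hx, e⟩
        rw [e, add_mul, one_mul, lim_mul hbq (fun y hy w hw => ?_) hx hv, add_zero]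
        obtain ⟨a, ha, e'⟩ := (mem_lg hq).1 hy
        have := hw.2 a ha
        rwa [e', add_mul, one_mul, add_eq_left] at this
  have heq := hmax B hBoff hcard
  have key : ∀ k, (∀ a ∈ lg ρ (A ⊓ Z k), β * a - a * β ∈ lg ρ (A ⊓ Z k)) ∧
      ∀ a ∈ lg ρ (A ⊓ Z k), β * a * β ∈ lg ρ (A ⊓ Z k) := by
    intro k
    induction k with
    | zero =>
      have h0 : ∀ a ∈ lg ρ (A ⊓ Z 0), a = 0 := fun a ha => by
        obtain ⟨g, hg, e⟩ := (mem_lg (hq.mono inf_le_left)).1 ha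
        have : g = 1 := by simpa [hZ] using hg.2
        rw [this, map_one] at e
        exact (add_eq_left.1 e.symm)
      exact ⟨fun a ha => by rw [h0 a ha]; simp, fun a ha => by rw [h0 a ha]; simp⟩
    | succ k ih =>
      have hk : lg ρ (A ⊓ Z k) ≤ lg ρ A := lg_mono inf_le_left
      have hle : A ⊓ Z k ≤ B ⊓ Z k := fun a ha => ⟨⟨ρ a - 1, lim_mono hk (le_lim ih.1 ih.2
        (AddSubgroup.subset_closure ⟨a, ha, by abel⟩)), by abel⟩, ha.2⟩
      have hE := eq_of_le_of_card_ge hle (heq k)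
      have hZk : Z k ≤ Z (k + 1) := Subgroup.upperCentralSeries_mono Γ (Nat.le_succ k)
      have hk' : lg ρ (A ⊓ Z k) ≤ lg ρ (A ⊓ Z (k + 1)) := lg_mono (inf_le_inf_left _ hZk)
      have main : ∀ {a₁ a₂ c : R}, a₁ ∈ lg ρ (A ⊓ Z (k + 1)) → a₂ ∈ lg ρ (A ⊓ Z (k + 1)) →
          c = 0 + (β * a₁ - a₁ * β) - β * a₂ * β → c ∈ Lim β (lg ρ A) →
          c ∈ lg ρ (A ⊓ Z k) := fun {a₁ a₂ c} h₁ h₂ e hc => by
        obtain ⟨g, -, e', hg⟩ := lim_mem hm hρ (N := Z (k + 1)) (N' := Z k)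
          (fun x hx g => Subgroup.mem_upperCentralSeries_succ_iff.1 hx g) hZk hq hH hbH hb hbq
          (zero_mem _) h₁ h₂ e (hL c hc c hc)
        have : g ∈ A ⊓ Z k := hE ▸ ⟨⟨c, hc, e'⟩, hg rfl⟩
        exact AddSubgroup.subset_closure ⟨g, this, e'⟩
      have m2 : ∀ a ∈ lg ρ (A ⊓ Z (k + 1)), β * a * β ∈ lg ρ (A ⊓ Z k) := fun a ha =>
        neg_mem_iff.1 (main (zero_mem _) ha (by simp) (mem_lim2 hbq (lg_mono inf_le_left ha)))
      exact ⟨fun a ha => hk' (main ha (zero_mem _) (by simp)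
        (mem_lim1 hbq hk ih.1 ih.2 (lg_mono inf_le_left ha) (m2 a ha))), fun a ha => hk' (m2 a ha)⟩
  intro a ha
  obtain ⟨k1, k2⟩ := key n
  rw [hZ, hn, inf_top_eq] at k1 k2
  have hx : ρ a - 1 ∈ lg ρ A := AddSubgroup.subset_closure ⟨a, ha, by abel⟩
  obtain ⟨a', ha', e⟩ := (mem_lg hq).1 (sub_mem (add_mem hx (k1 _ hx)) (k2 _ hx))
  rw [← rho_conj hb hbq (a := a) (by abel)] at e
  exact hρ e ▸ ha'

theorem main_abs {m : ℤ} (hm : ∀ r : R, (6 : ℤ) • m • r = r) (hρ : Function.Injective ρ)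
    [Group.IsNilpotent Γ] {V : AddSubgroup R} (hV1 : ∀ g, ∀ v ∈ V, ρ g * v ∈ V)
    (hV2 : ∀ g, ∀ v ∈ V, v * ρ g = v) (hex : ∃ A, Off ρ V A) :
    ∃ A, Off ρ V A ∧ ∀ h, ∀ a ∈ A, ∀ c ∈ A, h * a * h⁻¹ * c * (h * a * h⁻¹)⁻¹ ∈ A := by
  obtain ⟨A, hA, hmax⟩ := (Set.toFinite {A | Off ρ V A}).exists_maximalFor
    (fun A : Subgroup Γ => fun k => Nat.card ↥(A ⊓ Subgroup.upperCentralSeries Γ k)) _ hex
  obtain ⟨H, hH, hHmax⟩ := (Set.toFinite {H : Subgroup Γ | A ≤ H ∧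
    ∀ h ∈ H, ∀ a ∈ A, ∀ c ∈ A, h * a * h⁻¹ * c * (h * a * h⁻¹)⁻¹ ∈ A}).exists_maximal
    ⟨A, le_rfl, fun h hh a ha c hc => by
      have := mul_mem (mul_mem hh ha) (inv_mem hh)
      exact mul_mem (mul_mem this hc) (inv_mem this)⟩
  have hN : normalizer (H : Set Γ) ≤ H := by
    refine hHmax ⟨hH.1.trans le_normalizer, fun h hh a ha => ?_⟩ le_normalizer
    refine step hm hρ hV1 hV2 hA (fun B hB hle => hmax hB hle) hH.2
      ((mem_normalizer_iff.1 hh a).1 (hH.1 ha)) ?_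
    exact hA.2.1.cj h _ ⟨a, ha, rfl⟩ _ ⟨a, ha, rfl⟩
  have hT : H = ⊤ := by
    by_contra hne
    exact (normalizerCondition_of_isNilpotent H (lt_top_iff_ne_top.2 hne)).not_ge hN
  exact ⟨A, hA, fun h => hH.2 h (hT ▸ mem_top h)⟩

end Grp

theorem hm_of {R : Type*} [Ring R] {p m k : ℤ} (hp0 : ∀ r : R, p • r = 0)
    (hmk : m * 6 + k * p = 1) (r : R) : (6 : ℤ) • m • r = r := by
  conv_rhs => rw [← one_smul ℤ r, ← hmk, add_smul, mul_smul k, hp0, smul_zero, add_zero,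
    mul_comm, mul_smul]

section App
variable {W : Type*} [CommGroup W] {Γ : Type*} [Group Γ] (p : ℕ) (φ : Γ →* MulAut W)

/-- the representation -/
def rep : Γ →* AddMonoid.End (Additive W × ZMod p) where
  toFun g := (MonoidHom.toAdditive (φ g).toMonoidHom).prodMap (AddMonoidHom.id _)
  map_one' := AddMonoidHom.ext fun x => by rw [map_one]; rfl
  map_mul' g h := AddMonoidHom.ext fun x => by rw [map_mul]; rfl

theorem rep_apply (g : Γ) (x : Additive W × ZMod p) :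
    rep p φ g x = (Additive.ofMul (φ g x.1.toMul), x.2) := rfl

/-- the vectors -/
def vec (W : Type*) [CommGroup W] (p : ℕ) : AddSubgroup (AddMonoid.End (Additive W × ZMod p)) where
  carrier := {r | (∀ w, r (w, 0) = 0) ∧ ∀ x, (r x).2 = 0}
  zero_mem' := ⟨fun _ => rfl, fun _ => rfl⟩
  add_mem' := fun {r s} hr hs => ⟨fun w => by
    change r (w, 0) + s (w, 0) = 0
    rw [hr.1, hs.1, add_zero], fun x => by
    change (r x).2 + (s x).2 = 0
    rw [hr.2, hs.2, add_zero]⟩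
  neg_mem' := fun {r} hr => ⟨fun w => by
    change -r (w, 0) = 0
    rw [hr.1, neg_zero], fun x => by
    change -(r x).2 = 0
    rw [hr.2, neg_zero]⟩

variable {p}

theorem vec_apply [NeZero p] {r : AddMonoid.End (Additive W × ZMod p)} (hr : r ∈ vec W p)
    (x : Additive W × ZMod p) : r x = x.2.val • r (0, 1) := by
  have e : x = (x.1, 0) + x.2.val • ((0 : Additive W), (1 : ZMod p)) := by simp
  conv_lhs => rw [e, map_add, hr.1, zero_add, map_nsmul]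

theorem card_fx [NeZero p] (hW : ∀ w : W, w ^ p = 1) (A : Subgroup Γ) :
    Nat.card (fx (rep p φ) (vec W p) A) = Nat.card {w : W // ∀ a ∈ A, φ a w = w} := by
  refine Nat.card_congr (Equiv.ofBijective (fun r => ⟨(r.1 (0, 1)).1.toMul, fun a ha => ?_⟩)
    ⟨fun r s h => ?_, fun w => ?_⟩)
  · have := congrArg (fun f : AddMonoid.End (Additive W × ZMod p) => (f (0, 1)).1.toMul)
      (r.2.2 a ha)
    exact this
  · have h1 : r.1 (0, 1) = s.1 (0, 1) :=
      Prod.ext (Additive.toMul.injective (Subtype.mk.inj h)) (by rw [r.2.1.2, s.2.1.2])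
    exact Subtype.ext (AddMonoidHom.ext fun x =>
      (vec_apply r.2.1 x).trans (h1 ▸ (vec_apply s.2.1 x).symm))
  · let f : ZMod p →+ Additive W := ZMod.lift p ⟨zmultiplesHom _ (Additive.ofMul w.1), by
      rw [zmultiplesHom_apply, natCast_zsmul, ← ofMul_pow, hW, ofMul_one]⟩
    have f1 : f 1 = Additive.ofMul w.1 := by
      have := ZMod.lift_coe p ⟨zmultiplesHom _ (Additive.ofMul w.1), by
        rw [zmultiplesHom_apply, natCast_zsmul, ← ofMul_pow, hW, ofMul_one]⟩ 1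
      simpa using this
    let r : AddMonoid.End (Additive W × ZMod p) :=
      (AddMonoidHom.inl _ _).comp (f.comp (AddMonoidHom.snd _ _))
    have hr : ∀ x, r x = (f x.2, 0) := fun _ => rfl
    have hv : r ∈ vec W p := ⟨fun w => by rw [hr, map_zero]; rfl, fun x => by rw [hr]⟩
    refine ⟨⟨r, hv, fun a ha => AddMonoidHom.ext fun x => ?_⟩, Subtype.ext ?_⟩
    · change rep p φ a (r x) = r x
      rw [vec_apply hv, map_nsmul, hr, rep_apply, f1, toMul_ofMul, w.2 a ha]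
    · change (r (0, 1)).1.toMul = w.1
      rw [hr, f1, toMul_ofMul]

theorem quad_iff (A : Subgroup Γ) : Quad (rep p φ) A ↔
    ∀ a ∈ A, ∀ b ∈ A, ∀ w, φ a (φ b w / w) = φ b w / w := by
  have key : ∀ a b (x : Additive W × ZMod p), ((rep p φ a - 1) * (rep p φ b - 1)) x =
      (Additive.ofMul (φ a (φ b x.1.toMul / x.1.toMul) / (φ b x.1.toMul / x.1.toMul)), 0) := by
    intro a b x
    change rep p φ a (rep p φ b x - x) - (rep p φ b x - x) = _
    rw [rep_apply, rep_apply]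
    exact Prod.ext rfl (sub_self _)
  refine ⟨fun h a ha b hb w => ?_, fun h a ha b hb => AddMonoidHom.ext fun x => ?_⟩
  · have := key a b (Additive.ofMul w, 0)
    rw [h a ha b hb] at this
    exact div_eq_one.1 (congrArg (fun x => x.1.toMul) this).symm
  · refine (key a b x).trans ?_
    rw [h a ha b hb, div_self']; rfl

theorem main_mod [Finite W] [Finite Γ] [hp : Fact p.Prime] (h5 : 5 ≤ p) (hΓ : IsPGroup p Γ)
    (hφ : Function.Injective φ) (hW : ∀ w : W, w ^ p = 1)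
    (hex : ∃ A : Subgroup Γ, A ≠ ⊥ ∧ (∀ a ∈ A, ∀ b ∈ A, ∀ w, φ a (φ b w / w) = φ b w / w) ∧
      Nat.card W ≤ Nat.card A * Nat.card {w : W // ∀ a ∈ A, φ a w = w}) :
    ∃ A : Subgroup Γ, A ≠ ⊥ ∧ (∀ a ∈ A, ∀ b ∈ A, ∀ w, φ a (φ b w / w) = φ b w / w) ∧
      Nat.card W ≤ Nat.card A * Nat.card {w : W // ∀ a ∈ A, φ a w = w} ∧
      (∀ a ∈ A, ∀ b ∈ A, a * b = b * a) ∧ (∀ a ∈ A, a ^ p = 1) ∧
      ∀ h, ∀ a ∈ A, ∀ c ∈ A, h * a * h⁻¹ * c * (h * a * h⁻¹)⁻¹ ∈ A := by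
  have := hΓ.isNilpotent
  have : Finite (AddMonoid.End (Additive W × ZMod p)) :=
    DFunLike.finite (Additive W × ZMod p →+ Additive W × ZMod p)
  have hp0 : ∀ r : AddMonoid.End (Additive W × ZMod p), (p : ℤ) • r = 0 := fun r =>
    AddMonoidHom.ext fun x => by
      change (p : ℤ) • r x = 0
      rw [natCast_zsmul]
      refine Prod.ext ?_ (by simp)
      change Additive.ofMul ((r x).1.toMul ^ p) = 0
      rw [hW, ofMul_one]
  obtain ⟨m, k, hmk⟩ : IsCoprime (6 : ℤ) p := by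
    have : Nat.Coprime 6 p := by
      rw [show 6 = 2 * 3 from rfl, Nat.coprime_mul_iff_left]
      exact ⟨(Nat.coprime_primes Nat.prime_two hp.out).2 (by omega),
        (Nat.coprime_primes Nat.prime_three hp.out).2 (by omega)⟩
    exact_mod_cast Nat.isCoprime_iff_coprime.2 this
  have hm : ∀ r : AddMonoid.End (Additive W × ZMod p), (6 : ℤ) • m • r = r := hm_of hp0 hmk
  have hρ : Function.Injective (rep p φ) := fun a b h => hφ (MulEquiv.ext fun w =>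
    congrArg (fun f : AddMonoid.End (Additive W × ZMod p) => (f (Additive.ofMul w, 0)).1.toMul) h)
  have hc : Nat.card (vec W p) = Nat.card W := by
    have e : fx (rep p φ) (vec W p) ⊥ = vec W p := le_antisymm (fun _ h => h.1) fun r hr =>
      ⟨hr, fun a ha => by rw [mem_bot.1 ha, map_one, one_mul]⟩
    rw [← e, card_fx φ hW]
    exact Nat.card_congr (Equiv.subtypeUnivEquiv fun w a ha => by rw [mem_bot.1 ha, map_one]; rfl)
  obtain ⟨A, hA, h⟩ := main_abs (V := vec W p) hm hρ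
    (fun g v hv => ⟨fun w => by
      change rep p φ g (v (w, 0)) = 0
      rw [hv.1, map_zero], fun x => hv.2 x⟩)
    (fun g v hv => AddMonoidHom.ext fun x => by
      change v (rep p φ g x) = v x
      rw [vec_apply hv, vec_apply hv x]; rfl)
    (by
      obtain ⟨A, h1, h2, h3⟩ := hex
      exact ⟨A, h1, (quad_iff φ A).2 h2, by rwa [hc, card_fx φ hW]⟩)
  have hx : ∀ a, rep p φ a = 1 + (rep p φ a - 1) := fun a => by abel
  refine ⟨A, hA.1, (quad_iff φ A).1 hA.2.1, by rw [← hc, ← card_fx φ hW]; exact hA.2.2,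
    fun a ha b hb => hρ ?_, fun a ha => hρ ?_, h⟩
  · rw [rho_mul (hx a) (hx b) (hA.2.1 a ha b hb), rho_mul (hx b) (hx a) (hA.2.1 b hb a ha),
      add_comm (rep p φ a - 1)]
  · rw [← zpow_natCast, rho_zpow (hx a) (hA.2.1 a ha a ha), hp0, add_zero, map_one]

end App

/-- Let p ≥ 5 be a prime and, inside an ambient finite group, let G be a p-subgroup acting faithfully by conjugation on an elementary abelian p-subgroup V that it normalizes (only the identity of G centralizes V). Suppose V is an F-module for G: some nontrivial elementary abelian subgroup E of G satisfies #E · #C_V(E) ≥ #V. Then G contains such an offender A that moreover acts quadratically on V ([V, A, A] = 1) and is normal in its normal closure in G. -/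
theorem result {Ω : Type*} [Group Ω] [Finite Ω] (p : ℕ) [Fact p.Prime] (hp : 5 ≤ p) (V G : Subgroup Ω) (hV : Cfsg.IsElementaryAbelian p V) (hG : IsPGroup p ↥G) (hGV : G ≤ Subgroup.normalizer (V : Set Ω)) (hfaith : G ⊓ Subgroup.centralizer (V : Set Ω) = ⊥) (hF : ∃ E : Subgroup Ω, E ≤ G ∧ E ≠ ⊥ ∧ Cfsg.IsElementaryAbelian p E ∧ Nat.card ↥V ≤ Nat.card ↥E * Nat.card ↥(V ⊓ Subgroup.centralizer (E : Set Ω))) : ∃ A : Subgroup Ω, A ≤ G ∧ A ≠ ⊥ ∧ Cfsg.IsElementaryAbelian p A ∧ Nat.card ↥V ≤ Nat.card ↥A * Nat.card ↥(V ⊓ Subgroup.centralizer (A : Set Ω)) ∧ ⁅⁅V, A⁆, A⁆ = ⊥ ∧ ∀ g ∈ Subgroup.closure {x : Ω | ∃ h ∈ G, ∃ a ∈ A, x = h * a * h⁻¹}, ∀ a ∈ A, g * a * g⁻¹ ∈ A := by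
  have hVc : ∀ a ∈ V, ∀ b ∈ V, a * b = b * a := fun a ha b hb =>
    congrArg Subtype.val (hV.1.is_comm.comm (⟨a, ha⟩ : V) ⟨b, hb⟩)
  letI : CommGroup V := { (inferInstance : Group V) with
    mul_comm := fun a b => Subtype.ext (hVc a a.2 b b.2) }
  let φ : G →* MulAut V := (normalizerMonoidHom V).comp (inclusion hGV)
  have hφ : ∀ (g : G) (v : V), (φ g v : Ω) = g * v * (g : Ω)⁻¹ := fun _ _ => rfl
  have hinj : Function.Injective φ := (injective_iff_map_eq_one φ).2 fun g hg => by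
    have : (g : Ω) ∈ G ⊓ centralizer (V : Set Ω) := ⟨g.2, mem_centralizer_iff.2 fun v hv => by
      have := hφ g ⟨v, hv⟩
      rw [hg] at this
      exact (eq_mul_inv_iff_mul_eq.1 this)⟩
    rw [hfaith] at this
    exact Subtype.ext (mem_bot.1 this)
  have hcard : ∀ A : Subgroup G, Nat.card {w : V // ∀ a ∈ A, φ a w = w} =
      Nat.card ↥(V ⊓ centralizer ((A.map G.subtype : Subgroup Ω) : Set Ω)) := fun A => by
    refine Nat.card_congr ⟨fun w => ⟨w.1, w.1.2, mem_centralizer_iff.2 ?_⟩,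
      fun w => ⟨⟨w.1, w.2.1⟩, fun a ha => Subtype.ext ?_⟩, fun _ => rfl, fun _ => rfl⟩
    · rintro _ ⟨a, ha, rfl⟩
      have := hφ a w.1
      rw [w.2 a ha] at this
      exact (eq_mul_inv_iff_mul_eq.1 this).symm
    · rw [hφ, mul_inv_eq_iff_eq_mul]
      exact mem_centralizer_iff.1 w.2.2 _ ⟨a, ha, rfl⟩
  have hq : ∀ A : Subgroup G, (∀ a ∈ A, ∀ b ∈ A, ∀ w, φ a (φ b w / w) = φ b w / w) ↔
      ⁅⁅V, A.map G.subtype⁆, A.map G.subtype⁆ = ⊥ := fun A => by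
    have e : ∀ (b : G) (w : V), ((φ b w / w : V) : Ω) = ⁅(b : Ω), (w : Ω)⁆ := fun b w => by
      rw [div_eq_mul_inv, commutatorElement_def, ← hφ]; rfl
    rw [commutator_eq_bot_iff_le_centralizer, commutator_comm, commutator_le]
    constructor
    · rintro h _ ⟨b, hb, rfl⟩ w hw
      refine mem_centralizer_iff.2 ?_
      rintro _ ⟨a, ha, rfl⟩
      have := congrArg Subtype.val (h a ha b hb ⟨w, hw⟩)
      rw [hφ, e] at this
      exact mul_inv_eq_iff_eq_mul.1 this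
    · intro h a ha b hb w
      refine Subtype.ext ?_
      rw [hφ, e, mul_inv_eq_iff_eq_mul]
      exact mem_centralizer_iff.1 (h _ ⟨b, hb, rfl⟩ _ w.2) _ ⟨a, ha, rfl⟩
  obtain ⟨A, h1, h2, h3, h4, h5, h6⟩ := main_mod φ hp hG hinj
    (fun w => Subtype.ext (hV.2 w w.2)) (by
      obtain ⟨E, hEG, hE0, hE, hle⟩ := hF
      have hVp : IsPGroup p V := fun v => ⟨1, Subtype.ext (by simpa using hV.2 v v.2)⟩
      obtain ⟨A, hAE, hA0, hA1, hA2⟩ := Push.exists_quadratic_offender hV.1 hVp (hG.to_le hEG)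
        (hEG.trans hGV) ((commutator_eq_bot_iff_le_centralizer.2
          (le_centralizer_iff_isMulCommutative.2 hE.1)).le.trans bot_le) hE0 hle
      have e : (A.subgroupOf G).map G.subtype = A := map_subgroupOf_eq_of_le (hAE.trans hEG)
      refine ⟨A.subgroupOf G, fun h0 => hA0 (by rw [← e, h0, Subgroup.map_bot]), (hq _).2 (by rwa [e]), ?_⟩
      rw [hcard, e, Nat.card_congr (subgroupOfEquivOfLe (hAE.trans hEG)).toEquiv,
        PLocal.card_eq_relIndex_mul (Push.cen V A) V, inf_of_le_left inf_le_left]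
      exact Nat.mul_le_mul_right _ hA2)
  refine ⟨A.map G.subtype, map_subtype_le _,
    fun h0 => h1 ((map_eq_bot_iff_of_injective _ G.subtype_injective).1 h0), ⟨⟨⟨?_⟩⟩, ?_⟩, ?_,
    (hq A).1 h2, fun g hg => ?_⟩
  · rintro ⟨_, a, ha, rfl⟩ ⟨_, b, hb, rfl⟩
    exact Subtype.ext (congrArg G.subtype (h4 a ha b hb))
  · rintro _ ⟨a, ha, rfl⟩
    exact congrArg Subtype.val (h5 a ha)
  · rwa [card_map_of_injective G.subtype_injective, ← hcard]
  · have : closure {x : Ω | ∃ h ∈ G, ∃ a ∈ A.map G.subtype, x = h * a * h⁻¹} ≤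
        normalizer ((A.map G.subtype : Subgroup Ω) : Set Ω) := by
      rw [closure_le]
      rintro _ ⟨h, hh, _, ⟨a, ha, rfl⟩, rfl⟩
      refine mem_normalizer_fintype ?_
      rintro _ ⟨c, hc, rfl⟩
      exact ⟨_, h6 ⟨h, hh⟩ a ha c hc, rfl⟩
    exact fun a ha => (mem_normalizer_iff.1 (this hg) a).1 ha

end Cfsg.Agent.S1935
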