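import Cfsg.Statements.S1939
import Cfsg.Agent.Lib.Tech.SylowIn

set_option autoImplicit false
open Cfsg

namespace Cfsg.Agent.S1939

open CfsgLib.Tech


/-- Let S be a Sylow p-subgroup of the finite group G and a an element of S that is the only G-conjugate of a lying in S. Then every power of a has the same property: for every n, the only G-conjugate of a^n lying in S is a^n. -/
theorem result {G : Type*} [Group G] [Finite G] {p : ℕ} [Fact p.Prime] (S : Sylow p G) (a : G)
    (haS : a ∈ (S : Subgroup G)) (hwc : ∀ g : G, g * a * g⁻¹ ∈ (S : Subgroup G) → g * a * g⁻¹ = a) (n : ℕ) :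
    ∀ g : G, g * a ^ n * g⁻¹ ∈ (S : Subgroup G) → g * a ^ n * g⁻¹ = a ^ n := by
  intro g hg
  set b := g * a ^ n * g⁻¹ with hb
  have hcen : ∀ s ∈ (S : Subgroup G), s * a = a * s := by
    intro s hs
    have := hwc s ((S : Subgroup G).mul_mem ((S : Subgroup G).mul_mem hs haS) (inv_mem hs))
    rw [mul_inv_eq_iff_eq_mul] at this
    exact this
  have haC : a ∈ Subgroup.centralizer ({b} : Set G) := by
    rw [Subgroup.mem_centralizer_singleton_iff]
    exact (hcen b hg).symm
  have hle : cj g (S : Subgroup G) ≤ Subgroup.centralizer ({b} : Set G) := by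
    rw [hb, ← cj_centralizer_singleton]
    apply cj_mono
    intro s hs
    rw [Subgroup.mem_centralizer_singleton_iff]
    exact ((Commute.pow_right (hcen s hs : Commute s a) n))
  have hS : IsSylowIn p (cj g (S : Subgroup G)) (Subgroup.centralizer ({b} : Set G)) :=
    IsSylowIn.of_sylow (g • S) hle
  obtain ⟨c, hc, hca⟩ := hS.exists_conj_mem haC (isPGroup_zpowers_of_mem S.isPGroup' haS)
  rw [mem_cj] at hca
  have h1 := hwc (g⁻¹ * c) (by simpa [mul_assoc] using hca)
  have h2 : c * a * c⁻¹ = g * a * g⁻¹ := by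
    rw [← h1]; simp only [h1]; nth_rewrite 2 [← h1]; group
  have h3 : c * a ^ n * c⁻¹ = b := by
    rw [hb, ← conj_pow, ← conj_pow, h2]
  rw [Subgroup.mem_centralizer_singleton_iff] at hc
  have h4 : c * a ^ n * c⁻¹ = c * b * c⁻¹ := by rw [h3, hc]; group
  simpa using h4.symm

end Cfsg.Agent.S1939
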