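import Cfsg.Statements.S1940
import Mathlib

set_option autoImplicit false
open Cfsg

namespace Cfsg.Agent.S1940


/-- Let the finite group L act by automorphisms on the finite abelian group M, and let N be an L-invariant subgroup of M such that M/N is a p-group on which L acts trivially (every l • m lies in the coset mN). If every element of M is a product of an element of N and an element fixed by a Sylow p-subgroup T of L, then every element of M is a product of an element of N and an element fixed by all of L. -/
theorem result {L : Type*} [Group L] [Finite L] {M : Type*} [CommGroup M] [Finite M] [MulDistribMulAction L M]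
    {p : ℕ} [Fact p.Prime] (N : Subgroup M) (hN : ∀ (l : L) (m : M), m ∈ N → l • m ∈ N)
    (hquot : IsPGroup p (M ⧸ N)) (htriv : ∀ (l : L) (m : M), (l • m) * m⁻¹ ∈ N) (T : Sylow p L)
    (hT : ∀ m : M, ∃ n ∈ N, ∃ c : M, (∀ t ∈ (T : Subgroup L), t • c = c) ∧ m = n * c) :
    ∀ m : M, ∃ n ∈ N, ∃ c : M, (∀ l : L, l • c = c) ∧ m = n * c := by
  intro m
  obtain ⟨n, hn, c, hc, rfl⟩ := hT m
  classical
  have := Fintype.ofFinite (L ⧸ (T : Subgroup L))
  let f : L ⧸ (T : Subgroup L) → M := fun q => q.out • c
  have hf : ∀ l : L, f (l : L ⧸ (T : Subgroup L)) = l • c := by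
    intro l
    obtain ⟨t, ht⟩ := QuotientGroup.mk_out_eq_mul (T : Subgroup L) l
    simp only [f]
    rw [ht, mul_smul, hc t t.2]
  have hf2 : ∀ (l : L) q, l • f q = f (l • q) := by
    intro l q
    induction q using QuotientGroup.induction_on with
    | H x => rw [MulAction.Quotient.smul_mk, hf, hf, smul_eq_mul, mul_smul]
  let d : M := ∏ q, f q
  have hd : ∀ l : L, l • d = d := by
    intro l
    simp only [d]
    rw [Finset.smul_prod']
    simp only [hf2]
    exact Equiv.prod_comp (MulAction.toPerm l) f
  let π := QuotientGroup.mk' N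
  have hπ : ∀ (l : L) (x : M), π (l • x) = π x := by
    intro l x
    have : π (l • x * x⁻¹) = 1 := (QuotientGroup.eq_one_iff _).2 (htriv l x)
    rwa [map_mul, map_inv, mul_inv_eq_one] at this
  have hdπ : π d = π c ^ (T : Subgroup L).index := by
    simp only [d, map_prod, f, hπ]
    rw [Finset.prod_const, Finset.card_univ, Subgroup.index, Nat.card_eq_fintype_card]
  have hcop : (orderOf (π c)).Coprime (T : Subgroup L).index :=
    hquot.orderOf_coprime ((Nat.Prime.coprime_iff_not_dvd Fact.out).2 T.not_dvd_index) _
  obtain ⟨j, hj⟩ := exists_pow_eq_self_of_coprime hcop.symm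
  refine ⟨n * c * (d ^ j)⁻¹, ?_, d ^ j, ?_, by group⟩
  · rw [mul_assoc]
    refine N.mul_mem hn ?_
    rw [← QuotientGroup.eq_one_iff]
    show π _ = 1
    rw [map_mul, map_inv, map_pow, hdπ, hj, mul_inv_cancel]
  · intro l
    rw [smul_pow', hd]

end Cfsg.Agent.S1940
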