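import Cfsg.Statements.S1941
import Cfsg.Agent.Lib.Comp.FStar
import Cfsg.Agent.Lib.Coprime.Gaschutz
import Cfsg.Agent.Lib.LAE.Cores

set_option autoImplicit false
open Cfsg

namespace Cfsg.Agent.S1941

open Subgroup CfsgLib.Comp
open scoped IsMulCommutative

/-- Let G be a finite group with no nontrivial normal subgroup of order prime to p, T a Sylow p-subgroup of G and E(G) the layer of G (the subgroup generated by its components). An automorphism of G of p-power order that fixes T and E(G) elementwise is inner. -/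
theorem result {G : Type*} [Group G] [Finite G] {p : ℕ} [Fact p.Prime] (hcore : Cfsg.pPrimeCore p G = ⊥)
    (T : Sylow p G) (α : MulAut G) (hα : ∃ j : ℕ, orderOf α = p ^ j) (hfixT : ∀ x ∈ (T : Subgroup G), α x = x)
    (hfixE : ∀ x ∈ Cfsg.layer G, α x = x) : ∃ g : G, ∀ x : G, α x = g * x * g⁻¹ := by
  have hFn := fstar_normal (G := G)
  set F := Cfsg.generalizedFittingSubgroup G with hF
  have hfix : ∀ x ∈ F, α x = x := by
    have h1 : F ≤ α.toMonoidHom.eqLocus (MonoidHom.id G) := by
      rw [hF, fstar_def, fit_eq_pCore_of_pPrimeCore_eq_bot hcore]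
      exact sup_le hfixE fun x hx => hfixT x (CfsgLib.LAE.pCore_le_sylow T hx)
    exact h1
  set C := centralizer (F : Set G) with hC
  have hCp : IsPGroup p C := by
    refine (CfsgLib.LAE.isPGroup_pCore (p := p) (G := G)).to_le ?_
    rw [← fit_eq_pCore_of_pPrimeCore_eq_bot hcore]
    exact centralizer_fstar_le_fit
  have : IsMulCommutative C :=
    le_centralizer_iff_isMulCommutative.1 (centralizer_le centralizer_fstar_le)
  have hmem : ∀ x : G, α x * x⁻¹ ∈ C := by
    intro x u hu
    have h1 := hfix _ (hFn.conj_mem' u hu x)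
    rw [map_mul, map_mul, map_inv, hfix u hu] at h1
    calc u * (α x * x⁻¹) = α x * ((α x)⁻¹ * u * α x) * x⁻¹ := by group
      _ = α x * x⁻¹ * u := by rw [h1]; group
  obtain ⟨c, hc⟩ := CfsgLib.Coprime.exists_coboundary_of_index
    (ψ := (MulAut.conjNormal : G →* MulAut C)) (U := T) (f := fun x => ⟨α x * x⁻¹, hmem x⟩)
    (fun x _ y _ => Subtype.ext (by simp [mul_assoc]))
    (fun u hu => Subtype.ext (by simp [hfixT u hu]))
    (CfsgLib.Core.isPGroup_coprime_card hCp
      ((Nat.Prime.coprime_iff_not_dvd Fact.out).2 T.not_dvd_index).symm)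
  refine ⟨c, fun x => ?_⟩
  have h1 : α x * x⁻¹ * (x * c * x⁻¹) = c := congrArg Subtype.val (hc x)
  calc α x = (α x * x⁻¹ * (x * c * x⁻¹)) * x * (c : G)⁻¹ := by group
    _ = c * x * (c : G)⁻¹ := by rw [h1]

end Cfsg.Agent.S1941
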