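import Cfsg.Statements.S1944
import Cfsg.Agent.Lib.PLocal.Constrained
import Cfsg.Agent.Lib.Transfer.Cocycle
import Cfsg.Agent.Lib.Core.Basic

set_option autoImplicit false
open Cfsg

namespace Cfsg.Agent.S1944

open Subgroup CfsgLib.LAE
open scoped IsMulCommutative

theorem split {H : Type*} [Group H] [Finite H] {p : ℕ} [hp : Fact p.Prime] {S : Subgroup H}
    (hS : IsSylowIn p S ⊤) (hZ : S ⊓ centralizer (S : Set H) ≤ Cfsg.pCore p H) :
    ∃ K : Subgroup H, K ≤ S ⊓ centralizer (S : Set H) ∧ center H ⊓ K = ⊥ ∧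
      ∀ z ∈ S ⊓ centralizer (S : Set H), ∃ w ∈ S ⊓ center H, w⁻¹ * z ∈ K := by
  have := Fintype.ofFinite (H ⧸ S)
  have hQS : Cfsg.pCore p H ≤ S :=
    hS.le_of_le_normalizer isPGroup_pCore le_top le_normalizer_of_normal
  set V := Cfsg.pCore p H ⊓ centralizer (Cfsg.pCore p H : Set H) with hV
  have : IsMulCommutative V :=
    le_centralizer_iff_isMulCommutative.1 (inf_le_right.trans (centralizer_anti inf_le_left))
  have hVp : IsPGroup p V := isPGroup_pCore.to_le inf_le_left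
  have hZV : S ⊓ centralizer (S : Set H) ≤ V :=
    le_inf hZ (inf_le_right.trans (centralizer_anti hQS))
  let τ : V →* V := ∏ q : H ⧸ S, (MulAut.conjNormal q.out : MulAut V).toMonoidHom
  have hτ : ∀ v, τ v = ∏ q : H ⧸ S, MulAut.conjNormal q.out v := fun v => by
    simp only [τ, MonoidHom.finsetProd_apply]; rfl
  have h1 : ∀ v : V, (v : H) ∈ centralizer (S : Set H) → (τ v : H) ∈ center H := by
    intro v hv
    rw [mem_center_iff]
    intro g
    have h2 : MulAut.conjNormal g (τ v) = τ v := by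
      rw [hτ, map_prod, ← Equiv.prod_comp (MulAction.toPerm g)
        (fun q : H ⧸ S => MulAut.conjNormal q.out v)]
      refine Finset.prod_congr rfl fun q _ => Subtype.ext ?_
      have h3 := hv _ (CfsgLib.Transfer.out_smul_inv_mul_mem g q)
      simp only [MulAut.conjNormal_apply, MulAction.toPerm_apply]
      calc g * (q.out * v * q.out⁻¹) * g⁻¹
          = (g • q).out * (((g • q).out⁻¹ * g * q.out) * v) * q.out⁻¹ * g⁻¹ := by group
        _ = (g • q).out * v * (g • q).out⁻¹ := by rw [h3]; group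
    have h4 : g * τ v * g⁻¹ = τ v := congrArg Subtype.val h2
    rwa [mul_inv_eq_iff_eq_mul] at h4
  have h2 : ∀ v : V, (v : H) ∈ center H → τ v = v ^ S.index := by
    intro v hv
    rw [hτ, Finset.prod_congr rfl (g := fun _ => v) fun q _ => Subtype.ext (by
      simp [mem_center_iff.1 hv q.out]), Finset.prod_const, Finset.card_univ, index,
      Nat.card_eq_fintype_card]
  have hi : ¬ p ∣ S.index := by simpa using hS.not_dvd_relIndex
  let e := hVp.powEquiv' hi
  refine ⟨τ.ker.map V.subtype ⊓ (S ⊓ centralizer (S : Set H)), inf_le_right, ?_, fun z hz => ?_⟩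
  · rw [eq_bot_iff]
    rintro _ ⟨h3, ⟨v, hv, rfl⟩, -⟩
    have h4 : e v = e 1 := by
      change v ^ S.index = 1 ^ S.index
      rw [← h2 v h3, one_pow]; exact hv
    rw [e.injective h4]
    exact one_mem _
  · let w := e.symm (τ ⟨z, hZV hz⟩)
    have h3 : (w : H) ∈ center H := zpow_mem (h1 ⟨z, hZV hz⟩ hz.2) _
    have h4 : (w : H) ∈ S := hQS w.2.1
    refine ⟨w, ⟨h4, h3⟩, ⟨w⁻¹ * ⟨z, hZV hz⟩, ?_, rfl⟩,
      (S ⊓ centralizer (S : Set H)).mul_mem
        (inv_mem (mem_inf.2 ⟨h4, center_le_centralizer _ h3⟩)) hz⟩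
    have h5 : w ^ S.index = τ ⟨z, hZV hz⟩ := e.apply_symm_apply _
    rw [SetLike.mem_coe, MonoidHom.mem_ker, map_mul, map_inv, h2 w h3, h5, inv_mul_cancel]

/-- Let S be a Sylow p-subgroup of the finite group G and suppose that the centre Z(S) lies in O_{p',p}(G). The elements of S each of which is its only G-conjugate in S form a subgroup W of Z(S); W is then a direct factor of Z(S): there is a subgroup K of Z(S) with W ∩ K = 1 and WK = Z(S). -/
theorem result {G : Type*} [Group G] [Finite G] {p : ℕ} [Fact p.Prime] (S : Sylow p G)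
    (hZ : ((S : Subgroup G) ⊓ Subgroup.centralizer ((S : Subgroup G) : Set G)) ≤ Cfsg.pPrimePCore p G) :
    ∃ W K : Subgroup G, (∀ x : G, x ∈ W ↔ (x ∈ (S : Subgroup G) ∧ ∀ g : G, g * x * g⁻¹ ∈ (S : Subgroup G) → g * x * g⁻¹ = x)) ∧
      K ≤ ((S : Subgroup G) ⊓ Subgroup.centralizer ((S : Subgroup G) : Set G)) ∧ W ⊓ K = ⊥ ∧ W ⊔ K = ((S : Subgroup G) ⊓ Subgroup.centralizer ((S : Subgroup G) : Set G)) := by
  set f := QuotientGroup.mk' (Cfsg.pPrimeCore p G) with hf
  have hfs : Function.Surjective f := QuotientGroup.mk'_surjective _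
  have hk : (Nat.card f.ker).Coprime p := CfsgLib.PLocal.Constr.coprime_ker_mk'
  have hinj : ∀ x ∈ (S : Subgroup G), ∀ y ∈ (S : Subgroup G), f x = f y → x = y := by
    intro x hx y hy e
    have h1 : x⁻¹ * y ∈ (S : Subgroup G) ⊓ f.ker :=
      mem_inf.2 ⟨mul_mem (inv_mem hx) hy, by rw [MonoidHom.mem_ker, map_mul, map_inv, e,
        inv_mul_cancel]⟩
    rwa [CfsgLib.Core.isPGroup_inf_eq_bot_of_coprime S.isPGroup' hk, mem_bot, inv_mul_eq_one] at h1
  have hS : IsSylowIn p ((S : Subgroup G).map f) ⊤ := by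
    have := (isSylowIn_top S).map f
    rwa [← MonoidHom.range_eq_map, MonoidHom.range_eq_top.2 hfs] at this
  have hlift : ∀ x ∈ (S : Subgroup G),
      f x ∈ centralizer (((S : Subgroup G).map f : Subgroup _) : Set _) →
      x ∈ centralizer ((S : Subgroup G) : Set G) := fun x hx h =>
    CfsgLib.PLocal.Constr.mem_centralizer_of_coprime_ker hk S.isPGroup' (le_normalizer hx) h
  obtain ⟨K, h1, h2, h3⟩ := split hS (by
    rintro _ ⟨⟨x, hx, rfl⟩, h⟩
    exact hZ ⟨hx, hlift x hx h⟩)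
  refine ⟨(S : Subgroup G) ⊓ (center _).comap f, (S : Subgroup G) ⊓ K.comap f, fun x => ?_,
    fun x hx => ⟨hx.1, hlift x hx.1 (h1 hx.2).2⟩, ?_, le_antisymm (sup_le ?_ ?_) ?_⟩
  · refine and_congr_right fun hx => ⟨fun h g hg => hinj _ hg _ hx ?_, fun h => ?_⟩
    · rw [map_mul, map_mul, map_inv, mem_center_iff.1 h (f g), mul_inv_cancel_right]
    · have hxZ : x ∈ centralizer ((S : Subgroup G) : Set G) := fun s hs => by
        have := h s (mul_mem (mul_mem hs hx) (inv_mem hs))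
        rwa [mul_inv_eq_iff_eq_mul] at this
      have hxO : f x ∈ Cfsg.pCore p _ := hZ ⟨hx, hxZ⟩
      refine mem_center_iff.2 fun q => ?_
      obtain ⟨g, rfl⟩ := hfs q
      have h4 : g * x * g⁻¹ ∈ f.ker ⊔ (S : Subgroup G) := by
        rw [sup_comm, ← comap_map_eq, mem_comap, map_mul, map_mul, map_inv]
        exact hS.le_of_le_normalizer isPGroup_pCore le_top le_normalizer_of_normal
          ((inferInstance : (Cfsg.pCore p _).Normal).conj_mem _ hxO _)
      have h5 : IsSylowIn p (S : Subgroup G) (f.ker ⊔ (S : Subgroup G)) :=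
        isSylowIn_of_le S le_sup_right
      have h6 : IsPGroup p (zpowers (g * x * g⁻¹)) :=
        (isPGroup_conjS S.isPGroup' g).to_le (zpowers_le.2 (conj_mem_conjS.2 hx))
      obtain ⟨y, hy, h7⟩ := h5.exists_conj_le h6 (zpowers_le.2 h4)
      obtain ⟨o, ho, s, hs, rfl⟩ := mem_sup_of_normal_right.1 (sup_comm f.ker _ ▸ hy)
      have h8 := h7 (conj_mem_conjS.2 (mem_zpowers _))
      have h9 : s * g * x * (s * g)⁻¹ ∈ (S : Subgroup G) := by
        have := mul_mem (mul_mem (inv_mem ho) h8) ho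
        simpa [mul_assoc] using this
      have h10 := congrArg f (h _ h9)
      rw [map_mul, map_inv, map_mul, map_mul, MonoidHom.mem_ker.1 hs, one_mul,
        mul_inv_eq_iff_eq_mul] at h10
      exact h10
  · rw [eq_bot_iff]
    rintro x ⟨⟨hx, h4⟩, -, h5⟩
    have h6 : f x ∈ center _ ⊓ K := ⟨h4, h5⟩
    rw [h2, mem_bot, ← map_one f] at h6
    exact hinj _ hx _ (one_mem _) h6
  · exact fun x hx => ⟨hx.1, hlift x hx.1 (center_le_centralizer _ hx.2)⟩
  · exact fun x hx => ⟨hx.1, hlift x hx.1 (h1 hx.2).2⟩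
  · intro z hz
    obtain ⟨_, ⟨⟨w, hw, rfl⟩, h4⟩, h5⟩ := h3 (f z) ⟨mem_map_of_mem f hz.1,
      map_le_centralizer_map f (inf_le_right : _ ⊓ _ ≤ _) (mem_map_of_mem f hz)⟩
    rw [← mul_inv_cancel_left w z]
    refine mul_mem (mem_sup_left ⟨hw, h4⟩)
      (mem_sup_right (mem_inf.2 ⟨mul_mem (inv_mem hw) (mem_inf.1 hz).1, ?_⟩))
    rwa [mem_comap, map_mul, map_inv]

end Cfsg.Agent.S1944
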