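import Cfsg.Statements.S1948
import Cfsg.Agent.Lib.PLocal.Constrained
import Cfsg.Agent.Lib.Core.Cores
import Cfsg.Agent.Lib.Tech.SylowIn

set_option autoImplicit false
open Cfsg

namespace Cfsg.Agent.S1948

open Subgroup CfsgLib.Tech CfsgLib.PLocal


/-- Let S be a Sylow p-subgroup of the finite group G. Then G = N_G(S)·O_{p'}(G) if and only if G is p-constrained and N_G(S) controls fusion in S, in the sense that whenever a subgroup Q of S has a conjugate g Q g⁻¹ inside S, the element g is a product n c with n normalizing S and c centralizing Q. -/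
theorem result {G : Type*} [Group G] [Finite G] {p : ℕ} [Fact p.Prime] (S : Sylow p G) :
    Subgroup.normalizer ((S : Subgroup G) : Set G) ⊔ Cfsg.pPrimeCore p G = ⊤ ↔
      (Cfsg.IsPConstrained p G ∧
        ∀ Q : Subgroup G, Q ≤ (S : Subgroup G) → ∀ g : G, Q.map (MulAut.conj g).toMonoidHom ≤ (S : Subgroup G) →
          ∃ n ∈ Subgroup.normalizer ((S : Subgroup G) : Set G), ∃ c ∈ Subgroup.centralizer (Q : Set G), g = n * c) := by
  have hD := CfsgLib.Core.coprime_card_pPrimeCore p G
  constructor
  · intro h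
    have hdec : ∀ g : G, ∃ n ∈ normalizer ((S : Subgroup G) : Set G), ∃ d ∈ pPrimeCore p G,
        n * d = g := fun g => mem_sup_of_normal_right.1 (h ▸ mem_top g)
    constructor
    · apply Constr.isPConstrained_of_isPSolvable
      refine PSolv.of_normal_of_quotient (pPrimeCore p G) (PSolv.of_coprime hD) ?_
      let S' := S.mapSurjective (QuotientGroup.mk'_surjective (pPrimeCore p G))
      have hS' : (S' : Subgroup (G ⧸ pPrimeCore p G)).Normal := by
        rw [← normalizer_eq_top_iff, eq_top_iff]
        intro x _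
        obtain ⟨g, rfl⟩ := QuotientGroup.mk'_surjective _ x
        obtain ⟨n, hn, d, hd, rfl⟩ := hdec g
        rw [map_mul, (QuotientGroup.eq_one_iff d).2 hd |> fun e => (e : QuotientGroup.mk' _ d = 1),
          mul_one]
        exact le_normalizer_map _ ⟨n, hn, rfl⟩
      refine PSolv.of_normal_of_quotient (S' : Subgroup _) (PSolv.of_isPGroup S'.isPGroup')
        (PSolv.of_coprime ?_)
      exact ((Nat.Prime.coprime_iff_not_dvd Fact.out).2 S'.not_dvd_index).symm
    · intro Q hQ g hg
      obtain ⟨n, hn, d, hd, rfl⟩ := hdec g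
      refine ⟨n, hn, d, mem_centralizer_iff.2 fun q hq => ?_, rfl⟩
      have h1 : d * q * d⁻¹ ∈ (S : Subgroup G) := by
        have := conj_mem_of_mem_normalizer' hn (cj_le_iff.1 hg q hq)
        simpa [mul_assoc] using this
      have h2 : d * q * d⁻¹ * q⁻¹ ∈ (S : Subgroup G) ⊓ pPrimeCore p G := by
        refine ⟨Subgroup.mul_mem _ h1 (Subgroup.inv_mem _ (hQ hq)), ?_⟩
        have := Subgroup.mul_mem _ hd
          ((pPrimeCore_normal p G).conj_mem _ (Subgroup.inv_mem _ hd) q)
        simpa [mul_assoc] using this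
      rw [CfsgLib.Core.isPGroup_inf_eq_bot_of_coprime S.isPGroup' hD, mem_bot, mul_inv_eq_one,
        mul_inv_eq_iff_eq_mul] at h2
      exact h2.symm
  · rintro ⟨hc, hf⟩
    have hN := Constr.pPrimePCore_normal (G := G) (p := p)
    have hsyl : IsSylowIn p ((S : Subgroup G) ⊓ pPrimePCore p G) (pPrimePCore p G) :=
      sylow_inf_normal S _
    have hsup : (S : Subgroup G) ⊓ pPrimePCore p G ⊔ pPrimeCore p G = pPrimePCore p G := by
      rw [← hsyl.map_toSylow]
      exact Constr.sylow_sup_pPrimeCore _
    have hle : pPrimePCore p G ≤ normalizer ((S : Subgroup G) : Set G) ⊔ pPrimeCore p G := by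
      rw [← hsup]
      exact sup_le_sup_right (inf_le_left.trans le_normalizer) _
    have hc' := hc hsyl.toSylow
    rw [hsyl.map_toSylow] at hc'
    rw [eq_top_iff]
    intro g _
    obtain ⟨k, hk, hk'⟩ := hsyl.frattini (g := g) (by rw [normalizer_eq_top]; trivial)
    obtain ⟨n, hn, c, hcc, e⟩ := hf _ inf_le_left (k * g)
      ((mem_normalizer_iff_cj.1 hk').le.trans inf_le_left)
    rw [← Subgroup.mul_mem_cancel_left _ (hle hk), e]
    exact Subgroup.mul_mem _ (mem_sup_left hn) (hle (hc' hcc))

end Cfsg.Agent.S1948
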