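import Cfsg.Statements.S1949
import Cfsg.Agent.Lib.Tech.SmallCrit

set_option autoImplicit false
open Cfsg

namespace Cfsg.Agent.S1949

open Subgroup CfsgLib.PGroup

/-- Let P be a finite p-group and G a group of automorphisms of P containing the inner automorphisms. Then there is a G-invariant subgroup D of P, contained in the subgroup generated by the elements x⁻¹α(x) with x in P and α in O^p(G), of exponent dividing p when p is odd and dividing 4 when p = 2, with [D, P] ≤ Z(D), such that every automorphism in G of order prime to p that fixes D elementwise is the identity; moreover every maximal abelian subgroup A of D is normal in P and every automorphism in G fixing A elementwise has p-power order. -/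
theorem result {P : Type*} [Group P] [Finite P] {p : ℕ} [Fact p.Prime] (hP : IsPGroup p P)
    (G : Subgroup (MulAut P)) (hG : Cfsg.Inn P ≤ G) :
    ∃ D : Subgroup P,
      (∀ α ∈ G, D.map α.toMonoidHom = D) ∧
      D ≤ Subgroup.closure {y : P | ∃ α ∈ Cfsg.pResidual p ↥G, ∃ x : P, y = x⁻¹ * (α : MulAut P) x} ∧
      (∀ d ∈ D, d ^ p = 1 ∨ (p = 2 ∧ d ^ 4 = 1)) ∧
      ⁅D, (⊤ : Subgroup P)⁆ ≤ D ⊓ Subgroup.centralizer (D : Set P) ∧
      (∀ α ∈ G, (orderOf α).Coprime p → (∀ d ∈ D, α d = d) → α = 1) ∧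
      ∀ A : Subgroup P, A ≤ D → IsMulCommutative ↥A →
        (∀ B : Subgroup P, A ≤ B → B ≤ D → IsMulCommutative ↥B → B = A) →
        A.Normal ∧ ∀ α ∈ G, (∀ a ∈ A, α a = a) → ∃ k : ℕ, orderOf α = p ^ k := by
  obtain ⟨C, hC, h1, h2, h3⟩ := CfsgLib.Tech.exists_critical_small hP
  set K := Subgroup.closure
    {y : P | ∃ α ∈ Cfsg.pResidual p ↥G, ∃ x : P, y = x⁻¹ * (α : MulAut P) x} with hK
  have hres := CfsgLib.Transfer.pResidual_normal p G
  have hKinv : ∀ β ∈ G, K ≤ K.comap β.toMonoidHom := by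
    intro β hβ
    rw [hK, closure_le]
    rintro _ ⟨α, hα, x, rfl⟩
    refine subset_closure ⟨_, hres.conj_mem α hα ⟨β, hβ⟩, β x, ?_⟩
    simp
  have hDinv : ∀ β ∈ G, ∀ d ∈ C ⊓ K, β d ∈ C ⊓ K := fun β hβ d hd =>
    ⟨apply_mem_of_characteristic β hd.1, hKinv β hβ hd.2⟩
  have hDn : (C ⊓ K).Normal := ⟨fun d hd g => hDinv (MulAut.conj g) (hG ⟨g, rfl⟩) d hd⟩
  have hcom : ⁅C ⊓ K, (⊤ : Subgroup P)⁆ ≤ (C ⊓ K) ⊓ centralizer ((C ⊓ K : Subgroup P) : Set P) :=
    le_inf (commutator_le_left _ _) (commutator_le.2 fun x hx g _ =>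
      centralizer_le (SetLike.coe_subset_coe.2 inf_le_left) (h2 x hx.1 g).2)
  have hfaith : ∀ α ∈ G, (orderOf α).Coprime p → (∀ d ∈ C ⊓ K, α d = d) → α = 1 := by
    intro α hα hc hd
    refine h3 α hc fun x hx => aut_apply_eq_of_fix' hP hc (hd _ ⟨?_, ?_⟩)
    · exact C.mul_mem (C.inv_mem hx) (apply_mem_of_characteristic α hx)
    · exact subset_closure ⟨⟨α, hα⟩,
        CfsgLib.Transfer.mem_pResidual_of_coprime (by rwa [orderOf_mk]), x, rfl⟩
  refine ⟨C ⊓ K, fun α hα => ?_, inf_le_right, fun d hd => h1 d hd.1, hcom, hfaith,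
    fun A hAD hA hmax => ?_⟩
  · refine le_antisymm (map_le_iff_le_comap.2 fun d hd => hDinv α hα d hd) fun d hd => ?_
    exact ⟨_, hDinv α⁻¹ (inv_mem hα) d hd, by simp⟩
  have hself : ∀ d ∈ C ⊓ K, d ∈ centralizer (A : Set P) → d ∈ A := by
    intro d hd hdA
    have h4 : A ⊔ zpowers d ≤ centralizer ((A ⊔ zpowers d : Subgroup P) : Set P) := by
      rw [CfsgLib.LAE.centralizer_sup]
      refine le_inf (sup_le (le_centralizer A) (zpowers_le.2 hdA))
        (sup_le (le_centralizer_iff.1 (zpowers_le.2 hdA)) (le_centralizer _))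
    rw [← hmax (A ⊔ zpowers d) le_sup_left (sup_le hAD (zpowers_le.2 hd))
      (le_centralizer_iff_isMulCommutative.1 h4)]
    exact mem_sup_right (mem_zpowers d)
  have hAn : A.Normal := ⟨fun a ha g => by
    have h4 := hcom (commutator_mem_commutator (hAD (inv_mem ha)) (mem_top g))
    have h5 := mul_mem ha (hself _ h4.1 (centralizer_le (SetLike.coe_subset_coe.2 hAD) h4.2))
    simpa [commutatorElement_def, mul_assoc] using h5⟩
  refine ⟨hAn, fun α hα hfix => ?_⟩
  obtain ⟨k, hk⟩ := CfsgLib.Transfer.exists_pow_coprime (p := p) α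
  have hfix' : ∀ a ∈ A, (α ^ p ^ k) a = a := fun a ha => by
    induction p ^ k with
    | zero => simp
    | succ m ih => rw [pow_succ, MulAut.mul_apply, hfix a ha, ih]
  have h4 := hfaith _ (pow_mem hα _) hk fun d hd => aut_apply_eq_of_fix' hP hk
    (hfix' _ (hself _ (mul_mem (inv_mem hd) (hDinv _ (pow_mem hα _) d hd)) fun a ha =>
      commute_of_aut_fix (hfix' a ha) (hfix' _ (hAn.conj_mem a ha d))))
  obtain ⟨j, -, hj⟩ := (Nat.dvd_prime_pow Fact.out).1 (orderOf_dvd_of_pow_eq_one h4)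
  exact ⟨j, hj⟩

end Cfsg.Agent.S1949
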