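import Cfsg.Statements.S1951
import Cfsg.Agent.Lib.Fis.Count
import Cfsg.Agent.Lib.Perm.MultiTransDiag

set_option autoImplicit false
open Cfsg

namespace Cfsg.Agent.S1951

/-- Let p be a prime and P a nontrivial elementary abelian Sylow p-subgroup of a finite nonabelian simple group G whose nonidentity elements are all conjugate in G. Suppose that two elements of P are conjugate in G only if they are conjugate in N_G(P), that the centralizer of every element of order p of P has a normal p-complement, and that every two elements of order p of G generate a p-solvable subgroup. Then p = 2. -/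
theorem result {G : Type*} [Group G] [Finite G] [IsSimpleGroup G] (hG : ¬ IsMulCommutative G) {p : ℕ} [Fact p.Prime] (P : Sylow p G)
    (hP1 : (P : Subgroup G) ≠ ⊥) (hPe : Cfsg.IsElementaryAbelian p (P : Subgroup G))
    (hconj : ∀ x ∈ (P : Subgroup G), ∀ y ∈ (P : Subgroup G), x ≠ 1 → y ≠ 1 → ∃ g : G, g * x * g⁻¹ = y)
    (ha : ∀ x ∈ (P : Subgroup G), ∀ y ∈ (P : Subgroup G), (∃ g : G, g * x * g⁻¹ = y) →
      ∃ n ∈ Subgroup.normalizer ((P : Subgroup G) : Set G), n * x * n⁻¹ = y)
    (hb : ∀ x ∈ (P : Subgroup G), orderOf x = p → Cfsg.HasNormalPComplement p ↥(Subgroup.centralizer ({x} : Set G)))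
    (hc : ∀ x y : G, orderOf x = p → orderOf y = p → Cfsg.IsPSolvable p ↥(Subgroup.closure ({x, y} : Set G))) :
    p = 2 := by
  by_contra h2
  have H : CfsgLib.Fis.Hyp P P := ⟨le_rfl, hP1, @Subgroup.le_centralizer _ _ _ hPe.1, hPe.2, fun _ _ _ h => h,
    fun x hx => by
      obtain ⟨g, -, hg⟩ := (CfsgLib.Tech.IsSylowIn.of_sylow_top P).exists_conj_mem (Subgroup.mem_top x)
        (CfsgLib.Tech.isPGroup_zpowers_iff.2 ⟨1, by rw [hx, pow_one]⟩)
      have := hb _ hg (by rw [← hx]; exact (MulAut.conj g).orderOf_eq x)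
      rw [← CfsgLib.Tech.cj_centralizer_singleton] at this
      exact CfsgLib.Transfer.hasNormalPComplement_of_mulEquiv this (CfsgLib.Tech.cjEquiv g _).symm⟩
  obtain ⟨k, hk⟩ := IsPGroup.iff_card.1 P.isPGroup'
  exact CfsgLib.Perm.not_hasNormalPComplement_of_isSimpleGroup hG
    ((hk ▸ dvd_pow_self p fun e => hP1 (Subgroup.card_eq_one.1 (by rw [hk, e, pow_zero]))).trans
      (Subgroup.card_subgroup_dvd_card _))
    (H.npc_of_odd hc h2 fun N hN h => hN.eq_bot_or_eq_top.resolve_left fun e => hP1 (le_bot_iff.1 (e ▸ h)))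

end Cfsg.Agent.S1951
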