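import Cfsg.Statements.S1952
import Cfsg.Agent.Lib.Transfer.Yoshida

set_option autoImplicit false
open Cfsg

namespace Cfsg.Agent.S1952

open Subgroup Cfsg CfsgLib.LAE CfsgLib.Transfer

/-- Let P be a finite p-group with a normal elementary abelian subgroup A of index p, and let x ∈ A and y ∈ P with y outside A. If the product of the p conjugates y^(-i) x y^i (i = 0, …, p−1) is not the identity, then the wreath product Z_p ≀ Z_p, realised as a Sylow p-subgroup of the symmetric group of degree p², is a homomorphic image of P. -/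
theorem result {P : Type*} [Group P] [Finite P] {p : ℕ} [Fact p.Prime] (hP : IsPGroup p P) (A : Subgroup P) [A.Normal]
    (hA : Cfsg.IsElementaryAbelian p A) (hidx : A.index = p) (x y : P) (hx : x ∈ A) (hy : y ∉ A)
    (hprod : ((List.range p).map (fun i => (y ^ i)⁻¹ * x * y ^ i)).prod ≠ 1) :
    ∃ (Q : Sylow p (Equiv.Perm (Fin (p ^ 2)))) (f : P →* ↥(Q : Subgroup (Equiv.Perm (Fin (p ^ 2))))), Function.Surjective f := by
  classical
  have hc : ∀ i : ℕ, (y ^ i)⁻¹ * x * y ^ i ∈ A := fun i => (inferInstance : A.Normal).conj_mem' x hx _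
  have hl : ∀ n : ℕ, ((List.range n).map (fun i => (y ^ i)⁻¹ * x * y ^ i)).prod ∈ A := fun n =>
    A.list_prod_mem (by
      intro g hg
      obtain ⟨i, -, rfl⟩ := List.mem_map.1 hg
      exact hc i)
  have hAp := hP.to_subgroup A
  have hF := (CfsgLib.Core.map_frattini_eq_bot_iff_of_isPGroup hAp).2 hA
  obtain ⟨M, hM, hwM⟩ : ∃ M : Subgroup A, IsCoatom M ∧ ⟨_, hl p⟩ ∉ M := by
    by_contra hn
    push Not at hn
    refine hprod (mem_bot.1 (hF.le ⟨⟨_, hl p⟩, ?_, rfl⟩))
    simp only [frattini, Order.radical, SetLike.mem_coe, mem_iInf]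
    exact hn
  have := CfsgLib.Core.normal_of_isCoatom_of_isPGroup hAp hM
  obtain ⟨χ, hχ⟩ := exists_hom_ker_eq_of_index
    (CfsgLib.Core.index_eq_of_isCoatom_of_isPGroup hAp hM)
  let ψ : P → Multiplicative (ZMod p) := fun g => if h : g ∈ A then χ ⟨g, h⟩ else 1
  have hψ1 : ∀ g (h : g ∈ A), ψ g = χ ⟨g, h⟩ := fun g h => dif_pos h
  have hψ : ∀ a ∈ A, ∀ b ∈ A, ψ (a * b) = ψ a * ψ b := fun a ha b hb => by
    rw [hψ1 _ (mul_mem ha hb), hψ1 a ha, hψ1 b hb, ← map_mul]; rfl
  refine exists_wreath_image hP hidx hψ hx (z := y) ?_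
  rw [← prod_conj_eq_iter hψ (le_normalizer_of_normal (mem_top y)) hx]
  have h1 : ∀ n : ℕ, ∏ i ∈ Finset.range n, ψ ((y ^ i)⁻¹ * x * y ^ i) =
      ψ ((List.range n).map (fun i => (y ^ i)⁻¹ * x * y ^ i)).prod := by
    intro n
    induction n with
    | zero =>
      simp only [Finset.range_zero, Finset.prod_empty, List.range_zero, List.map_nil, List.prod_nil]
      rw [hψ1 1 (one_mem _)]
      exact (map_one χ).symm
    | succ n ih =>
      rw [Finset.prod_range_succ, ih, List.range_succ, List.map_append, List.prod_append,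
        List.map_singleton, List.prod_singleton, hψ _ (hl n) _ (hc n)]
  rw [h1, hψ1 _ (hl p)]
  rwa [← hχ] at hwM

end Cfsg.Agent.S1952
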