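import Mathlib
import Cfsg.Statements.S1953
import Cfsg.Agent.Lib.ZJ.Soluble

set_option autoImplicit false
open Cfsg

namespace Cfsg.Agent.S1953

/-- Let p be an odd prime and P a Sylow p-subgroup of the finite group G, and suppose that for no p-subgroup Q of G does N_G(Q)/C_G(Q) have a section isomorphic to SL₂(p). Call a subgroup Q of P centric-radical when Z(Q) is a Sylow p-subgroup of C_G(Q) and the only normal subgroup X of N_G(Q) containing Q·C_G(Q) such that the index of Q·C_G(Q) in X is a power of p is Q·C_G(Q) itself (that is, N_G(Q)/Q·C_G(Q) has no nontrivial normal p-subgroup). Then there is a centric-radical subgroup Q of P contained in every centric-radical subgroup of P; it is normal in P, and N_G(Q) controls strong fusion in P: whenever a subgroup A of P has g A g⁻¹ ≤ P, the element g is a product h c with h in N_G(Q) and c centralizing A. -/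
theorem result {G : Type*} [Group G] [Finite G] {p : ℕ} [Fact p.Prime] (hp : p ≠ 2) (P : Sylow p G)
    (hfree : ∀ Q : Subgroup G, IsPGroup p ↥Q → ¬ ∃ (H K : Subgroup G) (_ : (K.subgroupOf H).Normal),
      Subgroup.centralizer (Q : Set G) ≤ K ∧ K ≤ H ∧ H ≤ Subgroup.normalizer (Q : Set G) ∧
      Nonempty ((↥H ⧸ K.subgroupOf H) ≃* Matrix.SpecialLinearGroup (Fin 2) (ZMod p)))
    (cr : Subgroup G → Prop)
    (hcr : ∀ Q : Subgroup G, cr Q ↔ (Q ≤ (P : Subgroup G) ∧
      (∃ R : Sylow p ↥(Subgroup.centralizer (Q : Set G)),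
        (R : Subgroup ↥(Subgroup.centralizer (Q : Set G))).map (Subgroup.centralizer (Q : Set G)).subtype = Q ⊓ Subgroup.centralizer (Q : Set G)) ∧
      ∀ X : Subgroup G, X ≤ Subgroup.normalizer (Q : Set G) →
        (∀ n ∈ Subgroup.normalizer (Q : Set G), X.map (MulAut.conj n).toMonoidHom = X) →
        Q ⊔ Subgroup.centralizer (Q : Set G) ≤ X → (∃ k : ℕ, (Q ⊔ Subgroup.centralizer (Q : Set G)).relIndex X = p ^ k) →
        X = Q ⊔ Subgroup.centralizer (Q : Set G))) :
    ∃ Q : Subgroup G, cr Q ∧ (∀ R : Subgroup G, cr R → Q ≤ R) ∧ (∀ x ∈ (P : Subgroup G), Q.map (MulAut.conj x).toMonoidHom = Q) ∧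
      ∀ A : Subgroup G, A ≤ (P : Subgroup G) → ∀ g : G, A.map (MulAut.conj g).toMonoidHom ≤ (P : Subgroup G) →
        ∃ h ∈ Subgroup.normalizer (Q : Set G), ∃ c ∈ Subgroup.centralizer (A : Set G), g = h * c := by
  open CfsgLib.ZJ CfsgLib.CFun CfsgLib.Tech in
  have hS := IsSylowIn.of_sylow_top P
  obtain ⟨Q, h1, h2, h3, h4, h5⟩ := exists_centric_radical_fusGen hp (fun h => by
    obtain ⟨Q, hQ, h'⟩ := exists_automizer_SL2_of_involves_qd h
    exact hfree Q hQ h') hS
  refine ⟨Q, (hcr Q).2 ⟨h1, ?_, fun X a b c d => h5 X a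
    (fun n hn => mem_normalizer_iff_cj.2 (b n hn)) c d⟩, fun R hR => ?_,
    fun x hx => mem_normalizer_iff_cj.1 (h2 hx), fun A hA g hg => ?_⟩
  · have h6 := (hS.of_le h2 le_top).inf_of_le_normalizer
      (CfsgLib.Core.normalizer_le_normalizer_centralizer (Q : Set G))
    rw [inf_eq_right.2 (cent_le_norm Q)] at h6
    exact ⟨h6.toSylow, h6.map_toSylow.trans
      (le_antisymm (le_inf h4 inf_le_right) (inf_le_inf_right _ h1))⟩
  · obtain ⟨k1, ⟨T, k2⟩, k3⟩ := (hcr R).1 hR
    exact le_of_fusGen_of_centric_radical P.isPGroup' h1 h2 h3 k1 (k2 ▸ IsSylowIn.of_sylow_subgroup T)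
      fun Y a b c d => k3 Y a (fun n hn => mem_normalizer_iff_cj.1 (b hn)) c d
  · obtain ⟨x, hx, e⟩ := fusGen_subgroup_iff.1 h3 A g trivial hA (by
      rintro _ ⟨a, ha, rfl⟩
      exact hg ⟨a, ha, rfl⟩)
    refine ⟨x, hx, x⁻¹ * g, mem_cent_iff.2 fun a ha => ?_, by group⟩
    calc x⁻¹ * g * a * (x⁻¹ * g)⁻¹ = x⁻¹ * (g * a * g⁻¹) * x := by group
      _ = a := by rw [← e a ha]; group

end Cfsg.Agent.S1953
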