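import Cfsg.Statements.S1954
import Cfsg.Agent.Lib.Transfer.ClosedChain

set_option autoImplicit false
open Cfsg

namespace Cfsg.Agent.S1954

open Subgroup CfsgLib.Tech

/-- `N_N(X)` controls strong fusion in `T` with respect to `N`. -/
def Ctrl {G : Type*} [Group G] (N T X : Subgroup G) : Prop :=
  X ≤ T ∧ ∀ A : Subgroup G, A ≤ T → ∀ n ∈ N, cj n A ≤ T →
    ∃ h ∈ N ⊓ normalizer (X : Set G), ∃ c ∈ N ⊓ centralizer (A : Set G), n = h * c

section
variable {G : Type*} [Group G] {N T X Y : Subgroup G}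

theorem cj_mul_of_centralizer {A : Subgroup G} (h : G) {c : G} (hc : c ∈ centralizer (A : Set G)) :
    cj (h * c) A = cj h A := by
  rw [cj_mul, mem_normalizer_iff_cj.1 (centralizer_le_normalizer _ hc)]

theorem Ctrl.sup (hX : Ctrl N T X) (hY : Ctrl N T Y) : Ctrl N T (X ⊔ Y) := by
  refine ⟨sup_le hX.1 hY.1, fun A hA n hn h => ?_⟩
  obtain ⟨h₁, hh₁, c₁, hc₁, rfl⟩ := hX.2 A hA n hn h
  rw [cj_mul_of_centralizer h₁ hc₁.2] at h
  obtain ⟨h₂, hh₂, c₂, hc₂, rfl⟩ := hY.2 (A ⊔ X) (sup_le hA hX.1) h₁ hh₁.1 (by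
    rw [cj_sup, mem_normalizer_iff_cj.1 hh₁.2]; exact sup_le h hX.1)
  have h3 := mem_inf.1 hc₂
  rw [CfsgLib.LAE.centralizer_sup] at h3
  refine ⟨h₂, ⟨hh₂.1, ?_⟩, c₂ * c₁, mul_mem ⟨h3.1, h3.2.1⟩ hc₁, mul_assoc _ _ _⟩
  have h4 : h₂ ∈ normalizer (X : Set G) :=
    ((normalizer (X : Set G)).mul_mem_cancel_right (centralizer_le_normalizer _ h3.2.2)).1 hh₁.2
  exact CfsgLib.LAE.le_normalizer_sup (zpowers_le.2 h4) (zpowers_le.2 hh₂.2) (mem_zpowers _)

theorem Ctrl.bot : Ctrl N T ⊥ :=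
  ⟨bot_le, fun _ _ n hn _ => ⟨n, ⟨hn, le_normalizer_of_normal (mem_top n)⟩, 1, one_mem _,
    (mul_one n).symm⟩⟩

theorem Ctrl.conj [hN : N.Normal] (hX : Ctrl N T X) {x : G} (hx : x ∈ normalizer (T : Set G)) :
    Ctrl N T (cj x X) := by
  have hx' := mem_normalizer_iff_cj.1 (inv_mem hx)
  refine ⟨(cj_mono x hX.1).trans (mem_normalizer_iff_cj.1 hx).le, fun A hA n hn h => ?_⟩
  obtain ⟨h₁, hh₁, c₁, hc₁, e⟩ := hX.2 (cj x⁻¹ A) ((cj_mono _ hA).trans hx'.le) (x⁻¹ * n * x)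
    (hN.conj_mem' n hn x) (by
      rw [← cj_mul, mul_inv_cancel_right, cj_mul]; exact (cj_mono _ h).trans hx'.le)
  refine ⟨x * h₁ * x⁻¹, ⟨hN.conj_mem _ hh₁.1 x, ?_⟩, x * c₁ * x⁻¹, ⟨hN.conj_mem _ hc₁.1 x, ?_⟩, ?_⟩
  · have := (conj_mem_cj (g := x)).2 (mem_inf.1 hh₁).2
    rwa [cj_normalizer] at this
  · have := (conj_mem_cj (g := x)).2 (mem_inf.1 hc₁).2
    rwa [cj_centralizer, cj_cj_inv] at this
  · calc n = x * (x⁻¹ * n * x) * x⁻¹ := by group
      _ = _ := by rw [e]; group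

end

/-- Let N be a normal subgroup of the finite group G, P a Sylow p-subgroup of G, and V a subgroup of P ∩ N normal in P ∩ N such that N_N(V) controls strong fusion in P ∩ N with respect to N (whenever a subgroup A of P ∩ N has n A n⁻¹ ≤ P ∩ N for some n in N, then n = h c with h in N_N(V) and c in C_N(A)). Let W be the subgroup generated by the conjugates of V under N_G(P ∩ N). Then N_G(W) controls strong fusion in P with respect to G. -/
theorem result {G : Type*} [Group G] [Finite G] {p : ℕ} [Fact p.Prime] (N : Subgroup G) [N.Normal] (P : Sylow p G) (V : Subgroup G)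
    (hV : V ≤ (P : Subgroup G) ⊓ N) (hVn : ∀ x ∈ (P : Subgroup G) ⊓ N, V.map (MulAut.conj x).toMonoidHom = V)
    (hctrl : ∀ A : Subgroup G, A ≤ (P : Subgroup G) ⊓ N → ∀ n ∈ N, A.map (MulAut.conj n).toMonoidHom ≤ (P : Subgroup G) ⊓ N →
      ∃ h ∈ N ⊓ Subgroup.normalizer (V : Set G), ∃ c ∈ N ⊓ Subgroup.centralizer (A : Set G), n = h * c)
    (W : Subgroup G) (hW : W = Subgroup.closure (⋃ x ∈ Subgroup.normalizer (((P : Subgroup G) ⊓ N : Subgroup G) : Set G),
      ((V.map (MulAut.conj x).toMonoidHom : Subgroup G) : Set G))) :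
    ∀ A : Subgroup G, A ≤ (P : Subgroup G) → ∀ g : G, A.map (MulAut.conj g).toMonoidHom ≤ (P : Subgroup G) →
        ∃ h ∈ Subgroup.normalizer (W : Set G), ∃ c ∈ Subgroup.centralizer (A : Set G), g = h * c := by
  set T := (P : Subgroup G) ⊓ N with hT
  have hTs := sylow_inf_normal P N
  have hW' : W = ⨆ x : normalizer (T : Set G), cj (x : G) V := by
    rw [hW, iSup_eq_closure, Set.iUnion_subtype]
  have hWc : Ctrl N T W := by
    have := Fintype.ofFinite (normalizer (T : Set G))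
    rw [hW', ← Finset.sup_univ_eq_iSup]
    exact Finset.sup_induction Ctrl.bot (fun _ h1 _ h2 => h1.sup h2)
      fun x _ => Ctrl.conj ⟨hV, hctrl⟩ x.2
  have hMW : normalizer (T : Set G) ≤ normalizer (W : Set G) := by
    intro y hy
    refine mem_normalizer_of_cj_le ?_
    rw [hW', cj, Subgroup.map_iSup]
    refine iSup_le fun z => le_iSup_of_le (⟨y, hy⟩ * z) ?_
    rw [← cj, ← cj_mul]
    exact le_rfl
  have hL : ∀ i, normalizer (W : Set G) ≤ normalizer (W.lowerCentralSeries i : Set G) := by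
    intro i
    induction i with
    | zero => exact le_rfl
    | succ i ih => exact CfsgLib.LAE.le_normalizer_commutator ih le_rfl
  have hLW : ∀ i, W.lowerCentralSeries i ≤ W := fun i =>
    Subgroup.lowerCentralSeries_antitone W (Nat.zero_le i)
  have hsc : ∀ i, Cfsg.IsStronglyClosed (W.lowerCentralSeries i) (P : Subgroup G) := by
    intro i
    refine ⟨(hLW i).trans (hWc.1.trans inf_le_left), fun z hz g hg => ?_⟩
    obtain ⟨n, hn, h1⟩ := hTs.frattini (g := g) (le_normalizer_of_normal (mem_top g))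
    have h2 := conj_mem_of_mem_normalizer (hL i (hMW h1)) hz
    have h3 : g * z * g⁻¹ ∈ T :=
      ⟨hg, (inferInstance : N.Normal).conj_mem _ (hWc.1 (hLW i hz)).2 g⟩
    have e : n⁻¹ * (n * g * z * (n * g)⁻¹) * n⁻¹⁻¹ = g * z * g⁻¹ := by group
    obtain ⟨h, hh, c, hc, e2⟩ := hWc.2 (zpowers (n * g * z * (n * g)⁻¹))
      (zpowers_le.2 (hWc.1 (hLW i h2))) n⁻¹ (inv_mem hn) (by
        rw [cj_zpowers, e]; exact zpowers_le.2 h3)
    have h4 := (mem_inf.1 hc).2 _ (mem_zpowers _)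
    have h5 := conj_mem_of_mem_normalizer (hL i hh.2) h2
    rw [← e, e2]
    generalize n * g * z * (n * g)⁻¹ = w at h4 h5
    have : h * c * w * (h * c)⁻¹ = h * w * h⁻¹ := by rw [mul_assoc h, ← h4]; group
    rwa [this]
  obtain ⟨n, hn⟩ := (isNilpotent_iff_lowerCentralSeries W).1
    (P.isPGroup'.to_le (hWc.1.trans inf_le_left)).isNilpotent
  intro A hA g hg
  obtain ⟨u, hu, h⟩ := CfsgLib.Transfer.controls_of_closed_chain P (W := W)
    (fun i => W.lowerCentralSeries (n - i)) (n := n) hn (by simp) (fun i => hsc _) (fun i => by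
      rw [commutator_comm, ← Subgroup.lowerCentralSeries_succ]
      exact Subgroup.lowerCentralSeries_antitone _ (by omega)) A g hA hg
  refine ⟨u, hu, u⁻¹ * g, fun a ha => ?_, by group⟩
  calc a * (u⁻¹ * g) = u⁻¹ * (u * a * u⁻¹) * g := by group
    _ = u⁻¹ * g * a := by rw [← h a ha]; group

end Cfsg.Agent.S1954
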