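import Cfsg.Statements.S1956
import Cfsg.Agent.Lib.Tech.SylowIn

set_option autoImplicit false
open Cfsg

namespace Cfsg.Agent.S1956

open CfsgLib.Tech


/-- Let P be a Sylow p-subgroup of the finite group G such that every element of P of order dividing p (dividing 4 when p = 2) is central in P. Then the fusion of these elements is controlled by N_G(P): if such an element a of P has g a g⁻¹ in P, then g = n c with n normalizing P and c commuting with a. -/
theorem result {G : Type*} [Group G] [Finite G] {p : ℕ} [Fact p.Prime] (P : Sylow p G)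
    (hcen : ∀ a ∈ (P : Subgroup G), (a ^ p = 1 ∨ (p = 2 ∧ a ^ 4 = 1)) → ∀ y ∈ (P : Subgroup G), a * y = y * a) :
    ∀ a ∈ (P : Subgroup G), (a ^ p = 1 ∨ (p = 2 ∧ a ^ 4 = 1)) → ∀ g : G, g * a * g⁻¹ ∈ (P : Subgroup G) →
      ∃ n ∈ Subgroup.normalizer ((P : Subgroup G) : Set G), ∃ c : G, c * a = a * c ∧ g = n * c := by
  intro a ha hap g hg
  set b := g * a * g⁻¹ with hb
  have hbp : b ^ p = 1 ∨ (p = 2 ∧ b ^ 4 = 1) := by
    rcases hap with h | ⟨h1, h⟩
    · left; rw [hb, conj_pow, h]; group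
    · right; refine ⟨h1, ?_⟩; rw [hb, conj_pow, h]; group
  have h1 : (P : Subgroup G) ≤ Subgroup.centralizer ({b} : Set G) := by
    intro y hy
    rw [Subgroup.mem_centralizer_singleton_iff]
    exact (hcen b hg hbp y hy).symm
  have h2 : cj g (P : Subgroup G) ≤ Subgroup.centralizer ({b} : Set G) := by
    rw [hb, ← cj_centralizer_singleton]
    apply cj_mono
    intro y hy
    rw [Subgroup.mem_centralizer_singleton_iff]
    exact (hcen a ha hap y hy).symm
  obtain ⟨c, hc, e⟩ := (IsSylowIn.of_sylow (g • P) h2).exists_cj_eq (IsSylowIn.of_sylow P h1)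
  rw [coe_smul_sylow, ← cj_mul, ← mem_normalizer_iff_cj] at e
  rw [Subgroup.mem_centralizer_singleton_iff, hb] at hc
  refine ⟨c * g, e, g⁻¹ * c⁻¹ * g, ?_, by group⟩
  have : c⁻¹ * (g * a * g⁻¹) = (g * a * g⁻¹) * c⁻¹ := by
    rw [inv_mul_eq_iff_eq_mul, ← mul_assoc, hc]; group
  calc g⁻¹ * c⁻¹ * g * a = g⁻¹ * (c⁻¹ * (g * a * g⁻¹)) * g := by group
    _ = g⁻¹ * ((g * a * g⁻¹) * c⁻¹) * g := by rw [this]
    _ = _ := by group

end Cfsg.Agent.S1956
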