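import Cfsg.Statements.S2001
import Cfsg.Agent.Lib.CFun.KInf
import Cfsg.Agent.Lib.CFun.LocalGlobal

set_option autoImplicit false
open Cfsg

namespace Cfsg.Agent.S2001

open CfsgLib CfsgLib.CFun CfsgLib.Tech Subgroup

theorem zc_le_zc_norm {G : Type*} [Group G] {S T : Subgroup G} (hT : T ≤ S) (h : zc S ≤ T) :
    zc S ≤ zc (S ⊓ 𝐍(T)) :=
  le_inf (le_inf (h.trans hT) (h.trans le_normalizer)) (inf_le_right.trans (cent_anti inf_le_left))

theorem sylow_ne_bot {G : Type*} [Group G] [Finite G] {p : ℕ} [Fact p.Prime]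
    (hdiv : p ∣ Nat.card G) (P : Sylow p G) : (P : Subgroup G) ≠ ⊥ := by
  intro h
  have := P.not_dvd_index
  rw [h, index_bot] at this
  exact this hdiv


/-- Let p be a prime dividing the order of the finite group G, P a Sylow p-subgroup, W a conjugacy functor for p on G with Z(H) ≤ W(H) for every nontrivial p-subgroup H, and V a central functor: a conjugacy functor with V(H) ≤ Z(H), and V(H) ≤ V(K) whenever Z(H) ≤ Z(K), for nontrivial p-subgroups H, K. Say that W with V controls transfer in a subgroup L when some Sylow p-subgroup Q of L satisfies Q ∩ L' = (Q ∩ (N_L(W(Q)))')·(Q ∩ (C_L(V(Q)))') as a product of two subgroups. If W with V controls transfer in N_G(H) for every subgroup H with Z(P) ≤ H ≤ P, then W with V controls transfer in G. -/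
theorem result {G : Type*} [Group G] [Finite G] {p : ℕ} [Fact p.Prime] (hdiv : p ∣ Nat.card G) (P : Sylow p G) (W V : Subgroup G → Subgroup G) (hW : Cfsg.IsConjugacyFunctor p W) (hV : Cfsg.IsConjugacyFunctor p V) (hWZ : ∀ H : Subgroup G, IsPGroup p ↥H → H ⊓ Subgroup.centralizer ((H : Subgroup G) : Set G) ≤ W H) (hVZ : ∀ H : Subgroup G, IsPGroup p ↥H → V H ≤ H ⊓ Subgroup.centralizer ((H : Subgroup G) : Set G)) (hVmono : ∀ H K : Subgroup G, IsPGroup p ↥H → IsPGroup p ↥K → H ≠ ⊥ → K ≠ ⊥ → H ⊓ Subgroup.centralizer ((H : Subgroup G) : Set G) ≤ K ⊓ Subgroup.centralizer ((K : Subgroup G) : Set G) → V H ≤ V K) (hloc : ∀ H : Subgroup G, (P : Subgroup G) ⊓ Subgroup.centralizer (((P : Subgroup G) : Subgroup G) : Set G) ≤ H → H ≤ (P : Subgroup G) → ∃ Q : Subgroup G, Q ≤ Subgroup.normalizer ((H : Subgroup G) : Set G) ∧ IsPGroup p ↥Q ∧ ¬ p ∣ (Q).relIndex (Subgroup.normalizer ((H : Subgroup G) : Set G)) ∧ ∀ x : G, x ∈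 Q ⊓ ⁅Subgroup.normalizer ((H : Subgroup G) : Set G), Subgroup.normalizer ((H : Subgroup G) : Set G)⁆ ↔ ∃ a ∈ Q ⊓ ⁅Subgroup.normalizer ((H : Subgroup G) : Set G) ⊓ Subgroup.normalizer ((W Q : Subgroup G) : Set G), Subgroup.normalizer ((H : Subgroup G) : Set G) ⊓ Subgroup.normalizer ((W Q : Subgroup G) : Set G)⁆, ∃ b ∈ Q ⊓ ⁅Subgroup.normalizer ((H : Subgroup G) : Set G) ⊓ Subgroup.centralizer ((V Q : Subgroup G) : Set G), Subgroup.normalizer ((H : Subgroup G) : Set G) ⊓ Subgroup.centralizer ((V Q : Subgroup G) : Set G)⁆, x = a * b) : ∃ Q : Subgroup G, IsPGroup p ↥Q ∧ ¬ p ∣ Q.index ∧ ∀ x : G, x ∈ Q ⊓ commutator G ↔ ∃ a ∈ Q ⊓ ⁅Subgroup.normalizer ((W Q : Subgroup G) : Set G), Subgroup.normalizer ((W Q : Subgroup G) : Set G)⁆, ∃ b ∈ Q ⊓ ⁅Subgroup.centralizer ((V Q : Subgroup G) : Set G), Subgroup.centralizer ((V Q : Subgroup G) : Set G)⁆, x = a * b := by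
  have hS := IsSylowIn.of_sylow_top P
  have hP := sylow_ne_bot hdiv P
  have hZ : zc (P : Subgroup G) ≠ ⊥ := zc_ne_bot P.2 hP
  set A := (P : Subgroup G) ⊓ ⁅𝐍(W P), 𝐍(W P)⁆ with hA
  set B := (P : Subgroup G) ⊓ ⁅𝐂(V P), 𝐂(V P)⁆ with hB
  have key := le_of_tower hW hS (fun T => zc (P : Subgroup G) ≤ T)
    (fun T hT h => (zc_le_zc_norm hT.le h).trans (hWZ _ hT.extremal.pgroup)) (F := A ⊔ B)
    (by rw [top_inf_eq]; exact le_sup_left) (fun T hT h => by
      obtain ⟨Q, h1, h2, h3, h4⟩ := hloc T h hT.le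
      have hE := hT.extremal
      rw [top_inf_eq] at hE ⊢
      rw [top_inf_eq]
      obtain ⟨g, hg, hgQ⟩ := IsSylowIn.exists_cj_eq ⟨h1, h2, h3⟩ hE
      have hV' : V P ≤ V ((P : Subgroup G) ⊓ 𝐍(T)) := hVmono _ _ P.2 hE.pgroup hP
        (fun e => hZ (le_bot_iff.1 ((h.trans (le_inf hT.le le_normalizer)).trans e.le)))
        (zc_le_zc_norm hT.le h)
      have h5 : Q ⊓ ⁅𝐍(T), 𝐍(T)⁆ ≤ (Q ⊓ ⁅𝐍(W Q), 𝐍(W Q)⁆) ⊔ (Q ⊓ ⁅𝐂(V Q), 𝐂(V Q)⁆) := by
        intro x hx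
        obtain ⟨a, ha, b, hb, rfl⟩ := (h4 x).1 hx
        exact mul_mem (mem_sup_left ⟨ha.1, commutator_mono inf_le_right inf_le_right ha.2⟩)
          (mem_sup_right ⟨hb.1, commutator_mono inf_le_right inf_le_right hb.2⟩)
      have h6 := cj_mono g h5
      rw [cj_sup, cj_inf, cj_inf, cj_inf, cj_commutator, cj_commutator, cj_commutator,
        cj_eq_of_mem hg, cj_normalizer, cj_centralizer, ← cf_cj hW h2, ← cf_cj hV h2, hgQ] at h6
      refine h6.trans (sup_le_sup_left (le_sup_of_le_right ?_) _)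
      exact inf_le_inf inf_le_left (commutator_mono (cent_anti hV') (cent_anti hV')))
  have h1 : (P : Subgroup G) ⊓ ⁅(⊤ : Subgroup G), ⊤⁆ ≤ A ⊔ B := by
    refine focal_le_of_alperin_centric hS _ (exists_wp' hW hS)
      fun T hT hwp _ hc _ x hx a ha => ?_
    have h1 : x * a * x⁻¹ ∈ T := conj_mem_of_mem_normalizer hx.2 ha
    exact key T hwp ((inf_le_inf_left _ (cent_anti hT)).trans hc)
      ⟨le_inf hT le_normalizer (T.mul_mem h1 (T.inv_mem ha)),
        conj_mul_inv_mem_commutator hx ⟨hS.le (hT ha), le_normalizer ha⟩⟩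
  refine ⟨P, P.2, P.not_dvd_index, fun x => ⟨fun hx => ?_, ?_⟩⟩
  · have h2 : x ∈ ((A ⊔ B : Subgroup G) : Set G) := h1 hx
    have h3 : A ≤ 𝐍(B) := by
      intro y hy
      rw [mem_normalizer_iff_cj, hB, cj_inf, cj_commutator, cj_centralizer,
        cj_eq_of_mem hy.1, cj_eq_of_mem_norm (cf_le_norm hV P.2 hy.1)]
    rw [coe_mul_of_left_le_normalizer_right _ _ h3] at h2
    obtain ⟨a, ha, b, hb, rfl⟩ := h2
    exact ⟨a, ha, b, hb, rfl⟩
  · rintro ⟨a, ha, b, hb, rfl⟩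
    exact ⟨mul_mem ha.1 hb.1, mul_mem (commutator_mono le_top le_top ha.2)
      (commutator_mono le_top le_top hb.2)⟩

end Cfsg.Agent.S2001
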