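import Cfsg.Statements.S2002
import Cfsg.Agent.Lib.CFun.KInf
import Cfsg.Agent.Lib.CFun.LocalGlobal
import Cfsg.Agent.S2001

set_option autoImplicit false
open Cfsg

namespace Cfsg.Agent.S2002

open CfsgLib CfsgLib.CFun CfsgLib.Tech Subgroup

theorem reach_of_list {G : Type*} [Group G] {K : Set G} {S A : Subgroup G} (l : List G)
    (h1 : ∀ b ∈ l, b⁻¹ ∈ K) (h2 : ∀ k ≤ l.length, cj ((l.take k).prod)⁻¹ A ≤ S) :
    Reach K S A (l.prod)⁻¹ := by
  induction l using List.reverseRecOn with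
  | nil => simpa using Reach.one
  | append_singleton l b ih =>
    have h3 := h2 _ le_rfl
    rw [List.take_length] at h3
    rw [List.prod_append, List.prod_singleton, mul_inv_rev] at h3 ⊢
    refine Reach.step (ih (fun c hc => h1 c (by simp [hc])) fun k hk => ?_) (h1 b (by simp)) h3
    have := h2 k (by simp; omega)
    rwa [List.take_append_of_le_length hk] at this

theorem list_of_reach {G : Type*} [Group G] {K : Set G} {S A : Subgroup G} (hA : A ≤ S) {h : G}
    (hr : Reach K S A h) : ∃ c ∈ 𝐂(A), ∃ l : List G, (∀ b ∈ l, b⁻¹ ∈ K) ∧ h⁻¹ = c * l.prod ∧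
      ∀ k ≤ l.length, cj ((l.take k).prod)⁻¹ A ≤ S := by
  induction hr with
  | triv hc => exact ⟨_, inv_mem hc, [], by simp, by simp, fun k _ => by simpa [cj_one] using hA⟩
  | @step x h _ hx hxh ih =>
    obtain ⟨c, hc, l, h1, h2, h3⟩ := ih
    refine ⟨c, hc, l ++ [x⁻¹], fun b hb => ?_, ?_, fun k hk => ?_⟩
    · rcases List.mem_append.1 hb with hb | hb
      · exact h1 b hb
      · rw [List.mem_singleton.1 hb, inv_inv]; exact hx
    · rw [mul_inv_rev, h2, List.prod_append, List.prod_singleton, mul_assoc]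
    · rcases Nat.lt_or_ge l.length k with h4 | h4
      · rw [List.take_of_length_le (by simp; omega), List.prod_append, List.prod_singleton,
          mul_inv_rev, inv_inv]
        have h5 : (l.prod)⁻¹ = h * c := by
          rw [← inv_inv h, h2]; group
        rw [h5, ← mul_assoc, cj_mul, cj_eq_of_mem_norm (cent_le_norm A hc)]
        exact hxh
      · rw [List.take_append_of_le_length h4]
        exact h3 k h4


/-- Let p be a prime dividing the order of the finite group G, P a Sylow p-subgroup, W a conjugacy functor for p on G with Z(H) ≤ W(H) for every nontrivial p-subgroup H, and V a central functor (a conjugacy functor with V(H) ≤ Z(H), and V(H) ≤ V(K) whenever Z(H) ≤ Z(K)). Say that W with V controls strong fusion in a subgroup L when some Sylow p-subgroup Q of L has the property: whenever X ⊆ Q and a ∈ L with a⁻¹Xa ⊆ Q, then a = c b with c ∈ C_L(X) and b = b₁ ⋯ bₙ a product of elements each in N_L(W(Q)) or in C_L(V(Q)) such that every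 partial conjugate (b₁ ⋯ bₖ)⁻¹ X (b₁ ⋯ bₖ) lies in Q. If W with V controls strong fusion in N_G(H) for every subgroup H with Z(P) ≤ H ≤ P, then W with V controls strong fusion in G. -/
theorem result {G : Type*} [Group G] [Finite G] {p : ℕ} [Fact p.Prime] (hdiv : p ∣ Nat.card G) (P : Sylow p G) (W V : Subgroup G → Subgroup G) (hW : Cfsg.IsConjugacyFunctor p W) (hV : Cfsg.IsConjugacyFunctor p V) (hWZ : ∀ H : Subgroup G, IsPGroup p ↥H → H ⊓ Subgroup.centralizer ((H : Subgroup G) : Set G) ≤ W H) (hVZ : ∀ H : Subgroup G, IsPGroup p ↥H → V H ≤ H ⊓ Subgroup.centralizer ((H : Subgroup G) : Set G)) (hVmono : ∀ H K : Subgroup G, IsPGroup p ↥H → IsPGroup p ↥K → H ≠ ⊥ → K ≠ ⊥ → H ⊓ Subgroup.centralizer ((H : Subgroup G) : Set G) ≤ K ⊓ Subgroup.centralizer ((K : Subgroup G) : Set G) → V H ≤ V K) (hloc : ∀ H : Subgroup G, (P : Subgroup G) ⊓ Subgroup.centralizer (((P : Subgroup G) : Subgroup G) : Set G) ≤ H → H ≤ (P : Subgroup G) → ∃ Q : Subgroup G, Q ≤ Subgroup.normalizer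 ((H : Subgroup G) : Set G) ∧ IsPGroup p ↥Q ∧ ¬ p ∣ (Q).relIndex (Subgroup.normalizer ((H : Subgroup G) : Set G)) ∧ ∀ (X : Set G) (a : G), X ⊆ Q → a ∈ Subgroup.normalizer ((H : Subgroup G) : Set G) → (fun x => a⁻¹ * x * a) '' X ⊆ Q → ∃ c ∈ Subgroup.normalizer ((H : Subgroup G) : Set G) ⊓ Subgroup.centralizer X, ∃ (n : ℕ) (b : Fin n → G), (∀ i, b i ∈ Subgroup.normalizer ((H : Subgroup G) : Set G) ⊓ Subgroup.normalizer ((W Q : Subgroup G) : Set G) ∨ b i ∈ Subgroup.normalizer ((H : Subgroup G) : Set G) ⊓ Subgroup.centralizer ((V Q : Subgroup G) : Set G)) ∧ a = c * (List.ofFn b).prod ∧ ∀ k : ℕ, k ≤ n → (fun x => (((List.ofFn b).take k).prod)⁻¹ * x * ((List.ofFn b).take k).prod) '' ((fun x => c⁻¹ * x * c) '' X) ⊆ Q) : ∃ Q : Subgroup G, IsPGroup p ↥Q ∧ ¬ p ∣ Q.index ∧ ∀ (X : Set G) (a : G), X ⊆ Q → (fun x => a⁻¹ * x * a) '' X ⊆ Q → ∃ c ∈ Subgroup.centralizer X, ∃ (n : ℕ) (b : Fin n → G), (∀ i, b i ∈ ⊤ ⊓ Subgroup.normalizer ((W Q : Subgroup G) : Set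 G) ∨ b i ∈ ⊤ ⊓ Subgroup.centralizer ((V Q : Subgroup G) : Set G)) ∧ a = c * (List.ofFn b).prod ∧ ∀ k : ℕ, k ≤ n → (fun x => (((List.ofFn b).take k).prod)⁻¹ * x * ((List.ofFn b).take k).prod) '' ((fun x => c⁻¹ * x * c) '' X) ⊆ Q := by
  have hS := IsSylowIn.of_sylow_top P
  have hP := S2001.sylow_ne_bot hdiv P
  have hZ : zc (P : Subgroup G) ≠ ⊥ := zc_ne_bot P.2 hP
  set K : Set G := ↑𝐍(W P) ∪ ↑𝐂(V P) with hK
  have key := reach_of_tower hW hS (fun T => zc (P : Subgroup G) ≤ T)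
    (fun T hT h => (S2001.zc_le_zc_norm hT.le h).trans (hWZ _ hT.extremal.pgroup)) (K := K)
    (by rw [top_inf_eq]; exact Set.subset_union_left) (fun T hT h => by
      obtain ⟨Q, h1, h2, h3, h4⟩ := hloc T h hT.le
      have hE := hT.extremal
      rw [top_inf_eq] at hE ⊢
      rw [top_inf_eq]
      obtain ⟨g, hg, hgQ⟩ := IsSylowIn.exists_cj_eq ⟨h1, h2, h3⟩ hE
      have hV' : V P ≤ V ((P : Subgroup G) ⊓ 𝐍(T)) := hVmono _ _ P.2 hE.pgroup hP
        (fun e => hZ (le_bot_iff.1 ((h.trans (le_inf hT.le le_normalizer)).trans e.le)))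
        (S2001.zc_le_zc_norm hT.le h)
      have h5 : FusGen (↑𝐍(W Q) ∪ ↑𝐂(V Q)) 𝐍(T) Q := by
        intro A hA y hy hyA
        obtain ⟨c, hc, n, b, hb, e, h6⟩ := h4 A y⁻¹ hA (inv_mem hy)
          (by simpa using image_subset_of_cj_le hyA)
        have h7 : Reach (↑𝐍(W Q) ∪ ↑𝐂(V Q)) Q A ((List.ofFn b).prod)⁻¹ := by
          refine reach_of_list _ (fun z hz => ?_) fun k hk => ?_
          · obtain ⟨i, rfl⟩ := List.mem_ofFn.1 hz
            exact (hb i).imp (fun h => inv_mem h.2) (fun h => inv_mem h.2)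
          · refine cj_le_iff.2 fun a ha => ?_
            rw [inv_inv]
            refine h6 k (by simpa using hk) ⟨a, ⟨a, ha, ?_⟩, rfl⟩
            simpa using mem_cent_iff.1 (inv_mem hc.2) a ha
        have h8 := h7.mul_cent (inv_mem hc.2)
        rwa [← mul_inv_rev, ← e, inv_inv] at h8
      have h6 := h5.cj g
      rw [cj_eq_of_mem hg, hgQ] at h6
      refine h6.mono ?_
      rintro _ ⟨x, hx | hx, rfl⟩
      · left
        rw [← hgQ, cf_cj hW h2, ← cj_normalizer]
        exact ⟨x, hx, rfl⟩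
      · right; right
        refine cent_anti hV' ?_
        rw [← hgQ, cf_cj hV h2, ← cj_centralizer]
        exact ⟨x, hx, rfl⟩)
  have h1 : FusGen K ⊤ (P : Subgroup G) := by
    refine fusGen_of_alperin_centric hS _ (exists_wp' hW hS) fun T hT hwp _ hc _ x hx => ?_
    exact key T hwp ((inf_le_inf_left _ (cent_anti hT)).trans hc) T (le_inf hT le_normalizer) x hx
      (by rw [cj_eq_of_mem_norm hx.2]; exact le_inf hT le_normalizer)
  refine ⟨P, P.2, P.not_dvd_index, fun X a hX haX => ?_⟩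
  have hA : Subgroup.closure X ≤ (P : Subgroup G) := (Subgroup.closure_le _).2 hX
  obtain ⟨c, hc, l, h2, h3, h4⟩ := list_of_reach hA
    (h1 _ hA a⁻¹ (mem_top _) (cj_closure_le (by simpa using haX)))
  rw [inv_inv] at h3
  refine ⟨c, centralizer_le Subgroup.subset_closure hc, l.length, l.get, fun i => ?_,
    by rw [List.ofFn_get, h3], fun k hk => ?_⟩
  · rcases h2 _ (List.get_mem l i) with h | h
    · exact Or.inl ⟨mem_top _, (inv_mem_iff (S := Subgroup G)).1 h⟩
    · exact Or.inr ⟨mem_top _, (inv_mem_iff (S := Subgroup G)).1 h⟩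
  · rw [List.ofFn_get]
    rintro _ ⟨_, ⟨x, hx, rfl⟩, rfl⟩
    have h5 := cj_le_iff.1 (h4 k hk) x (subset_closure hx)
    have h6 := mem_cent_iff.1 (inv_mem hc) x (subset_closure hx)
    rw [inv_inv] at h5 h6
    simp only [h6]
    exact h5

end Cfsg.Agent.S2002
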