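import Cfsg.Statements.S2015
import Cfsg.Agent.Lib.CFun.KInfMain

set_option autoImplicit false
universe u
open Cfsg

namespace Cfsg.Agent.S2015

open CfsgLib CfsgLib.CFun CfsgLib.Tech Subgroup

/-- For p ≥ 5, every finite p-group P has a characteristic subgroup K containing Z(P), depending only on P, whose normalizer controls transfer wherever P is a Sylow subgroup: for every finite group G and every embedding ι of P onto a Sylow p-subgroup of G, the intersection of ι(P) with the derived subgroup of G equals its intersection with the derived subgroup of N_G(ι(K)). -/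
theorem result (p : ℕ) [Fact p.Prime] (hp : 5 ≤ p) (P : Type u) [Group P] [Finite P] (hP : IsPGroup p P) : ∃ K : Subgroup P, K.Characteristic ∧ Subgroup.center P ≤ K ∧ ∀ (G : Type u) [Group G] [Finite G] (ι : P →* G), Function.Injective ι → (∃ T : Sylow p G, (T : Subgroup G) = ι.range) → ι.range ⊓ commutator G = ι.range ⊓ (commutator ↥(Subgroup.normalizer ((K.map ι : Subgroup G) : Set G))).map (Subgroup.normalizer ((K.map ι : Subgroup G) : Set G)).subtype := by
  refine ⟨Cfsg.kInfLower P, ?_, ?_, ?_⟩
  · rw [characteristic_iff_map_eq]
    exact fun φ => (isCharPFunctor_kInfLower p).2 P P hP φ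
  · rw [kInfLower_eq]
    exact le_trans (le_inf le_top (center_le_centralizer _)) (zc_le_kLoIn ⊤)
  · rintro G _ _ ι hι ⟨T, hT⟩
    have := (controlsTransferIn_iff (isConjugacyFunctor_induced (isCharPFunctor_kInfLower p))
      (IsSylowIn.of_sylow_top T)).1 (trCtl_singleton_iff.1 (trCtl_of_kinf (X := G) hp (Or.inl rfl)))
    rw [top_inf_eq, inducedFunctor_kInfLower, hT] at this
    rw [map_subtype_commutator, kInfLower_eq, map_kLoIn hι, ← MonoidHom.range_eq_map]
    exact le_antisymm (le_inf inf_le_left this) (inf_le_inf_left _ (commutator_mono le_top le_top))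

end Cfsg.Agent.S2015
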