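import Mathlib
import Cfsg.Statements.S2128
import Cfsg.Agent.Lib.ChevAut.TwOut

set_option autoImplicit false
open Cfsg

namespace Cfsg.Agent.S2128

/-- Outer automorphisms of the large Ree groups: for q = 2^(2m+1) with m ≥ 1 the outer automorphism group of ²F₄(q) has order 2m + 1 (field automorphisms only). -/
theorem result {K : Type*} [Field K] [Fintype K] {m : ℕ} (hm : 1 ≤ m) (hK : Fintype.card K = 2 ^ (2 * m + 1)) : Nat.card (Cfsg.Out ↥(Cfsg.Lie.twistedF4 K (2 ^ m))) = 2 * m + 1 := by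
  obtain ⟨_, θ, h1, h2⟩ := CfsgLib.Twist.exists_theta hK
  rw [CfsgLib.ChevAut.card_out_twF4 h1 h2 (by
    rw [hK]; exact le_trans (by norm_num) (Nat.pow_le_pow_right two_pos (show 2 ≤ 2 * m + 1 by omega))),
    CfsgLib.ChevAut.card_ringAut 2 _ hK]

end Cfsg.Agent.S2128
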