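import Cfsg.Statements.S2150
import Cfsg.Agent.Lib.MinIdx.O6C
import Cfsg.Agent.Lib.OrthE.Embed
import Cfsg.Agent.S0303

set_option autoImplicit false
open Cfsg

namespace Cfsg.Agent.S2150

/-- Minimal index of a proper subgroup of the four-dimensional unitary groups: for a field F with q² elements, every proper subgroup of PSU₄(q) has index at least (q + 1)(q³ + 1), and that index is attained. -/
theorem result {F : Type*} [Field F] [Fintype F] (q : ℕ) (hF : Fintype.card F = q ^ 2) (hq : 2 ≤ q) : (∀ H : Subgroup (Cfsg.PSU 4 F q), H ≠ ⊤ → (q + 1) * (q ^ 3 + 1) ≤ H.index) ∧ (∃ H : Subgroup (Cfsg.PSU 4 F q), H.index = (q + 1) * (q ^ 3 + 1)) := by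
  open CfsgLib.MinIdx CfsgLib.OrthE Module in
  obtain ⟨p, hp⟩ := CharP.exists F
  obtain ⟨n, hpp, hn⟩ := FiniteField.card F p
  have : Fact p.Prime := ⟨hpp⟩
  obtain ⟨k, -, hk⟩ := (Nat.dvd_prime_pow hpp).1 (show q ∣ p ^ (n : ℕ) by
    rw [← hn, hF]; exact Dvd.intro _ (pow_two q).symm)
  have hk0 : k ≠ 0 := by rintro rfl; simp at hk; omega
  have := Fintype.ofFinite (GaloisField p k)
  have hK : Fintype.card (GaloisField p k) = q := by
    rw [← Nat.card_eq_fintype_card, GaloisField.card p k hk0, hk]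
  obtain ⟨a, b, hab⟩ := exists_anisotropic (GaloisField p k)
  obtain ⟨e⟩ := Cfsg.Agent.S0303.result hK hF a b hab
  have hQ := nondeg_qMinus (F := GaloisField p k) 2 hab
  have hd : finrank (GaloisField p k) ((Fin 2 ⊕ Fin 2) ⊕ Fin 2 → GaloisField p k) = 6 := by simp
  obtain ⟨r, rfl⟩ : ∃ r, q = r + 1 := ⟨q - 1, by omega⟩
  have hr : Nat.card (GaloisField p k) = r + 1 := by rw [Nat.card_eq_fintype_card, hK]
  have hh := hyp_qMinus (F := GaloisField p k) (m := 2) a b ⟨0, by omega⟩
  have h1 := om_index_sing hQ (by omega) hh.e_ne hh.he hr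
  have h3 := card_zeros_qMinus (F := GaloisField p k) 2 hab
  have h4 : Nat.card {v // qMinus (GaloisField p k) 2 a b v = 0} =
      (r + 2) * ((r + 1) ^ 3 + 1) * r + 1 := by
    zify; rw [h3, hr]; push_cast; ring
  have h5 := Nat.eq_of_mul_eq_mul_right (by omega : 0 < r) (Nat.add_right_cancel (h1.trans h4))
  obtain ⟨h6, H, h7⟩ := pomega_min (qMinus_eq _ a b) hQ (by omega)
    (om_lower6 hQ hd (fun S hS => finrank_le_of_ts_qMinus hab hS) hr h4.ge) h5
  exact min_index_of_surjective e.toMonoidHom e.surjective h6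
    ⟨H, fun g hg => by rw [(MonoidHom.ker_eq_bot_iff _).2 e.injective] at hg; simp [Subgroup.mem_bot.1 hg], h7⟩

end Cfsg.Agent.S2150
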