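import Mathlib
import Cfsg.Statements.S2163
import Cfsg.Agent.Lib.Inv2.Lin
-- import your own Cfsg.Agent.* helpers here

set_option autoImplicit false
open Cfsg

namespace Cfsg.Agent.S2163

/-- Over a finite field of characteristic two and for n ≥ 3: for every ℓ with 1 ≤ ℓ and 2ℓ ≤ n, the matrix j_ℓ that is the identity plus the entries 1 in positions (n − ℓ + i, i) for i < ℓ (an identity block of size ℓ in the lower left corner) lies in SL_n(F), has order 2, and j_ℓ − 1 has rank ℓ. Together with the conjugacy criterion by rank, these matrices represent the conjugacy classes of involutions of SL_n(F). -/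
theorem result {F : Type*} [Field F] [Fintype F] [CharP F 2] {n : ℕ} (hn : 3 ≤ n) (ℓ : ℕ) (h1 : 1 ≤ ℓ) (h2 : 2 * ℓ ≤ n) :
    ∃ a : Matrix.SpecialLinearGroup (Fin n) F, (a : Matrix (Fin n) (Fin n) F) = 1 + Matrix.of (fun i j : Fin n => if j.val < ℓ ∧ i.val = j.val + (n - ℓ) then (1 : F) else 0) ∧ orderOf a = 2 ∧ ((a : Matrix (Fin n) (Fin n) F) - 1).rank = ℓ := by
  open CfsgLib.Inv2 Matrix in
  obtain ⟨a, h3, h4, h5, h6⟩ := exists_SL_of_sq_zero
    (N := shiftMat F n ℓ (n - ℓ) * (shiftMat F n ℓ 0)ᵀ)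
    (by rw [Matrix.mul_assoc, ← Matrix.mul_assoc _ᵀ, shiftMat_transpose_mul (by omega)]; simp) h1
    (rank_mul_eq (shiftMat_transpose_mul_self (by omega)) (shiftMat_transpose_mul_self (by omega)))
  refine ⟨a, h3.trans (congrArg _ ?_), orderOf_eq_prime ((pow_two a).trans h4) h5, h6⟩
  ext i j
  simp [shiftMat_mul_transpose]

end Cfsg.Agent.S2163
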