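import Cfsg.Statements.S2164
import Cfsg.Agent.Lib.MatConj.Unitary
import Cfsg.Agent.S2162

set_option autoImplicit false
open Cfsg

namespace Cfsg.Agent.S2164

open CfsgLib.MatConj

/-- Conjugacy of involutions in the special unitary group SU_n(q), q even, n ≥ 3, realised over the field F with q² elements as the matrices of determinant 1 preserving the form Σ u_i v_i^q: for two elements of order 2 of SU_n(q) the following are equivalent — they are conjugate in SU_n(q); they are conjugate in SL_n(F); the matrices a − 1 and b − 1 have the same rank. -/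
theorem result {F : Type*} [Field F] [Fintype F] [CharP F 2] {n q : ℕ} (hF : Fintype.card F = q ^ 2) (hn : 3 ≤ n) (a b : ↥(Cfsg.SU n F q)) (ha : orderOf a = 2) (hb : orderOf b = 2) :
    (IsConj a b ↔ IsConj (a : Matrix.SpecialLinearGroup (Fin n) F) (b : Matrix.SpecialLinearGroup (Fin n) F)) ∧
    (IsConj a b ↔ (((a : Matrix.SpecialLinearGroup (Fin n) F) : Matrix (Fin n) (Fin n) F) - 1).rank = (((b : Matrix.SpecialLinearGroup (Fin n) F) : Matrix (Fin n) (Fin n) F) - 1).rank) := by
  have ha' : orderOf (a : Matrix.SpecialLinearGroup (Fin n) F) = 2 := by rwa [Subgroup.orderOf_coe]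
  have hb' : orderOf (b : Matrix.SpecialLinearGroup (Fin n) F) = 2 := by rwa [Subgroup.orderOf_coe]
  have h1 : IsConj a b ↔ IsConj (a : Matrix.SpecialLinearGroup (Fin n) F)
      (b : Matrix.SpecialLinearGroup (Fin n) F) := by
    refine ⟨fun h => (Cfsg.SU n F q).subtype.map_isConj h, fun h => ?_⟩
    refine isConj_SU_of_isConj hF a b (isConj_coe_SL h) fun ν hν => ?_
    have ha2 := Cfsg.Agent.S2162.sq_eq_zero ha'
    have : Nonempty (Fin n) := ⟨⟨0, by omega⟩⟩
    obtain ⟨x, hx⟩ := Multiset.exists_mem_of_ne_zero (edM_ne_zero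
      ((a : Matrix.SpecialLinearGroup (Fin n) F) : Matrix (Fin n) (Fin n) F))
    have hx' : x.2 ∈ jt _ := Multiset.mem_map_of_mem _ hx
    have h1 := jt_pos _ hx'
    have h2 := (sub_one_pow_eq_zero_iff ⟨2, ha2⟩ 2).1 ha2 _ hx'
    obtain h3 | h3 : x.2 = 1 ∨ x.2 = 2 := by omega
    · exact ⟨x, hx, ν, hν, by rw [h3, pow_one]⟩
    · obtain ⟨r, rfl⟩ := FiniteField.isSquare_of_char_two (ringChar.eq F 2) ν
      refine ⟨x, hx, r, ?_, by rw [h3, pow_two]⟩
      rw [mul_pow, mul_self_eq_one_iff, CharTwo.neg_eq, or_self] at hν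
      exact hν
  exact ⟨h1, h1.trans (Cfsg.Agent.S2162.result hn _ _ ha' hb')⟩

end Cfsg.Agent.S2164
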