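import Mathlib
import Cfsg.Statements.S2165
import Cfsg.Agent.Lib.Inv2.Lin
import Cfsg.Agent.Lib.Unitary.Basic
-- import your own Cfsg.Agent.* helpers here

set_option autoImplicit false
open Cfsg

namespace Cfsg.Agent.S2165

/-- In SU_n(q), q even, n ≥ 3 (matrices of determinant 1 over the field with q² elements preserving Σ u_i v_i^q): for every ℓ with 1 ≤ ℓ and 2ℓ ≤ n, the permutation matrix of the involution of {0, …, n−1} exchanging i and n − ℓ + i for each i < ℓ lies in SU_n(q), has order 2, and differs from the identity by a matrix of rank ℓ. So every rank between 1 and n/2 occurs for involutions of SU_n(q). -/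
theorem result {F : Type*} [Field F] [Fintype F] [CharP F 2] {n q : ℕ} (hF : Fintype.card F = q ^ 2) (hn : 3 ≤ n) (ℓ : ℕ) (h1 : 1 ≤ ℓ) (h2 : 2 * ℓ ≤ n) :
    ∃ a : ↥(Cfsg.SU n F q), (((a : Matrix.SpecialLinearGroup (Fin n) F) : Matrix (Fin n) (Fin n) F) = Matrix.of (fun i j : Fin n => if (j.val < ℓ ∧ i.val = j.val + (n - ℓ)) ∨ (i.val < ℓ ∧ j.val = i.val + (n - ℓ)) ∨ (i = j ∧ ℓ ≤ i.val ∧ i.val < n - ℓ) then (1 : F) else 0)) ∧ orderOf a = 2 ∧ ((((a : Matrix.SpecialLinearGroup (Fin n) F) : Matrix (Fin n) (Fin n) F)) - 1).rank = ℓ := by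
  open CfsgLib.Inv2 Matrix in
  have e1 := shiftMat_transpose_mul_self (F := F) (n := n) (l := ℓ) (c := 0) (by omega)
  have e2 := shiftMat_transpose_mul_self (F := F) (n := n) (l := ℓ) (c := n - ℓ) (by omega)
  have e3 := shiftMat_transpose_mul (F := F) (n := n) (l := ℓ) (c := 0) (d := n - ℓ) (by omega)
  have e4 := shiftMat_transpose_mul (F := F) (n := n) (l := ℓ) (c := n - ℓ) (d := 0) (by omega)
  set C := shiftMat F n ℓ 0 + shiftMat F n ℓ (n - ℓ) with hC
  have e5 : Cᵀ * C = 0 := by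
    rw [hC, transpose_add, Matrix.add_mul, Matrix.mul_add, Matrix.mul_add, e1, e2, e3, e4, add_zero,
      zero_add]
    ext i j; exact CharTwo.add_self_eq_zero _
  obtain ⟨a, h3, h4, h5, h6⟩ := exists_SL_of_sq_zero (N := C * Cᵀ)
    (by rw [Matrix.mul_assoc, ← Matrix.mul_assoc _ᵀ, e5]; simp) h1
    (rank_mul_eq (A' := (shiftMat F n ℓ 0)ᵀ) (B' := shiftMat F n ℓ 0)
      (by rw [hC, Matrix.mul_add, e1, e3, add_zero])
      (by rw [hC, transpose_add, Matrix.add_mul, e1, e4, add_zero]))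
  have h7 : (a : Matrix (Fin n) (Fin n) F) = Matrix.of (fun i j : Fin n =>
      if (j.val < ℓ ∧ i.val = j.val + (n - ℓ)) ∨ (i.val < ℓ ∧ j.val = i.val + (n - ℓ)) ∨
        (i = j ∧ ℓ ≤ i.val ∧ i.val < n - ℓ) then (1 : F) else 0) := by
    rw [h3, hC]
    ext i j
    simp only [transpose_add, Matrix.add_mul, Matrix.mul_add, Matrix.add_apply,
      shiftMat_mul_transpose, of_apply, one_apply, Fin.ext_iff]
    have := i.2
    have := j.2
    split_ifs <;> first | omega | simp [CharTwo.add_self_eq_zero]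
  have h8 : a ∈ Cfsg.SU n F q := by
    rw [CfsgLib.Unitary.mem_SU_iff hF]
    have h9 : (a : Matrix (Fin n) (Fin n) F)ᵀ = a := by rw [h3]; simp [transpose_mul]
    have h10 : (a : Matrix (Fin n) (Fin n) F).map (CfsgLib.Unitary.conj hF) = a := by
      rw [h7]; ext i j; simp only [map_apply, of_apply]; split_ifs <;> simp
    rw [h9, h10]
    exact congrArg Subtype.val h4
  exact ⟨⟨a, h8⟩, h7, orderOf_eq_prime ((pow_two _).trans (Subtype.ext h4))
    fun h => h5 (congrArg Subtype.val h), h6⟩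

end Cfsg.Agent.S2165
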