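import Mathlib
import Cfsg.Statements.S2166
import Cfsg.Agent.Lib.Inv2.Sp
-- import your own Cfsg.Agent.* helpers here

set_option autoImplicit false
open Cfsg

namespace Cfsg.Agent.S2166

/-- Conjugacy of involutions in the symplectic group Sp_{2m}(F), F a finite field of characteristic two, m ≥ 2 (Sp taken as the matrices A with A J Aᵀ = J, acting on column vectors, with the alternating form f(u, v) = u ⬝ (J v)). For an involution t write V(t) for the set of vectors v with f(v, t v) = 0 (a subspace). Two involutions a, b are conjugate in Sp_{2m}(F) exactly when a − 1 and b − 1 have the same rank and, in case that rank is even, V(a) and V(b) have the same number of elements. -/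
theorem result {F : Type*} [Field F] [Fintype F] [CharP F 2] {m : ℕ} (hm : 2 ≤ m) (a b : ↥(Matrix.symplecticGroup (Fin m) F)) (ha : orderOf a = 2) (hb : orderOf b = 2) :
    IsConj a b ↔ ((((a : ↥(Matrix.symplecticGroup (Fin m) F)) : Matrix (Fin m ⊕ Fin m) (Fin m ⊕ Fin m) F) - 1).rank = (((b : ↥(Matrix.symplecticGroup (Fin m) F)) : Matrix (Fin m ⊕ Fin m) (Fin m ⊕ Fin m) F) - 1).rank ∧
      (Even (((a : ↥(Matrix.symplecticGroup (Fin m) F)) : Matrix (Fin m ⊕ Fin m) (Fin m ⊕ Fin m) F) - 1).rank → Nat.card {v : Fin m ⊕ Fin m → F // Cfsg.sympForm m F v (Matrix.mulVec ((a : ↥(Matrix.symplecticGroup (Fin m) F)) : Matrix (Fin m ⊕ Fin m) (Fin m ⊕ Fin m) F) v) = 0} = Nat.card {v : Fin m ⊕ Fin m → F // Cfsg.sympForm m F v (Matrix.mulVec ((b : ↥(Matrix.symplecticGroup (Fin m) F)) : Matrix (Fin m ⊕ Fin m) (Fin m ⊕ Fin m) F) v) = 0})) := by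
  open CfsgLib.Inv2 CfsgLib.Forms in
  have ha2 : a ^ 2 = 1 := ha ▸ pow_orderOf_eq_one a
  have hb2 : b ^ 2 = 1 := hb ▸ pow_orderOf_eq_one b
  rw [← isConj_equiv_iff (spEquiv (Fin m) F), isConj_iff_typeA (spPQ_nondeg _ _) (sp_mul_self ha2)
    (sp_mul_self hb2), sp_finrank_mov, sp_finrank_mov]
  refine and_congr_right fun hr => ?_
  have hq : 1 < Fintype.card F := Fintype.one_lt_card
  have hq' : 0 < Fintype.card F ^ (2 * m) := by positivity
  by_cases h1 : TypeA (spPQ (Fin m) F) (spEquiv (Fin m) F a).1 <;>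
    by_cases h2 : TypeA (spPQ (Fin m) F) (spEquiv (Fin m) F b).1
  · simp only [h1, h2, sp_card_of_typeA h1, sp_card_of_typeA h2, implies_true]
  · have h3 := h1.even (spPQ_nondeg _ _) (spEquiv (Fin m) F a).2
    rw [sp_finrank_mov] at h3
    have h4 := sp_card_of_not_typeA hb2 h2
    simp only [h1, h2, sp_card_of_typeA h1, h3, iff_false, not_true, forall_const, false_iff]
    intro h
    rw [← h] at h4
    nlinarith
  · have h3 := h2.even (spPQ_nondeg _ _) (spEquiv (Fin m) F b).2
    rw [sp_finrank_mov, ← hr] at h3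
    have h4 := sp_card_of_not_typeA ha2 h1
    simp only [h1, h2, sp_card_of_typeA h2, h3, iff_true, forall_const, false_iff]
    intro h
    rw [h] at h4
    nlinarith
  · simp only [h1, h2, true_iff]
    exact fun _ => Nat.eq_of_mul_eq_mul_right (by omega)
      ((sp_card_of_not_typeA ha2 h1).trans (sp_card_of_not_typeA hb2 h2).symm)

end Cfsg.Agent.S2166
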