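import Mathlib
import Cfsg.Statements.S2172
import Cfsg.Agent.Lib.Inv2.OrthMat
-- import your own Cfsg.Agent.* helpers here

set_option autoImplicit false
open Cfsg

namespace Cfsg.Agent.S2172

/-- Splitting of involution classes from O to Ω for the hyperbolic quadratic form Q = Σ x_i y_i in dimension 2m over a finite field F of characteristic two, m ≥ 4. Let t, s be involutions of the commutator subgroup Ω that are conjugate in the full isometry group O. If it is not the case that t − 1 has rank m and Q(v + t v) = 0 for every vector v, then t and s are conjugate by an element of Ω. If t − 1 has rank m and Q(v + t v) = 0 for all v, then t and s are conjugate by an element of Ω exactly when the intersection of the images of t − 1 and s − 1 has even dimension (so the class of t in O meets at most two classes of Ω). -/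
theorem result {F : Type*} [Field F] [Fintype F] [CharP F 2] {m : ℕ} (hm : 4 ≤ m) (t s : ↥(Cfsg.isometryGroup F (Cfsg.quadFormPlus m F))) (ht : orderOf t = 2) (hs : orderOf s = 2) (htO : t ∈ Cfsg.Omega F (Cfsg.quadFormPlus m F)) (hsO : s ∈ Cfsg.Omega F (Cfsg.quadFormPlus m F)) (hconj : IsConj t s) :
    (¬ (((((t : ↥(Cfsg.isometryGroup F (Cfsg.quadFormPlus m F))) : GL (Fin m ⊕ Fin m) F) : Matrix (Fin m ⊕ Fin m) (Fin m ⊕ Fin m) F) - 1).rank = m ∧ ∀ v : Fin m ⊕ Fin m → F, Cfsg.quadFormPlus m F (v + Matrix.mulVec (((t : ↥(Cfsg.isometryGroup F (Cfsg.quadFormPlus m F))) : GL (Fin m ⊕ Fin m) F) : Matrix (Fin m ⊕ Fin m) (Fin m ⊕ Fin m) F) v) = 0) →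
      ∃ g ∈ Cfsg.Omega F (Cfsg.quadFormPlus m F), g * t * g⁻¹ = s) ∧
    ((((((t : ↥(Cfsg.isometryGroup F (Cfsg.quadFormPlus m F))) : GL (Fin m ⊕ Fin m) F) : Matrix (Fin m ⊕ Fin m) (Fin m ⊕ Fin m) F) - 1).rank = m ∧ ∀ v : Fin m ⊕ Fin m → F, Cfsg.quadFormPlus m F (v + Matrix.mulVec (((t : ↥(Cfsg.isometryGroup F (Cfsg.quadFormPlus m F))) : GL (Fin m ⊕ Fin m) F) : Matrix (Fin m ⊕ Fin m) (Fin m ⊕ Fin m) F) v) = 0) →
      ((∃ g ∈ Cfsg.Omega F (Cfsg.quadFormPlus m F), g * t * g⁻¹ = s) ↔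
        Even (Module.finrank F ↥(LinearMap.range (Matrix.toLin' ((((t : ↥(Cfsg.isometryGroup F (Cfsg.quadFormPlus m F))) : GL (Fin m ⊕ Fin m) F) : Matrix (Fin m ⊕ Fin m) (Fin m ⊕ Fin m) F) - 1)) ⊓ LinearMap.range (Matrix.toLin' ((((s : ↥(Cfsg.isometryGroup F (Cfsg.quadFormPlus m F))) : GL (Fin m ⊕ Fin m) F) : Matrix (Fin m ⊕ Fin m) (Fin m ⊕ Fin m) F) - 1)))))) := by
  open CfsgLib.Inv2 CfsgLib.Forms CfsgLib.Orth in
  have hQ := qPlus_nondegenerate (F := F) m
  have h24 := h24_plus (F := F) (m := m) (Or.inr (by omega))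
  have hc := (isConj_equiv_iff (toOG (qPlus m F))).2 hconj
  have hc' := (isConj_OG_iff hQ (toOG_mul_self' ht) (toOG_mul_self' hs)).1 hc
  have hr := toOG_finrank_mov (Q := qPlus m F) t
  refine ⟨fun h => (exists_Omega_conj_iff (Q := qPlus m F) t s).2 (exists_conj_commutator hQ
    (reflSubgroup_eq_top hQ h24) (toOG_mul_self' hs) (fun h' => h ⟨?_,
      (toOG_typeA_iff' (Q := qPlus m F) t).1 (hc'.2.2 h'.1)⟩) hc), fun h => ?_⟩
  · have h2 := h'.2
    rw [finrank_plus, ← hc'.1, hr] at h2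
    omega
  · have h1 := (toOG_typeA_iff' (Q := qPlus m F) t).2 h.2
    have h2 : 2 * Module.finrank F (mov (toOG (qPlus m F) t).1)
      = Module.finrank F (Fin m ⊕ Fin m → F) := by rw [finrank_plus, hr, h.1]
    have h3 := h1.even (ofQuad_nondeg _ hQ) (isIso_OG _)
    have h4 : Module.finrank F ↥(mov (toOG (qPlus m F) t).1 ⊓ mov (toOG (qPlus m F) s).1)
      ≤ Module.finrank F (mov (toOG (qPlus m F) t).1) := Submodule.finrank_mono inf_le_left
    rw [← toOG_mov (Q := qPlus m F) t, ← toOG_mov (Q := qPlus m F) s]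
    refine (exists_Omega_conj_iff (Q := qPlus m F) t s).trans ⟨fun ⟨g, hg, h5⟩ => ?_, fun h5 => ?_⟩
    · exact ((Nat.even_sub h4).1 ((mem_commutator_iff_lag hQ h24 h1 h2 h5).1 hg)).1 h3
    · obtain ⟨g, hg⟩ := isConj_iff.1 hc
      exact ⟨g, (mem_commutator_iff_lag hQ h24 h1 h2 hg).2
        ((Nat.even_sub h4).2 (iff_of_true h3 h5)), hg⟩

end Cfsg.Agent.S2172
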