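import Mathlib
import Cfsg.Statements.S2173
import Cfsg.Agent.Lib.Inv2.OrthMat
-- import your own Cfsg.Agent.* helpers here

set_option autoImplicit false
open Cfsg

namespace Cfsg.Agent.S2173

/-- For the quadratic form Σ x_i y_i + (z₁² + c z₁ z₂ + d z₂²) in dimension 2m with anisotropic binary part over a finite field F of characteristic two, m ≥ 4 (minus type): two involutions of the commutator subgroup Ω that are conjugate in the full isometry group O are conjugate by an element of Ω (no class of involutions of O inside Ω splits). -/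
theorem result {F : Type*} [Field F] [Fintype F] [CharP F 2] {m : ℕ} (hm : 4 ≤ m) (c d : F) (hcd : ∀ z₁ z₂ : F, z₁ ^ 2 + c * z₁ * z₂ + d * z₂ ^ 2 = 0 → z₁ = 0 ∧ z₂ = 0) (t s : ↥(Cfsg.isometryGroup F (Cfsg.quadFormMinus (m - 1) F c d))) (ht : orderOf t = 2) (hs : orderOf s = 2) (htO : t ∈ Cfsg.Omega F (Cfsg.quadFormMinus (m - 1) F c d)) (hsO : s ∈ Cfsg.Omega F (Cfsg.quadFormMinus (m - 1) F c d)) (hconj : IsConj t s) :
    ∃ g ∈ Cfsg.Omega F (Cfsg.quadFormMinus (m - 1) F c d), g * t * g⁻¹ = s := by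
  open CfsgLib.Inv2 CfsgLib.Forms CfsgLib.Orth in
  refine (exists_Omega_conj_iff (Q := qMinus (m - 1) c d) t s).2 (exists_conj_commutator
    (qMinus_nondegenerate _ hcd) (reflSubgroup_minus _ hcd) (toOG_mul_self' hs) (fun h => ?_)
    ((isConj_equiv_iff _).2 hconj))
  have h1 := finrank_le_minus hcd _ ((typeA_quad _).1 h.1)
  have h2 := h.2
  rw [finrank_minus] at h2
  omega

end Cfsg.Agent.S2173
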