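import Mathlib
import Cfsg.Statements.S2179
import Cfsg.Agent.Lib.ChevInv.CentF4

set_option autoImplicit false
open Cfsg

namespace Cfsg.Agent.S2179

open CfsgLib.ChevInv CfsgLib.Chev CfsgLib.Weyl CfsgLib.Twist CfsgLib.RGD

theorem X_eq {F : Type*} [Field F] (r : ℕ) (h : r < Lie.chevF4.nroots := by decide) :
    Lie.chevF4.rootSubgroup F r = (stSys rtOKF4 F).UU {⟨r, h⟩} := (stSys_X rtOKF4 ⟨r, h⟩).symm


/-- Centralizers of the two remaining classes of involutions in the Chevalley group G of type F₄ over a finite field F of characteristic two (this problem's root numbering for type F₄, from the Chevalley data module: p₁, p₂ short, p₃, p₄ long with indices 33, 27, 25, 24 and negatives 14, 20, 22, 23; U generated by the positive root subgroups). For an element of G with matrix x_47(1)x_44(1) (highest root times highest short root): its centralizer in G is generated by U, X_{−p₂} and X_{−p₃}. For an element of G with matrix x_39(1)x_45(1) (roots (1,2,2,1)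 and (2,4,2,1), an orthogonal short/long pair): its centralizer in G is generated by X_{p₁}, X_{−p₁}, X_{p₄}, X_{−p₄} and the root subgroups of all positive roots other than p₂ (27), p₃ (25), p₁ + p₂ (34) and p₃ + p₄ (26). -/
theorem result {F : Type*} [Field F] [Fintype F] [CharP F 2] (w v : GL Cfsg.Lie.chevF4.Idx F) (hw : (w : Matrix Cfsg.Lie.chevF4.Idx Cfsg.Lie.chevF4.Idx F) = Cfsg.Lie.chevF4.x F 47 1 * Cfsg.Lie.chevF4.x F 44 1) (hv : (v : Matrix Cfsg.Lie.chevF4.Idx Cfsg.Lie.chevF4.Idx F) = Cfsg.Lie.chevF4.x F 39 1 * Cfsg.Lie.chevF4.x F 45 1) :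
    Cfsg.Lie.chevF4.group F ⊓ Subgroup.centralizer {w} = Cfsg.Lie.chevF4.posUnipotent F ⊔ Cfsg.Lie.chevF4.rootSubgroup F 20 ⊔ Cfsg.Lie.chevF4.rootSubgroup F 22 ∧
    Cfsg.Lie.chevF4.group F ⊓ Subgroup.centralizer {v} = Cfsg.Lie.chevF4.rootSubgroup F 33 ⊔ Cfsg.Lie.chevF4.rootSubgroup F 14 ⊔ Cfsg.Lie.chevF4.rootSubgroup F 24 ⊔ Cfsg.Lie.chevF4.rootSubgroup F 23 ⊔
      Subgroup.closure {g : GL Cfsg.Lie.chevF4.Idx F | ∃ (r : ℕ) (c : F), Cfsg.Lie.chevF4.IsPosRoot r ∧ r ∉ [27, 25, 34, 26] ∧ (g : Matrix Cfsg.Lie.chevF4.Idx Cfsg.Lie.chevF4.Idx F) = Cfsg.Lie.chevF4.x F r c} := by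
  rw [show w = xU _ F 47 1 * (xU _ F 44 1 * 1) from Units.ext (by simp [hw]),
    show v = xU _ F 39 1 * (xU _ F 45 1 * 1) from Units.ext (by simp [hv]), centF4_mixed, centF4_pair,
    ← stSys_U rtOKF4, X_eq 20, X_eq 22, X_eq 33, X_eq 14, X_eq 24, X_eq 23, StSys.U]
  have := stSys_UU rtOKF4 (F := F) (fun r => Lie.chevF4.IsPosRoot r ∧ r ∉ [27, 25, 34, 26])
    fun r hr => (isPosRoot_iff.mp hr.1).2
  simp only [and_assoc] at this
  simp only [← this, ← StSys.UU_union]
  constructor <;> congr 1 <;> ext k <;>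
    simp only [Set.mem_union, Set.mem_ofPred_eq, Set.mem_singleton_iff, pos_iff_le, isPosRoot_iff] <;>
    revert k <;> decide +kernel

end Cfsg.Agent.S2179
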