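import Mathlib
import Cfsg.Statements.S2183
import Cfsg.Agent.Lib.ChevInv.DataT

set_option autoImplicit false
open Cfsg

namespace Cfsg.Agent.S2183

/-- The twisted group ³D₄(q), q even, realised inside the Chevalley group of type D₄ over the field K with q³ elements, has exactly two conjugacy classes of elements of order 2. -/
theorem result {K : Type*} [Field K] [Fintype K] [CharP K 2] (q : ℕ) (hK : Fintype.card K = q ^ 3) :
    (ConjClasses.mk '' {g : ↥(Cfsg.Lie.twistedD4 K q) | orderOf g = 2}).ncard = 2 := by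
  obtain ⟨φ, hφ⟩ := CfsgLib.Twist.exists_frob ((isPrimePow_pow_iff three_ne_zero).mp
    (hK ▸ Fintype.isPrimePow_card_of_field)) hK
  open CfsgLib.ChevInv CfsgLib.Chev CfsgLib.Twist in
  exact ncard_of _ (classesTD4 hφ (frob3 hφ hK)) (pairwise_of_rk matchD4.ofD_eq rfl (by rw [rkTD4]; decide) _)

end Cfsg.Agent.S2183
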