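import Mathlib
import Cfsg.Statements.S2186
import Cfsg.Agent.Lib.ChevAut.RootCent
import Cfsg.Agent.Lib.Chev.Cert

set_option autoImplicit false
open Cfsg CfsgLib.ChevAut CfsgLib.Chev CfsgLib.Weyl CfsgLib.RGD

namespace Cfsg.Agent.S2186

/-- Let G be the Chevalley group of type G₂ (over a field with at least four elements), D₄, E₆, E₇ or E₈ over a finite field F of characteristic two, and let X be the root subgroup of the highest root (the last root index) — a long root subgroup, of order |F|. For every g in G, the subgroup generated by X and its conjugate g X g⁻¹ is either a 2-group or is conjugate by an element of G to the subgroup generated by X and the root subgroup of the lowest root (index 0, the negative of the highest root), which is a copy of SL₂(F). -/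
theorem result {F : Type*} [Field F] [Fintype F] [CharP F 2] (D : Cfsg.Lie.ChevalleyDatum) (hD : D ∈ [Cfsg.Lie.chevG2, Cfsg.Lie.chevD4, Cfsg.Lie.chevE6, Cfsg.Lie.chevE7, Cfsg.Lie.chevE8]) (hF : D = Cfsg.Lie.chevG2 → 4 ≤ Fintype.card F) (g : GL D.Idx F) (hg : g ∈ D.group F) :
    IsPGroup 2 ↥(D.rootSubgroup F (D.nroots - 1) ⊔ (D.rootSubgroup F (D.nroots - 1)).map (MulAut.conj g).toMonoidHom) ∨
    ∃ h ∈ D.group F, (D.rootSubgroup F (D.nroots - 1) ⊔ (D.rootSubgroup F (D.nroots - 1)).map (MulAut.conj g).toMonoidHom).map (MulAut.conj h).toMonoidHom = D.rootSubgroup F (D.nroots - 1) ⊔ D.rootSubgroup F 0 := by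
  have hD' : D ∈ [Lie.chevG2, Lie.chevB2, Lie.chevD4, Lie.chevF4, Lie.chevE6, Lie.chevE7, Lie.chevE8] := by
    simp only [List.mem_cons, List.not_mem_nil, or_false] at hD ⊢
    tauto
  have := good_of_mem hD'
  have h := rtOK_of_mem hD'
  have h0 : D.nroots - 1 < D.nroots := by
    simp only [List.mem_cons, List.not_mem_nil, or_false] at hD
    rcases hD with rfl | rfl | rfl | rfl | rfl <;> decide +kernel
  obtain ⟨a, ha, h1⟩ := exists_conj_pair (stSys_nondeg h) (r := ⟨_, h0⟩) (commute_last h rfl)
    (g := g) (by rwa [stSys_grp])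
  rw [stSys_X, stSys_X, rootSys_neg, neg_eq h0, Nat.sub_self] at h1
  rcases h1 with h1 | h1
  · exact Or.inl (((isPGroup_U 2).comap_of_injective _ (MulAut.conj a).injective).to_le
      (Subgroup.map_le_iff_le_comap.mp h1))
  · exact Or.inr ⟨a, by rwa [stSys_grp] at ha, h1⟩

end Cfsg.Agent.S2186
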