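import Mathlib
import Cfsg.Statements.S2189
import Cfsg.Agent.Lib.BGL.Main

set_option autoImplicit false
open Cfsg

namespace Cfsg.Agent.S2189

open CfsgLib.Chev CfsgLib.BGL Cfsg.Lie Cfsg.Lie.ChevalleyDatum in
theorem aux {k : Type*} [Field k] {D : ChevalleyDatum} [Good D] {M : Subgroup (GL D.Idx k)} {P : k → Prop}
    (h : Subgroup.closure {g : GL D.Idx k | ∃ (s : ℕ) (t : k), P t ∧
      (g : Matrix D.Idx D.Idx k) = D.x k s t} ≤ M) (s : ℕ) {t : k} (ht : P t) : xU D k s t ∈ M :=
  h (Subgroup.subset_closure ⟨s, t, ht, rfl⟩)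

open CfsgLib.Chev CfsgLib.BGL Cfsg.Lie Cfsg.Lie.ChevalleyDatum

/-- Finite subgroups of an adjoint Chevalley group over an algebraically closed field that contain the group over a finite subfield. Let k be an algebraically closed field of prime characteristic p, G the Chevalley group of type G₂, B₂, D₄, F₄, E₆, E₇ or E₈ over k (the matrix group generated by the root elements x_s(t), t ∈ k), and q = p^a with a ≥ 1. Let L be the subgroup generated by the root elements x_s(t) with t^q = t (the Chevalley group over the field of q elements inside G), and let M be a finite subgroup of G containing L. Then for some r ≥ 1, M contains every root element x_s(t) with t^(q^r) = t and every element of M is a matrix all of whose entries c satisfy c^(q^r) = c (so M lies between the Chevalley group over the field with q^r elements and the group of points of G fixed by the q^r-th power map). -/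
theorem result {k : Type*} [Field k] [IsAlgClosed k] (p : ℕ) [Fact p.Prime] [CharP k p] (D : Cfsg.Lie.ChevalleyDatum) (hD : D ∈ [Cfsg.Lie.chevG2, Cfsg.Lie.chevB2, Cfsg.Lie.chevD4, Cfsg.Lie.chevF4, Cfsg.Lie.chevE6, Cfsg.Lie.chevE7, Cfsg.Lie.chevE8]) (a : ℕ) (ha : 1 ≤ a) (M : Subgroup (GL D.Idx k)) (hMfin : Finite ↥M) (hMG : M ≤ D.group k)
    (hLM : Subgroup.closure {g : GL D.Idx k | ∃ (s : ℕ) (t : k), t ^ (p ^ a) = t ∧ (g : Matrix D.Idx D.Idx k) = D.x k s t} ≤ M) :
    ∃ r : ℕ, 1 ≤ r ∧ Subgroup.closure {g : GL D.Idx k | ∃ (s : ℕ) (t : k), t ^ ((p ^ a) ^ r) = t ∧ (g : Matrix D.Idx D.Idx k) = D.x k s t} ≤ M ∧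
      ∀ g ∈ M, ∀ i j : D.Idx, ((g : Matrix D.Idx D.Idx k) i j) ^ ((p ^ a) ^ r) = (g : Matrix D.Idx D.Idx k) i j := by
  have := good_of_mem hD
  obtain ⟨F, hF, h1, h2, h3⟩ := overgroup hD p hMG fun r _ => aux hLM r (one_pow _)
  let := ZMod.algebra k p
  obtain ⟨r, hr, e⟩ := exists_card_sub p ha
    (IsAlgClosed.lift : GaloisField p a →ₐ[ZMod p] k).toRingHom F fun t ht => h1 t (aux hLM _ ht)
  refine ⟨r, hr, (Subgroup.closure_le _).mpr ?_, e ▸ h3⟩
  rintro g ⟨s, t, ht, hg⟩
  rw [eq_xU_iff.mp hg]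
  exact h2 s t (mem_of_pow_card F (e ▸ ht))

end Cfsg.Agent.S2189
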