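import Mathlib
import Cfsg.Statements.S2190
import Cfsg.Agent.Lib.BGL.Main

set_option autoImplicit false
open Cfsg

namespace Cfsg.Agent.S2190

open CfsgLib.Chev CfsgLib.BGL CfsgLib.Lang Cfsg.Lie Cfsg.Lie.ChevalleyDatum

/-- Subfield subgroups of prime degree are maximal. Let K be a finite field with q^r elements, r a prime, q a power of the characteristic, and G the Chevalley group of type G₂, B₂, D₄, F₄, E₆, E₇ or E₈ over K (the matrix group generated by the root elements). Let M be the subgroup of G consisting of the matrices all of whose entries lie in the subfield with q elements (entries c with c^q = c). Then M is a proper subgroup of G and is maximal: every subgroup of G containing M is M or G. -/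
theorem result {K : Type*} [Field K] [Fintype K] (p : ℕ) [Fact p.Prime] [CharP K p] (D : Cfsg.Lie.ChevalleyDatum) (hD : D ∈ [Cfsg.Lie.chevG2, Cfsg.Lie.chevB2, Cfsg.Lie.chevD4, Cfsg.Lie.chevF4, Cfsg.Lie.chevE6, Cfsg.Lie.chevE7, Cfsg.Lie.chevE8]) (a r : ℕ) (ha : 1 ≤ a) (hr : r.Prime) (hK : Fintype.card K = (p ^ a) ^ r) (M : Subgroup (GL D.Idx K))
    (hM : ∀ g : GL D.Idx K, g ∈ M ↔ g ∈ D.group K ∧ ∀ i j : D.Idx, ((g : Matrix D.Idx D.Idx K) i j) ^ (p ^ a) = (g : Matrix D.Idx D.Idx K) i j) :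
    M ≠ D.group K ∧ ∀ H : Subgroup (GL D.Idx K), M ≤ H → H ≤ D.group K → H = M ∨ H = D.group K := by
  have := good_of_mem hD
  obtain ⟨σ, hb⟩ := exists_base hD
  have hx : ∀ s (t : K), t ^ p ^ a = t → xU D K s t ∈ M := fun s t ht => (hM _).mpr ⟨xU_mem_group s t,
    fun i j => by
      have e := glm_xU (D := D) (iterateFrobenius K p a) s t
      rw [iterateFrobenius_def, ht] at e
      have e' : (glm D (iterateFrobenius K p a) (xU D K s t) : Matrix D.Idx D.Idx K) = xU D K s t := by
        rw [e]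
      exact congrFun (congrFun e' i) j⟩
  have hq : 1 < p ^ a := Nat.one_lt_pow (by omega) (Fact.out : p.Prime).one_lt
  refine ⟨fun e => ?_, fun H h1 h2 => ?_⟩
  · obtain ⟨t, ht⟩ := exists_pow_ne hq hr.one_lt hK
    have h1 := ((hM _).mp (e ▸ xU_mem_group (th D) t)).2
    have h2 : glm D (iterateFrobenius K p a) (xU D K (th D) t) = xU D K (th D) t :=
      Units.ext (Matrix.ext h1)
    rw [glm_xU] at h2
    exact ht (xU_injective (th_lt hb.pos) h2)
  obtain ⟨F, hF, h3, h4, h5⟩ := overgroup hD p h2 fun r _ => h1 (hx r 1 (one_pow _))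
  obtain ⟨f⟩ := exists_galois_hom p ha hK
  obtain ⟨s, hs, e⟩ := exists_card_sub p ha f F fun t ht => h3 t (h1 (hx _ t ht))
  obtain ⟨m, -, e'⟩ := exists_card_pow F.subtype
  rw [e, Nat.card_eq_fintype_card, hK, ← pow_mul (p ^ a)] at e'
  rcases (Nat.dvd_prime hr).mp ⟨m, Nat.pow_right_injective hq e'⟩ with rfl | rfl
  · rw [pow_one] at e
    exact Or.inl (le_antisymm (fun g hg => (hM g).mpr ⟨h2 hg, e ▸ h5 g hg⟩) h1)
  · refine Or.inr (le_antisymm h2 ?_)
    rw [group_eq, Subgroup.closure_le]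
    rintro _ ⟨r, -, t, rfl⟩
    exact h4 r t (mem_of_pow_card F (by rw [e, ← hK, FiniteField.pow_card]))

end Cfsg.Agent.S2190
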