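import Cfsg.Statements.S2194
import Cfsg.Agent.Lib.KL.Main

set_option autoImplicit false
open Cfsg

namespace Cfsg.Agent.S2194

open CfsgLib CfsgLib.KL CfsgLib.ClMax MulAction in
theorem result {G X : Type*} [Group G] [Finite G] [MulAction G X] [FaithfulSMul G X] [Fintype X] {F : Type*} [Field F] [Fintype F] (n : ℕ) (hn : 5 ≤ n) (e : G ≃* Matrix.ProjectiveSpecialLinearGroup (Fin n) F) (hprim : MulAction.IsPreprimitive G X) (x : X) (h3 : Nat.card (MulAction.orbitRel.Quotient ↥(MulAction.stabilizer G x) X) = 3) :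
    Fintype.card X * ((Fintype.card F ^ 2 - 1) * (Fintype.card F - 1)) = (Fintype.card F ^ n - 1) * (Fintype.card F ^ (n - 1) - 1) := by
  obtain ⟨p, hc⟩ := CharP.exists F
  have := Fact.mk (CharP.char_is_prime F p)
  have : Nonempty X := ⟨x⟩
  have : Finite (SLV F (Fin n → F)) := MinIdx.SL.finite_SLV
  let f₀ : SLV F (Fin n → F) →* CKS.PSL n F := (QuotientGroup.mk' _).comp (Agent.S2140.e F n).symm.toMonoidHom
  have hf₀ : Function.Surjective f₀ := (QuotientGroup.mk'_surjective _).comp (Agent.S2140.e F n).symm.surjective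
  let f : SLV F (Fin n → F) →* G := e.symm.toMonoidHom.comp f₀
  have hf : Function.Surjective f := e.symm.surjective.comp hf₀
  let : MulAction (CKS.PSL n F) X := MulAction.compHom X e.symm.toMonoidHom
  let : MulAction (SLV F (Fin n → F)) X := MulAction.compHom X f
  have : IsPretransitive (CKS.PSL n F) X := ⟨fun a b => by
    obtain ⟨g, hg⟩ := exists_smul_eq G a b
    exact ⟨e g, show e.symm (e g) • a = b by rw [e.symm_apply_apply, hg]⟩⟩
  have : IsPreprimitive (SLV F (Fin n → F)) X :=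
    (isPreprimitive_congr (φ := f) (f := ⟨id, fun _ _ => rfl⟩) hf Function.bijective_id).2 hprim
  have h := main_sl (p := p) (F := F) (V := Fin n → F) (by simpa using hn) x ?_ (fun z ⟨c, hz⟩ a => ?_)
    fun hp => (ngen_psl (by omega) hp).lift f₀ hf₀ fun _ _ => rfl
  · simpa using h
  · rw [← h3]
    refine congrArg (fun s : Setoid X => Nat.card (Quotient s)) (Setoid.ext fun a b => ⟨?_, ?_⟩)
    · rintro ⟨g, rfl⟩
      exact ⟨⟨f g, g.2⟩, rfl⟩
    · rintro ⟨⟨g, hg⟩, rfl⟩
      obtain ⟨g, rfl⟩ := hf g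
      exact ⟨⟨g, hg⟩, rfl⟩
  · have h1 : f₀ z = 1 := (QuotientGroup.eq_one_iff _).2 (Subgroup.mem_center_iff.2 fun g => by
      obtain ⟨g, rfl⟩ := (Agent.S2140.e F n).symm.surjective g
      change _ * (Agent.S2140.e F n).symm z = (Agent.S2140.e F n).symm z * _
      rw [← map_mul, ← map_mul]
      congr 1
      ext v : 2
      change g.1 (z.1 v) = z.1 (g.1 v)
      rw [hz, hz, map_smul])
    change e.symm (f₀ z) • a = a
    rw [h1, map_one, one_smul]

end Cfsg.Agent.S2194
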