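import Cfsg.Statements.S2195
import Cfsg.Agent.Lib.KP.Main
import Cfsg.Agent.Lib.Forms.StabMat

set_option autoImplicit false
open Cfsg

namespace Cfsg.Agent.S2195

/-- Primitive rank 3 actions of the projective symplectic groups in dimension at least 6 over fields of odd order. Let G ≅ PSp_{2k}(F), k ≥ 3, F a finite field with q elements, q odd, act faithfully and primitively on a finite set X so that a point stabilizer has exactly three orbits. Then X has as many points as the projective space of F^{2k}: |X|·(q − 1) = q^{2k} − 1. (The action is in fact the one on the points of the projective space, all of which are isotropic for the symplectic form; only the number of points is asserted here.) -/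
theorem result {G X : Type*} [Group G] [Finite G] [MulAction G X] [FaithfulSMul G X] [Fintype X] {F : Type*} [Field F] [Fintype F] (k : ℕ) (hk : 3 ≤ k) (hq : Odd (Fintype.card F)) (e : G ≃* Cfsg.PSp k F) (hprim : MulAction.IsPreprimitive G X) (x : X) (h3 : Nat.card (MulAction.orbitRel.Quotient ↥(MulAction.stabilizer G x) X) = 3) :
    Fintype.card X * (Fintype.card F - 1) = Fintype.card F ^ (2 * k) - 1 := by
    obtain ⟨p, hc⟩ := CharP.exists F
    have := Fact.mk (CharP.char_is_prime F p)
    have : Nonempty X := ⟨x⟩
    have h2 : (2 : F) ≠ 0 := fun c => by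
      have := FiniteField.even_card_of_char_two (F := F) (CharP.ringChar_of_prime_eq_zero Nat.prime_two c)
      rw [Nat.odd_iff] at hq
      omega
    have h1 : 3 ≤ Fintype.card F := by
      have := Fintype.one_lt_card (α := F)
      rw [Nat.odd_iff] at hq
      omega
    have sp : CfsgLib.KP.IsSp (CfsgLib.Forms.spPQ (Fin k) F) := ⟨fun _ => rfl, rfl, h2⟩
    have h : CfsgLib.KP.Pol (CfsgLib.Forms.spPQ (Fin k) F) (Fintype.card F) :=
      ⟨CfsgLib.Forms.spPQ_nondeg _ _, fun _ _ => trivial, by
        rw [← Nat.card_eq_fintype_card]
        exact AddSubgroup.card_top, fun a => (FiniteField.pow_card a).symm, h1, .inl ⟨sp, Nat.card_eq_fintype_card⟩⟩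
    have hn : Module.finrank F (Fin k ⊕ Fin k → F) = 2 * k := by simp [two_mul]
    have h4 := CfsgLib.KP.main_grp (p := p) h (by omega)
      ((MulEquiv.subgroupCongr (inf_eq_left.2 (CfsgLib.KP.isom_le_sp h sp))).trans (CfsgLib.Forms.spEquiv _ F).symm)
      e hprim x h3 fun hp => CfsgLib.KL.ngen_psp (by omega) h1 hp
    rw [hn, Nat.card_eq_fintype_card, Nat.card_eq_fintype_card, CfsgLib.KP.np_sp] at h4
    have h5 := CfsgLib.KP.th_mul (Fintype.card F) (2 * k)
    rw [h4]
    zify [show 1 ≤ Fintype.card F by omega, Nat.one_le_pow (2 * k) (Fintype.card F) (by omega)]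
    exact h5

end Cfsg.Agent.S2195
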