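import Cfsg.Statements.S2196
import Cfsg.Agent.Lib.KP.Main
import Cfsg.Agent.Lib.Forms.StabMat

set_option autoImplicit false
open Cfsg

namespace Cfsg.Agent.S2196

/-- Primitive rank 3 actions of the projective special unitary groups in dimension at least 6 with q ≥ 3. Let G ≅ PSU_n(q), n ≥ 6, q ≥ 3 (realised over the field with q² elements), act faithfully and primitively on a finite set X so that a point stabilizer has exactly three orbits. Then X has as many points as there are isotropic points of the unitary space: |X|·(q² − 1) = (q^n − (−1)^n)(q^(n−1) − (−1)^(n−1)), written with natural numbers as |X|·(q² − 1) = (q^n − 1)(q^(n−1) + 1) for n even and (q^n + 1)(q^(n−1) − 1) for n odd. -/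
theorem result {G X : Type*} [Group G] [Finite G] [MulAction G X] [FaithfulSMul G X] [Fintype X] {F : Type*} [Field F] [Fintype F] (n q : ℕ) (hn : 6 ≤ n) (hq : 3 ≤ q) (hF : Fintype.card F = q ^ 2) (e : G ≃* Cfsg.PSU n F q) (hprim : MulAction.IsPreprimitive G X) (x : X) (h3 : Nat.card (MulAction.orbitRel.Quotient ↥(MulAction.stabilizer G x) X) = 3) :
    (Even n → Fintype.card X * (q ^ 2 - 1) = (q ^ n - 1) * (q ^ (n - 1) + 1)) ∧
    (Odd n → Fintype.card X * (q ^ 2 - 1) = (q ^ n + 1) * (q ^ (n - 1) - 1)) := by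
    obtain ⟨p, hc⟩ := CharP.exists F
    have := Fact.mk (CharP.char_is_prime F p)
    have : Nonempty X := ⟨x⟩
    have k := CfsgLib.Forms.uPQ_isHerm hF n
    have h : CfsgLib.KP.Pol (CfsgLib.Forms.uPQ hF n) q :=
      ⟨CfsgLib.Forms.uPQ_nondeg hF n, fun a ha => (k.mem_Λ a).2 (by rwa [k.ε_eq, one_mul] at ha),
        CfsgLib.Forms.card_uPQ_Λ hF, fun _ => rfl, hq, .inr ⟨k, Nat.card_eq_fintype_card.trans hF⟩⟩
    have h4 := CfsgLib.KP.main_grp (p := p) h (by simpa using hn)
      (CfsgLib.Forms.matMulEquiv (CfsgLib.Forms.suMat n F q) (CfsgLib.Forms.suMat_injective n) (CfsgLib.KP.G0 (CfsgLib.Forms.uPQ hF n))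
        (fun A => ⟨CfsgLib.Forms.su_isIso hF n A, CfsgLib.ClMax.mem_SLV.2 (CfsgLib.Forms.su_det n A)⟩)
        fun g hg => CfsgLib.Forms.exists_su_of_equiv hF n g hg.1 (CfsgLib.ClMax.mem_SLV.1 hg.2)).symm
      e hprim x h3 fun hp => CfsgLib.KL.ngen_psu hF (by omega) hp
    obtain ⟨m, rfl⟩ : ∃ m, n = m + 1 := ⟨n - 1, by omega⟩
    rw [Module.finrank_fin_fun, Nat.card_eq_fintype_card, Nat.card_eq_fintype_card, hF] at h4
    have h5 := CfsgLib.KP.np_su q m
    have h6 : ∀ j, 1 ≤ q ^ j := fun j => Nat.one_le_pow j q (by omega)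
    rw [h4, Nat.add_sub_cancel]
    refine ⟨fun c => ?_, fun c => ?_⟩
    · zify [h6]
      rw [h5, c.neg_pow, (Nat.not_even_iff_odd.1 (Nat.even_add_one.1 c)).neg_pow]
      ring
    · zify [h6]
      rw [h5, c.neg_pow, (Nat.not_odd_iff_even.1 (Nat.odd_add_one.1 c)).neg_pow]
      ring

end Cfsg.Agent.S2196
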