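import Mathlib
import Cfsg.Statements.S2209
import Cfsg.Agent.Lib.ChevAut.RootCent
import Cfsg.Agent.Lib.Chev.Cert

set_option autoImplicit false
open Cfsg CfsgLib.ChevAut CfsgLib.Chev CfsgLib.Weyl CfsgLib.RGD

namespace Cfsg.Agent.S2209

/-- Centralizer of a long root involution in the Chevalley groups of type E₆, E₇, E₈ over a finite field F of characteristic two. Let G be the group generated by the root elements, U the subgroup generated by the positive root subgroups, r the highest root (the last root index: 71, 125, 239 respectively), and t the element of G with matrix x_r(1). Then the centralizer of t in G is the subgroup generated by U together with the root subgroups X_{−p} for the fundamental roots p orthogonal to r — all fundamental roots except p₂ for E₆, except p₁ for E₇, except p₈ for E₈ (numbering with p₁–p₃–p₄–…–p_l the long chain and p₂ joined to p₄); the indices of these negative fundamental roots are 15, 29, 32, 34, 35 (E₆), 47, 52, 56, 59, 61, 62 (E₇), 77, 98, 104, 109, 113, 116, 118 (E₈). (This is the unipotent radical of the corresponding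 maximal parabolic subgroup extended by the root subgroups of its Levi factor, of type A₅, D₆, E₇ respectively.) -/
theorem result {F : Type*} [Field F] [Fintype F] [CharP F 2] (d : Cfsg.Lie.ChevalleyDatum × List ℕ)
    (hd : d ∈ [(Cfsg.Lie.chevE6, [15, 29, 32, 34, 35]), (Cfsg.Lie.chevE7, [47, 52, 56, 59, 61, 62]), (Cfsg.Lie.chevE8, [77, 98, 104, 109, 113, 116, 118])])
    (t : GL d.1.Idx F) (ht : (t : Matrix d.1.Idx d.1.Idx F) = d.1.x F (d.1.nroots - 1) 1) :
    d.1.group F ⊓ Subgroup.centralizer {t} = d.1.posUnipotent F ⊔ Subgroup.closure {g : GL d.1.Idx F | ∃ s ∈ d.2, ∃ c : F, (g : Matrix d.1.Idx d.1.Idx F) = d.1.x F s c} := by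
  have key : ∀ (D : Lie.ChevalleyDatum) [Good D] (h : RtOK D) (L : List ℕ) (i₀ : ℕ), 0 < D.nroots →
      i₀ < D.rank → (∀ i < D.rank, D.cartan i (D.nroots - 1) = if i = i₀ then 1 else 0) →
      (∀ s ∈ L, ∃ j < D.rank, j ≠ i₀ ∧ s = D.neg (D.simple j)) →
      (∀ j < D.rank, j ≠ i₀ → D.neg (D.simple j) ∈ L) → ∀ t : GL D.Idx F,
      (t : Matrix D.Idx D.Idx F) = D.x F (D.nroots - 1) 1 →
      D.group F ⊓ Subgroup.centralizer {t} = D.posUnipotent F ⊔ Subgroup.closure
        {g : GL D.Idx F | ∃ s ∈ L, ∃ c : F, (g : Matrix D.Idx D.Idx F) = D.x F s c} := by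
    intro D _ h L i₀ h0 h1 h2 h3 h4 t ht
    rw [show t = xU D F (D.nroots - 1) 1 from Units.ext ht,
      centralizer_xU h (by omega) h1 h2 (commute_last h rfl) h3 h4]
    simp only [exists_and_left]
  simp only [List.mem_cons, List.not_mem_nil, or_false] at hd
  rcases hd with rfl | rfl | rfl
  · exact key _ rtOKE6 _ 1 (by decide +kernel) (by decide +kernel) (by decide +kernel) (by decide +kernel)
      (by decide +kernel) t ht
  · exact key _ rtOKE7 _ 0 (by decide +kernel) (by decide +kernel) (by decide +kernel) (by decide +kernel)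
      (by decide +kernel) t ht
  · exact key _ rtOKE8 _ 7 (by decide +kernel) (by decide +kernel) (by decide +kernel) (by decide +kernel)
      (by decide +kernel) t ht

end Cfsg.Agent.S2209
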