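import Cfsg.Statements.S2214
import Cfsg.Agent.Lib.Twist.Frob
import Cfsg.Agent.Lib.Chev.Cert

set_option autoImplicit false
open Cfsg

namespace Cfsg.Agent.S2214

/-- Let k be an algebraically closed field of prime characteristic p, G the adjoint Chevalley group of type G₂, B₂, D₄, F₄, E₆, E₇ or E₈ over k (the matrix group generated by the root elements x_s(t), t ∈ k, acting on the Lie algebra), q = p^a with a ≥ 1, and K a subgroup of G containing every root element x_s(t) with t^q = t and consisting of matrices all of whose entries c satisfy c^q = c. Then the centralizer of K in G is trivial, and the normalizer of K in G is exactly the set of elements of G all of whose entries c satisfy c^q = c. -/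
theorem result {k : Type*} [Field k] [IsAlgClosed k] (p : ℕ) [Fact p.Prime] [CharP k p] (D : Cfsg.Lie.ChevalleyDatum) (hD : D ∈ [Cfsg.Lie.chevG2, Cfsg.Lie.chevB2, Cfsg.Lie.chevD4, Cfsg.Lie.chevF4, Cfsg.Lie.chevE6, Cfsg.Lie.chevE7, Cfsg.Lie.chevE8]) (a : ℕ) (ha : 1 ≤ a) (K : Subgroup (GL D.Idx k)) (hKG : K ≤ D.group k)
    (hLK : Subgroup.closure {g : GL D.Idx k | ∃ (s : ℕ) (t : k), t ^ (p ^ a) = t ∧ (g : Matrix D.Idx D.Idx k) = D.x k s t} ≤ K)
    (hKfix : ∀ g ∈ K, ∀ i j : D.Idx, ((g : Matrix D.Idx D.Idx k) i j) ^ (p ^ a) = (g : Matrix D.Idx D.Idx k) i j) :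
    D.group k ⊓ Subgroup.centralizer (K : Set (GL D.Idx k)) = ⊥ ∧
    ∀ g : GL D.Idx k, g ∈ D.group k → (g ∈ Subgroup.normalizer (K : Set (GL D.Idx k)) ↔ ∀ i j : D.Idx, ((g : Matrix D.Idx D.Idx k) i j) ^ (p ^ a) = (g : Matrix D.Idx D.Idx k) i j) := by
  have := CfsgLib.Chev.good_of_mem hD
  have h := CfsgLib.Weyl.rtOK_of_mem hD
  let φ : k →+* k := iterateFrobenius k p a
  have hφ : ∀ t, φ t = t ^ p ^ a := fun t => iterateFrobenius_def ..
  have hx : ∀ r t, φ t = t → CfsgLib.Chev.xU D k r t ∈ K := fun r t ht =>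
    hLK (Subgroup.subset_closure ⟨r, t, hφ t ▸ ht, rfl⟩)
  have hM : CfsgLib.Twist.IsTw (CfsgLib.Twist.frTw h φ) K := CfsgLib.Twist.isTw_frTw h φ
    (fun g hg => (CfsgLib.Twist.mem_frTw_Fix h φ).2 ⟨hKG hg, fun i j => (hφ _).trans (hKfix g hg i j)⟩) hx
  have hC : ∀ z ∈ D.group k, (∀ y ∈ K, z * y = y * z) → z = 1 := fun z hz hc =>
    CfsgLib.Twist.eq_one_of_commute_simple h hz fun r => hc _ (hx r 1 (map_one φ))
  refine ⟨eq_bot_iff.2 fun z hz => hC z hz.1 fun y hy => (hz.2 y hy).symm, fun g hg => ⟨fun hn i j => ?_, fun hf => ?_⟩⟩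
  · have := hM.mem_Fix_of_normalizes (fun z hz => hC z (CfsgLib.Chev.stSys_grp (F := k) h ▸ hz))
      ((CfsgLib.Chev.stSys_grp (F := k) h).symm ▸ hg) fun y hy => (Subgroup.mem_normalizer_iff.1 hn y).1 hy
    exact (hφ _).symm.trans (((CfsgLib.Twist.mem_frTw_Fix h φ).1 this).2 i j)
  · exact hM.Fix_le_normalizer ((CfsgLib.Twist.mem_frTw_Fix h φ).2 ⟨hg, fun i j => (hφ _).trans (hf i j)⟩)

end Cfsg.Agent.S2214
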