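import Cfsg.Statements.S2221
import Cfsg.Agent.Lib.AltSyl.Dec

set_option autoImplicit false
open Cfsg

namespace Cfsg.Agent.S2221

open CfsgLib.AltSyl CfsgLib.LAE Subgroup Equiv

theorem klein {G : Type*} [Group G] [Finite G] {P : Subgroup G} (h4 : Nat.card P = 4)
    (h2 : ∀ g ∈ P, g ^ 2 = 1) :
    ∃ S₁ S₂ : Subgroup G, S₁ ≠ ⊥ ∧ S₂ ≠ ⊥ ∧ Cfsg.IsInternalDirectProduct S₁ S₂ P := by
  obtain ⟨⟨a, ha⟩, ha1⟩ := ne_bot_iff_exists_ne_one.1 (show P ≠ ⊥ by rintro rfl; simp at h4)
  have ha1' : a ≠ 1 := fun e => ha1 (Subtype.ext e)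
  have ca : Nat.card (zpowers a) = 2 := by rw [Nat.card_zpowers, orderOf_eq_prime (h2 a ha) ha1']
  obtain ⟨b, hb, hba⟩ : ∃ b ∈ P, b ∉ zpowers a := by
    by_contra hc
    have := card_le_of_le (show P ≤ zpowers a from fun x hx => by_contra fun e => hc ⟨x, hx, e⟩)
    omega
  have hb1 : b ≠ 1 := fun e => hba (e ▸ one_mem _)
  have cb : Nat.card (zpowers b) = 2 := by rw [Nat.card_zpowers, orderOf_eq_prime (h2 b hb) hb1]
  have comm : ∀ x ∈ P, ∀ y ∈ P, x * y = y * x := fun x hx y hy => by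
    have k : ∀ g ∈ P, g⁻¹ = g := fun g hg => inv_eq_of_mul_eq_one_left (pow_two g ▸ h2 g hg)
    rw [← k _ (P.mul_mem hx hy), mul_inv_rev, k x hx, k y hy]
  have la := zpowers_le.2 ha
  have lb := zpowers_le.2 hb
  refine ⟨zpowers a, zpowers b, by simpa using ha1', by simpa using hb1, la, lb,
    fun x hx y hy => comm x (la hx) y (lb hy), ?_, ?_⟩
  · have := Fact.mk (cb ▸ Nat.prime_two)
    refine ((zpowers a).subgroupOf (zpowers b)).eq_bot_or_eq_top_of_prime_card.elim
      (fun e => disjoint_iff.1 (subgroupOf_eq_bot.1 e)) fun e => ?_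
    exact absurd (subgroupOf_eq_top.1 e (mem_zpowers b)) hba
  · refine eq_of_le_of_card_ge (sup_le la lb) ?_
    have h1 := card_dvd_of_le (sup_le la lb)
    have h3 := card_dvd_of_le (le_sup_left : zpowers a ≤ zpowers a ⊔ zpowers b)
    have h5 : Nat.card (zpowers a) ≠ Nat.card (zpowers a ⊔ zpowers b : Subgroup G) := fun e =>
      hba (eq_of_le_of_card_ge (le_sup_left : zpowers a ≤ zpowers a ⊔ zpowers b) e.ge ▸
        mem_sup_right (mem_zpowers b))
    rw [h4] at h1 ⊢
    rw [ca] at h3 h5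
    have := Nat.le_of_dvd (by norm_num) h1
    have := Nat.pos_of_dvd_of_pos h1 (by norm_num)
    omega

theorem small {n : ℕ} (P : Sylow 2 (alternatingGroup (Fin n)))
    (hc : (Nat.card (alternatingGroup (Fin n))).factorization 2 = 2)
    (h : ∀ g : Perm (Fin n), g ^ 4 = 1 → Perm.sign g = 1 → g ^ 2 = 1) :
    ∃ S₁ S₂ : Subgroup (alternatingGroup (Fin n)), S₁ ≠ ⊥ ∧ S₂ ≠ ⊥ ∧
      Cfsg.IsInternalDirectProduct S₁ S₂ (P : Subgroup (alternatingGroup (Fin n))) := by
  have h4 : Nat.card (P : Subgroup (alternatingGroup (Fin n))) = 4 := by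
    rw [P.card_eq_multiplicity, hc]; rfl
  refine klein h4 fun g hg => Subtype.ext (h g ?_ g.2)
  have := pow_card_eq_one' (x := (⟨g, hg⟩ : (P : Subgroup (alternatingGroup (Fin n)))))
  rw [h4] at this
  exact congrArg (fun x => ((x : (P : Subgroup (alternatingGroup (Fin n)))) : Perm (Fin n))) this

/-- Direct decomposability of the Sylow 2-subgroups of the alternating groups. Let n ≥ 4 and let P be a Sylow 2-subgroup of the alternating group of degree n. Then P is the internal direct product of two nontrivial subgroups if and only if n = 4, n = 5, or n ≡ 2, 3 (mod 4) with 4⌊n/4⌋ not a power of 2. In the remaining cases (n ≡ 0, 1 (mod 4) with n ≥ 8, or n ≡ 2, 3 (mod 4) with 4⌊n/4⌋ a power of 2) P is directly indecomposable. -/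
theorem result (n : ℕ) (hn : 4 ≤ n)
    (P : Sylow 2 (alternatingGroup (Fin n))) :
    (∃ S₁ S₂ : Subgroup (alternatingGroup (Fin n)), S₁ ≠ ⊥ ∧ S₂ ≠ ⊥ ∧
        Cfsg.IsInternalDirectProduct S₁ S₂ (P : Subgroup (alternatingGroup (Fin n)))) ↔
      (n = 4 ∨ n = 5 ∨ ((n % 4 = 2 ∨ n % 4 = 3) ∧ ∀ r : ℕ, 4 * (n / 4) ≠ 2 ^ r)) := by
  by_cases h6 : 6 ≤ n
  · have hP := isSylowIn_map_subtype P
    obtain ⟨S, hS, hPS⟩ := exists_isSylowIn_ge hP.isPGroup le_top
    have e := hP.eq_of_le (S ⊓ alternatingGroup (Fin n)) (hS.isPGroup.to_le inf_le_left)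
      (le_inf hPS hP.le) inf_le_right
    have inj := (alternatingGroup (Fin n)).subtype_injective
    have key := dec_iff hS (by simpa using h6)
    rw [Fintype.card_fin] at key
    refine Iff.trans ⟨?_, ?_⟩ (key.trans ⟨fun h => Or.inr (Or.inr ⟨by omega, h.2⟩), fun h => ?_⟩)
    · rintro ⟨A, B, hA, hB, -, -, h1, h2, h3⟩
      refine ⟨A.map (Subgroup.subtype _), B.map (Subgroup.subtype _),
        mt (map_eq_bot_iff_of_injective _ inj).1 hA, mt (map_eq_bot_iff_of_injective _ inj).1 hB,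
        ?_, by rw [← map_inf _ _ _ inj, h2, Subgroup.map_bot], by rw [← Subgroup.map_sup, h3, e]⟩
      rintro _ ⟨a, ha, rfl⟩ _ ⟨b, hb, rfl⟩
      rw [← map_mul, h1 a ha b hb, map_mul]
    · rintro ⟨A, B, hA, hB, d⟩
      have a1 := map_subgroupOf_eq_of_le (d.le.trans inf_le_right)
      have b1 := map_subgroupOf_eq_of_le (d.symm.le.trans inf_le_right)
      have h3 : A.subgroupOf (alternatingGroup (Fin n)) ⊔ B.subgroupOf (alternatingGroup (Fin n)) =
          P := map_injective inj (by rw [Subgroup.map_sup, a1, b1, d.sup, e])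
      refine ⟨A.subgroupOf _, B.subgroupOf _, fun h => hA (by rw [← a1, h, Subgroup.map_bot]),
        fun h => hB (by rw [← b1, h, Subgroup.map_bot]), h3 ▸ le_sup_left, h3 ▸ le_sup_right,
        fun a ha b hb => Subtype.ext (d.comm _ ha _ hb), map_injective inj ?_, h3⟩
      rw [map_inf _ _ _ inj, a1, b1, d.inf, Subgroup.map_bot]
    · rcases h with h | h | h
      · omega
      · omega
      · exact ⟨by omega, h.2⟩
  · obtain rfl | rfl : n = 4 ∨ n = 5 := by omega
    · refine iff_of_true (small P ?_ (by decide +kernel)) (Or.inl rfl)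
      rw [nat_card_alternatingGroup]
      simp only [Nat.card_eq_fintype_card, Fintype.card_fin]
      decide +kernel
    · refine iff_of_true (small P ?_ (by decide +kernel)) (Or.inr (Or.inl rfl))
      rw [nat_card_alternatingGroup]
      simp only [Nat.card_eq_fintype_card, Fintype.card_fin]
      decide +kernel

end Cfsg.Agent.S2221
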