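import Cfsg.Statements.S2222
import Cfsg.Agent.Lib.SymSyl.Over

set_option autoImplicit false
open Cfsg

namespace Cfsg.Agent.S2222

open CfsgLib.SymSyl Pointwise

theorem isPronormal_of {G : Type*} [Group G] [Finite G] {p : ℕ} [Fact p.Prime] (R : Sylow p G) {H : Subgroup G}
    (hR : (R : Subgroup G) ≤ H) (h : Subgroup.normalizer (R : Set G) ≤ Subgroup.normalizer (H : Set G)) :
    Cfsg.IsPronormal H := by
  intro g
  set K := H ⊔ H.map (MulAut.conj g).toMonoidHom
  have h1 : (R : Subgroup G) ≤ K := hR.trans le_sup_left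
  have h2 : ((g • R : Sylow p G) : Subgroup G) ≤ K := (Subgroup.map_mono hR).trans le_sup_right
  obtain ⟨x, hx⟩ := MulAction.exists_smul_eq K (R.subtype h1) ((g • R).subtype h2)
  have h3 : (x : G) • R = g • R := by
    rw [Sylow.smul_subtype] at hx
    exact Sylow.subtype_injective hx
  have h4 : (x : G)⁻¹ * g ∈ Subgroup.normalizer (H : Set G) := h (Sylow.smul_eq_iff_mem_normalizer.1 (by
    rw [mul_smul, ← h3, inv_smul_smul]))
  refine ⟨x, x.2, ?_⟩
  change MulAut.conj g • H = MulAut.conj (x : G) • H
  have h5 : MulAut.conj ((x : G)⁻¹ * g) • H = H := Subgroup.mem_normalizer_iff_map_conj_eq.1 h4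
  rw [← mul_inv_cancel_left (x : G) g, map_mul, mul_smul, h5]

theorem eq_of_le_index {G : Type*} [Group G] [Finite G] {H K : Subgroup G} (h : H ≤ K) (hi : H.index = K.index) :
    H = K := by
  refine Subgroup.eq_of_le_of_card_ge h (le_of_eq ?_)
  have h1 := H.card_mul_index
  rw [hi, ← K.card_mul_index] at h1
  exact (Nat.eq_of_mul_eq_mul_right (Nat.pos_of_ne_zero K.index_ne_zero_of_finite) h1).symm

theorem exists_sylow_le {G : Type*} [Group G] [Finite G] {p : ℕ} [Fact p.Prime] {H : Subgroup G}
    (hH : ¬ p ∣ H.index) : ∃ R : Sylow p G, (R : Subgroup G) ≤ H := by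
  obtain ⟨Q⟩ : Nonempty (Sylow p H) := inferInstance
  refine ⟨(Q.isPGroup'.map H.subtype).toSylow ?_, Subgroup.map_subtype_le _⟩
  rw [Subgroup.index_map_subtype, (Fact.out : p.Prime).dvd_mul]
  exact not_or.2 ⟨Q.not_dvd_index, hH⟩

/-- In the alternating group of degree n ≥ 5 every subgroup H of odd index is pronormal: for every element g, the subgroups H and gHg⁻¹ are conjugate by an element of the subgroup they generate. -/
theorem result (n : ℕ) (hn : 5 ≤ n)
    (H : Subgroup (alternatingGroup (Fin n))) (hH : Odd H.index) : Cfsg.IsPronormal H := by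
  obtain ⟨R, hR⟩ := exists_sylow_le (p := 2) hH.not_two_dvd_nat
  refine isPronormal_of R hR ?_
  rcases Nat.eq_or_lt_of_le hn with rfl | h6
  · obtain ⟨P, hP⟩ := R.exists_comap_subtype_eq
    obtain ⟨o, h1, h2, h3⟩ := exists_le_stabilizer_or (k := 2) le_rfl (by simp) P
    have hle : (P : Subgroup (Equiv.Perm (Fin 5))) ⊓ alternatingGroup (Fin 5) ≤ H.map (Subgroup.subtype _) :=
      fun g hg => ⟨⟨g, hg.2⟩, hR (hP ▸ hg.1), rfl⟩
    rcases h3 _ hle with h | h
    · have hM : H ≤ MulAction.stabilizer (alternatingGroup (Fin 5)) o := fun g hg => h ⟨g, hg, rfl⟩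
      have := alternatingGroup.isPretransitive_of_three_le_card (Fin 5) (by simp)
      have i1 : (MulAction.stabilizer (alternatingGroup (Fin 5)) o).index = 5 := by
        rw [MulAction.index_stabilizer_of_transitive]
        simp
      have hc : Nat.card (alternatingGroup (Fin 5)) = 60 := by
        rw [nat_card_alternatingGroup]
        simp [Nat.factorial]
      have i2 : (R : Subgroup (alternatingGroup (Fin 5))).index = 15 := by
        have h4 := (R : Subgroup (alternatingGroup (Fin 5))).card_mul_index
        rw [R.card_eq_multiplicity, hc, show Nat.factorization 60 2 = 2 by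
          rw [show 60 = 2 ^ 2 * 15 by rfl, Nat.factorization_mul (by norm_num) (by norm_num),
            Nat.prime_two.factorization_pow]
          simp [Nat.factorization_eq_zero_of_not_dvd]] at h4
        omega
      have d1 := i1 ▸ Subgroup.index_dvd_of_le hM
      have d2 := i2 ▸ Subgroup.index_dvd_of_le hR
      have hi : H.index = 5 ∨ H.index = 15 := by
        have := Nat.le_of_dvd (by norm_num) d2
        interval_cases H.index <;> omega
      rcases hi with hi | hi
      · rw [eq_of_le_index hM (hi.trans i1.symm)]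
        refine le_trans (fun g hg => ?_) Subgroup.le_normalizer
        refine h2 _ fun x hx => ?_
        have h5 : g⁻¹ * ⟨x, hx.2⟩ * g ∈ (R : Subgroup (alternatingGroup (Fin 5))) := by
          have := (Subgroup.mem_normalizer_iff.1 (Subgroup.inv_mem _ hg) ⟨x, hx.2⟩).1 (hP ▸ hx.1 :
            (⟨x, hx.2⟩ : alternatingGroup (Fin 5)) ∈ (R : Subgroup (alternatingGroup (Fin 5))))
          rwa [inv_inv] at this
        have h6 := hM (hR h5)
        rw [MulAction.mem_stabilizer_iff, mul_smul, mul_smul, inv_smul_eq_iff] at h6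
        exact h6
      · rw [← eq_of_le_index hR (i2.trans hi.symm)]
        rfl
    · rw [eq_top_of_alt_le (Subgroup.subtype_injective _) R hR h, Subgroup.normalizer_eq_top ⊤]
      exact le_top
  · exact ((normalizer_le_alt (by simpa) R).trans hR).trans Subgroup.le_normalizer

end Cfsg.Agent.S2222
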