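import Cfsg.Statements.S2225
import Cfsg.Agent.Lib.Pronorm.Odd
import Cfsg.Agent.Lib.Pronorm.Even

set_option autoImplicit false
open Cfsg

namespace Cfsg.Agent.S2225

/-- Let F be a finite field and d = 2^w ≥ 2 a power of 2 such that PSL_d(F) is simple. Then every subgroup H of PSL_d(F) of odd index is pronormal: for every g, H and gHg⁻¹ are conjugate by an element of the subgroup they generate. -/
theorem result {F : Type*} [Field F] [Fintype F]
    (w : ℕ) (hw : 1 ≤ w) (hs : IsSimpleGroup (Matrix.ProjectiveSpecialLinearGroup (Fin (2 ^ w)) F))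
    (H : Subgroup (Matrix.ProjectiveSpecialLinearGroup (Fin (2 ^ w)) F)) (hH : Odd H.index) : Cfsg.IsPronormal H := by
  refine CfsgLib.Pronorm.isPronormal_of_odd ?_ hH
  rcases Nat.even_or_odd (Fintype.card F) with h | h
  · have : CharP F 2 := ringChar.of_eq (FiniteField.even_card_iff_char_two.2 (Nat.even_iff.1 h))
    exact (CfsgLib.Pronorm.sylPron_sl_even w).quotient _
  · obtain ⟨w, rfl⟩ := Nat.exists_eq_add_of_le' hw
    rcases Nat.eq_zero_or_pos w with rfl | h1
    · exact CfsgLib.Pronorm.sylPron_psl2_odd h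
    · exact (CfsgLib.Pronorm.sylPron_sl_odd h h1).quotient _

end Cfsg.Agent.S2225
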