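import Mathlib
import Cfsg.Statements.S2227
import Cfsg.Agent.Lib.E62.FiveC
import Cfsg.Agent.Lib.Lang.Inv

set_option autoImplicit false
open Cfsg

namespace Cfsg.Agent.S2227

open Cfsg.Lie CfsgLib.Chev CfsgLib.ChevInv CfsgLib.Twist CfsgLib.RGD CfsgLib.Lang CfsgLib.E62

/-- In the twisted group ²E₆(2) all elements of order 5 are conjugate, and the centralizer of an element of order 5 is isomorphic to the direct product of a cyclic group of order 5 with the alternating group of degree 8. -/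
theorem result {K : Type*} [Field K] [Fintype K] (hK : Fintype.card K = 4) :
    (∀ x y : ↥(Cfsg.Lie.twistedE6 K 2), orderOf x = 5 → orderOf y = 5 → IsConj x y) ∧
      ∀ x : ↥(Cfsg.Lie.twistedE6 K 2), orderOf x = 5 →
        Nonempty (↥(Subgroup.centralizer ({x} : Set ↥(Cfsg.Lie.twistedE6 K 2))) ≃* (Multiplicative (ZMod 5) × ↥(alternatingGroup (Fin 8)))) := by
  classical
  have : CharP K 2 := charP_of_card_eq_prime_pow (f := 2) hK
  have : Fact (Nat.Prime 5) := ⟨by norm_num⟩
  have : Fact (Nat.Prime 3) := ⟨by norm_num⟩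
  have hφ : ∀ t : K, frobenius K 2 t = t ^ 2 := fun _ => rfl
  obtain ⟨a, ha⟩ := conj_five hK
  refine ⟨fun x y hx hy => (ha x hx).symm.trans (ha y hy), fun y hy => ?_⟩
  obtain ⟨ω, hω⟩ : ∃ ω : K, ω ^ 2 + ω + 1 = 0 := by
    obtain ⟨ω, hω⟩ := exists_prime_orderOf_dvd_card (G := Kˣ) 3 (by rw [Fintype.card_units, hK])
    have h1 : (ω : K) ^ 3 = 1 := by rw [← Units.val_pow_eq_pow_val, ← hω, pow_orderOf_eq_one, Units.val_one]
    have h2 : (ω : K) ≠ 1 := fun e => by simp [Units.val_eq_one.1 e] at hω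
    exact ⟨ω, by grind⟩
  obtain ⟨o5, xm, hc⟩ := cent_xx hK hω
  set x : twistedE6 K 2 := ⟨_, xm⟩
  have ox : orderOf x = 5 := (Subgroup.orderOf_coe x).symm.trans o5
  obtain ⟨g, rfl⟩ := isConj_iff.1 ((ha x ox).symm.trans (ha y hy))
  obtain ⟨e⟩ := exists_alt K
  have hL : LL K ≤ twistedE6 K 2 := fun l hl => by
    rw [eq_FixE6 hφ (frob2 hφ hK)]
    exact ⟨StSys.UU_le_grp _ _ (LL_le hl), (σ_Psi _ (LL_le hl)).trans (glm_LL _ hl)⟩
  have e5 : Multiplicative (ZMod 5) ≃* Subgroup.zpowers x :=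
    mulEquivOfPrimeCardEq (p := 5) (by simp) (by rw [Nat.card_zpowers, ox])
  have cm : ∀ l : LL K, Commute (Subgroup.inclusion hL l) x := fun l => Subtype.ext (comm_xx (LL_le l.2) ω)
  let θ := (Subgroup.zpowers x).subtype.noncommCoprod (Subgroup.inclusion hL) fun u l => by
    obtain ⟨_, i, rfl⟩ := u
    exact ((cm l).zpow_right i).symm
  have hi : Function.Injective θ := (injective_iff_map_eq_one θ).2 <| by
    rintro ⟨⟨_, i, rfl⟩, l⟩ h
    have h1 : Subgroup.inclusion hL l = (x ^ i)⁻¹ := eq_inv_of_mul_eq_one_right h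
    have h2 : e.symm l ∈ Subgroup.center (alternatingGroup (Fin 8)) := Subgroup.mem_center_iff.2 fun b =>
      e.injective (Subgroup.inclusion_injective hL (by
        simp only [map_mul, MulEquiv.apply_symm_apply, h1]; exact ((cm _).zpow_right i).inv_right))
    rw [alternatingGroup.center_eq_bot (by simp), Subgroup.mem_bot, e.symm.map_eq_one_iff] at h2
    subst h2
    exact Prod.ext (Subtype.ext (by simpa using h1.symm)) rfl
  have hr : θ.range = Subgroup.centralizer {x} := by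
    refine le_antisymm ?_ fun c hc' => ?_
    · rintro _ ⟨⟨⟨_, i, rfl⟩, l⟩, rfl⟩
      exact Subgroup.mem_centralizer_singleton_iff.2 (((Commute.refl x).zpow_left i).mul_left (cm l))
    · obtain ⟨i, l, hl, h⟩ := hc c c.2 (congrArg Subtype.val (Subgroup.mem_centralizer_singleton_iff.1 hc'))
      exact ⟨⟨⟨x ^ i, Subgroup.npow_mem_zpowers x i⟩, ⟨l, hl⟩⟩, Subtype.ext h.symm⟩
  rw [centralizer_conj, ← hr]
  exact ⟨((MulAut.conj g).subgroupMap _).symm.trans ((MonoidHom.ofInjective hi).symm.trans (e5.prodCongr e).symm)⟩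

end Cfsg.Agent.S2227
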