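import Cfsg.Statements.S2238
import Cfsg.Agent.Lib.Sz.Models
import Cfsg.Agent.Lib.Sz.Tori

set_option autoImplicit false
open Cfsg

namespace Cfsg.Agent.S2238

open CfsgLib.Sz

/-- The partition of the Suzuki group: with q = 2^(2m+1), m ≥ 1, r = 2^m and the Suzuki group realised as the stabiliser in SL₄ of the Suzuki–Tits ovoid, every non-identity element lies in exactly one subgroup that is either a Sylow 2-subgroup or a cyclic subgroup of order q − 1, q + 2r + 1 or q − 2r + 1. -/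
theorem result {F : Type*} [Field F] [Fintype F] {m : ℕ} (hm : 1 ≤ m) (hF : Fintype.card F = 2 ^ (2 * m + 1)) (g : ↥(Cfsg.Sz F m)) (hg : g ≠ 1) :
    ∃! U : Subgroup ↥(Cfsg.Sz F m), ((∃ P : Sylow 2 ↥(Cfsg.Sz F m), U = (P : Subgroup ↥(Cfsg.Sz F m))) ∨
      (IsCyclic ↥U ∧ Nat.card ↥U ∈ ({2 ^ (2 * m + 1) - 1, 2 ^ (2 * m + 1) + 2 ^ (m + 1) + 1, 2 ^ (2 * m + 1) - 2 ^ (m + 1) + 1} : Set ℕ))) ∧ g ∈ U := by
  have hF' : Nat.card F = 2 ^ (2 * m + 1) := by rw [Nat.card_eq_fintype_card, hF]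
  have ht := exists_ne_zero_one hm hF
  set e := szEquiv hm hF
  have key : ∀ U : Subgroup (tits hF).grp, ((∃ P : Sylow 2 ↥(Cfsg.Sz F m), e.mapSubgroup U = (P : Subgroup ↥(Cfsg.Sz F m))) ∨
      (IsCyclic ↥(e.mapSubgroup U) ∧ Nat.card ↥(e.mapSubgroup U) ∈ ({2 ^ (2 * m + 1) - 1,
        2 ^ (2 * m + 1) + 2 ^ (m + 1) + 1, 2 ^ (2 * m + 1) - 2 ^ (m + 1) + 1} : Set ℕ))) ↔
      (∃ ω, U = (tits hF).Upt ω) ∨ (tits hF).IsTorus U := fun U => by
    have hc : Nat.card (e.mapSubgroup U) = Nat.card U :=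
      Subgroup.card_map_of_injective (f := e.toMonoidHom) e.injective
    refine or_congr ⟨?_, ?_⟩ ⟨?_, ?_⟩
    · rintro ⟨P, hP⟩
      obtain ⟨Q, rfl⟩ := Sylow.mapSurjective_surjective (f := e.toMonoidHom) e.surjective 2 P
      obtain ⟨ω, hω⟩ := Tits.exists_sylow_eq_Upt Q
      exact ⟨ω, hω ▸ e.mapSubgroup.injective hP⟩
    · rintro ⟨ω, rfl⟩
      obtain ⟨Q, hQ⟩ := Tits.exists_sylow_coe_eq_Upt ω
      exact ⟨Q.mapSurjective (f := e.toMonoidHom) e.surjective, hQ ▸ rfl⟩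
    · rintro ⟨h1, h2⟩
      rw [hc] at h2
      exact Tits.isTorus_of_isCyclic hm hF' ((e.subgroupMap U).isCyclic.2 h1) h2
    · exact fun h => ⟨(e.subgroupMap U).isCyclic.1 h.cyclic, hc ▸ h.card_eq hm hF'⟩
  have hmem : ∀ (U : Subgroup (tits hF).grp) (x : (tits hF).grp), e x ∈ e.mapSubgroup U ↔ x ∈ U := fun U x =>
    Subgroup.mem_map_iff_mem (f := e.toMonoidHom) e.injective
  obtain ⟨g, rfl⟩ := e.surjective g
  replace hg : g ≠ 1 := fun h => hg (by rw [h, map_one])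
  refine existsUnique_of_exists_of_unique ?_ fun U V hU hV => ?_
  · rcases Tits.mem_Upt_or_isTorus ht hg with ⟨ω, h⟩ | h
    · exact ⟨_, (key _).2 (Or.inl ⟨ω, rfl⟩), (hmem _ _).2 h⟩
    · exact ⟨_, (key _).2 (Or.inr h), (hmem _ _).2 (Subgroup.mem_centralizer_singleton_iff.2 rfl)⟩
  · obtain ⟨U, rfl⟩ := e.mapSubgroup.surjective U
    obtain ⟨V, rfl⟩ := e.mapSubgroup.surjective V
    rw [key, hmem] at hU hV
    congr 1
    obtain ⟨⟨α, rfl⟩ | hU, hU'⟩ := hU <;> obtain ⟨⟨β, rfl⟩ | hV, hV'⟩ := hV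
    · rw [Tits.eq_of_smul_eq_of_mem_Upt hV' hg hU'.1]
    · exact absurd (Tits.eq_one_of_mem_Upt_of_odd hU' (hV.odd_orderOf hV')) hg
    · exact absurd (Tits.eq_one_of_mem_Upt_of_odd hV' (hU.odd_orderOf hU')) hg
    · exact hU.selfCent.eq_of_mem hV.selfCent hU' hV' hg

end Cfsg.Agent.S2238
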