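import Cfsg.Statements.S2239
import Cfsg.Agent.Lib.Sz.Solvable

set_option autoImplicit false
open Cfsg

namespace Cfsg.Agent.S2239

open CfsgLib.Sz Pointwise

/-- Subfield subgroups of the Suzuki group: let q = 2^(2m+1) and s = 2^(2k+1) with m, k ≥ 1 and 2k+1 dividing 2m+1 (so q is a power of s), both groups realised as stabilisers in SL₄ of the Suzuki–Tits ovoid. Then Sz(q) has a subgroup isomorphic to Sz(s), and any two subgroups of Sz(q) isomorphic to Sz(s) are conjugate. -/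
theorem result {F : Type*} [Field F] [Fintype F] {m : ℕ} (hm : 1 ≤ m) (hF : Fintype.card F = 2 ^ (2 * m + 1)) {K : Type*} [Field K] [Fintype K] {k : ℕ} (hk : 1 ≤ k) (hK : Fintype.card K = 2 ^ (2 * k + 1)) (hdiv : 2 * k + 1 ∣ 2 * m + 1) :
    (∃ S : Subgroup ↥(Cfsg.Sz F m), Nonempty (↥S ≃* ↥(Cfsg.Sz K k))) ∧
    ∀ S₁ S₂ : Subgroup ↥(Cfsg.Sz F m), Nonempty (↥S₁ ≃* ↥(Cfsg.Sz K k)) → Nonempty (↥S₂ ≃* ↥(Cfsg.Sz K k)) →
      ∃ g : ↥(Cfsg.Sz F m), S₂ = S₁.map (MulAut.conj g).toMonoidHom := by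
  have hF' : Nat.card F = 2 ^ (2 * m + 1) := by rw [Nat.card_eq_fintype_card, hF]
  set e := szEquiv hm hF
  constructor
  · obtain ⟨E, hE⟩ := exists_subfield_card hF' hdiv
    obtain ⟨f⟩ := nonempty_sub_equiv hK hF hdiv hE
    exact ⟨_, ⟨(e.subgroupMap _).symm.trans (f.symm.trans (szEquiv hk hK))⟩⟩
  · rintro S₁ S₂ ⟨f₁⟩ ⟨f₂⟩
    obtain ⟨S₁, rfl⟩ := e.mapSubgroup.surjective S₁
    obtain ⟨S₂, rfl⟩ := e.mapSubgroup.surjective S₂
    have g₁ := (e.subgroupMap S₁).trans (f₁.trans (szEquiv hk hK).symm)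
    have g₂ := (e.subgroupMap S₂).trans (f₂.trans (szEquiv hk hK).symm)
    have hns := Tits.not_isSolvable_grp (τ := tits hK) (exists_ne_zero_one hk hK)
    obtain ⟨x, rfl⟩ := Tits.exists_smul_eq_of_not_isSolvable hm hF' (K := S₁) (L := S₂)
      (fun _ => hns (Group.isSolvable_of_surjective (f := g₁.toMonoidHom) g₁.surjective))
      (fun _ => hns (Group.isSolvable_of_surjective (f := g₂.toMonoidHom) g₂.surjective))
      (Nat.card_congr (g₁.trans g₂.symm).toEquiv)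
    refine ⟨e x, ?_⟩
    change (S₁.map (MulAut.conj x).toMonoidHom).map e.toMonoidHom = (S₁.map e.toMonoidHom).map _
    rw [Subgroup.map_map, Subgroup.map_map]
    congr 1
    ext1 g
    simp

end Cfsg.Agent.S2239
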