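import Cfsg.Statements.S2240
import Cfsg.Agent.Lib.Sz.Models
import Cfsg.Agent.Lib.Sz.Sylow

set_option autoImplicit false
open Cfsg

namespace Cfsg.Agent.S2240

open CfsgLib.Sz

/-- Elementary abelian TI-subgroups of the Suzuki group: let q = 2^(2m+1) with m ≥ 1, the group realised as the stabiliser in SL₄ of the Suzuki–Tits ovoid, and n ≥ 2. There is an elementary abelian 2-subgroup E of order 2^n that is a TI-subgroup (every conjugate of E meeting E nontrivially is E itself) if and only if n divides 2m + 1. -/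
theorem result {F : Type*} [Field F] [Fintype F] {m : ℕ} (hm : 1 ≤ m) (hF : Fintype.card F = 2 ^ (2 * m + 1)) (n : ℕ) (hn : 2 ≤ n) :
    (∃ E : Subgroup ↥(Cfsg.Sz F m), Cfsg.IsElementaryAbelian 2 E ∧ Nat.card ↥E = 2 ^ n ∧
      ∀ x : ↥(Cfsg.Sz F m), E ⊓ E.map (MulAut.conj x).toMonoidHom ≠ ⊥ → x ∈ Subgroup.normalizer (E : Set ↥(Cfsg.Sz F m))) ↔ n ∣ 2 * m + 1 := by
  have hF' : Nat.card F = 2 ^ (2 * m + 1) := by rw [Nat.card_eq_fintype_card, hF]
  set e := szEquiv hm hF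
  constructor
  · rintro ⟨E, ⟨-, h2⟩, hc, hTI⟩
    obtain ⟨E, rfl⟩ := e.mapSubgroup.surjective E
    have hmem : ∀ g, e g ∈ e.mapSubgroup E ↔ g ∈ E := fun g =>
      Subgroup.mem_map_iff_mem (f := e.toMonoidHom) e.injective
    refine Tits.dvd_of_TI (E := E) hF' (by omega) (fun g hg => e.injective ?_) ?_ fun x u hu hu1 hx => ?_
    · rw [map_mul, ← pow_two, h2 _ ((hmem g).2 hg), map_one]
    · rw [← hc]
      exact (Subgroup.card_map_of_injective (f := e.toMonoidHom) e.injective).symm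
    · have := hTI (e x) (Subgroup.ne_bot_iff_exists_ne_one.2 ⟨⟨e (x * u * x⁻¹), (hmem _).2 hx,
        ⟨e u, (hmem _).2 hu, by simp⟩⟩, fun h => hu1 (by simpa using congrArg Subtype.val h)⟩)
      refine Subgroup.mem_normalizer_iff.2 fun g => ?_
      rw [← hmem, ← hmem, Subgroup.mem_normalizer_iff.1 this]
      simp
  · intro h
    obtain ⟨E, hZ, hc, hTI⟩ := Tits.exists_TI_of_dvd (τ := tits hF) hF' h
    have hmem : ∀ g, e g ∈ e.mapSubgroup E ↔ g ∈ E := fun g =>
      Subgroup.mem_map_iff_mem (f := e.toMonoidHom) e.injective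
    refine ⟨e.mapSubgroup E, ⟨⟨⟨?_⟩⟩, ?_⟩, ?_, fun x hx => ?_⟩
    · rintro ⟨_, a, ha, rfl⟩ ⟨_, b, hb, rfl⟩
      apply Subtype.ext
      change e a * e b = e b * e a
      rw [← map_mul, ← map_mul, Tits.comm_of_mem_Z (hZ ha) ((tits hF).Z_le_U (hZ hb))]
    · rintro _ ⟨a, ha, rfl⟩
      rw [pow_two, ← map_mul, (Tits.mem_Z_iff.1 (hZ ha)).2, map_one]
    · rw [← hc]
      exact Subgroup.card_map_of_injective (f := e.toMonoidHom) e.injective
    · obtain ⟨x, rfl⟩ := e.surjective x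
      obtain ⟨⟨_, hv, _, ⟨u, hu, rfl⟩, rfl⟩, h1⟩ := Subgroup.ne_bot_iff_exists_ne_one.1 hx
      have := hTI x u hu (fun h => h1 (Subtype.ext (by simp [h]))) ((hmem _).1 (by simpa using hv))
      refine Subgroup.mem_normalizer_iff.2 fun g => ?_
      obtain ⟨g, rfl⟩ := e.surjective g
      rw [hmem, Subgroup.mem_normalizer_iff.1 this, ← hmem]
      simp

end Cfsg.Agent.S2240
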