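import Mathlib
import Cfsg.Statements.S2244
import Cfsg.Agent.Lib.RGD.ChevTools

set_option autoImplicit false
open Cfsg

namespace Cfsg.Agent.S2244

open CfsgLib.Chev CfsgLib.Weyl CfsgLib.RGD Cfsg.Lie Cfsg.Lie.ChevalleyDatum
set_option synthInstance.maxSize 2000

def SepChk (D : ChevalleyDatum) (two : Bool) : Prop :=
  ∀ i < D.rank, ∀ j < D.rank, j ≠ i → ∃ g < D.nroots, D.pairing g (D.simple j) = 0 ∧
    (D.pairing g (D.simple i) = 1 ∨ (two = true ∧ D.pairing g (D.simple i) = 2))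

def okA (k : ℕ) : List (ℕ × ℤ × ℕ × ℕ) → Bool
  | (a, c, 1, 1) :: rest => a == k && (c == 1 || c == -1) && rest.all fun x => k < x.1
  | _ => false

def okB (k : ℕ) : List (ℕ × ℤ × ℕ × ℕ) → Bool
  | [(_, _, 1, 1), (a, c, 2, 1)] => a == k && (c == 1 || c == -1)
  | _ => false

def NsChk (D : ChevalleyDatum) : Prop :=
  ∀ k < D.nroots, D.nroots / 2 ≤ k → ∃ i < D.rank, k = D.simple i ∨
    ∃ s ∈ [radd D (D.neg (D.simple i)) k, radd D (D.neg (D.simple i)) (radd D (D.neg (D.simple i)) k)],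
      D.nroots / 2 ≤ s ∧ s < D.nroots ∧
        (okA k (D.commTerms (D.simple i) s) = true ∨ okB k (D.commTerms (D.simple i) s) = true)

section
variable {D : ChevalleyDatum} [hD : Good D] {F : Type*} [Field F] (h : RtOK D)
  (J : Set (Fin D.rank)) {M : Subgroup (GL D.Idx F)}
  (hM : ⁅(stSys h F).UJ J, (stSys h F).U⁆ ≤ M)
include hM

theorem word_mem {r s : Fin D.nroots} (hr : (rootSys h).Pos r) (hs : (rootSys h).Pos s)
    (hJ : ¬ (rootSys h).InSub J r ∨ ¬ (rootSys h).InSub J s) (t u : F) :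
    wordU D F (D.commWord F r s t u) ∈ M := by
  have hne : (s : ℕ) ≠ D.neg r := fun e =>
    (rootSys h).ne_neg_of_pos hr hs (Fin.ext (e.trans (rootSys_neg h r).symm))
  rw [← xU_comm r.2 s.2 hne, ← stSys_x h, ← stSys_x h]
  refine hM ?_
  rcases hJ with hJ | hJ
  · rw [Subgroup.commutator_comm]
    simpa [commutatorElement_def, StSys.UJ] using Subgroup.commutator_mem_commutator
      (inv_mem ((stSys h F).x_mem_U hs u)) (inv_mem ((stSys h F).x_mem_UU (by exact ⟨hr, hJ⟩) t))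
  · simpa [commutatorElement_def, StSys.UJ] using Subgroup.commutator_mem_commutator
      (inv_mem ((stSys h F).x_mem_UU (by exact ⟨hs, hJ⟩) u)) (inv_mem ((stSys h F).x_mem_U hr t))

theorem ns_mem (hc : NsChk D) {a : F} (ha0 : a ≠ 0) (ha1 : a ≠ 1) (k : Fin D.nroots)
    (hk : (rootSys h).Pos k) (hJ : ¬ (rootSys h).InSub J k) (hs : ∀ i, k ≠ (rootSys h).simple i)
    (t : F) : xU D F k t ∈ M := by
  induction k using WellFoundedGT.induction generalizing t with | _ k ih
  obtain ⟨i, hi, e | ⟨s, -, hs1, hs2, hok⟩⟩ :=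
    hc k k.2 (isPosRoot_iff.1 ((rootSys_pos_iff h k).1 hk)).1
  · exact absurd (Fin.ext (e.trans (rootSys_simple h ⟨i, hi⟩).symm)) (hs ⟨i, hi⟩)
  have hr := (rootSys h).pos_simple ⟨i, hi⟩
  have hs' : (rootSys h).Pos ⟨s, hs2⟩ := (rootSys_pos_iff h _).2 (isPosRoot_iff.2 ⟨hs1, hs2⟩)
  have hsum := fun c => isSum_of_mem_commTerms h ((rootSys h).simple ⟨i, hi⟩) ⟨s, hs2⟩ (c := c)
  have hw := fun hJ => word_mem h J hM hr hs' hJ
  rw [rootSys_simple] at hsum hw
  dsimp only at hsum hw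
  have hJ' : ∀ c ∈ D.commTerms (D.simple i) s, c.1 = k →
      ¬ (rootSys h).InSub J ((rootSys h).simple ⟨i, hi⟩) ∨ ¬ (rootSys h).InSub J ⟨s, hs2⟩ := by
    rintro c hc e
    obtain ⟨h1, h2⟩ := hsum c hc
    by_contra h3
    push Not at h3
    exact hJ (by simpa [e] using h2.inSub h3.1 h3.2)
  rcases hok with hok | hok
  · unfold okA at hok
    split at hok
    · rename_i a' c rest e
      simp only [Bool.and_eq_true, beq_iff_eq, Bool.or_eq_true, List.all_eq_true,
        decide_eq_true_eq] at hok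
      obtain ⟨⟨rfl, hc⟩, hrest⟩ := hok
      have hJ'' := hJ' _ (e ▸ List.mem_cons_self) rfl
      have h1 := hw hJ'' (-(c : F)) t
      rw [commWord, e, List.map_cons, wordU, List.map_cons, List.prod_cons] at h1
      have h2 := (mul_mem_cancel_right (Subgroup.list_prod_mem _ ?_)).1 h1
      · rcases hc with rfl | rfl <;> simpa using h2
      · simp only [List.mem_map]
        rintro _ ⟨_, ⟨c, hc, rfl⟩, rfl⟩
        obtain ⟨h1, h2⟩ := hsum c (e ▸ List.mem_cons_of_mem _ hc)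
        refine ih ⟨c.1, h1⟩ (hrest c hc) (h2.pos hr hs') (fun h3 => ?_) (h2.ne_simple hr hs') _
        rcases hJ'' with h4 | h4 <;> refine h4 fun j hj => ?_ <;>
          have := h2.coeff_le hr hs' j <;> have := hr j <;> have := hs' j <;>
          have := h3 j hj <;> omega
    · exact absurd hok (by simp)
  · unfold okB at hok
    split at hok
    · rename_i k0 c0 a' c e
      simp only [Bool.and_eq_true, beq_iff_eq, Bool.or_eq_true] at hok
      obtain ⟨rfl, hc⟩ := hok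
      have hJ'' := hJ' (k, c, 2, 1) (by simp [e]) rfl
      have h1 := mul_mem (inv_mem (hw hJ'' 1 (c * t / (a - 1)))) (hw hJ'' a (a⁻¹ * (c * t / (a - 1))))
      simp only [commWord, e, List.map_cons, wordU, List.prod_cons, List.map_nil, List.prod_nil,
        mul_one, pow_one, mul_inv_rev] at h1
      rw [show (c0 : F) * -a * (a⁻¹ * (c * t / (a - 1))) = c0 * -1 * (c * t / (a - 1)) by field_simp,
        mul_assoc, inv_mul_cancel_left, xU_inv, ← xU_add] at h1
      have := sub_ne_zero.2 ha1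
      convert h1 using 2
      rcases hc with rfl | rfl <;> push_cast <;> field_simp <;> ring
    · exact absurd hok (by simp)

end

theorem ns_mem_G2 {F : Type*} [Field F] (J : Set (Fin chevG2.rank)) {M : Subgroup (GL chevG2.Idx F)}
    (hM : ⁅(stSys rtOKG2 F).UJ J, (stSys rtOKG2 F).U⁆ ≤ M) {a : F} (ha0 : a ≠ 0) (ha1 : a ^ 2 ≠ 1)
    (k : Fin chevG2.nroots) (hk : (rootSys rtOKG2).Pos k) (hJ : ¬ (rootSys rtOKG2).InSub J k)
    (hs : ∀ i, k ≠ (rootSys rtOKG2).simple i) (t : F) : xU chevG2 F k t ∈ M := by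
  have hp : ∀ r : Fin chevG2.nroots, 6 ≤ r.1 → (rootSys rtOKG2).Pos r := fun r hr =>
    (rootSys_pos_iff _ _).2 (isPosRoot_iff.2 ⟨hr, r.2⟩)
  obtain ⟨j, hj, -⟩ : ∃ j, j ∉ J ∧ _ := by simpa [RootSys.InSub] using hJ
  have hn : ∀ r : Fin chevG2.nroots, 8 ≤ r.1 → ¬ (rootSys rtOKG2).InSub J r := fun r hr h =>
    (show ∀ r : Fin chevG2.nroots, 8 ≤ r.1 → ∀ j : Fin chevG2.rank, rt chevG2 r j ≠ 0 by
      decide +kernel) r hr j (h j hj)
  have h67 : ¬ (rootSys rtOKG2).InSub J ⟨7, by decide⟩ ∨ ¬ (rootSys rtOKG2).InSub J ⟨6, by decide⟩ :=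
    ((show ∀ j : Fin chevG2.rank, rt chevG2 7 j ≠ 0 ∨ rt chevG2 6 j ≠ 0 by decide +kernel) j).imp
      (fun h h' => h (h' j hj)) fun h h' => h (h' j hj)
  have h11 : ∀ t, xU chevG2 F 11 t ∈ M := fun t => by
    simpa [commWord, show chevG2.commTerms 6 10 = [(11, 1, 1, 1)] by decide +kernel, wordU] using
      word_mem rtOKG2 J hM (hp ⟨6, by decide⟩ le_rfl) (hp ⟨10, by decide⟩ (by decide))
        (.inr (hn _ (by decide))) (-1) t
  have h76 : ∀ t u, xU chevG2 F 8 (t * u) * (xU chevG2 F 9 (t ^ 2 * u) *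
      xU chevG2 F 10 (-(t ^ 3 * u))) ∈ M := fun t u => by
    have := word_mem rtOKG2 J hM (hp ⟨7, by decide⟩ (by decide)) (hp ⟨6, by decide⟩ le_rfl) h67 t u
    simp only [commWord, show chevG2.commTerms 7 6 =
      [(8, -1, 1, 1), (9, 1, 2, 1), (10, 1, 3, 1), (11, 1, 3, 2)] by decide +kernel, wordU,
      List.map_cons, List.map_nil, List.prod_cons, List.prod_nil, mul_one, ← mul_assoc] at this
    have := (mul_mem_cancel_right (h11 _)).1 this
    rw [mul_assoc] at this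
    convert this using 3 <;> [push_cast; (congr 1; push_cast); (congr 1; push_cast)] <;> ring
  have h76' : ∀ u, (xU chevG2 F 10 (-u))⁻¹ * (xU chevG2 F 9 ((a - 1) * u) *
      xU chevG2 F 10 (-(a ^ 2 * u))) ∈ M := fun u => by
    have := mul_mem (inv_mem (h76 1 u)) (h76 a (a⁻¹ * u))
    rw [mul_inv_cancel_left₀ ha0, one_mul, mul_inv_rev, mul_assoc, inv_mul_cancel_left, mul_inv_rev,
      mul_assoc, ← mul_assoc (xU chevG2 F 9 _)⁻¹, xU_inv (r := 9), ← xU_add] at this
    rwa [show -(1 ^ 3 * u) = -u by ring, show -(1 ^ 2 * u) + a ^ 2 * (a⁻¹ * u) = (a - 1) * u by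
      field_simp; ring, show a ^ 3 * (a⁻¹ * u) = a ^ 2 * u by field_simp] at this
  have ha : a - 1 ≠ 0 := fun h => ha1 (by rw [sub_eq_zero.1 h, one_pow])
  have h910 : (∀ t, xU chevG2 F 9 t ∈ M) ∧ ∀ t, xU chevG2 F 10 t ∈ M := by
    by_cases h3 : (3 : F) = 0
    · have h2 : (2 : F) ≠ 0 := fun h => one_ne_zero (show (1 : F) = 0 by linear_combination h3 - h)
      have h9 : ∀ t, xU chevG2 F 9 t ∈ M := fun t => by
        simpa [commWord, show chevG2.commTerms 7 8 = [(9, -2, 1, 1), (10, -3, 2, 1), (11, 3, 1, 2)] by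
          decide +kernel, wordU, h3, xU_zero, h2] using word_mem rtOKG2 J hM (hp ⟨7, by decide⟩
            (by decide)) (hp ⟨8, by decide⟩ (by decide)) (.inr (hn _ (by decide))) 2⁻¹ t
      refine ⟨h9, fun t => ?_⟩
      have h4 := h76' (t / (1 - a ^ 2))
      rw [← mul_assoc, ← (xU_commute (D := chevG2) (a := 9) (b := 10) (by decide) (by decide)
        (by unfold Comm0; decide +kernel) _ _).inv_right.eq, mul_assoc, xU_inv, ← xU_add] at h4
      have := sub_ne_zero.2 ha1.symm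
      convert (mul_mem_cancel_left (h9 _)).1 h4 using 2
      field_simp; ring
    · have h10 : ∀ t, xU chevG2 F 10 t ∈ M := fun t => by
        simpa [commWord, show chevG2.commTerms 7 9 = [(10, 3, 1, 1)] by decide +kernel, wordU, h3] using
          word_mem rtOKG2 J hM (hp ⟨7, by decide⟩ (by decide)) (hp ⟨9, by decide⟩ (by decide))
            (.inr (hn _ (by decide))) (-3⁻¹) t
      refine ⟨fun t => ?_, h10⟩
      have := (mul_mem_cancel_right (h10 _)).1 ((mul_mem_cancel_left (inv_mem (h10 _))).1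
        (h76' (t / (a - 1))))
      rwa [mul_div_cancel₀ _ ha] at this
  have h8 : ∀ t, xU chevG2 F 8 t ∈ M := fun t => by
    simpa using (mul_mem_cancel_right (mul_mem (h910.1 _) (h910.2 _))).1 (h76 1 t)
  have h6 : 6 ≤ k.1 := (isPosRoot_iff.1 ((rootSys_pos_iff _ k).1 hk)).1
  obtain ⟨k, hk'⟩ := k
  have hk'' : k < 12 := hk'
  interval_cases k
  exacts [absurd rfl (hs ⟨1, by decide⟩), absurd rfl (hs ⟨0, by decide⟩), h8 t, h910.1 t, h910.2 t, h11 t]

theorem main {D : ChevalleyDatum} [Good D] {F : Type*} [Field F] [Finite F] (h : RtOK D) {two : Bool}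
    (hsep : SepChk D two) {a : F} (ha0 : a ≠ 0) (ha1 : a ≠ 1) (ha2 : two = true → a ^ 2 ≠ 1)
    (hns : ∀ (J : Set (Fin D.rank)) {M : Subgroup (GL D.Idx F)},
      ⁅(stSys h F).UJ J, (stSys h F).U⁆ ≤ M → ∀ k, (rootSys h).Pos k → ¬ (rootSys h).InSub J k →
        (∀ i, k ≠ (rootSys h).simple i) → ∀ t, xU D F k t ∈ M)
    (X : Subgroup (GL D.Idx F)) (hXU : X ≤ (stSys h F).U)
    (hwc : ∀ g ∈ (stSys h F).grp, (∀ x ∈ X, g * x * g⁻¹ ∈ (stSys h F).U) → ∀ x ∈ X, g * x * g⁻¹ ∈ X) :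
    ∃ J, X = (stSys h F).UJ J := by
  have hS := stSys_nondeg h (F := F)
  set S := stSys h F with hSd
  have hB : ∀ b ∈ S.B, ∀ x ∈ X, b * x * b⁻¹ ∈ X := fun b hb =>
    hwc b (S.B_le_grp hb) fun x hx => StSys.B_conj_mem_U hb (hXU hx)
  refine ⟨{i | ∀ x ∈ X, S.scoef i x = 0}, ?_⟩
  set J := {i | ∀ x ∈ X, S.scoef i x = 0}
  have h1 : X ≤ S.UJ J := by
    have : ∀ L : List (Fin D.rank), (∀ i ∈ L, i ∈ J) → ∀ x ∈ X, S.nprod L * x * (S.nprod L)⁻¹ ∈ X := by
      intro L hL x hx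
      induction L with
      | nil => simpa [S.nprod_nil] using hx
      | cons i L ih =>
        have := hwc _ (S.n_mem_grp ((rootSys h).simple i) 1) (fun y hy => S.UU_le_U (fun _ h => h.1)
          (S.n_conj_mem_U_diff i one_ne_zero ((hS.scoef_eq_zero_iff (hXU hy)).1
            (hL i List.mem_cons_self y hy)))) _ (ih fun j hj => hL j (List.mem_cons_of_mem _ hj))
        simpa [S.nprod_cons, mul_assoc] using this
    refine fun x hx => hS.mem_UJ_of_conj (hXU hx) fun n hn => hXU ?_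
    obtain ⟨b, hb, L, hL, e⟩ := S.mem_NJ_iff.1 (inv_mem hn)
    have := hB b (S.H_le_B hb) _ (this L hL x hx)
    rw [← inv_inv n, e]
    simpa [mul_assoc] using this
  have := S.isNilpotent_U
  refine le_antisymm h1 (le_of_le_sup_commutator (S.UJ_le_U J) hXU (fun u hu => hB u (S.U_le_B hu)) ?_)
  have h2 := hns J (M := X ⊔ ⁅S.UJ J, S.U⁆) le_sup_right
  refine S.UU_le_iff.2 fun k hk t => ?_
  by_cases h3 : ∀ i, k ≠ (rootSys h).simple i
  · exact h2 k hk.1 hk.2 h3 t
  push Not at h3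
  obtain ⟨i, rfl⟩ := h3
  have hi : ∃ x ∈ X, S.scoef i x ≠ 0 := by simpa [J, RootSys.inSub_simple_iff] using hk.2
  obtain ⟨x, hx, hi⟩ := hi
  let T : AddSubgroup (Fin D.rank → F) :=
    { carrier := {v | ∃ x ∈ X, v = fun j => S.scoef j x}
      zero_mem' := ⟨1, one_mem _, funext fun j => (hS.scoef_one j).symm⟩
      add_mem' := by
        rintro _ _ ⟨x, hx, rfl⟩ ⟨y, hy, rfl⟩
        exact ⟨x * y, mul_mem hx hy, funext fun j => (hS.scoef_mul j (hXU hx) (hXU hy)).symm⟩
      neg_mem' := by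
        rintro _ ⟨x, hx, rfl⟩
        exact ⟨x⁻¹, inv_mem hx, funext fun j => (hS.scoef_inv j (hXU hx)).symm⟩ }
  obtain ⟨y, hy, e⟩ := single_mem_of_stable T
    {χ | ∃ g < D.nroots, ∃ c : F, c ≠ 0 ∧ χ = fun j : Fin D.rank => c ^ D.pairing g (D.simple j)}
    (by
      rintro _ ⟨g, hg, c, hc, rfl⟩ _ ⟨x, hx, rfl⟩
      refine ⟨_, hB _ (S.H_le_B (S.h_mem_H ⟨g, hg⟩ hc)) x hx, funext fun j => ?_⟩
      exact (hS.scoef_conj j (l := fun s => c ^ D.pairing g s)
        (fun s t => hU_conj_xU hg hc s t) (hXU hx)).symm) (i := i)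
    (fun j hj => by
      obtain ⟨g, hg, e1, e2⟩ := hsep i i.2 j j.2 fun e => hj (Fin.ext e)
      refine ⟨_, ⟨g, hg, a, ha0, rfl⟩, by simp [e1], ?_⟩
      rcases e2 with e2 | ⟨e, e2⟩
      · simpa [e2] using ha1
      · simpa [e2] using ha2 e)
    (fun c hc => ⟨_, ⟨_, simple_lt i.2, c, hc, rfl⟩, by simp [pairing_self (simple_lt i.2)]⟩)
    (v := fun j => S.scoef j x) ⟨x, hx, rfl⟩ hi t
  have h4 := hS.mem_UU_of_scoef (StSys.closed_UJ J) (fun _ h => h.1)
    (mul_mem (inv_mem (h1 hy)) (S.x_mem_UU hk t)) fun j => by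
      rw [hS.scoef_mul j (inv_mem (hXU hy)) (S.x_mem_U hk.1 t), hS.scoef_inv j (hXU hy),
        ← congrFun e j, congrFun (hS.scoef_x_simple i t) j, neg_add_cancel]
  exact (mul_mem_cancel_left (Subgroup.mem_sup_left (inv_mem hy))).1
    (S.UU_le_iff.2 (fun k hk t => h2 k hk.1.1 hk.1.2 hk.2 t) h4)

/-- Weakly closed unipotent subgroups of Chevalley groups: let G be the Chevalley group of type G₂, B₂, D₄, F₄, E₆, E₇ or E₈ over a finite field F (the matrix group generated by the root elements), with |F| ≠ 2, and |F| ≠ 3 as well for the types G₂, B₂, D₄, F₄. Let U be the subgroup generated by the positive root subgroups. If X ≤ U is weakly closed in U with respect to G (every G-conjugate of X lying in U equals X), then X is the unipotent radical U_J of a standard parabolic subgroup for some set J of fundamental roots. -/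
theorem result {F : Type*} [Field F] [Fintype F] (D : Cfsg.Lie.ChevalleyDatum) (hD : D ∈ [Cfsg.Lie.chevG2, Cfsg.Lie.chevB2, Cfsg.Lie.chevD4, Cfsg.Lie.chevF4, Cfsg.Lie.chevE6, Cfsg.Lie.chevE7, Cfsg.Lie.chevE8])
    (h2 : Fintype.card F ≠ 2) (h3 : D ∈ [Cfsg.Lie.chevG2, Cfsg.Lie.chevB2, Cfsg.Lie.chevD4, Cfsg.Lie.chevF4] → Fintype.card F ≠ 3)
    (X : Subgroup (GL D.Idx F)) (hXU : X ≤ D.posUnipotent F)
    (hwc : ∀ g ∈ D.group F, X.map (MulAut.conj g).toMonoidHom ≤ D.posUnipotent F → X.map (MulAut.conj g).toMonoidHom = X) :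
    ∃ J : Set ℕ, (∀ j ∈ J, j < D.rank) ∧ X = D.unipotentRadical F J := by
  have := good_of_mem hD; have h := rtOK_of_mem hD
  rw [← stSys_U h] at hXU hwc
  rw [← stSys_grp h] at hwc
  have hwc' : ∀ g ∈ (stSys h F).grp, (∀ x ∈ X, g * x * g⁻¹ ∈ (stSys h F).U) →
      ∀ x ∈ X, g * x * g⁻¹ ∈ X := fun g hg h1 x hx =>
    (hwc g hg (by rintro _ ⟨y, hy, rfl⟩; exact h1 y hy)).le ⟨x, hx, rfl⟩
  suffices ∃ J, X = (stSys h F).UJ J by
    obtain ⟨J, rfl⟩ := this
    refine ⟨Fin.val '' J, by rintro _ ⟨j, -, rfl⟩; exact j.2, ?_⟩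
    rw [← stSys_UJ h]; congr 1; ext j; simp [Fin.val_inj]
  classical
  have hc := Fintype.one_lt_card (α := F)
  obtain ⟨a, ha⟩ := Finset.exists_mem_notMem_of_card_lt_card (s := ({0, 1} : Finset F))
    (t := Finset.univ) (Finset.card_le_two.trans_lt (by rw [Finset.card_univ]; omega))
  simp only [Finset.mem_univ, Finset.mem_insert, Finset.mem_singleton, not_or, true_and] at ha
  by_cases hD' : D ∈ [chevG2, chevB2, chevD4, chevF4]
  · have := h3 hD'
    obtain ⟨b, hb⟩ := Finset.exists_mem_notMem_of_card_lt_card (s := ({0, 1, -1} : Finset F))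
      (t := Finset.univ) (Finset.card_le_three.trans_lt (by rw [Finset.card_univ]; omega))
    simp only [Finset.mem_univ, Finset.mem_insert, Finset.mem_singleton, not_or, true_and] at hb
    have hb2 : b ^ 2 ≠ 1 := by simpa using hb.2
    simp only [List.mem_cons, List.not_mem_nil, or_false] at hD'
    rcases hD' with rfl | rfl | rfl | rfl
    · exact main rtOKG2 (two := true) (by unfold SepChk; decide +kernel) hb.1 hb.2.1 (fun _ => hb2)
        (fun J _ hM => ns_mem_G2 J hM hb.1 hb2) X hXU hwc'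
    all_goals
      exact main h (two := true) (by unfold SepChk; decide +kernel) hb.1 hb.2.1 (fun _ => hb2)
        (fun J _ hM => ns_mem h J hM (by unfold NsChk; decide +kernel) ha.1 ha.2) X hXU hwc'
  · simp only [List.mem_cons, List.not_mem_nil, or_false] at hD hD'
    rcases hD with rfl | rfl | rfl | rfl | rfl | rfl | rfl
    iterate 4 simp at hD'
    all_goals
      exact main h (two := false) (by unfold SepChk; decide +kernel) ha.1 ha.2 (by simp)
        (fun J _ hM => ns_mem h J hM (by unfold NsChk; decide +kernel) ha.1 ha.2) X hXU hwc'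

end Cfsg.Agent.S2244
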