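import Cfsg.Statements.S2251
import Cfsg.Agent.Lib.Sz.Solvable

set_option autoImplicit false
open Cfsg

namespace Cfsg.Agent.S2251

open CfsgLib.Sz Pointwise

/-- The subgroups of the Suzuki group: with q = 2^(2m+1), m ≥ 1, r = 2^m and the group realised as the stabiliser in SL₄ of the Suzuki–Tits ovoid, every proper subgroup is contained in the normalizer of a Sylow 2-subgroup, or in the normalizer of a cyclic subgroup of order q − 1, q + 2r + 1 or q − 2r + 1, or in a subgroup isomorphic to a smaller Suzuki group Sz(s) with s = 2^(2k+1) ≥ 8 and 2k+1 a proper divisor of 2m+1. -/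
theorem result {F : Type*} [Field F] [Fintype F] {m : ℕ} (hm : 1 ≤ m) (hF : Fintype.card F = 2 ^ (2 * m + 1)) (M : Subgroup ↥(Cfsg.Sz F m)) (hM : M ≠ ⊤) :
    (∃ P : Sylow 2 ↥(Cfsg.Sz F m), M ≤ Subgroup.normalizer ((P : Subgroup ↥(Cfsg.Sz F m)) : Set ↥(Cfsg.Sz F m))) ∨
    (∃ U : Subgroup ↥(Cfsg.Sz F m), IsCyclic ↥U ∧ Nat.card ↥U ∈ ({2 ^ (2 * m + 1) - 1, 2 ^ (2 * m + 1) + 2 ^ (m + 1) + 1, 2 ^ (2 * m + 1) - 2 ^ (m + 1) + 1} : Set ℕ) ∧
      M ≤ Subgroup.normalizer (U : Set ↥(Cfsg.Sz F m))) ∨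
    (∃ (K : Type) (_ : Field K) (_ : Fintype K) (k : ℕ), 1 ≤ k ∧ k < m ∧ Fintype.card K = 2 ^ (2 * k + 1) ∧ 2 * k + 1 ∣ 2 * m + 1 ∧
      ∃ S : Subgroup ↥(Cfsg.Sz F m), Nonempty (↥S ≃* ↥(Cfsg.Sz K k)) ∧ M ≤ S) := by
  have hF' : Nat.card F = 2 ^ (2 * m + 1) := by rw [Nat.card_eq_fintype_card, hF]
  set e := szEquiv hm hF
  obtain ⟨M, rfl⟩ := e.mapSubgroup.surjective M
  have hN : ∀ A : Subgroup (tits hF).grp, M ≤ Subgroup.normalizer (A : Set (tits hF).grp) →
      e.mapSubgroup M ≤ Subgroup.normalizer ((A.map e.toMonoidHom : Subgroup (Cfsg.Sz F m)) : Set (Cfsg.Sz F m)) :=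
    fun A h => (Subgroup.map_mono h).trans (Subgroup.le_normalizer_map _)
  rcases Tits.subgroup_cases hm hF' M with ⟨ω, h⟩ | ⟨A, hA, -, h⟩ | ⟨E, x, hE, rfl⟩
  · obtain ⟨Q, hQ⟩ := Tits.exists_sylow_coe_eq_Upt ω
    rw [← Tits.normalizer_Upt, ← hQ] at h
    exact Or.inl ⟨Q.mapSurjective (f := e.toMonoidHom) e.surjective, hN _ h⟩
  · refine Or.inr (Or.inl ⟨A.map e.toMonoidHom, (e.subgroupMap A).isCyclic.1 hA.cyclic, ?_, hN _ h⟩)
    rw [Subgroup.card_map_of_injective e.injective]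
    exact hA.card_eq hm hF'
  · obtain ⟨k, hk, hd⟩ := Tits.exists_card_subfield hF' (tits hF) E
    have h1 := Tits.one_le_of_card hk (Tits.exists_ne_zero_one_subfield hE)
    have hlt : k < m := by
      refine lt_of_le_of_ne (by have := Nat.le_of_dvd (by omega) hd; omega) ?_
      rintro rfl
      have h2 : E = ⊤ := subfield_eq_of_card_eq (by
        rw [hk, ← hF']
        exact (Nat.card_congr Subfield.topEquiv.toEquiv).symm)
      rw [h2, Tits.sub_top] at hM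
      have h3 : MulAut.conj x • (⊤ : Subgroup (tits hF).grp) = ⊤ :=
        eq_top_iff.2 fun g _ => Tits.mem_conj_smul.2 (Subgroup.mem_top _)
      exact hM (by rw [h3, OrderIso.map_top])
    let _ := Fintype.ofFinite (GaloisField 2 (2 * k + 1))
    have hK : Fintype.card (GaloisField 2 (2 * k + 1)) = 2 ^ (2 * k + 1) := by
      rw [← Nat.card_eq_fintype_card, GaloisField.card 2 _ (by omega)]
    obtain ⟨f⟩ := nonempty_sub_equiv hK hF hd hk
    exact Or.inr (Or.inr ⟨GaloisField 2 (2 * k + 1), inferInstance, inferInstance, k, h1, hlt, hK, hd, _,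
      ⟨(e.subgroupMap _).symm.trans (((MulAut.conj x).subgroupMap _).symm.trans (f.symm.trans (szEquiv h1 hK)))⟩,
      le_rfl⟩)

end Cfsg.Agent.S2251
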