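import Mathlib
import Cfsg.Statements.S2254
import Cfsg.Agent.Lib.SymSub.Nilp
-- import your own Cfsg.Agent.* helpers here

set_option autoImplicit false
open Cfsg

namespace Cfsg.Agent.S2254

/-- Let n ≡ 3 (mod 4). Then every nilpotent subgroup of the symmetric group on n letters has order at most 3 times the order of a Sylow 2-subgroup of the symmetric group on n − 3 letters; the bound is attained by a nilpotent subgroup isomorphic to the direct product of such a Sylow 2-subgroup with a cyclic group of order 3; and any two nilpotent subgroups attaining the bound are conjugate. -/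
theorem result  (n : ℕ) (hn : n % 4 = 3)
    (P : Sylow 2 (Equiv.Perm (Fin (n - 3)))) :
    (∀ N : Subgroup (Equiv.Perm (Fin n)), Group.IsNilpotent N → Nat.card N ≤ 3 * Nat.card P) ∧
    (∃ M : Subgroup (Equiv.Perm (Fin n)), Group.IsNilpotent M ∧ Nat.card M = 3 * Nat.card P ∧
      Nonempty (M ≃* (↥(P : Subgroup (Equiv.Perm (Fin (n - 3)))) × Multiplicative (ZMod 3)))) ∧
    (∀ N₁ N₂ : Subgroup (Equiv.Perm (Fin n)), Group.IsNilpotent N₁ → Group.IsNilpotent N₂ →
      Nat.card N₁ = 3 * Nat.card P → Nat.card N₂ = 3 * Nat.card P →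
      ∃ g : Equiv.Perm (Fin n), N₂ = N₁.map (MulAut.conj g).toMonoidHom) := by
  open CfsgLib.SymSub in
  have h : ∀ N : Subgroup (Equiv.Perm (Fin n)), Group.IsNilpotent N → Nat.card N ≤ 3 * 2 ^ v2 (n - 3) :=
    fun N hN => by simpa [gn, hn] using card_le_gn hN
  refine ⟨card_sylow_perm P ▸ h, ?_, fun N₁ N₂ h1 h2 => card_sylow_perm P ▸
    conj_of_max h (fun c d hc hd ec ed => ?_) h1 h2⟩
  · obtain ⟨m, rfl⟩ : ∃ m, n = m + 3 := ⟨n - 3, by omega⟩
    exact exists_range P.isPGroup' ((sumHom m 3).comp (P.1.subtype.prodMap z3))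
      ((sumHom_injective m 3).comp (P.1.subtype_injective.prodMap z3_facts.1))
  · exact Equiv.Perm.isConj_iff_cycleType_eq.2
      ((isThreeCycle_of hc (Fintype.card_fin n) hn ec (Nat.le_succ _)).trans
        (isThreeCycle_of hd (Fintype.card_fin n) hn ed (Nat.le_succ _)).symm)

end Cfsg.Agent.S2254
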