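import Mathlib
import Cfsg.Statements.S2256
import Cfsg.Agent.Lib.SymSub.Nilp
-- import your own Cfsg.Agent.* helpers here

set_option autoImplicit false
open Cfsg

namespace Cfsg.Agent.S2256

/-- Let n ≡ 3 (mod 4) with n ≥ 7. Then every nilpotent subgroup of the alternating group on n letters has order at most 3 times the order of a Sylow 2-subgroup of the alternating group on n − 3 letters; the bound is attained by a nilpotent subgroup isomorphic to the direct product of such a Sylow 2-subgroup with a cyclic group of order 3; and any two nilpotent subgroups of the alternating group attaining the bound are conjugate in it. -/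
theorem result  (n : ℕ) (hn : n % 4 = 3) (h7 : 7 ≤ n)
    (P : Sylow 2 (alternatingGroup (Fin (n - 3)))) :
    (∀ N : Subgroup (alternatingGroup (Fin n)), Group.IsNilpotent N → Nat.card N ≤ 3 * Nat.card P) ∧
    (∃ M : Subgroup (alternatingGroup (Fin n)), Group.IsNilpotent M ∧ Nat.card M = 3 * Nat.card P ∧
      Nonempty (M ≃* (↥(P : Subgroup (alternatingGroup (Fin (n - 3)))) × Multiplicative (ZMod 3)))) ∧
    (∀ N₁ N₂ : Subgroup (alternatingGroup (Fin n)), Group.IsNilpotent N₁ → Group.IsNilpotent N₂ →
      Nat.card N₁ = 3 * Nat.card P → Nat.card N₂ = 3 * Nat.card P →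
      ∃ g : alternatingGroup (Fin n), N₂ = N₁.map (MulAut.conj g).toMonoidHom) := by
  open CfsgLib.SymSub in
  obtain ⟨h3, h4⟩ := card_sylow_alt (by omega) P
  have h : ∀ N : Subgroup (alternatingGroup (Fin n)), Group.IsNilpotent N →
      Nat.card N ≤ 3 * 2 ^ (v2 (n - 3) - 1) := fun N hN => by
    have h := two_mul_card_le_gn (N := N.map (alternatingGroup (Fin n)).subtype)
      (Group.nilpotent_of_mulEquiv (N.equivMapOfInjective _ (Subgroup.subtype_injective _)))
      (Subgroup.map_subtype_le _) (Fintype.card_fin n) (by omega) (by omega) (by omega) (by omega) (by omega)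
    rw [Subgroup.card_map_of_injective (Subgroup.subtype_injective _), gn, if_pos hn,
      ← Nat.sub_add_cancel h4, pow_succ] at h
    omega
  have key : ∀ c : alternatingGroup (Fin n), orderOf c = 3 →
      2 ^ (v2 (n - 3) - 1) ∣ Nat.card (Subgroup.centralizer {c}) → c.1.IsThreeCycle := fun c hc ec =>
    isThreeCycle_of ((Subgroup.orderOf_coe c).trans hc) (Fintype.card_fin n) hn (ec.trans (by
      rw [← Subgroup.card_map_of_injective (Subgroup.subtype_injective _)]
      refine Subgroup.card_dvd_of_le ?_
      rintro _ ⟨x, hx, rfl⟩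
      exact Subgroup.mem_centralizer_singleton_iff.2
        (congrArg Subtype.val (Subgroup.mem_centralizer_singleton_iff.1 hx)))) (by omega)
  refine ⟨h3 ▸ h, ?_, fun N₁ N₂ h1 h2 => h3 ▸ conj_of_max h (fun c d hc hd ec ed => ?_) h1 h2⟩
  · obtain ⟨m, rfl⟩ : ∃ m, n = m + 3 := ⟨n - 3, by omega⟩
    refine exists_range P.isPGroup' (((sumHom m 3).comp
      (((Subgroup.subtype _).comp P.1.subtype).prodMap z3)).codRestrict _ fun x => ?_)
      (((MonoidHom.injective_codRestrict _ _ _).2 ((sumHom_injective m 3).comp
        (((Subgroup.subtype_injective _).comp P.1.subtype_injective).prodMap z3_facts.1))))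
    rw [Equiv.Perm.mem_alternatingGroup, MonoidHom.comp_apply, sign_sumHom]
    exact (congrArg₂ (· * ·) (Equiv.Perm.mem_alternatingGroup.1 x.1.1.2) (z3_facts.2 x.2)).trans (one_mul _)
  · exact alternatingGroup.isThreeCycle_isConj (by rw [Nat.card_fin]; omega) (key c hc ec) (key d hd ed)

end Cfsg.Agent.S2256
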