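import Mathlib
import Cfsg.Statements.S2257
import Cfsg.Agent.Lib.PslSol.Basic
-- import your own Cfsg.Agent.* helpers here

set_option autoImplicit false
open Cfsg

namespace Cfsg.Agent.S2257

/-- Let G = PSL_2(F) with F a field of order q = 2^p, p prime, and for x ∈ G call the solubilizer of x the set of y ∈ G such that x and y generate a solvable subgroup. Then the solubilizer of an involution has 3q(q − 1) elements; that of a non-identity element of order dividing q − 1 has 2q(q − 1) elements; and that of a non-identity element of order dividing q + 1 has 2(q + 1) elements. -/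
theorem result (p : ℕ) (hp : p.Prime) {F : Type*} [Field F] [Fintype F]
    (hF : Fintype.card F = 2 ^ p) (x : Matrix.ProjectiveSpecialLinearGroup (Fin 2) F) :
    (orderOf x = 2 → Nat.card {y : Matrix.ProjectiveSpecialLinearGroup (Fin 2) F // Group.IsSolvable ↥(Subgroup.closure ({x, y} : Set (Matrix.ProjectiveSpecialLinearGroup (Fin 2) F)))} = 3 * 2 ^ p * (2 ^ p - 1)) ∧
    (x ≠ 1 → orderOf x ∣ 2 ^ p - 1 → Nat.card {y : Matrix.ProjectiveSpecialLinearGroup (Fin 2) F // Group.IsSolvable ↥(Subgroup.closure ({x, y} : Set (Matrix.ProjectiveSpecialLinearGroup (Fin 2) F)))} = 2 * 2 ^ p * (2 ^ p - 1)) ∧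
    (x ≠ 1 → orderOf x ∣ 2 ^ p + 1 → Nat.card {y : Matrix.ProjectiveSpecialLinearGroup (Fin 2) F // Group.IsSolvable ↥(Subgroup.closure ({x, y} : Set (Matrix.ProjectiveSpecialLinearGroup (Fin 2) F)))} = 2 * (2 ^ p + 1)) := by
  open CfsgLib.PslSol CfsgLib.Dickson in
  rw [← Nat.card_eq_fintype_card] at hF
  have : CharP F 2 := charP_of_card_eq_prime_pow (R := F) (Nat.card_eq_fintype_card.symm.trans hF)
  have h0 : Even (Nat.card F) := by rw [hF]; exact (Nat.even_pow' hp.ne_zero).2 even_two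
  have h1 := index_psl_even h0
  have h2 := orderOf_injective _ pslPGL_injective x
  have h3 : x ≠ 1 → Odd (orderOf x) → pslPGL F x ^ 2 ≠ 1 := fun h ho h' => by
    rcases (Nat.dvd_prime Nat.prime_two).1 (h2 ▸ orderOf_dvd_of_pow_eq_one h') with e | e
    exacts [h (orderOf_eq_one_iff.1 e), absurd (e ▸ ho) (by decide)]
  rw [card_sol, ← hF]
  refine ⟨fun h => ncard_sol_two hp hF (h2.trans h), fun h hd => ?_, fun h hd => ?_⟩
  · have := ncard_sol_split 2 hp hF (.inl rfl) ⟨x, rfl⟩
      (h3 h (Odd.of_dvd_nat (Nat.Even.sub_odd Nat.card_pos h0 odd_one) hd)) (h2 ▸ hd)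
    rwa [h1, mul_one, ← mul_assoc] at this
  · have := ncard_sol_irr 2 hp hF (.inl rfl) ⟨x, rfl⟩ (h3 h (Odd.of_dvd_nat h0.add_one hd)) (h2 ▸ hd)
    rwa [h1, mul_one] at this

end Cfsg.Agent.S2257
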