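import Mathlib
import Cfsg.Statements.S2258
import Cfsg.Agent.Lib.PslSol.Basic
-- import your own Cfsg.Agent.* helpers here

set_option autoImplicit false
open Cfsg

namespace Cfsg.Agent.S2258

/-- Let G = PSL_2(F) with F a field of order q = 3^p, p an odd prime, and for x ∈ G call the solubilizer of x the set of y ∈ G such that x and y generate a solvable subgroup. Then the solubilizer of an involution has q(q + 1) elements; that of an element of order 3 has q(q + 5)/2 elements; that of an element of order neither 1 nor 2 dividing q − 1 has q(q − 1) elements; and that of an element of order neither 1 nor 2 dividing q + 1 has q + 1 elements. -/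
theorem result (p : ℕ) (hp : p.Prime) (hodd : Odd p) {F : Type*} [Field F] [Fintype F]
    (hF : Fintype.card F = 3 ^ p) (x : Matrix.ProjectiveSpecialLinearGroup (Fin 2) F) :
    (orderOf x = 2 → Nat.card {y : Matrix.ProjectiveSpecialLinearGroup (Fin 2) F // Group.IsSolvable ↥(Subgroup.closure ({x, y} : Set (Matrix.ProjectiveSpecialLinearGroup (Fin 2) F)))} = 3 ^ p * (3 ^ p + 1)) ∧
    (orderOf x = 3 → 2 * Nat.card {y : Matrix.ProjectiveSpecialLinearGroup (Fin 2) F // Group.IsSolvable ↥(Subgroup.closure ({x, y} : Set (Matrix.ProjectiveSpecialLinearGroup (Fin 2) F)))} = 3 ^ p * (3 ^ p + 5)) ∧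
    (x ≠ 1 → orderOf x ≠ 2 → orderOf x ∣ 3 ^ p - 1 → Nat.card {y : Matrix.ProjectiveSpecialLinearGroup (Fin 2) F // Group.IsSolvable ↥(Subgroup.closure ({x, y} : Set (Matrix.ProjectiveSpecialLinearGroup (Fin 2) F)))} = 3 ^ p * (3 ^ p - 1)) ∧
    (x ≠ 1 → orderOf x ≠ 2 → orderOf x ∣ 3 ^ p + 1 → Nat.card {y : Matrix.ProjectiveSpecialLinearGroup (Fin 2) F // Group.IsSolvable ↥(Subgroup.closure ({x, y} : Set (Matrix.ProjectiveSpecialLinearGroup (Fin 2) F)))} = 3 ^ p + 1) := by
  open CfsgLib.PslSol CfsgLib.Dickson in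
  rw [← Nat.card_eq_fintype_card] at hF
  have : Fact (Nat.Prime 3) := ⟨Nat.prime_three⟩
  have : CharP F 3 := charP_of_card_eq_prime_pow (R := F) (Nat.card_eq_fintype_card.symm.trans hF)
  have h1 := index_psl_odd (odd_card_of_ne_two (F := F) 3 (by norm_num))
  have h2 := orderOf_injective _ pslPGL_injective x
  have h3 : x ≠ 1 → orderOf x ≠ 2 → pslPGL F x ^ 2 ≠ 1 := fun h ho h' => by
    rcases (Nat.dvd_prime Nat.prime_two).1 (h2 ▸ orderOf_dvd_of_pow_eq_one h') with e | e
    exacts [h (orderOf_eq_one_iff.1 e), ho e]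
  rw [card_sol, ← hF]
  refine ⟨fun h => ncard_sol_invol hp hodd hF ⟨x, rfl⟩ (h2.trans h),
    fun h => ncard_sol_three hp hodd hF ⟨x, rfl⟩ (h2.trans h), fun h h' hd => ?_, fun h h' hd => ?_⟩
  · have := ncard_sol_split 3 hp hF (.inr ⟨rfl, hodd⟩) ⟨x, rfl⟩ (h3 h h') (h2 ▸ hd)
    rw [h1] at this
    omega
  · have := ncard_sol_irr 3 hp hF (.inr ⟨rfl, hodd⟩) ⟨x, rfl⟩ (h3 h h') (h2 ▸ hd)
    rw [h1] at this
    omega

end Cfsg.Agent.S2258
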