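import Cfsg.Statements.S2259
import Cfsg.Agent.Lib.Sz.Normalizers

set_option autoImplicit false
open Cfsg

namespace Cfsg.Agent.S2259

open CfsgLib.Sz CfsgLib.Sz.Tits Pointwise

section

variable {F : Type*} [Field F] [Finite F] {τ : Tits F} {m : ℕ} (hm : 1 ≤ m) (hF : Nat.card F = 2 ^ (2 * m + 1))
include hm hF

theorem isSolvable_closure_iff (x y : τ.grp) : Group.IsSolvable (Subgroup.closure ({x, y} : Set τ.grp)) ↔
    (∃ ω : τ.Pt, x • ω = ω ∧ y • ω = ω) ∨
      ∃ A, τ.IsTorus A ∧ x ∈ Subgroup.normalizer (A : Set τ.grp) ∧ y ∈ Subgroup.normalizer (A : Set τ.grp) := by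
  have key : ∀ K : Subgroup τ.grp, Subgroup.closure {x, y} ≤ K ↔ x ∈ K ∧ y ∈ K := fun K => by
    simp [Subgroup.closure_le, Set.insert_subset_iff]
  constructor
  · intro h
    rcases (isSolvable_iff hm hF _).1 h with ⟨ω, h⟩ | ⟨A, hA, -, h⟩
    · exact Or.inl ⟨ω, (key _).1 h⟩
    · exact Or.inr ⟨A, hA, (key _).1 h⟩
  · rintro (⟨ω, h⟩ | ⟨A, hA, h⟩)
    · exact isSolvable_of_le ((key _).2 h) (isSolvable_stabilizer ω)
    · exact isSolvable_of_le ((key _).2 h) (hA.isSolvable_normalizer hm hF)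

omit [Finite F] hm hF in
/-- The elements outside the Borel subgroup that together with `x` normalise a conjugate of `A`. -/
def part (A : Subgroup τ.grp) (x : τ.grp) (ω : τ.Pt) : Set τ.grp :=
  {y | y • ω ≠ ω ∧ ∃ g : τ.grp, g * x * g⁻¹ ∈ Subgroup.normalizer (A : Set τ.grp) ∧
    g * y * g⁻¹ ∈ Subgroup.normalizer (A : Set τ.grp)}

omit [Finite F] hm hF in
theorem conj_mem_iff (A : Subgroup τ.grp) (g x : τ.grp) : g * x * g⁻¹ ∈ Subgroup.normalizer (A : Set τ.grp) ↔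
    x ∈ Subgroup.normalizer ((MulAut.conj g⁻¹ • A : Subgroup τ.grp) : Set τ.grp) := by
  rw [normalizer_conj_smul, mem_conj_smul, inv_inv]

theorem ncard_part {A : Subgroup τ.grp} (hA : τ.IsTorus A) {x : τ.grp} {ω : τ.Pt} (hx : x ∈ τ.Upt ω) (hx1 : x ≠ 1) :
    (part A x ω).ncard * Nat.card A = Nat.card (Subgroup.centralizer {x}) *
      {w ∈ ((Subgroup.normalizer (A : Set τ.grp) : Subgroup τ.grp) : Set τ.grp) | IsConj x w}.ncard * (Nat.card A - 1) := by
  classical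
  have := Fintype.ofFinite τ.grp
  have hn : 0 < A.relIndex (Subgroup.normalizer (A : Set τ.grp)) := Nat.pos_of_dvd_of_pos (hA.relIndex_dvd hm hF) four_pos
  apply Nat.eq_of_mul_eq_mul_left hn
  rw [mul_left_comm, ← card_normalizer_eq, mul_left_comm, ← ncard_conj_mem, Set.ncard_eq_toFinset_card',
    Set.ncard_eq_toFinset_card']
  refine Finset.card_mul_eq_card_mul (fun y g => g * y * g⁻¹ ∈ Subgroup.normalizer (A : Set τ.grp))
    (fun y hy => ?_) fun g hg => ?_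
  · obtain ⟨hy, g0, h1, h2⟩ := Set.mem_toFinset.1 hy
    rw [← Nat.card_eq_finsetCard]
    refine Nat.card_congr ⟨fun g => ⟨g.1 * g0⁻¹, ?_⟩, fun n => ⟨n.1 * g0, ?_⟩, fun g => by simp, fun n => by simp⟩
    · obtain ⟨h3, h4⟩ := (Finset.mem_bipartiteAbove _).1 g.2
      have h5 := (hA.smul _).eq_of_mem_normalizer hm hF (hA.smul _) hx hx1 hy ((conj_mem_iff _ _ _).1 h1)
        ((conj_mem_iff _ _ _).1 h2) ((conj_mem_iff _ g.1 _).1 (by simpa using h3)) ((conj_mem_iff _ _ _).1 h4)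
      refine Subgroup.mem_normalizer_iff.2 fun a => ?_
      have h6 := SetLike.ext_iff.1 h5 (g0⁻¹ * a * g0)
      rw [mem_conj_smul, mem_conj_smul] at h6
      simpa [mul_assoc] using h6
    · have key : ∀ z, g0 * z * g0⁻¹ ∈ Subgroup.normalizer (A : Set τ.grp) →
          n.1 * g0 * z * (n.1 * g0)⁻¹ ∈ Subgroup.normalizer (A : Set τ.grp) := fun z hz => by
        simpa [mul_assoc] using mul_mem (mul_mem n.2 hz) (inv_mem n.2)
      exact (Finset.mem_bipartiteAbove _).2 ⟨Set.mem_toFinset.2 (key x h1), key y h2⟩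
  · have hg' : g * x * g⁻¹ ∈ Subgroup.normalizer (A : Set τ.grp) := by simpa using hg
    have h1 := hA.card_normalizer_inf_Upt hm hF (conj_mem_Upt.2 hx) (conj_eq_one_iff.not.2 hx1) hg'
    rw [← hA.normalizer_inf_stabilizer hm hF (conj_mem_Upt.2 hx) (conj_eq_one_iff.not.2 hx1) hg'] at h1
    have h2 := Set.ncard_inter_add_ncard_sdiff_eq_ncard ((Subgroup.normalizer (A : Set τ.grp) : Subgroup τ.grp) : Set τ.grp)
      (MulAction.stabilizer τ.grp (g • ω))
    rw [← Subgroup.coe_inf, ← Nat.card_coe_set_eq, ← Nat.card_coe_set_eq (SetLike.coe _), SetLike.coe_sort_coe,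
      SetLike.coe_sort_coe, h1, card_normalizer_eq] at h2
    rw [Nat.mul_sub_one, ← h2, Nat.add_sub_cancel_left, ← Nat.card_eq_finsetCard, ← Nat.card_coe_set_eq]
    refine Nat.card_congr ((MulAut.conj g).toEquiv.subtypeEquiv fun y => ?_)
    rw [Finset.mem_bipartiteBelow, Set.mem_toFinset]
    constructor
    · rintro ⟨⟨h3, -⟩, h4⟩
      exact ⟨h4, fun h => h3 (by simpa [mul_smul] using h)⟩
    · rintro ⟨h3, h4⟩
      exact ⟨⟨fun h => h4 (by simp [mul_smul, h]), g, hg', h3⟩, h3⟩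

theorem ncard_sol_of_mem_Upt {A₁ A₂ : Subgroup τ.grp} (h₁ : τ.IsAniso A₁) (h₂ : τ.IsAniso A₂)
    (c₁ : Nat.card A₁ = 2 ^ (2 * m + 1) + 2 ^ (m + 1) + 1) (c₂ : Nat.card A₂ = 2 ^ (2 * m + 1) - 2 ^ (m + 1) + 1)
    {x : τ.grp} {ω : τ.Pt} (hx : x ∈ τ.Upt ω) (hx1 : x ≠ 1) :
    Nat.card {y // Group.IsSolvable (Subgroup.closure ({x, y} : Set τ.grp))} =
      Nat.card F ^ 2 * (Nat.card F - 1) + ((part τ.H x ω).ncard + ((part A₁ x ω).ncard + (part A₂ x ω).ncard)) := by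
  have ht := exists_ne_zero_one' hm hF
  have hH := isTorus_H (τ := τ) ht
  have h1 : {y | Group.IsSolvable (Subgroup.closure ({x, y} : Set τ.grp))} =
      (MulAction.stabilizer τ.grp ω : Set τ.grp) ∪ (part τ.H x ω ∪ (part A₁ x ω ∪ part A₂ x ω)) := by
    ext y
    rw [Set.mem_ofPred_eq, isSolvable_closure_iff hm hF]
    constructor
    · rintro (⟨α, h1, h2⟩ | ⟨A, hA, h1, h2⟩)
      · exact Or.inl (eq_of_smul_eq_of_mem_Upt hx hx1 h1 ▸ h2)
      by_cases hy : y • ω = ω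
      · exact Or.inl hy
      have key : ∀ A' : Subgroup τ.grp, τ.IsTorus A' → Nat.card A = Nat.card A' → y ∈ part A' x ω := fun A' hA' hc => by
        obtain ⟨g, rfl⟩ := hA'.selfCent.exists_smul_eq hA.selfCent (by
          have := hA.selfCent.two_le_card
          rw [← hc, Nat.coprime_self]
          omega)
        exact ⟨hy, g⁻¹, by rwa [conj_mem_iff, inv_inv], by rwa [conj_mem_iff, inv_inv]⟩
      rcases hA.card_eq hm hF with h | h | h
      · exact Or.inr (Or.inl (key _ hH (by rw [h, card_H, hF])))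
      · exact Or.inr (Or.inr (Or.inl (key _ h₁.isTorus (by rw [h, c₁]))))
      · exact Or.inr (Or.inr (Or.inr (key _ h₂.isTorus (by rw [h, c₂]))))
    · have key : ∀ A' : Subgroup τ.grp, τ.IsTorus A' → y ∈ part A' x ω → ∃ A, τ.IsTorus A ∧
          x ∈ Subgroup.normalizer (A : Set τ.grp) ∧ y ∈ Subgroup.normalizer (A : Set τ.grp) := by
        rintro A' hA' ⟨-, g, h1, h2⟩
        exact ⟨_, hA'.smul g⁻¹, (conj_mem_iff _ _ _).1 h1, (conj_mem_iff _ _ _).1 h2⟩
      rintro (h | h | h | h)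
      · exact Or.inl ⟨ω, hx.1, h⟩
      · exact Or.inr (key _ hH h)
      · exact Or.inr (key _ h₁.isTorus h)
      · exact Or.inr (key _ h₂.isTorus h)
  have hd : ∀ A A' : Subgroup τ.grp, τ.IsTorus A → τ.IsTorus A' → Nat.card A ≠ Nat.card A' →
      Disjoint (part A x ω) (part A' x ω) := fun A A' hA hA' hc => by
    refine Set.disjoint_left.2 ?_
    rintro y ⟨hy, g, h1, h2⟩ ⟨-, g', h3, h4⟩
    have h5 := (hA.smul _).eq_of_mem_normalizer hm hF (hA'.smul _) hx hx1 hy ((conj_mem_iff _ _ _).1 h1)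
      ((conj_mem_iff _ _ _).1 h2) ((conj_mem_iff _ _ _).1 h3) ((conj_mem_iff _ _ _).1 h4)
    exact hc (by rw [← card_conj_smul g⁻¹, h5, card_conj_smul])
  have hr : 2 ^ (m + 1) ≤ 2 ^ (2 * m + 1) := Nat.pow_le_pow_right two_pos (by omega)
  have hr4 : 2 ^ 2 ≤ 2 ^ (m + 1) := Nat.pow_le_pow_right two_pos (by omega)
  have hB : (MulAction.stabilizer τ.grp ω : Set τ.grp).ncard = Nat.card F ^ 2 * (Nat.card F - 1) := by
    obtain ⟨g, rfl⟩ := exists_smul_inf ω
    rw [← Nat.card_coe_set_eq, SetLike.coe_sort_coe, stabilizer_smul_inf, card_conj_smul, card_B]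
  rw [← hB, ← Set.ncard_union_eq (hd _ _ h₁.isTorus h₂.isTorus (by omega)), ← Set.ncard_union_eq
    (Set.disjoint_union_right.2 ⟨hd _ _ hH h₁.isTorus (by rw [card_H, hF]; omega),
      hd _ _ hH h₂.isTorus (by rw [card_H, hF]; omega)⟩), ← Set.ncard_union_eq, ← h1]
  · rfl
  · refine Set.disjoint_left.2 fun y hy h => ?_
    rcases h with h | h | h <;> exact h.1 hy

theorem ncard_part_two {A : Subgroup τ.grp} (hA : τ.IsTorus A) {x : τ.grp} {ω : τ.Pt} (hx : x ∈ τ.Upt ω)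
    (h2 : orderOf x = 2) : (part A x ω).ncard = Nat.card F ^ 2 * (Nat.card A - 1) := by
  obtain ⟨hx2, hx1⟩ := orderOf_eq_two_iff.1 h2
  obtain ⟨z, hz, hz2, hz1⟩ := hA.exists_involution hm hF
  have h := ncard_part hm hF hA hx hx1
  have e : {w ∈ ((Subgroup.normalizer (A : Set τ.grp) : Subgroup τ.grp) : Set τ.grp) | IsConj x w} =
      {t | t ∈ Subgroup.normalizer (A : Set τ.grp) ∧ t * t = 1 ∧ t ≠ 1} := by
    ext w
    refine and_congr_right fun _ => ⟨fun h => ?_, fun h => isConj_of_involution hx2 hx1 h.1 h.2⟩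
    obtain ⟨g, rfl⟩ := isConj_iff.1 h
    exact orderOf_eq_two_iff.1 (((MulAut.conj g).orderOf_eq x).trans h2)
  rw [e, hA.ncard_involutions hz hz2 hz1, card_centralizer_of_two h2, mul_right_comm] at h
  exact Nat.eq_of_mul_eq_mul_right Nat.card_pos h

theorem ncard_part_four {A : Subgroup τ.grp} (hA : τ.IsTorus A) {x : τ.grp} {ω : τ.Pt} (hx : x ∈ τ.Upt ω)
    (h4 : orderOf x = 4) : (part A x ω).ncard =
      Nat.card F * (A.relIndex (Subgroup.normalizer (A : Set τ.grp)) - 2) * (Nat.card A - 1) := by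
  have hx1 : x ≠ 1 := by
    rintro rfl
    simp at h4
  have h := ncard_part hm hF hA hx hx1
  have h1 := two_mul_ncard_isConj (K := Subgroup.normalizer (A : Set τ.grp)) h4
  have h2 := hA.ncard_order_four hm hF
  rw [card_normalizer_eq, ← h1] at h2
  rw [card_centralizer_of_four h4, mul_comm 2, mul_assoc (Nat.card F), Nat.eq_sub_of_add_eq h2, ← Nat.sub_mul] at h
  apply Nat.eq_of_mul_eq_mul_right (Nat.card_pos (α := A))
  rw [h]
  ring

theorem card_sol_of_aniso {A : Subgroup τ.grp} (hA : τ.IsAniso A) {x : τ.grp} (hx1 : x ≠ 1)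
    (h : orderOf x ∣ Nat.card A) :
    Nat.card {y // Group.IsSolvable (Subgroup.closure ({x, y} : Set τ.grp))} = 4 * Nat.card A := by
  obtain ⟨g, hg⟩ := hA.selfCent.exists_conj_mem (x := x)
    fun h' => hx1 (orderOf_eq_one_iff.1 (Nat.eq_one_of_dvd_coprimes h' dvd_rfl h))
  have hA' := hA.smul g⁻¹
  have hx : x ∈ MulAut.conj g⁻¹ • A := mem_conj_smul.2 (by rwa [inv_inv])
  have hc := card_normalizer_eq (MulAut.conj g⁻¹ • A)
  rw [(hA'.card_eq hm hF).2, card_conj_smul] at hc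
  rw [← hc]
  refine Nat.card_congr (Equiv.subtypeEquivRight fun y => ?_)
  rw [isSolvable_closure_iff hm hF]
  constructor
  · rintro (⟨α, h1, -⟩ | ⟨B, hB, h1, h2⟩)
    · exact absurd h1 (hA'.fpf x hx hx1 α)
    · rwa [hA'.selfCent.eq_of_mem hB.selfCent hx (hB.mem_of_odd hm hF h1 (hA'.isTorus.odd_orderOf hx)) hx1]
  · exact fun h => Or.inr ⟨_, hA'.isTorus, Subgroup.le_normalizer hx, h⟩

theorem card_sol_M {k : Fˣ} (hk : k ≠ 1) : Nat.card {y // Group.IsSolvable (Subgroup.closure ({τ.M k, y} : Set τ.grp))} =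
    2 * Nat.card F ^ 2 * (Nat.card F - 1) := by
  have ht := exists_ne_zero_one' hm hF
  have hH := isTorus_H (τ := τ) ht
  have h1 : {y | Group.IsSolvable (Subgroup.closure ({τ.M k, y} : Set τ.grp))} =
      ((τ.B : Set τ.grp) ∪ MulAction.stabilizer τ.grp (τ.T • (Pt.inf : τ.Pt))) ∪ τ.T • (τ.H : Set τ.grp) := by
    ext y
    rw [Set.mem_ofPred_eq, isSolvable_closure_iff hm hF, T_smul_inf, Set.mem_union, Set.mem_smul_set_iff_inv_smul_mem,
      T_inv, smul_eq_mul]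
    constructor
    · rintro (⟨α, h1, h2⟩ | ⟨B, hB, h1, h2⟩)
      · cases α with
        | inf => exact Or.inl (Or.inl h2)
        | aff a b =>
          obtain ⟨rfl, rfl⟩ := (M_smul_aff_eq h1).resolve_left hk
          exact Or.inl (Or.inr h2)
      · rw [← hH.selfCent.eq_of_mem hB.selfCent (τ.M_mem_H k) (hB.mem_of_odd hm hF h1 (hH.odd_orderOf (τ.M_mem_H k)))
          (τ.M_eq_one.not.2 hk)] at h2
        exact ((mem_normalizer_H ht).1 h2).imp_left fun h => Or.inl (τ.H_le_B h)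
    · rintro ((h | h) | h)
      · exact Or.inl ⟨.inf, τ.M_smul_inf k, h⟩
      · exact Or.inl ⟨.aff 0 0, by simp, h⟩
      · exact Or.inr ⟨_, hH, Subgroup.le_normalizer (τ.M_mem_H k), (mem_normalizer_H ht).2 (Or.inr h)⟩
  have h2 := Set.ncard_union_add_ncard_inter (τ.B : Set τ.grp) (MulAction.stabilizer τ.grp (τ.T • (Pt.inf : τ.Pt)))
  have h3 : (τ.B : Set τ.grp) ∩ MulAction.stabilizer τ.grp (τ.T • (Pt.inf : τ.Pt)) = τ.H := by
    ext y
    rw [T_smul_inf]
    exact mem_H_iff.symm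
  rw [h3, ← Nat.card_coe_set_eq (SetLike.coe τ.B), ← Nat.card_coe_set_eq (SetLike.coe (MulAction.stabilizer _ _)),
    SetLike.coe_sort_coe, SetLike.coe_sort_coe, stabilizer_smul_inf, card_conj_smul, card_B, ← stabilizer_smul_inf] at h2
  change Set.ncard {y | Group.IsSolvable (Subgroup.closure ({τ.M k, y} : Set τ.grp))} = _
  rw [h1, Set.ncard_union_eq, Set.ncard_smul_set, h2]
  · ring
  · refine Set.disjoint_right.2 ?_
    rintro _ ⟨_, ⟨l, rfl⟩, rfl⟩ (h | h)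
    · simp [Mhom_apply, mem_B, mul_smul] at h
    · simp [Mhom_apply, mul_smul] at h

omit [Finite F] hm hF in
theorem card_sol_conj (g x : τ.grp) :
    Nat.card {y // Group.IsSolvable (Subgroup.closure ({g * x * g⁻¹, y} : Set τ.grp))} =
      Nat.card {y // Group.IsSolvable (Subgroup.closure ({x, y} : Set τ.grp))} := by
  refine (Nat.card_congr ((MulAut.conj g).toEquiv.subtypeEquiv fun y => ?_)).symm
  rw [← isSolvable_conj_smul g]
  change Group.IsSolvable ((Subgroup.closure {x, y}).map (MulAut.conj g).toMonoidHom) ↔ _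
  rw [MonoidHom.map_closure, Set.image_pair]
  rfl

end

/-- Let G be the Suzuki group Sz(q), q = 2^(2m+1) with 2m + 1 prime and m ≥ 1, realised inside Sp_4(F) for F the field of order q, write r = 2^(m+1) (so r² = 2q), and for x ∈ G call the solubilizer of x the set of y ∈ G such that x and y generate a solvable subgroup. Then the solubilizer of an involution has q²(4q − 3) elements; that of an element of order 4 has q²(q + 3) elements; that of a non-identity element of order dividing q − 1 has 2q²(q − 1) elements; that of a non-identity element of order dividing q + r + 1 has 4(q + r + 1) elements; and that of a non-identity element of order dividing q − r + 1 has 4(q − r + 1) elements. -/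
theorem result {F : Type*} [Field F] [Fintype F] {m : ℕ} (hm : 1 ≤ m)
    (hp : (2 * m + 1).Prime) (hF : Fintype.card F = 2 ^ (2 * m + 1)) (x : ↥(Cfsg.Lie.Sz F (2 ^ (m + 1)))) :
    (orderOf x = 2 → Nat.card {y : ↥(Cfsg.Lie.Sz F (2 ^ (m + 1))) // Group.IsSolvable ↥(Subgroup.closure ({x, y} : Set (↥(Cfsg.Lie.Sz F (2 ^ (m + 1))))))} = (2 ^ (2 * m + 1)) ^ 2 * (4 * 2 ^ (2 * m + 1) - 3)) ∧
    (orderOf x = 4 → Nat.card {y : ↥(Cfsg.Lie.Sz F (2 ^ (m + 1))) // Group.IsSolvable ↥(Subgroup.closure ({x, y} : Set (↥(Cfsg.Lie.Sz F (2 ^ (m + 1))))))} = (2 ^ (2 * m + 1)) ^ 2 * (2 ^ (2 * m + 1) + 3)) ∧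
    (x ≠ 1 → orderOf x ∣ 2 ^ (2 * m + 1) - 1 →
      Nat.card {y : ↥(Cfsg.Lie.Sz F (2 ^ (m + 1))) // Group.IsSolvable ↥(Subgroup.closure ({x, y} : Set (↥(Cfsg.Lie.Sz F (2 ^ (m + 1))))))} = 2 * (2 ^ (2 * m + 1)) ^ 2 * (2 ^ (2 * m + 1) - 1)) ∧
    (x ≠ 1 → orderOf x ∣ 2 ^ (2 * m + 1) + 2 ^ (m + 1) + 1 → Nat.card {y : ↥(Cfsg.Lie.Sz F (2 ^ (m + 1))) // Group.IsSolvable ↥(Subgroup.closure ({x, y} : Set (↥(Cfsg.Lie.Sz F (2 ^ (m + 1))))))} = 4 * (2 ^ (2 * m + 1) + 2 ^ (m + 1) + 1)) ∧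
    (x ≠ 1 → orderOf x ∣ 2 ^ (2 * m + 1) - 2 ^ (m + 1) + 1 → Nat.card {y : ↥(Cfsg.Lie.Sz F (2 ^ (m + 1))) // Group.IsSolvable ↥(Subgroup.closure ({x, y} : Set (↥(Cfsg.Lie.Sz F (2 ^ (m + 1))))))} = 4 * (2 ^ (2 * m + 1) - 2 ^ (m + 1) + 1)) := by
  have hF' : Nat.card F = 2 ^ (2 * m + 1) := by rw [Nat.card_eq_fintype_card, hF]
  have ht := exists_ne_zero_one hm hF
  revert x
  rw [lieSz_eq hF]
  generalize tits hF = τ
  intro x
  obtain ⟨A₁, A₂, h₁, h₂, c₁, c₂, n₁, n₂, -⟩ := exists_two_tori (τ := τ) hm hF'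
  have hH := isTorus_H (τ := τ) ht
  have hr : 2 ^ (m + 1) ≤ 2 ^ (2 * m + 1) := Nat.pow_le_pow_right two_pos (by omega)
  have hr4 : 2 ^ 2 ≤ 2 ^ (m + 1) := Nat.pow_le_pow_right two_pos (by omega)
  refine ⟨fun h => ?_, fun h => ?_, fun h1 h => ?_, fun h1 h => ?_, fun h1 h => ?_⟩
  · obtain ⟨ω, hω⟩ := exists_mem_Upt_of_even ht (g := x) (by rw [h]; decide)
    rw [ncard_sol_of_mem_Upt hm hF' h₁ h₂ c₁ c₂ hω (orderOf_eq_two_iff.1 h).2, ncard_part_two hm hF' hH hω h,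
      ncard_part_two hm hF' h₁.isTorus hω h, ncard_part_two hm hF' h₂.isTorus hω h, card_H, c₁, c₂, hF', ← mul_add,
      ← mul_add, ← mul_add]
    congr 1
    omega
  · obtain ⟨ω, hω⟩ := exists_mem_Upt_of_even ht (g := x) (by rw [h]; decide)
    rw [ncard_sol_of_mem_Upt hm hF' h₁ h₂ c₁ c₂ hω (by rintro rfl; simp at h), ncard_part_four hm hF' hH hω h,
      ncard_part_four hm hF' h₁.isTorus hω h, ncard_part_four hm hF' h₂.isTorus hω h, relIndex_H ht, n₁, n₂, c₁, c₂,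
      hF']
    obtain ⟨s, hs⟩ := Nat.exists_eq_add_of_le hr
    obtain ⟨t, ht⟩ := Nat.exists_eq_add_of_le' (Nat.one_le_two_pow (n := 2 * m + 1))
    rw [Nat.add_sub_cancel, Nat.add_sub_cancel, show 2 ^ (2 * m + 1) - 2 ^ (m + 1) = s by omega,
      show 2 ^ (2 * m + 1) - 1 = t by omega]
    generalize 2 ^ (2 * m + 1) = q at *
    generalize 2 ^ (m + 1) = r at *
    zify at *
    linear_combination (-q ^ 2) * ht - 2 * q * hs
  · obtain ⟨g, hg⟩ := hH.selfCent.exists_conj_mem (x := x)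
      fun h' => h1 (orderOf_eq_one_iff.1 (Nat.eq_one_of_dvd_coprimes h' dvd_rfl (by rwa [card_H, hF'])))
    obtain ⟨k, hk⟩ := mem_H.1 hg
    rw [← card_sol_conj g, hk, card_sol_M hm hF' fun h => h1 (conj_eq_one_iff.1 (by rw [hk, h, M_one])), hF']
  · rw [card_sol_of_aniso hm hF' h₁ h1 (c₁ ▸ h), c₁]
  · rw [card_sol_of_aniso hm hF' h₂ h1 (c₂ ▸ h), c₂]

end Cfsg.Agent.S2259
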