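import Cfsg.Statements.S2268


set_option autoImplicit false
open Cfsg

namespace Cfsg.Agent.S2268

theorem key {G : Type*} [Group G] [Finite G] {p : ℕ} [Fact p.Prime]
    (P : Sylow p G) (hP : IsMulCommutative (P : Subgroup G)) (Q : Subgroup G) (hQ : Q ≤ (P : Subgroup G))
    (g : G) (hg : g ∈ Subgroup.normalizer (Q : Set G)) :
    ∃ c ∈ Subgroup.centralizer (Q : Set G), c * g ∈ Subgroup.normalizer ((P : Subgroup G) : Set G) := by
  have hPC : (P : Subgroup G) ≤ Subgroup.centralizer (Q : Set G) := by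
    intro x hx
    rw [Subgroup.mem_centralizer_iff]
    intro y hy
    exact congrArg Subtype.val (hP.is_comm.comm ⟨y, hQ hy⟩ ⟨x, hx⟩)
  have hPC' : ((g • P : Sylow p G) : Subgroup G) ≤ Subgroup.centralizer (Q : Set G) := by
    intro x hx
    rw [Sylow.coe_subgroup_smul, Subgroup.mem_pointwise_smul_iff_inv_smul_mem] at hx
    have := hPC hx
    rw [Subgroup.mem_centralizer_iff] at this ⊢
    intro y hy
    have hy' : g⁻¹ * y * g ∈ Q := by
      have := (Subgroup.mem_normalizer_iff''.1 hg y).1 hy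
      simpa using this
    have h2 := this _ hy'
    simp only [← map_inv, MulAut.smul_def, MulAut.conj_apply, inv_inv] at h2
    have : g * ((g⁻¹ * y * g) * (g⁻¹ * x * g)) * g⁻¹ = g * ((g⁻¹ * x * g) * (g⁻¹ * y * g)) * g⁻¹ := by
      rw [h2]
    simpa [mul_assoc] using this
  obtain ⟨c, hc⟩ := MulAction.exists_smul_eq (Subgroup.centralizer (Q : Set G))
    ((g • P).subtype hPC') (P.subtype hPC)
  refine ⟨c, c.2, ?_⟩
  refine (Sylow.smul_eq_iff_mem_normalizer (P := P)).1 ?_
  rw [mul_smul]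
  have h3 := Sylow.smul_subtype hPC' c
  rw [h3] at hc
  exact Sylow.subtype_injective hc

/-- Let G be a finite group with an abelian Sylow p-subgroup P and let Q ≤ P. Then N_G(Q) = (N_G(Q) ∩ N_G(P))·C_G(Q), so that N_G(Q)/C_G(Q) is a homomorphic image of the subgroup (N_G(Q) ∩ N_G(P))/C_G(P) of N_G(P)/C_G(P); in particular the order of N_G(Q)/C_G(Q) divides the order of N_G(P)/C_G(P). -/
theorem result {G : Type*} [Group G] [Finite G] {p : ℕ} [Fact p.Prime]
    (P : Sylow p G) (hP : IsMulCommutative (P : Subgroup G)) (Q : Subgroup G) (hQ : Q ≤ (P : Subgroup G)) :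
    Subgroup.normalizer (Q : Set G) =
      (Subgroup.normalizer (Q : Set G) ⊓ Subgroup.normalizer ((P : Subgroup G) : Set G)) ⊔ Subgroup.centralizer (Q : Set G) ∧
    ((Subgroup.centralizer (Q : Set G)).subgroupOf (Subgroup.normalizer (Q : Set G))).index ∣ ((Subgroup.centralizer ((P : Subgroup G) : Set G)).subgroupOf (Subgroup.normalizer ((P : Subgroup G) : Set G))).index := by
  have hCN : Subgroup.centralizer (Q : Set G) ≤ Subgroup.normalizer (Q : Set G) :=
    Subgroup.centralizer_le_normalizer _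
  have h1 : Subgroup.normalizer (Q : Set G) =
      (Subgroup.normalizer (Q : Set G) ⊓ Subgroup.normalizer ((P : Subgroup G) : Set G)) ⊔ Subgroup.centralizer (Q : Set G) := by
    refine le_antisymm ?_ (sup_le inf_le_left hCN)
    intro g hg
    obtain ⟨c, hc, hcg⟩ := key P hP Q hQ g hg
    have : g = c⁻¹ * (c * g) := by group
    rw [this]
    refine Subgroup.mul_mem _ (Subgroup.mem_sup_right (Subgroup.inv_mem _ hc)) (Subgroup.mem_sup_left ⟨?_, hcg⟩)
    exact Subgroup.mul_mem _ (hCN hc) hg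
  refine ⟨h1, ?_⟩
  set NQ := Subgroup.normalizer (Q : Set G)
  set NP := Subgroup.normalizer ((P : Subgroup G) : Set G)
  set CQ := Subgroup.centralizer (Q : Set G)
  set CP := Subgroup.centralizer ((P : Subgroup G) : Set G)
  have hCPQ : CP ≤ CQ := Subgroup.centralizer_le hQ
  have hCPN : CP ≤ NP := Subgroup.centralizer_le_normalizer _
  change CQ.relIndex NQ ∣ CP.relIndex NP
  -- CQ.relIndex NQ = CQ.relIndex (NQ ⊓ NP)
  have h2 : CQ.relIndex NQ = CQ.relIndex (NQ ⊓ NP) := by
    have hn : (CQ.subgroupOf NQ).Normal := inferInstance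
    have e1 : CQ.relIndex NQ = (CQ.subgroupOf NQ).relIndex ⊤ := by
      rw [Subgroup.relIndex_top_right]; rfl
    have e2 : (⊤ : Subgroup NQ) = (NQ ⊓ NP).subgroupOf NQ ⊔ CQ.subgroupOf NQ := by
      rw [← Subgroup.subgroupOf_sup inf_le_left hCN, ← h1, Subgroup.subgroupOf_self]
    rw [e1, e2, Subgroup.relIndex_sup_right, Subgroup.relIndex_subgroupOf inf_le_left]
  rw [h2]
  have h3 : CQ.relIndex (NQ ⊓ NP) ∣ CP.relIndex (NQ ⊓ NP) := Subgroup.relIndex_dvd_of_le_left _ hCPQ
  have h4 : CP.relIndex (NQ ⊓ NP) ∣ CP.relIndex NP :=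
    Dvd.intro _ (Subgroup.relIndex_mul_relIndex CP (NQ ⊓ NP) NP (le_inf (hCPQ.trans hCN) hCPN) inf_le_right)
  exact h3.trans h4

end Cfsg.Agent.S2268
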