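import Cfsg.Statements.S2270


set_option autoImplicit false
open Cfsg

namespace Cfsg.Agent.S2270

/-- If an abelian Sylow subgroup contains an element that is real in `G` and not of order at most two,
its automizer has even order. -/
theorem two_dvd_automizer {G : Type*} [Group G] [Finite G] {p : ℕ} [Fact p.Prime]
    (P : Sylow p G) (hP : IsMulCommutative (P : Subgroup G)) (x : G) (hx : x ∈ (P : Subgroup G))
    (hx2 : x ≠ x⁻¹) (hreal : IsConj x x⁻¹) :
    2 ∣ ((Subgroup.centralizer ((P : Subgroup G) : Set G)).subgroupOf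
      (Subgroup.normalizer ((P : Subgroup G) : Set G))).index := by
  obtain ⟨c, hc⟩ := isConj_iff.1 hreal
  obtain ⟨n, hn, hn'⟩ := P.conj_eq_normalizer_conj_of_mem x c⁻¹ hx (by
    rw [inv_inv, hc]; exact (P : Subgroup G).inv_mem hx)
  rw [inv_inv, hc] at hn'
  by_contra hodd
  set k := ((Subgroup.centralizer ((P : Subgroup G) : Set G)).subgroupOf
      (Subgroup.normalizer ((P : Subgroup G) : Set G))).index with hk
  have hmem : (⟨n, hn⟩ : Subgroup.normalizer ((P : Subgroup G) : Set G)) ^ k ∈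
      (Subgroup.centralizer ((P : Subgroup G) : Set G)).subgroupOf
      (Subgroup.normalizer ((P : Subgroup G) : Set G)) := Subgroup.pow_index_mem _ _
  rw [Subgroup.mem_subgroupOf, Subgroup.mem_centralizer_iff] at hmem
  have h1 : x * n ^ k = n ^ k * x := hmem x hx
  have hxn : x * n = n * x⁻¹ := by rw [hn']; group
  have hxn' : x⁻¹ * n = n * x := by
    calc x⁻¹ * n = x⁻¹ * (n * x⁻¹) * x := by group
      _ = x⁻¹ * (x * n) * x := by rw [hxn]
      _ = n * x := by group
  have h2 : ∀ j : ℕ, x * n ^ (2 * j + 1) = n ^ (2 * j + 1) * x⁻¹ := by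
    intro j
    induction j with
    | zero => simpa using hxn
    | succ j ih =>
      have e : 2 * (j + 1) + 1 = (2 * j + 1) + 1 + 1 := by ring
      rw [e, pow_succ, pow_succ, ← mul_assoc, ← mul_assoc, ih, mul_assoc _ x⁻¹ n, hxn', mul_assoc, mul_assoc,
        hxn]
      group
  obtain ⟨j, hj⟩ : Odd k := Nat.not_even_iff_odd.1 (fun h => hodd (even_iff_two_dvd.1 h))
  rw [hj, h2] at h1
  exact hx2 (mul_left_cancel h1).symm

theorem ne_inv_of_orderOf {G : Type*} [Group G] {p : ℕ} (hp : p.Prime) (hp2 : p ≠ 2) {x : G}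
    (hx : orderOf x = p) : x ≠ x⁻¹ := by
  intro h
  have : x ^ 2 = 1 := by rw [pow_two]; nth_rewrite 2 [h]; simp
  have h2 := orderOf_dvd_of_pow_eq_one this
  rw [hx] at h2
  exact hp2 ((Nat.prime_dvd_prime_iff_eq hp Nat.prime_two).1 h2)

/-- Let n ≥ 3, p an odd prime, and P an abelian Sylow p-subgroup of the symmetric group S_n (with p dividing n!, so that P ≠ 1). Then N(P)/C(P) has even order. -/
theorem result (n : ℕ) (hn : 3 ≤ n) {p : ℕ} [Fact p.Prime] (hp : p ≠ 2) (hpn : p ≤ n)
    (P : Sylow p (Equiv.Perm (Fin n))) (hP : IsMulCommutative (P : Subgroup (Equiv.Perm (Fin n)))) :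
    2 ∣ ((Subgroup.centralizer ((P : Subgroup (Equiv.Perm (Fin n))) : Set (Equiv.Perm (Fin n)))).subgroupOf (Subgroup.normalizer ((P : Subgroup (Equiv.Perm (Fin n))) : Set (Equiv.Perm (Fin n))))).index := by
  have hpp : p.Prime := Fact.out
  have hdvd : p ∣ Nat.card (Equiv.Perm (Fin n)) := by
    rw [Nat.card_perm, Nat.card_fin]
    exact (hpp.dvd_factorial).2 hpn
  obtain ⟨x, hx⟩ := exists_prime_orderOf_dvd_card' p (P.dvd_card_of_dvd_card hdvd)
  refine two_dvd_automizer P hP x x.2 (ne_inv_of_orderOf hpp hp (by simpa using hx)) ?_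
  exact Equiv.Perm.isConj_of_cycleType_eq (Equiv.Perm.cycleType_inv _).symm

end Cfsg.Agent.S2270
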