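import Cfsg.Statements.S2269
import Cfsg.Agent.S2270

set_option autoImplicit false
open Cfsg

namespace Cfsg.Agent.S2269

open Equiv Equiv.Perm in
theorem isConj_of_odd {α : Type*} [Fintype α] [DecidableEq α] {σ τ : alternatingGroup α}
    (hc : IsConj (σ : Perm α) (τ : Perm α)) (s : Perm α) (hs : sign s = -1) (hcomm : Commute s (σ : Perm α)) :
    IsConj σ τ := by
  obtain ⟨π, hπ⟩ := isConj_iff.1 hc
  rcases Int.units_eq_one_or (Perm.sign π) with h | h
  · exact isConj_iff.2 ⟨⟨π, mem_alternatingGroup.mpr h⟩, Subtype.ext hπ⟩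
  · refine isConj_iff.2 ⟨⟨π * s, by rw [mem_alternatingGroup, map_mul, h, hs]; simp⟩, Subtype.ext ?_⟩
    simp only [Subgroup.coe_mul, Subgroup.coe_inv]
    rw [← hπ, mul_assoc π s, hcomm.eq]
    group

theorem two_dvd_automizer' {G : Type*} [Group G] [Finite G] {p : ℕ} [Fact p.Prime]
    (P : Sylow p G) (hP : IsMulCommutative (P : Subgroup G)) (x : G) (k : ℕ) (hx : x ^ p ^ k = 1)
    (hx2 : x ≠ x⁻¹) (hreal : IsConj x x⁻¹) :
    2 ∣ ((Subgroup.centralizer ((P : Subgroup G) : Set G)).subgroupOf
      (Subgroup.normalizer ((P : Subgroup G) : Set G))).index := by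
  have hz : IsPGroup p (Subgroup.zpowers x) := by
    obtain ⟨j, -, hj⟩ := (Nat.dvd_prime_pow (Fact.out : p.Prime)).1 (orderOf_dvd_of_pow_eq_one hx)
    exact IsPGroup.of_card (by rw [Nat.card_zpowers, hj])
  obtain ⟨Q, hQ⟩ := hz.exists_le_sylow
  obtain ⟨g, hg⟩ := MulAction.exists_smul_eq G Q P
  have hxP : g * x * g⁻¹ ∈ (P : Subgroup G) := by
    rw [← hg, Sylow.coe_subgroup_smul]
    exact Subgroup.smul_mem_pointwise_smul x (MulAut.conj g) _ (hQ (Subgroup.mem_zpowers x))
  refine Cfsg.Agent.S2270.two_dvd_automizer P hP _ hxP ?_ ?_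
  · intro h
    apply hx2
    have : g * x * g⁻¹ = g * x⁻¹ * g⁻¹ := by rw [h]; group
    simpa using this
  · obtain ⟨c, hc⟩ := isConj_iff.1 hreal
    refine isConj_iff.2 ⟨g * c * g⁻¹, ?_⟩
    have : (g * x * g⁻¹)⁻¹ = g * x⁻¹ * g⁻¹ := by group
    rw [this, ← hc]; group

open Equiv Equiv.Perm in
theorem part_two (n : ℕ) (hn : 6 ≤ n) :
    ∃ x : alternatingGroup (Fin n), x ^ 2 ^ 2 = 1 ∧ x ≠ x⁻¹ ∧ IsConj x x⁻¹ := by
  obtain ⟨x, hx⟩ := (exists_with_cycleType_iff (α := Fin n) (m := {4, 2})).2 ⟨by simpa using hn, by simp⟩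
  have hs : sign x = 1 := by rw [sign_of_cycleType, hx]; simp; decide
  have ho : orderOf x = 4 := by rw [← lcm_cycleType, hx]; decide
  refine ⟨⟨x, mem_alternatingGroup.2 hs⟩, Subtype.ext ?_, ?_, ?_⟩
  · simpa [ho] using pow_orderOf_eq_one x
  · intro h
    have h1 : x = x⁻¹ := congrArg Subtype.val h
    have : x ^ 2 = 1 := by rw [pow_two]; nth_rewrite 2 [h1]; simp
    have h2 := orderOf_dvd_of_pow_eq_one this
    rw [ho] at h2
    omega
  · obtain ⟨c, τ, h1, h2, h3, h4⟩ := (mem_cycleType_iff (n := 2) (σ := x)).1 (by rw [hx]; simp)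
    refine isConj_of_odd (isConj_of_cycleType_eq (cycleType_inv _).symm) c
      (card_support_eq_two.1 h4).sign_eq ?_
    change Commute c x
    rw [h1]
    exact (Commute.refl c).mul_right h2.commute

open Equiv Equiv.Perm in
theorem part_odd (n p : ℕ) (hp : p.Prime) (hp2 : p ≠ 2) (hn : p + 2 ≤ n) :
    ∃ x : alternatingGroup (Fin n), x ^ p ^ 1 = 1 ∧ x ≠ x⁻¹ ∧ IsConj x x⁻¹ := by
  obtain ⟨x, hx⟩ := (exists_with_cycleType_iff (α := Fin n) (m := {p})).2
    ⟨by simp; omega, by simpa using hp.two_le⟩
  have hodd : Odd p := hp.odd_of_ne_two hp2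
  have hs : sign x = 1 := by
    rw [sign_of_cycleType, hx]
    simp only [Multiset.sum_singleton, Multiset.card_singleton]
    exact (hodd.add_one).neg_one_pow
  have ho : orderOf x = p := by rw [← lcm_cycleType, hx]; simp
  refine ⟨⟨x, mem_alternatingGroup.2 hs⟩, Subtype.ext ?_, ?_, ?_⟩
  · simpa [ho] using pow_orderOf_eq_one x
  · intro h
    exact Cfsg.Agent.S2270.ne_inv_of_orderOf hp hp2 ho (congrArg Subtype.val h)
  · refine alternatingGroup.isConj_of (isConj_of_cycleType_eq (cycleType_inv _).symm) ?_
    change x.support.card + 2 ≤ _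
    rw [← sum_cycleType, hx]
    simpa using hn

theorem card_alt (n : ℕ) (hn : 2 ≤ n) : 2 * Nat.card (alternatingGroup (Fin n)) = n.factorial := by
  have : Nontrivial (Fin n) := Fin.nontrivial_iff_two_le.2 hn
  rw [two_mul_nat_card_alternatingGroup, Nat.card_perm, Nat.card_fin]

theorem five_case (P : Sylow 2 (alternatingGroup (Fin 5))) (hP : IsMulCommutative (P : Subgroup (alternatingGroup (Fin 5)))) :
    ((Subgroup.centralizer ((P : Subgroup (alternatingGroup (Fin 5))) : Set (alternatingGroup (Fin 5)))).subgroupOf (Subgroup.normalizer ((P : Subgroup (alternatingGroup (Fin 5))) : Set (alternatingGroup (Fin 5))))).index = 3 ∧ IsKleinFour (P : Subgroup (alternatingGroup (Fin 5))) := by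
  have hG : Nat.card (alternatingGroup (Fin 5)) = 60 := by
    have := card_alt 5 (by norm_num)
    simp only [Nat.factorial] at this
    omega
  have hc : Nat.card (P : Subgroup (alternatingGroup (Fin 5))) = 4 := by
    rw [P.card_eq_multiplicity, hG]
    have : Nat.factorization 60 2 = 2 := by
      rw [show (60 : ℕ) = 2 ^ 2 * 15 by norm_num, Nat.factorization_mul (by norm_num) (by norm_num),
        Nat.Prime.factorization_pow Nat.prime_two]
      simp [Nat.factorization_eq_zero_of_not_dvd (show ¬ 2 ∣ 15 by norm_num)]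
    rw [this]; norm_num
  have hsimple : IsSimpleGroup (alternatingGroup (Fin 5)) := alternatingGroup.isSimpleGroup (by simp)
  refine ⟨?_, ?_⟩
  · set N := Subgroup.normalizer ((P : Subgroup (alternatingGroup (Fin 5))) : Set (alternatingGroup (Fin 5))) with hN
    set C := Subgroup.centralizer ((P : Subgroup (alternatingGroup (Fin 5))) : Set (alternatingGroup (Fin 5))) with hC
    have hPC : (P : Subgroup (alternatingGroup (Fin 5))) ≤ C := Subgroup.le_centralizer _
    have hCN : C ≤ N := Subgroup.centralizer_le_normalizer _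
    have hPi : (P : Subgroup (alternatingGroup (Fin 5))).index = 15 := by
      have := (P : Subgroup (alternatingGroup (Fin 5))).card_mul_index
      rw [hc, hG] at this; omega
    have h1 := Subgroup.relIndex_mul_index (hPC.trans hCN)
    have h2 := Subgroup.relIndex_mul_relIndex _ _ _ hPC hCN
    change C.relIndex N = 3
    have hne : C.relIndex N ≠ 1 := by
      intro h
      have hle : N ≤ C := Subgroup.relIndex_eq_one.1 h
      have hcomp := MonoidHom.ker_transferSylow_isComplement' P hle
      have hcard := hcomp.card_mul_card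
      rw [hc, hG] at hcard
      rcases hsimple.eq_bot_or_eq_top_of_normal (MonoidHom.transferSylow P hle).ker inferInstance with h | h
      · rw [h, Subgroup.card_bot] at hcard; omega
      · rw [h, Subgroup.card_top, hG] at hcard; omega
    have hNi : 5 ≤ N.index := by
      by_contra hlt
      have hpos : N.index ≠ 0 := Subgroup.FiniteIndex.index_ne_zero
      rcases hsimple.eq_bot_or_eq_top_of_normal N.normalCore inferInstance with h | h
      · have hinj : Function.Injective (MulAction.toPermHom (alternatingGroup (Fin 5)) (_ ⧸ N)) := by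
          rw [← MonoidHom.ker_eq_bot_iff, ← Subgroup.normalCore_eq_ker, h]
        have := Subgroup.card_dvd_of_injective _ hinj
        rw [hG, Nat.card_perm, ← Subgroup.index] at this
        have h4 : N.index.factorial ∣ (4 : ℕ).factorial := Nat.factorial_dvd_factorial (by omega)
        have := this.trans h4
        simp [Nat.factorial] at this
      · have hNtop : N = ⊤ := top_le_iff.1 (h ▸ N.normalCore_le)
        have hnorm : (P : Subgroup (alternatingGroup (Fin 5))).Normal := Subgroup.normalizer_eq_top_iff.1 hNtop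
        rcases hsimple.eq_bot_or_eq_top_of_normal _ hnorm with h | h
        · rw [h, Subgroup.card_bot] at hc; omega
        · rw [h, Subgroup.card_top, hG] at hc; omega
    rw [hPi, ← h2] at h1
    generalize (P : Subgroup (alternatingGroup (Fin 5))).relIndex C = a at *
    generalize C.relIndex N = b at *
    generalize N.index = c at *
    have hb : b ∣ 15 := ⟨a * c, by rw [← h1]; ring⟩
    have hb' : b * 5 ≤ 15 := by
      have ha : 1 ≤ a := by
        rcases Nat.eq_zero_or_pos a with rfl | h
        · simp at h1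
        · exact h
      calc b * 5 ≤ a * b * c := by nlinarith
        _ = 15 := h1
    have : b ≤ 3 := by omega
    interval_cases b <;> omega
  · refine ⟨hc, ?_⟩
    have : Nontrivial (P : Subgroup (alternatingGroup (Fin 5))) := by
      rw [← Finite.one_lt_card_iff_nontrivial, hc]; norm_num
    rw [Monoid.exponent_eq_prime_iff Nat.prime_two]
    intro g hg
    have h4 : orderOf g ∣ 2 ^ 2 := by have := orderOf_dvd_natCard g; rwa [hc] at this
    have key : ∀ y : Equiv.Perm (Fin 5), Equiv.Perm.sign y = 1 → y ^ 4 = 1 → y ^ 2 = 1 := by decide +kernel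
    have h5 : g ^ 2 = 1 := by
      apply Subtype.ext; apply Subtype.ext
      have h6 : g ^ 4 = 1 := orderOf_dvd_iff_pow_eq_one.1 h4
      exact key _ (Equiv.Perm.mem_alternatingGroup.1 g.1.2)
        (congrArg Subtype.val (congrArg Subtype.val h6))
    exact orderOf_eq_prime h5 hg

/-- Let n ≥ 5 and let P be an abelian Sylow p-subgroup of the alternating group A_n. Then N(P)/C(P) (taken in A_n) has even order, or P is cyclic, except when n = 5 and p = 2, where P is a four-group and N(P)/C(P) has order 3. -/
theorem result (n : ℕ) (hn : 5 ≤ n) {p : ℕ} [Fact p.Prime]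
    (P : Sylow p (alternatingGroup (Fin n))) (hP : IsMulCommutative (P : Subgroup (alternatingGroup (Fin n)))) :
    (¬ (n = 5 ∧ p = 2) → 2 ∣ ((Subgroup.centralizer ((P : Subgroup (alternatingGroup (Fin n))) : Set (alternatingGroup (Fin n)))).subgroupOf (Subgroup.normalizer ((P : Subgroup (alternatingGroup (Fin n))) : Set (alternatingGroup (Fin n))))).index ∨ IsCyclic (P : Subgroup (alternatingGroup (Fin n)))) ∧
    ((n = 5 ∧ p = 2) → ((Subgroup.centralizer ((P : Subgroup (alternatingGroup (Fin n))) : Set (alternatingGroup (Fin n)))).subgroupOf (Subgroup.normalizer ((P : Subgroup (alternatingGroup (Fin n))) : Set (alternatingGroup (Fin n))))).index = 3 ∧ IsKleinFour (P : Subgroup (alternatingGroup (Fin n)))) := by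
  have hpp : p.Prime := Fact.out
  refine ⟨fun h => ?_, ?_⟩
  · by_cases hp2 : p = 2
    · subst hp2
      obtain ⟨x, h1, h2, h3⟩ := part_two n (by omega)
      exact Or.inl (two_dvd_automizer' P hP x 2 h1 h2 h3)
    by_cases hle : p + 2 ≤ n
    · obtain ⟨x, h1, h2, h3⟩ := part_odd n p hpp hp2 hle
      exact Or.inl (two_dvd_automizer' P hP x 1 h1 h2 h3)
    · right
      have hc := P.card_eq_multiplicity
      have h1 : (Nat.card (alternatingGroup (Fin n))).factorization p ≤ 1 := by
        have h2 : (Nat.card (alternatingGroup (Fin n))).factorization p ≤ (n.factorial).factorization p :=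
          (Nat.factorization_le_iff_dvd Nat.card_pos.ne' (Nat.factorial_ne_zero n)).2
            ⟨2, by rw [← card_alt n (by omega)]; ring⟩ p
        refine h2.trans ?_
        have h3 := sub_one_mul_padicValNat_factorial (p := p) n
        rw [Nat.factorization_def _ hpp]
        by_contra hlt
        have h4 : (p - 1) * 2 ≤ (p - 1) * padicValNat p n.factorial := Nat.mul_le_mul_left _ (by omega)
        omega
      interval_cases hf : (Nat.card (alternatingGroup (Fin n))).factorization p
      · have : Subsingleton (P : Subgroup (alternatingGroup (Fin n))) := by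
          rw [← Finite.card_le_one_iff_subsingleton, hc]; simp
        infer_instance
      · exact isCyclic_of_prime_card (p := p) (by rw [hc]; simp)
  · rintro ⟨rfl, rfl⟩
    exact five_case P hP

end Cfsg.Agent.S2269
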