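import Cfsg.Statements.S2279
import Cfsg.Agent.Lib.GenSL.Param

set_option autoImplicit false
open Cfsg

namespace Cfsg.Agent.S2279

/-- Let F be a finite field with q elements and n ≥ 4. Then SL_n(F) is generated by two regular unipotent elements (elements u with u − 1 nilpotent and (u − 1)^(n−1) ≠ 0); if q is prime, the two can be taken conjugate in SL_n(F). -/
theorem result {F : Type*} [Field F] [Fintype F] (n : ℕ) (hn : 4 ≤ n) :
    (∃ u v : Matrix.SpecialLinearGroup (Fin n) F, (IsNilpotent ((u : Matrix (Fin n) (Fin n) F) - 1) ∧ ((u : Matrix (Fin n) (Fin n) F) - 1) ^ (n - 1) ≠ 0) ∧ (IsNilpotent ((v : Matrix (Fin n) (Fin n) F) - 1) ∧ ((v : Matrix (Fin n) (Fin n) F) - 1) ^ (n - 1) ≠ 0) ∧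
      Subgroup.closure ({u, v} : Set (Matrix.SpecialLinearGroup (Fin n) F)) = ⊤) ∧
    ((Fintype.card F).Prime → ∃ u g : Matrix.SpecialLinearGroup (Fin n) F, (IsNilpotent ((u : Matrix (Fin n) (Fin n) F) - 1) ∧ ((u : Matrix (Fin n) (Fin n) F) - 1) ^ (n - 1) ≠ 0) ∧
      Subgroup.closure ({u, g * u * g⁻¹} : Set (Matrix.SpecialLinearGroup (Fin n) F)) = ⊤) := by
  obtain ⟨u, g, hu, h⟩ := CfsgLib.GenSL.genPair (F := F) hn
  refine ⟨⟨u, g * u * g⁻¹, hu, ?_, h⟩, fun _ => ⟨u, g, hu, h⟩⟩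
  have h1 : (g : Matrix (Fin n) (Fin n) F) * (g⁻¹ : Matrix.SpecialLinearGroup (Fin n) F) = 1 := by
    rw [← Matrix.SpecialLinearGroup.coe_mul, mul_inv_cancel]; rfl
  have h2 : ((g⁻¹ : Matrix.SpecialLinearGroup (Fin n) F) : Matrix (Fin n) (Fin n) F) * g = 1 := by
    rw [← Matrix.SpecialLinearGroup.coe_mul, inv_mul_cancel]; rfl
  let G : (Matrix (Fin n) (Fin n) F)ˣ := ⟨_, _, h1, h2⟩
  have e : ∀ k : ℕ, (((g * u * g⁻¹ : Matrix.SpecialLinearGroup (Fin n) F) :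
      Matrix (Fin n) (Fin n) F) - 1) ^ k =
        G.val * ((u : Matrix (Fin n) (Fin n) F) - 1) ^ k * (G⁻¹).val := by
    intro k
    rw [← Units.conj_pow, mul_sub, sub_mul, mul_one, Units.mul_inv]
    rfl
  obtain ⟨⟨k, hk⟩, hr⟩ := hu
  refine ⟨⟨k, by rw [e, hk, mul_zero, zero_mul]⟩, fun h0 => hr ?_⟩
  rwa [e, Units.mul_left_eq_zero, Units.mul_right_eq_zero] at h0

end Cfsg.Agent.S2279
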