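import Cfsg.Statements.S2290
import Cfsg.Agent.Lib.TwoGen.Basic

set_option autoImplicit false
open Cfsg

namespace Cfsg.Agent.S2290

/-- For every finite field F with q elements and n ≥ 2, with q ≥ 4 when n = 2, the simple group PSL_n(F) has a presentation with 2 generators and at most 80 relations. -/
theorem result {F : Type*} [Field F] [Fintype F] (n : ℕ) (hn : 2 ≤ n) (h2 : n = 2 → 4 ≤ Fintype.card F) :
    ∃ rels : Finset (FreeGroup (Fin 2)), rels.card ≤ 80 ∧ Nonempty (PresentedGroup (↑rels : Set (FreeGroup (Fin 2))) ≃* Matrix.ProjectiveSpecialLinearGroup (Fin n) F) := by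
  have h := CfsgLib.TwoGen.genBy_quot (N := Subgroup.center _) (CfsgLib.TwoGen.genBy_sl (F := F) hn)
  rcases hn.eq_or_lt with rfl | h3
  · exact (CfsgLib.TwoGen.pres_two (CfsgLib.Pres.pres_psl2 F) h).mono (by norm_num)
  · exact (CfsgLib.TwoGen.pres_two (CfsgLib.ClPres.pres_psl_of_pres (CfsgLib.ClPres.pres_sl h3)) h).mono (by norm_num)

end Cfsg.Agent.S2290
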