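import Cfsg.Statements.S2296
import Cfsg.Agent.Lib.ClPres.CMain

set_option autoImplicit false
open Cfsg

namespace Cfsg.Agent.S2296

/-- Let F be a finite field. Sp_2n(F) has a presentation with 10 generators and at most 58 relations for n ≥ 4, with 9 generators and at most 57 relations for n = 4 or 5, and with 8 generators and at most 52 relations for n = 3; in each case PSp_2n(F) has a presentation with the same number of generators and at most one more relation. -/
theorem result {F : Type*} [Field F] [Fintype F] (n : ℕ) :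
    (4 ≤ n → (∃ rels : Finset (FreeGroup (Fin 10)), rels.card ≤ 58 ∧ Nonempty (PresentedGroup (↑rels : Set (FreeGroup (Fin 10))) ≃* Matrix.symplecticGroup (Fin n) F)) ∧ (∃ rels : Finset (FreeGroup (Fin 10)), rels.card ≤ 59 ∧ Nonempty (PresentedGroup (↑rels : Set (FreeGroup (Fin 10))) ≃* Cfsg.PSp n F))) ∧
    ((n = 4 ∨ n = 5) → (∃ rels : Finset (FreeGroup (Fin 9)), rels.card ≤ 57 ∧ Nonempty (PresentedGroup (↑rels : Set (FreeGroup (Fin 9))) ≃* Matrix.symplecticGroup (Fin n) F)) ∧ (∃ rels : Finset (FreeGroup (Fin 9)), rels.card ≤ 58 ∧ Nonempty (PresentedGroup (↑rels : Set (FreeGroup (Fin 9))) ≃* Cfsg.PSp n F))) ∧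
    (n = 3 → (∃ rels : Finset (FreeGroup (Fin 8)), rels.card ≤ 52 ∧ Nonempty (PresentedGroup (↑rels : Set (FreeGroup (Fin 8))) ≃* Matrix.symplecticGroup (Fin n) F)) ∧ (∃ rels : Finset (FreeGroup (Fin 8)), rels.card ≤ 53 ∧ Nonempty (PresentedGroup (↑rels : Set (FreeGroup (Fin 8))) ≃* Cfsg.PSp n F))) := by
  have h : ∀ d r, 2 ≤ n → 6 ≤ d → (if n = 2 then 29 else if n = 3 then 47 else 48) + d ≤ r + 6 →
      CfsgLib.Pres.Pres (Matrix.symplecticGroup (Fin n) F) d r ∧ CfsgLib.Pres.Pres (Cfsg.PSp n F) d (r + 1) :=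
    fun d r hn hd hr =>
      have h := (CfsgLib.ClPres.pres_sp (F := F) hn).pad_le hd hr
      ⟨h, CfsgLib.ClPres.pres_psp_of_pres h⟩
  exact ⟨fun _ => h 10 58 (by omega) (by norm_num) (by split_ifs <;> omega),
    fun _ => h 9 57 (by omega) (by norm_num) (by split_ifs <;> omega),
    fun _ => h 8 52 (by omega) (by norm_num) (by split_ifs <;> omega)⟩

end Cfsg.Agent.S2296
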