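import Cfsg.Statements.S2332
import Cfsg.Agent.Lib.ClDeg.SL
import Cfsg.Agent.Lib.Char.PermChar

set_option autoImplicit false
open Cfsg

namespace Cfsg.Agent.S2332

open CfsgLib CfsgLib.ClDeg

/-- Smallest degree of a non-linear irreducible complex representation of SL_n over a finite field with q elements, for n ≥ 3 and (n, q) not one of (3, 2), (3, 4), (4, 2), (4, 3): every irreducible complex representation of SL_n(F) of degree at least 2 has degree at least (q^n − q)/(q − 1), and there is an irreducible complex representation of exactly that degree. -/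
theorem result {F : Type*} [Field F] [Fintype F] [DecidableEq F] (n : ℕ) (hn : 3 ≤ n)
    (hex : (n, Fintype.card F) ≠ (3, 2) ∧ (n, Fintype.card F) ≠ (3, 4) ∧ (n, Fintype.card F) ≠ (4, 2) ∧ (n, Fintype.card F) ≠ (4, 3)) :
    (∀ (k : ℕ) (ρ : Representation ℂ (Matrix.SpecialLinearGroup (Fin n) F) (Fin k → ℂ)), ρ.IsIrreducible → 2 ≤ k → (Fintype.card F ^ n - Fintype.card F) / (Fintype.card F - 1) ≤ k) ∧
    (∃ ρ : Representation ℂ (Matrix.SpecialLinearGroup (Fin n) F) (Fin ((Fintype.card F ^ n - Fintype.card F) / (Fintype.card F - 1)) → ℂ), ρ.IsIrreducible) := by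
  have hq := Fintype.one_lt_card (α := F)
  have hN : Module.finrank F (Fin n → F) = n := Module.finrank_fin_fun F
  let e := Matrix.SpecialLinearGroup.toLin'_equiv (n := Fin n) (R := F)
  refine ⟨fun k ρ hρ hk => ?_, ?_⟩
  · have := isIrreducible_comp ρ e.symm
    have := sl_min (ρ := ρ.comp e.symm.toMonoidHom) (by omega) (by simpa using hk) (fun h3 h => ?_) fun h4 h => ?_
    · rw [hN, Module.finrank_fin_fun] at this
      exact Nat.div_le_of_le_mul this
    · have := Nat.le_of_dvd (by norm_num) h
      obtain h' | h' | h' : Fintype.card F = 2 ∨ Fintype.card F = 3 ∨ Fintype.card F = 4 := by omega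
      · exact hex.1 (by rw [← hN, h3, h'])
      · rw [h'] at h; omega
      · exact hex.2.1 (by rw [← hN, h3, h'])
    · have := Nat.le_of_dvd (by norm_num) h
      obtain h | h : Fintype.card F = 2 ∨ Fintype.card F = 3 := by omega
      all_goals simp_all
  · have := Module.finite_of_finite F (M := Fin n → F)
    have : Finite (SpecialLinearGroup F (Fin n → F)) := Finite.of_equiv _ e.toEquiv
    have hc : Nat.card (Projectivization F (Fin n → F)) =
        (Fintype.card F ^ n - Fintype.card F) / (Fintype.card F - 1) + 1 := by
      rw [Projectivization.card'', ← Nat.add_div_right _ (by omega), Nat.card_fun, Nat.card_eq_fintype_card,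
        Nat.card_eq_fintype_card, Fintype.card_fin]
      have := Nat.le_self_pow (n := n) (by omega) (Fintype.card F)
      congr 1; omega
    have h2 : 2 ≤ Nat.card (Projectivization F (Fin n → F)) := by
      rw [hc, Nat.succ_le_succ_iff, Nat.le_div_iff_mul_le (by omega)]
      have := Nat.pow_le_pow_right (n := Fintype.card F) (by omega) (show 2 ≤ n by omega)
      have : 2 * Fintype.card F ≤ Fintype.card F ^ 2 := by nlinarith
      omega
    have := MulAction.isPretransitive_of_is_two_pretransitive (G := SpecialLinearGroup F (Fin n → F))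
      (α := Projectivization F (Fin n → F))
    obtain ⟨k, ρ, hρ, h⟩ := (Char.isIrr_perm_sub_one_iff (G := SpecialLinearGroup F (Fin n → F))
      (Projectivization F (Fin n → F)) h2).2 inferInstance
    have h1 := congrFun h 1
    rw [Representation.char_one, Module.finrank_fin_fun, MulAction.fixedBy_one_eq_univ, Nat.card_univ, hc] at h1
    obtain rfl : k = (Fintype.card F ^ n - Fintype.card F) / (Fintype.card F - 1) := by
      rw [Nat.cast_add, Nat.cast_one, add_sub_cancel_right] at h1
      exact_mod_cast h1
    exact ⟨_, isIrreducible_comp ρ e⟩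

end Cfsg.Agent.S2332
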