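import Cfsg.Statements.S2333
import Cfsg.Agent.Lib.LS.QForm

set_option autoImplicit false
open Cfsg

namespace Cfsg.Agent.S2333

open CfsgLib.LS

/-- For a finite field F of even order q and n ≥ 2 with (n, q) ≠ (2, 2), every irreducible complex representation of the symplectic group Sp_{2n}(F) of degree at least 2 has degree at least (q^n − 1)(q^n − q)/(2(q + 1)). -/
theorem result {F : Type*} [Field F] [Fintype F] [DecidableEq F] (n : ℕ) (hn : 2 ≤ n) (heven : Even (Fintype.card F)) (hex : (n, Fintype.card F) ≠ (2, 2)) :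
    (∀ (k : ℕ) (ρ : Representation ℂ (Matrix.symplecticGroup (Fin n) F) (Fin k → ℂ)), ρ.IsIrreducible → 2 ≤ k → (Fintype.card F ^ n - 1) * (Fintype.card F ^ n - Fintype.card F) / (2 * (Fintype.card F + 1)) ≤ k) := by
  intro k ρ hρ hk
  have hK : ringChar ℂ ≠ ringChar F := by
    rw [ringChar.eq_zero]
    exact (CharP.char_is_prime F _).ne_zero.symm
  have h2 : (2 : F) = 0 := by
    by_contra h
    have := FiniteField.odd_card_of_char_ne_two (F := F) fun e => h (by
      have := ringChar.Nat.cast_ringChar (R := F)
      rw [e] at this; exact_mod_cast this)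
    obtain ⟨r, hr⟩ := heven
    omega
  have hq : 1 < Fintype.card F := Fintype.one_lt_card
  have hp := CfsgLib.Symp.commutator_eq_top (m := n) (F := F) (by
    by_cases h3 : n = 2
    · exact Or.inr (Or.inl ⟨h3, by by_contra h4; exact hex (Prod.ext h3 (by simp only; omega))⟩)
    · omega)
  have := sp_bound_even hK h2 hn ρ fun g hg =>
    (CfsgLib.Symp.le_center_or_eq_top hp (MonoidHom.ker ρ)).resolve_right
      (ker_ne_top_of_irreducible ρ hρ (by simpa using hk)) hg
  rw [Module.finrank_fin_fun] at this
  exact Nat.div_le_of_le_mul this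

end Cfsg.Agent.S2333
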