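import Cfsg.Statements.S2336
import Cfsg.Agent.Lib.LS.SLSp
import Cfsg.Agent.Lib.Char.PermChar

set_option autoImplicit false
open Cfsg

namespace Cfsg.Agent.S2336

open CfsgLib.LS CfsgLib.Char

open MulAction Module
open scoped ComplexConjugate

/-- A sum of non-zero characters whose norm is at most the number of summands. -/
theorem irr_of_norm_le {G ι : Type*} [Group G] [Fintype G] [Fintype ι] (φ : ι → G → ℂ)
    (hφ : ∀ i, IsCharacter G (φ i)) (h0 : ∀ i, φ i ≠ 0) (N : ℕ)
    (hN : classInner (∑ i, φ i) (∑ i, φ i) = N) (hle : N ≤ Fintype.card ι) :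
    (∀ i, IsIrrCharacter G (φ i)) ∧ Function.Injective φ := by
  classical
  choose n hn using fun i j => exists_classInner_eq_nat (hφ i) (hφ j)
  have hsum : ∑ i, ∑ j, n i j = N := by
    simp only [classInner_sum_left, classInner_sum_right, hn] at hN
    rw [Finset.sum_comm] at hN
    exact_mod_cast hN
  have hd : ∀ i, 1 ≤ n i i := fun i => Nat.one_le_iff_ne_zero.2 fun h =>
    h0 i (classInner_self_eq_zero.1 (by rw [hn, h, Nat.cast_zero]))
  have hrow : ∀ i, 1 ≤ ∑ j, n i j := fun i =>
    (hd i).trans (Finset.single_le_sum (fun _ _ => Nat.zero_le _) (Finset.mem_univ i))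
  have h1 : ∀ i, ∑ j, n i j = 1 := fun i =>
    ((Finset.sum_eq_sum_iff_of_le (s := Finset.univ) (fun i _ => hrow i)).1
      (le_antisymm (Finset.sum_le_sum fun i _ => hrow i) (by simpa [hsum] using hle)) i
      (Finset.mem_univ i)).symm
  refine ⟨fun i => isIrr_of_inner_self_eq_one (hφ i) ?_, fun i j e => ?_⟩
  · have : n i i ≤ 1 := h1 i ▸ Finset.single_le_sum (fun _ _ => Nat.zero_le _) (Finset.mem_univ i)
    rw [hn, le_antisymm this (hd i), Nat.cast_one]
  · by_contra hne
    have h2 : n i j = n i i := by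
      have := hn i j
      rw [← e, hn] at this
      exact_mod_cast this.symm
    have h3 := Finset.add_le_sum (s := Finset.univ) (f := n i) (fun _ _ => Nat.zero_le _)
      (Finset.mem_univ i) (Finset.mem_univ j) hne
    have := hd i
    have := h1 i
    omega

theorem abstract {G A Ω : Type*} [Group G] [Fintype G] [CommGroup A] [Fintype A] [Finite Ω]
    [MulAction (G × A) Ω] [MulAction G Ω] (hG : ∀ (g : G) (x : Ω), (g, (1 : A)) • x = g • x)
    (hA : ∀ (a : A) (x : Ω), ((1 : G), a) • x = x → a = 1) (hΩ : Fintype.card A < Nat.card Ω)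
    (hrank : Nat.card (orbitRel.Quotient G (Ω × Ω)) ≤ Fintype.card A + 1) :
    ∃ χ : Fin (Fintype.card A) → G → ℂ, (∀ i, IsIrrCharacter G (χ i)) ∧ Function.Injective χ ∧
      ∀ g, (Nat.card (fixedBy Ω g) : ℂ) = 1 + ∑ i, χ i g := by
  classical
  let P : G × A → ℂ := fun x => Nat.card (fixedBy Ω x)
  have hP : IsCharacter _ P := isCharacter_perm Ω
  let θ : IrrCharacter A → G → ℂ := fun α g => classInner (fun a => P (g, a)) α
  have hθ : ∀ α, IsCharacter G (θ α) := fun α => by
    refine isCharacter_of_inner_nat (fun g h => ?_) fun χ hχ => ?_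
    · simp only [θ]
      congr 1; funext a
      rw [← isClassFunction_of_isCharacter hP (g, a) (h, 1)]
      simp
    · obtain ⟨n, hn⟩ := exists_classInner_eq_nat hP (isCharacter_mul
        (isCharacter_comp (MonoidHom.fst G A) (isCharacter_of_isIrr hχ))
        (isCharacter_comp (MonoidHom.snd G A) (irr_isCharacter α)))
      refine ⟨n, ?_⟩
      rw [← hn]
      simp only [θ, classInner_def, Fintype.sum_prod_type, Nat.card_prod, Nat.cast_mul, mul_inv,
        Finset.mul_sum, Finset.sum_mul, Pi.mul_apply, map_mul]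
      refine Finset.sum_congr rfl fun g _ => Finset.sum_congr rfl fun a _ => ?_
      simp only [MonoidHom.coe_fst, MonoidHom.coe_snd]
      ring
  have hα1 : ∀ α : IrrCharacter A, (α : A → ℂ) 1 = 1 := fun α => irr_one_eq_one_of_comm α.2
  have hcard : Fintype.card (IrrCharacter A) = Fintype.card A := by
    have := sum_irr_one_sq (G := A)
    simp only [hα1, one_pow, Finset.sum_const, Finset.card_univ, nsmul_eq_mul, mul_one,
      Nat.card_eq_fintype_card] at this
    exact_mod_cast this
  have hsum : ∀ g, ∑ α, θ α g = Nat.card (fixedBy Ω g) := fun g => by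
    have h1 := classFun_apply_eq_sum (isClassFunction_of_comm fun a => P (g, a)) 1
    simp only [hα1, mul_one] at h1
    rw [← h1]
    have : fixedBy Ω ((g, 1) : G × A) = fixedBy Ω g := by ext x; simp [hG]
    simp only [P, this]
  have hone : ∀ α, θ α 1 = (Nat.card Ω : ℂ) / Fintype.card A := fun α => by
    simp only [θ, classInner_def]
    rw [Finset.sum_eq_single 1, hα1]
    · have : fixedBy Ω ((1, 1) : G × A) = Set.univ := fixedBy_one_eq_univ _ _
      simp [P, this, div_eq_inv_mul]
    · intro a _ ha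
      have : fixedBy Ω ((1, a) : G × A) = ∅ := Set.eq_empty_of_forall_notMem fun x hx => ha (hA a x hx)
      simp [P, this]
    · simp
  have hAc : (Fintype.card A : ℂ) ≠ 0 := by simp
  have hsum' : ∑ α, θ α = fun g => (Nat.card (fixedBy Ω g) : ℂ) := by
    funext g; rw [Finset.sum_apply, hsum]
  have : Nonempty Ω := (Nat.card_pos_iff.1 (by omega)).1
  obtain ⟨α₀, hα₀⟩ : ∃ α, classInner (θ α) (fun _ => 1) ≠ 0 := by
    by_contra hc
    push Not at hc
    have h1 := classInner_perm_one (G := G) Ω
    rw [← hsum', classInner_sum_left, Finset.sum_eq_zero fun α _ => hc α] at h1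
    have : Nonempty (orbitRel.Quotient G Ω) := (nonempty_quotient_iff _).2 inferInstance
    exact (Nat.card_pos (α := orbitRel.Quotient G Ω)).ne' (by exact_mod_cast h1.symm)
  let χ : IrrCharacter A → G → ℂ := fun α => if α = α₀ then θ α - fun _ => 1 else θ α
  have hχ : ∑ α, χ α = ∑ α, θ α - fun _ => 1 := by
    have : ∀ α, χ α = θ α - if α = α₀ then (fun _ => 1 : G → ℂ) else 0 := fun α => by
      simp only [χ]; split_ifs <;> simp
    simp [this]
  obtain ⟨h1, h2⟩ := irr_of_norm_le (ι := Option (IrrCharacter A))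
    (fun o => o.elim (fun _ => 1) χ) (by
      rintro (_ | α)
      · exact isCharacter_one
      · simp only [Option.elim, χ]
        split_ifs with h
        · exact isCharacter_sub_of_inner_ne_zero (hθ α) isIrr_one (h ▸ hα₀)
        · exact hθ α) (by
      rintro (_ | α) h <;> have h1 := congrFun h 1
      · simp at h1
      · simp only [Option.elim, χ] at h1
        split_ifs at h1
        · rw [Pi.sub_apply, hone, Pi.zero_apply, sub_eq_zero, div_eq_one_iff_eq hAc] at h1
          exact hΩ.ne' (by exact_mod_cast h1)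
        · rw [hone, Pi.zero_apply, div_eq_zero_iff] at h1
          exact h1.elim (fun h => Nat.card_pos.ne' (by exact_mod_cast h)) hAc) _ (by
      simp only [Fintype.sum_option, Option.elim]
      rw [hχ, add_sub_cancel, hsum', classInner_perm_perm]) (by simpa [hcard] using hrank)
  let e : Fin (Fintype.card A) ≃ IrrCharacter A := Fintype.equivOfCardEq (by simp [hcard])
  refine ⟨fun i => χ (e i), fun i => h1 (some _), fun i j h => ?_, fun g => ?_⟩
  · exact e.injective (Option.some_injective _ (h2 h))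
  · rw [Equiv.sum_comp e fun α => χ α g, ← Finset.sum_apply, hχ, hsum']
    simp

theorem exists_equiv_two {F V : Type*} [Field F] [AddCommGroup V] [Module F V]
    [FiniteDimensional F V] {a b v w : V} (ha : a ≠ 0) (hv : v ≠ 0) (hb : ∀ c : F, b ≠ c • a)
    (hw : ∀ c : F, w ≠ c • v) : ∃ g : V ≃ₗ[F] V, g a = v ∧ g b = w := by
  obtain ⟨g, hg⟩ := exists_equiv_vec (F := F) hv ha
  have key : ∀ y : V, (∀ c : F, y ≠ c • a) →
      Dual.eval F V y ∘ₗ (LinearMap.ker (Dual.eval F V a)).subtype ≠ 0 := fun y hy h => by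
    obtain ⟨f, hf1, hf2⟩ := Submodule.exists_dual_map_eq_bot_of_notMem (p := F ∙ a) (x := y)
      (fun hm => by
        obtain ⟨c, hc⟩ := Submodule.mem_span_singleton.1 hm
        exact hy c hc.symm) inferInstance
    have h3 : f a = 0 := by
      have : f a ∈ (F ∙ a).map f := ⟨a, Submodule.mem_span_singleton_self a, rfl⟩
      rwa [hf2] at this
    exact hf1 (LinearMap.congr_fun h ⟨f, h3⟩)
  obtain ⟨⟨α, hα⟩, h1, h2⟩ := exists_both_ne_zero (F := F)
    (V := LinearMap.ker (Dual.eval F V a)) (key b hb) (key (g.symm w) fun c hc => hw c (by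
    rw [← hg, ← map_smul, ← hc, LinearEquiv.apply_symm_apply]))
  have h0 : α a = 0 := hα
  have h1' : α b = 1 := h1
  obtain ⟨k, hk, -⟩ := exists_dil α (g.symm w - b) (by simpa [h1'] using h2)
  exact ⟨k.trans g, by simp [hk, h0, hg], by simp [hk, h1']⟩

/-- Let F be a finite field with q elements and n ≥ 3. The permutation character of SL_n(F) on the non-zero vectors of F^n (the function sending a matrix to the number of non-zero vectors it fixes) is the sum of the principal character and q − 1 pairwise distinct irreducible complex characters. -/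
theorem result {F : Type*} [Field F] [Fintype F] [DecidableEq F] (n : ℕ) (hn : 3 ≤ n) :
    ∃ χ : Fin (Fintype.card F - 1) → (Matrix.SpecialLinearGroup (Fin n) F → ℂ),
      (∀ i, Cfsg.IsIrrCharacter (Matrix.SpecialLinearGroup (Fin n) F) (χ i)) ∧ Function.Injective χ ∧
      ∀ g : Matrix.SpecialLinearGroup (Fin n) F,
        (Nat.card {v : Fin n → F // v ≠ 0 ∧ (g : Matrix (Fin n) (Fin n) F).mulVec v = v} : ℂ) = 1 + ∑ i, χ i g := by
  classical
  let G := Matrix.SpecialLinearGroup (Fin n) F
  let Ω := {v : Fin n → F // v ≠ 0}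
  have hne : ∀ (g : G) (v : Fin n → F), v ≠ 0 → (g : Matrix (Fin n) (Fin n) F).mulVec v ≠ 0 :=
    fun g v hv h => hv (Matrix.eq_zero_of_mulVec_eq_zero (by rw [g.2]; exact one_ne_zero) h)
  let i1 : MulAction G Ω :=
    { smul := fun g v => ⟨_, hne g v.1 v.2⟩
      one_smul := fun v => Subtype.ext (Matrix.one_mulVec _)
      mul_smul := fun g h v => Subtype.ext (Matrix.mulVec_mulVec v.1 g.1 h.1).symm }
  let i2 : MulAction (G × Fˣ) Ω :=
    { smul := fun x v => ⟨(x.2 : F) • _, smul_ne_zero x.2.ne_zero (hne x.1 v.1 v.2)⟩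
      one_smul := fun v => Subtype.ext ((one_smul _ _).trans (Matrix.one_mulVec _))
      mul_smul := fun g h v => Subtype.ext (by
        change ((g.2 : F) * h.2) • (g.1.1 * h.1.1).mulVec v.1 =
          (g.2 : F) • g.1.1.mulVec ((h.2 : F) • h.1.1.mulVec v.1)
        rw [Matrix.mulVec_smul, Matrix.mulVec_mulVec, smul_smul]) }
  have hΩ : Nat.card Ω = Fintype.card F ^ n - 1 := by
    simp [Ω, Fintype.card_subtype_compl]
  have hq : 1 < Fintype.card F := Fintype.one_lt_card
  let e : Fin 3 → Fin n → F := fun i => Pi.single (Fin.castLE hn i) 1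
  have he : ∀ i, e i ≠ 0 := fun i h => by simpa [e] using congrFun h (Fin.castLE hn i)
  have hadj : ∀ g : (Fin n → F) ≃ₗ[F] (Fin n → F), ∃ γ : G, γ.1.mulVec (e 0) = g (e 0) ∧
      γ.1.mulVec (e 1) = g (e 1) := fun g => by
    have hd := (LinearEquiv.isUnit_det' g).ne_zero
    obtain ⟨k, hk, hk'⟩ := exists_dil (((LinearMap.det (g : (Fin n → F) →ₗ[F] (Fin n → F)))⁻¹ - 1) •
      LinearMap.proj (Fin.castLE hn 2)) (e 2) (by simpa [e] using hd)
    refine ⟨⟨LinearMap.toMatrix' (k.trans g : (Fin n → F) →ₗ[F] (Fin n → F)), ?_⟩, ?_, ?_⟩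
    · rw [LinearMap.det_toMatrix', LinearEquiv.coe_trans, LinearMap.det_comp, hk']
      simp [e, hd]
    · rw [toMatrix'_mulVec]; simp [hk, e]
    · rw [toMatrix'_mulVec]; simp [hk, e]
  have := abstract (G := G) (A := Fˣ) (Ω := Ω) (fun g x => Subtype.ext (one_smul _ _))
    (fun a x h => by
      have h1 : (a : F) • (1 : Matrix (Fin n) (Fin n) F).mulVec x.1 = x.1 := congrArg Subtype.val h
      rw [Matrix.one_mulVec] at h1
      exact Units.ext (smul_left_injective F x.2 (h1.trans (one_smul _ _).symm)))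
    (by
      rw [hΩ, Fintype.card_units]
      have := Nat.pow_lt_pow_right hq (show 1 < n by omega)
      rw [pow_one] at this
      omega)
    (by
      rw [← Fintype.card_option, ← Nat.card_eq_fintype_card]
      refine Nat.card_le_card_of_surjective (fun o : Option Fˣ => Quotient.mk _ (⟨e 0, he 0⟩,
        o.elim ⟨e 1, he 1⟩ fun c => ⟨(c : F) • e 0, smul_ne_zero c.ne_zero (he 0)⟩)) ?_
      rintro ⟨v, w⟩
      by_cases h : ∃ c : F, w.1 = c • v.1
      · obtain ⟨c, hc⟩ := h
        have hc0 : c ≠ 0 := by rintro rfl; exact w.2 (by simpa using hc)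
        obtain ⟨g, hg⟩ := exists_equiv_vec (F := F) v.2 (he 0)
        obtain ⟨γ, h1, -⟩ := hadj g
        refine ⟨some (Units.mk0 c hc0), Eq.symm (Quotient.sound ?_)⟩
        refine ⟨γ, Prod.ext (Subtype.ext ?_) (Subtype.ext ?_)⟩
        · exact h1.trans hg
        · exact (Matrix.mulVec_smul γ.1 c (e 0)).trans (by rw [h1, hg, hc])
      · push Not at h
        obtain ⟨g, hg1, hg2⟩ := exists_equiv_two (b := e 1) (he 0) v.2 (fun c hc => by
          simpa [e] using congrFun hc (Fin.castLE hn 1)) h
        obtain ⟨γ, h1, h2⟩ := hadj g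
        refine ⟨none, Eq.symm (Quotient.sound ?_)⟩
        exact ⟨γ, Prod.ext (Subtype.ext (h1.trans hg1)) (Subtype.ext (h2.trans hg2))⟩)
  rw [Fintype.card_units] at this
  obtain ⟨χ, h1, h2, h3⟩ := this
  refine ⟨χ, h1, h2, fun g => ?_⟩
  rw [← h3]
  congr 1
  exact Nat.card_congr
    { toFun := fun v => ⟨⟨v.1, v.2.1⟩, Subtype.ext v.2.2⟩
      invFun := fun v => ⟨v.1.1, v.1.2, congrArg Subtype.val v.2⟩
      left_inv := fun _ => rfl
      right_inv := fun _ => rfl }

end Cfsg.Agent.S2336
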