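import Cfsg.Statements.S2337
import Cfsg.Agent.Lib.Sz.CharTable
import Cfsg.Agent.Lib.Sz.Models

set_option autoImplicit false
open Cfsg

namespace Cfsg.Agent.S2337

open CfsgLib.Sz

/-- For the Suzuki group Sz(q), q = 2^(2m+1) with m ≥ 1 (realised inside Sp₄ over the field with q elements), every irreducible complex representation of degree at least 2 has degree at least 2^m·(q − 1). -/
theorem result {F : Type*} [Field F] [Fintype F] (m : ℕ) (hm : 1 ≤ m) (hF : Fintype.card F = 2 ^ (2 * m + 1)) :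
    (∀ (k : ℕ) (ρ : Representation ℂ (Cfsg.Lie.Sz F (2 ^ (m + 1))) (Fin k → ℂ)), ρ.IsIrreducible → 2 ≤ k → 2 ^ m * (2 ^ (2 * m + 1) - 1) ≤ k) := by
  rw [lieSz_eq hF]
  generalize tits hF = τ
  intro k ρ hρ hk
  have hF' : Nat.card F = 2 ^ (2 * m + 1) := Nat.card_eq_fintype_card.trans hF
  have h := (Tits.exists_irr_degree_iff (τ := τ) hm hF' k).1 ⟨_, ⟨k, ρ, hρ, rfl⟩, by simp⟩
  rw [hF'] at h
  have h1 : 2 ^ (2 * m + 1) = 2 * (2 ^ m) ^ 2 := by ring
  have h2 : 2 ^ (m + 1) = 2 * 2 ^ m := by ring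
  have h3 : 2 ≤ 2 ^ m := le_trans (by norm_num) (Nat.pow_le_pow_right two_pos hm)
  rw [h1, h2] at h
  rw [h1]
  generalize 2 ^ m = s at h h3 ⊢
  have h4 : s ≤ 2 * s ^ 2 := by nlinarith
  have h5 : s ≤ 2 * s ^ 2 - 2 * s + 1 := by
    have : 3 * s ≤ 2 * s ^ 2 := by nlinarith
    omega
  have h6 : s * (2 * s ^ 2 - 1) ≤ (2 * s ^ 2) ^ 2 := by
    rw [pow_two (2 * s ^ 2)]
    exact Nat.mul_le_mul h4 (Nat.sub_le _ _)
  rcases h with h | h | h | h | h | h
  · omega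
  · omega
  · omega
  · omega
  · rw [h, mul_comm]
    exact Nat.mul_le_mul_left _ h5
  · rw [h, mul_comm]
    exact Nat.mul_le_mul_left _ (by omega)

end Cfsg.Agent.S2337
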