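import Cfsg.Statements.S2344
import Cfsg.Agent.Lib.ClDeg.OFin

set_option autoImplicit false
open Cfsg

namespace Cfsg.Agent.S2344

open CfsgLib.ClDeg CfsgLib.OrthE

/-- For a finite field F of odd order q > 3 and n ≥ 3, every irreducible complex representation of degree at least 2 of Ω_{2n+1}(F) (the commutator subgroup of the isometry group of the quadratic form x₀² + x₁y₁ + ⋯ + x_ny_n) has degree at least (q^{2n} − 1)/(q² − 1). -/
theorem result {F : Type*} [Field F] [Fintype F] (n : ℕ) (hn : 3 ≤ n) (hodd : Odd (Fintype.card F)) (h3 : 3 < Fintype.card F) :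
    (∀ (k : ℕ) (ρ : Representation ℂ (Cfsg.Omega F (Cfsg.quadFormOdd n F)) (Fin k → ℂ)), ρ.IsIrreducible → 2 ≤ k → (Fintype.card F ^ (2 * n) - 1) / (Fintype.card F ^ 2 - 1) ≤ k) := by
  intro d ρ hρ hd
  obtain ⟨m, rfl⟩ : ∃ m, n = m + 3 := ⟨n - 3, by omega⟩
  have hQ := nondeg_qOdd (two_ne_zero_of_odd hodd) (m + 3)
  have h2 : ¬ Fintype.card F - 1 ∣ 2 := fun h => by have := Nat.le_of_dvd two_pos h; omega
  have hσ := card_zeros_odd (m + 3) _ hQ (by simp; omega)
  have := odd_final (d := d) (m := m) (q := Fintype.card F) (by omega)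
    ((omega_cases (qOdd_eq _) hQ (k := 2 * m + 3) (by simp; omega) (by omega) ρ hρ hd (.inl h2) rfl
      (by rw [hσ, Nat.card_eq_fintype_card]; simp)).imp_right fun h => h.resolve_right fun h => h2 h.1)
  refine Nat.div_le_of_le_mul ?_
  zify [Nat.one_le_pow _ _ (Fintype.card_pos (α := F))]
  exact this

end Cfsg.Agent.S2344
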