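import Cfsg.Statements.S2346
import Cfsg.Agent.Lib.ClDeg.OFin

set_option autoImplicit false
open Cfsg

namespace Cfsg.Agent.S2346

open CfsgLib.ClDeg CfsgLib.OrthE

/-- For a finite field F with q elements, n ≥ 4, and a, b ∈ F with z₁² + a z₁z₂ + b z₂² anisotropic, every irreducible complex representation of degree at least 2 of Ω⁻_{2n}(F) (the commutator subgroup of the isometry group of x₁y₁ + ⋯ + x_{n−1}y_{n−1} + z₁² + a z₁z₂ + b z₂²) has degree at least (q^n + 1)(q^{n−1} − q)/(q² − 1). -/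
theorem result {F : Type*} [Field F] [Fintype F] (n : ℕ) (hn : 4 ≤ n) (a b : F) (hab : ∀ z₁ z₂ : F, z₁ ^ 2 + a * z₁ * z₂ + b * z₂ ^ 2 = 0 → z₁ = 0 ∧ z₂ = 0) :
    (∀ (k : ℕ) (ρ : Representation ℂ (Cfsg.Omega F (Cfsg.quadFormMinus (n - 1) F a b)) (Fin k → ℂ)), ρ.IsIrreducible → 2 ≤ k → (Fintype.card F ^ n + 1) * (Fintype.card F ^ (n - 1) - Fintype.card F) / (Fintype.card F ^ 2 - 1) ≤ k) := by
  intro d ρ hρ hd
  obtain ⟨j, rfl⟩ : ∃ j, n = j + 2 := ⟨n - 2, by omega⟩
  have hq := Fintype.one_lt_card (α := F)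
  have hσ := Nat.card_eq_fintype_card (α := F) ▸ card_zeros_qMinus (j + 1) hab
  refine Nat.div_le_of_le_mul ?_
  zify [Nat.one_le_pow _ _ (Fintype.card_pos (α := F)), Nat.le_self_pow (n := j + 2 - 1) (by omega)]
  generalize hq' : (Fintype.card F : ℤ) = q at *
  have h2 : 2 ≤ q := by omega
  rcases or_assoc.2 (omega_cases (qMinus_eq _ a b) (nondeg_qMinus _ hab) (k := 2 * j) (by simp; omega) (by omega)
    ρ hρ hd (.inr fun M hM => by have := finrank_le_of_ts_qMinus hab hM; omega) hq'.symm rfl) with h | ⟨-, h⟩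
  · simpa [sub_eq_add_neg] using even_final h2 (by omega) (.inr rfl) hσ h
  obtain ⟨h3, h4⟩ := h _ j rfl rfl (by rw [show j + 2 - 1 = j + 1 from rfl, hσ]; ring)
  rw [show j + 2 - 1 = j + 1 from rfl]
  rcases (show 2 ≤ j by omega).eq_or_lt with rfl | h5
  · have h6 : q ^ 5 + q ^ 2 ≤ d := le_of_mul_le_mul_left (by linear_combination h3) (show 0 < q by omega)
    have h7 := mul_le_mul_of_nonneg_left (show q ^ 5 + q ≤ d by nlinarith) (show 0 ≤ q ^ 2 - 1 by nlinarith)
    linear_combination h7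
  · have h6 : 0 ≤ (q * q ^ (j + 1) + 1) * (q + 1) := by positivity
    linear_combination h6 - h4 (by omega)

end Cfsg.Agent.S2346
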