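import Cfsg.Statements.S2347
import Cfsg.Agent.Lib.LS.Weil

set_option autoImplicit false
open Cfsg

namespace Cfsg.Agent.S2347

open CfsgLib.LS

/-- Smallest degree of a non-linear irreducible complex representation of the symplectic group Sp_{2n} over a finite field of odd order q, n ≥ 2: every irreducible complex representation of degree at least 2 has degree at least (q^n − 1)/2, and there is an irreducible complex representation of exactly that degree (a Weil representation). -/
theorem result {F : Type*} [Field F] [Fintype F] [DecidableEq F] (n : ℕ) (hn : 2 ≤ n) (hodd : Odd (Fintype.card F)) :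
    (∀ (k : ℕ) (ρ : Representation ℂ (Matrix.symplecticGroup (Fin n) F) (Fin k → ℂ)), ρ.IsIrreducible → 2 ≤ k → (Fintype.card F ^ n - 1) / 2 ≤ k) ∧
    (∃ ρ : Representation ℂ (Matrix.symplecticGroup (Fin n) F) (Fin ((Fintype.card F ^ n - 1) / 2) → ℂ), ρ.IsIrreducible) := by
  have h2 := two_ne_zero_of_odd hodd
  refine ⟨fun k ρ hρ hk => ?_, ?_⟩
  · have hK : ringChar ℂ ≠ ringChar F := by
      rw [ringChar.eq_zero]
      exact (CharP.char_is_prime F _).ne_zero.symm
    have := sp_bound hK h2 (show 1 ≤ n by omega) ρ fun g hg =>
      (CfsgLib.Symp.le_center_or_eq_top (CfsgLib.Symp.commutator_eq_top_of_two_ne_zero hn h2)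
        (MonoidHom.ker ρ)).resolve_right (ker_ne_top_of_irreducible ρ hρ (by simpa using hk)) hg
    rw [Module.finrank_fin_fun, Nat.card_eq_fintype_card] at this
    exact Nat.div_le_of_le_mul this
  · have : Nonempty (Fin n) := ⟨⟨0, by omega⟩⟩
    have := exists_weil (l := Fin n) h2
    rwa [Fintype.card_fin] at this

end Cfsg.Agent.S2347
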