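import Mathlib
import Cfsg.Statements.S2353
import Cfsg.Agent.Lib.Law.Groups

set_option autoImplicit false
open Cfsg

namespace Cfsg.Agent.S2353

/-- A non-trivial law holds in PSL_2 over only finitely many finite fields: for every non-trivial element w of the free group on countably many generators there is N such that over every finite field with at least N elements some substitution of elements of PSL_2 into w is not the identity. -/
theorem result (w : FreeGroup ℕ) (hw : w ≠ 1) :
    ∃ N : ℕ, ∀ (F : Type*) [Field F] [Fintype F], N ≤ Fintype.card F →
      ∃ f : ℕ → Matrix.ProjectiveSpecialLinearGroup (Fin 2) F, FreeGroup.lift f w ≠ 1 := by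
  refine ⟨2 * (CfsgLib.Law.twoWord (CfsgLib.Law.commWord w)).toWord.length + 3, fun F _ _ hF => ?_⟩
  by_contra h
  push Not at h
  exact CfsgLib.Law.sl2_not_isLaw _ (CfsgLib.Law.commWord_ne_one hw) F hF
    (CfsgLib.Law.IsLaw.commWord_of_quotient_center h)

end Cfsg.Agent.S2353
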