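import Mathlib
import Cfsg.Statements.S2354
import Cfsg.Agent.Lib.Law.Groups

set_option autoImplicit false
open Cfsg

namespace Cfsg.Agent.S2354


open Matrix CfsgLib.Law

theorem mem_sz {F : Type*} [Field F] (e : ℕ) (A B : Matrix (Fin 4) (Fin 4) F) (h1 : A * B = 1)
    (h2 : B * A = 1) (hf : ∀ u v, Cfsg.Lie.altForm4 (A *ᵥ u) (A *ᵥ v) = Cfsg.Lie.altForm4 u v)
    (hs : Cfsg.Lie.star4 A = A.map (fun x => x ^ e)) :
    (⟨A, B, h1, h2⟩ : GL (Fin 4) F) ∈ Cfsg.Lie.Sz F e :=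
  Subgroup.subset_closure ⟨hf, hs⟩

/-- A non-trivial law holds in only finitely many Suzuki groups: for every non-trivial element w of the free group on countably many generators there is N such that for q = 2^(2m+1) with m ≥ N some substitution of elements of the Suzuki group over the field with q elements into w is not the identity. -/
theorem result (w : FreeGroup ℕ) (hw : w ≠ 1) :
    ∃ N : ℕ, ∀ (F : Type*) [Field F] [Fintype F] (m : ℕ), 1 ≤ m → N ≤ m →
      Fintype.card F = 2 ^ (2 * m + 1) →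
      ∃ f : ℕ → ↥(Cfsg.Lie.Sz F (2 ^ (m + 1))), FreeGroup.lift f w ≠ 1 := by
  classical
  refine ⟨4 * (twoWord w).toWord.length + 2, fun F _ _ m hm hN hF => ?_⟩
  by_contra h
  push Not at h
  have hchar : CharP F 2 := by
    obtain ⟨p, hp⟩ := CharP.exists F
    obtain ⟨n, hpp, hn⟩ := FiniteField.card F p
    have : p = 2 := by
      have h1 : p ∣ 2 ^ (2 * m + 1) := by rw [← hF, hn]; exact dvd_pow_self p n.ne_zero
      exact (Nat.prime_dvd_prime_iff_eq hpp Nat.prime_two).mp (hpp.dvd_of_dvd_pow h1)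
    exact this ▸ hp
  have h2 : (2 : F) = 0 := by exact_mod_cast CharP.cast_eq_zero F 2
  set e := 2 ^ (m + 1) with he
  have he0 : e ≠ 0 := by positivity
  have hee : ∀ t : F, (t ^ e) ^ e = t ^ 2 := by
    intro t
    have h1 : t ^ (2 ^ (2 * m + 1)) = t := by rw [← hF]; exact FiniteField.pow_card t
    rw [← pow_mul, he, ← pow_add, show m + 1 + (m + 1) = (2 * m + 1) + 1 by ring, pow_succ 2,
      pow_mul, h1]
  let ρ : Cfsg.Lie.Sz F e →* Matrix (Fin 4) (Fin 4) F :=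
    (Units.coeHom _).comp (Cfsg.Lie.Sz F e).subtype
  have hδ : ∀ t : F, t ≠ 0 → ∃ d : Cfsg.Lie.Sz F e,
      ρ d = diagonal ![t ^ e * t, t, t⁻¹, (t ^ e * t)⁻¹] ∧
      ρ d⁻¹ = diagonal ![(t ^ e * t)⁻¹, t⁻¹, t, t ^ e * t] := by
    intro t ht
    have hte : t ^ e ≠ 0 := pow_ne_zero _ ht
    refine ⟨⟨_, mem_sz e (diagonal ![t ^ e * t, t, t⁻¹, (t ^ e * t)⁻¹])
      (diagonal ![(t ^ e * t)⁻¹, t⁻¹, t, t ^ e * t]) ?_ ?_ ?_ ?_⟩, rfl, rfl⟩
    · rw [diagonal_mul_diagonal, ← diagonal_one]; congr 1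
      ext i; fin_cases i <;> simp <;> field_simp
    · rw [diagonal_mul_diagonal, ← diagonal_one]; congr 1
      ext i; fin_cases i <;> simp <;> field_simp
    · intro u v
      simp only [Cfsg.Lie.altForm4, mulVec_diagonal]
      simp
      field_simp
    · ext i j
      fin_cases i <;> fin_cases j <;>
        simp [Cfsg.Lie.star4, Cfsg.Lie.pairOf, he0, mul_pow, hee] <;> field_simp
  choose! δ hδ using hδ
  obtain ⟨g, hg1, hg2⟩ : ∃ g : Cfsg.Lie.Sz F e,
      ρ g = !![1, 0, 1, 1; 1, 1, 1, 0; 0, 1, 1, 1; 1, 1, 0, 1] ∧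
      ρ g⁻¹ = !![1, 1, 0, 1; 0, 1, 1, 1; 1, 1, 1, 0; 1, 0, 1, 1] := by
    refine ⟨⟨_, mem_sz e !![1, 0, 1, 1; 1, 1, 1, 0; 0, 1, 1, 1; 1, 1, 0, 1]
      !![1, 1, 0, 1; 0, 1, 1, 1; 1, 1, 1, 0; 1, 0, 1, 1] ?_ ?_ ?_ ?_⟩, rfl, rfl⟩
    · ext i j; fin_cases i <;> fin_cases j <;> simp [Matrix.mul_apply, Fin.sum_univ_four] <;>
        first | linear_combination h2 | linear_combination 2 * h2
    · ext i j; fin_cases i <;> fin_cases j <;> simp [Matrix.mul_apply, Fin.sum_univ_four] <;>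
        first | linear_combination h2 | linear_combination 2 * h2
    · intro u v
      simp [Cfsg.Lie.altForm4, mulVec, dotProduct, Fin.sum_univ_four]
      linear_combination (u 0 * v 0 + u 0 * v 1 + u 0 * v 2 + u 0 * v 3 + u 1 * v 0 + u 1 * v 1
        + u 1 * v 2 + u 1 * v 3 + u 2 * v 0 + u 2 * v 1 + u 2 * v 2 + u 2 * v 3 + u 3 * v 0
        + u 3 * v 1 + u 3 * v 2 + u 3 * v 3) * h2
    · ext i j
      fin_cases i <;> fin_cases j <;> simp [Cfsg.Lie.star4, Cfsg.Lie.pairOf, he0] <;>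
      linear_combination - h2
  clear_value ρ
  have hx : m < 2 ^ m := Nat.lt_two_pow_self
  have h3 : 2 ^ (2 * m + 1) = 2 * (2 ^ m * 2 ^ m) := by ring
  have h4 : e = 2 * 2 ^ m := by rw [he]; ring
  clear_value e
  refine not_isLaw_two ρ 0 3 (by decide) (e + 1) ![2 * (e + 1), e + 2, e, 0] ?_ ?_ ?_
    (Finset.univ.erase 0) δ ?_ ?_ g ?_ (twoWord w) (twoWord_ne_one hw) ?_ (IsLaw.twoWord h)
  · intro j; fin_cases j <;> simp <;> omega
  · intro j; fin_cases j <;> simp <;> omega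
  · intro j; fin_cases j <;> simp <;> omega
  · intro t ht
    have ht0 := (Finset.mem_erase.mp ht).1
    rw [(hδ t ht0).1, ← diagonal_smul]
    congr 1
    ext i; fin_cases i <;> simp <;> field_simp <;> ring
  · intro t ht
    have ht0 := (Finset.mem_erase.mp ht).1
    rw [(hδ t ht0).2, ← diagonal_smul]
    congr 1
    have e1 : 2 * (e + 1) - (e + 2) = e := by omega
    have e2 : 2 * (e + 1) - e = e + 2 := by omega
    ext i; fin_cases i <;> simp [e1, e2] <;> field_simp <;> ring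
  · rintro i j (rfl | rfl) (rfl | rfl) <;> simp [hg1, hg2]
  · rw [Finset.card_erase_of_mem (Finset.mem_univ _), Finset.card_univ, hF]
    rw [h3, h4]
    generalize 2 ^ m = x at *
    generalize (twoWord w).toWord.length = L at *
    have : 2 * (2 * x + 1) * L + 1 < 2 * (x * x) := by nlinarith
    omega

end Cfsg.Agent.S2354
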