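import Mathlib
import Cfsg.Statements.S2355
import Cfsg.Agent.Lib.Law.Groups
import Cfsg.Agent.Lib.Unitary.Field

set_option autoImplicit false
open Cfsg

namespace Cfsg.Agent.S2355


open Matrix CfsgLib.Law
open scoped MatrixGroups

theorem card_le_of_inj {X : Type*} {ι : Type*} [Fintype ι] {F : Type*} [Fintype F]
    (f : X → Matrix ι ι F) (hf : Function.Injective f) {d B : ℕ} (hd : Fintype.card ι ≤ d)
    (hB : Fintype.card F ≤ B) (h1 : 1 ≤ B) : Nat.card X ≤ B ^ (d * d) := by
  classical
  have h2 : Nat.card X ≤ Nat.card (ι → ι → F) := Nat.card_le_card_of_injective f hf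
  rw [Nat.card_eq_fintype_card (α := ι → ι → F), Fintype.card_fun, Fintype.card_fun, ← pow_mul] at h2
  refine h2.trans ((Nat.pow_le_pow_left hB _).trans (Nat.pow_le_pow_right h1 (Nat.mul_le_mul hd hd)))

theorem card_quot_le {G X : Type*} [Group G] [Group X] [Finite X]
    (e : G ≃* X ⧸ Subgroup.center X) : Nat.card G ≤ Nat.card X := by
  rw [Nat.card_congr e.toEquiv]
  exact Nat.card_le_card_of_surjective _ (QuotientGroup.mk'_surjective _)

theorem law_of_quot {G X : Type*} [Group G] [Group X] {w : FreeGroup ℕ}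
    (e : G ≃* X ⧸ Subgroup.center X) (h : IsLaw w G) : IsLaw (commWord w) X :=
  (h.of_injective e.symm.toMonoidHom e.symm.injective).commWord_of_quotient_center

/-- the two perfect test groups inside `SL_m(F)`. -/
theorem bound_of_sl {w : FreeGroup ℕ} (hw : w ≠ 1) {N : ℕ}
    (hN : ∀ n, N ≤ n → ¬ IsLaw w (alternatingGroup (Fin n))) {F : Type} [Field F] [Fintype F]
    {m : ℕ} (hm : 2 ≤ m)
    (h : ∀ (H : Type) [Group H] (φ : H →* SL(m, F)), Function.Injective φ → commutator H = ⊤ →
      IsLaw w H) :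
    m ≤ N + 5 ∧ Fintype.card F ≤ 2 * (twoWord w).toWord.length + 4 := by
  classical
  constructor
  · by_contra hc
    refine hN m (by omega) (h _ (altSL (Fin m) F) (altSL_injective _) ?_)
    exact commutator_alternatingGroup_eq_top (by simp; omega)
  · by_contra hc
    obtain ⟨k, rfl⟩ := Nat.exists_eq_add_of_le hm
    refine sl2_not_isLaw w hw F (by omega) (h _ (blockSL finSumFinEquiv) (blockSL_injective _) ?_)
    obtain ⟨a, ha0, ha1, ha2⟩ : ∃ a : F, a ≠ 0 ∧ a ≠ 1 ∧ a ≠ -1 := by
      by_contra hcon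
      push Not at hcon
      have : (Finset.univ : Finset F) ⊆ {0, 1, -1} := by
        intro x _
        by_cases hx : x = 0
        · simp [hx]
        · by_cases hx1 : x = 1
          · simp [hx1]
          · simp [hcon x hx hx1]
      have h2 := Finset.card_le_card this
      have h3 : ({0, 1, -1} : Finset F).card ≤ 3 := Finset.card_le_three
      rw [Finset.card_univ] at h2
      omega
    refine Matrix.SL2.commutator_eq_top ha0 fun h => ?_
    rcases sq_eq_one_iff.mp h with h | h
    · exact ha1 h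
    · exact ha2 h

theorem law_orth {w : FreeGroup ℕ} {F : Type} [Field F] {m : ℕ} {ι : Type} [Fintype ι]
    [DecidableEq ι] (Q : (ι → F) → F) (ψ : SL(m, F) →* Matrix ι ι F) (hψ : Function.Injective ψ)
    (hQ : ∀ A v, Q (ψ A *ᵥ v) = Q v) (h : IsLaw w (Cfsg.Omega F Q))
    (H : Type) [Group H] (φ : H →* SL(m, F)) (hφ : Function.Injective φ) (hH : commutator H = ⊤) :
    IsLaw w H := by
  refine IsLaw.of_commutator h
    ((ψ.toHomUnits.codRestrict (Cfsg.isometryGroup F Q) fun A => ?_).comp φ) ?_ hH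
  · intro u _
    exact hQ A u
  · intro a b hab
    exact hφ (hψ (congrArg (fun x : Cfsg.isometryGroup F Q => (x.1 : Matrix ι ι F)) hab))

theorem su_bound {w : FreeGroup ℕ} (hw : w ≠ 1) {N : ℕ}
    (hN : ∀ n, N ≤ n → ¬ IsLaw w (alternatingGroup (Fin n))) {F : Type} [Field F] [Fintype F]
    {n q : ℕ} (hF : Fintype.card F = q ^ 2) (hn : 2 ≤ n) (h : IsLaw w (Cfsg.SU n F q)) :
    n ≤ N ∧ q ≤ 2 * (twoWord w).toWord.length + 3 := by
  classical
  constructor
  · by_contra hc
    refine hN n (by omega) (h.of_injective ((altSL (Fin n) F).codRestrict _ fun σ => ?_)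
      fun a b hab => altSL_injective (F := F) _ (congrArg Subtype.val hab))
    intro u v
    change Cfsg.hermForm n F q ((altSL (Fin n) F σ).1 *ᵥ u) ((altSL (Fin n) F σ).1 *ᵥ v) = _
    rw [altSL_mulVec, altSL_mulVec]
    exact Equiv.sum_comp (σ.1⁻¹ : Equiv.Perm (Fin n)) (fun i => u i * v i ^ q)
  · by_contra hc
    obtain ⟨k, rfl⟩ := Nat.exists_eq_add_of_le hn
    have h2 : IsLaw w (Cfsg.SU 2 F q) := by
      refine h.of_injective (((blockSL finSumFinEquiv).comp (Cfsg.SU 2 F q).subtype).codRestrict _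
        fun A => ?_) fun a b hab =>
          Subtype.ext (blockSL_injective (F := F) finSumFinEquiv (congrArg Subtype.val hab))
      intro u v
      change Cfsg.hermForm (2 + k) F q (blockHom finSumFinEquiv A.1.1 *ᵥ u)
        (blockHom finSumFinEquiv A.1.1 *ᵥ v) = _
      have hA := A.2 (fun j => u (finSumFinEquiv (Sum.inl j))) (fun j => v (finSumFinEquiv (Sum.inl j)))
      unfold Cfsg.hermForm at hA ⊢
      rw [← finSumFinEquiv.sum_comp, ← finSumFinEquiv.sum_comp (fun i => u i * v i ^ q),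
        Fintype.sum_sum_type, Fintype.sum_sum_type]
      simp only [blockHom_mulVec_inl, blockHom_mulVec_inr]
      congr 1
    have hmem : ∀ a b : F, a ^ (q + 1) + b ^ (q + 1) = 1 → ∃ g : Cfsg.SU 2 F q,
        g.1.1 = !![a, b; -b ^ q, a ^ q] := by
      intro a b hab
      refine ⟨⟨⟨!![a, b; -b ^ q, a ^ q], ?_⟩, ?_⟩, rfl⟩
      · rw [det_fin_two]; simp; linear_combination hab
      · intro u v
        change Cfsg.hermForm 2 F q (!![a, b; -b ^ q, a ^ q] *ᵥ u) (!![a, b; -b ^ q, a ^ q] *ᵥ v) = _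
        simp only [Cfsg.hermForm, Fin.sum_univ_two, mulVec, dotProduct]
        simp [CfsgLib.Unitary.add_pow_q hF, mul_pow, CfsgLib.Unitary.neg_pow_q hF,
          CfsgLib.Unitary.pow_q_pow_q hF]
        linear_combination (u 0 * v 0 ^ q + u 1 * v 1 ^ q) * hab
    obtain ⟨μ, hμ, hμ0, hμ1⟩ : ∃ μ : F, μ ^ q = μ ∧ μ ≠ 0 ∧ μ ≠ 1 := by
      by_contra hcon
      push Not at hcon
      have h3 := CfsgLib.Unitary.card_fixed hF
      rw [Nat.card_eq_fintype_card, Fintype.card_subtype] at h3
      have : (Finset.univ.filter fun x : F => x ^ q = x) ⊆ {0, 1} := by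
        intro x hx
        by_cases hx0 : x = 0
        · simp [hx0]
        · simp [hcon x (Finset.mem_filter.mp hx).2 hx0]
      have h4 := Finset.card_le_card this
      have h5 : ({0, 1} : Finset F).card ≤ 2 := Finset.card_le_two
      omega
    obtain ⟨a, ha⟩ := CfsgLib.Unitary.exists_norm_eq hF hμ
    obtain ⟨b, hb⟩ := CfsgLib.Unitary.exists_norm_eq hF (μ := 1 - μ)
      (by rw [CfsgLib.Unitary.sub_pow_q hF, one_pow, hμ])
    have ha0 : a ≠ 0 := by rintro rfl; simp at ha; exact hμ0 ha.symm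
    have hb0 : b ≠ 0 := by rintro rfl; simp at hb; exact hμ1 (sub_eq_zero.mp hb.symm).symm
    obtain ⟨g, hg⟩ := hmem a b (by rw [ha, hb]; ring)
    let ρ : Cfsg.SU 2 F q →* Matrix (Fin 2) (Fin 2) F :=
      SpecialLinearGroup.coeMonoidHom.comp (Cfsg.SU 2 F q).subtype
    refine not_isLaw_fin_two ρ (Finset.univ.filter fun t : F => t ^ (q + 1) = 1) ?_ ?_ g ?_ w hw ?_ h2
    · intro t ht h0
      have := (Finset.mem_filter.mp ht).2
      simp [h0] at this
    · intro t ht
      have h3 := (Finset.mem_filter.mp ht).2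
      obtain ⟨d, hd⟩ := hmem t 0 (by simp [h3])
      refine ⟨d, hd.trans ?_⟩
      have h4 : t ^ q = t⁻¹ := eq_inv_of_mul_eq_one_left (by rw [← pow_succ, h3])
      simp [h4, CfsgLib.Unitary.zero_pow_q hF]
    · intro i j
      have h3 : ρ g = !![a, b; -b ^ q, a ^ q] := hg
      have h4 : ρ g⁻¹ = adjugate g.1.1 := rfl
      rw [h3, h4, hg, adjugate_fin_two]
      fin_cases i <;> fin_cases j <;> simp [ha0, hb0]
    · have h3 := CfsgLib.Unitary.card_norm_one hF
      rw [Nat.card_eq_fintype_card, Fintype.card_subtype] at h3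
      omega

/-- A non-trivial law is satisfied by only finitely many finite simple groups that are alternating or classical, up to isomorphism: for every non-trivial element w of the free group on countably many generators there is a bound N such that every alternating group of degree ≥ 5 and every simple classical group (linear, symplectic, unitary or orthogonal, in this problem's sense) in which w is a law has order at most N. -/
theorem result (w : FreeGroup ℕ) (hw : w ≠ 1) :
    ∃ N : ℕ, ∀ (G : Type*) [Group G] [Finite G],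
      (Cfsg.IsAlternating G ∨ Cfsg.IsPSL G ∨ Cfsg.IsPSp G ∨ Cfsg.IsPSU G ∨ Cfsg.IsPOmegaOdd G ∨
          Cfsg.IsPOmegaPlus G ∨ Cfsg.IsPOmegaMinus G) →
      (∀ f : ℕ → G, FreeGroup.lift f w = 1) → Nat.card G ≤ N := by
  classical
  obtain ⟨N0, hN0⟩ := alt_not_isLaw w hw
  have hw' := commWord_ne_one hw
  obtain ⟨N, hN⟩ := alt_not_isLaw _ hw'
  set L := 2 * (twoWord (commWord w)).toWord.length + 4 with hL
  have hB1 : L ≤ L ^ 2 := by nlinarith
  have hB0 : 1 ≤ L ^ 2 := by nlinarith
  refine ⟨max N0.factorial ((L ^ 2) ^ ((2 * (N + 5) + 2) * (2 * (N + 5) + 2))), fun G _ _ hG h => ?_⟩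
  have hl : IsLaw w G := h
  rcases hG with ⟨n, -, ⟨e⟩⟩ | ⟨F, _, _, n, hn, -, ⟨e⟩⟩ | ⟨F, _, _, n, hn, -, ⟨e⟩⟩ |
    ⟨F, _, _, n, q, hF, hn, -, ⟨e⟩⟩ | ⟨F, _, _, n, hn, -, ⟨e⟩⟩ | ⟨F, _, _, n, hn, ⟨e⟩⟩ |
    ⟨F, _, _, n, a, b, hn, -, ⟨e⟩⟩
  · refine le_max_of_le_left ?_
    have h1 : n < N0 := by
      by_contra hc
      exact hN0 n (by omega) (hl.of_injective e.symm.toMonoidHom e.symm.injective)
    rw [Nat.card_congr e.toEquiv]
    refine (Nat.card_le_card_of_injective _ Subtype.val_injective).trans ?_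
    rw [Nat.card_eq_fintype_card, Fintype.card_perm, Fintype.card_fin]
    exact Nat.factorial_le h1.le
  all_goals refine le_max_of_le_right ((card_quot_le e).trans ?_)
  · obtain ⟨h1, h2⟩ := bound_of_sl (F := F) hw' hN hn fun H _ φ hφ _ =>
      (law_of_quot e hl).of_injective φ hφ
    exact card_le_of_inj _ Subtype.val_injective (by simp; omega) (h2.trans hB1) hB0
  · obtain ⟨h1, h2⟩ := bound_of_sl (F := F) hw' hN hn fun H _ φ hφ _ =>
      (law_of_quot e hl).of_injective
        (((hypHom (Fin n) F).codRestrict _ hypHom_mem_sp).comp φ)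
        fun a b hab => hφ (hypHom_injective _ (congrArg Subtype.val hab))
    exact card_le_of_inj _ Subtype.val_injective (by simp; omega) (h2.trans hB1) hB0
  · obtain ⟨h1, h2⟩ := su_bound hw' hN hF (by omega) (law_of_quot e hl)
    refine card_le_of_inj (fun x : Cfsg.SU n F q => x.1.1)
      (fun a b hab => Subtype.ext (Subtype.ext hab)) (by simp; omega) ?_ hB0
    rw [hF]; exact Nat.pow_le_pow_left (by omega) _
  · obtain ⟨h1, h2⟩ := bound_of_sl (F := F) (m := n) hw' hN (by omega)
      (law_orth (Cfsg.quadFormOdd n F)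
        ((blockHom (Equiv.sumComm (Fin n ⊕ Fin n) Unit)).comp (hypHom (Fin n) F))
        ((blockHom_injective _).comp (hypHom_injective _)) (fun A v => by
          have e1 := blockHom_mulVec_inl (Equiv.sumComm (Fin n ⊕ Fin n) Unit) (hypHom (Fin n) F A) v
          have e2 := blockHom_mulVec_inr (Equiv.sumComm (Fin n ⊕ Fin n) Unit) (hypHom (Fin n) F A) v
          simp only [Equiv.sumComm_apply, Sum.swap_inl, Sum.swap_inr] at e1 e2
          simp only [Cfsg.quadFormOdd, MonoidHom.comp_apply, e1, e2, hypHom_quad])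
        (law_of_quot e hl))
    exact card_le_of_inj (fun x : Cfsg.Omega F (Cfsg.quadFormOdd n F) => x.1.1.1)
      (fun a b hab => Subtype.ext (Subtype.ext (Units.ext hab))) (by simp; omega) (h2.trans hB1) hB0
  · obtain ⟨h1, h2⟩ := bound_of_sl (F := F) (m := n) hw' hN (by omega)
      (law_orth (Cfsg.quadFormPlus n F) (hypHom (Fin n) F) (hypHom_injective _)
        (fun A v => hypHom_quad A v) (law_of_quot e hl))
    exact card_le_of_inj (fun x : Cfsg.Omega F (Cfsg.quadFormPlus n F) => x.1.1.1)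
      (fun a b hab => Subtype.ext (Subtype.ext (Units.ext hab))) (by simp; omega) (h2.trans hB1) hB0
  · obtain ⟨h1, h2⟩ := bound_of_sl (F := F) (m := n - 1) hw' hN (by omega)
      (law_orth (Cfsg.quadFormMinus (n - 1) F a b)
        ((blockHom (Equiv.refl ((Fin (n - 1) ⊕ Fin (n - 1)) ⊕ Fin 2))).comp (hypHom (Fin (n - 1)) F))
        ((blockHom_injective _).comp (hypHom_injective _)) (fun A v => by
          have e1 := blockHom_mulVec_inl (Equiv.refl ((Fin (n - 1) ⊕ Fin (n - 1)) ⊕ Fin 2))
            (hypHom (Fin (n - 1)) F A) v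
          have e2 := blockHom_mulVec_inr (Equiv.refl ((Fin (n - 1) ⊕ Fin (n - 1)) ⊕ Fin 2))
            (hypHom (Fin (n - 1)) F A) v
          simp only [Equiv.refl_apply] at e1 e2
          simp only [Cfsg.quadFormMinus, MonoidHom.comp_apply, e1, e2, hypHom_quad])
        (law_of_quot e hl))
    exact card_le_of_inj (fun x : Cfsg.Omega F (Cfsg.quadFormMinus (n - 1) F a b) => x.1.1.1)
      (fun a b hab => Subtype.ext (Subtype.ext (Units.ext hab))) (by simp; omega) (h2.trans hB1) hB0

end Cfsg.Agent.S2355
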