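import Cfsg.Statements.S2359
import Cfsg.Agent.Lib.Ree.Torus
import Cfsg.Agent.Lib.Ree.Twisted

set_option autoImplicit false
open Cfsg

namespace Cfsg.Agent.S2359

open CfsgLib.Ree
open scoped Pointwise

theorem key {G : Type*} [Group G] [Finite G] {T A H : Subgroup G} (h : Tor T A) (hH : IsCyclic H)
    (e : Nat.card H = Nat.card A) (h1 : 1 < Nat.card A) : ∃ g : G,
      Subgroup.centralizer (H : Set G) = MulAut.conj g • T ∧
      ∀ B : Subgroup G, B ≤ H → B ≠ ⊥ → Subgroup.centralizer (B : Set G) = Subgroup.centralizer (H : Set G) := by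
  obtain ⟨g, rfl⟩ := h.exists_conj_eq h.cyclic hH dvd_rfl e
  have h2 := (h.smul g).centralizer_eq le_rfl ((Subgroup.one_lt_card_iff_ne_bot _).1 (e ▸ h1))
  exact ⟨g, h2, fun B h3 h4 => ((h.smul g).centralizer_eq h3 h4).trans h2.symm⟩

/-- Let R be the small Ree group over the field with q = 3^(2m+1) ≥ 27 elements. If H is a cyclic subgroup of R of order (q−1)/2, then the centralizer of H in R is cyclic of order q−1, and every non-trivial subgroup of H has the same centralizer as H. If H is a cyclic subgroup of order (q+1)/4, then the centralizer of H is abelian of order q+1 with no element of order 4 (so it is the direct product of H and a group of order 4 whose non-identity elements all have order 2), and every non-trivial subgroup of H has the same centralizer as H. -/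
theorem result {K : Type*} [Field K] [Fintype K] {m : ℕ} (hm : 1 ≤ m)
    (hK : Fintype.card K = 3 ^ (2 * m + 1)) (H : Subgroup ↥(Cfsg.Lie.twistedG2 K (3 ^ m))) (hH : IsCyclic H) :
    (Nat.card H = (3 ^ (2 * m + 1) - 1) / 2 →
      IsCyclic ↥(Subgroup.centralizer (H : Set ↥(Cfsg.Lie.twistedG2 K (3 ^ m)))) ∧
        Nat.card ↥(Subgroup.centralizer (H : Set ↥(Cfsg.Lie.twistedG2 K (3 ^ m)))) = 3 ^ (2 * m + 1) - 1 ∧
        ∀ A : Subgroup ↥(Cfsg.Lie.twistedG2 K (3 ^ m)), A ≤ H → A ≠ ⊥ →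
          Subgroup.centralizer (A : Set ↥(Cfsg.Lie.twistedG2 K (3 ^ m))) = Subgroup.centralizer (H : Set ↥(Cfsg.Lie.twistedG2 K (3 ^ m)))) ∧
    (Nat.card H = (3 ^ (2 * m + 1) + 1) / 4 →
      IsMulCommutative ↥(Subgroup.centralizer (H : Set ↥(Cfsg.Lie.twistedG2 K (3 ^ m)))) ∧
        Nat.card ↥(Subgroup.centralizer (H : Set ↥(Cfsg.Lie.twistedG2 K (3 ^ m)))) = 3 ^ (2 * m + 1) + 1 ∧
        (∀ x ∈ Subgroup.centralizer (H : Set ↥(Cfsg.Lie.twistedG2 K (3 ^ m))), orderOf x ≠ 4) ∧
        ∀ A : Subgroup ↥(Cfsg.Lie.twistedG2 K (3 ^ m)), A ≤ H → A ≠ ⊥ →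
          Subgroup.centralizer (A : Set ↥(Cfsg.Lie.twistedG2 K (3 ^ m))) = Subgroup.centralizer (H : Set ↥(Cfsg.Lie.twistedG2 K (3 ^ m)))) := by
  have := charP_three hK
  have hφ := isTits_tits hK
  have hq := natCard_eq hK
  have M := reeModel hK
  have h27 : 27 ≤ Nat.card K := by
    rw [hq]
    exact le_trans (by norm_num) (Nat.pow_le_pow_right three_pos (show 3 ≤ 2 * m + 1 by omega))
  refine ⟨fun h => ?_, fun h => ?_⟩
  · obtain ⟨A, hA, hc⟩ := M.exists_tor_H hφ
    obtain ⟨g, h1, h2⟩ := key hA hH (by rw [h, hc, hq]) (by omega)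
    refine ⟨?_, by rw [h1, card_conj_smul, M.card_H, hq], h2⟩
    rw [h1]
    have := M.isCyclic_H
    exact isCyclic_of_surjective ((MulAut.conj g).subgroupMap M.H) ((MulAut.conj g).subgroupMap M.H).surjective
  · obtain ⟨g, h1, h2⟩ := key (M.tor_A hφ) hH (by rw [h, M.card_A, hq]) (by rw [M.card_A]; omega)
    refine ⟨?_, by rw [h1, card_conj_smul, M.card_Tp, hq],
      fun x _ e => M.not_four_dvd_orderOf hφ x (e ▸ dvd_rfl), h2⟩
    rw [h1]
    exact ⟨⟨fun a b => Subtype.ext (((M.tor_A hφ).smul g).comm a a.2 b b.2)⟩⟩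

end Cfsg.Agent.S2359
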