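import Cfsg.Statements.S2385
import Cfsg.Agent.Lib.MatConj.SemiCount
import Cfsg.Agent.S2389

set_option autoImplicit false
open Cfsg

namespace Cfsg.Agent.S2385

open CfsgLib.MatConj CfsgLib.Forms Polynomial

/-- In the symplectic group `Sp_{2n}(q)`, `q` a power of the prime `p`, the number of conjugacy classes of elements of order prime to `p` is `q^n`. -/
theorem result {F : Type*} [Field F] [Fintype F] {q : ℕ} (hq : Fintype.card F = q) (p : ℕ) [Fact p.Prime] [CharP F p] (n : ℕ) :
    Nat.card {c : ConjClasses ↥(Matrix.symplecticGroup (Fin n) F) //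
      ∃ g : ↥(Matrix.symplecticGroup (Fin n) F), ConjClasses.mk g = c ∧ (orderOf g).Coprime p} = q ^ n := by
  rw [card_conjClasses_eq_card_image _
    (fun g : Matrix.symplecticGroup (Fin n) F => g.1.charpoly)
    fun g g' hg hg' => ⟨fun h => charpoly_eq_of_isConj
      ((Matrix.symplecticGroup (Fin n) F).subtype.map_isConj h),
      Cfsg.Agent.S2389.result p _ g g' hg hg'⟩, ← hq, ← Nat.card_eq_fintype_card,
    ← card_palindromic]
  refine Nat.card_congr (Equiv.subtypeEquivRight fun f => ⟨?_, ?_⟩)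
  · rintro ⟨g, -, rfl⟩
    have h1 := det_eq_of_charpoly g.1
    rw [SymplecticGroup.det_eq_one g.2, Fintype.card_sum, Even.neg_one_pow ⟨_, rfl⟩, one_mul] at h1
    refine ⟨Matrix.charpoly_monic _, by simp [two_mul], h1.symm, ?_⟩
    have h2 := edM_recip_of_isometry (spB_nondegenerate (Fin n) F) ((mem_sp_iff _).1 g.2)
    rw [charpoly_eq_prod_edM, tilde_multiset_prod]
    conv_rhs => rw [← h2]
    simp [tilde_pow]
  · rintro ⟨h1, h2, h3, h4⟩
    obtain ⟨A, h5, rfl⟩ := exists_edM_one_charpoly_eq (n := Fin n ⊕ Fin n) h1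
      (by simp [h2, two_mul])
    have h6 : IsUnit A := by
      rw [Matrix.isUnit_iff_isUnit_det, det_eq_of_charpoly, h3]
      simp
    have h7 := card_eq_sum_edM A
    rw [Fintype.card_sum, Fintype.card_fin] at h7
    obtain ⟨g, hg⟩ := (altReal_of_exp_one (edM_valid A) h5
      (map_tilde_edM_of_exp_one (fun _ => rfl) h6 h5 h4) ⟨n, h7.symm⟩
      (by rwa [← charpoly_eq_prod_edM])).exists_sp (m := n) (by omega)
    refine ⟨g, ?_, by rw [charpoly_eq_prod_edM, hg, charpoly_eq_prod_edM]⟩
    rw [← orderOf_submonoid, coprime_orderOf_iff_edM p, hg]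
    · exact h5
    · exact (Matrix.symplecticGroup (Fin n) F).subtype.isOfFinOrder (isOfFinOrder_of_finite g)

end Cfsg.Agent.S2385
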