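import Cfsg.Statements.S2390
import Cfsg.Agent.Lib.MatConj.Unitary

set_option autoImplicit false
open Cfsg

namespace Cfsg.Agent.S2390

open CfsgLib.MatConj

/-- In the special unitary group `SU_n(q)` (inside `SL_n` over the field with `q²` elements), `q` a power of the prime `p`, two elements of order prime to `p` with the same characteristic polynomial are conjugate in `SU_n(q)`. -/
theorem result {F : Type*} [Field F] [Fintype F] {q : ℕ} (hF : Fintype.card F = q ^ 2) (p : ℕ) [Fact p.Prime] [CharP F p] (n : ℕ)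
    (g h : ↥(Cfsg.SU n F q)) (hg : (orderOf g).Coprime p) (hh : (orderOf h).Coprime p)
    (hc : ((g : Matrix.SpecialLinearGroup (Fin n) F) : Matrix (Fin n) (Fin n) F).charpoly =
      ((h : Matrix.SpecialLinearGroup (Fin n) F) : Matrix (Fin n) (Fin n) F).charpoly) : IsConj g h := by
  rcases Nat.eq_zero_or_pos n with rfl | hn
  · rw [Subsingleton.elim g h]
  have : Nonempty (Fin n) := ⟨⟨0, hn⟩⟩
  have h1 : ∀ x : Cfsg.SU n F q,
      ((x : Matrix.SpecialLinearGroup (Fin n) F) : Matrix (Fin n) (Fin n) F) ^ orderOf x = 1 :=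
    fun x => by
      rw [← Matrix.SpecialLinearGroup.coe_pow, ← Subgroup.coe_pow, pow_orderOf_eq_one]
      rfl
  refine isConj_SU_of_isConj hF g h
    (isConj_of_charpoly_eq_of_pow_eq_one (natCast_ne_zero_of_coprime hg)
      (natCast_ne_zero_of_coprime hh) (h1 g) (h1 h) hc) fun ν hν => ?_
  obtain ⟨x, hx⟩ := Multiset.exists_mem_of_ne_zero (edM_ne_zero
    ((g : Matrix.SpecialLinearGroup (Fin n) F) : Matrix (Fin n) (Fin n) F))
  refine ⟨x, hx, ν, hν, ?_⟩
  rw [ed_exp_eq_one (squarefree_X_pow_sub_one (natCast_ne_zero_of_coprime hg))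
    (by rw [aeval_toLin']; simp [h1]) hx, pow_one]

end Cfsg.Agent.S2390
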