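import Cfsg.Statements.S2386
import Cfsg.Agent.Lib.MatConj.SemiCount
import Cfsg.Agent.S2390

set_option autoImplicit false
open Cfsg

namespace Cfsg.Agent.S2386

open CfsgLib.MatConj CfsgLib.Unitary Polynomial

/-- In the special unitary group `SU_n(q)` (matrices of determinant one over the field with `q²` elements preserving the standard Hermitian form), `q` a power of the prime `p`, the number of conjugacy classes of elements of order prime to `p` is `q^(n-1)`. -/
theorem result {F : Type*} [Field F] [Fintype F] {q : ℕ} (hF : Fintype.card F = q ^ 2) (p : ℕ) [Fact p.Prime] [CharP F p] (n : ℕ) (hn : 1 ≤ n) :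
    Nat.card {c : ConjClasses ↥(Cfsg.SU n F q) // ∃ g : ↥(Cfsg.SU n F q), ConjClasses.mk g = c ∧ (orderOf g).Coprime p} = q ^ (n - 1) := by
  let _ := unitaryStar hF
  obtain ⟨k, rfl⟩ : ∃ k, n = k + 1 := ⟨n - 1, by omega⟩
  have h0 := card_tilde_invariant (exists_not_fixed hF) k
  rw [Nat.card_eq_fintype_card (α := F), hF, ← pow_mul, mul_comm, pow_mul] at h0
  rw [card_conjClasses_eq_card_image _
    (fun g : Cfsg.SU (k + 1) F q => g.1.1.charpoly)
    fun g g' hg hg' => ⟨fun h => charpoly_eq_of_isConj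
      (isConj_coe_SL ((Cfsg.SU (k + 1) F q).subtype.map_isConj h)),
      Cfsg.Agent.S2390.result hF p _ g g' hg hg'⟩, Nat.add_sub_cancel,
    ← Nat.pow_left_injective two_ne_zero h0]
  have h4 : ((-1 : F) ^ (k + 1)) * (-1) ^ (k + 1) = 1 := by
    rw [← mul_pow, neg_mul_neg, one_mul, one_pow]
  refine Nat.card_congr (Equiv.subtypeEquivRight fun f => ⟨?_, ?_⟩)
  · rintro ⟨g, -, rfl⟩
    refine ⟨Matrix.charpoly_monic _, by simp, ?_,
      charpoly_tilde_of_unitary ((mem_SU_iff_star hF _).1 g.2)⟩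
    have := g.1.2
    rw [det_eq_of_charpoly, Fintype.card_fin] at this
    exact mul_left_cancel₀ (pow_ne_zero _ (neg_ne_zero.2 one_ne_zero)) (this.trans h4.symm)
  · rintro ⟨h1, h2, h3, h5⟩
    obtain ⟨A, h6, rfl⟩ := exists_edM_one_charpoly_eq (n := Fin (k + 1)) h1 (by simp [h2])
    have h7 : IsUnit A := by
      rw [Matrix.isUnit_iff_isUnit_det, det_eq_of_charpoly, h3]
      simp
    obtain ⟨B, h8, h9⟩ := exists_unitary_of_edM (exists_not_fixed hF) h7
      (map_tilde_edM_of_exp_one star_star h7 h6 h5)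
    let g : Matrix.SpecialLinearGroup (Fin (k + 1)) F := ⟨B, by
      rw [det_eq_of_charpoly, ← charpoly_eq_of_isConj h9, h3, Fintype.card_fin, h4]⟩
    refine ⟨⟨g, (mem_SU_iff_star hF g).2 h8⟩, ?_, (charpoly_eq_of_isConj h9).symm⟩
    rw [Subgroup.orderOf_mk, ← orderOf_injective Matrix.SpecialLinearGroup.coeMonoidHom
      Matrix.SpecialLinearGroup.coeMonoidHom_injective g, coprime_orderOf_iff_edM p]
    · exact isConj_iff_edM.1 h9 ▸ h6
    · exact Matrix.SpecialLinearGroup.coeMonoidHom.isOfFinOrder (isOfFinOrder_of_finite g)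

end Cfsg.Agent.S2386
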