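import Cfsg.Statements.S2387
import Cfsg.Agent.Lib.MatConj.Semi

set_option autoImplicit false
open scoped MatrixGroups
open Cfsg

namespace Cfsg.Agent.S2387

open CfsgLib.MatConj Polynomial

/-- In `GL_n(q)` with `n ≥ 1`, `q` a power of the prime `p`, the number of conjugacy classes of elements of order prime to `p` (diagonalisable over the algebraic closure; determined by the characteristic polynomial) is `(q - 1) q^(n-1)`. -/
theorem result {F : Type*} [Field F] [Fintype F] {q : ℕ} (hq : Fintype.card F = q) (p : ℕ) [Fact p.Prime] [CharP F p] (n : ℕ) (hn : 1 ≤ n) :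
    Nat.card {c : ConjClasses (GL (Fin n) F) // ∃ g : GL (Fin n) F, ConjClasses.mk g = c ∧ (orderOf g).Coprime p} = (q - 1) * q ^ (n - 1) := by
  obtain ⟨k, rfl⟩ : ∃ k, n = k + 1 := ⟨n - 1, by omega⟩
  rw [card_conjClasses_eq_card_image _
    (fun g : GL (Fin (k + 1)) F => (g : Matrix (Fin (k + 1)) (Fin (k + 1)) F).charpoly)
    fun g g' hg hg' => ⟨fun h => charpoly_eq_of_isConj ((isConj_units_iff _ _).1 h),
      isConj_GL_of_charpoly_eq hg hg'⟩]
  have h := card_monic_coeff_zero (F := F) k fun c => c ≠ 0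
  have h2 : Nat.card {c : F // c ≠ 0} = q - 1 := by
    classical
    rw [Nat.card_eq_fintype_card, Fintype.card_subtype_compl, Fintype.card_subtype_eq, hq]
  rw [h2, Nat.card_eq_fintype_card (α := F), hq] at h
  rw [Nat.add_sub_cancel, ← h]
  refine Nat.card_congr (Equiv.subtypeEquivRight fun f => ⟨?_, ?_⟩)
  · rintro ⟨g, -, rfl⟩
    refine ⟨Matrix.charpoly_monic _, by simp, fun h0 => ?_⟩
    have := ((Matrix.isUnit_iff_isUnit_det _).1 g.isUnit).ne_zero
    rw [det_eq_of_charpoly, h0, mul_zero] at this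
    exact this rfl
  · rintro ⟨h1, h2, h3⟩
    exact exists_GL_semisimple_charpoly_eq p h1 (by simpa using h2) h3

end Cfsg.Agent.S2387
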