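import Cfsg.Statements.S2444
import Cfsg.Agent.Lib.Ore.Q2

set_option autoImplicit false
open Cfsg

namespace Cfsg.Agent.S2444

open CfsgLib.Ore Matrix in
theorem of_comm {K : Type*} [Field K] {n : ℕ} (g : SpecialLinearGroup (Fin n) K)
    (h : Comm (toLin' g.1)) : ∃ a b : SpecialLinearGroup (Fin n) K, g = a * b * a⁻¹ * b⁻¹ := by
  obtain ⟨P, A, h1, h2, h3⟩ := h
  obtain ⟨P, rfl⟩ := toLin'.surjective P
  obtain ⟨A, rfl⟩ := toLin'.surjective A
  rw [LinearMap.det_toLin'] at h1 h2
  refine ⟨⟨P, h1⟩, ⟨A, h2⟩, eq_mul_inv_iff_mul_eq.2 (eq_mul_inv_iff_mul_eq.2 ?_)⟩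
  apply Subtype.ext
  apply toLin'.injective
  simp only [Module.End.mul_eq_comp, ← toLin'_mul] at h3
  exact h3

open Matrix in
theorem transfer {K F : Type*} [Field K] [Field F] {n : ℕ} (e : K ≃+* F)
    (h : ∀ g : SpecialLinearGroup (Fin n) K, ∃ a b, g = a * b * a⁻¹ * b⁻¹)
    (g : SpecialLinearGroup (Fin n) F) : ∃ a b, g = a * b * a⁻¹ * b⁻¹ := by
  obtain ⟨a, b, hab⟩ := h (SpecialLinearGroup.map (e.symm : F →+* K) g)
  refine ⟨SpecialLinearGroup.map (e : K →+* F) a, SpecialLinearGroup.map (e : K →+* F) b, ?_⟩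
  rw [← map_inv, ← map_inv, ← map_mul, ← map_mul, ← map_mul, ← hab]
  ext i j
  simp


/-- In the special linear group SL(n,F) over a finite field F, with n ≥ 2 and (n, |F|) not (2,2) or (2,3), every element is a commutator a·b·a⁻¹·b⁻¹ of two elements of SL(n,F). -/
theorem result {F : Type*} [Field F] [Fintype F] (n : ℕ) (hn : 2 ≤ n) (hex : n = 2 → 4 ≤ Fintype.card F) :
    ∀ g : Matrix.SpecialLinearGroup (Fin n) F, ∃ a b : Matrix.SpecialLinearGroup (Fin n) F, g = a * b * a⁻¹ * b⁻¹ := by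
  open CfsgLib.Ore in
  have h1 : 1 < Fintype.card F := Fintype.one_lt_card
  by_cases h2 : Fintype.card F = 2
  · refine transfer (ZMod.ringEquivOfPrime F Nat.prime_two h2) fun g => of_comm g ?_
    exact comm_two n _ _ (by simp) (by omega) (by rw [LinearMap.det_toLin', g.2])
  by_cases h3 : Fintype.card F = 3
  · refine transfer (ZMod.ringEquivOfPrime F Nat.prime_three h3) fun g => of_comm g ?_
    exact comm_three (by simp; omega) (by rw [LinearMap.det_toLin', g.2])
  exact fun g => of_comm g (comm_big (by rw [Nat.card_eq_fintype_card]; omega) (by simpa using hn)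
    (by rw [LinearMap.det_toLin', g.2]))

end Cfsg.Agent.S2444
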