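import Cfsg.Statements.S2445
import Cfsg.Agent.Lib.SpOre.Main

set_option autoImplicit false
open Cfsg

namespace Cfsg.Agent.S2445

open CfsgLib.SpOre Matrix

/-- In the symplectic group Sp(2m,F) over a finite field F (m ≥ 1), other than Sp(2,2), Sp(2,3) and Sp(4,2), every element is a commutator a·b·a⁻¹·b⁻¹ of two elements of Sp(2m,F). -/
theorem result {F : Type*} [Field F] [Fintype F] (m : ℕ) (hm : 1 ≤ m) (h1 : m = 1 → 4 ≤ Fintype.card F)
    (h2 : m = 2 → 3 ≤ Fintype.card F) : ∀ g : Matrix.symplecticGroup (Fin m) F, ∃ a b : Matrix.symplecticGroup (Fin m) F, g = a * b * a⁻¹ * b⁻¹ := by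
  classical
  intro g
  let B : LinearMap.BilinForm F (Fin m ⊕ Fin m → F) := Matrix.toBilin' (J (Fin m) F)
  have hBa : ∀ x y, B x y = x ⬝ᵥ (J (Fin m) F *ᵥ y) := fun x y => Matrix.toBilin'_apply' _ _ _
  have hB : Sy B := by
    refine ⟨fun x => ?_, ?_⟩
    · rw [hBa]
      simp [J, mulVec, dotProduct, Fintype.sum_sum_type, one_apply, mul_comm]
    · exact (Matrix.nondegenerate_of_det_ne_zero (isUnit_det_J (Fin m) F).ne_zero).toBilin'
  have hinv : ∀ a b : symplecticGroup (Fin m) F, a * b = 1 →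
      toLin' a.1 ∘ₗ toLin' b.1 = LinearMap.id := fun a b h => by
    rw [← toLin'_mul, ← Submonoid.coe_mul, h, Submonoid.coe_one, toLin'_one]
  let G : (Fin m ⊕ Fin m → F) ≃ₗ[F] (Fin m ⊕ Fin m → F) := LinearEquiv.ofLinear (toLin' g.1)
    (toLin' (g⁻¹).1) (hinv _ _ (mul_inv_cancel g)) (hinv _ _ (inv_mul_cancel g))
  have hG : ∀ x, G x = g.1 *ᵥ x := fun x => rfl
  have hGi : G ∈ isom B := fun x y => by rw [hBa, hBa, hG, hG, form_of_mem_sp g.2]
  obtain ⟨a, ha, b, hb, hab⟩ := comm_top hB hGi (m := m) (by simp; omega) hm h1 h2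
  have mk : ∀ e ∈ isom B, ∃ A : symplecticGroup (Fin m) F, ∀ x, A.1 *ᵥ x = e x := fun e he => by
    have h : ∀ x, LinearMap.toMatrix' e.toLinearMap *ᵥ x = e x := fun x => by
      rw [← toLin'_apply, toLin'_toMatrix']; rfl
    exact ⟨⟨LinearMap.toMatrix' e.toLinearMap, mem_sp_of_form fun x y => by
      rw [h, h, ← hBa, ← hBa, he]⟩, h⟩
  obtain ⟨A, hA⟩ := mk a ha.1
  obtain ⟨C, hC⟩ := mk b hb.1
  refine ⟨A, C, ?_⟩
  rw [eq_mul_inv_iff_mul_eq, eq_mul_inv_iff_mul_eq]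
  apply Subtype.ext
  apply toLin'.injective
  refine LinearMap.ext fun x => ?_
  simp only [Submonoid.coe_mul, toLin'_apply, ← mulVec_mulVec, hA, hC]
  rw [← hG, hab _ trivial, ← LinearEquiv.mul_apply, ← LinearEquiv.mul_apply,
    ← LinearEquiv.mul_apply]
  congr 1
  group

end Cfsg.Agent.S2445
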