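import Cfsg.Statements.S2446
import Cfsg.Agent.Lib.SuOre.Main

set_option autoImplicit false
open Cfsg

namespace Cfsg.Agent.S2446

open CfsgLib.SuOre CfsgLib.MatConj CfsgLib.Unitary in

/-- In the special unitary group SU(n,q), n ≥ 3, realised over the field F with q² elements as the determinant-one isometries of the standard Hermitian form, and with (n,q) ≠ (3,2), every element is a commutator a·b·a⁻¹·b⁻¹ of two elements of SU(n,q). -/
theorem result {F : Type*} [Field F] [Fintype F] (n q : ℕ) (hn : 3 ≤ n) (hF : Fintype.card F = q ^ 2) (hex : ¬ (n = 3 ∧ q = 2)) :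
    ∀ g : Cfsg.SU n F q, ∃ a b : Cfsg.SU n F q, g = a * b * a⁻¹ * b⁻¹ := by
  intro g
  let := unitaryStar hF
  have hg := (mem_SU_iff_star hF g.1).1 g.2
  obtain ⟨x, a, h1, h2, h3, h4, h5⟩ := ((ok_edM hg).com hF (fun _ => rfl)
    ((dt_edM _).trans g.1.2) (by simpa [wt_edM] using hn) fun h1 h2 => hex ⟨by
      simpa [wt_edM] using h1, (two_le_q hF).antisymm' (by
        rw [← card_fixed hF, ← Set.ncard_pair (zero_ne_one' F)]
        exact Set.ncard_le_ncard (s := {x : F | x ^ q = x}) h2)⟩).elim (exists_not_fixed hF) hg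
  refine ⟨⟨⟨x, h3⟩, (mem_SU_iff_star hF _).2 h1⟩, ⟨⟨a, h4⟩, (mem_SU_iff_star hF _).2 h2⟩, ?_⟩
  rw [eq_mul_inv_iff_mul_eq, eq_mul_inv_iff_mul_eq]
  exact Subtype.ext (Subtype.ext h5)

end Cfsg.Agent.S2446
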