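import Cfsg.Statements.S2447
import Cfsg.Agent.Lib.OmOre.Main

set_option autoImplicit false
open Cfsg

namespace Cfsg.Agent.S2447

/-- Let F be a finite field of odd order and n ≥ 3, and let Ω(2n+1,F) be the commutator subgroup of the orthogonal group of the non-singular quadratic form x₀² + Σ xᵢyᵢ in dimension 2n+1. Then every element of Ω(2n+1,F) is a commutator a·b·a⁻¹·b⁻¹ of two elements of Ω(2n+1,F). -/
theorem result {F : Type*} [Field F] [Fintype F] (hodd : Odd (Fintype.card F)) (n : ℕ) (hn : 3 ≤ n) :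
    ∀ g : Cfsg.Omega F (Cfsg.quadFormOdd n F), ∃ a b : Cfsg.Omega F (Cfsg.quadFormOdd n F), g = a * b * a⁻¹ * b⁻¹ := by
  intro g
  have h2 := CfsgLib.Orth.two_ne_zero_of_odd_card hodd
  have hg := (CfsgLib.Orth.mem_Omega_iff (CfsgLib.Orth.qOdd n F) g.1).1 g.2
  have hd : Module.finrank F (Unit ⊕ (Fin n ⊕ Fin n) → F) = 2 * n + 1 := by
    simp; omega
  obtain ⟨a, ha, b, hb, h⟩ := CfsgLib.OmOre.comm_omega (CfsgLib.Orth.qOdd_nondegenerate h2 n) h2
    (by omega) (by rw [hd]; exact odd_two_mul_add_one n) hg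
  let e := CfsgLib.Orth.toOG (CfsgLib.Orth.qOdd n F)
  refine ⟨⟨e.symm a, (CfsgLib.Orth.mem_Omega_iff (CfsgLib.Orth.qOdd n F) _).2 (by simpa [e] using ha)⟩,
    ⟨e.symm b, (CfsgLib.Orth.mem_Omega_iff (CfsgLib.Orth.qOdd n F) _).2 (by simpa [e] using hb)⟩,
    Subtype.ext (e.injective ?_)⟩
  change e g.1 = e (e.symm a * e.symm b * (e.symm a)⁻¹ * (e.symm b)⁻¹)
  simp only [map_mul, map_inv, MulEquiv.apply_symm_apply]
  exact h

end Cfsg.Agent.S2447
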