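import Cfsg.Statements.S2448
import Cfsg.Agent.Lib.OmOre.C2e

set_option autoImplicit false
open Cfsg

namespace Cfsg.Agent.S2448

/-- Let F be a finite field and n ≥ 4, and let Ω⁺(2n,F) be the commutator subgroup of the orthogonal group of the quadratic form Σ xᵢyᵢ (n hyperbolic planes). Then every element of Ω⁺(2n,F) is a commutator a·b·a⁻¹·b⁻¹ of two elements of Ω⁺(2n,F). -/
theorem result {F : Type*} [Field F] [Fintype F] (n : ℕ) (hn : 4 ≤ n) : ∀ g : Cfsg.Omega F (Cfsg.quadFormPlus n F), ∃ a b : Cfsg.Omega F (Cfsg.quadFormPlus n F), g = a * b * a⁻¹ * b⁻¹ := by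
  intro g
  have hg := (CfsgLib.Orth.mem_Omega_iff (CfsgLib.Orth.qPlus n F) g.1).1 g.2
  have hd : Module.finrank F (Fin n ⊕ Fin n → F) = 2 * n := by
    simp; omega
  obtain ⟨x, hx, y, hy, h⟩ := CfsgLib.OmOre.comm_omega_all (CfsgLib.Orth.qPlus_nondegenerate n)
    (by omega) (by rw [hd]; exact even_two_mul n) hg
  let e := CfsgLib.Orth.toOG (CfsgLib.Orth.qPlus n F)
  refine ⟨⟨e.symm x, (CfsgLib.Orth.mem_Omega_iff (CfsgLib.Orth.qPlus n F) _).2 (by simpa [e] using hx)⟩,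
    ⟨e.symm y, (CfsgLib.Orth.mem_Omega_iff (CfsgLib.Orth.qPlus n F) _).2 (by simpa [e] using hy)⟩,
    Subtype.ext (e.injective ?_)⟩
  change e g.1 = e (e.symm x * e.symm y * (e.symm x)⁻¹ * (e.symm y)⁻¹)
  simp only [map_mul, map_inv, MulEquiv.apply_symm_apply]
  exact h

end Cfsg.Agent.S2448
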