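import Cfsg.Statements.S2450
import Cfsg.Agent.Lib.Spec.ClassProd2

set_option autoImplicit false
open Cfsg

namespace Cfsg.Agent.S2450

open CfsgLib.Spec CfsgLib.SL2


/-- The Arad–Herzog conjecture for PSL(2,q): let F be a finite field with q ≥ 4 elements. For any two non-identity elements a, b of PSL(2,F), the set of products of a conjugate of a with a conjugate of b is not a single conjugacy class. -/
theorem result {F : Type*} [Field F] [Fintype F] (h4 : 4 ≤ Fintype.card F)
    (a b : Matrix.ProjectiveSpecialLinearGroup (Fin 2) F) (ha : a ≠ 1) (hb : b ≠ 1) (c : Matrix.ProjectiveSpecialLinearGroup (Fin 2) F) :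
    {g : Matrix.ProjectiveSpecialLinearGroup (Fin 2) F | ∃ u v : Matrix.ProjectiveSpecialLinearGroup (Fin 2) F, g = (u * a * u⁻¹) * (v * b * v⁻¹)} ≠ {g | IsConj c g} := by
  classical
  intro H
  obtain ⟨A0, rfl⟩ := pm_surjective a
  obtain ⟨B0, rfl⟩ := pm_surjective b
  obtain ⟨C, rfl⟩ := pm_surjective c
  obtain ⟨x, hx⟩ := exists_conj_10 (g := A0) fun h => ha (pm_eq_one_iff.2 h)
  obtain ⟨y, hy⟩ := exists_conj_10 (g := B0) fun h => hb (pm_eq_one_iff.2 h)
  set A := x⁻¹ * A0 * x with hA
  set B := y⁻¹ * B0 * y with hB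
  have key : ∀ s : F, tr (A * (uu s * B * (uu s)⁻¹)) = tr C ∨ tr (A * (uu s * B * (uu s)⁻¹)) = - tr C := by
    intro s
    have hm : pm (A * (uu s * B * (uu s)⁻¹)) ∈ {g | IsConj (pm C) g} := by
      rw [← H]
      refine ⟨pm x⁻¹, pm (uu s * y⁻¹), ?_⟩
      simp only [← map_mul, ← map_inv, hA, hB]
      congr 1
      group
    obtain ⟨k, hk⟩ := isConj_iff.1 hm
    obtain ⟨k, rfl⟩ := pm_surjective k
    rw [← map_inv, ← map_mul, ← map_mul, pm_eq_iff] at hk
    rcases hk with hk | hk
    · left; rw [← hk, tr_conj]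
    · right
      have := congrArg tr hk
      rw [tr_conj, tr_neg] at this
      rw [this, neg_neg]
  let P : F → Polynomial F := fun e => Polynomial.C (-(A 1 0 * B 1 0)) * Polynomial.X ^ 2 +
    Polynomial.C (A 0 0 * B 1 0 + A 1 0 * (B 1 1 - B 0 0) - A 1 1 * B 1 0) * Polynomial.X +
    Polynomial.C (tr (A * B) - e)
  have hlead : -(A 1 0 * B 1 0) ≠ 0 := neg_ne_zero.2 (mul_ne_zero hx hy)
  have hdeg : ∀ e, (P e).natDegree = 2 := fun e => Polynomial.natDegree_quadratic hlead
  have hP0 : ∀ e, P e ≠ 0 := fun e h => by have := hdeg e; rw [h] at this; simp at this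
  have hev : ∀ e s, (P e).eval s = tr (A * (uu s * B * (uu s)⁻¹)) - e := by
    intro e s
    rw [← uu_neg]
    simp only [P, tr_def, mul_ap]
    simp
    ring
  have hcard : ∀ Q : Polynomial F, Q ≠ 0 → (∀ s, Q.eval s = 0) → Fintype.card F ≤ Q.natDegree := by
    intro Q hQ h
    by_contra hlt
    exact hQ (Polynomial.eq_zero_of_natDegree_lt_card_of_eval_eq_zero Q Function.injective_id h
      (by omega))
  by_cases h2 : (2 : F) = 0
  · have := hcard (P (tr C)) (hP0 _) fun s => by
      rw [hev]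
      rcases key s with h | h
      · rw [h, sub_self]
      · rw [h]; linear_combination -(tr C) * h2
    rw [hdeg] at this; omega
  · have := hcard (P (tr C) * P (-tr C)) (mul_ne_zero (hP0 _) (hP0 _)) fun s => by
      rw [Polynomial.eval_mul, hev, hev]
      rcases key s with h | h <;> rw [h] <;> ring
    rw [Polynomial.natDegree_mul (hP0 _) (hP0 _), hdeg, hdeg] at this
    exact h2 (two_eq_zero_of_even (by rw [show Fintype.card F = 4 by omega]; decide))

end Cfsg.Agent.S2450
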