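import Cfsg.Statements.S2455
import Cfsg.Agent.Lib.Spec.ClassProd2

set_option autoImplicit false
open Cfsg

namespace Cfsg.Agent.S2455

open CfsgLib.Spec CfsgLib.SL2


/-- A strong covering result in the direction of Thompson's conjecture (non-identity elements) for PSL(2,q), q odd: let F be a finite field of odd characteristic p with at least 5 elements and let x ∈ PSL(2,F) have order greater than 2 and not divisible by p (so x is not unipotent). Then every non-identity element of PSL(2,F) is a product of two conjugates of x. -/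
theorem result {F : Type*} [Field F] [Fintype F] (p : ℕ) [Fact p.Prime] [CharP F p] (hp : p ≠ 2) (h5 : 5 ≤ Fintype.card F)
    (x : Matrix.ProjectiveSpecialLinearGroup (Fin 2) F) (hx2 : 2 < orderOf x) (hxp : ¬ p ∣ orderOf x) : ∀ g : Matrix.ProjectiveSpecialLinearGroup (Fin 2) F, g ≠ 1 → ∃ u v : Matrix.ProjectiveSpecialLinearGroup (Fin 2) F, g = (u * x * u⁻¹) * (v * x * v⁻¹) := by
  classical
  obtain ⟨X, rfl⟩ := pm_surjective x
  have h2 : (2 : F) ≠ 0 := by
    intro h
    have := (CharP.cast_eq_zero_iff F p 2).1 (by exact_mod_cast h)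
    exact hp ((Nat.prime_dvd_prime_iff_eq Fact.out Nat.prime_two).1 this)
  have ht : tr X ^ 2 ≠ 4 := by
    intro h
    rcases orderOf_pm_unip p h with e | e
    · omega
    · exact hxp (e ▸ dvd_rfl)
  have ht0 : tr X ≠ 0 := fun h => by have := orderOf_pm_le_two h; omega
  refine psl2_cover ht fun b hb => ?_
  set t := tr X
  have hz : 2 * t / b ≠ 0 := div_ne_zero (mul_ne_zero h2 ht0) hb
  let A : Matrix.SpecialLinearGroup (Fin 2) F := mk2 0 (-(2 * t / b)⁻¹) (2 * t / b) t (by field_simp; ring)
  refine ⟨A, -(A⁻¹ * uu b), ?_, ?_, ?_⟩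
  · rw [tr_def]; simp [A]
  · rw [tr_neg, tr_def, mul_ap, mul_ap, inv_00, inv_01, inv_10, inv_11]
    simp [A]; field_simp; ring
  · rw [mul_neg, pm_neg, mul_inv_cancel_left]

end Cfsg.Agent.S2455
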