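import Cfsg.Statements.S2456
import Cfsg.Agent.Lib.Spec.ClassProd2

set_option autoImplicit false
open Cfsg

namespace Cfsg.Agent.S2456

open CfsgLib.Spec CfsgLib.SL2


/-- A strong covering result in the direction of Thompson's conjecture (non-identity elements) for PSL(2,q), q even: let F be a finite field of characteristic 2 with q ≥ 4 elements and let x ∈ PSL(2,F) have order greater than 2 and not dividing q + 1. Then every non-identity element of PSL(2,F) is a product of two conjugates of x. -/
theorem result {F : Type*} [Field F] [Fintype F] [CharP F 2] (h4 : 4 ≤ Fintype.card F)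
    (x : Matrix.ProjectiveSpecialLinearGroup (Fin 2) F) (hx2 : 2 < orderOf x) (hxq : ¬ orderOf x ∣ Fintype.card F + 1) : ∀ g : Matrix.ProjectiveSpecialLinearGroup (Fin 2) F, g ≠ 1 → ∃ u v : Matrix.ProjectiveSpecialLinearGroup (Fin 2) F, g = (u * x * u⁻¹) * (v * x * v⁻¹) := by
  classical
  haveI : Fact (Nat.Prime 2) := ⟨Nat.prime_two⟩
  obtain ⟨X, rfl⟩ := pm_surjective x
  have h2 : (2 : F) = 0 := by exact_mod_cast CharP.cast_eq_zero F 2
  have ht : tr X ^ 2 ≠ 4 := by
    intro h
    rcases orderOf_pm_unip 2 h with e | e <;> omega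
  have hE : ¬ NoEig X := by
    intro h
    apply hxq
    rw [← h.card_centralizer]
    refine (orderOf_map_dvd _ X).trans ?_
    exact Subgroup.orderOf_dvd_natCard _ (Subgroup.mem_centralizer_singleton_iff.2 rfl)
  rw [noEig_iff] at hE
  push Not at hE
  obtain ⟨a, ha⟩ := hE
  have ha0 : a ≠ 0 := by rintro rfl; simp at ha
  refine psl2_cover ht fun b hb => ?_
  have htr : tr X = a + a⁻¹ := by field_simp; linear_combination -ha
  refine ⟨dg (Units.mk0 a ha0), (dg (Units.mk0 a ha0))⁻¹ * uu b, ?_, ?_, ?_⟩
  · rw [tr_dg, htr]; simp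
  · rw [tr_def, mul_ap, mul_ap, inv_00, inv_01, inv_10, inv_11, htr]
    simp [add_comm]
  · rw [mul_inv_cancel_left]

end Cfsg.Agent.S2456
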