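import Cfsg.Statements.S2459
import Cfsg.Agent.Lib.Spec.ClassProd3

set_option autoImplicit false
open Cfsg

namespace Cfsg.Agent.S2459

open CfsgLib.Spec


/-- A form of Thompson's conjecture for PSL(3,q), q > 2 (covering the non-identity elements), with a semisimple class: for F a finite field of characteristic p with more than 2 elements there is an element x of PSL(3,F) of order prime to p such that every non-identity element of PSL(3,F) is a product of two conjugates of x. -/
theorem result {F : Type*} [Field F] [Fintype F] (p : ℕ) [Fact p.Prime] [CharP F p] (h3 : 3 ≤ Fintype.card F) :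
    ∃ x : Matrix.ProjectiveSpecialLinearGroup (Fin 3) F, ¬ p ∣ orderOf x ∧ ∀ g : Matrix.ProjectiveSpecialLinearGroup (Fin 3) F, g ≠ 1 → ∃ u v : Matrix.ProjectiveSpecialLinearGroup (Fin 3) F, g = (u * x * u⁻¹) * (v * x * v⁻¹) := by
  obtain ⟨x, hx, H⟩ := exists_sl3_cover (F := F) p h3
  refine ⟨QuotientGroup.mk' _ x, fun h => ?_, fun g hg => ?_⟩
  · have := h.trans (orderOf_map_dvd _ x)
    exact (Nat.Prime.one_lt Fact.out).ne' (Nat.Coprime.eq_one_of_dvd hx.symm this)
  · obtain ⟨g, rfl⟩ := QuotientGroup.mk'_surjective _ g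
    obtain ⟨u, v, h⟩ := H g fun c hc => hg (by
      rw [QuotientGroup.mk'_apply, QuotientGroup.eq_one_iff, Subgroup.mem_center_iff]
      intro y
      apply Subtype.ext
      simp [hc])
    exact ⟨QuotientGroup.mk' _ u, QuotientGroup.mk' _ v, by rw [h]; simp⟩

end Cfsg.Agent.S2459
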