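import Cfsg.Statements.S2460
import Cfsg.Agent.Lib.SpTh.Final

set_option autoImplicit false
open Cfsg

namespace Cfsg.Agent.S2460

open CfsgLib.SpTh

/-- A form of Thompson's conjecture for the simple groups PSp(4,q), q ≥ 3 (covering the non-identity elements), with a semisimple class: for F a finite field of characteristic p with at least 3 elements there is an element x of PSp(4,F) of order prime to p such that every non-identity element of PSp(4,F) is a product of two conjugates of x. -/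
theorem result {F : Type*} [Field F] [Fintype F] (p : ℕ) [Fact p.Prime] [CharP F p] (h3 : 3 ≤ Fintype.card F) :
    ∃ x : Cfsg.PSp 2 F, ¬ p ∣ orderOf x ∧ ∀ g : Cfsg.PSp 2 F, g ≠ 1 → ∃ u v : Cfsg.PSp 2 F, g = (u * x * u⁻¹) * (v * x * v⁻¹) := by
  obtain ⟨τ, d, A, hA, h1, H⟩ := exists_class h3
  refine ⟨QuotientGroup.mk' _ (levi A), fun h => not_dvd_orderOf p hA h1 (orderOf_pos A)
    (h.trans ((orderOf_map_dvd _ _).trans (orderOf_map_dvd _ _))), fun g hg => ?_⟩
  obtain ⟨g, rfl⟩ := QuotientGroup.mk'_surjective _ g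
  obtain ⟨y, z, hy, hz, w, hw, e⟩ := H g fun h => hg ((QuotientGroup.eq_one_iff _).2 h)
  obtain ⟨u, rfl⟩ := isConj_iff.1 hy
  obtain ⟨v, rfl⟩ := isConj_iff.1 hz
  refine ⟨QuotientGroup.mk' _ u, QuotientGroup.mk' _ v, ?_⟩
  simp only [← map_mul, ← map_inv, ← e]
  rw [map_mul, show QuotientGroup.mk' _ w = 1 from (QuotientGroup.eq_one_iff _).2 hw, mul_one]

end Cfsg.Agent.S2460
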