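import Cfsg.Statements.S2467
import Cfsg.Agent.Lib.Spec.AltSpectrum

set_option autoImplicit false
open Cfsg

namespace Cfsg.Agent.S2467

/-- Adjacency of 2 and an odd prime in the prime graph of the alternating groups: let r be an odd prime at most n, with n ≥ 4. The alternating group of degree n has an element of order 2r if and only if r + 4 ≤ n. -/
theorem result (n r : ℕ) (hn : 4 ≤ n) (hr : r.Prime) (hr2 : r ≠ 2) (hrn : r ≤ n) :
    (2 * r ∈ Set.range (orderOf : alternatingGroup (Fin n) → ℕ)) ↔ r + 4 ≤ n := by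
  rw [CfsgLib.Spec.mem_spectrum_alt_iff]
  have hr3 : 3 ≤ r := by have := hr.two_le; omega
  have hro : Odd r := hr.odd_of_ne_two hr2
  have hcop : Nat.Coprime 2 r := (Nat.coprime_primes Nat.prime_two hr).2 hr2.symm
  constructor
  · rintro ⟨m, h1, h2, h3, h4⟩
    obtain ⟨a, ha, h2a⟩ := CfsgLib.Spec.exists_mem_of_prime_dvd_lcm Nat.prime_two m (h4 ▸ dvd_mul_right 2 r)
    obtain ⟨c, hc, hrc⟩ := CfsgLib.Spec.exists_mem_of_prime_dvd_lcm hr m (h4 ▸ dvd_mul_left r 2)
    obtain ⟨m', rfl⟩ := Multiset.exists_cons_of_mem ha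
    have hex : ∃ b ∈ m', 2 ∣ b := by
      by_contra hcon
      push Not at hcon
      have h5 := CfsgLib.Spec.even_sum_add_card_of_forall_odd m'
        (fun b hb => by have := hcon b hb; rw [Nat.odd_iff]; omega)
      rw [Multiset.sum_cons, Multiset.card_cons] at h3
      rw [Nat.even_iff] at h3 h5
      omega
    obtain ⟨b, hb, h2b⟩ := hex
    obtain ⟨m'', rfl⟩ := Multiset.exists_cons_of_mem hb
    have ha2 := h2 a ha
    have hb2 := h2 b (by simp)
    have hc2 := h2 c hc
    simp only [Multiset.sum_cons] at h1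
    rcases Multiset.mem_cons.1 hc with rfl | hc
    · have : 2 * r ≤ c := Nat.le_of_dvd (by omega) (hcop.mul_dvd_of_dvd_of_dvd h2a hrc)
      omega
    rcases Multiset.mem_cons.1 hc with rfl | hc
    · have : 2 * r ≤ c := Nat.le_of_dvd (by omega) (hcop.mul_dvd_of_dvd_of_dvd h2b hrc)
      omega
    have h6 : c ≤ m''.sum := Multiset.single_le_sum (fun _ _ => Nat.zero_le _) c hc
    have h7 : r ≤ c := Nat.le_of_dvd (by omega) hrc
    omega
  · intro h
    refine ⟨{2, 2, r}, by simp; omega, ?_, ?_, ?_⟩
    · intro a ha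
      simp only [Multiset.insert_eq_cons, Multiset.mem_cons, Multiset.mem_singleton] at ha
      rcases ha with rfl | rfl | rfl <;> omega
    · rw [Nat.odd_iff] at hro
      simp only [Multiset.insert_eq_cons, Multiset.sum_cons, Multiset.sum_singleton, Multiset.card_cons,
        Multiset.card_singleton]
      rw [Nat.even_iff]
      omega
    · simp only [Multiset.insert_eq_cons, Multiset.lcm_cons, Multiset.lcm_singleton, normalize_eq]
      change Nat.lcm 2 (Nat.lcm 2 r) = _
      rw [← Nat.lcm_assoc, Nat.lcm_self]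
      exact hcop.lcm_eq_mul

end Cfsg.Agent.S2467
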