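import Cfsg.Statements.S2471
import Cfsg.Agent.Lib.Spec.Small

set_option autoImplicit false
open Cfsg

namespace Cfsg.Agent.S2471

/-- In PSL(2,q) with q odd, the characteristic p is isolated from 2 in the prime graph: for F a finite field of odd characteristic p with at least 5 elements, PSL(2,F) has no element of order 2p. -/
theorem result {F : Type*} [Field F] [Fintype F] (p : ℕ) [Fact p.Prime] [CharP F p] (hp : p ≠ 2) (h5 : 5 ≤ Fintype.card F) (g : Matrix.ProjectiveSpecialLinearGroup (Fin 2) F) :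
    orderOf g ≠ 2 * p := by
  intro h
  have hp' : p.Prime := Fact.out
  have h1 : 2 * p ∈ Set.range (orderOf : Matrix.ProjectiveSpecialLinearGroup (Fin 2) F → ℕ) := ⟨g, h⟩
  have h2 := CfsgLib.Spec.char_dvd_card F p
  have h3 : ¬ p ∣ 1 := by simpa using hp'.one_lt.ne'
  have h4 : Nat.gcd 2 (Fintype.card F - 1) ∣ Fintype.card F + 1 := by
    rw [show Fintype.card F + 1 = Fintype.card F - 1 + 2 by omega]
    exact dvd_add (Nat.gcd_dvd_right _ _) (Nat.gcd_dvd_left _ _)
  rw [CfsgLib.Spec.spectrum_psl_two p] at h1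
  rcases h1 with h1 | h1 | h1
  · have := Nat.le_of_dvd hp'.pos h1
    have := hp'.pos
    omega
  · have h5 := ((dvd_mul_left p 2).trans h1).trans (Nat.div_dvd_of_dvd (Nat.gcd_dvd_right _ _))
    have h6 := Nat.dvd_sub h2 h5
    rw [Nat.sub_sub_self (by omega)] at h6
    exact h3 h6
  · have h5 := ((dvd_mul_left p 2).trans h1).trans (Nat.div_dvd_of_dvd h4)
    exact h3 ((Nat.dvd_add_right h2).1 h5)

end Cfsg.Agent.S2471
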