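import Cfsg.Statements.S2474
import Cfsg.Agent.Lib.Spec.BvsC

set_option autoImplicit false
open Cfsg

namespace Cfsg.Agent.S2474

open CfsgLib.Spec


/-- For q odd and n ≥ 3 the simple groups PΩ(2n+1,q) and PSp(2n,q) (which have the same order but different sets of element orders) have the same prime graph: for all distinct primes r, s, one of them has an element of order r·s if and only if the other does. -/
theorem result {F : Type*} [Field F] [Fintype F] (hodd : Odd (Fintype.card F)) (n : ℕ) (hn : 3 ≤ n) (r s : ℕ) (hr : r.Prime) (hs : s.Prime) (hrs : r ≠ s) :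
    (r * s ∈ Set.range (orderOf : Cfsg.POmega F (Cfsg.quadFormOdd n F) → ℕ)) ↔ (r * s ∈ Set.range (orderOf : Cfsg.PSp n F → ℕ)) := by
  classical
  obtain ⟨p, hp⟩ := CharP.exists F
  haveI := Fact.mk (CharP.char_is_prime F p)
  have hp : p.Prime := Fact.out
  let K := AlgebraicClosure F
  haveI : CharP K p := charP_of_injective_algebraMap (algebraMap F K).injective p
  have hpq := char_dvd_card F p
  have h := oddFrob_card K hodd
  have hB := spectrum_pomega_odd K p hodd (n := n) (by omega)
  have hC := spectrum_psp_eq K p (F := F) n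
  have hp2 : Odd p := hodd.of_dvd_nat hpq
  have key : ∀ s : ℕ, s.Prime → s ≠ 2 →
      (2 * s ∈ Set.range (orderOf : Cfsg.POmega F (Cfsg.quadFormOdd n F) → ℕ) ↔
        2 * s ∈ Set.range (orderOf : Cfsg.PSp n F → ℕ)) := by
    intro s hs hs2
    have hs' : Odd s := hs.eq_two_or_odd'.resolve_left hs2
    have hp2' : p ≠ 2 := by rintro rfl; exact absurd hp2 (by decide)
    by_cases hsp : s = p
    · subst hsp
      obtain ⟨N, hN, h1⟩ := exists_omegaB_two_mul_char (K := K) h (n := n) (by omega) hs'
      obtain ⟨N', hN', h2, h3⟩ := exists_mem_omegaSp_two_mul (K := K) (p := s) h.inj h.odd h.ne (n := n) (by omega)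
        (j := 1) (Or.inr (by simp; omega))
      exact iff_of_true (mem_spectrum_of_dvd (hB ▸ hN) h1) (mem_spectrum_of_dvd (hC ▸ hN')
        ((Odd.coprime_two_left hs').mul_dvd_of_dvd_of_dvd h3 (by simpa using h2)))
    · constructor
      · intro h1
        obtain ⟨N, hN, h2⟩ := exists_omegaSp_of_twoAdj (K := K) hpq h (by omega) hs'
          (twoAdj_of_omegaB hp h (hB ▸ h1) hs hs2 hsp hp2' dvd_rfl)
        exact mem_spectrum_of_dvd (hC ▸ hN) h2
      · intro h1
        obtain ⟨N, hN, h2⟩ := exists_omegaB_of_twoAdj (K := K) hpq h (by omega) hs'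
          (twoAdj_of_omegaSp hp h (hC ▸ h1) hs hs2 hsp hp2' dvd_rfl)
        exact mem_spectrum_of_dvd (hB ▸ hN) h2
  by_cases hr2 : r = 2
  · subst hr2
    exact key s hs hrs.symm
  by_cases hs2 : s = 2
  · subst hs2
    rw [mul_comm]
    exact key r hr hr2
  have h1 : Odd (r * s) := (hr.eq_two_or_odd'.resolve_left hr2).mul (hs.eq_two_or_odd'.resolve_left hs2)
  constructor
  · intro h2
    obtain ⟨N, hN, -, h3⟩ := exists_omegaSp_of_mem_omegaB (hB ▸ h2)
    exact mem_spectrum_of_dvd (hC ▸ hN) ((Odd.coprime_two_right h1).dvd_of_dvd_mul_left h3)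
  · intro h2
    exact hB ▸ mem_omegaB_of_odd h (hC ▸ h2) h1

end Cfsg.Agent.S2474
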