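import Cfsg.Statements.S2478
import Cfsg.Agent.Lib.MatConj.PolyData
import Cfsg.Agent.S2387

set_option autoImplicit false
open Cfsg

namespace Cfsg.Agent.S2478

open CfsgLib.MatConj

/-- The number of conjugacy classes of GL(n,q): for F a finite field with q elements and n ≥ 1, the number k of conjugacy classes of GL(n,F) satisfies q^n − q^(n−1) ≤ k ≤ q^n. -/
theorem result {F : Type*} [Field F] [Fintype F] (n : ℕ) (hn : 1 ≤ n) :
    Fintype.card F ^ n - Fintype.card F ^ (n - 1) ≤ Nat.card (ConjClasses (Matrix.GeneralLinearGroup (Fin n) F)) ∧ Nat.card (ConjClasses (Matrix.GeneralLinearGroup (Fin n) F)) ≤ Fintype.card F ^ n := by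
  obtain ⟨p, _, k, hp, -⟩ := FiniteField.card' F
  have := Fact.mk hp
  constructor
  · refine le_of_eq_of_le ?_ ((Cfsg.Agent.S2387.result rfl p n hn).symm.trans_le
      (card_classes_le_conjClasses _))
    rw [Nat.sub_mul, one_mul, ← pow_succ', Nat.sub_add_cancel hn]
  · have h1 := card_classes_le_sum (G := GL (Fin n) F) (fun _ => True) (fun g => matD n g.val) _
      (fun g _ => matD_mem_famD (P := fun _ f => f.coeff 0 ≠ 0) (Fintype.card_fin n).le
        (matD_coeff_zero_ne_zero n g.isUnit)) (fun _ => 1) fun b _ => by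
      refine Nat.cast_le_one.2 (card_classes_le_one fun g g' h h' => (isConj_units_iff _ _).2 ?_)
      exact (matD_eq_iff (Fintype.card_fin n).le).1 (h.2.trans h'.2.symm)
    rw [← card_conjClasses_eq, Finset.sum_const, nsmul_eq_mul, mul_one] at h1
    have h2 := (h1.trans (card_famD_le _ _ (fun _ => gfS_GL_le _) _)).trans
      (coeff_prod_hGL_le' (Nat.one_le_cast.2 Nat.card_pos) _ _)
    rw [Fintype.card_fin, Nat.card_eq_fintype_card (α := F)] at h2
    exact_mod_cast h2

end Cfsg.Agent.S2478
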