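import Cfsg.Statements.S2481
import Cfsg.Agent.Lib.MatConj.ClassBound
import Cfsg.Agent.S2386

set_option autoImplicit false
open Cfsg

namespace Cfsg.Agent.S2481

open CfsgLib.MatConj

/-- The number of conjugacy classes of SU(n,q): for n ≥ 2, q a prime power and F the field with q² elements, the number k of conjugacy classes of SU(n,q) (the determinant-one isometries of the standard Hermitian form on F^n) satisfies q^(n−1) ≤ k ≤ 8.26·q^(n−1). -/
theorem result {F : Type*} [Field F] [Fintype F] (n q : ℕ) (hn : 2 ≤ n) (hF : Fintype.card F = q ^ 2) :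
    q ^ (n - 1) ≤ Nat.card (ConjClasses (Cfsg.SU n F q)) ∧ 100 * Nat.card (ConjClasses (Cfsg.SU n F q)) ≤ 826 * q ^ (n - 1) := by
  have hq : 2 ≤ q := by
    have := Fintype.one_lt_card (α := F)
    by_contra h
    obtain rfl | rfl : q = 0 ∨ q = 1 := by omega
    all_goals omega
  refine ⟨?_, card_classes_SU_le hq hF hn⟩
  obtain ⟨p, hp, -⟩ := FiniteField.card' F
  have : Fact p.Prime := ⟨CharP.char_is_prime F p⟩
  rw [← S2386.result hF p n (one_le_two.trans hn)]
  exact card_classes_le_conjClasses _

end Cfsg.Agent.S2481
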