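import Cfsg.Statements.S2482
import Cfsg.Agent.Lib.MatConj.WallCount
import Cfsg.Agent.S2385

set_option autoImplicit false
open Cfsg

namespace Cfsg.Agent.S2482

open CfsgLib.MatConj

/-- The number of conjugacy classes of Sp(2n,q), q odd: for F a finite field of odd order q and n ≥ 1, the number k of conjugacy classes of Sp(2n,F) satisfies q^n ≤ k ≤ 10.8·q^n. -/
theorem result {F : Type*} [Field F] [Fintype F] (hodd : Odd (Fintype.card F)) (n : ℕ) (hn : 1 ≤ n) :
    Fintype.card F ^ n ≤ Nat.card (ConjClasses (Matrix.symplecticGroup (Fin n) F)) ∧ 5 * Nat.card (ConjClasses (Matrix.symplecticGroup (Fin n) F)) ≤ 54 * Fintype.card F ^ n := by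
  obtain ⟨p, hp, -⟩ := FiniteField.card' F
  have : Fact p.Prime := ⟨CharP.char_is_prime F p⟩
  refine ⟨S2385.result (F := F) rfl p n ▸ card_classes_le_conjClasses _, ?_⟩
  have h := (isoGrp_sp (F := F) (Fin n)).card_le_alt hodd odd_one
  rw [Fintype.card_sum, Fintype.card_fin, ← two_mul, Nat.mul_div_cancel_left _ two_pos] at h
  exact_mod_cast (by linarith : (5 : ℝ) * Nat.card (ConjClasses (Matrix.symplecticGroup (Fin n) F)) ≤
    54 * (Fintype.card F : ℝ) ^ n)

end Cfsg.Agent.S2482
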