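import Cfsg.Statements.S2483
import Cfsg.Agent.Lib.Lev.Main

set_option autoImplicit false
open Cfsg

namespace Cfsg.Agent.S2483

open CfsgLib.Lev Module Polynomial in
open scoped Pointwise in
theorem lift {F : Type*} [Field F] {n k : ℕ} (x : Matrix.SpecialLinearGroup (Fin n) F) {z : End F (Fin n → F)}
    (hz : z ∈ cS (Matrix.toLin' (x : Matrix (Fin n) (Fin n) F)) ^ k) :
    ∃ f : Fin k → Matrix.SpecialLinearGroup (Fin n) F,
      z = Matrix.toLin' ((List.ofFn fun i => f i * x * (f i)⁻¹).prod : Matrix.SpecialLinearGroup (Fin n) F).1 := by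
  obtain ⟨B, rfl⟩ := Set.mem_pow.1 hz
  have h1 : ∀ i, ∃ y : Matrix.SpecialLinearGroup (Fin n) F,
      (B i : End F (Fin n → F)) = Matrix.toLin' (y * x * y⁻¹ : Matrix.SpecialLinearGroup (Fin n) F).1 := by
    intro i
    obtain ⟨h, h1, h2⟩ := (B i).2
    let y : Matrix.SpecialLinearGroup (Fin n) F := ⟨LinearMap.toMatrix' h, by rw [LinearMap.det_toMatrix', h1]⟩
    refine ⟨y, ?_⟩
    have e1 : Matrix.toLin' y.1 = h := Matrix.toLin'_toMatrix' h
    have e2 : h * Matrix.toLin' (y⁻¹ : Matrix.SpecialLinearGroup (Fin n) F).1 = 1 := by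
      rw [← e1, Module.End.mul_eq_comp, ← Matrix.toLin'_mul, ← Matrix.SpecialLinearGroup.coe_mul, mul_inv_cancel]
      simp [Module.End.one_eq_id]
    rw [Matrix.SpecialLinearGroup.coe_mul, Matrix.SpecialLinearGroup.coe_mul, Matrix.toLin'_mul, Matrix.toLin'_mul, e1,
      ← Module.End.mul_eq_comp, ← Module.End.mul_eq_comp, ← h2, mul_assoc, e2, mul_one]
  choose f hf using h1
  refine ⟨f, ?_⟩
  let L : Matrix.SpecialLinearGroup (Fin n) F →* End F (Fin n → F) :=
    { toFun := fun y => Matrix.toLin' y.1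
      map_one' := by simp [Module.End.one_eq_id]
      map_mul' := fun a b => by rw [Matrix.SpecialLinearGroup.coe_mul, Matrix.toLin'_mul, Module.End.mul_eq_comp] }
  change _ = L _
  rw [map_list_prod, List.map_ofFn]
  congr 2
  funext i
  exact hf i

open CfsgLib.Lev Module in
theorem central {F : Type*} [Field F] {n : ℕ} (x : Matrix.SpecialLinearGroup (Fin n) F) {t : F}
    (h : Matrix.toLin' x.1 = t • (1 : End F (Fin n → F))) : x ∈ Subgroup.center (Matrix.SpecialLinearGroup (Fin n) F) := by
  have e : x.1 = t • (1 : Matrix (Fin n) (Fin n) F) := by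
    apply Matrix.toLin'.injective
    rw [h, map_smul, Matrix.toLin'_one, Module.End.one_eq_id]
  rw [Subgroup.mem_center_iff]
  intro y
  ext1
  simp [e]

theorem mk_prod {F : Type*} [Field F] {n k : ℕ} (x : Matrix.SpecialLinearGroup (Fin n) F)
    (f : Fin k → Matrix.SpecialLinearGroup (Fin n) F) :
    (((List.ofFn fun i => f i * x * (f i)⁻¹).prod : Matrix.SpecialLinearGroup (Fin n) F) :
      Matrix.ProjectiveSpecialLinearGroup (Fin n) F) =
      (List.ofFn fun i => (f i : Matrix.ProjectiveSpecialLinearGroup (Fin n) F) * x *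
        (f i : Matrix.ProjectiveSpecialLinearGroup (Fin n) F)⁻¹).prod := by
  change QuotientGroup.mk' _ _ = _
  rw [map_list_prod, List.map_ofFn]
  rfl

theorem fix_prod {F : Type*} [Field F] {n : ℕ} (w : Fin n → F) : ∀ l : List (Matrix.SpecialLinearGroup (Fin n) F),
    (∀ a ∈ l, a.1.mulVec w = w) → l.prod.1.mulVec w = w := by
  intro l
  induction l with
  | nil => simp
  | cons a l ih =>
    intro h
    rw [List.prod_cons, Matrix.SpecialLinearGroup.coe_mul, ← Matrix.mulVec_mulVec,
      ih fun b hb => h b (List.mem_cons_of_mem _ hb), h a List.mem_cons_self]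

open CfsgLib.Lev Module Polynomial in
/-- The covering number of PSL(n,q) is n: let F be a finite field with q ≥ 4 elements and n ≥ 3. For every non-identity element x of PSL(n,F), every element of PSL(n,F) is a product of n conjugates of x; and for some non-identity x, some element is not a product of n − 1 conjugates of x. -/
theorem result {F : Type*} [Field F] [Fintype F] (h4 : 4 ≤ Fintype.card F) (n : ℕ) (hn : 3 ≤ n) :
    (∀ x : Matrix.ProjectiveSpecialLinearGroup (Fin n) F, x ≠ 1 → ∀ g : Matrix.ProjectiveSpecialLinearGroup (Fin n) F, ∃ f : Fin n → Matrix.ProjectiveSpecialLinearGroup (Fin n) F, g = (List.ofFn fun i => f i * x * (f i)⁻¹).prod) ∧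
    (∃ x : Matrix.ProjectiveSpecialLinearGroup (Fin n) F, x ≠ 1 ∧ ∃ g : Matrix.ProjectiveSpecialLinearGroup (Fin n) F, ∀ f : Fin (n - 1) → Matrix.ProjectiveSpecialLinearGroup (Fin n) F, g ≠ (List.ofFn fun i => f i * x * (f i)⁻¹).prod) := by
  have hV : finrank F (Fin n → F) = n := by simp
  constructor
  · intro x hx g
    obtain ⟨x, rfl⟩ := QuotientGroup.mk_surjective x
    obtain ⟨g, rfl⟩ := QuotientGroup.mk_surjective g
    have dx : LinearMap.det (Matrix.toLin' x.1) = 1 := by rw [LinearMap.det_toLin', x.2]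
    have nx : NSc (Matrix.toLin' x.1) := nsc_of_ne fun t ht => hx ((QuotientGroup.eq_one_iff _).2 (central x ht))
    by_cases hg : ∃ t : F, Matrix.toLin' g.1 = t • (1 : End F (Fin n → F))
    · obtain ⟨t, ht⟩ := hg
      obtain ⟨ζ, hζ⟩ := scalar_main h4 (by omega) dx nx
      rw [hV] at hζ
      obtain ⟨f, hf⟩ := lift x hζ
      refine ⟨fun i => f i, ?_⟩
      rw [← mk_prod, (QuotientGroup.eq_one_iff _).2 (central g ht), (QuotientGroup.eq_one_iff _).2 (central _ hf.symm)]
    · have h1 := pp_main h4 (by omega) (by rw [dx]; exact one_ne_zero) nx (Matrix.toLin' g.1)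
        (nsc_of_ne fun t ht => hg ⟨t, ht⟩) (by rw [dx, LinearMap.det_toLin', g.2, one_pow])
      rw [hV] at h1
      obtain ⟨f, hf⟩ := lift x h1
      refine ⟨fun i => f i, ?_⟩
      rw [← mk_prod, Subtype.ext (Matrix.toLin'.injective hf)]
  · let i : Fin n := ⟨0, by omega⟩
    let j : Fin n := ⟨1, by omega⟩
    have hij : i ≠ j := by simp [i, j, Fin.ext_iff]
    let x : Matrix.SpecialLinearGroup (Fin n) F := ⟨Matrix.transvection i j 1, Matrix.det_transvection_of_ne i j hij 1⟩
    obtain ⟨χ, hm, hd, h0, hr⟩ := exists_rootless (F := F) (m := n) (by omega) (c := (-1) ^ n) (by simp)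
    obtain ⟨T, hT⟩ := exists_CA (V := Fin n → F) hm (by rw [hd, hV])
    have dT : LinearMap.det T = 1 := by
      rw [hT.det, hV, h0, ← mul_pow]; simp
    let g : Matrix.SpecialLinearGroup (Fin n) F := ⟨LinearMap.toMatrix' T, by rw [LinearMap.det_toMatrix', dT]⟩
    refine ⟨x, fun e => ?_, g, fun f e => ?_⟩
    · obtain ⟨r, -, hr⟩ := Matrix.SpecialLinearGroup.mem_center_iff.1 ((QuotientGroup.eq_one_iff _).1 e)
      have := congrFun (congrFun hr i) j
      simp [x, Matrix.transvection, hij] at this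
    · choose y hy using fun a => QuotientGroup.mk_surjective (f a)
      have e1 : f = fun a => (y a : Matrix.ProjectiveSpecialLinearGroup (Fin n) F) := funext fun a => (hy a).symm
      rw [e1, ← mk_prod, QuotientGroup.eq] at e
      obtain ⟨r, -, hr'⟩ := Matrix.SpecialLinearGroup.mem_center_iff.1 e
      let Φ : (Fin n → F) →ₗ[F] (Fin (n - 1) → F) := LinearMap.pi fun a =>
        LinearMap.proj j ∘ₗ Matrix.toLin' ((y a)⁻¹ : Matrix.SpecialLinearGroup (Fin n) F).1
      obtain ⟨w, hw, w0⟩ := Submodule.exists_mem_ne_zero_of_ne_bot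
        (LinearMap.ker_ne_bot_of_finrank_lt (f := Φ) (by simp; omega))
      have h1 := fix_prod w (List.ofFn fun a => y a * x * (y a)⁻¹) (by
        intro b hb
        obtain ⟨a, rfl⟩ := List.mem_ofFn.1 hb
        have h2 : ((y a)⁻¹ : Matrix.SpecialLinearGroup (Fin n) F).1.mulVec w j = 0 := congrFun (LinearMap.mem_ker.1 hw) a
        have h3 : x.1.mulVec (((y a)⁻¹ : Matrix.SpecialLinearGroup (Fin n) F).1.mulVec w) =
            ((y a)⁻¹ : Matrix.SpecialLinearGroup (Fin n) F).1.mulVec w := by
          change (Matrix.transvection i j 1).mulVec _ = _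
          rw [Matrix.transvection, Matrix.add_mulVec, Matrix.one_mulVec, Matrix.single_mulVec, h2]
          simp
        rw [Matrix.SpecialLinearGroup.coe_mul, Matrix.SpecialLinearGroup.coe_mul, ← Matrix.mulVec_mulVec,
          ← Matrix.mulVec_mulVec, h3, Matrix.mulVec_mulVec, ← Matrix.SpecialLinearGroup.coe_mul, mul_inv_cancel]
        simp)
      set P := (List.ofFn fun a => y a * x * (y a)⁻¹).prod with hP
      have h2 : P.1 = g.1 * Matrix.scalar (Fin n) r := by
        rw [hr', ← Matrix.SpecialLinearGroup.coe_mul, mul_inv_cancel_left]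
      have h3 : r • T w = w := by
        rw [h2, ← Matrix.mulVec_mulVec] at h1
        have h4 : (Matrix.scalar (Fin n) r).mulVec w = r • w := by
          ext a; simp [Matrix.mulVec_diagonal]
        rw [h4, Matrix.mulVec_smul] at h1
        rw [← h1]
        congr 1
        conv_lhs => rw [← Matrix.toLin'_toMatrix' T]
        rw [h1]
        rfl
      have r0 : r ≠ 0 := by
        rintro rfl
        exact w0 (by rw [← h3]; simp)
      have h5 : T w = r⁻¹ • w := by
        nth_rewrite 2 [← h3]
        rw [smul_smul, inv_mul_cancel₀ r0, one_smul]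
      have h6 := Module.End.aeval_apply_of_hasEigenvector (p := χ)
        (show Module.End.HasEigenvector T r⁻¹ w from ⟨Module.End.mem_eigenspace_iff.2 h5, w0⟩)
      rw [hT.ann] at h6
      exact w0 ((smul_eq_zero.1 h6.symm).resolve_left (hr _))

end Cfsg.Agent.S2483
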