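import Mathlib
import Cfsg.Statements.S2485
import Cfsg.Agent.Lib.Dickson.Max
-- import your own Cfsg.Agent.* helpers here

set_option autoImplicit false
open scoped Pointwise
open Cfsg

namespace Cfsg.Agent.S2485

section
open CfsgLib.Dickson MatrixGroups
variable {F : Type*} [Field F]

theorem mem_pairStab_of_fix {w s : PGL(2, F)} (hw : w ≠ 1) {a b : Pbar F} (hab : a ≠ b)
    (ha : w • a = a) (hb : w • b = b) (h : w * s = s * w ∨ w * s = s * w⁻¹) :
    s ∈ pairStab ⊤ a b := by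
  have key : ∀ c : Pbar F, w • c = c → s • c = a ∨ s • c = b := fun c hc =>
    bar_fix_cases hw hab ha hb (by
      rcases h with h | h
      · rw [← mul_smul, h, mul_smul, hc]
      · rw [← mul_smul, h, mul_smul, inv_smul_eq_iff.2 hc.symm])
  have hne : s • a ≠ s • b := fun e => hab (smul_left_cancel s e)
  refine mem_pairStab.2 ⟨trivial, ?_⟩
  rcases key a ha with h1 | h1 <;> rcases key b hb with h2 | h2
  exacts [absurd (h1.trans h2.symm) hne, Or.inl ⟨h1, h2⟩, Or.inr ⟨h1, h2⟩,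
    absurd (h1.trans h2.symm) hne]

theorem comm_of_pairStab {z s : PGL(2, F)} {a b : Pbar F} (hab : a ≠ b) (hz : z ∈ stab2 ⊤ a b)
    (h2 : z * z = 1) (hs : s ∈ pairStab ⊤ a b) : s * z = z * s := by
  rcases (mem_pairStab.1 hs).2 with h | h
  · have := commutator_eq_one_of_mem_stab2 hab (mem_stab2.2 ⟨Subgroup.mem_top s, h⟩) hz
    rwa [mul_inv_eq_one, mul_inv_eq_iff_eq_mul] at this
  · have := swap_conj_eq_inv hab hz h.1 h.2
    rwa [inv_eq_of_mul_eq_one_right h2, mul_inv_eq_iff_eq_mul] at this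

theorem exists_comm [Finite F] (ho : Odd (Nat.card F)) {t t' : PGL(2, F)} (h1 : t ≠ 1)
    (ht : t * t = 1) (ht' : t' * t' = 1) {x y : Pbar F} (hxy : IrrPair x y) (hx : t • x = x) :
    ∃ z, z ≠ 1 ∧ t * z = z * t ∧ t' * z = z * t' := by
  by_cases hw : t * t' = 1
  · obtain rfl : t = t' := by rw [← mul_one t, ← ht', ← mul_assoc, hw, one_mul]
    exact ⟨t, h1, rfl, rfl⟩
  have e1 : t * t' * t = t * (t * t')⁻¹ := by
    rw [mul_inv_rev, inv_eq_of_mul_eq_one_right ht, inv_eq_of_mul_eq_one_right ht', mul_assoc]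
  have e2 : t * t' * t' = t' * (t * t')⁻¹ := by
    rw [mul_inv_rev, inv_eq_of_mul_eq_one_right ht, inv_eq_of_mul_eq_one_right ht', mul_assoc, ht',
      ← mul_assoc, ht', mul_one, one_mul]
  obtain ⟨a, ha⟩ := bar_fix1 (t * t')
  by_cases hu : IsUnip a (t * t')
  · have h3 : t • a = a := hu.eq_of_fix hw (by
      rw [← mul_smul, e1, mul_smul, inv_smul_eq_iff.2 ha.symm])
    have h4 : (t * t') • x = x := by
      rcases bar_fix_cases h1 hxy.2.1 hx ((hxy.2.2 t).1 hx) h3 with rfl | rfl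
      exacts [ha, (hxy.2.2 _).2 ha]
    exact absurd ((hu.eq_of_fix hw h4).trans (hu.eq_of_fix hw ((hxy.2.2 _).1 h4)).symm) hxy.2.1
  obtain ⟨-, b, hab, hb⟩ := exists_fix_of_not_isUnip ha hu
  have h3 : 3 ≤ Nat.card F := by
    have := Finite.one_lt_card (α := F)
    obtain ⟨k, hk⟩ := ho
    omega
  have h2 : 2 ∣ Nat.card (stab2 ⊤ a b) := by
    obtain ⟨k, hk⟩ := ho
    rcases fix_two_cases hw hab.symm ha hb with ⟨a, b, h, rfl, rfl⟩ | h
    · have := card_stab2_emb (L := ⊤) le_top h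
      rw [Subgroup.index_top] at this; omega
    · have := IrrPair.card_stab2 (L := ⊤) le_top h3 ⟨h.1, hab.symm, h.2.2⟩
      rw [Subgroup.index_top] at this; omega
  obtain ⟨z, hz⟩ := exists_prime_orderOf_dvd_card' 2 h2
  have hz2 : z.1 * z.1 = 1 := congrArg Subtype.val ((pow_two z).symm.trans (hz ▸ pow_orderOf_eq_one z :))
  refine ⟨z, fun h => ?_, comm_of_pairStab hab.symm z.2 hz2 (mem_pairStab_of_fix hw hab.symm ha hb
    (Or.inr e1)), comm_of_pairStab hab.symm z.2 hz2 (mem_pairStab_of_fix hw hab.symm ha hb (Or.inr e2))⟩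
  rw [show z = 1 from Subtype.ext h, orderOf_one] at hz
  omega

theorem aux [Finite F] {k : ℕ} (hk : Nat.card F + 1 = 2 ^ k) (hq : 7 ≤ Nat.card F)
    (H : Sylow 2 PGL(2, F)) (g : PGL(2, F)) :
    (H : Subgroup PGL(2, F)) ⊓ MulAut.conj g • (H : Subgroup _) ≠ ⊥ := by
  obtain ⟨k, rfl⟩ : ∃ j, k = j + 2 := ⟨k - 2, by
    by_contra h
    have : 2 ^ k ≤ 2 ^ 1 := Nat.pow_le_pow_right two_pos (by omega)
    omega⟩
  have hk' : Nat.card F + 1 = 4 * 2 ^ k := by rw [hk]; ring
  have ho : Odd (Nat.card F) := ⟨2 * 2 ^ k - 1, by omega⟩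
  have hH : 2 * (Nat.card F + 1) ∣ Nat.card H := by
    rw [hk, ← pow_succ']
    refine H.pow_dvd_card_of_pow_dvd_card ?_
    obtain ⟨m, hm⟩ := ho
    rw [card_pgl, pow_succ', ← hk, hm]
    exact ⟨m * (2 * m + 1), by
      rw [show (2 * m + 1) ^ 2 = 2 * (2 * m + 1 + 1) * m + 1 by ring, Nat.add_sub_cancel]; ring⟩
  have hH' := Nat.le_of_dvd Nat.card_pos hH
  have : Nontrivial H := Finite.one_lt_card_iff_nontrivial.1 (by omega)
  have := H.isPGroup'.center_nontrivial
  obtain ⟨t, ht⟩ := exists_prime_orderOf_dvd_card' (G := Subgroup.center H) 2 (by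
    obtain ⟨n, hn⟩ := (H.isPGroup'.to_subgroup (Subgroup.center H)).exists_card_eq
    have := Finite.one_lt_card (α := Subgroup.center H)
    rw [hn] at this ⊢
    exact dvd_pow_self 2 (by rintro rfl; simp at this))
  have h2 : t.1.1 * t.1.1 = 1 := 
    congrArg (fun x => x.1.1) ((pow_two t).symm.trans (ht ▸ pow_orderOf_eq_one t :))
  have h1 : t.1.1 ≠ 1 := fun h => by
    rw [show t = 1 from Subtype.ext (Subtype.ext h), orderOf_one] at ht
    omega
  obtain ⟨x, hx⟩ := bar_fix1 t.1.1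
  obtain ⟨-, y, hxy, hy⟩ := exists_fix_of_not_isUnip hx fun hu => h1 (by
    have := pgl_unip_eq_one_of_pow (isUnip_bar_iff.2 hu) (n := 2) (by
      have := (map_ne_zero (algebraMap F (AlgebraicClosure F))).2 (two_ne_zero_of_odd_card ho)
      rwa [map_ofNat] at this)
      (by rw [← map_pow, pow_two, h2, map_one])
    exact pglMap_injective _ (this.trans (map_one _).symm))
  have hle : (H : Subgroup PGL(2, F)) ≤ pairStab ⊤ x y := fun s hs =>
    mem_pairStab_of_fix h1 hxy.symm hx hy (Or.inl (congrArg Subtype.val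
      (Subgroup.mem_center_iff.1 t.2 ⟨s, hs⟩)).symm)
  have hc := Subgroup.card_le_of_le hle
  rcases fix_two_cases h1 hxy.symm hx hy with ⟨a, b, h, rfl, rfl⟩ | h
  · have := card_pairStab_emb (L := ⊤) le_top h
    rw [Subgroup.index_top] at this; omega
  have hI : IrrPair x y := ⟨h.1, hxy.symm, h.2.2⟩
  have h3 := hI.card_pairStab (L := ⊤) le_top (by omega)
  rw [Subgroup.index_top] at h3
  have hE := Subgroup.eq_of_le_of_card_ge hle (by omega)
  obtain ⟨z, hz, h4, h5⟩ := exists_comm ho h1 h2 (t' := g * t.1.1 * g⁻¹) (by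
    rw [conj_mul, h2, mul_one, mul_inv_cancel]) hI hx
  refine fun hb => hz ((Subgroup.eq_bot_iff_forall _).1 hb z (Subgroup.mem_inf.2 ⟨?_, ?_⟩))
  · rw [hE]; exact mem_pairStab_of_fix h1 hxy.symm hx hy (Or.inl h4)
  · rw [Subgroup.mem_pointwise_smul_iff_inv_smul_mem, hE]
    refine mem_pairStab_of_fix h1 hxy.symm hx hy (Or.inl ?_)
    simp only [MulAut.smul_def, MulAut.conj_inv_apply]
    calc _ = g⁻¹ * (g * t.1.1 * g⁻¹ * z) * g := by group
      _ = _ := by rw [h5]; group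

end

/-- Let q = 2^k − 1 ≥ 7 be a prime and let G = PGL(2,q), the general linear group of degree 2 over the field with q elements modulo its centre. Then any two Sylow 2-subgroups of G have a non-trivial intersection: for a Sylow 2-subgroup H and every x ∈ G, H ∩ H^x ≠ 1. -/
theorem result {q k : ℕ} [Fact q.Prime] (hk : q + 1 = 2 ^ k) (hq : 7 ≤ q)
    (H : Sylow 2 (GL (Fin 2) (ZMod q) ⧸ Subgroup.center (GL (Fin 2) (ZMod q))))
    (x : GL (Fin 2) (ZMod q) ⧸ Subgroup.center (GL (Fin 2) (ZMod q))) :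
    (H : Subgroup (GL (Fin 2) (ZMod q) ⧸ Subgroup.center (GL (Fin 2) (ZMod q)))) ⊓ MulAut.conj x • (H : Subgroup _) ≠ ⊥ := by
  exact aux (F := ZMod q) (k := k) (by simpa using hk) (by simpa using hq) H x

end Cfsg.Agent.S2485
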