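import Cfsg.Statements.S2486
import Cfsg.Agent.Lib.GLFlag.Index
import Cfsg.Agent.Lib.LargeExtra.Hol
import Cfsg.Agent.Lib.Tech.SylowIn

set_option autoImplicit false
open scoped Pointwise
open Cfsg

namespace Cfsg.Agent.S2486

open Subgroup CfsgLib CfsgLib.Tech CfsgLib.GLFlag Matrix

theorem abs_main {G : Type*} [Group G] [Finite G] {N B : Subgroup G} [N.Normal]
    (hidx : N.index = 2) (hB : IsPGroup 2 B) (hBN : B ≤ N) (h1 : ∀ g ∈ N, cj g B = B → g ∈ B)
    {w : G} (h2 : ∀ g ∈ N, B ⊓ cj g B = ⊥ → ∃ b ∈ B, cj g B = cj (b * w) B)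
    (H K : Sylow 2 G) : (H : Subgroup G) ⊓ K ≠ ⊥ := by
  have : Fact (Nat.Prime 2) := ⟨Nat.prime_two⟩
  have hS : IsSylowIn 2 B N := isSylowIn_of_maximal hB hBN fun R hR hBR hRN => by
    by_contra hn
    obtain ⟨x, hx, hxB, hxn⟩ := exists_mem_normalizer_of_lt hR (lt_of_le_not_ge hBR hn)
    exact hxB (h1 x (hRN hx) (mem_normalizer_iff_cj.1 hxn))
  have hout : ∀ S : Sylow 2 G, ∃ h ∈ (S : Subgroup G), h ∉ N := fun S => by
    by_contra hn
    push Not at hn
    have := index_dvd_of_le (H := S) (K := N) hn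
    rw [hidx] at this
    exact S.not_dvd_index this
  have hcj : ∀ S : Sylow 2 G, ∃ g ∈ N, cj g B = (S : Subgroup G) ⊓ N := fun S =>
    hS.exists_cj_eq (sylow_inf_normal S N)
  obtain ⟨a, -, ha⟩ := hcj H
  intro h0
  have e1 : ((a⁻¹ • H : Sylow 2 G) : Subgroup G) ⊓ N = B := by
    rw [coe_smul_sylow, ← cj_eq_of_normal a⁻¹ N, ← cj_inf, ← ha, cj_inv_cj]
  have e2 : ((a⁻¹ • H : Sylow 2 G) : Subgroup G) ⊓ (a⁻¹ • K : Sylow 2 G) = ⊥ := by
    rw [coe_smul_sylow, coe_smul_sylow, ← cj_inf, h0, cj_bot]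
  generalize a⁻¹ • H = S at e1 e2
  generalize a⁻¹ • K = T at e2
  have hBS : B ≤ S := e1 ▸ inf_le_left
  obtain ⟨h, hh, hhN⟩ := hout S
  obtain ⟨k, hk, hkN⟩ := hout T
  obtain ⟨g, hg, eg⟩ := hcj T
  obtain ⟨g', hg', eg'⟩ := hcj (h • T)
  obtain ⟨b, hb, eb⟩ := h2 g hg (eq_bot_iff.2 ((inf_le_inf hBS (eg ▸ inf_le_left)).trans e2.le))
  obtain ⟨b', hb', eb'⟩ := h2 g' hg' (eq_bot_iff.2 ((inf_le_inf hBS (eg' ▸ inf_le_left)).trans (by
    have := congrArg (cj h) e2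
    rw [cj_inf, cj_eq_of_mem hh, cj_bot] at this
    rw [coe_smul_sylow, this])))
  have e3 : cj h (cj g B) = cj g' B := by
    rw [eg, eg', cj_inf, cj_eq_of_normal h N, coe_smul_sylow]
  have e4 : cj k⁻¹ (cj g B) = cj g B := by
    rw [eg, cj_inf, cj_eq_of_normal k⁻¹ N, cj_eq_of_mem (inv_mem hk)]
  have hy : b * b'⁻¹ * h ∉ N := fun e =>
    hhN ((mul_mem_cancel_left (mul_mem (hBN hb) (inv_mem (hBN hb')))).1 e)
  have hc : b * b'⁻¹ * h * k⁻¹ ∈ N := by
    rw [mul_mem_iff_of_index_two hidx]; simp [hy, hkN]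
  have e5 : g⁻¹ * (b * b'⁻¹ * h * k⁻¹) * g ∈ B := by
    refine h1 _ (mul_mem (mul_mem (inv_mem hg) hc) hg) ?_
    rw [cj_mul, cj_mul, cj_mul, e4, cj_mul, e3, eb', ← cj_mul (b * b'⁻¹), mul_assoc,
      inv_mul_cancel_left, ← eb, cj_inv_cj]
  have e6 : b * b'⁻¹ * h * k⁻¹ ∈ (T : Subgroup G) := (eg ▸ mem_cj.2 e5 : _ ∈ (T : Subgroup G) ⊓ N).1
  have e7 : b * b'⁻¹ * h ∈ (S : Subgroup G) ⊓ T :=
    mem_inf.2 ⟨mul_mem (mul_mem (hBS hb) (inv_mem (hBS hb'))) hh,
      (mul_mem_cancel_right (inv_mem hk)).1 e6⟩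
  rw [e2, mem_bot] at e7
  exact hy (e7 ▸ one_mem N)

variable {n : ℕ}

theorem isPGroup_B : IsPGroup 2 (Par (ZMod 2) (id : Fin n → Fin n)) := by
  refine IsPGroup.of_card (n := _) (by
    rw [card_Par_eq, Finset.prod_eq_one, one_mul, Nat.card_zmod]
    intro s _
    have : Unique {i : Fin n // id i = s} := ⟨⟨⟨s, rfl⟩⟩, fun i => Subtype.ext i.2⟩
    refine Nat.card_eq_one_iff_exists.2 ⟨1, fun g => Units.ext (Matrix.ext fun i j => ?_)⟩
    obtain rfl := Subsingleton.elim i j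
    have h := congrFun (congrFun g.mul_inv i) i
    rw [mul_apply, Finset.univ_unique, Finset.sum_singleton, Subsingleton.elim default i,
      one_apply_eq] at h
    have h2 : ∀ x y : ZMod 2, x * y = 1 → x = 1 := by decide
    simpa using h2 _ _ h)

theorem conj_apply (w : Equiv.Perm (Fin n)) (g : GL (Fin n) (ZMod 2)) (a b : Fin n) :
    (pmat (ZMod 2) w * g * (pmat (ZMod 2) w)⁻¹ : GL (Fin n) (ZMod 2)).1 (w a) (w b) = g.1 a b := by
  rw [← map_inv, mul_assoc, Units.val_mul, pmat_mul_apply, Units.val_mul, mul_apply]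
  simp only [pmat_apply]
  simp

/-- a transvection -/
def tv {i j : Fin n} (h : i < j) : GL (Fin n) (ZMod 2) :=
  SpecialLinearGroup.toGL (SpecialLinearGroup.transvection h.ne 1)

theorem tv_apply {i j : Fin n} (h : i < j) (a b : Fin n) :
    (tv h).1 a b = (1 : Matrix (Fin n) (Fin n) (ZMod 2)) a b + single i j (1 : ZMod 2) a b := rfl

theorem tv_self {i j : Fin n} (h : i < j) : (tv h).1 i j = 1 := by
  rw [tv_apply, one_apply_ne h.ne, single_apply_same, zero_add]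

theorem tv_ne {i j : Fin n} (h : i < j) {a b : Fin n} (h1 : a ≠ b) (h2 : ¬ (i = a ∧ j = b)) :
    (tv h).1 a b = 0 := by
  rw [tv_apply, one_apply_ne h1, single_apply_of_ne _ _ _ _ _ h2, zero_add]

theorem tv_mem {i j : Fin n} (h : i < j) : tv h ∈ Par (ZMod 2) (id : Fin n → Fin n) :=
  mem_Par.2 fun a b hab => tv_ne h (ne_of_gt hab) fun e => by
    rw [← e.1, ← e.2] at hab; exact lt_asymm h hab

theorem norm_B (g : GL (Fin n) (ZMod 2)) (h : cj g (Par (ZMod 2) id) = Par (ZMod 2) id) :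
    g ∈ Par (ZMod 2) (id : Fin n → Fin n) := by
  obtain ⟨w, b, hb, b', hb', rfl⟩ := bruhat g
  rw [cj_mul, cj_mul, cj_eq_of_mem hb'] at h
  have h' := congrArg (cj b⁻¹) h
  rw [cj_inv_cj, cj_eq_of_mem (inv_mem hb)] at h'
  have : w = 1 := (Equiv.Perm.monotone_iff w).1 (StrictMono.monotone fun i j hij => by
    have h1 := conj_mem_cj (g := pmat (ZMod 2) w).2 (tv_mem hij)
    rw [h'] at h1
    refine lt_of_le_of_ne (not_lt.1 fun e => ?_) (w.injective.ne hij.ne)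
    have := mem_Par.1 h1 _ _ e
    rw [conj_apply, tv_self] at this
    exact one_ne_zero this)
  rw [this, map_one, mul_one]
  exact mul_mem hb hb'

theorem opp_B (g : GL (Fin n) (ZMod 2)) (h : Par (ZMod 2) id ⊓ cj g (Par (ZMod 2) id) = ⊥) :
    ∃ b ∈ Par (ZMod 2) (id : Fin n → Fin n),
      cj g (Par (ZMod 2) id) = cj (b * pmat (ZMod 2) Fin.revPerm⁻¹) (Par (ZMod 2) id) := by
  obtain ⟨w, b, hb, b', hb', rfl⟩ := bruhat g
  rw [cj_mul, cj_eq_of_mem hb'] at h ⊢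
  refine ⟨b, hb, ?_⟩
  have h' := congrArg (cj b⁻¹) h
  rw [cj_inf, cj_mul, cj_inv_cj, cj_eq_of_mem (inv_mem hb), cj_bot] at h'
  have h1 : ∀ i j, i < j → w j < w i := fun i j hij => by
    refine lt_of_le_of_ne (not_lt.1 fun e => ?_) (w.injective.ne hij.ne')
    have h2 : pmat (ZMod 2) w * tv hij * (pmat (ZMod 2) w)⁻¹ ∈
        Par (ZMod 2) id ⊓ cj (pmat (ZMod 2) w) (Par (ZMod 2) id) := by
      refine ⟨mem_Par.2 fun a c hac => ?_, conj_mem_cj.2 (tv_mem hij)⟩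
      obtain ⟨a, rfl⟩ := w.surjective a
      obtain ⟨c, rfl⟩ := w.surjective c
      rw [conj_apply]
      refine tv_ne hij (fun e' => by rw [e'] at hac; exact lt_irrefl _ hac) fun e' => ?_
      rw [← e'.1, ← e'.2] at hac
      exact lt_asymm e hac
    rw [h', mem_bot] at h2
    have := conj_apply w (tv hij) i j
    rw [h2, tv_self, Units.val_one, one_apply_ne e.ne] at this
    exact zero_ne_one this
  have : w * Fin.revPerm = 1 := (Equiv.Perm.monotone_iff _).1 (StrictMono.monotone fun i j hij =>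
    h1 _ _ (Fin.rev_lt_rev.2 hij))
  rw [eq_inv_of_mul_eq_one_left this]

/-- Let n ≥ 4 and let G be a finite group with a normal subgroup N of index 2 isomorphic to SL(n,2) and with trivial centralizer in G (so G is the extension of the simple group L_n(2) by its inverse-transpose automorphism, its full automorphism group). Then any two Sylow 2-subgroups of G have a non-trivial intersection: for a Sylow 2-subgroup H and every x ∈ G, H ∩ H^x ≠ 1. -/
theorem result {G : Type*} [Group G] [Finite G] {n : ℕ} (hn : 4 ≤ n) (N : Subgroup G) [N.Normal]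
    (e : N ≃* Matrix.SpecialLinearGroup (Fin n) (ZMod 2)) (hidx : N.index = 2)
    (hC : Subgroup.centralizer (N : Set G) = ⊥)
    (H : Sylow 2 G) (x : G) :
    (H : Subgroup G) ⊓ MulAut.conj x • (H : Subgroup G) ≠ ⊥ := by
  obtain ⟨e'⟩ := LargeExtra.nonempty_GL_equiv_SL n
  let ι : GL (Fin n) (ZMod 2) →* G := N.subtype.comp (e'.trans e.symm).toMonoidHom
  have hι : Function.Injective ι := N.subtype_injective.comp (e'.trans e.symm).injective
  have hN : ∀ g ∈ N, ∃ y, ι y = g := fun g hg =>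
    ⟨(e'.trans e.symm).symm ⟨g, hg⟩, by simp [ι]⟩
  have hcj : ∀ y (K : Subgroup (GL (Fin n) (ZMod 2))), cj (ι y) (K.map ι) = (cj y K).map ι := by
    intro y K
    rw [cj, cj, Subgroup.map_map, Subgroup.map_map]
    congr 1
    ext z; simp
  refine abs_main (B := (Par (ZMod 2) id).map ι) (w := ι (pmat (ZMod 2) Fin.revPerm⁻¹)) hidx
    (isPGroup_B.map ι) ?_ (fun g hg h => ?_) (fun g hg h => ?_) H (x • H)
  · rintro _ ⟨y, -, rfl⟩; exact ((e'.trans e.symm) y).2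
  · obtain ⟨y, rfl⟩ := hN g hg
    rw [hcj] at h
    exact mem_map_of_mem ι (norm_B y (map_injective hι h))
  · obtain ⟨y, rfl⟩ := hN g hg
    rw [hcj, ← Subgroup.map_inf _ _ _ hι, map_eq_bot_iff_of_injective _ hι] at h
    obtain ⟨b, hb, e⟩ := opp_B y h
    exact ⟨ι b, mem_map_of_mem ι hb, by rw [← map_mul, hcj, hcj, e]⟩

end Cfsg.Agent.S2486
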