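import Mathlib
import Cfsg.Statements.S2487
import Cfsg.Agent.Lib.Inv2.OrthMat
-- import your own Cfsg.Agent.* helpers here

set_option autoImplicit false
open scoped Pointwise
open Cfsg

namespace Cfsg.Agent.S2487

/-- Let m ≥ 4 and let G be the full isometry group of the hyperbolic quadratic form x₁y₁ + ⋯ + x_m y_m on the 2m-dimensional space over the field with 2 elements (the orthogonal group O⁺(2m,2), which contains Ω⁺(2m,2) with index 2). Then any two Sylow 2-subgroups of G have a non-trivial intersection: for a Sylow 2-subgroup H and every x ∈ G, H ∩ H^x ≠ 1. -/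
theorem result {F : Type*} [Field F] [Fintype F] (hF : Fintype.card F = 2) {m : ℕ} (hm : 4 ≤ m)
    (H : Sylow 2 (Cfsg.isometryGroup F (Cfsg.quadFormPlus m F)))
    (x : Cfsg.isometryGroup F (Cfsg.quadFormPlus m F)) :
    (H : Subgroup (Cfsg.isometryGroup F (Cfsg.quadFormPlus m F))) ⊓ MulAut.conj x • (H : Subgroup _) ≠ ⊥ := by
  open CfsgLib.Inv2 CfsgLib.Forms CfsgLib.Orth QuadraticMap Module in
  have hQ := qPlus_nondegenerate (F := F) m
  obtain ⟨M, h1, h2⟩ := exists_ts_plus (F := F) m
  obtain ⟨W, h3, h4⟩ := exists_le_finrank_eq (m - 1) M (by omega)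
  have h5 := card_fix_of_ts hQ h1 (fun w hw => h1 w (h3 hw)) h4 (j := 0) (by omega)
    (by rw [finrank_plus]; omega)
  rw [Nat.card_eq_fintype_card (α := F), hF] at h5
  let φ : Cfsg.isometryGroup F (Cfsg.quadFormPlus m F) →* _ :=
    (OG (qPlus m F)).subtype.comp (toOG (qPlus m F)).toMonoidHom
  have hK : IsPGroup 2 (((ofQuad (qPlus m F)).isom ⊓ linFix W).comap φ) :=
    (IsPGroup.of_card (n := (m - 1) * (2 * (0 + 1)) + (m - 1).choose 2 + 1)
      (h5.trans (by simp [pow_succ]))).comap_of_injective φ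
      (Subtype.val_injective.comp (toOG (qPlus m F)).injective)
  obtain ⟨P, hP⟩ := hK.exists_le_sylow
  have : Finite (Cfsg.isometryGroup F (Cfsg.quadFormPlus m F)) := inferInstance
  obtain ⟨g, rfl⟩ := MulAction.exists_smul_eq (Cfsg.isometryGroup F (Cfsg.quadFormPlus m F)) P H
  have key : ∀ y t, (∀ w ∈ W.map (φ y).toLinearMap, φ t w = w) →
      t ∈ MulAut.conj y • (P : Subgroup (Cfsg.isometryGroup F (Cfsg.quadFormPlus m F))) := by
    intro y t ht
    rw [Subgroup.mem_pointwise_smul_iff_inv_smul_mem]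
    refine hP ⟨isIso_OG _, fun w hw => ?_⟩
    change φ (y⁻¹ * t * y⁻¹⁻¹) w = w
    rw [inv_inv, map_mul, map_mul, LinearEquiv.mul_apply, LinearEquiv.mul_apply,
      show φ t (φ y w) = φ y w from ht _ ⟨w, hw, rfl⟩, ← LinearEquiv.mul_apply, ← map_mul,
      inv_mul_cancel, map_one, LinearEquiv.coe_one, id]
  set X := W.map (φ g).toLinearMap ⊔ W.map (φ (x * g)).toLinearMap with hX
  have h6 : finrank F X ≤ 2 * (m - 1) := by
    have := Submodule.finrank_add_le_finrank_add_finrank (W.map (φ g).toLinearMap)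
      (W.map (φ (x * g)).toLinearMap)
    rwa [LinearEquiv.finrank_map_eq, LinearEquiv.finrank_map_eq, h4, ← two_mul] at this
  have h7 := (ofQuad (qPlus m F)).finrank_perp (ofQuad_nondeg _ hQ) X
  rw [finrank_plus] at h7
  obtain ⟨t, ht, ht'⟩ : ∃ t : OG (qPlus m F), t ≠ 1 ∧ ∀ w ∈ X, t.1 w = w := by
    by_cases h : ∃ v ∈ (ofQuad (qPlus m F)).perp X, qPlus m F v ≠ 0
    · obtain ⟨v, hv, hv'⟩ := h
      refine ⟨refl _ v, fun h => ?_, fun w hw =>
        refl_apply_of_polar_eq_zero (by rw [polar_comm]; exact hv w hw)⟩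
      have := dickson_refl hQ (h24_plus (Or.inr (by omega))) hv'
      rw [h, map_one] at this
      exact absurd this (by decide)
    · push Not at h
      obtain ⟨f, hf⟩ := exists_linearIndependent_of_le_finrank
        (R := F) (M := (ofQuad (qPlus m F)).perp X) (n := 2) (by omega)
      have hf' := hf.map' _ (Submodule.ker_subtype _)
      obtain ⟨z, hz, hz'⟩ := exists_perp_polar_eq hQ (W := Submodule.span F {(f 0).1})
        (x := f 1) (by simpa using hf'.notMem_span_image (s := {0}) (x := 1) (by simp)) 1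
      refine ⟨eichler _ (f 0) (f 1) (h _ (f 0).2) (polar_eq_zero_of_singular h (f 0).2 (f 1).2),
        fun h1 => hf'.ne_zero 0 ?_, fun w hw => ?_⟩
      · have := eichler_apply_of_perp (h _ (f 0).2) (polar_eq_zero_of_singular h (f 0).2 (f 1).2)
          (hz _ (Submodule.mem_span_singleton_self _))
        rw [h1, hz'] at this
        simpa using this
      · rw [eichler_apply_of_perp _ _ (by rw [polar_comm]; exact (f 0).2 w hw), polar_comm,
          show polar (qPlus m F) w (f 1) = 0 from (f 1).2 w hw, zero_smul, add_zero]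
  obtain ⟨t, rfl⟩ := (toOG (qPlus m F)).surjective t
  rw [Subgroup.ne_bot_iff_exists_ne_one]
  refine ⟨⟨t, key g t fun w hw => ht' w (Submodule.mem_sup_left hw), ?_⟩,
    fun h => ht (by rw [show t = 1 from congrArg Subtype.val h, map_one])⟩
  rw [Sylow.coe_subgroup_smul, ← mul_smul, ← map_mul]
  exact key _ t fun w hw => ht' w (Submodule.mem_sup_right hw)

end Cfsg.Agent.S2487
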