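import Cfsg.Statements.S2488
import Mathlib
import Cfsg.Agent.Lib.Tech.Invol

set_option autoImplicit false
open scoped Pointwise
open Cfsg

namespace Cfsg.Agent.S2488


open Equiv

/-- the standard even involution -/
def z0 : Perm (Fin 6) := swap 0 1 * swap 2 3

theorem compA : ∀ c : Perm (Fin 6), c * z0 = z0 * c → Perm.sign c = 1 → c * c * (c * c) = 1 := by
  decide +kernel

theorem compB : (Finset.univ.filter fun w : Perm (Fin 6) =>
    w * w = 1 ∧ z0 * w * (z0 * w) * (z0 * w) = 1).card ≤ 31 := by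
  decide +kernel

theorem compC : (Finset.univ.filter fun w : Perm (Fin 6) =>
    w * w = 1 ∧ Perm.sign w = 1 ∧ z0 * w * (z0 * w) * (z0 * w) ≠ 1).card ≤ 31 := by
  decide +kernel

theorem cyc (z : Perm (Fin 6)) (h2 : orderOf z = 2) (hs : Perm.sign z = 1) :
    z.cycleType = Multiset.replicate 2 2 := by
  obtain ⟨n, hn⟩ := Perm.cycleType_prime_order (σ := z) (by rw [h2]; exact Nat.prime_two)
  rw [h2] at hn
  have h1 := Perm.sum_cycleType_le z
  have h3 := Perm.sign_of_cycleType z
  rw [hn] at h1 h3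
  simp only [Multiset.sum_replicate, smul_eq_mul, Fintype.card_fin, Multiset.card_replicate] at h1 h3
  have hn2 : n ≤ 2 := by omega
  rw [hs] at h3
  interval_cases n
  · exact absurd h3 (by decide)
  · exact hn
  · exact absurd h3 (by decide)

theorem conj_z0 (z : Perm (Fin 6)) (h2 : orderOf z = 2) (hs : Perm.sign z = 1) :
    ∃ g : Perm (Fin 6), g * z * g⁻¹ = z0 := by
  have h0 : orderOf z0 = 2 := orderOf_eq_prime (by decide) (by decide)
  have : IsConj z z0 := Perm.isConj_iff_cycleType_eq.2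
    ((cyc z h2 hs).trans (cyc z0 h0 (by decide)).symm)
  exact isConj_iff.1 this


/-- Let G be a finite group with a normal subgroup N of index 4 isomorphic to the alternating group of degree 6 and with trivial centralizer in G (so G is the full automorphism group of A₆). Then any two Sylow 2-subgroups of G have a non-trivial intersection: for a Sylow 2-subgroup H and every x ∈ G, H ∩ H^x ≠ 1. -/
theorem result {G : Type*} [Group G] [Finite G] (N : Subgroup G) [N.Normal]
    (e : N ≃* alternatingGroup (Fin 6)) (hidx : N.index = 4)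
    (hC : Subgroup.centralizer (N : Set G) = ⊥)
    (H : Sylow 2 G) (x : G) :
    (H : Subgroup G) ⊓ MulAut.conj x • (H : Subgroup G) ≠ ⊥ := by
  classical
  intro hbot
  haveI : Fact (Nat.Prime 2) := ⟨Nat.prime_two⟩
  have hN : Nat.card N = 360 := by
    rw [Nat.card_congr e.toEquiv, nat_card_alternatingGroup]
    simp [Nat.factorial]
  have hG : Nat.card G = 1440 := by
    rw [← N.card_mul_index, hN, hidx]
  have h32 : 2 ^ 5 ∣ Nat.card H := H.pow_dvd_card_of_pow_dvd_card (by rw [hG]; norm_num)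
  have hH : 32 ≤ Nat.card H := Nat.le_of_dvd Nat.card_pos h32
  have hne : (H : Subgroup G) ⊓ N ≠ ⊥ := by
    intro h
    have hinj : Function.Injective ((QuotientGroup.mk' N).comp (H : Subgroup G).subtype) := by
      rw [injective_iff_map_eq_one]
      intro a ha
      have : (a : G) ∈ (H : Subgroup G) ⊓ N := ⟨a.2, (QuotientGroup.eq_one_iff _).1 ha⟩
      rw [h] at this
      exact Subtype.ext this
    have := Nat.card_le_card_of_injective _ hinj
    rw [← Subgroup.index_eq_card, hidx] at this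
    omega
  obtain ⟨z, ⟨hzH, hzN⟩, hz2, hzc⟩ := CfsgLib.Tech.exists_mem_center_of_normalized
    (p := 2) (T := (H : Subgroup G)) (N := (H : Subgroup G) ⊓ N) H.isPGroup' inf_le_left
    (by
      intro t ht
      rw [Subgroup.mem_normalizer_iff]
      intro a
      constructor
      · intro h
        obtain ⟨h1, h2⟩ := Subgroup.mem_inf.1 h
        exact Subgroup.mem_inf.2 ⟨mul_mem (mul_mem ht h1) (inv_mem ht),
          Subgroup.Normal.conj_mem inferInstance a h2 t⟩
      · intro h
        obtain ⟨h1, h2⟩ := Subgroup.mem_inf.1 h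
        have e1 : a = t⁻¹ * (t * a * t⁻¹) * t⁻¹⁻¹ := by group
        rw [e1]
        exact Subgroup.mem_inf.2 ⟨mul_mem (mul_mem (inv_mem ht) h1) (inv_mem (inv_mem ht)),
          Subgroup.Normal.conj_mem inferInstance _ h2 t⁻¹⟩) hne
  let f0 : N →* Equiv.Perm (Fin 6) := (alternatingGroup (Fin 6)).subtype.comp e.toMonoidHom
  have hf0 : Function.Injective f0 := Subtype.val_injective.comp e.injective
  have hs0 : ∀ n, Equiv.Perm.sign (f0 n) = 1 := fun n => (e n).2
  obtain ⟨g, hg⟩ := conj_z0 (f0 ⟨z, hzN⟩)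
    (by rw [orderOf_injective f0 hf0, ← hz2]; exact (Subgroup.orderOf_coe _).symm) (hs0 _)
  obtain ⟨f, hf, hs, hfz⟩ : ∃ f : N →* Equiv.Perm (Fin 6), Function.Injective f ∧
      (∀ n, Equiv.Perm.sign (f n) = 1) ∧ f ⟨z, hzN⟩ = z0 := by
    refine ⟨(MulAut.conj g).toMonoidHom.comp f0, (MulAut.conj g).injective.comp hf0, fun n => ?_, hg⟩
    show Equiv.Perm.sign (g * f0 n * g⁻¹) = 1
    rw [map_mul, map_mul, hs0, mul_one, ← map_mul, mul_inv_cancel, map_one]
  -- the centralizer of `z` is `H`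
  have hC2 : IsPGroup 2 (Subgroup.centralizer ({z} : Set G)) := by
    intro c
    refine ⟨4, Subtype.ext ?_⟩
    have hc : (c : G) * z = z * c := Subgroup.mem_centralizer_singleton_iff.1 c.2
    have h4 : (c : G) ^ 4 ∈ N := hidx ▸ N.pow_index_mem c
    have hc4 : (⟨(c : G) ^ 4, h4⟩ : N) * ⟨z, hzN⟩ = ⟨z, hzN⟩ * ⟨(c : G) ^ 4, h4⟩ :=
      Subtype.ext ((Commute.pow_left (show Commute (c : G) z from hc) 4).eq)
    have := compA (f ⟨(c : G) ^ 4, h4⟩) (by rw [← hfz, ← map_mul, ← map_mul, hc4]) (hs _)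
    rw [← map_mul, ← map_mul] at this
    have h1 := congrArg Subtype.val (hf (this.trans (map_one f).symm))
    simp only [Subgroup.coe_mul, Subgroup.coe_one] at h1
    rw [SubgroupClass.coe_pow, OneMemClass.coe_one, ← h1]
    group
  have hCH : Subgroup.centralizer ({z} : Set G) = H :=
    H.is_maximal' hC2 fun t ht => Subgroup.mem_centralizer_singleton_iff.2 (hzc t ht)
  have hzz : z * z = 1 := by rw [← pow_two, ← hz2, pow_orderOf_eq_one]
  have hmem : ∀ h : G, h * (x * z * x⁻¹) * h⁻¹ ∈ N := fun h =>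
    Subgroup.Normal.conj_mem inferInstance _ (Subgroup.Normal.conj_mem inferInstance _ hzN x) h
  let φ : H → Equiv.Perm (Fin 6) := fun h => f ⟨_, hmem h⟩
  have hφ : Function.Injective φ := by
    intro a b hab
    have h1 : (a : G) * (x * z * x⁻¹) * (a : G)⁻¹ = b * (x * z * x⁻¹) * (b : G)⁻¹ :=
      congrArg Subtype.val (hf hab)
    have h2 : x⁻¹ * ((b : G)⁻¹ * a) * x ∈ Subgroup.centralizer ({z} : Set G) := by
      rw [Subgroup.mem_centralizer_singleton_iff]
      calc x⁻¹ * ((b : G)⁻¹ * a) * x * z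
          = x⁻¹ * (b : G)⁻¹ * ((a : G) * (x * z * x⁻¹) * (a : G)⁻¹) * a * x := by group
        _ = z * (x⁻¹ * ((b : G)⁻¹ * a) * x) := by rw [h1]; group
    rw [hCH] at h2
    have h3 : (b : G)⁻¹ * a ∈ (H : Subgroup G) ⊓ MulAut.conj x • (H : Subgroup G) := by
      refine Subgroup.mem_inf.2 ⟨mul_mem (inv_mem b.2) a.2, ?_⟩
      rw [Subgroup.mem_pointwise_smul_iff_inv_smul_mem]
      simpa [mul_assoc] using h2
    rw [hbot, Subgroup.mem_bot, inv_mul_eq_one] at h3
    exact Subtype.ext h3.symm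
  have hsq : ∀ h, φ h * φ h = 1 := fun h => by
    rw [← map_mul, ← map_one f]
    congr 1
    apply Subtype.ext
    show (h : G) * (x * z * x⁻¹) * (h : G)⁻¹ * ((h : G) * (x * z * x⁻¹) * (h : G)⁻¹) = 1
    calc _ = (h : G) * x * (z * z) * x⁻¹ * (h : G)⁻¹ := by group
      _ = 1 := by rw [hzz]; group
  have hcube : ∀ h : H, z0 * φ h * (z0 * φ h) * (z0 * φ h) = 1 ↔
      z * (x * z * x⁻¹) * (z * (x * z * x⁻¹)) * (z * (x * z * x⁻¹)) = 1 := fun h => by
    rw [← hfz, ← map_mul, ← map_mul, ← map_mul, map_eq_one_iff f hf, Subtype.ext_iff]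
    show z * ((h : G) * (x * z * x⁻¹) * (h : G)⁻¹) * (z * ((h : G) * (x * z * x⁻¹) * (h : G)⁻¹)) *
      (z * ((h : G) * (x * z * x⁻¹) * (h : G)⁻¹)) = 1 ↔ _
    have e1 : z * ((h : G) * (x * z * x⁻¹) * (h : G)⁻¹) =
        (h : G) * (z * (x * z * x⁻¹)) * (h : G)⁻¹ := by
      rw [← mul_assoc, ← mul_assoc, ← hzc h h.2]
      group
    rw [e1]
    generalize z * (x * z * x⁻¹) = y
    constructor
    · intro h1
      calc y * y * y = (h : G)⁻¹ * ((h : G) * y * (h : G)⁻¹ * ((h : G) * y * (h : G)⁻¹) *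
          ((h : G) * y * (h : G)⁻¹)) * h := by group
        _ = 1 := by rw [h1]; group
    · intro h1
      calc _ = (h : G) * (y * y * y) * (h : G)⁻¹ := by group
        _ = 1 := by rw [h1]; group
  have hcard : ∀ S : Finset (Equiv.Perm (Fin 6)), (∀ h, φ h ∈ S) → 32 ≤ S.card := fun S hS => by
    have := Nat.card_le_card_of_injective (fun h => (⟨φ h, hS h⟩ : S))
      (fun a b hab => hφ (congrArg Subtype.val hab))
    rw [Nat.card_eq_fintype_card (α := S), Fintype.card_coe] at this
    exact hH.trans this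
  by_cases hy : z * (x * z * x⁻¹) * (z * (x * z * x⁻¹)) * (z * (x * z * x⁻¹)) = 1
  · refine absurd ((hcard _ fun h => ?_).trans compB) (by norm_num)
    exact Finset.mem_filter.2 ⟨Finset.mem_univ _, hsq h, (hcube h).2 hy⟩
  · refine absurd ((hcard _ fun h => ?_).trans compC) (by norm_num)
    exact Finset.mem_filter.2 ⟨Finset.mem_univ _, hsq h, hs _, fun h' => hy ((hcube h).1 h')⟩

end Cfsg.Agent.S2488
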