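import Cfsg.Statements.S2493
import Cfsg.Agent.Lib.AltCover.Mult

set_option autoImplicit false
open Cfsg

namespace Cfsg.Agent.S2493

open Equiv Equiv.Perm Finset CfsgLib.AltCover CfsgLib.Schur

theorem cyc {C : Type*} [Group C] [Fintype C] [DecidableEq C] (g : C) (hg : ∀ u, u ∈ Subgroup.zpowers g)
    (h1 : g ≠ 1) : ∃ r s : Perm C, r * r = 1 ∧ s * s = 1 ∧ r * s = Equiv.mulLeft g ∧ r.support ≠ s.support ∧
      #s.support = #r.support + if Even (Fintype.card C) then 2 else 0 := by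
  have : IsCyclic C := ⟨g, hg⟩
  have hc : ∀ a b : C, a * b = b * a := fun a b => (IsCyclic.commGroup (α := C)).mul_comm a b
  have hr : Equiv.inv C * Equiv.inv C = 1 := by ext u; simp
  have hs : Equiv.inv C * Equiv.mulLeft g * (Equiv.inv C * Equiv.mulLeft g) = 1 := by
    ext u; simp [hc g u]
  refine ⟨Equiv.inv C, Equiv.inv C * Equiv.mulLeft g, hr, hs, by rw [← mul_assoc, hr, one_mul], fun e => ?_, ?_⟩
  · have : (1 : C) ∈ (Equiv.inv C * Equiv.mulLeft g).support := by simpa using h1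
    rw [← e] at this
    simp at this
  have e1 : (Equiv.inv C).support = (univ.filter fun u : C => u ^ 2 = 1)ᶜ := by
    ext u; simp [sq, inv_eq_iff_mul_eq_one]
  have e2 : (Equiv.inv C * Equiv.mulLeft g).support = (univ.filter fun u : C => u ^ 2 = g⁻¹)ᶜ := by
    ext u
    simp only [mem_support, coe_mul, Function.comp_apply, coe_mulLeft, Equiv.inv_apply, mem_compl, mem_filter,
      mem_univ, true_and, ne_eq, sq, inv_eq_iff_mul_eq_one, eq_inv_iff_mul_eq_one]
    rw [hc g u, mul_assoc, mul_assoc, hc g u]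
  split_ifs with h2
  · have h3 : (univ.filter fun u : C => u ^ 2 = g⁻¹) = ∅ := by
      refine eq_empty_of_forall_notMem fun u hu => ?_
      obtain ⟨j, rfl⟩ := hg u
      have h4 : g ^ (j * 2 + 1) = 1 := by
        rw [zpow_add_one, zpow_mul, zpow_ofNat, (mem_filter.1 hu).2, inv_mul_cancel]
      rw [← orderOf_dvd_iff_zpow_eq_one, orderOf_eq_card_of_forall_mem_zpowers hg, Nat.card_eq_fintype_card] at h4
      obtain ⟨k, hk⟩ := h2
      obtain ⟨l, hl⟩ := h4
      rw [hk] at hl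
      push_cast at hl
      rw [← two_mul, mul_assoc] at hl
      omega
    have h4 := IsCyclic.card_pow_eq_one_le (α := C) (n := 2) two_pos
    have h5 : 0 < #(univ.filter fun u : C => u ^ 2 = 1) := card_pos.2 ⟨1, by simp⟩
    have h6 := two_dvd_card_support (σ := Equiv.inv C) (by rw [sq, hr])
    have h7 := card_le_univ (univ.filter fun u : C => u ^ 2 = 1)
    rw [e1, card_compl] at h6
    rw [e2, e1, h3, card_compl, card_compl, card_empty]
    obtain ⟨k, hk⟩ := h2
    omega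
  · have h3 : (Nat.card C).Coprime 2 := by
      rw [Nat.card_eq_fintype_card]; exact (Nat.not_even_iff_odd.1 h2).coprime_two_right
    have h4 : ∀ y : C, #(univ.filter fun u : C => u ^ 2 = y) = 1 := fun y =>
      card_eq_one.2 ⟨(powCoprime h3).symm y, by
        ext u
        simp only [mem_filter, mem_univ, true_and, mem_singleton, Equiv.eq_symm_apply, powCoprime_apply]⟩
    rw [e1, e2, card_compl, card_compl, h4, h4, add_zero]

section
variable {α : Type*} [Fintype α] [DecidableEq α]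

/-- a product of two involutions -/
def D (σ : Perm α) (i : ℤ) : Prop := ∃ r s : Perm α, r * r = 1 ∧ s * s = 1 ∧ r * s = σ ∧ r.support ⊆ σ.support ∧
  s.support ⊆ σ.support ∧ (#s.support : ℤ) = #r.support + i ∧ (σ ≠ 1 → r.support ≠ s.support)

theorem D.inv {σ : Perm α} {i : ℤ} (h : D σ⁻¹ i) : D σ (-i) := by
  obtain ⟨r, s, h1, h2, h3, h4, h5, h6, h7⟩ := h
  rw [support_inv] at h4 h5
  refine ⟨s, r, h2, h1, ?_, h5, h4, by omega, fun e => (h7 (inv_ne_one.2 e)).symm⟩
  rw [← inv_inv σ, ← h3, mul_inv_rev, inv_eq_of_mul_eq_one_right h1, inv_eq_of_mul_eq_one_right h2]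

theorem D.cycle {σ : Perm α} (h : σ.IsCycle) : D σ (if Even #σ.support then 2 else 0) := by
  classical
  let g : Subgroup.zpowers σ := ⟨σ, Subgroup.mem_zpowers σ⟩
  obtain ⟨r, s, h1, h2, h3, h4, h5⟩ := cyc g (fun ⟨u, k, hk⟩ => ⟨k, Subtype.ext hk⟩)
    fun e => h.ne_one (congrArg Subtype.val e)
  let f := h.zpowersEquivSupport
  have sub : ∀ r : Perm (Subgroup.zpowers σ), (r.extendDomain f).support ⊆ σ.support := fun r x hx => by
    by_contra e
    exact mem_support.1 hx (extendDomain_apply_not_subtype r f e)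
  refine ⟨r.extendDomain f, s.extendDomain f, by rw [extendDomain_mul, h1, extendDomain_one],
    by rw [extendDomain_mul, h2, extendDomain_one], ?_, sub r, sub s, ?_, fun _ e => h4 ?_⟩
  · rw [extendDomain_mul, h3]
    ext x
    by_cases e : x ∈ σ.support
    · obtain ⟨u, hu⟩ := f.surjective ⟨x, e⟩
      rw [show x = f u from (congrArg Subtype.val hu).symm, extendDomain_apply_image]
      rfl
    · rw [extendDomain_apply_not_subtype _ f e, notMem_support.1 e]
  · rw [card_support_extend_domain, card_support_extend_domain, h5, Fintype.card_congr f, Fintype.card_coe]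
    split_ifs <;> rfl
  · rw [support_extend_domain, support_extend_domain] at e
    exact map_injective _ e

theorem D.mul {σ τ : Perm α} {i j : ℤ} (hd : Perm.Disjoint σ τ) (h0 : σ ≠ 1) (h : D σ i) (h' : D τ j) :
    D (σ * τ) (i + j) := by
  obtain ⟨r, s, h1, h2, h3, h4, h5, h6, h7⟩ := h
  obtain ⟨r', s', k1, k2, k3, k4, k5, k6, -⟩ := h'
  have d1 := hd.mono h4 k4
  have d2 := hd.mono h5 k5
  have d3 := hd.mono h5 k4
  refine ⟨r * r', s * s', by rw [← d1.commute.mul_mul_mul_comm, h1, k1, one_mul],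
    by rw [← d2.commute.mul_mul_mul_comm, h2, k2, one_mul], by rw [← d3.commute.mul_mul_mul_comm, h3, k3], ?_, ?_,
    ?_, fun _ e => h7 h0 ?_⟩
  · rw [d1.support_mul, hd.support_mul]; exact union_subset_union h4 k4
  · rw [d2.support_mul, hd.support_mul]; exact union_subset_union h5 k5
  · rw [d1.card_support_mul, d2.card_support_mul]; push_cast; omega
  · rw [d1.support_mul, d2.support_mul] at e
    have key : ∀ {a b a' b' : Finset α}, a ⊆ σ.support → b' ⊆ τ.support → a ∪ b = a' ∪ b' → a ⊆ a' :=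
      fun ha hb e x hx => (mem_union.1 (e ▸ mem_union_left _ hx)).resolve_right fun h =>
        disjoint_left.1 hd.disjoint_support (ha hx) (hb h)
    exact Subset.antisymm (key h4 k5 e) (key h5 k4 e.symm)

theorem D.all (σ : Perm α) : (sign σ = 1 → D σ 0) ∧ (sign σ = -1 → D σ 2 ∧ D σ (-2)) := by
  induction σ using cycle_induction_on with
  | base_one => exact ⟨fun _ => ⟨1, 1, by simp⟩, fun h => absurd h (by simp)⟩
  | base_cycles σ h =>
    have h1 := D.cycle h
    have h2 := D.cycle h.inv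
    rw [support_inv] at h2
    rw [h.sign]
    split_ifs at h1 h2 with e
    · rw [e.neg_one_pow]; exact ⟨fun h => absurd h (by decide), fun _ => ⟨h1, h2.inv⟩⟩
    · rw [(Nat.not_even_iff_odd.1 e).neg_one_pow]; exact ⟨fun _ => h1, fun h => absurd h (by decide)⟩
  | induction_disjoint σ τ hd hc h1 h2 =>
    rw [map_mul]
    rcases Int.units_eq_one_or (sign σ) with e | e <;> rcases Int.units_eq_one_or (sign τ) with e' | e' <;>
      rw [e, e'] <;> refine ⟨fun h => ?_, fun h => ?_⟩ <;> first | exact absurd h (by decide) | skip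
    · exact D.mul hd hc.ne_one (h1.1 e) (h2.1 e')
    · exact ⟨D.mul hd hc.ne_one (h1.1 e) (h2.2 e').1, D.mul hd hc.ne_one (h1.1 e) (h2.2 e').2⟩
    · exact ⟨D.mul hd hc.ne_one (h1.2 e).1 (h2.1 e'), D.mul hd hc.ne_one (h1.2 e).2 (h2.1 e')⟩
    · exact D.mul hd hc.ne_one (h1.2 e).1 (h2.2 e').2

theorem conj_of_card {r s : Perm α} (hr : r * r = 1) (hs : s * s = 1) (h : #r.support = #s.support) : IsConj r s := by
  have h1 := cycleType_of_pow_prime_eq_one (p := 2) (σ := r) (by rw [sq, hr])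
  have h2 := cycleType_of_pow_prime_eq_one (p := 2) (σ := s) (by rw [sq, hs])
  rw [← sum_cycleType, ← sum_cycleType, h1, h2, Multiset.sum_replicate, Multiset.sum_replicate, smul_eq_mul,
    smul_eq_mul] at h
  rw [isConj_iff_cycleType_eq, h1, h2]
  congr 1
  omega

/-- two of the cycles are transpositions -/
def Good (x : Perm α) : Prop := ∃ a b c d, a ≠ b ∧ a ≠ c ∧ a ≠ d ∧ b ≠ c ∧ b ≠ d ∧ c ≠ d ∧
  x a = b ∧ x b = a ∧ x c = d ∧ x d = c

theorem good_of_inv {r : Perm α} (hr : r * r = 1) (h : 3 ≤ #r.support) : ∃ a ∈ r.support, ∃ c ∈ r.support,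
    a ≠ r a ∧ a ≠ c ∧ a ≠ r c ∧ r a ≠ c ∧ r a ≠ r c ∧ c ≠ r c ∧ r (r a) = a ∧ r (r c) = c := by
  have h0 : ∀ x, r (r x) = x := fun x => by rw [← Perm.mul_apply, hr]; rfl
  obtain ⟨a, ha⟩ : r.support.Nonempty := card_pos.1 (by omega)
  obtain ⟨c, hc, h1⟩ := exists_mem_notMem_of_card_lt_card (s := {a, r a}) (t := r.support)
    (card_le_two.trans_lt h)
  simp only [mem_insert, mem_singleton, not_or] at h1
  exact ⟨a, ha, c, hc, (mem_support.1 ha).symm, Ne.symm h1.1, fun e => h1.2 (by rw [e, h0]), Ne.symm h1.2,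
    fun e => h1.1 (r.injective e).symm, (mem_support.1 hc).symm, h0 a, h0 c⟩

theorem good_inv {r : Perm α} (hr : r * r = 1) (h : 3 ≤ #r.support) : Good r := by
  obtain ⟨a, -, c, -, h1, h2, h3, h4, h5, h6, h7, h8⟩ := good_of_inv hr h
  exact ⟨a, r a, c, r c, h1, h2, h3, h4, h5, h6, rfl, h7, rfl, h8⟩

theorem split_inv {r : Perm α} (hr : r * r = 1) {a b : α} (ha : a ∉ r.support) (hb : b ∈ r.support) :
    ∃ t r', IsThreeCycle t ∧ r' * r' = 1 ∧ Perm.Disjoint t r' ∧ #r.support = #r'.support + 2 ∧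
      swap a b * r = t * r' := by
  have h0 : ∀ x, r (r x) = x := fun x => by rw [← Perm.mul_apply, hr]; rfl
  have h1 := notMem_support.1 ha
  have h2 := mem_support.1 hb
  have h3 : a ≠ b := fun e => ha (e ▸ hb)
  have h4 : a ≠ r b := fun e => h3 (by rw [← h1, e, h0])
  have hc : Commute (swap b (r b)) r := by
    rw [Commute, SemiconjBy, mul_swap_eq_swap_mul, h0, swap_comm]
  have f1 : (swap b (r b) * r) a = a := by rw [Perm.mul_apply, h1, swap_apply_of_ne_of_ne h3 h4]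
  have f2 : (swap b (r b) * r) b = b := by rw [Perm.mul_apply, swap_apply_right]
  have f3 : (swap b (r b) * r) (r b) = r b := by rw [Perm.mul_apply, h0, swap_apply_left]
  have d1 : Perm.Disjoint (swap b (r b)) (swap b (r b) * r) := fun x => by
    by_cases e1 : x = b
    · exact .inr (e1 ▸ f2)
    by_cases e2 : x = r b
    · exact .inr (e2 ▸ f3)
    exact .inl (swap_apply_of_ne_of_ne e1 e2)
  have d2 : Perm.Disjoint (swap b a) (swap b (r b) * r) := fun x => by
    by_cases e1 : x = b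
    · exact .inr (e1 ▸ f2)
    by_cases e2 : x = a
    · exact .inr (e2 ▸ f1)
    exact .inl (swap_apply_of_ne_of_ne e1 e2)
  refine ⟨swap b a * swap b (r b), swap b (r b) * r, isThreeCycle_swap_mul_swap_same h3.symm h2.symm h4,
    by rw [← hc.mul_mul_mul_comm, swap_mul_self, hr, one_mul], d2.mul_left d1, ?_, ?_⟩
  · have := d1.card_support_mul
    rw [swap_mul_self_mul, card_support_swap h2.symm] at this
    omega
  · rw [mul_assoc, swap_mul_self_mul, swap_comm]

theorem good_swaps {a b c d : α} (h1 : a ≠ b) (h2 : a ≠ c) (h3 : a ≠ d) (h4 : b ≠ c) (h5 : b ≠ d) (h6 : c ≠ d) :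
    Good (swap a b * swap c d) ∧ sign (swap a b * swap c d) = 1 ∧
      swap a b * swap c d * (swap a b * swap c d) = 1 ∧ #(swap a b * swap c d).support = 4 := by
  have d1 : Perm.Disjoint (swap a b) (swap c d) := disjoint_swap_swap (by simp [h1, h2, h3, h4, h5, h6])
  refine ⟨⟨a, b, c, d, h1, h2, h3, h4, h5, h6, ?_, ?_, ?_, ?_⟩, by simp [h1, h6], ?_, ?_⟩
  · rw [Perm.mul_apply, swap_apply_of_ne_of_ne h2 h3, swap_apply_left]
  · rw [Perm.mul_apply, swap_apply_of_ne_of_ne h4 h5, swap_apply_right]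
  · rw [Perm.mul_apply, swap_apply_left, swap_apply_of_ne_of_ne h3.symm h5.symm]
  · rw [Perm.mul_apply, swap_apply_right, swap_apply_of_ne_of_ne h2.symm h4.symm]
  · rw [← d1.commute.mul_mul_mul_comm, swap_mul_self, swap_mul_self, one_mul]
  · rw [d1.card_support_mul, card_support_swap h1, card_support_swap h6]

omit [Fintype α] in
theorem klein {a b c d : α} (h1 : a ≠ b) (h2 : a ≠ c) (h3 : a ≠ d) (h4 : b ≠ c) (h5 : b ≠ d) (h6 : c ≠ d) :
    swap a b * swap c d * (swap a c * swap b d) = swap a d * swap b c := by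
  ext x
  simp only [Perm.mul_apply, swap_apply_def]
  split_ifs <;> simp_all

theorem two_out (hn : 5 ≤ Fintype.card α) (s : Finset α) (hs : #s ≤ 3) : ∃ e f, e ≠ f ∧ e ∉ s ∧ f ∉ s := by
  obtain ⟨e, he, f, hf, h⟩ := one_lt_card.1 (show 1 < #sᶜ by rw [card_compl]; omega)
  exact ⟨e, f, h, mem_compl.1 he, mem_compl.1 hf⟩

theorem decomp (hn : 5 ≤ Fintype.card α) {σ : Perm α} (hσ : sign σ = 1) :
    ∃ x y, sign x = 1 ∧ Good x ∧ IsConj x⁻¹ y ∧ x * y = σ := by
  obtain ⟨r, s, h1, h2, h3, -, -, h6, h7⟩ := (D.all σ).1 hσ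
  have h8 : #r.support = #s.support := by omega
  have inv : ∀ {x : Perm α}, x * x = 1 → x⁻¹ = x := inv_eq_of_mul_eq_one_right
  by_cases h0 : σ = 1
  · obtain ⟨a, b, h, -⟩ := two_out hn ∅ (by simp)
    obtain ⟨c, d, h', hc, hd⟩ := two_out hn {a, b} (card_le_two.trans (by norm_num))
    simp only [mem_insert, mem_singleton, not_or] at hc hd
    obtain ⟨g1, g2, -⟩ := good_swaps h (Ne.symm hc.1) (Ne.symm hd.1) (Ne.symm hc.2) (Ne.symm hd.2) h'
    exact ⟨_, _, g2, g1, IsConj.refl _, by rw [mul_inv_cancel, h0]⟩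
  have h9 : r ≠ 1 := by
    rintro rfl
    rw [support_one, card_empty, eq_comm, card_support_eq_zero] at h8
    exact h0 (by rw [← h3, h8, one_mul])
  by_cases k2 : #r.support = 2
  · obtain ⟨a, b, ab, rfl⟩ := card_support_eq_two.1 k2
    obtain ⟨c, d, cd, rfl⟩ := card_support_eq_two.1 (h8 ▸ k2)
    by_cases k3 : #({a, b, c, d} : Finset α) ≤ 3
    · obtain ⟨e, f, ef, he, hf⟩ := two_out hn _ k3
      simp only [mem_insert, mem_singleton, not_or] at he hf
      obtain ⟨g1, g2, g3, g4⟩ := good_swaps ab (Ne.symm he.1) (Ne.symm hf.1) (Ne.symm he.2.1) (Ne.symm hf.2.1) ef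
      obtain ⟨-, -, g5, g6⟩ := good_swaps ef he.2.2.1 he.2.2.2 hf.2.2.1 hf.2.2.2 cd
      exact ⟨_, _, g2, g1, (inv g3).symm ▸ conj_of_card g3 g5 (g4.trans g6.symm),
        by rw [mul_assoc, swap_mul_self_mul, h3]⟩
    · have k4 : ∀ x y z : α, ({a, b, c, d} : Finset α) ⊆ {x, y, z} → False := fun x y z h =>
        k3 ((card_le_card h).trans card_le_three)
      have ac : a ≠ c := fun e => k4 a b d (by simp [← e, subset_iff])
      have ad : a ≠ d := fun e => k4 a b c (by simp [← e, subset_iff])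
      have bc : b ≠ c := fun e => k4 a b d (by simp [← e, subset_iff])
      have bd : b ≠ d := fun e => k4 a b c (by simp [← e, subset_iff])
      obtain ⟨g1, g2, g3, g4⟩ := good_swaps ac ad ab cd bc.symm bd.symm
      obtain ⟨-, -, g5, g6⟩ := good_swaps ad ac ab cd.symm bd.symm bc.symm
      exact ⟨_, _, g2, g1, (inv g3).symm ▸ conj_of_card g3 g5 (g4.trans g6.symm),
        by rw [klein ac ad ab cd bc.symm bd.symm, h3]⟩
  have k3 : 3 ≤ #r.support := by have := two_le_card_support_of_ne_one h9; omega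
  rcases Int.units_eq_one_or (sign r) with e | e
  · exact ⟨r, s, e, good_inv h1 k3, (inv h1).symm ▸ conj_of_card h1 h2 h8, h3⟩
  obtain ⟨b, hb, hb'⟩ : ∃ b ∈ r.support, b ∉ s.support :=
    not_subset.1 fun h => h7 h0 (eq_of_subset_of_card_le h h8.ge)
  obtain ⟨a, ha, ha'⟩ : ∃ a ∈ s.support, a ∉ r.support :=
    not_subset.1 fun h => h7 h0 (eq_of_subset_of_card_le h h8.le).symm
  obtain ⟨t, r', t1, t2, t3, t4, t5⟩ := split_inv h1 ha' hb
  obtain ⟨u, s', u1, u2, u3, u4, u5⟩ := split_inv h2 hb' ha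
  have ab : a ≠ b := fun e => ha' (e ▸ hb)
  have e1 : (r * swap a b)⁻¹ = t * r' := by rw [mul_inv_rev, swap_inv, inv h1, t5]
  have e2 : sign r' = 1 := by
    have := congrArg sign t5
    rwa [map_mul, map_mul, sign_swap ab, e, t1.sign, one_mul, eq_comm] at this
  have k4 : 3 ≤ #r'.support := by
    have h10 : #r'.support ≠ 2 := fun h => by
      rw [(card_support_eq_two.1 h).sign_eq] at e2; exact absurd e2 (by decide)
    have h11 := card_support_ne_one r'
    omega
  refine ⟨r * swap a b, swap b a * s, by rw [map_mul, e, sign_swap ab]; rfl, ?_, ?_,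
    by rw [swap_comm b, mul_assoc, swap_mul_self_mul, h3]⟩
  · obtain ⟨c, hc, d, hd, g1, g2, g3, g4, g5, g6, g7, g8⟩ := good_of_inv t2 k4
    have fx : ∀ x ∈ r'.support, (r * swap a b) (r' x) = x := fun x hx => by
      rw [← Perm.eq_inv_iff_eq, e1, t3.commute.eq, Perm.mul_apply, (t3 x).resolve_right (mem_support.1 hx)]
    have fy : ∀ x ∈ r'.support, r' (r' x) = x → (r * swap a b) x = r' x := fun x hx h => by
      have := fx (r' x) (apply_mem_support.2 hx)
      rwa [h] at this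
    exact ⟨c, r' c, d, r' d, g1, g2, g3, g4, g5, g6, fy c hc g7, fx c hc, fy d hd g8, fx d hd⟩
  · rw [e1, u5]
    exact Disjoint.isConj_mul (isConj_iff_cycleType_eq.2 (t1.cycleType.trans u1.cycleType.symm))
      (conj_of_card t2 u2 (by omega)) t3 u3

theorem even_conj {x y : Perm α} {a b : α} (ab : a ≠ b) (h : Commute x (swap a b)) (hc : IsConj x y) :
    ∃ k, sign k = 1 ∧ k * x * k⁻¹ = y := by
  obtain ⟨k, hk⟩ := isConj_iff.1 hc
  rcases Int.units_eq_one_or (sign k) with e | e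
  · exact ⟨k, e, hk⟩
  · refine ⟨k * swap a b, by rw [map_mul, e, sign_swap ab]; rfl, ?_⟩
    rw [mul_assoc k, ← h.eq, mul_inv_rev, ← hk]
    simp only [mul_assoc, mul_inv_cancel_left]

end

section
variable {G : Type*} [Group G] [Finite G] {m : ℕ} {σ : G →* alternatingGroup (Fin (m + 1))}

theorem sq_ne (hm : 4 ≤ m) (hperf : commutator G = ⊤) (hσ : IsCentralExt σ) (h2 : ∀ z, σ z = 1 → z * z = 1)
    {z : G} (hz : σ z = 1) (hz1 : z ≠ 1) {w : G} (hw : (σ w : Perm (Fin (m + 1))) * σ w = 1)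
    (hw' : #(σ w : Perm (Fin (m + 1))).support = 4) : w * w ≠ 1 := by
  have hZ : NoTors σ 3 := fun z h1 h3 => by rwa [pow_succ, sq, h2 z h1, one_mul] at h3
  obtain ⟨x, y, hx, hy⟩ := exists_isV_pair (by omega) hσ hZ
  have n : ∀ i j, i ≤ 3 → j ≤ 3 → i ≠ j → P m i ≠ P m j := fun i j _ _ h => P_ne (by omega) (by omega) h
  have e1 := hx.word hy (n 2 0 (by omega) (by omega) (by omega)) (n 2 1 (by omega) (by omega) (by omega))
    (n 3 0 (by omega) (by omega) (by omega)) (n 3 1 (by omega) (by omega) (by omega))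
    (n 2 3 (by omega) (by omega) (by omega))
  obtain ⟨-, -, g3, g4⟩ := good_swaps (n 0 1 (by omega) (by omega) (by omega)) (n 0 2 (by omega) (by omega) (by omega))
    (n 0 3 (by omega) (by omega) (by omega)) (n 1 2 (by omega) (by omega) (by omega))
    (n 1 3 (by omega) (by omega) (by omega)) (n 2 3 (by omega) (by omega) (by omega))
  obtain ⟨k, hk, e2⟩ := even_conj (n 0 1 (by omega) (by omega) (by omega)) (Commute.mul_left (Commute.refl _)
    (disjoint_swap_swap (by
      simp [n 0 1, n 2 0, n 2 1, n 3 0, n 3 1, n 2 3])).commute) (conj_of_card g3 hw (g4.trans hw'.symm))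
  obtain ⟨k', hk'⟩ := hσ.surj ⟨k, hk⟩
  intro h3
  have e3 : σ ((x⁻¹ * y * x⁻¹)⁻¹ * (k'⁻¹ * w * k')) = 1 := Subtype.ext (by
    rw [map_mul, map_inv, map_mul σ (k'⁻¹ * w), map_mul σ k'⁻¹, map_inv, hk']
    simp only [Subgroup.coe_mul, Subgroup.coe_inv, e1, ← e2, Subgroup.coe_one]
    group)
  have e4 : (x * y) ^ 2 = 1 := by
    rw [← hx.word_sq hσ (by omega) hy]
    generalize x⁻¹ * y * x⁻¹ = u at e3
    have e5 : k'⁻¹ * w * k' * (k'⁻¹ * w * k') = 1 := by
      rw [show k'⁻¹ * w * k' * (k'⁻¹ * w * k') = k'⁻¹ * (w * w) * k' by group, h3]; group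
    generalize k'⁻¹ * w * k' = v at e3 e5
    obtain ⟨c, rfl⟩ : ∃ c, v = u * c := ⟨u⁻¹ * v, by group⟩
    rw [inv_mul_cancel_left] at e3
    rwa [← (Commute.symm (hσ.comm e3 u)).symm.mul_mul_mul_comm, h2 c e3, mul_one, ← sq] at e5
  obtain ⟨s, hs⟩ := exists_section_three (by omega) hσ hZ hx hy e4
  have hs' : ∀ g, σ (s g) = g := fun g => DFunLike.congr_fun hs g
  have kk : ∀ g, σ (g * (s (σ g))⁻¹) = 1 := fun g => by rw [map_mul, map_inv, hs', mul_inv_cancel]
  let φ : G →* G := MonoidHom.mk' (fun g => g * (s (σ g))⁻¹) fun a b => by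
    rw [map_mul, map_mul, mul_inv_rev, mul_assoc a _ (b * _), hσ.comm (kk b) (s (σ a))⁻¹]
    group
  have : commutator G ≤ φ.ker := by
    rw [commutator_def, Subgroup.commutator_le]
    intro a _ b _
    rw [MonoidHom.mem_ker, map_commutatorElement, commutatorElement_eq_one_iff_mul_comm]
    exact hσ.comm (kk b) _
  have h4 : z * (s (σ z))⁻¹ = 1 := this (hperf ▸ Subgroup.mem_top z)
  rw [hz, map_one, inv_one, mul_one] at h4
  exact hz1 h4

theorem comm_three (hσ : IsCentralExt σ) (h2 : ∀ z, σ z = 1 → z * z = 1) {t w : G} (ht : σ t ^ 3 = 1)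
    (hc : σ t * σ w = σ w * σ t) : Commute t w := by
  have h1 : σ (w⁻¹ * (t * w * t⁻¹)) = 1 := by
    rw [map_mul, map_mul, map_mul, hc, map_inv, map_inv]; group
  obtain ⟨c, e⟩ : ∃ c, t * w * t⁻¹ = w * c := ⟨w⁻¹ * (t * w * t⁻¹), by group⟩
  rw [e, inv_mul_cancel_left] at h1
  have h3 : t * (w * c) * t⁻¹ = w := by
    rw [← mul_assoc, mul_assoc _ c, ← hσ.comm h1 t⁻¹, ← mul_assoc, e, mul_assoc, h2 c h1, mul_one]
  have h4 : t ^ 3 * w * (t ^ 3)⁻¹ = w * c := by
    rw [← e]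
    nth_rewrite 2 [← h3]
    rw [← e]
    simp only [pow_succ, pow_zero, one_mul, mul_inv_rev, mul_assoc]
  rw [← hσ.comm (show σ (t ^ 3) = 1 by rwa [map_pow]) w, mul_inv_cancel_right, ← e] at h4
  exact mul_inv_eq_iff_eq_mul.1 h4.symm

theorem flip (hm : 4 ≤ m) (hperf : commutator G = ⊤) (hσ : IsCentralExt σ) {z : G} (hz : σ z = 1) (hz1 : z ≠ 1)
    (hk : ∀ c, σ c = 1 → c = 1 ∨ c = z) {x : G} (hx : Good (σ x : Perm (Fin (m + 1)))) :
    ∃ v, v * x * v⁻¹ = x * z := by
  have zz : z * z = 1 := (hk _ (by rw [map_mul, hz, one_mul])).resolve_right fun e => hz1 (mul_eq_left.1 e)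
  have h2 : ∀ c, σ c = 1 → c * c = 1 := fun c hc => by rcases hk c hc with rfl | rfl; exacts [one_mul _, zz]
  have sq : ∀ w, (σ w : Perm (Fin (m + 1))) * σ w = 1 → #(σ w : Perm (Fin (m + 1))).support = 4 → w * w = z :=
    fun w h3 h4 => (hk _ (Subtype.ext (by rw [map_mul]; exact h3))).resolve_left
      (sq_ne hm hperf hσ h2 hz hz1 h3 h4)
  obtain ⟨a, b, c, d, ab, ac, ad, bc, bd, cd, x1, x2, x3, x4⟩ := hx
  obtain ⟨-, g1, g2, g3⟩ := good_swaps ab ac ad bc bd cd
  obtain ⟨-, -, g5, g6⟩ := good_swaps ac ab ad bc.symm cd bd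
  obtain ⟨-, -, g7, g8⟩ := good_swaps ad ab ac bd.symm cd.symm bc
  have t1 := isThreeCycle_swap_mul_swap_same ac ab bc.symm
  have t2 := isThreeCycle_swap_mul_swap_same ab.symm bd ad
  obtain ⟨u, hu⟩ := hσ.surj ⟨_, g1⟩
  obtain ⟨p, hp⟩ := hσ.surj ⟨_, t1.mem_alternatingGroup⟩
  obtain ⟨q, hq⟩ := hσ.surj ⟨_, t2.mem_alternatingGroup⟩
  have eu : (σ u : Perm (Fin (m + 1))) = swap a b * swap c d := congrArg Subtype.val hu
  have ep : (σ p : Perm (Fin (m + 1))) = swap a c * swap a b := congrArg Subtype.val hp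
  have eq : (σ q : Perm (Fin (m + 1))) = swap b a * swap b d := congrArg Subtype.val hq
  have ev : (σ (p * q) : Perm (Fin (m + 1))) = swap a c * swap b d := by
    rw [map_mul, Subgroup.coe_mul, ep, eq, swap_comm b a, mul_assoc, swap_mul_self_mul]
  have euv : (σ (u * (p * q)) : Perm (Fin (m + 1))) = swap a d * swap b c := by
    rw [map_mul, Subgroup.coe_mul, eu, ev, klein ab ac ad bc bd cd]
  have fw : ∀ y, y = a ∨ y = b ∨ y = c ∨ y = d → (σ (u⁻¹ * x) : Perm (Fin (m + 1))) y = y := by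
    intro y hy
    rw [map_mul, map_inv, Subgroup.coe_mul, Subgroup.coe_inv, eu, Perm.mul_apply, Perm.inv_eq_iff_eq, Perm.mul_apply]
    rcases hy with rfl | rfl | rfl | rfl
    · rw [x1, swap_apply_of_ne_of_ne ac ad, swap_apply_left]
    · rw [x2, swap_apply_of_ne_of_ne bc bd, swap_apply_right]
    · rw [x3, swap_apply_left, swap_apply_of_ne_of_ne ad.symm bd.symm]
    · rw [x4, swap_apply_right, swap_apply_of_ne_of_ne ac.symm bc.symm]
  have dj : ∀ y y', (y = a ∨ y = b ∨ y = c ∨ y = d) → (y' = a ∨ y' = b ∨ y' = c ∨ y' = d) →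
      Commute (swap y y') (σ (u⁻¹ * x) : Perm (Fin (m + 1))) := fun y y' h h' => by
    rw [Commute, SemiconjBy, mul_swap_eq_swap_mul, fw y h, fw y' h']
  have c1 : Commute p (u⁻¹ * x) := comm_three hσ h2 (Subtype.ext (by
    rw [Subgroup.coe_pow, ep, ← t1.orderOf, pow_orderOf_eq_one]; rfl)) (Subtype.ext (by
    rw [Subgroup.coe_mul, Subgroup.coe_mul, ep]
    exact ((dj a c (by simp) (by simp)).mul_left (dj a b (by simp) (by simp))).eq))
  have c2 : Commute q (u⁻¹ * x) := comm_three hσ h2 (Subtype.ext (by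
    rw [Subgroup.coe_pow, eq, ← t2.orderOf, pow_orderOf_eq_one]; rfl)) (Subtype.ext (by
    rw [Subgroup.coe_mul, Subgroup.coe_mul, eq]
    exact ((dj b a (by simp) (by simp)).mul_left (dj b d (by simp) (by simp))).eq))
  have c3 := c1.mul_left c2
  have s1 := sq u (eu ▸ g2) (eu ▸ g3)
  have s2 := sq _ (ev ▸ g5) (ev ▸ g6)
  have s3 := sq _ (euv ▸ g7) (euv ▸ g8)
  generalize p * q = v at c3 s2 s3
  obtain ⟨w, rfl⟩ : ∃ w, x = u * w := ⟨u⁻¹ * x, by group⟩
  rw [inv_mul_cancel_left] at c3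
  have s4 : v * u * v = u := mul_left_cancel (a := u) (by rw [s1, ← s3]; simp only [mul_assoc])
  refine ⟨v, ?_⟩
  have s5 : v⁻¹ = v * z := by rw [inv_eq_iff_mul_eq_one, ← mul_assoc, s2, zz]
  rw [← mul_assoc, mul_assoc _ w, ← c3.inv_left.eq, s5, ← mul_assoc, ← mul_assoc, s4, mul_assoc, ← hσ.comm hz w,
    mul_assoc]

end

/-- Let n ≥ 5 and let G be a finite perfect group whose centre has order 2 with G/Z(G) isomorphic to the alternating group of degree n (the double cover of the alternating group). Then every element of G is a commutator. -/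
theorem result {G : Type*} [Group G] [Finite G] (hperf : commutator G = ⊤) {n : ℕ} (hn : 5 ≤ n)
    (hZ : Nat.card (Subgroup.center G) = 2) (e : G ⧸ Subgroup.center G ≃* alternatingGroup (Fin n))
    (g : G) :
    ∃ a b : G, a * b * a⁻¹ * b⁻¹ = g := by
  obtain ⟨m, rfl⟩ : ∃ m, n = m + 1 := ⟨n - 1, by omega⟩
  let σ : G →* alternatingGroup (Fin (m + 1)) := e.toMonoidHom.comp (QuotientGroup.mk' _)
  have hk : ∀ c, σ c = 1 ↔ c ∈ Subgroup.center G := fun c =>
    (e.map_eq_one_iff (x := QuotientGroup.mk c)).trans (QuotientGroup.eq_one_iff c)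
  have hσ : IsCentralExt σ := ⟨e.surjective.comp QuotientGroup.mk_surjective, fun c hc => (hk c).1 hc⟩
  obtain ⟨⟨z, hz⟩, h1, h2⟩ := (Nat.card_eq_two_iff' (1 : Subgroup.center G)).1 hZ
  have hz1 : z ≠ 1 := fun e => h1 (Subtype.ext e)
  have h3 : ∀ c, σ c = 1 → c = 1 ∨ c = z := fun c hc => by
    by_cases e : c = 1
    · exact .inl e
    · exact .inr (congrArg Subtype.val (h2 ⟨c, (hk c).1 hc⟩ fun e' => e (congrArg Subtype.val e')))
  obtain ⟨x, y, x1, x2, x3, x4⟩ := decomp (by rw [Fintype.card_fin]; omega) (σ g).2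
  obtain ⟨k, k1, k2⟩ : ∃ k, sign k = 1 ∧ k * x⁻¹ * k⁻¹ = y := by
    obtain ⟨a, b, -, -, ab, -, -, -, -, -, y1, y2, -⟩ := x2
    refine even_conj ab (Commute.inv_left ?_) x3
    rw [Commute, SemiconjBy, mul_swap_eq_swap_mul, y1, y2, swap_comm]
  obtain ⟨a, ha⟩ := hσ.surj ⟨x, x1⟩
  obtain ⟨b, hb⟩ := hσ.surj ⟨k, k1⟩
  have h4 : σ ((a * b * a⁻¹ * b⁻¹)⁻¹ * g) = 1 := by
    rw [map_mul, map_inv, inv_mul_eq_one, map_mul, map_mul, map_mul, map_inv, map_inv, ha, hb]
    exact Subtype.ext (by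
      simp only [Subgroup.coe_mul, Subgroup.coe_inv, ← x4, ← k2, mul_assoc])
  rcases h3 _ h4 with h5 | h5
  · exact ⟨a, b, inv_mul_eq_one.1 h5⟩
  · obtain ⟨v, hv⟩ := flip (by omega) hperf hσ ((hk z).2 hz) hz1 h3 (x := a) (ha ▸ x2)
    refine ⟨a, b * v, ?_⟩
    have zz : z * z = 1 :=
      (h3 _ (by rw [map_mul, (hk z).2 hz, one_mul])).resolve_right fun e => hz1 (mul_eq_left.1 e)
    have h6 : v * a⁻¹ * v⁻¹ = a⁻¹ * z := by
      rw [← inv_inj, mul_inv_rev, mul_inv_rev, mul_inv_rev, inv_inv, inv_inv, ← mul_assoc, hv,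
        inv_eq_of_mul_eq_one_right zz, Subgroup.mem_center_iff.1 hz a]
    rw [inv_mul_eq_iff_eq_mul.1 h5, mul_assoc _ b⁻¹, Subgroup.mem_center_iff.1 hz b⁻¹,
      show a * b * a⁻¹ * (z * b⁻¹) = a * b * (a⁻¹ * z) * b⁻¹ by group, ← h6]
    group

end Cfsg.Agent.S2493
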