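import Cfsg.Statements.S2495
import Cfsg.Agent.Lib.Spec.HalfTorus

set_option autoImplicit false
open Cfsg

namespace Cfsg.Agent.S2495

open CfsgLib.Spec


/-- Let q be an odd prime power, n ≥ 4 even, and L = PSL(n,q). Then L has an element of order q^(n/2) + 1 if and only if the 2-part of n exceeds the 2-part of q − 1. -/
theorem result {F : Type*} [Field F] [Fintype F] {q : ℕ} (hF : Fintype.card F = q) (hodd : Odd q)
    {n : ℕ} (hn : 4 ≤ n) (heven : Even n) :
    (∃ g : Matrix.ProjectiveSpecialLinearGroup (Fin n) F, orderOf g = q ^ (n / 2) + 1) ↔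
      padicValNat 2 (q - 1) < padicValNat 2 n := by
  classical
  obtain ⟨p, hp⟩ := CharP.exists F
  haveI := Fact.mk (CharP.char_is_prime F p)
  let K := AlgebraicClosure F
  haveI : CharP K p := charP_of_injective_algebraMap (algebraMap F K).injective p
  subst hF
  have hq : 1 < Fintype.card F := Fintype.one_lt_card
  obtain ⟨k, rfl⟩ := heven.two_dvd
  obtain ⟨r, hr, h1, h2⟩ := exists_zsig_pos hq hodd (k := k) (by omega)
  have h := half_torus_mem_iff (K := K) (Int.natCast_dvd_natCast.2 (char_dvd_card F p)) zfrob_injective (k := k)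
    (by omega) (by omega) (by positivity) hr h1 h2
  rw [← spectrum_psl_eq K p, show ((Fintype.card F : ℤ) - 1).natAbs = Fintype.card F - 1 by omega,
    show ((Fintype.card F : ℤ) ^ k + 1).natAbs = Fintype.card F ^ k + 1 by norm_cast] at h
  rw [← h, Nat.mul_div_cancel_left _ two_pos]
  exact ⟨fun h => ⟨_, h, dvd_rfl⟩, fun ⟨N, h1, h2⟩ => mem_spectrum_of_dvd h1 h2⟩

end Cfsg.Agent.S2495
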