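import Cfsg.Statements.S2496
import Cfsg.Agent.Lib.Spec.HalfTorus

set_option autoImplicit false
open Cfsg

namespace Cfsg.Agent.S2496

open CfsgLib.Spec


/-- Let q be an odd prime power, n ≥ 4 even, and U = PSU(n,q) (realised over the field with q² elements). Then U has an element of order q^(n/2) + (−1)^(n/2) — that is, q^(n/2) + 1 when n/2 is even and q^(n/2) − 1 when n/2 is odd — if and only if the 2-part of n exceeds the 2-part of q + 1. -/
theorem result {F : Type*} [Field F] [Fintype F] {q : ℕ} (hF : Fintype.card F = q ^ 2) (hodd : Odd q)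
    {n : ℕ} (hn : 4 ≤ n) (heven : Even n) :
    (∃ g : Cfsg.PSU n F q, orderOf g = if Even (n / 2) then q ^ (n / 2) + 1 else q ^ (n / 2) - 1) ↔
      padicValNat 2 (q + 1) < padicValNat 2 n := by
  classical
  obtain ⟨p, hp⟩ := CharP.exists F
  haveI := Fact.mk (CharP.char_is_prime F p)
  let K := AlgebraicClosure F
  haveI : CharP K p := charP_of_injective_algebraMap (algebraMap F K).injective p
  have hq : 1 < q := by
    have := Fintype.one_lt_card (α := F)
    rw [hF] at this
    exact (Nat.one_lt_pow_iff two_ne_zero).1 this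
  obtain ⟨k, rfl⟩ := heven.two_dvd
  obtain ⟨r, hr, h1, h2⟩ := exists_zsig_neg hq hodd (k := k) (by omega)
  have h3 : 1 < q ^ k := Nat.one_lt_pow (by omega) hq
  have h4 : ((-(q : ℤ)) ^ k + 1).natAbs = if Even k then q ^ k + 1 else q ^ k - 1 := by
    split_ifs with h
    · rw [h.neg_pow]; norm_cast
    · rw [(Nat.not_even_iff_odd.1 h).neg_pow, ← Nat.cast_pow]; omega
  have h := half_torus_mem_iff (K := K) (dvd_neg.2 (Int.natCast_dvd_natCast.2 (char_dvd_q hF p)))
    (ufrob_injective hF) (k := k) (by omega) (by omega) (by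
      rw [← Int.natAbs_ne_zero, h4]; split_ifs <;> omega) hr h1 h2
  rw [← spectrum_psu_eq hF K p (by omega), show (-(q : ℤ) - 1).natAbs = q + 1 by omega, h4] at h
  rw [← h, Nat.mul_div_cancel_left _ two_pos]
  exact ⟨fun h => ⟨_, h, dvd_rfl⟩, fun ⟨N, h1, h2⟩ => mem_spectrum_of_dvd h1 h2⟩

end Cfsg.Agent.S2496
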