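import Mathlib
import Cfsg.Statements.S2505
import Cfsg.Agent.Lib.SymSub.Abel
-- import your own Cfsg.Agent.* helpers here

set_option autoImplicit false
open Cfsg

namespace Cfsg.Agent.S2505

/-- The largest order of an abelian subgroup of the symmetric group of degree n is 3^k when n = 3k, 4·3^(k−1) when n = 3k + 1, and 2·3^k when n = 3k + 2, for every k ≥ 1. -/
theorem result (k : ℕ) (hk : 1 ≤ k) :
    IsGreatest {c : ℕ | ∃ A : Subgroup (Equiv.Perm (Fin (3 * k))), IsMulCommutative A ∧ Nat.card A = c} (3 ^ k) ∧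
    IsGreatest {c : ℕ | ∃ A : Subgroup (Equiv.Perm (Fin (3 * k + 1))), IsMulCommutative A ∧ Nat.card A = c}
      (4 * 3 ^ (k - 1)) ∧
    IsGreatest {c : ℕ | ∃ A : Subgroup (Equiv.Perm (Fin (3 * k + 2))), IsMulCommutative A ∧ Nat.card A = c}
      (2 * 3 ^ k) := by
  open CfsgLib.SymSub in
  obtain ⟨k, rfl⟩ := Nat.exists_eq_add_of_le' hk
  have key : ∀ {n c}, Ab False n c →
      ∃ A : Subgroup (Equiv.Perm (Fin n)), IsMulCommutative A ∧ Nat.card A = c :=
    fun ⟨A, h1, h2, _⟩ => ⟨A, h1, h2⟩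
  refine ⟨⟨key (ab_three _ _), ?_⟩, ⟨key (mul_comm 4 _ ▸ (ab_three _ k).add (ab_four _)), ?_⟩,
    ⟨key (mul_comm 2 _ ▸ (ab_three _ _).add ab_two), ?_⟩⟩ <;> rintro _ ⟨A, hA, rfl⟩
  · exact (card_le A _).1 (by simp)
  · exact (card_le A k).2.1 (by simp; ring)
  · exact (card_le A _).2.2 (by simp)

end Cfsg.Agent.S2505
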