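import Mathlib
import Cfsg.Statements.S2506
import Cfsg.Agent.Lib.SymSub.Abel
-- import your own Cfsg.Agent.* helpers here

set_option autoImplicit false
open scoped Pointwise
open Cfsg

namespace Cfsg.Agent.S2506

/-- In the alternating group of any degree, any two abelian subgroups of the largest possible order (among abelian subgroups) are conjugate. -/
theorem result (n : ℕ)
    (A B : Subgroup (alternatingGroup (Fin n))) (hA : IsMulCommutative A) (hB : IsMulCommutative B)
    (hAmax : ∀ C : Subgroup (alternatingGroup (Fin n)), IsMulCommutative C → Nat.card C ≤ Nat.card A)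
    (hBmax : ∀ C : Subgroup (alternatingGroup (Fin n)), IsMulCommutative C → Nat.card C ≤ Nat.card B) :
    ∃ g : alternatingGroup (Fin n), B = MulAut.conj g • A := by
  open CfsgLib.SymSub in
  have hc : Nat.card A = Nat.card B := le_antisymm (hBmax A hA) (hAmax B hB)
  have hm := fun C : Subgroup (alternatingGroup (Fin n)) =>
    Subgroup.card_map_of_injective (K := C) (Subgroup.subtype_injective _)
  have lb : ∀ {c}, Ab True n c → c ≤ Nat.card A := fun h => by
    obtain ⟨C, h1, rfl⟩ := h.alt
    exact hAmax C h1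
  by_cases h2 : n ≤ 2
  · have : Subsingleton (alternatingGroup (Fin n)) := by
      interval_cases n
      · infer_instance
      · infer_instance
      · exact ⟨fun a b => Subtype.ext ((fin_facts.1 _ a.2).trans (fin_facts.1 _ b.2).symm)⟩
    exact ⟨1, Subsingleton.elim _ _⟩
  by_cases h5 : n = 5
  · subst h5
    have h1 := lb ab_five
    have h3 : Nat.card A = 5 := by
      rcases canon_or (Subgroup.map_subtype_le A) with h | h | ⟨-, a, b, h, -⟩
      · have := (prod_le (sz _) 1).2.2 (sum_sz (A.map (Subgroup.subtype _)))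
        rw [hm] at h; omega
      · rw [hm, Fintype.card_fin] at h
        have := lt_of_cube (c := 6) (d := 1) (k := 0) (r := 5) h (by norm_num)
        omega
      · simp at h; omega
    have : Fact (Nat.Prime 5) := ⟨Nat.prime_five⟩
    have h60 : Nat.card (alternatingGroup (Fin 5)) = 5 ^ 1 * 12 := by
      rw [nat_card_alternatingGroup]; simp [Nat.factorial]
    have h4 : ∀ C : Subgroup (alternatingGroup (Fin 5)), Nat.card C = 5 →
        Nat.card C = 5 ^ (Nat.card (alternatingGroup (Fin 5))).factorization 5 := fun C h => by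
      rw [h, h60, Nat.factorization_def _ Nat.prime_five, padicValNat.mul (by norm_num) (by norm_num),
        padicValNat.prime_pow, padicValNat.eq_zero_of_not_dvd (by norm_num)]
      norm_num
    obtain ⟨g, hg⟩ := MulAction.exists_smul_eq (alternatingGroup (Fin 5)) (Sylow.ofCard A (h4 A h3))
      (Sylow.ofCard B (h4 B (hc ▸ h3)))
    exact ⟨g, (congrArg Sylow.toSubgroup hg).symm⟩
  have key : ∀ C : Subgroup (alternatingGroup (Fin n)), IsMulCommutative C → Nat.card C = Nat.card A →
      Canon (C.map (Subgroup.subtype _)) := fun C hC h => by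
    obtain ⟨k, rfl | rfl | rfl⟩ : ∃ k, n = 3 * k ∨ n = 3 * k + 4 ∨ n = 3 * k + 8 := by
      rcases (by omega : n % 3 = 0 ∨ n % 3 = 1 ∨ n % 3 = 2) with h | h | h
      exacts [⟨n / 3, by omega⟩, ⟨n / 3 - 1, by omega⟩, ⟨n / 3 - 2, by omega⟩]
    all_goals refine canon_of_le (Subgroup.map_subtype_le _) (k := k) ?_; rw [hm, h]
    exacts [Or.inl ⟨by simp, lb (ab_three _ _)⟩, Or.inr (Or.inl ⟨by simp, lb (ab_alt k).1⟩),
      Or.inr (Or.inr ⟨by simp, lb (ab_alt k).2⟩)]
  obtain ⟨σ, h1, h3⟩ := (key A hA rfl).conj (key B hB hc.symm) (by rw [hm, hm, hc])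
  refine ⟨⟨σ, h1⟩, Subgroup.ext fun g => ?_⟩
  rw [Subgroup.mem_pointwise_smul_iff_inv_smul_mem, ← Subgroup.mem_map_iff_mem (Subgroup.subtype_injective _),
    ← Subgroup.mem_map_iff_mem (K := A) (Subgroup.subtype_injective _), h3]
  simp

end Cfsg.Agent.S2506
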