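import Cfsg.Statements.S2507
import Cfsg.Agent.Lib.SL2.PSL

set_option autoImplicit false
open Cfsg

namespace Cfsg.Agent.S2507

open CfsgLib.SL2 CfsgLib.Char

/-- Let F be a finite field with q = 2^f ≥ 4 elements. The conjugacy class sizes of PSL(2,F) are exactly 1, q(q − 1), q² − 1 and q(q + 1). -/
theorem result {F : Type*} [Field F] [Fintype F]
    (h2 : 2 ∣ Fintype.card F) (h4 : 4 ≤ Fintype.card F) :
    Set.range (fun g : (Matrix.ProjectiveSpecialLinearGroup (Fin 2) F) => (Subgroup.centralizer ({g} : Set (Matrix.ProjectiveSpecialLinearGroup (Fin 2) F))).index) =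
      {1, Fintype.card F * (Fintype.card F - 1), Fintype.card F ^ 2 - 1, Fintype.card F * (Fintype.card F + 1)} := by
  have h0 : (2 : F) = 0 := two_eq_zero_of_even (even_iff_two_dvd.2 h2)
  have hu : ∀ {z : Matrix.SpecialLinearGroup (Fin 2) F} (_ : IsScal z) {b : F} (_ : b ≠ 0)
      {g : Matrix.SpecialLinearGroup (Fin 2) F} (_ : IsConj (z * uu b) g),
      (Subgroup.centralizer ({g} : Set (Matrix.SpecialLinearGroup (Fin 2) F))).index =
        Fintype.card F ^ 2 - 1 := fun hz b hb g e => by
    have := index_centralizer_unip hz hb e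
    rwa [center_eq_bot_of_two h0, Subgroup.card_bot, one_mul] at this
  ext n
  simp only [Set.mem_range, Set.mem_insert_iff, Set.mem_singleton_iff]
  constructor
  · rintro ⟨x, rfl⟩
    obtain ⟨g, rfl⟩ := pm_surjective x
    rw [index_pm_of_ne (Or.inl h0)]
    rcases types g with h | ⟨z, b, hz, hb, e⟩ | ⟨a, ha, e⟩ | h
    · exact Or.inl (index_centralizer_scal h)
    · exact Or.inr (Or.inr (Or.inl (hu hz hb e)))
    · exact Or.inr (Or.inr (Or.inr (index_centralizer_split ha e)))
    · exact Or.inr (Or.inl h.index_centralizer)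
  · rintro (rfl | rfl | rfl | rfl)
    · exact ⟨pm 1, by rw [index_pm_of_ne (Or.inl h0), index_centralizer_scal isScal_one]⟩
    · obtain ⟨d, hd⟩ := exists_noEig (F := F)
      exact ⟨pm d, by rw [index_pm_of_ne (Or.inl h0), hd.index_centralizer]⟩
    · exact ⟨pm (1 * uu 1), by
        rw [index_pm_of_ne (Or.inl h0), hu isScal_one one_ne_zero (IsConj.refl _)]⟩
    · obtain ⟨a, ha⟩ := exists_sq_ne_one h4
      exact ⟨pm (dg a), by
        rw [index_pm_of_ne (Or.inl h0), index_centralizer_split ha (IsConj.refl _)]⟩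

end Cfsg.Agent.S2507
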