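import Cfsg.Statements.S2508
import Cfsg.Agent.Lib.SL2.PSL

set_option autoImplicit false
open Cfsg

namespace Cfsg.Agent.S2508

open CfsgLib.SL2 CfsgLib.Char

/-- Let F be a finite field with q elements, q odd and q ≥ 7. If q ≡ 1 (mod 4) the conjugacy class sizes of PSL(2,F) are exactly 1, (q² − 1)/2, q(q + 1)/2, q(q − 1) and q(q + 1); if q ≡ 3 (mod 4) they are exactly 1, (q² − 1)/2, q(q − 1)/2, q(q + 1) and q(q − 1). -/
theorem result {F : Type*} [Field F] [Fintype F]
    (hodd : ¬ 2 ∣ Fintype.card F) (h7 : 7 ≤ Fintype.card F) :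
    (Fintype.card F % 4 = 1 →
      Set.range (fun g : (Matrix.ProjectiveSpecialLinearGroup (Fin 2) F) => (Subgroup.centralizer ({g} : Set (Matrix.ProjectiveSpecialLinearGroup (Fin 2) F))).index) =
        {1, (Fintype.card F ^ 2 - 1) / 2, Fintype.card F * (Fintype.card F + 1) / 2,
          Fintype.card F * (Fintype.card F - 1), Fintype.card F * (Fintype.card F + 1)}) ∧
    (Fintype.card F % 4 = 3 →
      Set.range (fun g : (Matrix.ProjectiveSpecialLinearGroup (Fin 2) F) => (Subgroup.centralizer ({g} : Set (Matrix.ProjectiveSpecialLinearGroup (Fin 2) F))).index) =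
        {1, (Fintype.card F ^ 2 - 1) / 2, Fintype.card F * (Fintype.card F - 1) / 2,
          Fintype.card F * (Fintype.card F + 1), Fintype.card F * (Fintype.card F - 1)}) := by
  have hodd' : Odd (Fintype.card F) := Nat.not_even_iff_odd.1 (mt even_iff_two_dvd.1 hodd)
  have h2 : (2 : F) ≠ 0 := two_ne_zero_of_odd hodd'
  have h4 : ∀ {g : Matrix.SpecialLinearGroup (Fin 2) F}, tr g ^ 2 = 4 → tr g ≠ 0 :=
    fun h e => tr_sq_ne_of_tr_zero h2 e h
  have hu : ∀ {z : Matrix.SpecialLinearGroup (Fin 2) F} (_ : IsScal z) {b : F} (_ : b ≠ 0)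
      {g : Matrix.SpecialLinearGroup (Fin 2) F} (_ : IsConj (z * uu b) g),
      (Subgroup.centralizer ({pm g} : Set (Matrix.ProjectiveSpecialLinearGroup (Fin 2) F))).index =
        (Fintype.card F ^ 2 - 1) / 2 := fun hz b hb g e => by
    have := index_centralizer_unip hz hb e
    rw [card_center_odd h2] at this
    rw [index_pm_of_ne (Or.inr (h4 (tr_of_isConj e ▸ tr_scal_mul_uu_sq hz b)))]
    omega
  have hz1 : ∀ {g : Matrix.SpecialLinearGroup (Fin 2) F}, tr g = 0 → Fintype.card F % 4 = 1 →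
      (Subgroup.centralizer ({pm g} : Set (Matrix.ProjectiveSpecialLinearGroup (Fin 2) F))).index =
        Fintype.card F * (Fintype.card F + 1) / 2 := fun {g} h hq => by
    have h1 := index_pm_of_zero h2 h
    rcases types g with k | ⟨z, b, hz, hb, e⟩ | ⟨a, ha, e⟩ | k
    · exact absurd h (h4 k.tr_sq)
    · exact absurd h (h4 (tr_of_isConj e ▸ tr_scal_mul_uu_sq hz b))
    · rw [index_centralizer_split ha e] at h1
      omega
    · exact absurd (FiniteField.isSquare_neg_one_iff.2 (by omega)) ((noEig_iff_of_tr_zero h).1 k)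
  have hz3 : ∀ {g : Matrix.SpecialLinearGroup (Fin 2) F}, tr g = 0 → Fintype.card F % 4 = 3 →
      (Subgroup.centralizer ({pm g} : Set (Matrix.ProjectiveSpecialLinearGroup (Fin 2) F))).index =
        Fintype.card F * (Fintype.card F - 1) / 2 := fun {g} h hq => by
    have h1 := index_pm_of_zero h2 h
    rw [((noEig_iff_of_tr_zero h).2 fun k =>
      FiniteField.isSquare_neg_one_iff.1 k hq).index_centralizer] at h1
    omega
  have hw : tr (ww : Matrix.SpecialLinearGroup (Fin 2) F) = 0 := by simp [tr]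
  have hne : ∀ {g : Matrix.SpecialLinearGroup (Fin 2) F}, tr g ≠ 0 →
      (Subgroup.centralizer ({pm g} : Set (Matrix.ProjectiveSpecialLinearGroup (Fin 2) F))).index ∈
        ({1, (Fintype.card F ^ 2 - 1) / 2, Fintype.card F * (Fintype.card F - 1),
          Fintype.card F * (Fintype.card F + 1)} : Set ℕ) := fun {g} h => by
    rcases types g with k | ⟨z, b, hz, hb, e⟩ | ⟨a, ha, e⟩ | k
    · rw [index_pm_of_ne (Or.inr h), index_centralizer_scal k]; simp
    · rw [hu hz hb e]; simp
    · rw [index_pm_of_ne (Or.inr h), index_centralizer_split ha e]; simp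
    · rw [index_pm_of_ne (Or.inr h), k.index_centralizer]; simp
  obtain ⟨a, ha, ha'⟩ := exists_split_tr_ne (F := F) (by omega)
  obtain ⟨d, hd, hd'⟩ := exists_noEig_tr_ne (F := F) (by omega)
  have e1 := (index_pm_of_ne (Or.inr (h4 (isScal_one (F := F)).tr_sq))).trans
    (index_centralizer_scal isScal_one)
  have e2 := hu isScal_one one_ne_zero (IsConj.refl _)
  have e3 := (index_pm_of_ne (Or.inr ha')).trans (index_centralizer_split ha (IsConj.refl _))
  have e4 := (index_pm_of_ne (Or.inr hd')).trans hd.index_centralizer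
  refine ⟨fun hq => ?_, fun hq => ?_⟩ <;> ext n <;>
    simp only [Set.mem_range, Set.mem_insert_iff, Set.mem_singleton_iff] at hne ⊢ <;> constructor
  · rintro ⟨x, rfl⟩
    obtain ⟨g, rfl⟩ := pm_surjective x
    by_cases h : tr g = 0
    · have := hz1 h hq
      tauto
    · have := hne h
      tauto
  · rintro (rfl | rfl | rfl | rfl | rfl)
    exacts [⟨_, e1⟩, ⟨_, e2⟩, ⟨_, hz1 hw hq⟩, ⟨_, e4⟩, ⟨_, e3⟩]
  · rintro ⟨x, rfl⟩
    obtain ⟨g, rfl⟩ := pm_surjective x
    by_cases h : tr g = 0
    · have := hz3 h hq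
      tauto
    · have := hne h
      tauto
  · rintro (rfl | rfl | rfl | rfl | rfl)
    exacts [⟨_, e1⟩, ⟨_, e2⟩, ⟨_, hz3 hw hq⟩, ⟨_, e3⟩, ⟨_, e4⟩]

end Cfsg.Agent.S2508
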