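import Cfsg.Statements.S2511
import Cfsg.Agent.Lib.Spec.PSU

set_option autoImplicit false
open Cfsg

namespace Cfsg.Agent.S2511

/-- Let F be a finite field with q² elements, q = p^a, n ≥ 3 with (n, q) ≠ (3, 2), L = PSU(n, q) realised over F, and let r be a prime dividing q + 1 and not dividing n. Then for every m the direct product L × L × L × (ℤ/r)^m has the same set of element orders as L × L × L; and if n − 1 is not a power of p, then already L × L × (ℤ/r)^m has the same set of element orders as L × L. -/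
theorem result {F : Type*} [Field F] [Fintype F] (p a n q r m : ℕ) (hp : p.Prime) (ha : 1 ≤ a) (hq : q = p ^ a) (hF : Fintype.card F = q ^ 2)
    (hn : 3 ≤ n) (hn3 : ¬ (n = 3 ∧ q = 2)) (hr : r.Prime) (hrq : r ∣ q + 1) (hrn : ¬ r ∣ n) :
    Set.range (orderOf : Cfsg.PSU n F q × Cfsg.PSU n F q × Cfsg.PSU n F q × Multiplicative (Fin m → ZMod r) → ℕ) = Set.range (orderOf : Cfsg.PSU n F q × Cfsg.PSU n F q × Cfsg.PSU n F q → ℕ) ∧
    ((¬ ∃ j : ℕ, n - 1 = p ^ j) →
      Set.range (orderOf : Cfsg.PSU n F q × Cfsg.PSU n F q × Multiplicative (Fin m → ZMod r) → ℕ) = Set.range (orderOf : Cfsg.PSU n F q × Cfsg.PSU n F q → ℕ)) := by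
  classical
  haveI : Fact p.Prime := ⟨hp⟩
  haveI : Fact r.Prime := ⟨hr⟩
  haveI : CharP F p := CfsgLib.Spec.charP_of_card_eq_pow (a := a * 2) hp (by rw [hF, hq, pow_mul])
  let K := AlgebraicClosure F
  haveI : CharP K p := charP_of_injective_algebraMap (algebraMap F K).injective p
  refine CfsgLib.Spec.absorb_of_spectrum_eq (K := K) (e := -(q : ℤ))
    ((dvd_neg).2 (Int.natCast_dvd_natCast.2 (CfsgLib.Spec.char_dvd_q hF p))) (CfsgLib.Spec.ufrob_injective hF)
    (by omega) hr ?_ hrn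
    (CfsgLib.Spec.pow_eq_one_multiplicative_zmod m r) (CfsgLib.Spec.spectrum_psu_eq hF K p (by omega))
  have := Int.natCast_dvd_natCast.2 hrq
  rw [← dvd_neg, show -(-(q : ℤ) - 1) = ((q + 1 : ℕ) : ℤ) by push_cast; ring]
  exact this

end Cfsg.Agent.S2511
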