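import Cfsg.Statements.S2512
import Cfsg.Agent.Lib.Spec.SpOrbit

set_option autoImplicit false
open Cfsg

namespace Cfsg.Agent.S2512

open CfsgLib.Spec


/-- Let F be a finite field of odd order q = p^a, n ≥ 2 (with q ≥ 3 automatic), and L = PSp(2n, F). Then for every m the direct product L × L × L × (ℤ/2)^m has the same set of element orders as L × L × L; and if 2n − 1 is not a power of p, then already L × L × (ℤ/2)^m has the same set of element orders as L × L. -/
theorem result {F : Type*} [Field F] [Fintype F] (p a n m : ℕ) (hp : p.Prime) (ha : 1 ≤ a) (hF : Fintype.card F = p ^ a) (hodd : Odd (Fintype.card F))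
    (hn : 2 ≤ n) :
    Set.range (orderOf : Cfsg.PSp n F × Cfsg.PSp n F × Cfsg.PSp n F × Multiplicative (Fin m → ZMod 2) → ℕ) = Set.range (orderOf : Cfsg.PSp n F × Cfsg.PSp n F × Cfsg.PSp n F → ℕ) ∧
    ((¬ ∃ j : ℕ, 2 * n - 1 = p ^ j) →
      Set.range (orderOf : Cfsg.PSp n F × Cfsg.PSp n F × Multiplicative (Fin m → ZMod 2) → ℕ) = Set.range (orderOf : Cfsg.PSp n F × Cfsg.PSp n F → ℕ)) := by
  classical
  haveI : Fact p.Prime := ⟨hp⟩
  haveI : CharP F p := charP_of_card_eq_pow hp hF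
  let K := AlgebraicClosure F
  haveI : CharP K p := charP_of_injective_algebraMap (algebraMap F K).injective p
  have hφ : Function.Injective fun x : K => x ^ Fintype.card F := frob_injective
  have hpq := char_dvd_card F p
  have hpodd : Odd p := Odd.of_dvd_nat hodd hpq
  have h2 : (-1 : K) ≠ 1 := by
    intro h
    have h1 : ((2 : ℕ) : K) = 0 := by push_cast; linear_combination -h
    rw [CharP.cast_eq_zero_iff K p, Nat.prime_dvd_prime_iff_eq hp Nat.prime_two] at h1
    subst h1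
    exact absurd hpodd (by decide)
  set q := Fintype.card F with hq
  obtain ⟨T, hT, hT'⟩ : ∃ T ∈ omegaSp K p q n, ∀ N ∈ omegaSp K p q n,
      (∃ N' ∈ omegaSp K p q n, N ∣ N' ∧ 2 ∣ N') ∨ N ∣ T ∨ ∃ j, (j = 0 ∨ p ^ (j - 1) < 2 * n) ∧ N = p ^ j := by
    obtain ⟨T₁, e1, e2⟩ := exists_torus_omegaSp (K := K) p hpq hodd.pos.ne' hφ (n := n) (by omega) (Or.inl rfl)
    obtain ⟨T₂, e3, e4⟩ := exists_torus_omegaSp (K := K) p hpq hodd.pos.ne' hφ (n := n) (by omega) (Or.inr rfl)
    have hqn : Odd (q ^ n) := hodd.pow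
    have hc : ∀ N T, 2 * N ∣ 2 * T → N ∣ T := fun N T h => Nat.dvd_of_mul_dvd_mul_left two_pos h
    by_cases h4 : 4 ∣ q ^ n - 1
    · refine ⟨T₂, e3, fun N hN => ?_⟩
      rcases omegaSp_dichotomy hp.pos hφ hodd h2 (by omega) hN with h | h | h | h
      · exact Or.inl h
      · exact Or.inl ⟨T₁, e1, hc _ _ (h.trans e2), hc _ _ (h4.trans e2)⟩
      · exact Or.inr (Or.inl (hc _ _ (h.trans e4)))
      · exact Or.inr (Or.inr h)
    · have h5 : 4 ∣ q ^ n + 1 := by
        obtain ⟨k, hk⟩ := hqn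
        omega
      refine ⟨T₁, e1, fun N hN => ?_⟩
      rcases omegaSp_dichotomy hp.pos hφ hodd h2 (by omega) hN with h | h | h | h
      · exact Or.inl h
      · exact Or.inr (Or.inl (hc _ _ (h.trans e2)))
      · exact Or.inl ⟨T₂, e3, hc _ _ (h.trans e4), hc _ _ (h5.trans e4)⟩
      · exact Or.inr (Or.inr h)
  obtain ⟨R, hR, -, hR'⟩ := exists_mem_omegaSp_two_mul (p := p) hφ hodd h2 hn (j := 0) (Or.inl rfl)
  constructor
  · apply spectrum_prod_three (pow_eq_one_multiplicative_zmod m 2)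
    rw [spectrum_psp_eq K p n]
    refine absorb_three (p := p) hT hR hR' fun N hN => ?_
    rcases hT' N hN with h | h | ⟨j, hj, rfl⟩
    · exact Or.inl h
    · exact Or.inr ⟨0, pow_mem_omegaSp hφ (Or.inl rfl), fun m _ h' => h.trans h'⟩
    · exact Or.inr ⟨j, hN, fun m h _ => h⟩
  · intro hn1
    apply spectrum_prod_two (pow_eq_one_multiplicative_zmod m 2)
    rw [spectrum_psp_eq K p n]
    refine absorb_two (p := p) hT fun N hN => ?_
    rcases hT' N hN with h | h | ⟨j, hj, rfl⟩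
    · exact Or.inl h
    · exact Or.inr ⟨0, ⟨R, hR, by simp, hR'⟩, fun m _ h' => h.trans h'⟩
    · refine Or.inr ⟨j, exists_mem_omegaSp_two_mul hφ hodd h2 hn ?_, fun m h _ => h⟩
      rcases hj with hj | hj
      · exact Or.inl hj
      · have h3 : 2 * n - 1 ≠ p ^ (j - 1) := fun h => hn1 ⟨_, h⟩
        obtain ⟨k, hk⟩ : Odd (p ^ (j - 1)) := hpodd.pow
        exact Or.inr (by omega)

end Cfsg.Agent.S2512
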