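import Cfsg.Statements.S2513
import Mathlib
import Cfsg.Agent.Lib.Spec.PSL
import Cfsg.Agent.Lib.Spec.Orbit

set_option autoImplicit false
open Cfsg

namespace Cfsg.Agent.S2513

open CfsgLib.Spec

theorem exists_dvd_mem {d n : ℕ} (hd : 0 < d) (hdn : d ≤ n) : ∃ m, n / 2 < m ∧ m ≤ n ∧ d ∣ m := by
  refine ⟨d * (n / d), ?_, Nat.mul_div_le n d, dvd_mul_right _ _⟩
  have h1 := Nat.div_add_mod n d
  have h2 := Nat.mod_lt n hd
  have h3 : 1 ≤ n / d := Nat.div_pos hdn hd
  have h4 : d ≤ d * (n / d) := Nat.le_mul_of_pos_right _ h3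
  omega


/-- Let F be the field with two elements, n ≥ 2, L = PSL(n, F) and k₀ = ⌊(n + 3)/2⌋. Then for every k ≥ k₀ the direct product of k copies of L has the same set of element orders as the direct product of k₀ copies of L. -/
theorem result {F : Type*} [Field F] [Fintype F] (hF : Fintype.card F = 2) (n k : ℕ) (hn : 2 ≤ n) (hk : (n + 3) / 2 ≤ k) :
    Set.range (orderOf : (Fin k → Matrix.ProjectiveSpecialLinearGroup (Fin n) F) → ℕ) = Set.range (orderOf : (Fin ((n + 3) / 2) → Matrix.ProjectiveSpecialLinearGroup (Fin n) F) → ℕ) := by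
  classical
  haveI : Fact (Nat.Prime 2) := ⟨Nat.prime_two⟩
  haveI : CharP F 2 := by
    obtain ⟨p, hp⟩ := CharP.exists F
    have h1 := char_dvd_card F p
    rw [hF] at h1
    have h2 := (Nat.prime_dvd_prime_iff_eq (CharP.char_is_prime F p) Nat.prime_two).1 h1
    exact h2 ▸ hp
  let K := AlgebraicClosure F
  haveI : CharP K 2 := charP_of_injective_algebraMap (algebraMap F K).injective 2
  have hinj : Function.Injective (fun a : K => a ^ Fintype.card F) := frob_injective
  have h1 : 2 ^ Nat.clog 2 n ∈ Set.range (orderOf : Matrix.ProjectiveSpecialLinearGroup (Fin n) F → ℕ) := by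
    rw [mem_spectrum_psl_iff K 2]
    refine ⟨Multiset.replicate n 1, by simp, stab_replicate hinj (by simp) n, by simp, Nat.clog 2 n,
      Or.inr ⟨1, ?_⟩, fun m => ⟨fun h => ⟨h, ?_⟩, fun h => h.1⟩⟩
    · rw [Multiset.count_replicate_self]
      exact Nat.pow_pred_clog_lt_self one_lt_two (by omega)
    · intro a ha b hb
      rw [Multiset.eq_of_mem_replicate ha, Multiset.eq_of_mem_replicate hb]
  have h2 : ∀ m, 2 ≤ m → m ≤ n →
      2 ^ m - 1 ∈ Set.range (orderOf : Matrix.ProjectiveSpecialLinearGroup (Fin n) F → ℕ) := by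
    intro m hm2 hmn
    obtain ⟨a, ha⟩ := exists_orderOf_eq K 2 (not_dvd_pow_sub_one (m := m) Nat.prime_two dvd_rfl two_ne_zero (by omega))
    have hpos : 0 < 2 ^ m - 1 := by
      have := Nat.one_lt_two_pow (n := m) (by omega)
      omega
    have ha0 : a ≠ 0 := ne_zero_of_orderOf_pos (ha ▸ hpos)
    have ha1 : a ^ (2 ^ m - 1) = 1 := by rw [← ha, pow_orderOf_eq_one]
    rw [mem_spectrum_psl_iff K 2]
    refine ⟨cyc (fun x : K => x ^ Fintype.card F) a m + Multiset.replicate (n - m) 1, ?_, ?_, ?_, 0, Or.inl rfl,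
      fun t => ⟨fun h => ⟨by simp, ?_⟩, fun h => ?_⟩⟩
    · rw [Multiset.card_add, card_cyc, Multiset.card_replicate]
      omega
    · refine (stab_cyc hinj ?_).add (stab_replicate hinj (by simp) _)
      rw [iterate_pow, hF]
      exact pow_eq_self_of_pow_sub_one (by positivity) ha1
    · have := geom_sum_mul_pred (q := 2) one_le_two m
      rw [Multiset.prod_add, prod_cyc_pow, hF]
      simp only [Nat.add_one_sub_one, mul_one] at this
      rw [this, ha1]
      simp
    · have h3 : ∀ b ∈ cyc (fun x : K => x ^ Fintype.card F) a m + Multiset.replicate (n - m) 1, b ^ t = 1 := by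
        intro b hb
        rcases Multiset.mem_add.1 hb with hb | hb
        · obtain ⟨i, -, rfl⟩ := mem_cyc.1 hb
          rw [iterate_pow, ← pow_mul, mul_comm, pow_mul, (orderOf_dvd_iff_pow_eq_one (x := a) (n := t)).1 (ha ▸ h), one_pow]
        · rw [Multiset.eq_of_mem_replicate hb, one_pow]
      intro b hb c hc
      rw [h3 b hb, h3 c hc]
    · have h3 := h.2 _ (Multiset.mem_add.2 (Or.inl (mem_cyc.2 ⟨1, by omega, rfl⟩))) _
        (Multiset.mem_add.2 (Or.inl (self_mem_cyc (by omega))))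
      rw [iterate_pow, hF, pow_one, ← pow_mul, two_mul, pow_add] at h3
      rw [← ha, orderOf_dvd_iff_pow_eq_one]
      exact mul_right_cancel₀ (pow_ne_zero t ha0) (by rw [h3, one_mul])
  have h3 : ∀ i : Fin ((n + 3) / 2), ∃ x : Matrix.ProjectiveSpecialLinearGroup (Fin n) F,
      orderOf x = if i.val = 0 then 2 ^ Nat.clog 2 n else 2 ^ (n + 1 - i.val) - 1 := by
    intro i
    split_ifs with hi
    · exact h1
    · have := i.2
      exact h2 _ (by omega) (by omega)
  choose g hg using h3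
  have h4 : ∀ i, orderOf (g i) ∣ orderOf g := fun i =>
    orderOf_dvd_of_pow_eq_one (congrFun (pow_orderOf_eq_one g) i)
  have h5 : 2 ^ Nat.clog 2 n ∣ orderOf g := by
    have := h4 ⟨0, by omega⟩
    rwa [hg, if_pos rfl] at this
  have h6 : ∀ m, n / 2 < m → m ≤ n → 2 ^ m - 1 ∣ orderOf g := by
    intro m hm1 hm2
    have := h4 ⟨n + 1 - m, by omega⟩
    rw [hg, if_neg (by simp; omega)] at this
    have h7 : n + 1 - (n + 1 - m) = m := by omega
    simpa [h7] using this
  have h7 : ∀ x : Matrix.ProjectiveSpecialLinearGroup (Fin n) F, x ^ orderOf g = 1 := by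
    intro x
    obtain ⟨S, hS1, hS2, hS3, j, hj, hN⟩ := (mem_spectrum_psl_iff K 2 n _).1 ⟨x, rfl⟩
    rw [← orderOf_dvd_iff_pow_eq_one, hN]
    constructor
    · refine (pow_dvd_pow 2 ?_).trans h5
      rcases hj with rfl | ⟨a, ha⟩
      · exact Nat.zero_le _
      · have h8 : 2 ^ (j - 1) < 2 ^ Nat.clog 2 n :=
          lt_of_lt_of_le ha ((Multiset.count_le_card _ _).trans (hS1 ▸ Nat.le_pow_clog one_lt_two _))
        have := (Nat.pow_lt_pow_iff_right one_lt_two).1 h8
        omega
    · have h8 : ∀ a ∈ S, a ^ orderOf g = 1 := by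
        intro a ha
        have ha0 : a ≠ 0 := fun h => zero_notMem_of_prod_eq_one hS3 (h ▸ ha)
        obtain ⟨m, hm1, hm2, hm3⟩ := exists_dvd_mem (hS2.minimalPeriod_pos hinj ha) (hS1 ▸ hS2.period_le ha)
        rw [period_dvd_iff, hF] at hm3
        obtain ⟨c, hc⟩ := h6 m hm1 hm2
        rw [hc, pow_mul, pow_sub_one_eq_one ha0 (by positivity) hm3, one_pow]
      intro a ha b hb
      rw [h8 a ha, h8 b hb]
  refine spectrum_eq_of_exponent (E := orderOf g) ?_ ⟨g, rfl⟩ (fun x => funext fun i => h7 _)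
    (fun x => funext fun i => h7 _)
  refine ⟨fun i => if h : i.val < (n + 3) / 2 then g ⟨i.val, h⟩ else 1, ?_⟩
  rw [orderOf_eq_orderOf_iff]
  intro t
  simp only [funext_iff, Pi.pow_apply, Pi.one_apply]
  constructor
  · intro h i
    have := h ⟨i.val, by omega⟩
    rwa [dif_pos i.2] at this
  · intro h i
    split_ifs
    · exact h _
    · exact one_pow _

end Cfsg.Agent.S2513
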