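import Cfsg.Statements.S2514
import Mathlib

set_option autoImplicit false
open Cfsg

namespace Cfsg.Agent.S2514

theorem exists_max {G : Type*} [Group G] [Finite G] (a : ℕ) (ha : a ∈ Set.range (orderOf : G → ℕ)) :
    ∃ n, (n ∈ Set.range (orderOf : G → ℕ) ∧ ∀ m ∈ Set.range (orderOf : G → ℕ), n ∣ m → m = n) ∧ a ∣ n := by
  have hfin : {n | n ∈ Set.range (orderOf : G → ℕ) ∧ a ∣ n}.Finite :=
    (Set.finite_range _).subset (fun n hn => hn.1)
  obtain ⟨n, hn, hmax⟩ := hfin.exists_maximal ⟨a, ha, dvd_rfl⟩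
  refine ⟨n, ⟨hn.1, fun m hm hnm => ?_⟩, hn.2⟩
  have hm0 : 0 < m := by
    obtain ⟨g, rfl⟩ := hm
    exact orderOf_pos g
  have h1 : n ≤ m := Nat.le_of_dvd hm0 hnm
  exact le_antisymm (hmax ⟨hm, hn.2.trans hnm⟩ h1) h1

theorem mem_of_dvd {G : Type*} [Group G] [Finite G] {a n : ℕ} (hn : n ∈ Set.range (orderOf : G → ℕ)) (h : a ∣ n) :
    a ∈ Set.range (orderOf : G → ℕ) := by
  obtain ⟨g, rfl⟩ := hn
  exact ⟨g ^ (orderOf g / a), orderOf_pow_orderOf_div (orderOf_pos g).ne' h⟩


/-- For a finite group X write μ(X) for the set of element orders of X that are maximal under divisibility. Let G and H be finite groups and k ≥ 1 such that μ(H) ⊆ μ(G) and μ(G) has fewer than k elements outside μ(H). Then the direct product of k copies of G has the same set of element orders as the direct product of k − 1 copies of G with H. -/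
theorem result {G H : Type*} [Group G] [Finite G] [Group H] [Finite H] (k : ℕ) (hk : 1 ≤ k)
    (hsub : {n : ℕ | n ∈ Set.range (orderOf : H → ℕ) ∧ ∀ m ∈ Set.range (orderOf : H → ℕ), n ∣ m → m = n} ⊆ {n : ℕ | n ∈ Set.range (orderOf : G → ℕ) ∧ ∀ m ∈ Set.range (orderOf : G → ℕ), n ∣ m → m = n})
    (hfew : ({n : ℕ | n ∈ Set.range (orderOf : G → ℕ) ∧ ∀ m ∈ Set.range (orderOf : G → ℕ), n ∣ m → m = n} \ {n : ℕ | n ∈ Set.range (orderOf : H → ℕ) ∧ ∀ m ∈ Set.range (orderOf : H → ℕ), n ∣ m → m = n}).ncard < k) :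
    Set.range (orderOf : (Fin k → G) → ℕ) = Set.range (orderOf : (Fin (k - 1) → G) × H → ℕ) := by
  obtain ⟨k, rfl⟩ : ∃ k', k = k' + 1 := ⟨k - 1, by omega⟩
  change Set.range (orderOf : (Fin (k + 1) → G) → ℕ) = Set.range (orderOf : (Fin k → G) × H → ℕ)
  ext n
  constructor
  · rintro ⟨g, rfl⟩
    choose μ hμ hdvd using fun i => exists_max (orderOf (g i)) ⟨g i, rfl⟩
    by_cases hex : ∃ i, μ i ∈ Set.range (orderOf : H → ℕ)
    · obtain ⟨i, hi⟩ := hex
      obtain ⟨h, hh⟩ := mem_of_dvd hi (hdvd i)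
      refine ⟨(fun j => g (i.succAbove j), h), ?_⟩
      rw [orderOf_eq_orderOf_iff]
      intro n
      simp only [Prod.ext_iff, funext_iff, Prod.pow_fst, Prod.pow_snd, Pi.pow_apply, Prod.fst_one, Prod.snd_one,
        Pi.one_apply]
      rw [Fin.forall_iff_succAbove i, ← orderOf_dvd_iff_pow_eq_one (x := h), hh, orderOf_dvd_iff_pow_eq_one]
      tauto
    · push Not at hex
      have hmem : ∀ i, μ i ∈ ({n : ℕ | n ∈ Set.range (orderOf : G → ℕ) ∧ ∀ m ∈ Set.range (orderOf : G → ℕ), n ∣ m → m = n} \ {n : ℕ | n ∈ Set.range (orderOf : H → ℕ) ∧ ∀ m ∈ Set.range (orderOf : H → ℕ), n ∣ m → m = n}) :=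
        fun i => ⟨hμ i, fun h => hex i h.1⟩
      have hfin : ({n : ℕ | n ∈ Set.range (orderOf : G → ℕ) ∧ ∀ m ∈ Set.range (orderOf : G → ℕ), n ∣ m → m = n} \ {n : ℕ | n ∈ Set.range (orderOf : H → ℕ) ∧ ∀ m ∈ Set.range (orderOf : H → ℕ), n ∣ m → m = n}).Finite :=
        (Set.finite_range (orderOf : G → ℕ)).subset (fun n hn => hn.1.1)
      have hninj : ¬ Function.Injective μ := by
        intro hinj
        have h1 := Set.ncard_le_ncard_of_injOn (s := Set.univ) μ (fun i _ => hmem i) hinj.injOn hfin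
        rw [Set.ncard_univ, Nat.card_eq_fintype_card, Fintype.card_fin] at h1
        omega
      simp only [Function.Injective, not_forall] at hninj
      obtain ⟨i, j, hij, hne⟩ := hninj
      obtain ⟨j', rfl⟩ := Fin.exists_succAbove_eq (Ne.symm hne)
      obtain ⟨x, hx⟩ := mem_of_dvd (hμ i).1 (Nat.lcm_dvd (hdvd i) (hij ▸ hdvd (i.succAbove j')))
      refine ⟨(Function.update (fun j => g (i.succAbove j)) j' x, 1), ?_⟩
      rw [orderOf_eq_orderOf_iff]
      intro n
      simp only [Prod.ext_iff, funext_iff, Prod.pow_fst, Prod.pow_snd, Pi.pow_apply, Prod.fst_one, Prod.snd_one,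
        Pi.one_apply, one_pow, and_true]
      rw [Fin.forall_iff_succAbove i]
      constructor
      · intro h
        have h1 := h j'
        rw [Function.update_self, ← orderOf_dvd_iff_pow_eq_one, hx, Nat.lcm_dvd_iff,
          orderOf_dvd_iff_pow_eq_one, orderOf_dvd_iff_pow_eq_one] at h1
        refine ⟨h1.1, fun j => ?_⟩
        by_cases hj : j = j'
        · rw [hj]; exact h1.2
        · have h2 := h j
          rwa [Function.update_of_ne hj] at h2
      · rintro ⟨h1, h2⟩ j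
        by_cases hj : j = j'
        · rw [hj, Function.update_self, ← orderOf_dvd_iff_pow_eq_one, hx, Nat.lcm_dvd_iff,
            orderOf_dvd_iff_pow_eq_one, orderOf_dvd_iff_pow_eq_one]
          exact ⟨h1, h2 j'⟩
        · rw [Function.update_of_ne hj]
          exact h2 j
  · rintro ⟨⟨g, h⟩, rfl⟩
    obtain ⟨m, hm, hd⟩ := exists_max (orderOf h) ⟨h, rfl⟩
    obtain ⟨x, hx⟩ := mem_of_dvd (hsub hm).1 hd
    refine ⟨Fin.cons x g, ?_⟩
    rw [orderOf_eq_orderOf_iff]
    intro n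
    simp only [Prod.ext_iff, funext_iff, Prod.pow_fst, Prod.pow_snd, Pi.pow_apply, Prod.fst_one, Prod.snd_one,
      Pi.one_apply, Fin.forall_fin_succ, Fin.cons_zero, Fin.cons_succ]
    rw [← orderOf_dvd_iff_pow_eq_one (x := x), ← orderOf_dvd_iff_pow_eq_one (x := h), hx]
    tauto

end Cfsg.Agent.S2514
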