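import Cfsg.Statements.S2515
import Cfsg.Agent.Lib.SL2.Normalizer

set_option autoImplicit false
open Cfsg

namespace Cfsg.Agent.S2515

open Matrix MatrixGroups CfsgLib.SL2

variable {F : Type} [Field F]

local notation "V " F:max => Matrix (Fin 2) (Fin 2) F

/-- The linear part. -/
def lin (g h : SL(2, F)) (M : V F) : V F := (g : V F) * M * (h⁻¹ : SL(2, F))

theorem lin_lin (g h g' h' : SL(2, F)) (M : V F) :
    lin g h (lin g' h' M) = lin (g * g') (h * h') M := by
  simp only [lin, _root_.mul_inv_rev, Matrix.SpecialLinearGroup.coe_mul, Matrix.mul_assoc]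

theorem lin_one (M : V F) : lin 1 1 M = M := by simp [lin]

theorem lin_add (g h : SL(2, F)) (M N : V F) : lin g h (M + N) = lin g h M + lin g h N := by
  simp only [lin, Matrix.mul_add, Matrix.add_mul]

theorem lin_sub (g h : SL(2, F)) (M N : V F) : lin g h (M - N) = lin g h M - lin g h N := by
  simp only [lin, Matrix.mul_sub, Matrix.sub_mul]

theorem lin_zero (g h : SL(2, F)) : lin g h 0 = 0 := by simp [lin]

theorem lin_neg_neg (M : V F) : lin (-1) (-1) M = M := by
  have : ((-1 : SL(2, F))⁻¹) = -1 := by simp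
  simp [lin, this]

theorem lin_eq_iff (g h : SL(2, F)) (M : V F) : lin g h M = M ↔ (g : V F) * M = M * h := by
  constructor
  · intro e
    conv_rhs => rw [← e, lin, Matrix.mul_assoc, ← Matrix.SpecialLinearGroup.coe_mul, inv_mul_cancel]
    simp
  · intro e
    rw [lin, e, Matrix.mul_assoc, ← Matrix.SpecialLinearGroup.coe_mul, mul_inv_cancel]
    simp

/-- Affine maps. -/
def aff (g h : SL(2, F)) (v : V F) : Equiv.Perm (V F) where
  toFun M := lin g h M + v
  invFun M := lin g⁻¹ h⁻¹ (M - v)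
  left_inv M := by simp [lin_lin, lin_one]
  right_inv M := by simp [lin_lin, lin_one]

theorem aff_apply (g h : SL(2, F)) (v M : V F) : aff g h v M = lin g h M + v := rfl

theorem aff_mul (g h g' h' : SL(2, F)) (v v' : V F) :
    aff g h v * aff g' h' v' = aff (g * g') (h * h') (lin g h v' + v) := by
  ext1 M
  simp only [Equiv.Perm.mul_apply, aff_apply, lin_add, lin_lin, add_assoc]

theorem aff_one : aff 1 1 (0 : V F) = 1 := by
  ext1 M; simp [aff_apply, lin_one]

theorem aff_inv (g h : SL(2, F)) (v : V F) :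
    (aff g h v)⁻¹ = aff g⁻¹ h⁻¹ (lin g⁻¹ h⁻¹ (0 - v)) := by
  rw [inv_eq_iff_mul_eq_one, aff_mul, lin_lin]
  simp [lin_one, aff_one]

theorem aff_pow (g h : SL(2, F)) (v : V F) (n : ℕ) :
    ∃ w, aff g h v ^ n = aff (g ^ n) (h ^ n) w := by
  induction n with
  | zero => exact ⟨0, by simp [aff_one]⟩
  | succ n ih =>
    obtain ⟨w, hw⟩ := ih
    exact ⟨_, by rw [pow_succ, hw, aff_mul, ← pow_succ, ← pow_succ]⟩

theorem aff_zero_pow (g h : SL(2, F)) (n : ℕ) : aff g h 0 ^ n = aff (g ^ n) (h ^ n) 0 := by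
  induction n with
  | zero => simp [aff_one]
  | succ n ih => rw [pow_succ, ih, aff_mul, ← pow_succ, ← pow_succ, lin_zero, add_zero]

/-- Trivial linear part. -/
def Triv (g h : SL(2, F)) : Prop := (g = 1 ∧ h = 1) ∨ (g = -1 ∧ h = -1)

theorem Triv.lin_eq {g h : SL(2, F)} (t : Triv g h) (M : V F) : lin g h M = M := by
  rcases t with ⟨rfl, rfl⟩ | ⟨rfl, rfl⟩
  · exact lin_one M
  · exact lin_neg_neg M

theorem triv_of {g h : SL(2, F)} (e : aff g h 0 = 1) : Triv g h := by
  have k : ∀ M : V F, (g : V F) * M = M * h := fun M => by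
    rw [← lin_eq_iff]
    simpa [aff_apply] using congrArg (fun f : Equiv.Perm (V F) => f M) e
  have hgh : g = h := Subtype.ext (by simpa using k 1)
  subst hgh
  have : g ∈ Subgroup.center SL(2, F) :=
    Subgroup.mem_center_iff.2 fun x => Subtype.ext (k x).symm
  rcases (mem_center_iff g).1 this with e | e
  · exact Or.inl ⟨e, e⟩
  · exact Or.inr ⟨e, e⟩

theorem pow_of_fpf [Finite F] {g h : SL(2, F)} (v : V F) (fp : ∀ M, lin g h M = M → M = 0) {n : ℕ}
    (t : Triv (g ^ n) (h ^ n)) : aff g h v ^ n = 1 := by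
  have inj : Function.Injective fun M : V F => M - lin g h M := by
    intro M N e
    simp only at e
    apply sub_eq_zero.1
    apply fp
    rw [lin_sub, sub_eq_sub_iff_sub_eq_sub, ← neg_sub M, ← neg_sub N, e]
  obtain ⟨M, hM⟩ := Finite.injective_iff_surjective.1 inj v
  have fix : aff g h v M = M := by rw [aff_apply, ← hM]; simp
  have fixn : (aff g h v ^ n) M = M := Equiv.Perm.pow_apply_eq_self_of_apply_eq_self fix n
  obtain ⟨w, hw⟩ := aff_pow g h v n
  rw [hw, aff_apply, t.lin_eq] at fixn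
  ext1 N
  rw [hw, aff_apply, t.lin_eq, left_eq_add.1 fixn.symm]
  simp

theorem three [CharP F 3] : (3 : F) = 0 := by exact_mod_cast CharP.cast_eq_zero F 3

theorem three_V [CharP F 3] (v : V F) : v + v + v = 0 := by
  ext i j
  simp only [Matrix.add_apply, Matrix.zero_apply]
  linear_combination v i j * three (F := F)

theorem pow_three_mul [CharP F 3] {g h : SL(2, F)} (v : V F) {n : ℕ}
    (t : Triv (g ^ n) (h ^ n)) : aff g h v ^ (n * 3) = 1 := by
  obtain ⟨w, hw⟩ := aff_pow g h v n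
  rw [pow_mul, hw]
  ext1 N
  simp only [pow_succ, pow_zero, one_mul, Equiv.Perm.mul_apply, aff_apply, t.lin_eq,
    Equiv.Perm.one_apply]
  rw [add_assoc, add_assoc, ← add_assoc w, three_V, add_zero]

/-- The Frobenius map. -/
def fr [CharP F 3] : SL(2, F) →* SL(2, F) := SpecialLinearGroup.map (frobenius F 3)

theorem fr_ap [CharP F 3] (g : SL(2, F)) (i j : Fin 2) : fr g i j = g i j ^ 3 := by
  simp [fr, frobenius_def]

theorem tr_fr [CharP F 3] (g : SL(2, F)) : tr (fr g) = tr g ^ 3 := by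
  rw [tr_def, tr_def, fr_ap, fr_ap, add_pow_char]

theorem fr_neg_one [CharP F 3] : fr (-1 : SL(2, F)) = -1 := by
  apply ext2 <;> simp [fr_ap, neg_ap] <;> norm_num

/-- The group. -/
def H (F : Type) [Field F] [CharP F 3] : Subgroup (Equiv.Perm (V F)) where
  carrier := {f | ∃ g h v, (h = fr g ∨ h = -fr g) ∧ f = aff g h v}
  one_mem' := ⟨1, 1, 0, by simp, aff_one.symm⟩
  mul_mem' := by
    rintro _ _ ⟨g, h, v, e, rfl⟩ ⟨g', h', v', e', rfl⟩
    refine ⟨_, _, _, ?_, aff_mul _ _ _ _ _ _⟩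
    rcases e with rfl | rfl <;> rcases e' with rfl | rfl <;> simp
  inv_mem' := by
    rintro _ ⟨g, h, v, e, rfl⟩
    refine ⟨_, _, _, ?_, aff_inv _ _ _⟩
    rcases e with rfl | rfl <;> simp [inv_neg]

theorem ch (g : SL(2, F)) : (g : V F) * g = tr g • (g : V F) - 1 := by
  ext i j
  have := mul_self_ap g i j
  simpa using this

theorem fpf {g h : SL(2, F)} (ne : tr g ≠ tr h) (M : V F) (e : lin g h M = M) : M = 0 := by
  rw [lin_eq_iff] at e
  have k : (g : V F) * g * M = M * (h * h) := by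
    rw [Matrix.mul_assoc, e, ← Matrix.mul_assoc, e, Matrix.mul_assoc]
  rw [ch, ch, Matrix.sub_mul, Matrix.mul_sub, Matrix.smul_mul, Matrix.mul_smul, e, Matrix.one_mul,
    Matrix.mul_one, sub_left_inj, ← sub_eq_zero, ← sub_smul, smul_eq_zero] at k
  rcases k with k | k
  · exact absurd (sub_eq_zero.1 k) ne
  · have := congrArg (· * ((h⁻¹ : SL(2, F)) : V F)) k
    simp only [Matrix.mul_assoc, ← Matrix.SpecialLinearGroup.coe_mul, mul_inv_cancel] at this
    simpa using this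

theorem triv_fr [CharP F 3] {g : SL(2, F)} (h : g = 1 ∨ g = -1) : Triv g (fr g) := by
  rcases h with rfl | rfl
  · exact Or.inl ⟨rfl, map_one _⟩
  · exact Or.inr ⟨rfl, fr_neg_one⟩

theorem triv_even [CharP F 3] {g h : SL(2, F)} (e : h = fr g ∨ h = -fr g) {n : ℕ} (hn : Even n)
    (k : g ^ n = 1 ∨ g ^ n = -1) : Triv (g ^ n) (h ^ n) := by
  have : h ^ n = fr (g ^ n) := by
    rcases e with rfl | rfl
    · rw [map_pow]
    · rw [map_pow, hn.neg_pow]
  rw [this]
  exact triv_fr k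

theorem cube [CharP F 3] {g : SL(2, F)} (h : tr g ^ 2 = 4) : g ^ 3 = 1 ∨ g ^ 3 = -1 := by
  have h1 : (tr g - 1) * (tr g + 1) = 0 := by linear_combination h + three (F := F)
  have k : ((g ^ 3 : SL(2, F)) : V F) = (-tr g) • (1 : V F) := by
    have h0 : tr g * tr g - 1 = 0 := by linear_combination h1
    rw [pow_succ, pow_two, Matrix.SpecialLinearGroup.coe_mul, Matrix.SpecialLinearGroup.coe_mul, ch,
      Matrix.sub_mul, Matrix.smul_mul, ch, Matrix.one_mul, smul_sub, smul_smul,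
      sub_eq_zero.1 h0, one_smul, neg_smul]
    abel
  rcases mul_eq_zero.1 h1 with e | e
  · right; apply Subtype.ext; rw [k, sub_eq_zero.1 e]; simp
  · left; apply Subtype.ext; rw [k, eq_neg_of_add_eq_zero_left e]; simp

theorem upper [Fintype F] [CharP F 3] (hq : Fintype.card F % 4 = 3) {f : Equiv.Perm (V F)}
    (hf : f ∈ H F) : f ^ 6 = 1 ∨ f ^ 9 = 1 ∨ f ^ (Fintype.card F - 1) = 1 ∨
      f ^ ((Fintype.card F + 1) / 2) = 1 := by
  obtain ⟨g, h, v, e, rfl⟩ := hf
  have h3 := three (F := F)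
  have h2 : (2 : F) ≠ 0 := fun e => one_ne_zero (α := F) (by linear_combination h3 - e)
  have nsq : ∀ x : F, x ^ 2 + 1 ≠ 0 := fun x hx =>
    (FiniteField.isSquare_neg_one_iff.1 ⟨x, by linear_combination -hx⟩) hq
  by_cases h0 : tr g = 0
  · left
    refine pow_three_mul (n := 2) v (triv_even e even_two (Or.inr ?_))
    apply Subtype.ext
    rw [pow_two, Matrix.SpecialLinearGroup.coe_mul, ch, h0]; simp
  have neg : tr g ≠ tr (-fr g) := by
    rw [tr_neg, tr_fr]
    intro e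
    exact mul_ne_zero h0 (nsq (tr g)) (by linear_combination e)
  by_cases h4 : tr g ^ 2 = 4
  · have c := cube h4
    rcases e with rfl | rfl
    · right; left
      refine pow_three_mul (n := 3) v ?_
      rw [← map_pow]
      exact triv_fr c
    · left
      refine pow_of_fpf v (fpf neg) (triv_even (Or.inr rfl) (by decide) (Or.inl ?_))
      rw [show 6 = 3 * 2 from rfl, pow_mul]
      rcases c with c | c <;> rw [c] <;> simp
  have ne : tr g ≠ tr h := by
    rcases e with rfl | rfl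
    · rw [tr_fr]
      intro e
      apply h4
      apply mul_left_cancel₀ h0
      linear_combination -e - tr g * h3
    · exact neg
  right; right
  rcases types g with t | ⟨z, b, hz, -, t⟩ | ⟨a, -, t⟩ | t
  · exact absurd t.tr_sq h4
  · exact absurd (tr_of_isConj t ▸ tr_scal_mul_uu_sq hz b) h4
  · left
    exact pow_of_fpf v (fpf ne) (triv_even e ⟨(Fintype.card F - 1) / 2, by omega⟩
      (Or.inl (split_pow_card t)))
  · right
    refine pow_of_fpf v (fpf ne) (triv_even e ⟨(Fintype.card F + 1) / 4, by omega⟩ ?_)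
    rw [← isScal_iff, ← sq_eq_one_iff_isScal h2, ← pow_add, ← t.pow_card]
    congr 1
    omega

theorem dvd_of_pow {g h : SL(2, F)} {n : ℕ} (e : aff g h 0 ^ n = 1) :
    g ^ n = h ^ n ∧ orderOf g ∣ 2 * n := by
  rw [aff_zero_pow] at e
  rw [orderOf_dvd_iff_pow_eq_one, mul_comm, pow_mul]
  rcases triv_of e with ⟨a, b⟩ | ⟨a, b⟩ <;> simp [a, b]

theorem even_of_pow [CharP F 3] {g : SL(2, F)} {n : ℕ} (e : aff g (-fr g) 0 ^ n = 1) : Even n := by
  have h3 := three (F := F)
  have h2 : (2 : F) ≠ 0 := fun e => one_ne_zero (α := F) (by linear_combination h3 - e)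
  rw [aff_zero_pow] at e
  by_contra hn
  rw [Nat.not_even_iff_odd] at hn
  rw [hn.neg_pow, ← map_pow] at e
  rcases triv_of e with ⟨a, b⟩ | ⟨a, b⟩
  · rw [a, map_one] at b; exact neg_one_ne_one h2 b
  · rw [a, fr_neg_one, neg_neg] at b; exact neg_one_ne_one h2 b.symm

theorem fr_uu [CharP F 3] : fr (uu (1 : F)) = uu 1 := by
  apply ext2 <;> simp [fr_ap]

theorem uu_cube [CharP F 3] : uu (1 : F) ^ 3 = 1 := by
  rw [uu_pow, mul_one, CharP.cast_eq_zero F 3, uu_zero]

theorem orderOf_uu [CharP F 3] : orderOf (uu (1 : F)) = 3 :=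
  orderOf_eq_prime uu_cube fun e => one_ne_zero (uu_injective (e.trans uu_zero.symm))

theorem ex6 [CharP F 3] : ∃ f ∈ H F, orderOf f = 6 := by
  refine ⟨_, ⟨uu 1, _, 0, Or.inr rfl, rfl⟩, ?_⟩
  apply Nat.dvd_antisymm
  · rw [orderOf_dvd_iff_pow_eq_one, aff_zero_pow, Even.neg_pow (by decide), ← map_pow,
      show 6 = 3 * 2 from rfl, pow_mul, uu_cube, one_pow, map_one, aff_one]
  · have e := pow_orderOf_eq_one (aff (uu (1 : F)) (-fr (uu 1)) 0)
    have a := (dvd_of_pow e).2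
    have b := even_of_pow e
    rw [orderOf_uu] at a
    obtain ⟨k, hk⟩ := b
    omega

theorem ex9 [CharP F 3] : ∃ f ∈ H F, orderOf f = 9 := by
  refine ⟨_, ⟨uu 1, _, !![0, 0; 1, 0], Or.inl rfl, rfl⟩, ?_⟩
  refine orderOf_eq_prime_pow (p := 3) (n := 1) ?_ (pow_three_mul (n := 3) _ ?_)
  · intro e
    have := congrArg (fun f : Equiv.Perm (V F) => f 0 0 1) e
    rw [fr_uu] at this
    simp only [pow_succ, pow_zero, one_mul, Equiv.Perm.mul_apply, aff_apply, lin, ← uu_neg,
      Equiv.Perm.one_apply] at this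
    simp [Matrix.mul_apply, Fin.sum_univ_two] at this
    exact one_ne_zero (α := F) (by linear_combination this + 2 * three (F := F))
  · rw [← map_pow]; exact triv_fr (Or.inl uu_cube)

theorem exm [Fintype F] [CharP F 3] (hq : Fintype.card F % 4 = 3) :
    ∃ f ∈ H F, orderOf f = Fintype.card F - 1 := by
  obtain ⟨a, ha⟩ := IsCyclic.exists_ofOrder_eq_natCard (α := Fˣ)
  rw [Nat.card_units, Nat.card_eq_fintype_card] at ha
  have ho : orderOf (dg a) = Fintype.card F - 1 := by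
    rw [← ha, ← dgHom_apply]; exact orderOf_injective dgHom dg_injective a
  refine ⟨_, ⟨dg a, _, 0, Or.inr rfl, rfl⟩, ?_⟩
  apply Nat.dvd_antisymm
  · rw [orderOf_dvd_iff_pow_eq_one, aff_zero_pow,
      Even.neg_pow ⟨(Fintype.card F - 1) / 2, by omega⟩, ← map_pow, ← ho, pow_orderOf_eq_one,
      map_one, aff_one]
  · have e := pow_orderOf_eq_one (aff (dg a) (-fr (dg a)) 0)
    have a := (dvd_of_pow e).2
    obtain ⟨k, hk⟩ := even_of_pow e
    rw [ho, hk] at a
    rw [hk]
    obtain ⟨m, hm⟩ : ∃ m, Fintype.card F - 1 = 2 * (2 * m + 1) :=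
      ⟨Fintype.card F / 4, by omega⟩
    rw [hm] at a ⊢
    rw [← two_mul] at a ⊢
    refine Nat.mul_dvd_mul_left 2 ?_
    exact (Nat.Coprime.dvd_mul_left (by simp)).1 (Nat.dvd_of_mul_dvd_mul_left two_pos a)

theorem exp [Fintype F] [CharP F 3] (hq : Fintype.card F % 4 = 3) :
    ∃ f ∈ H F, orderOf f = (Fintype.card F + 1) / 2 := by
  have h3 := three (F := F)
  have h2 : (2 : F) ≠ 0 := fun e => one_ne_zero (α := F) (by linear_combination h3 - e)
  obtain ⟨d, hd⟩ := exists_noEig (F := F)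
  have := hd.isCyclic_centralizer
  obtain ⟨g, hg⟩ := IsCyclic.exists_ofOrder_eq_natCard
    (α := Subgroup.centralizer ({d} : Set SL(2, F)))
  rw [hd.card_centralizer, ← Subgroup.orderOf_coe] at hg
  refine ⟨_, ⟨g, _, 0, Or.inl rfl, rfl⟩, ?_⟩
  apply Nat.dvd_antisymm
  · rw [orderOf_dvd_iff_pow_eq_one, aff_zero_pow, ← map_pow]
    ext1 M
    rw [aff_apply, Triv.lin_eq (triv_fr ?_), add_zero, Equiv.Perm.one_apply]
    rw [← isScal_iff, ← sq_eq_one_iff_isScal h2, ← pow_add, ← pow_orderOf_eq_one (g : SL(2, F)), hg]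
    congr 1
    omega
  · have a := (dvd_of_pow (pow_orderOf_eq_one (aff (g : SL(2, F)) (fr g) 0))).2
    rw [hg] at a
    apply Nat.dvd_of_mul_dvd_mul_left two_pos
    rwa [show 2 * ((Fintype.card F + 1) / 2) = Fintype.card F + 1 by omega]

/-- The translations. -/
def P (F : Type) [Field F] [CharP F 3] : Subgroup (H F) where
  carrier := {f | ∃ v, f.1 = aff 1 1 v}
  one_mem' := ⟨0, aff_one.symm⟩
  mul_mem' := by
    rintro a b ⟨v, e⟩ ⟨w, e'⟩
    exact ⟨_, by rw [Subgroup.coe_mul, e, e', aff_mul, mul_one]⟩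
  inv_mem' := by
    rintro a ⟨v, e⟩
    exact ⟨_, by rw [Subgroup.coe_inv, e, aff_inv, inv_one]⟩

theorem P_normal [CharP F 3] : (P F).Normal := ⟨by
  rintro a ⟨v, e⟩ ⟨_, g, h, w, -, rfl⟩
  exact ⟨_, by
    rw [Subgroup.coe_mul, Subgroup.coe_mul, Subgroup.coe_inv, e, aff_inv, aff_mul, aff_mul, mul_one,
      mul_one, mul_inv_cancel, mul_inv_cancel]⟩⟩

theorem P_ne [CharP F 3] : P F ≠ ⊥ := by
  intro e
  have : (⟨aff 1 1 1, 1, 1, 1, by simp, rfl⟩ : H F) ∈ P F := ⟨1, rfl⟩
  rw [e, Subgroup.mem_bot] at this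
  have := congrArg (fun f : H F => f.1 0) this
  simp [aff_apply, lin_zero] at this

theorem P_three [CharP F 3] : IsPGroup 3 (P F) := by
  rintro ⟨a, v, e⟩
  refine ⟨1, Subtype.ext (Subtype.ext ?_)⟩
  simp only [pow_one, SubmonoidClass.coe_pow, OneMemClass.coe_one, e]
  exact pow_three_mul (n := 1) v (Or.inl ⟨by simp, by simp⟩)

/-- Let q = 3^α with α ≥ 3 odd. There is a finite group H having a non-trivial normal 3-subgroup and whose element orders maximal under divisibility are exactly 6, 9, q − 1 and (q + 1)/2. -/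
theorem result (α : ℕ) (hα : 3 ≤ α) (hodd : Odd α) :
    ∃ (H : Type) (_ : Group H) (_ : Fintype H), (∃ P : Subgroup H, P.Normal ∧ P ≠ ⊥ ∧ IsPGroup 3 ↥P) ∧
      {n : ℕ | n ∈ Set.range (orderOf : H → ℕ) ∧ ∀ m ∈ Set.range (orderOf : H → ℕ), n ∣ m → m = n} = ({6, 9, 3 ^ α - 1, (3 ^ α + 1) / 2} : Set ℕ) := by
  let F := GaloisField 3 α
  have : Fintype F := Fintype.ofFinite F
  have hc : Fintype.card F = 3 ^ α := by
    rw [← Nat.card_eq_fintype_card]; exact GaloisField.card 3 α (by omega)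
  have h4 : 3 ^ α % 4 = 3 := by
    obtain ⟨k, rfl⟩ := hodd
    rw [pow_succ, pow_mul, Nat.mul_mod, Nat.pow_mod]
    norm_num
  have h27 : 27 ≤ 3 ^ α := Nat.pow_le_pow_right (n := 3) (by norm_num) hα
  have h3 : 3 ∣ 3 ^ α := dvd_pow_self 3 (by omega)
  refine ⟨H F, inferInstance, Fintype.ofFinite _, ⟨P F, P_normal, P_ne, P_three⟩, ?_⟩
  have hq : Fintype.card F % 4 = 3 := hc ▸ h4
  have up : ∀ n ∈ Set.range (orderOf : H F → ℕ),
      ∃ m ∈ ({6, 9, 3 ^ α - 1, (3 ^ α + 1) / 2} : Set ℕ), n ∣ m := by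
    rintro _ ⟨f, rfl⟩
    rw [← Subgroup.orderOf_coe]
    simp only [orderOf_dvd_iff_pow_eq_one]
    rcases upper hq f.2 with h | h | h | h
    · exact ⟨_, by simp, h⟩
    · exact ⟨_, by simp, h⟩
    · exact ⟨_, by simp [hc], h⟩
    · exact ⟨_, by simp [hc], h⟩
  have low : ∀ m ∈ ({6, 9, 3 ^ α - 1, (3 ^ α + 1) / 2} : Set ℕ),
      m ∈ Set.range (orderOf : H F → ℕ) := by
    have k : ∀ m, (∃ f ∈ H F, orderOf f = m) → m ∈ Set.range (orderOf : H F → ℕ) := by
      rintro m ⟨f, hf, e⟩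
      exact ⟨⟨f, hf⟩, by rw [Subgroup.orderOf_mk, e]⟩
    rintro m (rfl | rfl | rfl | rfl)
    · exact k _ ex6
    · exact k _ ex9
    · exact k _ (hc ▸ exm hq)
    · exact k _ (hc ▸ exp hq)
  have anti : ∀ n ∈ ({6, 9, 3 ^ α - 1, (3 ^ α + 1) / 2} : Set ℕ),
      ∀ m ∈ ({6, 9, 3 ^ α - 1, (3 ^ α + 1) / 2} : Set ℕ), n ∣ m → m = n := by
    generalize 3 ^ α = q at *
    rintro n (rfl | rfl | rfl | rfl) m (rfl | rfl | rfl | rfl) h
    all_goals first
      | rfl
      | omega
      | (have := Nat.le_of_dvd (by omega) h; omega)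
      | skip
    have h' : (q + 1) / 2 ∣ 2 := by
      have e : 2 * ((q + 1) / 2) - (q - 1) = 2 := by omega
      have k := Nat.dvd_sub (Dvd.intro_left 2 rfl) h
      rwa [e] at k
    have := Nat.le_of_dvd two_pos h'
    omega
  ext n
  constructor
  · rintro ⟨hn, hmax⟩
    obtain ⟨m, hm, hd⟩ := up n hn
    rwa [← hmax m (low m hm) hd]
  · intro hn
    refine ⟨low n hn, fun m hm hd => ?_⟩
    obtain ⟨m', hm', hd'⟩ := up m hm
    have := anti n hn m' hm' (hd.trans hd')
    subst this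
    exact Nat.dvd_antisymm hd' hd

end Cfsg.Agent.S2515
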