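import Cfsg.Statements.S2517
import Cfsg.Agent.Lib.Spec.Affine

set_option autoImplicit false
open Cfsg

namespace Cfsg.Agent.S2517

open CfsgLib.Spec


/-- Let F be a finite field of odd order q, let Ω₉ be the simple orthogonal group PΩ(9, F), and let Ω₈⁻ be the commutator subgroup of the isometry group of a minus-type non-singular quadratic form on V = F⁸ (the simple group PΩ⁻(8, F), acting on its natural module V). Then Ω₉ and the semidirect product V ⋊ Ω₈⁻ have exactly the same set of element orders. -/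
theorem result {F : Type*} [Field F] [Fintype F] (hF : Odd (Fintype.card F)) (a b : F)
    (hab : ∀ z₁ z₂ : F, z₁ ^ 2 + a * z₁ * z₂ + b * z₂ ^ 2 = 0 → z₁ = 0 ∧ z₂ = 0) :
    Set.range (orderOf : Cfsg.POmega F (Cfsg.quadFormOdd 4 F) → ℕ) =
      Set.range (orderOf :
        (Multiplicative (((Fin 3 ⊕ Fin 3) ⊕ Fin 2) → F)) ⋊[
          (MulAutMultiplicative (((Fin 3 ⊕ Fin 3) ⊕ Fin 2) → F)).symm.toMonoidHom.comp
           ((DistribMulAction.toAddAut (LinearMap.GeneralLinearGroup F (((Fin 3 ⊕ Fin 3) ⊕ Fin 2) → F))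
              (((Fin 3 ⊕ Fin 3) ⊕ Fin 2) → F)).comp
            (Matrix.GeneralLinearGroup.toLin.toMonoidHom.comp
              ((Cfsg.isometryGroup F (Cfsg.quadFormMinus 3 F a b)).subtype.comp
                (Cfsg.Omega F (Cfsg.quadFormMinus 3 F a b)).subtype)))]
          ↥(Cfsg.Omega F (Cfsg.quadFormMinus 3 F a b)) → ℕ) := by
  classical
  obtain ⟨p, hp⟩ := CharP.exists F
  haveI := Fact.mk (CharP.char_is_prime F p)
  let K := AlgebraicClosure F
  haveI : CharP K p := charP_of_injective_algebraMap (algebraMap F K).injective p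
  have hpq := char_dvd_card F p
  have h := oddFrob_card K hF
  have h2 := CfsgLib.Orth.two_ne_zero_of_odd_card hF
  have hδ : discK K (CfsgLib.Orth.qMinus 3 a b) = -1 := by
    have h0 := CfsgLib.Orth.det_gram_ne_zero (CfsgLib.Orth.qMinus_nondegenerate 3 hab) (Pi.basisFun F _)
    refine (chi_dichotomy h2 h0).resolve_left fun h1 => ?_
    rw [chi_eq_one_iff h2 h0, CfsgLib.Orth.isSquare_det_gram_qMinus_iff h2 3 hab] at h1
    exact h1 ⟨1, by norm_num⟩
  have hA := spectrum_aff_eq K p h2 (CfsgLib.Orth.qMinus_nondegenerate 3 hab)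
    (φ := (MulAutMultiplicative (((Fin 3 ⊕ Fin 3) ⊕ Fin 2) → F)).symm.toMonoidHom.comp
           ((DistribMulAction.toAddAut (LinearMap.GeneralLinearGroup F (((Fin 3 ⊕ Fin 3) ⊕ Fin 2) → F))
              (((Fin 3 ⊕ Fin 3) ⊕ Fin 2) → F)).comp
            (Matrix.GeneralLinearGroup.toLin.toMonoidHom.comp
              ((Cfsg.isometryGroup F (Cfsg.quadFormMinus 3 F a b)).subtype.comp
                (Cfsg.Omega F (Cfsg.quadFormMinus 3 F a b)).subtype)))) (fun _ _ => rfl)
  rw [hδ, show Fintype.card ((Fin 3 ⊕ Fin 3) ⊕ Fin 2) = 2 * 4 by simp] at hA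
  refine (spectrum_pomega_odd K p hF (by norm_num)).trans (Set.Subset.antisymm ?_ ?_)
  · rintro N ⟨S, hS, hA', j, hj, hN⟩
    obtain ⟨S', e1, e2, e3⟩ := exists_aff_of_omegaB hpq h hS hA' hj
    obtain ⟨N', hN'⟩ := exists_dvd_iff_powEq (S := 1 ::ₘ S')
      (zero_notMem_of_prod_eq_one (by simpa using e1.2.2.2.1)) (p ^ j)
    simp only [powEq_cons_one] at hN'
    have h3 := (hN' N').1 dvd_rfl
    exact @mem_spectrum_of_dvd _ _ (Finite.of_equiv _ SemidirectProduct.equivProd.symm) _ _ (hA.ge ⟨S', e1, j, e2, hN'⟩) ((hN N').2 ⟨h3.1, e3 N' h3.2⟩)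
  · exact hA.le.trans (omegaAff_subset_omegaB (hF.of_dvd_nat hpq) h _)

end Cfsg.Agent.S2517
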