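import Cfsg.Statements.S2518
import Cfsg.Agent.Lib.Semi.G2
import Cfsg.Agent.Lib.Recog.PGSpec
import Cfsg.Agent.Lib.Spec.Small

set_option autoImplicit false
open Cfsg

namespace Cfsg.Agent.S2518

open CfsgLib.Recog in
theorem hasPG {G : Type*} [Group G] [Finite G] (h1 : ∀ g : G, ∃ m ∈ [8, 13, 7, 6, 12, 9], orderOf g ∣ m)
    (h2 : ∀ m ∈ [13, 6, 7], ∃ g : G, orderOf g = m) :
    HasPG G (fun r => ∃ m ∈ [13, 6, 7], r ∣ m) (fun r => ∃ m ∈ [13, 6, 7], r ∣ m) := by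
  have h3 : ∀ n, (∃ m ∈ [13, 6, 7], n ∣ m) → n ∈ Set.range (orderOf : G → ℕ) := fun n ⟨m, hm, h⟩ => by
    obtain ⟨g, rfl⟩ := h2 m hm
    exact mem_range_orderOf_of_dvd g h
  have h4 : ∀ m ∈ [8, 13, 7, 6, 12, 9], 0 < m ∧ m < 14 := by decide
  refine ⟨fun r hr => ⟨fun ⟨g, e⟩ => ?_, h3 r⟩, fun r s hr hs hrs _ _ => ⟨fun ⟨g, e⟩ => ?_, h3 _⟩⟩
  · obtain ⟨m, hm, h⟩ := h1 g
    rw [e] at h
    have : ∀ m ∈ [8, 13, 7, 6, 12, 9], ∀ r < 14, r.Prime → r ∣ m → ∃ m ∈ [13, 6, 7], r ∣ m := by decide +kernel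
    exact this m hm r ((Nat.le_of_dvd (h4 m hm).1 h).trans_lt (h4 m hm).2) hr h
  · obtain ⟨m, hm, h⟩ := h1 g
    rw [e] at h
    have : ∀ m ∈ [8, 13, 7, 6, 12, 9], ∀ r < 14, r.Prime → ∀ s < 14, s.Prime → r ≠ s → r * s ∣ m →
      ∃ m ∈ [13, 6, 7], r * s ∣ m := by decide +kernel
    exact this m hm r ((Nat.le_of_dvd (h4 m hm).1 (dvd_of_mul_right_dvd h)).trans_lt (h4 m hm).2) hr s
      ((Nat.le_of_dvd (h4 m hm).1 (dvd_of_mul_left_dvd h)).trans_lt (h4 m hm).2) hs hrs h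


/-- Let F₃ be the field with 3 elements and F₁₃ the field with 13 elements. The Chevalley group G₂(F₃) and PSL(2, F₁₃) have the same prime graph: the same prime divisors of their orders, and for distinct primes r, s an element of order rs in one iff in the other. -/
theorem result {F : Type*} [Field F] [Fintype F] (hF : Fintype.card F = 3) {E : Type*} [Field E] [Fintype E] (hE : Fintype.card E = 13) :
    ((∀ r : ℕ, r.Prime → (r ∣ Nat.card ↥(Cfsg.Lie.chevG2.group F) ↔ r ∣ Nat.card (Matrix.ProjectiveSpecialLinearGroup (Fin 2) E))) ∧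
      (∀ r s : ℕ, r.Prime → s.Prime → r ≠ s → ((∃ x : ↥(Cfsg.Lie.chevG2.group F), orderOf x = r * s) ↔ (∃ y : (Matrix.ProjectiveSpecialLinearGroup (Fin 2) E), orderOf y = r * s)))) := by
  have : Fact (Nat.Prime 3) := ⟨by norm_num⟩
  have : Fact (Nat.Prime 13) := ⟨by norm_num⟩
  have : CharP F 3 := charP_of_card_eq_prime hF
  have : CharP E 13 := charP_of_card_eq_prime hE
  have h := CfsgLib.Spec.spectrum_psl_two (F := E) 13
  rw [hE] at h
  obtain ⟨-, h2, -, h4, h5⟩ := CfsgLib.Semi.G2_exists 3 hF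
  refine CfsgLib.Recog.HasPG.samePG (hasPG (fun g => ?_) ?_) (hasPG (fun g => ?_) fun m hm => ?_)
  · rcases CfsgLib.Semi.G2_order_dvd 3 hF g with h | h | h | h | h | h | ⟨h, -⟩
    exacts [⟨8, by simp, h⟩, ⟨13, by simp, h⟩, ⟨7, by simp, h⟩, ⟨6, by simp, h⟩, ⟨12, by simp, h⟩,
      ⟨9, by simp, h 2 (by norm_num)⟩, by cases h]
  · simp only [List.forall_mem_cons, List.not_mem_nil, false_imp_iff, implies_true, and_true]
    exact ⟨h4, h2, h5⟩
  · rcases h.le ⟨g, rfl⟩ with h | h | h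
    exacts [⟨13, by simp, h⟩, ⟨6, by simp, h⟩, ⟨7, by simp, h⟩]
  · refine h.ge ?_
    revert m
    simp

end Cfsg.Agent.S2518
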