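import Mathlib
import Cfsg.Statements.S2519
import Cfsg.Agent.Lib.Semi.G2

set_option autoImplicit false
open Cfsg

namespace Cfsg.Agent.S2519


theorem anti {p q : ℕ} (hp : p.Prime) (hpq : p ∣ q) (hq : 5 ≤ q) {n m : ℕ}
    (hn : n ∈ ({p * (q + 1), p * (q - 1), q ^ 2 - 1, q ^ 2 + q + 1, q ^ 2 - q + 1, p * p} : Set ℕ))
    (hm : m ∈ ({p * (q + 1), p * (q - 1), q ^ 2 - 1, q ^ 2 + q + 1, q ^ 2 - q + 1, p * p} : Set ℕ))
    (h : n ∣ m) : n = m := by
  have h5 : 5 * q ≤ q ^ 2 := by nlinarith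
  have hle := Nat.le_of_dvd (by omega) hpq
  have h2 := hp.two_le
  have key : ∀ x y : ℕ, p ∣ y → x = y + 1 ∨ x + 1 = y → ¬ p ∣ x := fun x y hy e hx => by
    rcases e with rfl | rfl
    exacts [hp.one_lt.ne' (Nat.dvd_one.1 ((Nat.dvd_add_right hy).1 hx)),
      hp.one_lt.ne' (Nat.dvd_one.1 ((Nat.dvd_add_right hx).1 hy))]
  have hq2 : p ∣ q ^ 2 := dvd_pow hpq two_ne_zero
  have a1 := key (q + 1) q hpq (by omega)
  have a2 := key (q - 1) q hpq (by omega)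
  have a3 := key (q ^ 2 - 1) _ hq2 (by omega)
  have a4 := key (q ^ 2 + q + 1) _ (dvd_add hq2 hpq) (by omega)
  have a5 := key (q ^ 2 - q + 1) _ (Nat.dvd_sub hq2 hpq) (by omega)
  have b1 : ∀ x y, ¬ p ∣ x → 0 < y → y < x → ¬ x ∣ p * y := fun x y hx hy hxy h =>
    hxy.not_ge (Nat.le_of_dvd hy (((Nat.Prime.coprime_iff_not_dvd hp).2 hx).symm.dvd_of_dvd_mul_left h))
  have b2 : ∀ x y : ℕ, x < y → y < 2 * x → ¬ x ∣ y := fun x y h1 h2 h => by
    have := Nat.le_of_dvd (by omega) ((Nat.dvd_sub_iff_left h1.le (dvd_refl x)).2 h)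
    omega
  have b3 : ∀ x y : ℕ, 0 < y → y < x → ¬ x ∣ y := fun x y h1 h2 h => h2.not_ge (Nat.le_of_dvd h1 h)
  have b4 : ¬ q - 1 ∣ p := fun h => by
    rcases (Nat.dvd_prime hp).1 h with h | h
    exacts [by omega, a2 (h ▸ dvd_refl _)]
  rcases hn with rfl | rfl | rfl | rfl | rfl | rfl <;> rcases hm with rfl | rfl | rfl | rfl | rfl | rfl <;>
  first
  | rfl
  | exact absurd (dvd_of_mul_right_dvd h) (by assumption)
  | exact absurd (Nat.dvd_of_mul_dvd_mul_left hp.pos h) (by assumption)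
  | exact absurd (Nat.dvd_of_mul_dvd_mul_left hp.pos h) (b2 _ _ (by omega) (by omega))
  | exact absurd (Nat.dvd_of_mul_dvd_mul_left hp.pos h) (b3 _ _ (by omega) (by omega))
  | exact absurd h (b1 _ _ (by assumption) (by omega) (by omega))
  | exact absurd h (b2 _ _ (by omega) (by omega))
  | exact absurd h (b3 _ _ (by omega) (by omega))

/-- Let F be a finite field of odd order q = p^a ≥ 5. The element orders of the Chevalley group G₂(F) that are maximal under divisibility are exactly p(q + 1), p(q − 1), q² − 1, q² + q + 1, q² − q + 1, together with p² when p is 3 or 5. -/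
theorem result {F : Type*} [Field F] [Fintype F] (p a : ℕ) (hp : p.Prime) (hp2 : p ≠ 2) (ha : 1 ≤ a) (hF : Fintype.card F = p ^ a) (hq5 : 5 ≤ Fintype.card F) :
    {n : ℕ | n ∈ Set.range (orderOf : ↥(Cfsg.Lie.chevG2.group F) → ℕ) ∧ ∀ m ∈ Set.range (orderOf : ↥(Cfsg.Lie.chevG2.group F) → ℕ), n ∣ m → m = n} =
      ({p * (p ^ a + 1), p * (p ^ a - 1), p ^ (2 * a) - 1, p ^ (2 * a) + p ^ a + 1, p ^ (2 * a) - p ^ a + 1} : Set ℕ) ∪
        (if p = 3 ∨ p = 5 then ({p ^ 2} : Set ℕ) else ∅) := by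
  have := Fact.mk hp
  have : CharP F p := charP_of_card_eq_prime_pow hF
  obtain ⟨h1, h2, h3, h4, h5⟩ := CfsgLib.Semi.G2_exists p hF
  rw [pow_mul']
  have hpq : p ∣ p ^ a := dvd_pow_self p (by omega)
  rw [hF] at hq5
  generalize p ^ a = q at *
  set M : Set ℕ := {p * (q + 1), p * (q - 1), q ^ 2 - 1, q ^ 2 + q + 1, q ^ 2 - q + 1} ∪
    (if p = 3 ∨ p = 5 then ({p ^ 2} : Set ℕ) else ∅) with hM
  have k1 : ∀ m ∈ M, m ∈ Set.range (orderOf : ↥(Cfsg.Lie.chevG2.group F) → ℕ) := by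
    rintro m ((rfl | rfl | rfl | rfl | rfl) | h)
    any_goals assumption
    split_ifs at h with h'
    exacts [h ▸ CfsgLib.Semi.G2_exists_sq p h', h.elim]
  have k2 : ∀ g : Cfsg.Lie.chevG2.group F, ∃ m ∈ M, orderOf g ∣ m := fun g => by
    rcases CfsgLib.Semi.G2_order_dvd p hF g with h | h | h | h | h | h | ⟨h, -⟩
    · exact ⟨_, by simp [hM], h⟩
    · exact ⟨_, by simp [hM], h⟩
    · exact ⟨_, by simp [hM], h⟩
    · exact ⟨_, by simp [hM], h⟩
    · exact ⟨_, by simp [hM], h⟩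
    · by_cases h' : p = 3 ∨ p = 5
      · exact ⟨_, by simp [hM, h'], h 2 (by rcases h' with rfl | rfl <;> decide)⟩
      · refine ⟨p * (q - 1), by simp [hM], (h 1 ?_).trans (by simp)⟩
        have := hp.two_le
        have := hp.eq_two_or_odd
        rw [pow_one]
        omega
    · exact absurd h hp2
  have k3 : ∀ m ∈ M, m ∈ ({p * (q + 1), p * (q - 1), q ^ 2 - 1, q ^ 2 + q + 1, q ^ 2 - q + 1, p * p} : Set ℕ) := by
    rintro m ((rfl | rfl | rfl | rfl | rfl) | h)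
    any_goals simp
    split_ifs at h with h'
    exacts [by simp [Set.mem_singleton_iff.1 h, sq p], h.elim]
  ext n
  refine ⟨?_, fun hn => ⟨k1 n hn, ?_⟩⟩
  · rintro ⟨⟨g, rfl⟩, hg⟩
    obtain ⟨m, hm, h⟩ := k2 g
    exact hg m (k1 m hm) h ▸ hm
  · rintro _ ⟨g, rfl⟩ h
    obtain ⟨m, hm, h'⟩ := k2 g
    exact Nat.dvd_antisymm (anti hp hpq hq5 (k3 n hn) (k3 m hm) (h.trans h') ▸ h') h

end Cfsg.Agent.S2519
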