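import Mathlib
import Cfsg.Statements.S2520
import Cfsg.Agent.Lib.Semi.G2

set_option autoImplicit false
open Cfsg

namespace Cfsg.Agent.S2520

/-- Let F be a finite field with q = 2^a ≥ 4 elements and G₂(F) the Chevalley group of type G₂ over it. Every element order of G₂(F) maximal under divisibility lies in the set {8, 12, 2(q + 1), 2(q − 1), q² − 1, q² + q + 1, q² − q + 1}, and every member of that set is an element order of G₂(F). -/
theorem result {F : Type*} [Field F] [Fintype F] (a : ℕ) (ha : 2 ≤ a) (hF : Fintype.card F = 2 ^ a) :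
    {n : ℕ | n ∈ Set.range (orderOf : ↥(Cfsg.Lie.chevG2.group F) → ℕ) ∧ ∀ m ∈ Set.range (orderOf : ↥(Cfsg.Lie.chevG2.group F) → ℕ), n ∣ m → m = n} ⊆ ({8, 12, 2 * (2 ^ a + 1), 2 * (2 ^ a - 1), 2 ^ (2 * a) - 1, 2 ^ (2 * a) + 2 ^ a + 1, 2 ^ (2 * a) - 2 ^ a + 1} : Set ℕ) ∧
    ({8, 12, 2 * (2 ^ a + 1), 2 * (2 ^ a - 1), 2 ^ (2 * a) - 1, 2 ^ (2 * a) + 2 ^ a + 1, 2 ^ (2 * a) - 2 ^ a + 1} : Set ℕ) ⊆ Set.range (orderOf : ↥(Cfsg.Lie.chevG2.group F) → ℕ) := by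
  have : Fact (Nat.Prime 2) := ⟨Nat.prime_two⟩
  have : CharP F 2 := charP_of_card_eq_prime_pow hF
  obtain ⟨h1, h2, h3, h4, h5⟩ := CfsgLib.Semi.G2_exists 2 hF
  obtain ⟨h6, h7⟩ := CfsgLib.Semi.G2_exists_two (F := F)
  rw [pow_mul']
  refine ⟨?_, ?_⟩
  · rintro _ ⟨⟨g, rfl⟩, hg⟩
    simp only [Set.mem_insert_iff, Set.mem_singleton_iff]
    rcases CfsgLib.Semi.G2_order_dvd 2 hF g with h | h | h | h | h | h | ⟨-, h⟩
    · simp [hg _ h3 h]
    · simp [hg _ h4 h]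
    · simp [hg _ h5 h]
    · simp [hg _ h2 h]
    · simp [hg _ h1 h]
    · simp [hg _ h6 (h 3 (by decide))]
    · simp [hg _ h7 h]
  · rintro _ (rfl | rfl | rfl | rfl | rfl | rfl | rfl) <;> assumption

end Cfsg.Agent.S2520
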