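import Cfsg.Statements.S2521
import Mathlib

set_option autoImplicit false
open Cfsg

namespace Cfsg.Agent.S2521

/-- Let B be a finite group that is the semidirect product of a nilpotent normal subgroup U by an abelian subgroup T (U ∩ T = 1, UT = B), and let t ∈ T have centralizer exactly T. Then every element of the coset tU is conjugate to t in B: for each u ∈ U there is b ∈ B with b t b⁻¹ = t u. -/
theorem result {B : Type*} [Group B] [Finite B] (U T : Subgroup B) [U.Normal] (hU : Group.IsNilpotent ↥U) (hT : IsMulCommutative ↥T)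
    (hcompl : Subgroup.IsComplement' U T) (t : B) (ht : t ∈ T) (hreg : Subgroup.centralizer ({t} : Set B) = T) (u : B) (hu : u ∈ U) :
    ∃ b : B, b * t * b⁻¹ = t * u := by
  have hT' : ∀ b : B, b ∈ U → b * t = t * b → b = 1 := by
    intro b hb hbt
    have h1 : b ∈ T := by
      rw [← hreg, Subgroup.mem_centralizer_singleton_iff]
      exact hbt
    have h2 : b ∈ U ⊓ T := ⟨hb, h1⟩
    rw [hcompl.disjoint.eq_bot] at h2
    exact h2
  have hN : U.Normal := inferInstance
  let φ : U → U := fun b => ⟨t⁻¹ * b * t * b⁻¹, U.mul_mem (by simpa using hN.conj_mem b b.2 t⁻¹) (U.inv_mem b.2)⟩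
  have hinj : Function.Injective φ := by
    intro b c hbc
    have h1 : t⁻¹ * b * t * (b : B)⁻¹ = t⁻¹ * c * t * (c : B)⁻¹ := congrArg Subtype.val hbc
    have h2 : ((c : B)⁻¹ * b) * t = t * ((c : B)⁻¹ * b) := by
      have h3 : (b : B) * t * (b : B)⁻¹ = c * t * (c : B)⁻¹ := by
        calc (b : B) * t * (b : B)⁻¹ = t * (t⁻¹ * b * t * (b : B)⁻¹) := by group
          _ = t * (t⁻¹ * c * t * (c : B)⁻¹) := by rw [h1]
          _ = _ := by group
      calc ((c : B)⁻¹ * b) * t = (c : B)⁻¹ * (b * t * (b : B)⁻¹) * b := by group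
        _ = (c : B)⁻¹ * (c * t * (c : B)⁻¹) * b := by rw [h3]
        _ = _ := by group
    have h4 := hT' _ (U.mul_mem (U.inv_mem c.2) b.2) h2
    apply Subtype.ext
    rw [inv_mul_eq_one] at h4
    exact h4.symm
  obtain ⟨b, hb⟩ := Finite.surjective_of_injective hinj ⟨u, hu⟩
  have hb' : t⁻¹ * b * t * (b : B)⁻¹ = u := congrArg Subtype.val hb
  exact ⟨b, by rw [← hb']; group⟩

end Cfsg.Agent.S2521
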