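import Cfsg.Statements.S2523
import Cfsg.Agent.Lib.EG.Types
import Cfsg.Agent.Lib.ClSys.Sp
import Cfsg.Agent.Lib.ClSys.Omega
import Cfsg.Agent.Lib.Stein.Main
import Cfsg.Agent.Lib.RGD.Simple

set_option autoImplicit false
open Cfsg

namespace Cfsg.Agent.S2523

open CfsgLib CfsgLib.RGD CfsgLib.ClSys CfsgLib.EG CfsgLib.Stein CfsgLib.Weyl Cfsg.Lie

theorem quot_central {ι κ : Type} [Fintype κ] [DecidableEq κ] [Finite ι] {Φ : RootSys ι κ} {F : Type*}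
    [Field F] {G : Type*} [Group G] {S : StSys Φ F G} (hS : S.Nondeg) (htop : S.grp = ⊤)
    (z : G ⧸ Subgroup.center G) (hz : ∀ g, z * g = g * z) : z = 1 := by
  obtain ⟨a, rfl⟩ := QuotientGroup.mk_surjective z
  have hG : ∀ g, g ∈ S.grp := fun g => htop ▸ Subgroup.mem_top g
  have h1 : ∀ g, a * g * a⁻¹ * g⁻¹ ∈ S.B := fun g => S.H_le_B (hS.mem_H_of_central (hG _) fun y _ =>
    (Subgroup.mem_center_iff.1 ((QuotientGroup.eq_one_iff _).1 (by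
      simp only [QuotientGroup.mk_mul, QuotientGroup.mk_inv, hz]; group)) y).symm)
  have h2 : a ∈ S.B := hS.mem_B_of_conj (hG a) fun u hu => by
    simpa using mul_mem (h1 u) (S.U_le_B hu)
  refine (QuotientGroup.eq_one_iff _).2 (Subgroup.mem_center_iff.2 fun g =>
    (hS.commute_of_conj_mem_B (fun g _ => ?_) (hG g)).symm)
  simpa [mul_assoc] using mul_mem (inv_mem (h1 g)) h2

theorem of_equiv {G G' : Type*} [Group G] [Group G'] (e : G ≃* G')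
    (h : ∃ c : G', ∀ g : G', ∃ x y : G', g = (x * c * x⁻¹) * (y * c * y⁻¹)) :
    ∃ c : G, ∀ g : G, ∃ x y : G, g = (x * c * x⁻¹) * (y * c * y⁻¹) := by
  obtain ⟨c, hc⟩ := h
  refine ⟨e.symm c, fun g => ?_⟩
  obtain ⟨x, y, h⟩ := hc (e g)
  exact ⟨e.symm x, e.symm y, e.injective (by simpa using h)⟩

theorem chev {D : ChevalleyDatum} [Chev.Good D] (h : RtOK D) (hg : GenOK D) {F : Type*} [Field F]
    [Finite F] (hF : 9 ≤ Nat.card F) (r₀ : Fin D.rank) {p : ℕ} (e : Fin p → Fin D.rank)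
    (y m : List ℤ) (P : Fin D.rank → Prop)
    (hP : ∀ σ : Fin D.rank → Fin D.rank, Function.Injective σ →
      (∀ i j, (rootSys h).A (σ i) (σ j) = (rootSys h).A i j) → ∀ i, P (σ i) ↔ P i)
    (H : (∀ i, i ≠ r₀ → ∃ j : Fin D.rank, (if j.val = 1 ∧ 6 ≤ D.rank then 9 else j.val) <
        (if i.val = 1 ∧ 6 ≤ D.rank then 9 else i.val) ∧ (rootSys h).A i j = -1) ∧
      Function.Injective e ∧ (∀ k l, (rootSys h).A (e k) (e l) =
        if k = l then 2 else if k.val + 1 = l.val ∨ l.val + 1 = k.val then -1 else 0) ∧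
      (∀ k, (rootSys h).A r₀ (e k) = if k.val = 0 then -1 else 0) ∧
      (∀ j : Fin D.rank, ∑ i : Fin D.rank, y.getD i 0 * (rootSys h).A i j = m.getD j 0) ∧
      (∀ k, m.getD (e k) 0 = 0) ∧ (∀ j, (∀ k, e k ≠ j) → m.getD j 0 = 1) ∧
      (∀ r, ∑ j : Fin D.rank, (rootSys h).rt r j * m.getD j 0 < 8) ∧ ∀ i, (∃ k, e k = i) ↔ P i) :
    ∃ c : D.group F, ∀ g, ∃ x y, g = (x * c * x⁻¹) * (y * c * y⁻¹) := by
  obtain ⟨h1, h2, h3, h4, h5, h6, h7, h8, h9⟩ := H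
  have C := cover_id (K := F) h
  exact thompson' (C.sys_nondeg h hg) (C.sys_r3 h hg (rel3_xG h)) (C.sys_hRule h hg) (C.sys_grp h hg)
    (fun z hz => eq_one_of_commute h fun r _ t => hz _) hF _ r₀ h1 e h2 h3 r₀ h4 _ _ h5 one_pos h6 h7
    (fun r _ => h8 r) fun σ a b i => by rw [h9, h9, hP σ a b]

/-- Let F be a finite field with at least 9 elements and let G be one of PSL(n, F) (n ≥ 2), PSp(2m, F) (m ≥ 2), PΩ(2m+1, F) (m ≥ 3, here q odd), PΩ⁺(2m, F) (m ≥ 4), or the Chevalley group of type G₂, F₄, E₆, E₇ or E₈ over F. Then G is the square of one of its conjugacy classes (Thompson's conjecture on products of conjugacy classes, not his conjecture on class sizes): there is a conjugacy class C of G with C·C = G, i.e. every element of G is a product of two elements of C. -/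
theorem result {F : Type*} [Field F] [Fintype F] (hF : 9 ≤ Fintype.card F) {G : Type*} [Group G] [Finite G]
    (hG : (∃ n : ℕ, 2 ≤ n ∧ Nonempty (G ≃* Matrix.ProjectiveSpecialLinearGroup (Fin n) F)) ∨
      (∃ m : ℕ, 2 ≤ m ∧ Nonempty (G ≃* Cfsg.PSp m F)) ∨
      (∃ m : ℕ, 3 ≤ m ∧ Odd (Fintype.card F) ∧ Nonempty (G ≃* Cfsg.POmega F (Cfsg.quadFormOdd m F))) ∨
      (∃ m : ℕ, 4 ≤ m ∧ Nonempty (G ≃* Cfsg.POmega F (Cfsg.quadFormPlus m F))) ∨
      Nonempty (G ≃* ↥(Cfsg.Lie.chevG2.group F)) ∨ Nonempty (G ≃* ↥(Cfsg.Lie.chevF4.group F)) ∨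
      Nonempty (G ≃* ↥(Cfsg.Lie.chevE6.group F)) ∨ Nonempty (G ≃* ↥(Cfsg.Lie.chevE7.group F)) ∨ Nonempty (G ≃* ↥(Cfsg.Lie.chevE8.group F))) :
    ∃ c : G, ∀ g : G, ∃ x y : G, g = (x * c * x⁻¹) * (y * c * y⁻¹) := by
  rw [← Nat.card_eq_fintype_card] at hF
  rcases hG with ⟨n, hn, ⟨e⟩⟩ | ⟨m, hm, ⟨e⟩⟩ | ⟨m, hm, ho, ⟨e⟩⟩ | ⟨m, hm, ⟨e⟩⟩ | ⟨⟨e⟩⟩ | ⟨⟨e⟩⟩ | ⟨⟨e⟩⟩ |
    ⟨⟨e⟩⟩ | ⟨⟨e⟩⟩ <;> refine of_equiv e ?_
  · exact thompson_A hn pslSys_nondeg pslSys_r3 pslSys_hRule pslSys_grp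
      (quot_central slSys_nondeg slSys_grp) hF
  · exact thompson_BC hm _ pspSys_nondeg pspSys_r3 pspSys_hRule pspSys_grp
      (quot_central spSys_nondeg spSys_grp) hF
  · have h2 : (2 : F) ≠ 0 := Ring.two_ne_zero fun h => by
      have := FiniteField.even_card_of_char_two h
      rw [Nat.odd_iff] at ho; omega
    have h1 : 1 ≤ m := by omega
    exact thompson_BC (by omega) _ (pomegaOddSys_nondeg h1 h2) (pomegaOddSys_r3 h1 h2)
      (pomegaOddSys_hRule h1 h2) (pomegaOddSys_grp h1 h2)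
      (quot_central (omegaOddSys_nondeg h1 h2) (omegaOddSys_grp h1 h2)) hF
  · have h1 : 2 ≤ m := by omega
    have h2 : m = 2 → ∃ a : F, a ≠ 0 ∧ a ≠ 1 := by omega
    exact thompson_D h1 hm (pomegaPlusSys_nondeg h1 h2) (pomegaPlusSys_r3 h1 h2)
      (pomegaPlusSys_hRule h1 h2) (pomegaPlusSys_grp h1 h2)
      (quot_central (omegaPlusSys_nondeg h1 h2) (omegaPlusSys_grp h1 h2)) hF
  · exact chev rtOKG2 (genOK_of_mem (by simp)) hF ⟨0, by decide⟩ (p := 0) Fin.elim0 [3, 5] [1, 1]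
      (fun _ => False) (fun _ _ _ _ => Iff.rfl) (by decide +kernel)
  · refine chev rtOKF4 (genOK_of_mem (by simp)) hF ⟨0, by decide⟩ (p := 1) (fun _ => ⟨1, by decide⟩)
      [5, 9, 13, 7] [1, 0, 1, 1] (fun i => ∃ j, (rootSys rtOKF4).A i j = -2) (fun σ a b i => ⟨?_,
        fun ⟨j, h⟩ => ⟨σ j, (b i j).trans h⟩⟩) (by decide +kernel)
    rintro ⟨j, h⟩
    obtain ⟨j, rfl⟩ := Finite.surjective_of_injective a j
    exact ⟨j, (b i j).symm.trans h⟩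
  · exact chev rtOKE6 (genOK_of_mem (by simp)) hF ⟨0, by decide⟩ (p := 3)
      (fun k => ⟨k + 2, Nat.add_lt_of_lt_sub (k.2.trans (by decide))⟩) [3, 4, 5, 7, 5, 3] [1, 1, 0, 0, 0, 1] _
      (fun σ => twoNb_iff) (by unfold TwoNb; decide +kernel)
  · exact chev rtOKE7 (genOK_of_mem (by simp)) hF ⟨0, by decide⟩ (p := 4)
      (fun k => ⟨k + 2, Nat.add_lt_of_lt_sub (k.2.trans (by decide))⟩) [5, 7, 9, 13, 10, 7, 4] [1, 1, 0, 0, 0, 0, 1] _
      (fun σ => twoNb_iff) (by unfold TwoNb; decide +kernel)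
  · exact chev rtOKE8 (genOK_of_mem (by simp)) hF ⟨0, by decide⟩ (p := 5)
      (fun k => ⟨k + 2, Nat.add_lt_of_lt_sub (k.2.trans (by decide))⟩) [11, 16, 21, 31, 25, 19, 13, 7]
      [1, 1, 0, 0, 0, 0, 0, 1] _ (fun σ => twoNb_iff) (by unfold TwoNb; decide +kernel)

end Cfsg.Agent.S2523
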