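import Cfsg.Statements.S2524
import Cfsg.Agent.Lib.ClDeg.SpWeil

set_option autoImplicit false
open Cfsg

namespace Cfsg.Agent.S2524

open CfsgLib CfsgLib.ClDeg

/-- Let F be a finite field of odd order q and G = Sp(2n, F) with n ≥ 2. Then G has exactly four irreducible complex characters of degree (q^n + 1)/2 or (q^n − 1)/2 (two of each), and every other non-principal irreducible character has degree at least (q^n − 1)(q^n − q)/(2(q + 1)). -/
theorem result {F : Type*} [Field F] [Fintype F] (hodd : Odd (Fintype.card F)) (n : ℕ) (hn : 2 ≤ n) :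
    Nat.card {χ : Cfsg.IrrCharacter ↥(Matrix.symplecticGroup (Fin n) F) // (χ : ↥(Matrix.symplecticGroup (Fin n) F) → ℂ) 1 = (((Fintype.card F) ^ n + 1 : ℕ) : ℂ) / 2} = 2 ∧
    Nat.card {χ : Cfsg.IrrCharacter ↥(Matrix.symplecticGroup (Fin n) F) // (χ : ↥(Matrix.symplecticGroup (Fin n) F) → ℂ) 1 = (((Fintype.card F) ^ n - 1 : ℕ) : ℂ) / 2} = 2 ∧
    ∀ χ : Cfsg.IrrCharacter ↥(Matrix.symplecticGroup (Fin n) F),
      (χ : ↥(Matrix.symplecticGroup (Fin n) F) → ℂ) 1 ≠ 1 →
      (χ : ↥(Matrix.symplecticGroup (Fin n) F) → ℂ) 1 ≠ (((Fintype.card F) ^ n + 1 : ℕ) : ℂ) / 2 →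
      (χ : ↥(Matrix.symplecticGroup (Fin n) F) → ℂ) 1 ≠ (((Fintype.card F) ^ n - 1 : ℕ) : ℂ) / 2 →
      (((Fintype.card F) ^ n - 1 : ℕ) : ℝ) * (((Fintype.card F) ^ n - Fintype.card F : ℕ) : ℝ) / (2 * ((Fintype.card F : ℕ) + 1 : ℝ)) ≤ ‖(χ : ↥(Matrix.symplecticGroup (Fin n) F) → ℂ) 1‖ := by
  have h2 := LS.two_ne_zero_of_odd hodd
  obtain ⟨ψ, hψ0⟩ := AddChar.exists_apply_ne_zero.2 (one_ne_zero (α := F))
  have hψ : ψ ≠ 1 := fun e => hψ0 (by rw [e]; rfl)
  obtain ⟨δ, hδ⟩ := FiniteField.exists_nonsquare (F := F) fun e => h2 (by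
    simpa [e] using ringChar.Nat.cast_ringChar (R := F))
  have δ0 : δ ≠ 0 := by rintro rfl; simp at hδ
  have hψ' := AddChar.IsPrimitive.of_ne_one hψ δ0
  have hq : 3 ≤ Fintype.card F := by
    have := Fintype.one_lt_card (α := F)
    obtain ⟨k, hk⟩ := hodd; omega
  have hQ : Fintype.card F * Fintype.card F ≤ Fintype.card F ^ n := by
    rw [← pow_two]; exact Nat.pow_le_pow_right (by omega) hn
  have hQ1 : Fintype.card F ≤ Fintype.card F ^ n := by nlinarith
  have small : ∀ (k : ℕ) (ε : ℂ), ε * ε = 1 → (k : ℂ) = (Fintype.card F ^ n + ε) / 2 → 2 ≤ k ∧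
      2 * (Fintype.card F + 1) * k < (Fintype.card F ^ n - 1) * (Fintype.card F ^ n - Fintype.card F) :=
    fun k ε hε hk => by
      have h : Fintype.card F ^ n ≤ 2 * k + 1 ∧ 2 * k ≤ Fintype.card F ^ n + 1 := by
        rcases mul_self_eq_one_iff.1 hε with rfl | rfl
        · have : 2 * k = Fintype.card F ^ n + 1 := by exact_mod_cast (by rw [hk]; ring :
            (2 * k : ℂ) = Fintype.card F ^ n + 1)
          omega
        · have : 2 * k + 1 = Fintype.card F ^ n := by exact_mod_cast (by rw [hk]; ring :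
            (2 * k + 1 : ℂ) = Fintype.card F ^ n)
          omega
      refine ⟨by nlinarith, ?_⟩
      have h9 : 2 * Fintype.card F + 3 ≤ Fintype.card F ^ n := by nlinarith
      have h8 := Nat.mul_le_mul_left (Fintype.card F ^ n) h9
      have h7 := Nat.mul_le_mul_left (Fintype.card F + 1) h.2
      zify [hQ1, show 1 ≤ Fintype.card F ^ n by omega] at h7 h8 h9 hq ⊢
      linarith
  have two : ∀ (ε D : ℂ), ε * ε = 1 → D = (Fintype.card F ^ n + ε) / 2 →
      Nat.card {χ : IrrCharacter (Matrix.symplecticGroup (Fin n) F) // χ.1 1 = D} = 2 := fun ε D hε hD => by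
    have h1 := weilRep_irr hψ h2 (show 1 ≤ n by omega) hε
    have h3 := (weilRep_one hψ h2 n hε).trans hD.symm
    have h4 := small _ ε hε ((Representation.char_one _).symm.trans (h3.trans hD))
    have h5 := isIrreducible_comp (weilRep hψ h2 n ε) (simAut (Units.mk0 δ δ0)⁻¹)
    have key : ∀ χ : {χ : IrrCharacter (Matrix.symplecticGroup (Fin n) F) // χ.1 1 = D},
        χ.1.1 = (weilRep hψ h2 n ε).character ∨ χ.1.1 = (weilRep hψ' h2 n ε).character := by
      rintro ⟨⟨_, k, ρ, hρ, rfl⟩, hk : ρ.character 1 = D⟩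
      have h6 := small _ ε hε ((Representation.char_one ρ).symm.trans (hk.trans hD))
      obtain ⟨ε', h7, h8⟩ := sp_small (ρ := ρ) hψ h2 h6.1 hn h6.2 hδ hψ'
      obtain rfl : ε' = ε := by
        rcases h8 with h8 | h8 <;>
        · rw [h8, weilRep_one _ _ _ h7, hD] at hk
          linear_combination 2 * hk
      exact h8
    let x : {χ : IrrCharacter (Matrix.symplecticGroup (Fin n) F) // χ.1 1 = D} :=
      ⟨⟨_, CharDeg.isIrrCharacter_character (weilRep hψ h2 n ε)⟩, h3⟩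
    let y : {χ : IrrCharacter (Matrix.symplecticGroup (Fin n) F) // χ.1 1 = D} :=
      ⟨⟨_, CharDeg.isIrrCharacter_character ((weilRep hψ h2 n ε).comp (simAut (Units.mk0 δ δ0)⁻¹).toMonoidHom)⟩,
        (Representation.char_one _).trans ((Representation.char_one _).symm.trans h3)⟩
    have hne : y.1.1 ≠ x.1.1 := char_simAut_ne hψ h2 h4.1 hn h4.2 hδ δ0
    refine Nat.card_eq_two_iff.2 ⟨x, y, fun e => hne (by rw [e]), Set.eq_univ_of_forall fun z => ?_⟩
    exact (key z).imp (fun e => Subtype.ext (Subtype.ext e)) fun e =>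
      Subtype.ext (Subtype.ext (e.trans ((key y).resolve_left hne).symm))
  have e1 : ((Fintype.card F ^ n + 1 : ℕ) : ℂ) / 2 = (Fintype.card F ^ n + 1) / 2 := by simp
  have e2 : ((Fintype.card F ^ n - 1 : ℕ) : ℂ) / 2 = (Fintype.card F ^ n + -1) / 2 := by
    rw [Nat.cast_sub (by omega)]; simp [sub_eq_add_neg]
  refine ⟨two 1 _ (by simp) e1, two (-1) _ (by simp) e2, ?_⟩
  rintro ⟨_, k, ρ, hρ, rfl⟩ k1 k2 k3
  have := CharDeg.nontrivial_of_isIrreducible ρ
  have k0 := Module.finrank_pos (R := ℂ) (M := Fin k → ℂ)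
  have hk : ¬ 2 * (Fintype.card F + 1) * Module.finrank ℂ (Fin k → ℂ) <
      (Fintype.card F ^ n - 1) * (Fintype.card F ^ n - Fintype.card F) := fun h => by
    obtain ⟨ε, h7, h8⟩ := sp_small (ρ := ρ) hψ h2 (by
      by_contra h'
      exact k1 ((Representation.char_one ρ).trans (by rw [show Module.finrank ℂ (Fin k → ℂ) = 1 by omega]; simp)))
      hn h hδ hψ'
    have h9 : ρ.character 1 = (Fintype.card F ^ n + ε) / 2 := by
      rcases h8 with h8 | h8 <;> rw [h8, weilRep_one _ _ _ h7]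
    rcases mul_self_eq_one_iff.1 h7 with rfl | rfl
    · exact k2 (h9.trans e1.symm)
    · exact k3 (h9.trans e2.symm)
  rw [div_le_iff₀ (by positivity)]
  change _ ≤ ‖ρ.character 1‖ * _
  rw [Representation.char_one, Complex.norm_natCast, mul_comm (_ : ℝ) (2 * _)]
  exact_mod_cast not_lt.1 hk

end Cfsg.Agent.S2524
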