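import Mathlib
import Cfsg.Statements.S2525
import Cfsg.Agent.Lib.Semi.F4
import Cfsg.Agent.Lib.RGD.Simple

set_option autoImplicit false
open Cfsg

namespace Cfsg.Agent.S2525


theorem crit {r q e : ℕ} (hr : r.Prime) (h2 : r ≠ 2) (he : orderOf (q : ZMod r) = e) (hq : ¬ r ∣ q) :
    (∀ k, (r : ℤ) ∣ q ^ k - 1 ↔ e ∣ k) ∧ (∀ k, (r : ℤ) ∣ q ^ k + 1 ↔ e ∣ 2 * k ∧ ¬ e ∣ k) ∧
      ((r : ℤ) ∣ q - 1 ↔ e ∣ 1) ∧ ((r : ℤ) ∣ q + 1 ↔ e ∣ 2 ∧ ¬ e ∣ 1) ∧ ((r : ℤ) ∣ q ^ 4 - q ^ 2 + 1 ↔ e = 12) ∧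
      ∀ a b : ℤ, (r : ℤ) ∣ a * b ↔ (r : ℤ) ∣ a ∨ (r : ℤ) ∣ b := by
  have := Fact.mk hr
  subst he
  have h0 : (2 : ZMod r) ≠ 0 := fun h =>
    h2 ((Nat.prime_dvd_prime_iff_eq hr Nat.prime_two).1 ((ZMod.natCast_eq_zero_iff 2 r).1 h))
  have h1 : ∀ k, (r : ℤ) ∣ q ^ k - 1 ↔ orderOf (q : ZMod r) ∣ k := fun k => by
    simp [← ZMod.intCast_zmod_eq_zero_iff_dvd, orderOf_dvd_iff_pow_eq_one, sub_eq_zero]
  have h3 : ∀ k, (r : ℤ) ∣ q ^ k + 1 ↔ orderOf (q : ZMod r) ∣ 2 * k ∧ ¬ orderOf (q : ZMod r) ∣ k := fun k => by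
    simp only [← ZMod.intCast_zmod_eq_zero_iff_dvd, orderOf_dvd_iff_pow_eq_one, pow_mul', sq_eq_one_iff,
      Int.cast_add, Int.cast_pow, Int.cast_natCast, Int.cast_one]
    grind
  refine ⟨h1, h3, by simpa using h1 1, by simpa using h3 1, ?_, fun a b => (Nat.prime_iff_prime_int.1 hr).dvd_mul⟩
  have h4 : (q : ℤ) ^ 6 + 1 = (q ^ 2 + 1) * (q ^ 4 - q ^ 2 + 1) := by ring
  refine ⟨fun h => ?_, fun h => ((Nat.prime_iff_prime_int.1 hr).dvd_or_dvd (h4 ▸ (h3 6).2 (by simp [h]))).resolve_left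
    fun h' => by simpa [h] using (h3 2).1 h'⟩
  obtain ⟨h5, h6⟩ := (h3 6).1 (h4 ▸ h.mul_left _)
  have h7 : orderOf (q : ZMod r) ≠ 4 := fun e => by
    have h8 : (r : ℤ) ∣ 3 := by
      exact (dvd_add (((h3 2).2 (by simp [e])).mul_left (2 - q ^ 2)) h).trans (dvd_of_eq (by ring))
    have h9 : r - 1 = 2 := by
      rw [(Nat.prime_dvd_prime_iff_eq hr Nat.prime_three).1 (by exact_mod_cast h8)]
    have := ZMod.orderOf_dvd_card_sub_one ((ZMod.natCast_eq_zero_iff q r).not.2 hq)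
    rw [e, h9] at this
    omega
  have := Nat.le_of_dvd (by decide) h5
  generalize orderOf (q : ZMod r) = e at *
  interval_cases e <;> omega

/-- Let F be a finite field with q = 2^n elements and G = F₄(F). For an odd prime r let e(r, q) be the multiplicative order of q modulo r. Two distinct primes r, s dividing the order of G are non-adjacent in the prime graph of G (no element of order rs) if and only if, up to swapping r and s, either r = 2 and e(s, q) ∈ {8, 12}, or r, s are both odd with k = e(r, q) < l = e(s, q) and one of: l ∈ {8, 12}; l = 6 and k ∈ {3, 4}; l = 4 and k = 3. -/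
theorem result {F : Type*} [Field F] [Fintype F] (n : ℕ) (hn : 1 ≤ n) (hF : Fintype.card F = 2 ^ n)
    (r s : ℕ) (hr : r.Prime) (hs : s.Prime) (hrs : r ≠ s) (hrG : r ∣ Nat.card ↥(Cfsg.Lie.chevF4.group F)) (hsG : s ∣ Nat.card ↥(Cfsg.Lie.chevF4.group F)) :
    (¬ ∃ x : ↥(Cfsg.Lie.chevF4.group F), orderOf x = r * s) ↔
      ((r = 2 ∧ orderOf ((Fintype.card F : ℕ) : ZMod s) ∈ ({8, 12} : Finset ℕ)) ∨ (s = 2 ∧ orderOf ((Fintype.card F : ℕ) : ZMod r) ∈ ({8, 12} : Finset ℕ)) ∨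
       (r ≠ 2 ∧ s ≠ 2 ∧
         ((orderOf ((Fintype.card F : ℕ) : ZMod r) < orderOf ((Fintype.card F : ℕ) : ZMod s) ∧ (orderOf ((Fintype.card F : ℕ) : ZMod s) ∈ ({8, 12} : Finset ℕ) ∨ (orderOf ((Fintype.card F : ℕ) : ZMod s) = 6 ∧ orderOf ((Fintype.card F : ℕ) : ZMod r) ∈ ({3, 4} : Finset ℕ)) ∨ (orderOf ((Fintype.card F : ℕ) : ZMod s) = 4 ∧ orderOf ((Fintype.card F : ℕ) : ZMod r) = 3))) ∨
          (orderOf ((Fintype.card F : ℕ) : ZMod s) < orderOf ((Fintype.card F : ℕ) : ZMod r) ∧ (orderOf ((Fintype.card F : ℕ) : ZMod r) ∈ ({8, 12} : Finset ℕ) ∨ (orderOf ((Fintype.card F : ℕ) : ZMod r) = 6 ∧ orderOf ((Fintype.card F : ℕ) : ZMod s) ∈ ({3, 4} : Finset ℕ)) ∨ (orderOf ((Fintype.card F : ℕ) : ZMod r) = 4 ∧ orderOf ((Fintype.card F : ℕ) : ZMod s) = 3)))))) := by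
  have : Fact (Nat.Prime 2) := ⟨Nat.prime_two⟩
  have : CharP F 2 := charP_of_card_eq_prime_pow hF
  have hc : ∀ r : ℕ, r.Prime → r ≠ 2 → r.Coprime (Fintype.card F) := fun r hr h =>
    hF ▸ ((Nat.coprime_primes hr Nat.prime_two).2 h).pow_right n
  have hO := CfsgLib.Semi.F4_order (F := F) 2 rfl
  have hE := fun N => CfsgLib.Semi.F4_exists (F := F) 2 rfl (N := N)
  have hq1 : 1 ≤ Fintype.card F := Fintype.card_pos
  rw [CfsgLib.RGD.card_F4 F rfl] at hrG hsG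
  generalize Fintype.card F = q at *
  have h1 : ∀ r : ℕ, r.Prime → r ≠ 2 → r ∣ q ^ 24 * (q ^ 2 - 1) * (q ^ 6 - 1) * (q ^ 8 - 1) * (q ^ 12 - 1) →
      orderOf (q : ZMod r) ∈ [1, 2, 3, 4, 6, 8, 12] := fun r hr h2 h => by
    obtain ⟨a1, -, -, -, -, a2⟩ := crit hr h2 rfl (hr.coprime_iff_not_dvd.1 (hc r hr h2))
    zify [Nat.one_le_pow _ _ hq1] at h
    have a3 : ¬ (r : ℤ) ∣ q ^ 24 := fun h => hr.coprime_iff_not_dvd.1 ((hc r hr h2).pow_right 24) (by exact_mod_cast h)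
    simp only [a2, a1, a3, false_or] at h
    generalize orderOf (q : ZMod r) = e at *
    have : e ≤ 12 := by rcases h with ((h | h) | h) | h <;> exact (Nat.le_of_dvd (by decide) h).trans (by decide)
    interval_cases e <;> simp at h ⊢
  have h2 : ∀ s : ℕ, s.Prime → s ≠ 2 → orderOf (q : ZMod s) ∈ [1, 2, 3, 4, 6, 8, 12] →
      ((¬ ∃ x : Cfsg.Lie.chevF4.group F, orderOf x = 2 * s) ↔ orderOf (q : ZMod s) ∈ ({8, 12} : Finset ℕ)) :=
    fun s hs h2 h => by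
      obtain ⟨a1, a2, a3, a4, a5, a6⟩ := crit hs h2 rfl (hs.coprime_iff_not_dvd.1 (hc s hs h2))
      have b1 := (hE s (hc s hs h2)).2
      have b2 : (∃ x : Cfsg.Lie.chevF4.group F, orderOf x = 2 * s) → (s : ℤ) ∣ (q + 1) * (q ^ 3 - 1) ∨
          (s : ℤ) ∣ q ^ 4 - 1 ∨ (s : ℤ) ∣ (q - 1) * (q ^ 3 + 1) := fun ⟨x, hx⟩ => by
        obtain ⟨k, m, e, hm, h⟩ := hO x
        have : (s : ℤ) ∣ m := Int.natCast_dvd_natCast.2 ((((Nat.coprime_primes hs Nat.prime_two).2 h2).pow_right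
          k).dvd_of_dvd_mul_left (e ▸ hx ▸ dvd_mul_left _ _))
        refine h.imp this.trans (Or.imp this.trans fun h => this.trans (h.resolve_right fun h => hm ?_))
        rw [← one_mul m, ← pow_zero 2, ← h.1, ← e, hx]
        exact dvd_mul_right _ _
      simp only [a1, a2, a3, a4, a5, a6] at b1 b2
      generalize orderOf (q : ZMod s) = e at *
      generalize (∃ x : Cfsg.Lie.chevF4.group F, orderOf x = 2 * s) = A at *
      fin_cases h <;> simp at b1 b2 ⊢ <;> assumption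
  by_cases hr2 : r = 2
  · subst hr2
    rw [h2 s hs hrs.symm (h1 s hs hrs.symm hsG)]
    simp [hrs.symm]
  by_cases hs2 : s = 2
  · subst hs2
    rw [mul_comm r, h2 r hr hrs (h1 r hr hrs hrG)]
    simp [hrs]
  obtain ⟨a1, a2, a3, a4, a5, a6⟩ := crit hs hs2 rfl (hs.coprime_iff_not_dvd.1 (hc s hs hs2))
  obtain ⟨c1, c2, c3, c4, c5, c6⟩ := crit hr hr2 rfl (hr.coprime_iff_not_dvd.1 (hc r hr hr2))
  have h3 : ∀ x : ℤ, ((r * s : ℕ) : ℤ) ∣ x ↔ (r : ℤ) ∣ x ∧ (s : ℤ) ∣ x := fun x =>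
    ⟨fun h => ⟨(by simp : (r : ℤ) ∣ _).trans h, (by simp : (s : ℤ) ∣ _).trans h⟩, fun h => Nat.cast_mul (α := ℤ) r s ▸
      (Nat.isCoprime_iff_coprime.2 ((Nat.coprime_primes hr hs).2 hrs)).mul_dvd h.1 h.2⟩
  obtain ⟨b1, b2⟩ := hE (r * s) ((hc r hr hr2).mul_left (hc s hs hs2))
  replace b2 := fun h => (b2 h).imp' (q := fun x => orderOf x = r * s) (· ^ 2) fun x hx => by
    rw [orderOf_pow_of_dvd two_ne_zero (hx ▸ dvd_mul_right _ _), hx, Nat.mul_div_cancel_left _ two_pos]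
  have b3 : (∃ x : Cfsg.Lie.chevF4.group F, orderOf x = r * s) → ((r * s : ℕ) : ℤ) ∣ (q + 1) * (q ^ 3 - 1) ∨
      ((r * s : ℕ) : ℤ) ∣ q ^ 4 - 1 ∨ ((r * s : ℕ) : ℤ) ∣ (q - 1) * (q ^ 3 + 1) ∨ ((r * s : ℕ) : ℤ) ∣ q ^ 4 + 1 ∨
      ((r * s : ℕ) : ℤ) ∣ q ^ 4 - q ^ 2 + 1 := fun ⟨x, hx⟩ => by
    obtain ⟨k, m, e, hm, h⟩ := hO x
    have : ((r * s : ℕ) : ℤ) ∣ m := Int.natCast_dvd_natCast.2 (((((Nat.coprime_primes hr Nat.prime_two).2 hr2).mul_left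
      ((Nat.coprime_primes hs Nat.prime_two).2 hs2)).pow_right k).dvd_of_dvd_mul_left (e ▸ hx ▸ dvd_rfl))
    exact h.imp this.trans (Or.imp this.trans (Or.imp this.trans fun h => h.2.imp this.trans this.trans))
  simp only [h3, a1, a2, a3, a4, a5, a6, c1, c2, c3, c4, c5, c6] at b1 b2 b3
  have d1 := h1 r hr hr2 hrG
  have d2 := h1 s hs hs2 hsG
  generalize orderOf (q : ZMod s) = e at *
  generalize orderOf (q : ZMod r) = e' at *
  generalize (∃ x : Cfsg.Lie.chevF4.group F, orderOf x = r * s) = A at *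
  fin_cases d1 <;> fin_cases d2 <;> simp [hr2, hs2] at b1 b2 b3 ⊢ <;> assumption

end Cfsg.Agent.S2525
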