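import Mathlib
import Cfsg.Statements.S2534
import Cfsg.Agent.Lib.SymSub.HallC
-- import your own Cfsg.Agent.* helpers here

set_option autoImplicit false
open Cfsg

namespace Cfsg.Agent.S2534

/-- For `n ≥ 5` and a set of primes `π`, the alternating group of degree `n` satisfies the full Sylow analogue for `π` (its maximal `π`-subgroups are pairwise conjugate; for a finite group this says Hall `π`-subgroups exist, are all conjugate, and contain every `π`-subgroup up to conjugacy) if and only if either at most one prime of `π` divides its order or every prime dividing its order lies in `π`. -/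
theorem result (n : ℕ) (hn : 5 ≤ n) (π : Set ℕ) :
    Cfsg.IsDPiGroup π ↥(alternatingGroup (Fin n)) ↔
      ((∀ r s : ℕ, r.Prime → s.Prime → r ∈ π → s ∈ π → r ∣ Nat.card ↥(alternatingGroup (Fin n)) → s ∣ Nat.card ↥(alternatingGroup (Fin n)) → r = s) ∨
        ∀ r : ℕ, r.Prime → r ∣ Nat.card ↥(alternatingGroup (Fin n)) → r ∈ π) := by
  open CfsgLib.SymSub in
  refine ⟨fun h => by_contra fun h1 => not_isDPiGroup_alt hn ?_ ?_ h, isDPiGroup_triv⟩
  all_goals
    have h2 : ∀ r, r.Prime → r ∣ Nat.card (alternatingGroup (Fin n)) → r ≤ n := fun r hr h => by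
      have := h.trans (Subgroup.card_subgroup_dvd_card _)
      rwa [Nat.card_perm, hr.dvd_factorial, Nat.card_eq_fintype_card, Fintype.card_fin] at this
    push Not at h1
  · obtain ⟨r, s, a, b, c, d, e, f, g⟩ := h1.1
    exact ⟨r, s, a, b, g, c, d, h2 r a e, h2 s b f⟩
  · obtain ⟨r, a, b, c⟩ := h1.2
    exact ⟨r, a, h2 r a b, c⟩

end Cfsg.Agent.S2534
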