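import Mathlib
import Cfsg.Statements.S2536
import Cfsg.Agent.Lib.SymSub.HallC
-- import your own Cfsg.Agent.* helpers here

set_option autoImplicit false
open Cfsg

namespace Cfsg.Agent.S2536

/-- Let `π` be a set of primes and `n` a natural number such that at least two primes of `π` divide `n!` but not every prime dividing `n!` lies in `π`. Then the symmetric group of degree `n` has a Hall `π`-subgroup if and only if either `n` is prime and the primes of `π` dividing `n!` are exactly the primes smaller than `n` (a point stabilizer is then such a subgroup), or `n ∈ {7, 8}` and the primes of `π` dividing `n!` are exactly 2 and 3. -/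
theorem result (n : ℕ) (π : Set ℕ)
    (h2 : ∃ r s : ℕ, r.Prime ∧ s.Prime ∧ r ≠ s ∧ r ∈ π ∧ s ∈ π ∧ r ≤ n ∧ s ≤ n)
    (hns : ∃ r : ℕ, r.Prime ∧ r ≤ n ∧ r ∉ π) :
    Cfsg.IsEPiGroup π (Equiv.Perm (Fin n)) ↔
      ((n.Prime ∧ ∀ r : ℕ, r.Prime → r ≤ n → (r ∈ π ↔ r < n)) ∨
       ((n = 7 ∨ n = 8) ∧ ∀ r : ℕ, r.Prime → r ≤ n → (r ∈ π ↔ (r = 2 ∨ r = 3)))) := by
  open CfsgLib.SymSub in
  have hc := Fintype.card_fin n
  refine ⟨fun ⟨M, h⟩ => ?_, fun h => ?_⟩
  · obtain ⟨s, -, hs⟩ := hall_struct h.1 (hall_alt h).2 (hc.symm ▸ h2) (hc.symm ▸ hns)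
    rw [hc] at hs
    exact hs.imp (fun h => ⟨h.1, h.2.1⟩) fun h => ⟨h.1.imp And.left And.left, h.2⟩
  obtain ⟨r, s, hr, hs, _, _, _, _, _⟩ := h2
  have := hr.two_le
  have := hs.two_le
  obtain ⟨k, hk, h1⟩ : ∃ k ≤ n, HCond n π k := by
    rcases h with h | ⟨rfl | rfl, h⟩
    exacts [⟨1, by omega, .inl ⟨h.1, h.2, rfl⟩⟩, ⟨3, by omega, .inr ⟨.inl ⟨rfl, rfl⟩, h⟩⟩,
      ⟨4, by omega, .inr ⟨.inr ⟨rfl, rfl⟩, h⟩⟩]
  obtain ⟨t, -, rfl⟩ := Finset.exists_subset_card_eq (s := (Finset.univ : Finset (Fin n))) (by simpa using hk)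
  exact ⟨_, isPiHall_pairStab (by rwa [hc]) (by omega)⟩

end Cfsg.Agent.S2536
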