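import Mathlib
import Cfsg.Statements.S2538
import Cfsg.Agent.Lib.SymSub.HallC
-- import your own Cfsg.Agent.* helpers here

set_option autoImplicit false
open Cfsg

namespace Cfsg.Agent.S2538

/-- For every `n` and every set of primes `π`, a subgroup of the alternating group of degree `n` is a Hall `π`-subgroup of it if and only if it is the intersection with the alternating group of some Hall `π`-subgroup of the symmetric group of degree `n`. -/
theorem result (n : ℕ) (π : Set ℕ)
    (M : Subgroup ↥(alternatingGroup (Fin n))) :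
    Cfsg.IsPiHall π M ↔ ∃ M₀ : Subgroup (Equiv.Perm (Fin n)), Cfsg.IsPiHall π M₀ ∧ M = M₀.subgroupOf (alternatingGroup (Fin n)) := by
  open CfsgLib.SymSub CfsgLib.Coprime in
  refine ⟨fun h => ?_, by rintro ⟨_, h, rfl⟩; exact hall_alt h⟩
  obtain ⟨⟨-, h1⟩, ⟨M₁, h2⟩, -⟩ := cpi_of_epi_alt ⟨M, h⟩
  obtain ⟨g, rfl⟩ := h1 _ M (hall_alt h2) h
  exact ⟨_, isPiHall_conj_smul h2 g.1, Subgroup.ext fun x => by
    rw [Subgroup.mem_subgroupOf, Subgroup.mem_map_equiv, Subgroup.mem_pointwise_smul_iff_inv_smul_mem]; rfl⟩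

end Cfsg.Agent.S2538
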