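import Cfsg.Statements.S2556
import Cfsg.Agent.Lib.TwoGrp2.SzAut
import Cfsg.Agent.Lib.Sz.Models

set_option autoImplicit false
open Cfsg

namespace Cfsg.Agent.S2556

open CfsgLib CfsgLib.TwoGrp2

/-- Let S be a Sylow 2-subgroup of the Suzuki group Sz(q), q = 2ⁿ with n = 2m + 1 ≥ 3 (realised as 4 × 4 matrices over the field with q elements). Then the largest normal 2-subgroup of the automorphism group of S is elementary abelian of order 2^(n²), and the automorphism group of S has order 2^(n²) · n · (q − 1). -/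
theorem result {S : Type*} [Group S] [Finite S] (m : ℕ) (hm : 1 ≤ m)
    {F : Type*} [Field F] [Fintype F] (hF : Fintype.card F = 2 ^ (2 * m + 1))
    (P : Sylow 2 ↥(Cfsg.Lie.Sz F (2 ^ (m + 1)))) (hS : Nonempty (S ≃* ↥(P : Subgroup ↥(Cfsg.Lie.Sz F (2 ^ (m + 1)))))) :
    Cfsg.IsElementaryAbelian 2 (Cfsg.pCore 2 (MulAut S)) ∧ Nat.card ↥(Cfsg.pCore 2 (MulAut S)) = 2 ^ ((2 * m + 1) ^ 2) ∧
      Nat.card (MulAut S) = 2 ^ ((2 * m + 1) ^ 2) * ((2 * m + 1) * (2 ^ (2 * m + 1) - 1)) := by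
  obtain ⟨e0⟩ := hS
  obtain ⟨e1, he⟩ := (Sz.tits hF).exists_equiv_sylow (Sz.lieSzEquiv hF) P
  let e := MulAut.congr (e0.trans ((MulEquiv.subgroupCongr he).trans
    (((Sz.tits hF).U.equivMapOfInjective e1.toMonoidHom e1.injective).symm.trans SzU.equivU.symm)))
  have hF' : Nat.card F = 2 ^ (2 * m + 1) := by rw [Nat.card_eq_fintype_card, hF]
  have ht : ∃ t : F, t ≠ 0 ∧ t ≠ 1 := by
    have h4 : 2 ^ 2 ≤ 2 ^ (2 * m + 1) := Nat.pow_le_pow_right two_pos (by omega)
    obtain ⟨x, y, z, h1, h2, h3⟩ := Fintype.two_lt_card_iff.1 (show 2 < Fintype.card F by omega)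
    by_contra! h
    by_cases hx : x = 0
    · exact h3 ((h y (hx ▸ h1.symm)).trans (h z (hx ▸ h2.symm)).symm)
    by_cases hy : y = 0
    · exact h2 ((h x hx).trans (h z (hy ▸ h3.symm)).symm)
    · exact h1 ((h x hx).trans (h y hy).symm)
  have h1 : Cfsg.pCore 2 (MulAut S) = (SzU.cenAut (Sz.tits hF)).comap e.toMonoidHom := by
    rw [← SzU.pCore_aut ht hF' (odd_two_mul_add_one m)]
    exact (Core.comap_pCore_eq e.surjective (by
      rw [(MonoidHom.ker_eq_bot_iff _).2 e.injective]; exact IsPGroup.of_bot)).symm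
  refine ⟨⟨⟨⟨fun a b => Subtype.ext (e.injective ?_)⟩⟩, fun a ha => e.injective ?_⟩, ?_, ?_⟩
  · rw [Subgroup.coe_mul, Subgroup.coe_mul, map_mul, map_mul]
    exact SzU.cenAut_comm (h1.le a.2) (h1.le b.2)
  · rw [pow_two, map_mul, map_one]
    exact SzU.cenAut_mul_self (h1.le ha)
  · rw [h1, ← SzU.card_cenAut (τ := Sz.tits hF) hF', Subgroup.comap_equiv_eq_map_symm',
      Subgroup.card_map_of_injective e.symm.injective]
  · rw [Nat.card_congr e.toEquiv, SzU.card_aut ht hF']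

end Cfsg.Agent.S2556
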