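import Cfsg.Statements.S2557
import Cfsg.Agent.Lib.Wall2.Count
import Cfsg.Agent.S2385

set_option autoImplicit false
open Cfsg

namespace Cfsg.Agent.S2557

open CfsgLib CfsgLib.MatConj CfsgLib.Wall2 Matrix


/-- The number of conjugacy classes of Sp(2n,q), q even: for F a finite field of even order q and n ≥ 1, the number k of conjugacy classes of Sp(2n,F) satisfies q^n ≤ k ≤ 15.2·q^n. -/
theorem result {F : Type*} [Field F] [Fintype F] (heven : Even (Fintype.card F)) (n : ℕ) (hn : 1 ≤ n) :
    Fintype.card F ^ n ≤ Nat.card (ConjClasses (Matrix.symplecticGroup (Fin n) F)) ∧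
      5 * Nat.card (ConjClasses (Matrix.symplecticGroup (Fin n) F)) ≤ 76 * Fintype.card F ^ n := by
  have : CharP F 2 := ringChar.of_eq (FiniteField.even_card_iff_char_two.2 (Nat.even_iff.1 heven))
  refine ⟨S2385.result (F := F) rfl 2 n ▸ card_classes_le_conjClasses _, ?_⟩
  have h1 : gr (toBilin' (fromBlocks 0 0 1 0)).toQuadraticMap = J (Fin n) F := by
    rw [gr, Orth.gram_eq_toMatrix, polarBilin_toBilin', LinearMap.BilinForm.toMatrix_basisFun,
      LinearMap.BilinForm.toMatrix'_toBilin']
    ext (i | i) (j | j) <;> simp [J, CharTwo.neg_eq, one_apply, eq_comm]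
  have h := card_conjClasses_sp_le (N := n) (by simp [two_mul]) (h1 ▸ (isUnit_det_J _ F).ne_zero)
    (h1 ▸ isoGrp_sp (F := F) (Fin n))
  rw [Nat.card_eq_fintype_card (α := F)] at h
  exact_mod_cast (by linarith : (5 : ℝ) * Nat.card (ConjClasses (symplecticGroup (Fin n) F)) ≤
    76 * (Fintype.card F : ℝ) ^ n)

end Cfsg.Agent.S2557
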