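import Cfsg.Statements.S2558
import Cfsg.Agent.Lib.MatConj.WallOrth

set_option autoImplicit false
open Cfsg

namespace Cfsg.Agent.S2558

open CfsgLib.MatConj CfsgLib.Orth

theorem aux {F : Type*} [Field F] [Fintype F] (hodd : Odd (Fintype.card F)) {ι : Type} [Fintype ι]
    [DecidableEq ι] {Q : QuadraticForm F (ι → F)} (hQ : (QuadraticMap.polarBilin Q).Nondegenerate)
    {m : ℕ} (hm : Fintype.card ι = 2 * (m + 2)) :
    Fintype.card F ^ (m + 2) ≤ 2 * Nat.card (ConjClasses (Cfsg.isometryGroup F ⇑Q)) ∧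
      2 * Nat.card (ConjClasses (Cfsg.isometryGroup F ⇑Q)) ≤ 19 * Fintype.card F ^ (m + 2) := by
  have h2 := two_ne_zero_of_odd_card hodd
  refine ⟨Nat.card_eq_fintype_card (α := F) ▸ (isoGrp_orth h2 hQ).le_two_mul_card_even h2 hm, ?_⟩
  have h := (isoGrp_orth h2 hQ).two_mul_card_le_symm hodd Even.zero
  rw [hm, if_pos (even_two_mul _), Nat.mul_div_cancel_left _ two_pos] at h
  have h1 : (0 : ℝ) ≤ (Fintype.card F : ℝ) ^ (m + 2) := by positivity
  exact_mod_cast (by linarith : (2 : ℝ) * Nat.card (ConjClasses (Cfsg.isometryGroup F ⇑Q)) ≤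
    19 * (Fintype.card F : ℝ) ^ (m + 2))

/-- The number of conjugacy classes of the full orthogonal groups O⁺(2n,q) and O⁻(2n,q), q odd, 2n ≥ 4: for F a finite field of odd order q and n ≥ 2, the number k of conjugacy classes of the isometry group of the hyperbolic quadratic form Σ xᵢyᵢ on F^{2n}, and likewise of the elliptic form Σ xᵢyᵢ + (z₁² + a z₁z₂ + b z₂²) with anisotropic binary part, satisfies q^n/2 ≤ k ≤ 9.5·q^n. -/
theorem result {F : Type*} [Field F] [Fintype F] (hodd : Odd (Fintype.card F)) (n : ℕ) (hn : 2 ≤ n) (a b : F) (hab : ∀ z₁ z₂ : F, z₁ ^ 2 + a * z₁ * z₂ + b * z₂ ^ 2 = 0 → z₁ = 0 ∧ z₂ = 0) :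
    (Fintype.card F ^ n ≤ 2 * Nat.card (ConjClasses ↥(Cfsg.isometryGroup F (Cfsg.quadFormPlus n F))) ∧
      2 * Nat.card (ConjClasses ↥(Cfsg.isometryGroup F (Cfsg.quadFormPlus n F))) ≤ 19 * Fintype.card F ^ n) ∧
    (Fintype.card F ^ n ≤ 2 * Nat.card (ConjClasses ↥(Cfsg.isometryGroup F (Cfsg.quadFormMinus (n - 1) F a b))) ∧
      2 * Nat.card (ConjClasses ↥(Cfsg.isometryGroup F (Cfsg.quadFormMinus (n - 1) F a b))) ≤ 19 * Fintype.card F ^ n) := by
  obtain ⟨m, rfl⟩ := Nat.exists_eq_add_of_le' hn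
  rw [← coe_qPlus, ← coe_qMinus]
  exact ⟨aux hodd (qPlus_nondegenerate _) (by simp [two_mul]),
    aux hodd (qMinus_nondegenerate _ hab) (by simp; omega)⟩

end Cfsg.Agent.S2558
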