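import Cfsg.Statements.S2559
import Cfsg.Agent.Lib.Wall2.Lower
import Cfsg.Agent.Lib.OrthE.Embed

set_option autoImplicit false
open Cfsg

namespace Cfsg.Agent.S2559

open CfsgLib CfsgLib.Wall2 CfsgLib.OrthE

theorem upper {F : Type*} [Field F] [Fintype F] [CharP F 2] {ι : Type} [Fintype ι] [DecidableEq ι]
    {Q : QuadraticForm F (ι → F)} (hQ : (QuadraticMap.polarBilin Q).Nondegenerate) {N : ℕ}
    (hn : Fintype.card ι = 2 * N) :
    Nat.card (ConjClasses (Cfsg.isometryGroup F ⇑Q)) ≤ 15 * Fintype.card F ^ N := by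
  have h := card_conjClasses_orth_le hn (Orth.det_gram_ne_zero hQ _)
  rw [Nat.card_eq_fintype_card (α := F)] at h
  have h1 : (0 : ℝ) ≤ (Fintype.card F : ℝ) ^ N := by positivity
  exact_mod_cast (by linarith : (Nat.card (ConjClasses (Cfsg.isometryGroup F ⇑Q)) : ℝ) ≤
    15 * (Fintype.card F : ℝ) ^ N)


/-- The number of conjugacy classes of the full orthogonal groups O⁺(2n,q) and O⁻(2n,q), q even, 2n ≥ 4: for F a finite field of even order q and n ≥ 2, the number k of conjugacy classes of the isometry group of the hyperbolic quadratic form Σ xᵢyᵢ on F^{2n}, and likewise of the elliptic form Σ xᵢyᵢ + (z₁² + a z₁z₂ + b z₂²) with anisotropic binary part, satisfies q^n/2 ≤ k ≤ 15·q^n. -/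
theorem result {F : Type*} [Field F] [Fintype F] (heven : Even (Fintype.card F)) (n : ℕ) (hn : 2 ≤ n) (a b : F) (hab : ∀ z₁ z₂ : F, z₁ ^ 2 + a * z₁ * z₂ + b * z₂ ^ 2 = 0 → z₁ = 0 ∧ z₂ = 0) :
    (Fintype.card F ^ n ≤ 2 * Nat.card (ConjClasses ↥(Cfsg.isometryGroup F (Cfsg.quadFormPlus n F))) ∧
      Nat.card (ConjClasses ↥(Cfsg.isometryGroup F (Cfsg.quadFormPlus n F))) ≤ 15 * Fintype.card F ^ n) ∧
    (Fintype.card F ^ n ≤ 2 * Nat.card (ConjClasses ↥(Cfsg.isometryGroup F (Cfsg.quadFormMinus (n - 1) F a b))) ∧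
      Nat.card (ConjClasses ↥(Cfsg.isometryGroup F (Cfsg.quadFormMinus (n - 1) F a b))) ≤ 15 * Fintype.card F ^ n) := by
  have : CharP F 2 := ringChar.of_eq (FiniteField.even_card_iff_char_two.2 (Nat.even_iff.1 heven))
  obtain ⟨m, rfl⟩ := Nat.exists_eq_add_of_le' hn
  have h1 : ∀ p : Polynomial F, p.Monic → p.natDegree = m + 2 →
      ∀ Q : QuadraticForm F (AdjoinRoot p × AdjoinRoot p), Nondeg Q → _ := fun p hp hm Q hQ =>
    have := (AdjoinRoot.powerBasis' hp).finite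
    exists_equiv_or hQ (m := m + 1) (by
      rw [Module.finrank_prod, (AdjoinRoot.powerBasis' hp).finrank, AdjoinRoot.powerBasis'_dim, hm,
        two_mul]) hab
  have h2 : ⇑(qPlus F (m + 2)) = quadFormPlus (m + 2) F := funext (qPlus_apply _)
  have h3 : ⇑(qMinus F (m + 1) a b) = quadFormMinus (m + 1) F a b := funext (qMinus_apply _ _ _)
  refine ⟨⟨?_, upper (Orth.qPlus_nondegenerate _) (by simp [two_mul])⟩, ?_,
    upper (Orth.qMinus_nondegenerate _ hab) (by simp; omega)⟩ <;> rw [← Nat.card_eq_fintype_card]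
  · exact h2 ▸ le_two_mul_card fun p hp hm Q hQ => (h1 p hp hm Q hQ).imp_right
      fun ⟨e, he⟩ => (gauss_congr e.toEquiv he).symm
  · exact h3 ▸ le_two_mul_card fun p hp hm Q hQ => (h1 p hp hm Q hQ).symm.imp_right
      fun ⟨e, he⟩ => (gauss_congr e.toEquiv he).symm

end Cfsg.Agent.S2559
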