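import Cfsg.Statements.S2560
import Cfsg.Agent.Lib.MatConj.WallOmega

set_option autoImplicit false
open Cfsg

namespace Cfsg.Agent.S2560

open CfsgLib.MatConj CfsgLib.Orth

/-- The number of conjugacy classes of Ω(2n+1,q), q odd, n ≥ 2: for F a finite field of odd order q, the number k of conjugacy classes of the commutator subgroup of the isometry group of the quadratic form x₀² + Σ xᵢyᵢ on F^{2n+1} satisfies q^n/2 ≤ k ≤ 7.3·q^n. -/
theorem result {F : Type*} [Field F] [Fintype F] (hodd : Odd (Fintype.card F)) (n : ℕ) (hn : 2 ≤ n) :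
    Fintype.card F ^ n ≤ 2 * Nat.card (ConjClasses ↥(Cfsg.Omega F (Cfsg.quadFormOdd n F))) ∧
      10 * Nat.card (ConjClasses ↥(Cfsg.Omega F (Cfsg.quadFormOdd n F))) ≤ 73 * Fintype.card F ^ n := by
  have h2 := two_ne_zero_of_odd_card hodd
  have hQ := qOdd_nondegenerate h2 n
  have hc : Fintype.card (Unit ⊕ (Fin n ⊕ Fin n)) = 2 * n + 1 := by simp; omega
  have h24 : Nat.card F ≠ 2 ∨ Module.finrank F (Unit ⊕ (Fin n ⊕ Fin n) → F) ≠ 4 :=
    h24_of_card (Or.inr (by omega)) hc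
  have ho : Odd (Fintype.card (Unit ⊕ (Fin n ⊕ Fin n))) := hc ▸ odd_two_mul_add_one n
  obtain ⟨u, k, h3, h4⟩ := four_mul_card_omega h2 hQ h24 ho (by omega)
  have h5 := (isoGrp_orth h2 hQ).le_card_odd h2 hc
  have h6 := (isoGrp_orth h2 hQ).two_mul_card_le_symm hodd Even.zero
  have h7 := (Nat.cast_le.2 h4).trans (card_isSpl_le hodd hQ h24 u ho)
  rw [if_neg (Nat.not_even_iff_odd.2 ho)] at h6
  rw [hc, show (2 * n + 1) / 2 = n by omega] at h6 h7
  rw [Nat.card_eq_fintype_card] at h5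
  rw [← coe_qOdd]
  refine ⟨by omega, ?_⟩
  have h8 : (0 : ℝ) ≤ (Fintype.card F : ℝ) ^ n := by positivity
  have h9 := congrArg (Nat.cast (R := ℝ)) h3
  push_cast at h9
  exact_mod_cast (by linarith : (10 : ℝ) * Nat.card (ConjClasses (Cfsg.Omega F ⇑(qOdd n F))) ≤
    73 * (Fintype.card F : ℝ) ^ n)

end Cfsg.Agent.S2560
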