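import Cfsg.Statements.S2648
import Cfsg.Agent.Lib.SylWr.Model
import Cfsg.Agent.S4010

set_option autoImplicit false
open Cfsg

namespace Cfsg.Agent.S2648

/-- Let q be odd, F a field with q elements and n ≥ 1. A Sylow 2-subgroup R of the symplectic group Sp_{2n}(F) has derived length exactly k + 1, where 2^k ≤ 2n < 2^{k+1}: the (k+1)-st term of its derived series is trivial and the k-th is not. -/
theorem result {F : Type*} [Field F] [Fintype F] [DecidableEq F] (q : ℕ) (hF : Fintype.card F = q) (hq : Odd q) (n : ℕ) (hn : 1 ≤ n) (R : Sylow 2 ↥(Matrix.symplecticGroup (Fin n) F)) : derivedSeries ↥(R : Subgroup ↥(Matrix.symplecticGroup (Fin n) F)) (Nat.log 2 (2 * n) + 1) = ⊥ ∧ derivedSeries ↥(R : Subgroup ↥(Matrix.symplecticGroup (Fin n) F)) (Nat.log 2 (2 * n)) ≠ ⊥ := by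
  open CfsgLib CfsgLib.SylWr in
  subst hF
  obtain ⟨Q⟩ : Nonempty (Sylow 2 (Matrix.SpecialLinearGroup (Fin 2) F)) := inferInstance
  obtain ⟨T⟩ : Nonempty (Sylow 2 (Equiv.Perm (Fin n))) := inferInstance
  obtain ⟨G, _, _, δ, ψ, ⟨e⟩, hw, -⟩ := sp_model hq n Q T
  constructor
  · let c : Fin n ⊕ Fin n ≃ Fin (2 * n) := finSumFinEquiv.trans (finCongr (two_mul n).symm)
    let ρ : Matrix.symplecticGroup (Fin n) F →* Matrix (Fin (2 * n)) (Fin (2 * n)) F :=
      (Matrix.reindexAlgEquiv F F c).toMonoidHom.comp (Matrix.symplecticGroup (Fin n) F).subtype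
    refine Cfsg.Agent.S4010.result 2 R.isPGroup' F (2 * n) (by omega)
      (ρ.toHomUnits.comp (Subgroup.subtype _)) fun a b hab => Subtype.ext (Subtype.ext ?_)
    exact (Matrix.reindexAlgEquiv F F c).injective (congrArg Units.val hab)
  · rw [mul_comm, Nat.log_mul_base one_lt_two (by omega), add_comm]
    exact der_sylow hw Q.isPGroup' (sl2_not_comm hq Q)
      (by simpa using Nat.pow_log_le_self 2 (by omega : n ≠ 0)) e R

end Cfsg.Agent.S2648
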