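import Cfsg.Statements.S2686
import Cfsg.Agent.Lib.ClAut.Bal6

set_option autoImplicit false
open Cfsg

namespace Cfsg.Agent.S2686

/-- A criterion for the failure of local balance in almost simple groups with linear socle. Let F be a finite field of characteristic r and K = PSL_n(F) (n ≥ 2) simple. Let A be a group of automorphisms of K containing all inner automorphisms (an almost simple group with socle K), and β ∈ A an automorphism of prime order p ≠ r that is not inner-diagonal (not induced by conjugation by an invertible matrix). Then the largest normal subgroup of C_A(β) of order prime to p is nontrivial if and only if β is the composite of an inner-diagonal automorphism with the automorphism induced by a field automorphism applied entrywise (β is of field type) and p does not divide the number of fixed points of β on K. -/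
theorem result
    (F : Type*) [Field F] [Fintype F] (r : ℕ) [Fact r.Prime] [CharP F r] (n : ℕ) (hn : 2 ≤ n)
    (hK : IsSimpleGroup (Matrix.ProjectiveSpecialLinearGroup (Fin n) F))
    (𝒢 : Subgroup (MulAut (Matrix.ProjectiveSpecialLinearGroup (Fin n) F))) (hinn : ∀ k : Matrix.ProjectiveSpecialLinearGroup (Fin n) F, MulAut.conj k ∈ 𝒢)
    (p : ℕ) [Fact p.Prime] (hpr : p ≠ r) (β : MulAut (Matrix.ProjectiveSpecialLinearGroup (Fin n) F)) (hβ : β ∈ 𝒢) (hord : orderOf β = p)
    (hnot : ¬ Cfsg.IsInnerDiagonalAutPSL β) :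
    Cfsg.pPrimeCore p ↥(𝒢 ⊓ Subgroup.centralizer {β}) ≠ ⊥ ↔
      ((∃ γ φ : MulAut (Matrix.ProjectiveSpecialLinearGroup (Fin n) F), Cfsg.IsInnerDiagonalAutPSL γ ∧ Cfsg.IsFieldAutPSL φ ∧ β = φ.trans γ) ∧
        Nat.Coprime p (Nat.card ↥(MonoidHom.eqLocus β.toMonoidHom (MonoidHom.id (Matrix.ProjectiveSpecialLinearGroup (Fin n) F))))) := by
  have := CfsgLib.ClAut.nontrivial_fin hn
  obtain ⟨h1, h2⟩ := CfsgLib.ClAut.bal_sl hn hpr hord fun ⟨g, h⟩ =>
    hnot (CfsgLib.ClAut.isInnerDiagonalAutPSL_iff.2 ⟨g, h.symm⟩)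
  refine CfsgLib.ClAut.bal_final (T := Matrix.ProjectiveSpecialLinearGroup (Fin n) F)
    (CfsgLib.ClAut.projAct_sl.center_eq_bot fun _ => trivial) hord h2 (fun h => ?_) 𝒢 hinn
  obtain ⟨⟨⟨g, σ⟩, _⟩, h3⟩ := h1 h
  exact ⟨_, _, CfsgLib.ClAut.isInnerDiagonalAutPSL_iff.2 ⟨g, rfl⟩,
    ⟨σ, CfsgLib.ClAut.isStdFieldAutPSL_iff.2 rfl⟩, h3.symm.trans (CfsgLib.ClAut.slInd_eq g σ)⟩

end Cfsg.Agent.S2686
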