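import Cfsg.Statements.S2688
import Cfsg.Agent.Lib.Fold.Main
import Cfsg.Agent.Lib.Orth.Tri

set_option autoImplicit false
open Cfsg

namespace Cfsg.Agent.S2688

open CfsgLib.Fold CfsgLib.ChevAut CfsgLib.Orth in

/-- A criterion for the failure of local balance in almost simple groups whose socle is one of the Chevalley groups of type G₂, B₂, D₄, F₄, E₆, E₇, E₈ (realised as the explicit matrix group generated by root elements over a finite field F of characteristic r, assumed simple). Let A be a group of automorphisms of that group K containing all inner automorphisms, and β ∈ A an automorphism of prime order p ≠ r that is not inner-diagonal (not induced by conjugation by an element of K times a diagonal automorphism). Then the largest normal subgroup of C_A(β) of order prime to p is nontrivial if and only if β is the composite of an inner-diagonal automorphism with an entrywise field automorphism and p does not divide the number of fixed points of β on K. -/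
theorem result (D : Cfsg.Lie.ChevalleyDatum)
    (hD : D ∈ [Cfsg.Lie.chevG2, Cfsg.Lie.chevB2, Cfsg.Lie.chevD4, Cfsg.Lie.chevF4, Cfsg.Lie.chevE6, Cfsg.Lie.chevE7, Cfsg.Lie.chevE8])
    (F : Type*) [Field F] [Fintype F] (r : ℕ) [Fact r.Prime] [CharP F r] (hK : IsSimpleGroup ↥(D.group F))
    (𝒢 : Subgroup (MulAut (↥(D.group F)))) (hinn : ∀ k : ↥(D.group F), MulAut.conj k ∈ 𝒢)
    (p : ℕ) [Fact p.Prime] (hpr : p ≠ r) (β : MulAut (↥(D.group F))) (hβ : β ∈ 𝒢) (hord : orderOf β = p)
    (hnot : ¬ D.IsInnerDiagonalAutOn (D.group F) β) :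
    Cfsg.pPrimeCore p ↥(𝒢 ⊓ Subgroup.centralizer {β}) ≠ ⊥ ↔
      ((∃ γ φ : MulAut ↥(D.group F), D.IsInnerDiagonalAutOn (D.group F) γ ∧ Cfsg.Lie.IsEntrywiseFieldAutOn (D.group F) φ ∧
          β = φ.trans γ) ∧
        Nat.Coprime p (Nat.card ↥(MonoidHom.eqLocus β.toMonoidHom (MonoidHom.id (↥(D.group F)))))) := by
  have := CfsgLib.Chev.good_of_mem hD
  have h := CfsgLib.Weyl.rtOK_of_mem hD
  obtain ⟨h1, h2⟩ := bal_chev h hD hpr hord fun e => hnot ((isInnerDiagonalAutOn_iff h).2 ((mem_ID h).1 e))
  refine CfsgLib.ClAut.bal_final (CfsgLib.RGD.center_eq_bot h) hord h1 (fun h3 => ?_) 𝒢 hinn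
  obtain ⟨σ, δ, e⟩ := h2 h3
  obtain ⟨L, hs⟩ := exists_symOK hD
  obtain ⟨τ, h4⟩ := exists_field_ID (α := β) (θ := 1) hs (by
    rw [e, map_mul, map_mul, show nu h F (fieldHom D F σ) = 1 from nu_par h (par_groupEquiv σ)]; simp)
  exact ⟨_, fieldHom D F τ, (isInnerDiagonalAutOn_iff h).2 ((mem_ID h).1 h4),
    ⟨τ, isEntrywiseFieldAutOnOf_iff.2 rfl⟩, MulEquiv.ext fun g => by simp⟩

end Cfsg.Agent.S2688
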