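import Cfsg.Statements.S2739
import Cfsg.Agent.S2388
import Cfsg.Agent.Lib.MatConj.Mat
import Cfsg.Agent.Lib.Spec.PSL

set_option autoImplicit false
open scoped Pointwise
open Cfsg

namespace Cfsg.Agent.S2739

open Polynomial in
theorem charpoly_eq {F : Type*} [Field F] [Fintype F] (hF : Fintype.card F = 4)
    (A : Matrix (Fin 3) (Fin 3) F) (hd : A.det = 1) (c : F) (hc : A ^ 3 = Matrix.scalar (Fin 3) c)
    (hns : ∀ a, A ≠ Matrix.scalar (Fin 3) a) : A.charpoly = X ^ 3 - 1 := by
  classical
  have cube : ∀ a : F, a ≠ 0 → a ^ 3 = 1 := fun a ha => by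
    have := FiniteField.pow_card_sub_one_eq_one a ha
    rwa [hF] at this
  have hann : aeval A (X ^ 3 - C c) = 0 := by
    simp [hc, Algebra.algebraMap_eq_smul_one, Matrix.scalar_apply, Matrix.smul_one_eq_diagonal]
  have hdv := (CfsgLib.MatConj.aeval_eq_zero_iff_edM A _).1 hann
  have hval := CfsgLib.MatConj.edM_valid A
  have hsum := CfsgLib.MatConj.card_eq_sum_edM A
  have hprod := CfsgLib.MatConj.charpoly_eq_prod_edM A
  have hdet := Matrix.det_eq_sign_charpoly_coeff A
  rw [hd, Fintype.card_fin] at hdet
  rw [Fintype.card_fin] at hsum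
  have hc0 : c ≠ 0 := by
    rintro rfl
    have := congrArg Matrix.det hc
    rw [Matrix.det_pow, hd] at this
    simp at this
  have h3 : (3 : F) ≠ 0 := by
    intro h
    have h4 := FiniteField.cast_card_eq_zero F
    rw [hF] at h4
    have : (1 : F) = 0 := by
      have e : (1 : F) = ((4 : ℕ) : F) - 3 := by norm_num
      rw [e, h4, h]; simp
    exact one_ne_zero this
  have hsq : Squarefree (X ^ 3 - C c : F[X]) :=
    (separable_X_pow_sub_C c (by exact_mod_cast h3) hc0).squarefree
  have he : ∀ x ∈ CfsgLib.MatConj.edM A, x.2 = 1 := fun x hx => by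
    obtain ⟨h1, h2, h3⟩ := hval x hx
    by_contra hne
    have : x.1 * x.1 ∣ X ^ 3 - C c := by
      refine dvd_trans ?_ (hdv x hx)
      rw [← pow_two]; exact pow_dvd_pow _ (by omega)
    exact h1.not_isUnit (hsq _ this)
  have hm3 : (X ^ 3 - C c : F[X]).Monic := monic_X_pow_sub_C c (by norm_num)
  by_cases hc1 : c = 1
  · subst hc1
    have hlin : ∀ x ∈ CfsgLib.MatConj.edM A, ∃ a : F, a ≠ 0 ∧ x = (X - C a, 1) := fun x hx => by
      obtain ⟨h1, h2, h3⟩ := hval x hx
      have hx1 : x.1 ∣ X ^ 3 - C 1 := by
        have := hdv x hx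
        rwa [he x hx, pow_one] at this
      have hsp : (X ^ 3 - C 1 : F[X]).Splits := by
        obtain ⟨w, hw0, hw1⟩ : ∃ w : F, w ≠ 0 ∧ w ≠ 1 := by
          by_contra hcon
          push Not at hcon
          have : (Finset.univ : Finset F) ⊆ {0, 1} := fun a _ => by
            by_cases ha : a = 0
            · simp [ha]
            · simp [hcon a ha]
          have h5 := (Finset.card_le_card this).trans Finset.card_le_two
          rw [Finset.card_univ, hF] at h5
          omega
        have hw : w ^ 2 + w + 1 = 0 := by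
          have := cube w hw0
          apply mul_left_cancel₀ (sub_ne_zero.2 hw1)
          linear_combination this
        have hw' : (C w : F[X]) ^ 2 + C w + 1 = 0 := by
          have := congrArg C hw
          simpa using this
        have : (X ^ 3 - C 1 : F[X]) = (X - C 1) * (X - C w) * (X - C (w ^ 2)) := by
          simp only [map_one, map_pow]
          linear_combination (X ^ 2 - X * C w + (C w - 1)) * hw'
        rw [this]
        exact ((Splits.X_sub_C _).mul (Splits.X_sub_C _)).mul (Splits.X_sub_C _)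
      have hs1 : x.1.Splits := hsp.of_dvd hm3.ne_zero hx1
      have hdeg : x.1.natDegree = 1 :=
        le_antisymm (hs1.natDegree_le_one_of_irreducible h1) h1.natDegree_pos
      have hx2 := h2.eq_X_add_C hdeg
      refine ⟨-x.1.coeff 0, ?_, Prod.ext (by simpa using hx2) (he x hx)⟩
      intro h0
      rw [neg_eq_zero] at h0
      rw [hx2, h0, map_zero, add_zero, X_dvd_iff] at hx1
      simp at hx1
    have hcard : Multiset.card (CfsgLib.MatConj.edM A) = 3 := by
      rw [Multiset.map_congr rfl (g := fun _ => 1)] at hsum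
      · simpa using hsum.symm
      · intro x hx
        obtain ⟨a, -, rfl⟩ := hlin x hx
        simp
    obtain ⟨x, y, z, hxyz⟩ := Multiset.card_eq_three.1 hcard
    obtain ⟨a, ha, rfl⟩ := hlin x (by simp [hxyz])
    obtain ⟨b, hb, rfl⟩ := hlin y (by simp [hxyz])
    obtain ⟨d, hd', rfl⟩ := hlin z (by simp [hxyz])
    have hch : A.charpoly = (X - C a) * (X - C b) * (X - C d) := by
      rw [hprod, hxyz]; simp [mul_assoc]
    have habd : a * b * d = 1 := by
      rw [hch, coeff_zero_eq_eval_zero] at hdet
      simp only [eval_mul, eval_sub, eval_X, eval_C] at hdet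
      linear_combination -hdet
    have hne : ¬ (a = b ∧ b = d) := by
      rintro ⟨rfl, rfl⟩
      apply hns a
      have : aeval A (X - C a) = 0 := by
        rw [CfsgLib.MatConj.aeval_eq_zero_iff_edM, hxyz]
        simp
      simpa [sub_eq_zero, Algebra.algebraMap_eq_smul_one, Matrix.scalar_apply,
        Matrix.smul_one_eq_diagonal] using this
    have ha3 := cube a ha
    have hb3 := cube b hb
    have hd3 := cube d hd'
    have hab : a ≠ b := by
      rintro rfl
      exact hne ⟨rfl, mul_left_cancel₀ (mul_ne_zero ha ha) (by linear_combination ha3 - habd)⟩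
    have had : a ≠ d := by
      rintro rfl
      exact hab (mul_left_cancel₀ (mul_ne_zero ha ha) (by linear_combination ha3 - habd))
    have hbd : b ≠ d := by
      rintro rfl
      exact hab (mul_left_cancel₀ (mul_ne_zero hb hb) (by linear_combination habd - hb3))
    have e1 : a ^ 2 + a * b + b ^ 2 = 0 := by
      apply mul_left_cancel₀ (sub_ne_zero.2 hab)
      linear_combination ha3 - hb3
    have e2 : a ^ 2 + a * d + d ^ 2 = 0 := by
      apply mul_left_cancel₀ (sub_ne_zero.2 had)
      linear_combination ha3 - hd3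
    have e3 : a + b + d = 0 := by
      apply mul_left_cancel₀ (sub_ne_zero.2 hbd)
      linear_combination e1 - e2
    have e4 : a * b + a * d + b * d = 0 := by
      linear_combination (a + b) * e3 - e1
    have e3' := congrArg (C : F → F[X]) e3
    have e4' := congrArg (C : F → F[X]) e4
    have e5' := congrArg (C : F → F[X]) habd
    simp only [map_add, map_mul, map_zero, map_one] at e3' e4' e5'
    rw [hch]
    linear_combination (-X ^ 2) * e3' + X * e4' - e5'
  · exfalso
    have hirr : Irreducible (X ^ 3 - C c : F[X]) := by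
      refine X_pow_sub_C_irreducible_of_prime Nat.prime_three fun b hb => ?_
      by_cases hb0 : b = 0
      · subst hb0; exact hc0 (by simpa using hb.symm)
      · exact hc1 (hb.symm.trans (cube b hb0))
    have hall : ∀ x ∈ CfsgLib.MatConj.edM A, x = (X ^ 3 - C c, 1) := fun x hx => by
      obtain ⟨h1, h2, h3⟩ := hval x hx
      have hx1 : x.1 ∣ X ^ 3 - C c := by
        have := hdv x hx
        rwa [he x hx, pow_one] at this
      exact Prod.ext (eq_of_monic_of_associated h2 hm3 (h1.associated_of_dvd hirr hx1)) (he x hx)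
    have hcard : Multiset.card (CfsgLib.MatConj.edM A) = 1 := by
      rw [Multiset.map_congr rfl (g := fun _ => 3)] at hsum
      · simp at hsum; omega
      · intro x hx
        rw [hall x hx]
        simp
    obtain ⟨x, hx⟩ := Multiset.card_eq_one.1 hcard
    have := hall x (by simp [hx])
    subst this
    rw [hx] at hprod
    rw [hprod] at hdet
    simp at hdet
    apply hc1
    linear_combination -hdet


/-- In the projective special linear group PSL(3, 4) all subgroups of order 3 are conjugate. -/
theorem result (F : Type*) [Field F] [Fintype F] (hF : Fintype.card F = 4) (X Y : Subgroup (Matrix.ProjectiveSpecialLinearGroup (Fin 3) F)) (hX : Nat.card ↥X = 3) (hY : Nat.card ↥Y = 3) : ∃ g : Matrix.ProjectiveSpecialLinearGroup (Fin 3) F, MulAut.conj g • X = Y := by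
  classical
  have h2 : (2 : F) = 0 := by
    have h := FiniteField.cast_card_eq_zero F
    rw [hF] at h
    have : (2 : F) * 2 = 0 := by norm_num at h ⊢; exact h
    exact mul_self_eq_zero.mp this
  haveI : Fact (Nat.Prime 2) := ⟨Nat.prime_two⟩
  haveI : Fact (Nat.Prime 3) := ⟨Nat.prime_three⟩
  haveI : CharP F 2 := (CharP.charP_iff_prime_eq_zero Nat.prime_two).2 (by exact_mod_cast h2)
  have key : ∀ Z : Subgroup (Matrix.ProjectiveSpecialLinearGroup (Fin 3) F), Nat.card Z = 3 →
      ∃ g : Matrix.SpecialLinearGroup (Fin 3) F, Z = Subgroup.zpowers (QuotientGroup.mk g) ∧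
        (orderOf g).Coprime 2 ∧ (g : Matrix (Fin 3) (Fin 3) F).charpoly = Polynomial.X ^ 3 - 1 := by
    intro Z hZ
    haveI : IsCyclic Z := isCyclic_of_prime_card hZ
    obtain ⟨x, hx⟩ := (Subgroup.isCyclic_iff_exists_zpowers_eq_top Z).1 inferInstance
    obtain ⟨g, rfl⟩ := QuotientGroup.mk_surjective x
    have ho : orderOf (QuotientGroup.mk g : Matrix.ProjectiveSpecialLinearGroup (Fin 3) F) = 3 := by
      rw [← Nat.card_zpowers, hx, hZ]
    obtain ⟨c, hc⟩ := (CfsgLib.Spec.orderOf_psl_dvd_iff g 3).1 (by rw [ho])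
    have hns : ¬ ∃ a, (g : Matrix (Fin 3) (Fin 3) F) ^ 1 = Matrix.scalar (Fin 3) a := by
      rw [← CfsgLib.Spec.orderOf_psl_dvd_iff, ho]; norm_num
    have hch := charpoly_eq hF _ g.det_coe c hc (by simpa using hns)
    refine ⟨g, hx.symm, ?_, hch⟩
    have h3 : g ^ 3 = 1 := by
      apply Subtype.ext
      have := Matrix.aeval_self_charpoly (g : Matrix (Fin 3) (Fin 3) F)
      rw [hch] at this
      simpa [sub_eq_zero] using this
    exact Nat.Coprime.coprime_dvd_left (orderOf_dvd_of_pow_eq_one h3) (by norm_num)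
  obtain ⟨g, rfl, hg, hg'⟩ := key X hX
  obtain ⟨h, rfl, hh, hh'⟩ := key Y hY
  obtain ⟨c, hc⟩ := isConj_iff.1 (Cfsg.Agent.S2388.result 2 3 g h hg hh (hg'.trans hh'.symm))
  refine ⟨QuotientGroup.mk c, ?_⟩
  refine (MonoidHom.map_zpowers (MulAut.conj (QuotientGroup.mk c :
    Matrix.ProjectiveSpecialLinearGroup (Fin 3) F)).toMonoidHom _).trans ?_
  rw [← hc]
  rfl

end Cfsg.Agent.S2739
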