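import Cfsg.Statements.S2792
import Cfsg.Agent.Lib.Transfer.Yoshida

set_option autoImplicit false
open Cfsg

namespace Cfsg.Agent.S2792

open Subgroup Cfsg CfsgLib.LAE CfsgLib.Transfer

/-- Let S be a Sylow p-subgroup of the finite group G and W a subgroup of S weakly closed in S with respect to G. If S ∩ G' ≠ S ∩ (N_G(W))', then there are x ∈ S, z ∈ W and a maximal subgroup W₀ of W such that the iterated commutator [x, z; p−1] (with [x, z] = x⁻¹z⁻¹xz and [x, z; i+1] = [[x, z; i], z]) lies in W₀ but not in the Frattini subgroup of W₀; in particular [x, z; p−1] ≠ 1. -/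
theorem result {G : Type*} [Group G] [Finite G] {p : ℕ} [Fact p.Prime] (S : Sylow p G) (W : Subgroup G) (hW : Cfsg.IsWeaklyClosed W (S : Subgroup G)) (h : (S : Subgroup G) ⊓ commutator G ≠ (S : Subgroup G) ⊓ ⁅Subgroup.normalizer (W : Set G), Subgroup.normalizer (W : Set G)⁆) : ∃ x ∈ (S : Subgroup G), ∃ z ∈ W, ∃ W₀ : Subgroup ↥W, IsCoatom W₀ ∧ (fun y : G => y⁻¹ * z⁻¹ * y * z)^[p - 1] x ∈ W₀.map W.subtype ∧ (fun y : G => y⁻¹ * z⁻¹ * y * z)^[p - 1] x ∉ ((frattini ↥W₀).map W₀.subtype).map W.subtype := by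
  obtain ⟨T, ψ, x, z, h1, h2, h3, h4, h5, h6, h7⟩ := yoshida_core S hW h
  have hSW : (S : Subgroup G) ≤ normalizer (W : Set G) := fun s hs =>
    mem_normalizer_iff_conjS.2 (hW.2 s (conjS_le_of_le_of_mem hW.1 hs))
  have hp : p.Prime := Fact.out
  have hmT := iter_comm_mem (h2 h5) h4 (p - 1)
  have hmW : (fun y : G => y⁻¹ * z⁻¹ * y * z)^[p - 1] x ∈ W := by
    obtain ⟨m, hm⟩ : ∃ m, p - 1 = m + 1 := ⟨p - 2, by have := hp.two_le; omega⟩
    rw [hm] at hmT ⊢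
    have h8 := iter_comm_mem (h2 h5) h4 m
    rw [Function.iterate_succ_apply']
    exact mul_mem (conj_inv_mem_of_mem_normalizer (hSW (h1 h8)) (inv_mem h5)) h5
  refine ⟨x, h1 h4, z, h5, T.subgroupOf W,
    CfsgLib.Core.isCoatom_of_index_prime (by rwa [← h3] at hp), ⟨⟨_, hmW⟩, hmT, rfl⟩, ?_⟩
  rintro ⟨_, ⟨y, hy, rfl⟩, e⟩
  let χ : T.subgroupOf W →* Multiplicative (ZMod p) :=
    MonoidHom.mk' (fun t => ψ ((t : W) : G)) fun a b => h6 _ a.2 _ b.2
  exact h7 ((congrArg ψ e).symm.trans (frattini_le_ker_zmod χ hy))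

end Cfsg.Agent.S2792
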