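import Cfsg.Statements.S2896
import Cfsg.Agent.Lib.Comp.Local
import Cfsg.Agent.Lib.LAE.CharP

set_option autoImplicit false
open Cfsg

namespace Cfsg.Agent.S2896

open Subgroup Cfsg CfsgLib.LAE

section
variable {G : Type*} [Group G] [Finite G] {p : ℕ} [Fact p.Prime]

theorem fs_iff {H : Subgroup G} :
    generalizedFittingSubgroup H = pCore p H ↔ IsCharP p H :=
  CfsgLib.Comp.fstar_eq_pCore_iff.trans isCharP_iff.symm

theorem normalizer_of_centralizer {X : Subgroup G} (hX : IsPGroup p X) {z : G} (hz : z ∈ X)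
    (hzX : z ∈ centralizer (X : Set G)) (h : IsCharP p (centralizer ({z} : Set G))) :
    IsCharP p (normalizer (X : Set G)) := by
  have h1 : X ≤ centralizer ({z} : Set G) := fun x hx =>
    mem_centralizer_singleton_iff.2 (hzX x hx)
  have h2 := h.inf_centralizer hX h1
  rw [inf_eq_right.2 (centralizer_le (Set.singleton_subset_iff.2 hz))] at h2
  refine IsCharP.of_inf_centralizer hX le_normalizer le_rfl ?_
  rwa [inf_eq_right.2 (centralizer_le_normalizer _)]

theorem centralizer_of_normalizer {X : Subgroup G} (hX : IsPGroup p X)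
    (h : IsCharP p (normalizer (X : Set G))) : IsCharP p (centralizer (X : Set G)) := by
  have h2 := h.inf_centralizer hX le_normalizer
  rwa [inf_eq_right.2 (centralizer_le_normalizer _)] at h2

omit [Finite G] [Fact p.Prime] in
theorem normalizer_of_conj {X : Subgroup G} {g : G}
    (h : IsCharP p (normalizer (conjS g X : Set G))) : IsCharP p (normalizer (X : Set G)) := by
  have := h.conj g⁻¹
  rwa [conjS_normalizer, conjS_inv_conjS] at this

theorem par_iff (S : Sylow p G) : IsOfParabolicCharacteristic p G ↔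
    ∀ z : G, z ≠ 1 → z ∈ omegaZ p (S : Subgroup G) → IsCharP p (centralizer ({z} : Set G)) := by
  constructor
  · intro h z hz1 hz
    obtain ⟨h1, h2, -⟩ := mem_omegaZ.1 hz
    have hR : IsPGroup p (zpowers z) := S.isPGroup'.to_le (zpowers_le.2 h1)
    have h3 := isCharP_iff.2 (h (zpowers z) hR (by simpa using hz1)
      ⟨S, (le_centralizer_iff.1 (zpowers_le.2 h2)).trans (centralizer_le_normalizer _)⟩)
    have h4 := centralizer_of_normalizer hR h3
    rwa [CfsgLib.Core.centralizer_zpowers] at h4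
  · rintro h R hR hR1 ⟨T, hT⟩
    obtain ⟨g, -, hg⟩ := (isSylowIn_top T).exists_conj (isSylowIn_top S)
    refine isCharP_iff.1 (normalizer_of_conj (g := g) ?_)
    have h1 : (S : Subgroup G) ≤ normalizer (conjS g R : Set G) := by
      rw [← conjS_normalizer, ← hg]; exact conjS_mono hT
    have hR' := isPGroup_conjS hR g
    have h2 : conjS g R ≤ S := (isSylowIn_top S).le_of_le_normalizer hR' le_top h1
    have h3 := inf_centralizer_ne_bot hR' S.isPGroup' h1 (by rwa [Ne, conjS_eq_bot_iff])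
    have h4 := omegaZ_ne_bot (hR'.to_le inf_le_left) h3
    obtain ⟨⟨z, hz⟩, hz1⟩ := ne_bot_iff_exists_ne_one.1 h4
    obtain ⟨⟨h5, h6⟩, -, h7⟩ := mem_omegaZ.1 hz
    refine normalizer_of_centralizer hR' h5 (centralizer_le h2 h6)
      (h z (fun e => hz1 (Subtype.ext e)) (mem_omegaZ.2 ⟨h2 h5, h6, h7⟩))

end

/-- Let p be a prime dividing the order of the finite group G, S a Sylow p-subgroup of G and X a subgroup of S. (i) If some nontrivial element z of the centre of X has F*(C_G(z)) = O_p(C_G(z)), then F*(N_G(X)) = O_p(N_G(X)). (ii) G has parabolic characteristic p if and only if F*(C_G(z)) = O_p(C_G(z)) for every nontrivial z ∈ Ω₁(Z(S)). (iii) If F*(C_G(z)) = O_p(C_G(z)) for every element z of S of order p, then G has local characteristic p. -/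
theorem result {G : Type*} [Group G] [Finite G] {p : ℕ} [Fact p.Prime] (hdiv : p ∣ Nat.card G) (S : Sylow p G) (X : Subgroup G) (hX : X ≤ (S : Subgroup G)) : (∀ z : G, z ≠ 1 → z ∈ X → (∀ x ∈ X, x * z = z * x) → Cfsg.generalizedFittingSubgroup ↥(Subgroup.centralizer ({z} : Set G)) = Cfsg.pCore p ↥(Subgroup.centralizer ({z} : Set G)) → Cfsg.generalizedFittingSubgroup ↥(Subgroup.normalizer (X : Set G)) = Cfsg.pCore p ↥(Subgroup.normalizer (X : Set G))) ∧ (Cfsg.IsOfParabolicCharacteristic p G ↔ ∀ z : G, z ≠ 1 → z ∈ Cfsg.omegaOne p ((S : Subgroup G) ⊓ Subgroup.centralizer ((S : Subgroup G) : Set G)) → Cfsg.generalizedFittingSubgroup ↥(Subgroup.centralizer ({z} : Set G)) = Cfsg.pCore p ↥(Subgroup.centralizer ({z} : Set G))) ∧ ((∀ z : G, z ∈ (S : Subgroup G) → orderOf z = p → Cfsg.generalizedFittingSubgroup ↥(Subgroup.centralizer ({z} : Set G)) = Cfsg.pCore p ↥(Subgroup.centralizer ({z} : Set G))) → Cfsg.IsOfLocalCharacteristic p G) := by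
  refine ⟨fun z _ hz hzX h => fs_iff.2 (normalizer_of_centralizer (S.isPGroup'.to_le hX) hz hzX
    (fs_iff.1 h)), ?_, fun h => ⟨hdiv, fun T hT hT1 => ?_⟩⟩
  · rw [par_iff S]
    exact forall_congr' fun z => forall_congr' fun _ => forall_congr' fun _ => fs_iff.symm
  · obtain ⟨g, -, hg⟩ := (isSylowIn_top S).exists_conj_le hT le_top
    refine isCharP_iff.1 (normalizer_of_conj (g := g) ?_)
    have hT' := isPGroup_conjS hT g
    have h4 := omegaZ_ne_bot hT' (by rwa [Ne, conjS_eq_bot_iff])
    obtain ⟨⟨z, hz⟩, hz1⟩ := ne_bot_iff_exists_ne_one.1 h4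
    obtain ⟨h5, h6, h7⟩ := mem_omegaZ.1 hz
    exact normalizer_of_centralizer hT' h5 h6
      (fs_iff.1 (h z (hg h5) (orderOf_eq_prime h7 (fun e => hz1 (Subtype.ext e)))))

end Cfsg.Agent.S2896
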