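import Cfsg.Statements.S2897
import Cfsg.Agent.S2896

set_option autoImplicit false
open Cfsg

namespace Cfsg.Agent.S2897

open Subgroup Cfsg CfsgLib.LAE

/-- Let p be a prime dividing the order of the finite group G, suppose G has parabolic characteristic p, let S be a Sylow p-subgroup of G and G₁ a normal subgroup of G. If Ω₁(Z(S ∩ G₁)) is nontrivial and contained in Ω₁(Z(S)), then G₁ has parabolic characteristic p. -/
theorem result {G : Type*} [Group G] [Finite G] {p : ℕ} [Fact p.Prime] (hdiv : p ∣ Nat.card G) (hG : Cfsg.IsOfParabolicCharacteristic p G) (S : Sylow p G) (G₁ : Subgroup G) [G₁.Normal] (hne : Cfsg.omegaOne p (((S : Subgroup G) ⊓ G₁) ⊓ Subgroup.centralizer (((S : Subgroup G) ⊓ G₁ : Subgroup G) : Set G)) ≠ ⊥) (hle : Cfsg.omegaOne p (((S : Subgroup G) ⊓ G₁) ⊓ Subgroup.centralizer (((S : Subgroup G) ⊓ G₁ : Subgroup G) : Set G)) ≤ Cfsg.omegaOne p ((S : Subgroup G) ⊓ Subgroup.centralizer ((S : Subgroup G) : Set G))) : Cfsg.IsOfParabolicCharacteristic p ↥G₁ := by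
  have hT := (isSylowIn_top S).inf_of_normal (N := G₁) le_top le_normalizer_of_normal
  rw [Cfsg.Agent.S2896.par_iff hT.toSylow]
  intro z hz1 hz
  have h1 : (z : G) ∈ omegaZ p ((S : Subgroup G) ⊓ G₁) := by
    rw [← hT.map_toSylow, ← map_omegaZ G₁.subtype_injective]
    exact mem_map_of_mem _ hz
  have h2 := (Cfsg.Agent.S2896.par_iff S).1 hG z (fun e => hz1 (Subtype.ext e)) (hle h1)
  have h3 : IsCharP p (G₁ ⊓ centralizer ({(z : G)} : Set G)) :=
    h2.of_normal inf_le_right (le_normalizer_inf le_normalizer_of_normal le_normalizer)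
  rw [← isCharP_subgroupOf_iff inf_le_left] at h3
  convert h3 using 1
  ext x
  simp [mem_subgroupOf, mem_centralizer_singleton_iff, Subtype.ext_iff]

end Cfsg.Agent.S2897
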