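import Cfsg.Statements.S2898
import Cfsg.Agent.S2896
import Cfsg.Agent.Lib.ZStar.Main
import Cfsg.Agent.Lib.LargeExtra.Basic

set_option autoImplicit false
open Cfsg

namespace Cfsg.Agent.S2898

open Subgroup Cfsg CfsgLib.LAE

/-- Let G be a finite group of even order with parabolic characteristic 2. If the centre of G ⧸ O(G) is trivial, then O(G) = 1. -/
theorem result {G : Type*} [Group G] [Finite G] (h2 : 2 ∣ Nat.card G) (hG : Cfsg.IsOfParabolicCharacteristic 2 G) [hN : (Cfsg.oddCore G).Normal] (hZ : Subgroup.center (G ⧸ Cfsg.oddCore G) = ⊥) : Cfsg.oddCore G = ⊥ := by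
  have : Fact (Nat.Prime 2) := ⟨Nat.prime_two⟩
  obtain ⟨S⟩ : Nonempty (Sylow 2 G) := inferInstance
  have hodd := CfsgLib.Core.odd_card_oddCore G
  have key : ∀ z : G, z ≠ 1 → z ∈ omegaZ 2 (S : Subgroup G) →
      ∀ k ∈ oddCore G, k * z = z * k → k = 1 := by
    intro z hz1 hz k hk hkz
    have h1 := (Cfsg.Agent.S2896.par_iff S).1 hG z hz1 hz
    have h3 : IsCharP 2 (oddCore G ⊓ centralizer ({z} : Set G)) :=
      h1.of_normal inf_le_right (le_normalizer_inf le_normalizer_of_normal le_normalizer)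
    have h4 : pCoreOf 2 (oddCore G ⊓ centralizer ({z} : Set G)) = ⊥ := by
      rw [eq_bot_iff, ← CfsgLib.Core.isPGroup_inf_eq_bot_of_coprime (isPGroup_pCoreOf (p := 2)
        (oddCore G ⊓ centralizer ({z} : Set G))) (Nat.coprime_two_right.2 hodd)]
      exact le_inf le_rfl ((pCoreOf_le _).trans inf_le_left)
    rw [IsCharP, h4] at h3
    exact mem_bot.1 (h3 ⟨⟨hk, mem_centralizer_singleton_iff.2 hkz⟩, fun x hx => by
      rw [mem_bot.1 hx, one_mul, mul_one]⟩)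
  have hS1 : (S : Subgroup G) ≠ ⊥ := (isSylowIn_top S).ne_bot (by rwa [card_top])
  obtain ⟨⟨z, hz⟩, hz1⟩ := ne_bot_iff_exists_ne_one.1 (omegaZ_ne_bot S.isPGroup' hS1)
  have hz1 : z ≠ 1 := fun e => hz1 (Subtype.ext e)
  have hz2 : z * z = 1 := by rw [← pow_two]; exact (mem_omegaZ.1 hz).2.2
  have ho : orderOf z = 2 := orderOf_eq_prime (mem_omegaZ.1 hz).2.2 hz1
  have hni : ¬ IsIsolatedInvolution z := fun hi => by
    have h1 := CfsgLib.ZStar.zstar_quotient hi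
    rw [hZ, mem_bot, QuotientGroup.mk'_apply, QuotientGroup.eq_one_iff] at h1
    exact hz1 (CfsgLib.LargeExtra.eq_one_of_odd_of_mul_self hodd h1 hz2)
  obtain ⟨g, hg1, hg2⟩ : ∃ g : G, Commute z (g * z * g⁻¹) ∧ g * z * g⁻¹ ≠ z := by
    by_contra hc
    push Not at hc
    exact hni ⟨ho, hc⟩
  have hinv : ∀ k ∈ oddCore G, z * k * z⁻¹ = k⁻¹ := fun k hk =>
    CfsgLib.LargeExtra.inverts hz2 (le_normalizer_of_normal (mem_top z)) (key z hz1 hz) hk
  set C := centralizer (oddCore G : Set G) with hC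
  have hw : z * (g * z * g⁻¹) ∈ C := by
    intro k hk
    have h1 := hinv (g⁻¹ * k * g) (hN.conj_mem' k hk g)
    have h2 := hinv k⁻¹ (inv_mem hk)
    have h3 : (g * z * g⁻¹) * k * (g * z * g⁻¹)⁻¹ = k⁻¹ := by
      calc _ = g * (z * (g⁻¹ * k * g) * z⁻¹) * g⁻¹ := by group
        _ = k⁻¹ := by rw [h1]; group
    calc k * (z * (g * z * g⁻¹)) = (z * k⁻¹ * z⁻¹) * (z * (g * z * g⁻¹)) := by rw [h2, inv_inv]
      _ = z * ((g * z * g⁻¹) * k * (g * z * g⁻¹)⁻¹) * (g * z * g⁻¹) := by rw [h3]; group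
      _ = _ := by group
  have hw2 : (z * (g * z * g⁻¹)) ^ 2 = 1 := by
    rw [hg1.mul_pow, pow_two, hz2, one_mul, conj_pow, pow_two, hz2]; group
  have hw1 : z * (g * z * g⁻¹) ≠ 1 := fun e => hg2 (mul_left_cancel (e.trans hz2.symm))
  have hdvd : 2 ∣ Nat.card C := by
    rw [← orderOf_eq_prime hw2 hw1, ← orderOf_mk _ hw]
    exact orderOf_dvd_natCard _
  have hT := (isSylowIn_top S).inf_of_normal (N := C) le_top le_normalizer_of_normal
  have h3 := inf_centralizer_ne_bot hT.isPGroup S.isPGroup'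
    (le_normalizer_inf le_normalizer le_normalizer_of_normal) (hT.ne_bot hdvd)
  obtain ⟨⟨y, hy⟩, hy1⟩ := ne_bot_iff_exists_ne_one.1
    (omegaZ_ne_bot (hT.isPGroup.to_le inf_le_left) h3)
  obtain ⟨⟨⟨h5, h6⟩, h7⟩, -, h8⟩ := mem_omegaZ.1 hy
  rw [eq_bot_iff]
  intro k hk
  exact mem_bot.2 (key y (fun e => hy1 (Subtype.ext e)) (mem_omegaZ.2 ⟨h5, h7, h8⟩) k hk (h6 k hk))

end Cfsg.Agent.S2898
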