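import Cfsg.Statements.S2905
import Mathlib
import Cfsg.Agent.Lib.Coprime.Sylow
import Cfsg.Agent.Lib.Coprime.Action
import Cfsg.Agent.Lib.Coprime.Abelian
import Cfsg.Agent.Lib.SolvStruct.Subnormal
import Cfsg.Agent.Lib.Tech.SylowIn
import Cfsg.Agent.Lib.Transfer.Residual
import Cfsg.Agent.Lib.Core.Cores
import Cfsg.Agent.Lib.Core.Frattini
import Cfsg.Agent.Lib.Core.Basic

set_option autoImplicit false
open Cfsg

namespace Cfsg.Agent.S2905

open Subgroup CfsgLib
open scoped Pointwise

section
variable {P : Type*} [Group P] [Finite P] {p : ℕ} [Fact p.Prime]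

theorem le_of_ne_top (hP : Cfsg.IsPMinimal p P) (S : Sylow p P) {M : Subgroup P} (hM : IsCoatom M)
    (hSM : (S : Subgroup P) ≤ M) {K : Subgroup P} (hSK : (S : Subgroup P) ≤ K) (hK : K ≠ ⊤) : K ≤ M := by
  obtain ⟨M', hM', hKM⟩ := Core.exists_isCoatom_ge hK
  obtain ⟨M₀, -, hu⟩ := (hP S).2
  rw [hu M ⟨hM, hSM⟩, ← hu M' ⟨hM', hSK.trans hKM⟩]
  exact hKM

theorem normal_cases (hP : Cfsg.IsPMinimal p P) (S : Sylow p P) {M : Subgroup P} (hM : IsCoatom M)
    (hSM : (S : Subgroup P) ≤ M) (N : Subgroup P) (hN : N.Normal) :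
    Cfsg.pResidual p P ≤ N ∨ N ≤ M.normalCore := by
  by_cases h : N ⊔ (S : Subgroup P) = ⊤
  · left
    apply Transfer.pResidual_le_of_isPGroup_quotient
    have h1 : (S : Subgroup P).map (QuotientGroup.mk' N) = ⊤ := by
      have h2 := congrArg (Subgroup.map (QuotientGroup.mk' N)) h
      rw [Subgroup.map_sup, (QuotientGroup.map_mk'_self N), bot_sup_eq,
        map_top_of_surjective _ (QuotientGroup.mk'_surjective N)] at h2
      exact h2
    have h3 := S.isPGroup'.map (QuotientGroup.mk' N)
    rw [h1] at h3
    exact h3.of_equiv topEquiv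
  · right
    exact normal_le_normalCore.2 (le_sup_left.trans (le_of_ne_top hP S hM hSM le_sup_right h))

theorem inf_normal (hP : Cfsg.IsPMinimal p P) (S : Sylow p P) {M : Subgroup P} (hM : IsCoatom M)
    (hSM : (S : Subgroup P) ≤ M) (N : Subgroup P) [hN : N.Normal] (hNM : N ≤ M) :
    ((S : Subgroup P) ⊓ N).Normal := by
  rw [← normalizer_eq_top_iff]
  by_contra hne
  have h1 : (S : Subgroup P) ≤ normalizer (((S : Subgroup P) ⊓ N : Subgroup P) : Set P) :=
    (le_inf le_normalizer le_normalizer_of_normal).trans inf_normalizer_le_normalizer_inf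
  have h2 := le_of_ne_top hP S hM hSM h1 hne
  apply hM.1
  rw [eq_top_iff]
  intro g _
  obtain ⟨n, hn, hg⟩ := (Tech.sylow_inf_normal S N).frattini (g := g) (le_normalizer_of_normal (mem_top g))
  have := M.mul_mem (M.inv_mem (hNM hn)) (h2 hg)
  simpa using this

theorem subnormal_le_core {M : Subgroup P} (hM : IsCoatom M) {N : Subgroup P} (hN : N.IsSubnormal)
    (hNM : N ≤ M) : N ≤ M.normalCore := by
  set J := sSup {K : Subgroup P | K.IsSubnormal ∧ K ≤ M} with hJ
  have hJs : J.IsSubnormal := SolvStruct.isSubnormal_sSup fun U hU => hU.1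
  have hJM : J ≤ M := sSup_le fun U hU => hU.2
  have hMJ : M ≤ normalizer (J : Set P) := SolvStruct.le_normalizer_sSup fun U hU g hg =>
    ⟨hU.1.smul _, SolvStruct.conj_smul_le_of_mem hU.2 hg⟩
  have hn : J.Normal := by
    by_contra hn
    obtain ⟨g, hg1, hg2⟩ := SolvStruct.exists_conj_le_normalizer_of_isSubnormal hJs hn
    have h1 : normalizer (J : Set P) = M := by
      rcases hMJ.eq_or_lt with h | h
      · exact h.symm
      · exact absurd (normalizer_eq_top_iff.1 (hM.2 _ h)) hn
    exact hg1 (le_sSup ⟨hJs.smul _, h1 ▸ hg2⟩)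
  exact (le_sSup (show N ∈ {K : Subgroup P | K.IsSubnormal ∧ K ≤ M} from ⟨hN, hNM⟩)).trans
    (normal_le_normalCore.2 hJM)

theorem not_pResidual_le (S : Sylow p P) {M : Subgroup P} (hM : IsCoatom M)
    (hSM : (S : Subgroup P) ≤ M) : ¬ Cfsg.pResidual p P ≤ M := fun h =>
  hM.1 (top_le_iff.1 ((Transfer.pResidual_sup_sylow S).ge.trans (sup_le h hSM)))

end

/-- Let P be a finite p-minimal group (a Sylow p-subgroup S is not normal and lies in a unique maximal subgroup M of P) and let F be the normal core of M. Then: every subnormal subgroup N of P contained in M satisfies N ∩ S ≤ O_p(P); if O^p(P) has a normal Sylow p-subgroup then the order of P has at most two prime divisors; every normal subgroup N of P either contains O^p(P) or is contained in F; and O^p(P)F ⧸ F is a minimal normal subgroup of P ⧸ F. -/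
theorem result {P : Type*} [Group P] [Finite P] {p : ℕ} [Fact p.Prime] (hP : Cfsg.IsPMinimal p P) (S : Sylow p P) (M : Subgroup P) (hM : IsCoatom M) (hSM : (S : Subgroup P) ≤ M) [hF : M.normalCore.Normal] : (∀ N : Subgroup P, N.IsSubnormal → N ≤ M → N ⊓ (S : Subgroup P) ≤ Cfsg.pCore p P) ∧ ((∀ T : Sylow p ↥(Cfsg.pResidual p P), (T : Subgroup ↥(Cfsg.pResidual p P)).Normal) → (Nat.card P).primeFactors.card ≤ 2) ∧ (∀ N : Subgroup P, N.Normal → Cfsg.pResidual p P ≤ N ∨ N ≤ M.normalCore) ∧ (∀ N : Subgroup P, N.Normal → M.normalCore ≤ N → N ≤ Cfsg.pResidual p P ⊔ M.normalCore → N = M.normalCore ∨ N = Cfsg.pResidual p P ⊔ M.normalCore) ∧ M.normalCore < Cfsg.pResidual p P ⊔ M.normalCore := by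
  have hp : p.Prime := Fact.out
  refine ⟨?_, ?_, normal_cases hP S hM hSM, ?_, ?_⟩
  · intro N hN hNM
    haveI := inf_normal hP S hM hSM M.normalCore (normalCore_le M)
    refine le_trans ?_ (Core.le_pCore (N := (S : Subgroup P) ⊓ M.normalCore) (S.isPGroup'.to_le inf_le_left))
    exact le_inf inf_le_right (inf_le_left.trans (subnormal_le_core hM hN hNM))
  · intro hT
    set O := Cfsg.pResidual p P with hO
    haveI : O.Normal := Transfer.pResidual_normal p P
    obtain ⟨T⟩ : Nonempty (Sylow p O) := inferInstance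
    haveI := hT T
    haveI : (T : Subgroup O).Characteristic := Sylow.characteristic_of_normal T (hT T)
    set T' := (T : Subgroup O).map O.subtype with hT'
    haveI : T'.Normal := Core.normal_map_subtype_of_characteristic _
    have hT'p : IsPGroup p T' := T.isPGroup'.map _
    have hT'S : T' ≤ (S : Subgroup P) := (Core.le_pCore hT'p).trans (Core.pCore_le_sylow S)
    let f := QuotientGroup.mk' T'
    have hf : Function.Surjective f := QuotientGroup.mk'_surjective _
    have hker : f.ker = T' := QuotientGroup.ker_mk' _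
    haveI : (O.map f).Normal := Normal.map inferInstance f hf
    have hcop : (Nat.card (O.map f)).Coprime p := by
      have h1 := Core.card_map_mk'_mul_card_inf O T'
      rw [inf_eq_right.2 (map_subtype_le _), show Nat.card T' = Nat.card (T : Subgroup O) from
        Core.card_map_subtype _, ← (T : Subgroup O).index_mul_card] at h1
      have h2 := Nat.eq_of_mul_eq_mul_right Nat.card_pos h1
      show (Nat.card (O.map (QuotientGroup.mk' T'))).Coprime p
      rw [h2]
      exact ((Nat.Prime.coprime_iff_not_dvd hp).2 T.not_dvd_index).symm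
    have hSp : IsPGroup p ((S : Subgroup P).map f) := S.isPGroup'.map f
    by_contra hcard
    apply not_pResidual_le S hM hSM
    have key := Coprime.eq_of_forall_invariant_pgroup_le (K := O.map f) (A := (S : Subgroup P).map f)
      (H := O.map f ⊓ M.map f) le_normalizer_of_normal
      (Coprime.coprime_card_of_isPGroup hSp hcop).symm (Or.inl (Coprime.isSolvable_of_isPGroup hSp))
      inf_le_left (by
        intro q Q hq hQ hQq _ hSQ
        haveI : Fact q.Prime := ⟨hq⟩
        refine le_inf hQ ?_
        have hne : ((S : Subgroup P).map f ⊔ Q).comap f ≠ ⊤ := by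
          intro htop
          apply hcard
          have h1 := Core.card_comap_mk' T' ((S : Subgroup P).map f ⊔ Q)
          have h1' : Nat.card (((S : Subgroup P).map f ⊔ Q).comap f) = Nat.card P := by
            rw [htop, card_top]
          have h2 := Core.card_sup_dvd_of_le_normalizer hSQ
          obtain ⟨a, ha⟩ := hSp.exists_card_eq
          obtain ⟨b, hb⟩ := hQq.exists_card_eq
          obtain ⟨c, hc⟩ := hT'p.exists_card_eq
          have h3 : Nat.card P ∣ p ^ a * q ^ b * p ^ c := by
            rw [← h1', h1, hc, ← ha, ← hb]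
            exact Nat.mul_dvd_mul_right h2 _
          have h4 : (Nat.card P).primeFactors ⊆ {p, q} := by
            intro r hr
            have hr' := Nat.prime_of_mem_primeFactors hr
            have h5 := (Nat.dvd_of_mem_primeFactors hr).trans h3
            simp only [Finset.mem_insert, Finset.mem_singleton]
            rcases (Nat.Prime.dvd_mul hr').1 h5 with h | h
            · rcases (Nat.Prime.dvd_mul hr').1 h with h | h
              · exact Or.inl ((Nat.prime_dvd_prime_iff_eq hr' hp).1 (hr'.dvd_of_dvd_pow h))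
              · exact Or.inr ((Nat.prime_dvd_prime_iff_eq hr' hq).1 (hr'.dvd_of_dvd_pow h))
            · exact Or.inl ((Nat.prime_dvd_prime_iff_eq hr' hp).1 (hr'.dvd_of_dvd_pow h))
          exact (Finset.card_le_card h4).trans Finset.card_le_two
        have h6 := le_of_ne_top hP S hM hSM
          ((le_comap_map f _).trans (comap_mono le_sup_left)) hne
        have h7 := map_mono (f := f) h6
        rw [map_comap_eq_self_of_surjective hf] at h7
        exact le_sup_right.trans h7)
    have h8 : O.map f ≤ M.map f := key ▸ inf_le_right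
    have h9 := comap_mono (f := f) h8
    rw [comap_map_eq_self (f := f) (H := M) (hker.le.trans (hT'S.trans hSM))] at h9
    exact (le_comap_map f O).trans h9
  · intro N hN h1 h2
    rcases normal_cases hP S hM hSM N hN with h | h
    · exact Or.inr (le_antisymm h2 (sup_le h h1))
    · exact Or.inl (le_antisymm h h1)
  · refine lt_of_le_of_ne le_sup_right fun h => not_pResidual_le S hM hSM ?_
    exact le_sup_left.trans (h.ge.trans (normalCore_le M))

end Cfsg.Agent.S2905
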