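import Cfsg.Statements.S2907
import Cfsg.Agent.Lib.Core.Frattini

set_option autoImplicit false
open Cfsg

namespace Cfsg.Agent.S2907

open Subgroup

/-- Let X be a finite semi-extraspecial p-group and x an element of X outside the centre. Then the index of C_X(x) in X equals the order of Z(X), and the commutators [x, y], y ∈ X, form exactly the centre Z(X). -/
theorem result {X : Type*} [Group X] [Finite X] {p : ℕ} [Fact p.Prime] (hX : Cfsg.IsSemiExtraspecial p X) (x : X) (hx : x ∉ Subgroup.center X) : (Subgroup.centralizer ({x} : Set X)).index = Nat.card ↥(Subgroup.center X) ∧ {z : X | ∃ y : X, z = x * y * x⁻¹ * y⁻¹} = (Subgroup.center X : Set X) := by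
  have hc : ∀ a b : X, a * b * a⁻¹ * b⁻¹ ∈ center X := fun a b => by
    rw [← hX.1.2.2]; exact commutator_mem_commutator (mem_top a) (mem_top b)
  let f : X →* center X := MonoidHom.mk' (fun y => ⟨x * y * x⁻¹ * y⁻¹, hc x y⟩) (fun a b => by
    apply Subtype.ext
    have := mem_center_iff.1 (hc x b) a⁻¹
    calc x * (a * b) * x⁻¹ * (a * b)⁻¹ = x * a * x⁻¹ * ((x * b * x⁻¹ * b⁻¹) * a⁻¹) := by group
      _ = x * a * x⁻¹ * a⁻¹ * (x * b * x⁻¹ * b⁻¹) := by rw [← this]; group)
  have hf : f.range = ⊤ := by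
    by_contra hne
    obtain ⟨M, hM, hle⟩ := CfsgLib.Core.exists_isCoatom_ge hne
    have hMe : (M.map (center X).subtype).subgroupOf (center X) = M :=
      comap_map_eq_self_of_injective (center X).subtype_injective M
    obtain ⟨hn, he⟩ := hX.2 (M.map (center X).subtype) (map_subtype_le M) (by rw [hMe]; exact hM)
    set Y := M.map (center X).subtype
    have h1 : (center X).map (QuotientGroup.mk' Y) ≤ center (X ⧸ Y) := by
      rintro _ ⟨z, hz, rfl⟩
      rw [mem_center_iff]
      intro g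
      obtain ⟨g, rfl⟩ := QuotientGroup.mk'_surjective Y g
      rw [← map_mul, ← map_mul, mem_center_iff.1 hz g]
    have h2 : (QuotientGroup.mk' Y) x ∈ center (X ⧸ Y) := by
      rw [mem_center_iff]
      intro g
      obtain ⟨g, rfl⟩ := QuotientGroup.mk'_surjective Y g
      have : x * g * x⁻¹ * g⁻¹ ∈ Y := ⟨f g, hle ⟨g, rfl⟩, rfl⟩
      have h3 := (QuotientGroup.eq_one_iff _).2 this
      symm
      rw [← mul_inv_eq_one]
      simpa [mul_assoc] using h3
    have h4 : (center X).map (QuotientGroup.mk' Y) ≠ ⊥ := fun h0 => by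
      rw [Subgroup.map_eq_bot_iff, QuotientGroup.ker_mk'] at h0
      exact hM.1 (by rw [← hMe, subgroupOf_eq_top]; exact h0)
    have h5 : (center X).map (QuotientGroup.mk' Y) = center (X ⧸ Y) := by
      have h6 := card_dvd_of_le h1
      rw [he.2] at h6
      rcases (Nat.dvd_prime Fact.out).1 h6 with h7 | h7
      · exact absurd (card_eq_one.1 h7) h4
      · exact eq_of_le_of_card_ge h1 (by rw [h7, he.2])
    rw [← h5] at h2
    obtain ⟨z, hz, hzx⟩ := h2
    have h8 : z⁻¹ * x ∈ Y := QuotientGroup.eq.1 hzx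
    exact hx (by simpa using mul_mem hz (map_subtype_le M h8))
  have hk : f.ker = centralizer {x} := by
    ext y
    rw [MonoidHom.mem_ker, mem_centralizer_singleton_iff, Subtype.ext_iff]
    show x * y * x⁻¹ * y⁻¹ = 1 ↔ _
    rw [mul_inv_eq_one, mul_inv_eq_iff_eq_mul, eq_comm]
  refine ⟨by rw [← hk, index_ker, hf, card_top], Set.ext fun z => ⟨?_, fun hz => ?_⟩⟩
  · rintro ⟨y, rfl⟩; exact hc x y
  · obtain ⟨y, hy⟩ : (⟨z, hz⟩ : center X) ∈ f.range := hf ▸ mem_top _
    exact ⟨y, (congrArg Subtype.val hy).symm⟩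

end Cfsg.Agent.S2907
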