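import Cfsg.Statements.S2908
import Cfsg.Agent.Lib.LAE.CharP
import Cfsg.Agent.Lib.Core.Commutator

set_option autoImplicit false
open Cfsg

namespace Cfsg.Agent.S2908

open CfsgLib.LAE Subgroup

/-- Let P be a p-subgroup of a finite group, normalized by a p-subgroup A and by a subgroup B of order prime to p that commutes elementwise with A. If [P, B] ≤ [P, A], then B centralizes P. -/
theorem result {G : Type*} [Group G] [Finite G] {p : ℕ} [Fact p.Prime] (P A B : Subgroup G) (hP : IsPGroup p ↥P) (hA : IsPGroup p ↥A) (hB : ¬ p ∣ Nat.card ↥B) (hnA : A ≤ Subgroup.normalizer (P : Set G)) (hnB : B ≤ Subgroup.normalizer (P : Set G)) (hAB : ⁅A, B⁆ = ⊥) (hcomm : ⁅P, B⁆ ≤ ⁅P, A⁆) : ⁅P, B⁆ = ⊥ := by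
  have hBr : pResOf p B = B := le_antisymm (pResOf_le B) fun b hb => mem_pResOf hb (by
    rw [Nat.coprime_comm, Nat.Prime.coprime_iff_not_dvd Fact.out]
    exact fun h => hB (h.trans (B.orderOf_dvd_natCard hb)))
  have h1 := commutator_pResOf_commutator' hP hnB
  rw [hBr] at h1
  have hBA : B ≤ normalizer (A : Set G) := by
    rw [commutator_comm, commutator_eq_bot_iff_le_centralizer] at hAB
    exact hAB.trans (centralizer_le_normalizer _)
  have hPA : P ⊔ A ≤ normalizer (P : Set G) := sup_le le_normalizer hnA
  obtain ⟨n, h0⟩ := exists_iterCommutator_eq_bot_of_isPGroup hP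
    (show IsPGroup p (P ⊔ A : Subgroup G) from sup_comm A P ▸ isPGroup_sup hA hP hnA) hPA
  have hn : ∀ k, B ≤ normalizer (iterCommutator P (P ⊔ A) k : Set G) := fun k => by
    induction k with
    | zero => exact hnB
    | succ k ih => exact le_normalizer_commutator ih (le_normalizer_sup hnB hBA)
  have key : ∀ k, ⁅P, B⁆ ≤ iterCommutator P (P ⊔ A) k := fun k => by
    induction k with
    | zero => exact commutator_le_left_of_le_normalizer hnB
    | succ k ih =>
      have h2 : P ⊔ A ≤ normalizer (iterCommutator P (P ⊔ A) (k + 1) : Set G) :=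
        normalizer_commutator_ge_right _ _
      rw [← h1]
      refine (commutator_mono hcomm le_rfl).trans ?_
      refine CfsgLib.Core.three_subgroups_of_le_normalizer (le_sup_left.trans h2)
        (le_sup_right.trans h2) (hn _) (by rw [hAB]; simp) ?_
      rw [commutator_comm B P]
      exact commutator_mono ih le_sup_right
  exact eq_bot_iff.2 (h0 ▸ key n)

end Cfsg.Agent.S2908
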