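import Cfsg.Statements.S2909
import Mathlib
import Cfsg.Agent.Lib.Coprime.Generation
import Cfsg.Agent.Lib.Coprime.Abelian
import Cfsg.Agent.Lib.Coprime.Action
import Cfsg.Agent.Lib.Core.Commutator
import Cfsg.Agent.Lib.Core.Frattini
import Cfsg.Agent.Lib.Core.Basic

set_option autoImplicit false
open Cfsg

namespace Cfsg.Agent.S2909

open Subgroup CfsgLib

theorem dual_abelian {G : Type*} [Group G] [Finite G] {p : ℕ} [Fact p.Prime] {P A B : Subgroup G}
    [IsMulCommutative P] (hP : IsPGroup p P) (hA : IsPGroup p A) (hB : (Nat.card B).Coprime p)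
    (hnA : A ≤ normalizer (P : Set G)) (hnB : B ≤ normalizer (P : Set G))
    (hAB : A ≤ centralizer (B : Set G)) (hcomm : ⁅P, B⁆ ≤ ⁅P, A⁆) : ⁅P, B⁆ = ⊥ := by
  obtain ⟨h1, h2⟩ := Coprime.fitting_decomposition (V := P) hnB (Coprime.coprime_card_of_isPGroup hP hB)
  set C := P ⊓ centralizer (B : Set G) with hC
  set Q := ⁅P, B⁆ with hQ
  have hAB' : A ≤ normalizer (B : Set G) := hAB.trans (centralizer_le_normalizer _)
  have hQP : Q ≤ P := Coprime.commutator_le_of_le_normalizer hnB
  have hAQ : A ≤ normalizer (Q : Set G) :=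
    (le_inf hnA hAB').trans (Core.normalizer_inf_le_normalizer_commutator _ _)
  have hAC : A ≤ normalizer (C : Set G) :=
    (le_inf hnA (hAB'.trans (Core.normalizer_le_normalizer_centralizer _))).trans inf_normalizer_le_normalizer_inf
  have hQA : ⁅Q, A⁆ ≤ Q := Coprime.commutator_le_of_le_normalizer hAQ
  have hCA : ⁅C, A⁆ ≤ C := Coprime.commutator_le_of_le_normalizer hAC
  have hnorm : ∀ X Y : Subgroup G, X ≤ P → Y ≤ P → X ≤ normalizer (Y : Set G) := fun X Y hX hY =>
    hX.trans ((le_centralizer P).trans ((centralizer_le hY).trans (centralizer_le_normalizer _)))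
  have hNP : ⁅Q, A⁆ ⊔ ⁅C, A⁆ ≤ P := sup_le (hQA.trans hQP) (hCA.trans inf_le_left)
  have h3 : ⁅P, A⁆ ≤ ⁅Q, A⁆ ⊔ ⁅C, A⁆ := by
    conv_lhs => rw [← h2]
    exact Core.commutator_sup_left_le (hnorm _ _ inf_le_left hNP) (hnorm _ _ hQP hNP) le_sup_right le_sup_left
  have h4 : Q ≤ ⁅Q, A⁆ := by
    have h5 : Q ≤ (⁅Q, A⁆ ⊔ ⁅C, A⁆) ⊓ Q := le_inf (hcomm.trans h3) le_rfl
    rw [Core.sup_inf_assoc_of_le_normalizer hQA (hnorm _ _ (hQA.trans hQP) (hCA.trans inf_le_left))] at h5
    refine h5.trans (sup_le le_rfl ?_)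
    refine le_trans (inf_le_inf_right _ hCA) (h1.le.trans bot_le)
  by_contra hne
  exact absurd (Coprime.commutator_lt_of_isPGroup (hP.to_le hQP) hA hAQ hne) (not_lt_of_ge h4)

theorem dual_normal {G : Type*} [Group G] [Finite G] {p : ℕ} [Fact p.Prime] {P A B : Subgroup G}
    [P.Normal] (hP : IsPGroup p P) (hA : IsPGroup p A) (hB : (Nat.card B).Coprime p)
    (hAB : A ≤ centralizer (B : Set G)) (hcomm : ⁅P, B⁆ ≤ ⁅P, A⁆) : B ≤ centralizer (P : Set G) := by
  let f := QuotientGroup.mk' ⁅P, P⁆
  have hf : Function.Surjective f := QuotientGroup.mk'_surjective _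
  haveI : (P.map f).Normal := Normal.map inferInstance f hf
  haveI : IsMulCommutative (P.map f) := by
    rw [← le_centralizer_iff_isMulCommutative]
    exact (Core.commutator_le_iff_map_mk' _).1 le_rfl
  have h1 := dual_abelian (P := P.map f) (A := A.map f) (B := B.map f) (hP.map f) (hA.map f)
    (Nat.Coprime.coprime_dvd_left (card_map_dvd _ f) hB) le_normalizer_of_normal le_normalizer_of_normal
    (by
      rw [← commutator_eq_bot_iff_le_centralizer, ← map_commutator,
        commutator_eq_bot_iff_le_centralizer.2 hAB, Subgroup.map_bot])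
    (by rw [← map_commutator, ← map_commutator]; exact map_mono hcomm)
  have h2 : ⁅P, B⁆ ≤ ⁅P, P⁆ := (Core.commutator_le_iff_map_mk'_eq_bot _).2 h1
  exact Coprime.le_centralizer_of_commutator_le_frattini
    (Coprime.coprime_card_of_isPGroup (hP.to_subgroup _) hB) (h2.trans (Core.commutator_le_map_frattini hP))

/-- Let p be a prime, E a normal p-subgroup of the finite group G, and U a non-cyclic elementary abelian p-subgroup of G such that either C_E(U) = C_E(u) for every nontrivial u ∈ U, or [E, U] = [E, ⟨u⟩] for every nontrivial u ∈ U. If R is a subgroup of order prime to p normalized by U, then [R, U] centralizes E. -/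
theorem result {G : Type*} [Group G] [Finite G] {p : ℕ} [Fact p.Prime] (E : Subgroup G) [E.Normal] (hE : IsPGroup p ↥E) (U : Subgroup G) (hU : Cfsg.IsElementaryAbelian p U) (hnc : ¬ IsCyclic ↥U) (hcond : (∀ u ∈ U, u ≠ 1 → E ⊓ Subgroup.centralizer (U : Set G) = E ⊓ Subgroup.centralizer ({u} : Set G)) ∨ (∀ u ∈ U, u ≠ 1 → ⁅E, U⁆ = ⁅E, Subgroup.zpowers u⁆)) (R : Subgroup G) (hR : ¬ p ∣ Nat.card ↥R) (hRU : U ≤ Subgroup.normalizer (R : Set G)) : ⁅R, U⁆ ≤ Subgroup.centralizer (E : Set G) := by
  have hp : p.Prime := Fact.out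
  haveI := hU.1
  have hR' : (Nat.card R).Coprime p := ((Nat.Prime.coprime_iff_not_dvd hp).2 hR).symm
  have hUp : IsPGroup p U := Core.isPGroup_subgroup_iff.2 fun g hg => ⟨1, by rw [pow_one]; exact hU.2 g hg⟩
  rw [← Coprime.iSup_commutator_centralizer_eq hnc hRU (Coprime.coprime_card_of_isPGroup hUp hR').symm]
  refine iSup₂_le ?_
  rintro u ⟨huU, hu1⟩
  set C := R ⊓ centralizer ({u} : Set G) with hC
  have hUu : U ≤ centralizer ({u} : Set G) := (le_centralizer U).trans (centralizer_le (by simpa using huU))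
  have hUC : U ≤ normalizer (C : Set G) :=
    (le_inf hRU (hUu.trans le_normalizer)).trans inf_normalizer_le_normalizer_inf
  have hBC : ⁅C, U⁆ ≤ C := Coprime.commutator_le_of_le_normalizer hUC
  have hBcop : (Nat.card (⁅C, U⁆ : Subgroup G)).Coprime p :=
    Nat.Coprime.coprime_dvd_left (card_dvd_of_le (hBC.trans inf_le_left)) hR'
  have hup : IsPGroup p (zpowers u) := hUp.to_le (zpowers_le.2 huU)
  have huB : zpowers u ≤ centralizer ((⁅C, U⁆ : Subgroup G) : Set G) := by
    rw [le_centralizer_iff, Core.centralizer_zpowers]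
    exact hBC.trans inf_le_right
  rcases hcond with h | h
  · refine Coprime.thompson_p_times_q hup hBcop hE huB le_normalizer_of_normal le_normalizer_of_normal ?_
    rw [Core.centralizer_zpowers, le_centralizer_iff]
    set X := E ⊓ centralizer ({u} : Set G) with hX
    have h1 : U ≤ centralizer (X : Set G) := by
      rw [le_centralizer_iff, hX, ← h u huU hu1]
      exact inf_le_right
    have h2 : C ≤ normalizer (X : Set G) :=
      (le_inf le_normalizer_of_normal (inf_le_right.trans le_normalizer)).trans inf_normalizer_le_normalizer_inf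
    rw [commutator_comm]
    exact (commutator_mono h1 le_rfl).trans (Coprime.commutator_le_of_le_normalizer
      (h2.trans (Core.normalizer_le_normalizer_centralizer _)))
  · refine dual_normal hE hup hBcop huB ?_
    have hCY : C ≤ normalizer ((⁅E, U⁆ : Subgroup G) : Set G) := by
      rw [h u huU hu1]
      refine (le_inf le_normalizer_of_normal ?_).trans (Core.normalizer_inf_le_normalizer_commutator _ _)
      refine inf_le_right.trans ?_
      rw [← Core.centralizer_zpowers]
      exact centralizer_le_normalizer _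
    rw [← h u huU hu1, commutator_comm E]
    refine Core.three_subgroups_of_le_normalizer hCY (normalizer_commutator_ge_right _ _)
      (normalizer_commutator_ge_left _ _) ?_ ?_
    · rw [commutator_comm U E]
      exact Coprime.commutator_le_of_le_normalizer hCY
    · exact commutator_mono (commutator_le_left _ _) le_rfl

end Cfsg.Agent.S2909
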