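import Cfsg.Statements.S2910
import Mathlib
import Cfsg.Agent.Lib.Transfer.Frobenius
import Cfsg.Agent.Lib.PGroup.Critical
import Cfsg.Agent.Lib.Comp.Quasisimple
import Cfsg.Agent.Lib.Core.Basic

set_option autoImplicit false
open Cfsg

namespace Cfsg.Agent.S2910

open Subgroup CfsgLib

/-- Let p be an odd prime dividing the order of the finite group G and P a Sylow p-subgroup of G. If Ω₁(P) (generated by the elements of order dividing p) is contained in the centre of G, then G has a normal p-complement. In particular, if G is quasisimple then Ω₁(P) is not central in G. -/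
theorem result {G : Type*} [Group G] [Finite G] {p : ℕ} [Fact p.Prime] (hp : p ≠ 2) (hdiv : p ∣ Nat.card G) (P : Sylow p G) (hZ : Cfsg.omegaOne p (P : Subgroup G) ≤ Subgroup.center G) : Cfsg.HasNormalPComplement p G ∧ ¬ Cfsg.IsQuasisimple G := by
  have hnpc : Cfsg.HasNormalPComplement p G := by
    apply Transfer.frobenius_of_forall_centralizer P
    intro Q hQ _ g hg hc
    have hord : (orderOf (MulAut.conj g)).Coprime p :=
      Nat.Coprime.coprime_dvd_left (orderOf_map_dvd MulAut.conj g) hc
    have := PGroup.aut_apply_eq_of_fix_pow_eq_one (n := 1) one_ne_zero (by simpa using hp) hord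
      (H := Q) (P.isPGroup'.to_le hQ) (fun x hx => (mem_normalizer_iff.1 hg x).1 hx) (by
        intro x hx hxp
        have h1 : x ∈ center G := hZ (Subgroup.subset_closure ⟨hQ hx, by simpa using hxp⟩)
        rw [MulAut.conj_apply, mem_center_iff.1 h1 g]
        group)
    rw [mem_centralizer_iff]
    intro x hx
    have h2 := this x hx
    rw [MulAut.conj_apply] at h2
    calc x * g = g * x * g⁻¹ * g := by rw [h2]
      _ = g * x := by group
  refine ⟨hnpc, fun hq => ?_⟩
  haveI := Transfer.pResidual_normal p G
  rcases Comp.qs_normal hq (pResidual p G) inferInstance with h | h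
  · have := Transfer.hasNormalPComplement_iff_not_dvd.1 hnpc
    rw [h, card_top] at this
    exact this hdiv
  · apply Comp.qs_not_isSolvable hq
    haveI : Group.IsNilpotent (G ⧸ pResidual p G) := Transfer.isPGroup_quotient_pResidual.isNilpotent
    haveI : Group.IsSolvable (center G) := Core.isSolvable_of_isMulCommutative
    haveI : Group.IsSolvable (pResidual p G) := Core.isSolvable_of_le h
    exact Group.isSolvable_of_ker_le_range (pResidual p G).subtype (QuotientGroup.mk' (pResidual p G)) (by simp)

end Cfsg.Agent.S2910
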