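import Cfsg.Statements.S2911
import Mathlib
import Cfsg.Agent.Lib.Transfer.Thompson
import Cfsg.Agent.Lib.Transfer.Abelian
import Cfsg.Agent.Lib.Tech.SylowIn
import Cfsg.Agent.Lib.Tech.Invol
import Cfsg.Agent.Lib.Core.Basic

set_option autoImplicit false
open Cfsg

namespace Cfsg.Agent.S2911

open Subgroup CfsgLib

abbrev X := Multiplicative (ZMod 2) × DihedralGroup 4

def cc : X := (Multiplicative.ofAdd 1, 1)
def zz : X := (1, DihedralGroup.r 2)

def chi (a b c : ZMod 2) : X → ZMod 2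
  | (x, DihedralGroup.r i) => a * x.toAdd + b * (i.val : ZMod 2)
  | (x, DihedralGroup.sr i) => a * x.toAdd + b * (i.val : ZMod 2) + c

theorem chi_mul : ∀ (a b c : ZMod 2) (x y : X), chi a b c (x * y) = chi a b c x + chi a b c y := by
  decide

def Q (a b c : ZMod 2) : Subgroup X where
  carrier := {x | chi a b c x = 0}
  mul_mem' := by
    intro x y hx hy
    change chi a b c _ = 0 at *
    rw [chi_mul, hx, hy, add_zero]
  one_mem' := by
    show chi a b c 1 = 0
    revert a b c; decide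
  inv_mem' := by
    intro x hx
    change chi a b c _ = 0 at *
    have h := chi_mul a b c x x⁻¹
    have h1 : ∀ a b c, chi a b c 1 = 0 := by decide
    rw [mul_inv_cancel, h1, hx, zero_add] at h
    exact h.symm

theorem mem_Q {a b c : ZMod 2} {x : X} : x ∈ Q a b c ↔ chi a b c x = 0 := Iff.rfl

theorem index_Q (b c : ZMod 2) : (Q 1 b c).index = 2 := by
  rw [index_eq_two_iff]
  refine ⟨cc, fun x => ?_⟩
  rw [mem_Q, mem_Q]
  revert b c x
  decide

theorem gen (p1 p2 p3 p4 q1 q2 q3 q4 : Prop) :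
    ((p1 ∨ p3) ∧ (p1 ∨ p4) ∧ (p2 ∨ p3) ∧ (p2 ∨ p4)) → ((q1 ∨ q3) ∧ (q1 ∨ q4) ∧ (q2 ∨ q3) ∧ (q2 ∨ q4)) →
    (p1 → q1 → False) → (p2 → q2 → False) → (p3 → q3 → False) → (p4 → q4 → False) →
    (p1 ∨ q1) ∧ (p2 ∨ q2) ∧ (p3 ∨ q3) ∧ (p4 ∨ q4) := by
  tauto

theorem combin (R : X → X → Prop) (hsymm : ∀ x y, R x y → R y x) (htrans : ∀ x y w, R x y → R y w → R x w)
    (hconj : ∀ g x, R x (g * x * g⁻¹))
    (hord : ∀ x y, R x y → x * x = 1 → x ≠ 1 → y * y = 1 ∧ y ≠ 1)
    (hT : ∀ b c u, u * u = 1 → u ≠ 1 → ∃ y, chi 1 b c y = 0 ∧ R u y)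
    (h1 : ¬ R zz cc) (h2 : ¬ R zz (cc * zz)) (h3 : ¬ R cc (cc * zz))
    (hE : ∀ t, R t cc → t * zz = zz * t → ∃ y, R zz y ∧ R (t * zz) (cc * y)) : False := by
  let a0 : X := (1, DihedralGroup.sr 0)
  let b0 : X := (1, DihedralGroup.sr 1)
  have hcl : ∀ y : X, y * y = 1 → y ≠ 1 → y = zz ∨ y = cc ∨ y = cc * zz ∨
      (∃ g, y = g * a0 * g⁻¹) ∨ (∃ g, y = g * (cc * a0) * g⁻¹) ∨ (∃ g, y = g * b0 * g⁻¹) ∨
      (∃ g, y = g * (cc * b0) * g⁻¹) := by decide
  have hT' : ∀ u, u * u = 1 → u ≠ 1 → ¬ R zz u →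
      (R u a0 ∨ R u b0) ∧ (R u a0 ∨ R u (cc * b0)) ∧ (R u (cc * a0) ∨ R u b0) ∧
        (R u (cc * a0) ∨ R u (cc * b0)) := by
    intro u hu hu1 hz
    have key : ∀ (b c : ZMod 2) (v w : X), (∀ y : X, y * y = 1 → y ≠ 1 → chi 1 b c y = 0 →
        y = zz ∨ (∃ g, g * y * g⁻¹ = v) ∨ (∃ g, g * y * g⁻¹ = w)) → R u v ∨ R u w := by
      intro b c v w h
      obtain ⟨y, hy, hR⟩ := hT b c u hu hu1
      obtain ⟨hy1, hy2⟩ := hord u y hR hu hu1
      rcases h y hy1 hy2 hy with rfl | ⟨g, rfl⟩ | ⟨g, rfl⟩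
      · exact absurd (hsymm _ _ hR) hz
      · exact Or.inl (htrans _ _ _ hR (hconj g y))
      · exact Or.inr (htrans _ _ _ hR (hconj g y))
    exact ⟨key 0 0 _ _ (by decide), key 1 0 _ _ (by decide), key 1 1 _ _ (by decide),
      key 0 1 _ _ (by decide)⟩
  have hc := hT' cc (by decide) (by decide) h1
  have hcz := hT' (cc * zz) (by decide) (by decide) h2
  have hno : ∀ v, R cc v → R (cc * zz) v → False := fun v hv hv' => h3 (htrans _ _ _ hv (hsymm _ _ hv'))
  have hall : (R cc a0 ∨ R (cc * zz) a0) ∧ (R cc (cc * a0) ∨ R (cc * zz) (cc * a0)) ∧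
      (R cc b0 ∨ R (cc * zz) b0) ∧ (R cc (cc * b0) ∨ R (cc * zz) (cc * b0)) := by
    exact gen _ _ _ _ _ _ _ _ hc hcz (hno _) (hno _) (hno _) (hno _)
  have hzfix : ∀ y, R zz y → y = zz := by
    intro y hy
    have hnz : ∀ v g, (R cc v ∨ R (cc * zz) v) → ¬ R zz (g * v * g⁻¹) := by
      intro v g hv h
      have h' := htrans _ _ _ h (hsymm _ _ (hconj g v))
      rcases hv with hv | hv
      · exact h1 (htrans _ _ _ h' (hsymm _ _ hv))
      · exact h2 (htrans _ _ _ h' (hsymm _ _ hv))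
    obtain ⟨hy1, hy2⟩ := hord _ y hy (by decide) (by decide)
    rcases hcl y hy1 hy2 with h | rfl | rfl | ⟨g, rfl⟩ | ⟨g, rfl⟩ | ⟨g, rfl⟩ | ⟨g, rfl⟩
    · exact h
    · exact absurd hy h1
    · exact absurd hy h2
    · exact absurd hy (hnz _ _ hall.1)
    · exact absurd hy (hnz _ _ hall.2.1)
    · exact absurd hy (hnz _ _ hall.2.2.1)
    · exact absurd hy (hnz _ _ hall.2.2.2)
  have fin : ∀ t, R cc t → t * zz = zz * t → (∃ g, t * zz = g * t * g⁻¹) → False := by
    rintro t ht hc ⟨g, hg⟩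
    obtain ⟨y, hy1, hy2⟩ := hE t (hsymm _ _ ht) hc
    rw [hzfix y hy1, hg] at hy2
    exact h3 (htrans _ _ _ (htrans _ _ _ ht (hconj g t)) hy2)
  rcases hc.1 with h | h
  · exact fin _ h (by decide) (by decide)
  · exact fin _ h (by decide) (by decide)

/-- A finite group whose Sylow 2-subgroups are isomorphic to the direct product of a group of order 2 and a dihedral group of order 8 has a subgroup of index two. -/
theorem result {G : Type*} [Group G] [Finite G] (S : Sylow 2 G) (hS : Nonempty (↥(S : Subgroup G) ≃* Multiplicative (ZMod 2) × DihedralGroup 4)) : ∃ H : Subgroup G, H.index = 2 := by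
  classical
  obtain ⟨e⟩ := hS
  by_contra hno
  push Not at hno
  let ι : X →* G := (S : Subgroup G).subtype.comp e.symm.toMonoidHom
  have hinj : Function.Injective ι := (S : Subgroup G).subtype_injective.comp e.symm.injective
  have hmem : ∀ x, ι x ∈ (S : Subgroup G) := fun x => (e.symm x).2
  have hsurj : ∀ s ∈ (S : Subgroup G), ∃ x, ι x = s := fun s hs => ⟨e ⟨s, hs⟩, by simp [ι]⟩
  have hcent : ∀ w : X, (∀ x, x * w = w * x) → ι w ∈ centralizer ((S : Subgroup G) : Set G) := by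
    intro w hw
    rw [mem_centralizer_iff]
    intro s hs
    obtain ⟨x, rfl⟩ := hsurj s hs
    rw [← map_mul, hw, map_mul]
  have hzc := hcent zz (by decide)
  have hcc := hcent cc (by decide)
  have hczc := hcent (cc * zz) (by decide)
  have hzfix : ∀ u ∈ normalizer ((S : Subgroup G) : Set G), u * ι zz * u⁻¹ = ι zz := by
    intro u hu
    let r : X := (1, DihedralGroup.r 1)
    obtain ⟨y, hy⟩ := hsurj _ ((mem_normalizer_iff.1 hu _).1 (hmem r))
    have h1 : u * ι zz * u⁻¹ = ι (y * y) := by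
      rw [map_mul, hy, show zz = r * r by decide, map_mul]
      group
    have h2 : ∀ y : X, y * y = 1 ∨ y * y = zz := by decide
    rcases h2 y with h | h
    · rw [h, map_one] at h1
      have h3 : ι zz = ι 1 := by
        rw [map_one]
        calc ι zz = u⁻¹ * (u * ι zz * u⁻¹) * u := by group
          _ = 1 := by rw [h1]; group
      exact absurd (hinj h3) (by decide)
    · rw [h1, h]
  have hzno : ∀ w : X, (∀ x, x * w = w * x) → w ≠ zz → ¬ ∃ g : G, g * ι zz * g⁻¹ = ι w := by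
    rintro w hw hne ⟨g, hg⟩
    obtain ⟨u, hu, h⟩ := Transfer.exists_normalizer_conj_of_mem_centralizer S hzc (hg ▸ hcent w hw)
    rw [hg, hzfix u hu] at h
    exact hne (hinj h)
  refine combin (fun x y => ∃ g : G, g * ι x * g⁻¹ = ι y) ?_ ?_ ?_ ?_ ?_
    (hzno _ (by decide) (by decide)) (hzno _ (by decide) (by decide)) ?_ ?_
  · rintro x y ⟨g, hg⟩
    exact ⟨g⁻¹, by rw [← hg]; group⟩
  · rintro x y w ⟨g, hg⟩ ⟨h, hh⟩
    exact ⟨h * g, by rw [← hh, ← hg]; group⟩
  · intro g x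
    exact ⟨ι g, by simp⟩
  · rintro x y ⟨g, hg⟩ hx hx1
    constructor
    · apply hinj
      rw [map_mul, ← hg, map_one]
      calc g * ι x * g⁻¹ * (g * ι x * g⁻¹) = g * ι (x * x) * g⁻¹ := by rw [map_mul]; group
        _ = 1 := by rw [hx, map_one]; group
    · rintro rfl
      apply hx1
      apply hinj
      rw [map_one] at hg ⊢
      calc ι x = g⁻¹ * (g * ι x * g⁻¹) * g := by group
        _ = 1 := by rw [hg]; group
  · intro b c u hu hu1
    have hidx : ((Q 1 b c).map ι).relIndex (S : Subgroup G) = 2 := by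
      have : ((Q 1 b c).map ι).subgroupOf (S : Subgroup G) = (Q 1 b c).comap e.toMonoidHom := by
        ext s
        rw [mem_subgroupOf, mem_comap]
        constructor
        · rintro ⟨x, hx, hxs⟩
          have : e.symm x = s := Subtype.ext hxs
          rw [← this]
          simpa using hx
        · intro h
          exact ⟨_, h, by simp [ι]⟩
      rw [relIndex, this, index_comap_of_surjective _ e.surjective, index_Q]
    have hord : orderOf (ι u) = 2 := Tech.orderOf_two_of_mul_self (by rw [← map_mul, hu, map_one])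
      (fun h => hu1 (hinj (h.trans (map_one ι).symm)))
    obtain ⟨g, y, hy, hg⟩ := Transfer.exists_conj_mem_of_no_index_two hno S.not_dvd_index hidx hord
    exact ⟨y, hy, g, hg.symm⟩
  · rintro ⟨g, hg⟩
    obtain ⟨u, hu, h⟩ := Transfer.exists_normalizer_conj_of_mem_centralizer S hcc (hg ▸ hczc)
    rw [hg, map_mul] at h
    have h2 : Commute (u * u) (ι cc) := by
      show u * u * ι cc = ι cc * (u * u)
      calc u * u * ι cc = u * (u * ι cc * u⁻¹) * u := by group
        _ = u * (ι cc * ι zz) * u := by rw [← h]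
        _ = (u * ι cc * u⁻¹) * (u * ι zz * u⁻¹) * (u * u) := by group
        _ = ι (cc * zz * zz) * (u * u) := by rw [← h, hzfix u hu, map_mul, map_mul]
        _ = _ := by rw [show cc * zz * zz = cc by decide]
    set N := normalizer ((S : Subgroup G) : Set G) with hN
    haveI : ((S : Subgroup G).subgroupOf N).Normal := normal_in_normalizer
    have h3 : u ^ (S : Subgroup G).relIndex N ∈ (S : Subgroup G) :=
      pow_index_mem (H := (S : Subgroup G).subgroupOf N) ⟨u, hu⟩
    have h4 : ¬ 2 ∣ (S : Subgroup G).relIndex N := (Tech.IsSylowIn.of_sylow S le_normalizer).not_dvd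
    obtain ⟨k, hk⟩ : Odd ((S : Subgroup G).relIndex N) := by
      rw [← Nat.not_even_iff_odd, even_iff_two_dvd]; exact h4
    have h5 : Commute (u ^ (2 * k + 1)) (ι cc) := by
      rw [← hk]
      exact mem_centralizer_iff.1 hcc _ h3
    have h6 : Commute u (ι cc) := by
      have : u = ((u * u) ^ k)⁻¹ * u ^ (2 * k + 1) := by
        rw [← pow_two, ← pow_mul]; group
      rw [this]
      exact (h2.pow_left k).inv_left.mul_left h5
    rw [h6.eq, mul_inv_cancel_right, ← map_mul] at h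
    exact absurd (hinj h) (by decide)
  · rintro t ⟨h, hh⟩ hc
    have hSC : (S : Subgroup G) ≤ centralizer {ι cc} := by
      rw [← Core.centralizer_zpowers, le_centralizer_iff, zpowers_le]
      exact hcc
    have hz2 : ι zz * ι zz = 1 := by rw [← map_mul, show zz * zz = 1 by decide, map_one]
    obtain ⟨k, hk, hkS⟩ := (Tech.IsSylowIn.of_sylow S hSC).exists_conj_mem (x := h * ι zz * h⁻¹)
      (by
        rw [mem_centralizer_singleton_iff, ← hh]
        calc h * ι zz * h⁻¹ * (h * ι t * h⁻¹) = h * ι (zz * t) * h⁻¹ := by rw [map_mul]; group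
          _ = _ := by rw [← hc, map_mul]; group)
      (Tech.isPGroup_two_zpowers (by
        calc h * ι zz * h⁻¹ * (h * ι zz * h⁻¹) = h * (ι zz * ι zz) * h⁻¹ := by group
          _ = 1 := by rw [hz2]; group))
    obtain ⟨y, hy⟩ := hsurj _ hkS
    refine ⟨y, ⟨k * h, by rw [hy]; group⟩, ⟨k * h, ?_⟩⟩
    rw [map_mul, map_mul, hy]
    have h1 := mem_centralizer_singleton_iff.1 hk
    calc k * h * (ι t * ι zz) * (k * h)⁻¹ = k * (h * ι t * h⁻¹) * k⁻¹ * (k * (h * ι zz * h⁻¹) * k⁻¹) := by group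
      _ = _ := by rw [hh, h1]; group

end Cfsg.Agent.S2911
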