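import Cfsg.Statements.S2924
import Cfsg.Agent.Lib.InvChar.EarlyA
import Cfsg.Agent.Lib.Comp.FStar
import Cfsg.Agent.Lib.Core.Fitting

set_option autoImplicit false
open Cfsg

namespace Cfsg.Agent.S2924

open Subgroup CfsgLib.InvChar.Early CfsgLib.Tech CfsgLib.Core

variable {G : Type*} [Group G] [Finite G]

theorem odd_of_mem {e x : G} (hx : x ∈ centralizerPPrimeCore 2 e) : Odd (orderOf x) := by
  have := _root_.orderOf_dvd_natCard (⟨x, hx⟩ : centralizerPPrimeCore 2 e)
  rw [orderOf_mk] at this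
  exact (odd_theta e).of_dvd_nat this

theorem z_inverts {z v : G} (hz : z * z = 1) (hv : v * v = 1) (hvz : v * z = z * v)
    (hc : centralizer (pCore 2 (centralizer ({z} : Set G)) : Set (centralizer ({z} : Set G))) ≤
      pCore 2 (centralizer ({z} : Set G))) {k : G} (hk : k ∈ centralizerPPrimeCore 2 v) :
    z * k * z⁻¹ = k⁻¹ := by
  refine inverts hz (le_normalizer_theta 2 v (mem_centralizer_singleton_iff.2 hvz.symm))
    (fun k hk hkz => ?_) hk
  have := balance hv hvz (CfsgLib.PLocal.Constr.isPConstrained_of_centralizer_le hc)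
    ⟨hk, mem_centralizer_singleton_iff.2 hkz⟩
  unfold centralizerPPrimeCore at this
  rwa [pPrimeCore_eq_bot_of_centralizer_le hc, Subgroup.map_bot, mem_bot] at this

theorem balance' {z e v : G} (he : e * e = 1) (hev : e * v = v * e)
    (hl : layer (centralizer ({v} : Set G)) = ⊥)
    (hi : ∀ k ∈ centralizerPPrimeCore 2 v, z * k * z⁻¹ = k⁻¹) {x : G}
    (hx : x ∈ centralizerPPrimeCore 2 e) (hxv : x * v = v * x) (hxz : z * x * z⁻¹ = x⁻¹) :
    x ∈ centralizerPPrimeCore 2 v := by
  have hxH : x ∈ centralizer ({v} : Set G) := mem_centralizer_singleton_iff.2 hxv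
  have heH : e ∈ centralizer ({v} : Set G) := mem_centralizer_singleton_iff.2 hev
  have hodd := odd_of_mem hx
  have h1 : ∀ r ∈ centralizerPPrimeCore 2 v, r * x = x * r := by
    intro r hr
    have h2 := hi _ (conj_mem_of_mem_normalizer (le_normalizer_theta 2 v hxH) hr)
    have h3 : z * (x * r * x⁻¹) * z⁻¹ = (z * x * z⁻¹) * (z * r * z⁻¹) * (z * x * z⁻¹)⁻¹ := by group
    rw [h3, hxz, hi r hr] at h2
    have h4 : Commute r (x ^ 2) := by
      have : r⁻¹ * x ^ 2 = x ^ 2 * r⁻¹ := by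
        calc r⁻¹ * x ^ 2 = x * (x⁻¹ * r⁻¹ * x⁻¹⁻¹) * x := by rw [pow_two]; group
          _ = _ := by rw [h2, pow_two]; group
      exact (Commute.inv_left_iff.1 this)
    obtain ⟨m, hm⟩ := hodd
    have : x = (x ^ 2) ^ (m + 1) := by
      rw [← pow_mul, show 2 * (m + 1) = orderOf x + 1 by omega, pow_succ, pow_orderOf_eq_one,
        one_mul]
    rw [this]
    exact h4.pow_right _
  set Q := (pCore 2 (centralizer ({v} : Set G))).map (centralizer ({v} : Set G)).subtype
  have hQn : centralizer ({v} : Set G) ≤ normalizer (Q : Set G) :=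
    le_normalizer.trans (normalizer_le_normalizer_map_pCore _)
  have h2 : x ∈ centralizer (Q : Set G) := by
    refine CfsgLib.PLocal.Constr.a_times_b (isPGroup_two_zpowers he) (isPGroup_map_pCore _)
      (zpowers_le.2 (hQn heH)) (Nat.coprime_two_right.2 hodd) (hQn hxH)
      (by rw [centralizer_zpowers]; exact theta_le 2 e hx) fun u hu hue => ?_
    rw [centralizer_zpowers] at hue
    have h3 : u * x * u⁻¹ * x⁻¹ ∈ centralizerPPrimeCore 2 e :=
      mul_mem (conj_mem_of_mem_normalizer (le_normalizer_theta 2 e hue) hx) (inv_mem hx)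
    have h4 : u * x * u⁻¹ * x⁻¹ ∈ Q := by
      have := Q.mul_mem hu (conj_mem_of_mem_normalizer (hQn hxH) (Q.inv_mem hu))
      simpa [mul_assoc] using this
    have h5 := odd_of_mem h3
    obtain ⟨k, hk⟩ := (isPGroup_iff_mem.1 (isPGroup_map_pCore (p := 2) _)) _ h4
    have h6 : orderOf (u * x * u⁻¹ * x⁻¹) = 1 := Nat.eq_one_of_dvd_coprimes
      (Nat.Coprime.pow_right k (Nat.coprime_two_right.2 h5)) dvd_rfl
      (orderOf_dvd_of_pow_eq_one hk)
    rw [orderOf_eq_one_iff, mul_inv_eq_one, mul_inv_eq_iff_eq_mul] at h6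
    exact h6
  have h3 : (⟨x, hxH⟩ : centralizer ({v} : Set G)) ∈ fittingSubgroup (centralizer ({v} : Set G)) := by
    refine CfsgLib.Comp.centralizer_fit_le_iff.2 hl ?_
    refine centralizer_le (fittingSubgroup_le_pCore_sup_pPrimeCore Nat.prime_two) ?_
    have : pCore 2 (centralizer ({v} : Set G)) ⊔ pPrimeCore 2 (centralizer ({v} : Set G)) ≤
        centralizer {(⟨x, hxH⟩ : centralizer ({v} : Set G))} :=
      sup_le (fun y hy => mem_centralizer_singleton_iff.2 (Subtype.ext (h2 y ⟨y, hy, rfl⟩)))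
        (fun y hy => mem_centralizer_singleton_iff.2 (Subtype.ext (h1 y ⟨y, hy, rfl⟩)))
    exact fun y hy => mem_centralizer_singleton_iff.1 (this hy)
  refine ⟨⟨x, hxH⟩, le_pPrimeCore_of_le_fittingSubgroup (zpowers_le.2 h3) ?_ (mem_zpowers _), rfl⟩
  rw [Nat.card_zpowers, orderOf_mk]
  exact Nat.coprime_two_right.2 hodd

/-- Let X be a finite group and Y an elementary abelian 2-subgroup of X of order at least 8 such that C_X(x) has no components (E(C_X(x)) = 1) for every nontrivial x ∈ Y, and F*(C_X(z)) = O₂(C_X(z)) for some nontrivial z ∈ Y. Then the subgroup generated by the cores O(C_X(y)), y ∈ Y nontrivial, has odd order and is normalized by N_X(Y). -/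
theorem result {X : Type*} [Group X] [Finite X] (Y : Subgroup X) (hY : Cfsg.IsElementaryAbelian 2 Y) (h8 : 8 ≤ Nat.card ↥Y) (hE : ∀ x ∈ Y, x ≠ 1 → Cfsg.layer ↥(Subgroup.centralizer ({x} : Set X)) = ⊥) (hz : ∃ z ∈ Y, z ≠ 1 ∧ Cfsg.generalizedFittingSubgroup ↥(Subgroup.centralizer ({z} : Set X)) = Cfsg.pCore 2 ↥(Subgroup.centralizer ({z} : Set X))) : Odd (Nat.card ↥(⨆ y : {y : X // y ∈ Y ∧ y ≠ 1}, (Cfsg.oddCore ↥(Subgroup.centralizer ({(y : X)} : Set X))).map (Subgroup.centralizer ({(y : X)} : Set X)).subtype)) ∧ Subgroup.normalizer (Y : Set X) ≤ Subgroup.normalizer ((⨆ y : {y : X // y ∈ Y ∧ y ≠ 1}, (Cfsg.oddCore ↥(Subgroup.centralizer ({(y : X)} : Set X))).map (Subgroup.centralizer ({(y : X)} : Set X)).subtype : Subgroup X) : Set X) := by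
  obtain ⟨z, hzY, -, hz⟩ := hz
  rw [CfsgLib.Comp.fstar_eq_pCore_iff] at hz
  have hinv : ∀ v ∈ Y, ∀ k ∈ centralizerPPrimeCore 2 v, z * k * z⁻¹ = k⁻¹ := fun v hv k hk =>
    z_inverts (E_sq hY hzY) (E_sq hY hv) (E_comm hY hv hzY) hz hk
  have hY1 : Y ≠ ⊥ := by
    rintro rfl
    simp at h8
  have := hY.1
  have hY2 : IsPGroup 2 Y := isElementaryAbelian_isPGroup hY
  have hcomm : ∀ e ∈ Y, ∀ f ∈ Y, ∀ a ∈ centralizerPPrimeCore 2 e,
      ∀ b ∈ centralizerPPrimeCore 2 f, a * b = b * a := by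
    intro e he f hf a ha b hb
    have key : centralizerPPrimeCore 2 e ≤ centralizer {b} := by
      refine CfsgLib.Coprime.le_of_forall_hyperplane Nat.prime_two hY.2 hY1 (E_le_normalizer hY he)
        (coprime_of_two_odd hY2 (odd_theta e)) fun V hVE hV x hx => ?_
      have key2 : centralizerPPrimeCore 2 f ≤ centralizer {x} := by
        refine CfsgLib.Coprime.le_of_forall_hyperplane Nat.prime_two hY.2 hY1
          (E_le_normalizer hY hf) (coprime_of_two_odd hY2 (odd_theta f)) fun W _ hW y hy => ?_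
        obtain ⟨v, hvV, hvW, hv1⟩ := exists_mem_inf_hyper (by omega) hV hW
        have hvE := hVE hvV
        have h1 := balance' (E_sq hY he) (E_comm hY he hvE) (hE v hvE hv1) (hinv v hvE) hx.1
          (hx.2 v hvV).symm (hinv e he x hx.1)
        have h2 := balance' (E_sq hY hf) (E_comm hY hf hvE) (hE v hvE hv1) (hinv v hvE) hy.1
          (hy.2 v hvW).symm (hinv f hf y hy.1)
        exact mem_centralizer_singleton_iff.2 (comm_of_inverts (hinv v hvE) h2 h1)
      exact mem_centralizer_singleton_iff.2 (mem_centralizer_singleton_iff.1 (key2 hb)).symm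
    exact mem_centralizer_singleton_iff.1 (key ha)
  change Odd (Nat.card ↥(⨆ y : {y : X // y ∈ Y ∧ y ≠ 1}, centralizerPPrimeCore 2 (y : X))) ∧
    _ ≤ normalizer ((⨆ y : {y : X // y ∈ Y ∧ y ≠ 1}, centralizerPPrimeCore 2 (y : X) :
      Subgroup X) : Set X)
  set W := ⨆ y : {y : X // y ∈ Y ∧ y ≠ 1}, centralizerPPrimeCore 2 (y : X) with hWdef
  have hc : ∀ f : {y : X // y ∈ Y ∧ y ≠ 1}, ∀ a ∈ centralizerPPrimeCore 2 (f : X),
      W ≤ centralizer {a} := fun f a ha =>
    iSup_le fun f' b hb => mem_centralizer_singleton_iff.2 (hcomm _ f'.2.1 _ f.2.1 b hb a ha)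
  have hW : ∀ w ∈ W, W ≤ centralizer {w} := fun w hw =>
    iSup_le fun f a ha => mem_centralizer_singleton_iff.2
      (mem_centralizer_singleton_iff.1 (hc f a ha hw)).symm
  have hodd : ∀ w ∈ W, Odd (orderOf w) := by
    intro w hw
    refine iSup_induction' (C := fun w _ => Odd (orderOf w)) _ (fun f a ha => odd_of_mem ha)
      (by simp) (fun a b ha hb h1 h2 => ?_) hw
    have hab : Commute a b := mem_centralizer_singleton_iff.1 (hW b hb ha)
    exact (h1.mul h2).of_dvd_nat hab.orderOf_mul_dvd_mul_orderOf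
  refine ⟨odd_card_iff_no_involution.2 fun x hx h2 => ?_,
    fun s hs => mem_normalizer_of_cj_le ?_⟩
  · have := hodd x hx
    rw [h2] at this
    exact absurd this (by decide)
  · rw [cj, Subgroup.map_iSup]
    refine iSup_le fun f => ?_
    have := cj_theta 2 s (f : X)
    unfold cj at this
    rw [this]
    exact le_iSup (fun f : {y : X // y ∈ Y ∧ y ≠ 1} => centralizerPPrimeCore 2 (f : X))
      ⟨_, conj_mem_of_mem_normalizer hs f.2.1, by simpa using f.2.2⟩

end Cfsg.Agent.S2924
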