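import Cfsg.Statements.S2925
import Mathlib
import Cfsg.Agent.Lib.Comp.Component
import Cfsg.Agent.Lib.SolvStruct.Subnormal

set_option autoImplicit false
open Cfsg

namespace Cfsg.Agent.S2925

open scoped Pointwise

/-- Let K be a component of the finite group X and T a Sylow 2-subgroup of X. If some abelian normal subgroup Y of T does not normalize K, then K ⧸ Z(K) has abelian Sylow 2-subgroups. -/
theorem result {X : Type*} [Group X] [Finite X] (K : Subgroup X) (hK : Cfsg.IsComponent K) (T : Sylow 2 X) (Y : Subgroup X) (hYT : Y ≤ (T : Subgroup X)) (hYn : (Y.subgroupOf (T : Subgroup X)).Normal) (hYab : IsMulCommutative ↥Y) (hnot : ¬ Y ≤ Subgroup.normalizer (K : Set X)) (P : Sylow 2 (↥K ⧸ Subgroup.center ↥K)) : IsMulCommutative ↥(P : Subgroup (↥K ⧸ Subgroup.center ↥K)) := by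
  classical
  haveI : Fact (Nat.Prime 2) := ⟨Nat.prime_two⟩
  obtain ⟨y, hyY, hyK⟩ : ∃ y ∈ Y, y ∉ Subgroup.normalizer (K : Set X) := by
    by_contra h
    push Not at h
    exact hnot h
  set K' := MulAut.conj y • K with hK'
  have hK'c : Cfsg.IsComponent K' := CfsgLib.Comp.comp_smul hK _
  have hne : K' ≠ K := fun h => hyK (CfsgLib.SolvStruct.mem_normalizer_iff_conj_smul_eq.2 h)
  have hcent : K' ≤ Subgroup.centralizer (K : Set X) := CfsgLib.Comp.comp_le_centralizer_of_ne hK'c hK hne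
  have hc : ∀ k ∈ K, ∀ l ∈ K, Commute k (y * l * y⁻¹) := fun k hk l hl =>
    Subgroup.mem_centralizer_iff.1 (hcent (CfsgLib.SolvStruct.conj_mem_conj_smul y hl)) k hk
  have hYT' : (T : Subgroup X) ≤ Subgroup.normalizer (Y : Set X) :=
    (Subgroup.normal_subgroupOf_iff_le_normalizer hYT).1 hYn
  have hu : ∀ a ∈ (T : Subgroup X), a⁻¹ * (y * a * y⁻¹) ∈ Y := by
    intro a ha
    have h1 : a⁻¹ * y * a⁻¹⁻¹ ∈ Y := (Subgroup.mem_normalizer_iff.1 (hYT' (T.1.inv_mem ha)) y).1 hyY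
    have h2 := Y.mul_mem h1 (Y.inv_mem hyY)
    simpa [mul_assoc] using h2
  have key : ∀ a ∈ (T : Subgroup X), a ∈ K → ∀ b ∈ (T : Subgroup X), b ∈ K →
      a * b * a⁻¹ * b⁻¹ ∈ Subgroup.centralizer (K : Set X) := by
    intro a haT haK b hbT hbK
    have huv : (a⁻¹ * (y * a * y⁻¹)) * (b⁻¹ * (y * b * y⁻¹)) = (b⁻¹ * (y * b * y⁻¹)) * (a⁻¹ * (y * a * y⁻¹)) := by
      have := hYab.is_comm.comm (⟨_, hu a haT⟩ : Y) ⟨_, hu b hbT⟩
      exact congrArg Subtype.val this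
    set a' := y * a * y⁻¹
    set b' := y * b * y⁻¹
    have h1 : a' * b⁻¹ = b⁻¹ * a' := ((hc b⁻¹ (K.inv_mem hbK) a haK).eq).symm
    have h2 : b' * a⁻¹ = a⁻¹ * b' := ((hc a⁻¹ (K.inv_mem haK) b hbK).eq).symm
    have h3 : a⁻¹ * b⁻¹ * a' * b' = b⁻¹ * a⁻¹ * b' * a' := by
      calc a⁻¹ * b⁻¹ * a' * b' = a⁻¹ * (b⁻¹ * a') * b' := by group
        _ = a⁻¹ * (a' * b⁻¹) * b' := by rw [h1]
        _ = (a⁻¹ * a') * (b⁻¹ * b') := by group
        _ = (b⁻¹ * b') * (a⁻¹ * a') := huv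
        _ = b⁻¹ * (b' * a⁻¹) * a' := by group
        _ = b⁻¹ * (a⁻¹ * b') * a' := by rw [h2]
        _ = _ := by group
    have h4 : a * b * a⁻¹ * b⁻¹ = b' * a' * b'⁻¹ * a'⁻¹ := by
      calc a * b * a⁻¹ * b⁻¹ = a * b * (a⁻¹ * b⁻¹ * a' * b') * b'⁻¹ * a'⁻¹ := by group
        _ = a * b * (b⁻¹ * a⁻¹ * b' * a') * b'⁻¹ * a'⁻¹ := by rw [h3]
        _ = _ := by group
    have ha' : a' ∈ K' := CfsgLib.SolvStruct.conj_mem_conj_smul y haK
    have hb' : b' ∈ K' := CfsgLib.SolvStruct.conj_mem_conj_smul y hbK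
    rw [h4]
    exact hcent (K'.mul_mem (K'.mul_mem (K'.mul_mem hb' ha') (K'.inv_mem hb')) (K'.inv_mem ha'))
  obtain ⟨Q, hQ⟩ := CfsgLib.SolvStruct.exists_sylow_eq_subgroupOf_of_isSubnormal hK.1 T
  let f := QuotientGroup.mk' (Subgroup.center K)
  have hf : Function.Surjective f := QuotientGroup.mk'_surjective _
  let Q' := Q.mapSurjective hf
  have hQ'c : ∀ u ∈ (Q' : Subgroup (K ⧸ Subgroup.center K)), ∀ v ∈ (Q' : Subgroup (K ⧸ Subgroup.center K)), u * v = v * u := by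
    intro u hu v hv
    obtain ⟨a, ha, rfl⟩ := hu
    obtain ⟨b, hb, rfl⟩ := hv
    have ha2 : (a : X) ∈ (T : Subgroup X) := by
      have : a ∈ (Q : Subgroup K) := ha
      rw [hQ] at this; exact this
    have hb2 : (b : X) ∈ (T : Subgroup X) := by
      have : b ∈ (Q : Subgroup K) := hb
      rw [hQ] at this; exact this
    have hz := key a ha2 a.2 b hb2 b.2
    have hz' : a * b * a⁻¹ * b⁻¹ ∈ Subgroup.center K := by
      rw [Subgroup.mem_center_iff]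
      intro g
      exact Subtype.ext (Subgroup.mem_centralizer_iff.1 hz g g.2)
    have h1 : f (a * b * a⁻¹ * b⁻¹) = 1 := (QuotientGroup.eq_one_iff _).2 hz'
    simp only [map_mul, map_inv] at h1
    calc f a * f b = (f a * f b * (f a)⁻¹ * (f b)⁻¹) * (f b * f a) := by group
      _ = _ := by rw [h1, one_mul]
  obtain ⟨g, rfl⟩ := MulAction.exists_smul_eq (K ⧸ Subgroup.center K) Q' P
  refine ⟨⟨fun u v => Subtype.ext ?_⟩⟩
  obtain ⟨u, hu⟩ := u
  obtain ⟨v, hv⟩ := v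
  rw [Sylow.coe_subgroup_smul, CfsgLib.SolvStruct.mem_conj_smul_iff] at hu hv
  have := hQ'c _ hu _ hv
  show u * v = v * u
  calc u * v = g * ((g⁻¹ * u * g) * (g⁻¹ * v * g)) * g⁻¹ := by group
    _ = g * ((g⁻¹ * v * g) * (g⁻¹ * u * g)) * g⁻¹ := by rw [this]
    _ = _ := by group

end Cfsg.Agent.S2925
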