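import Cfsg.Statements.S2928
import Cfsg.Agent.Lib.AltSyl.Two

set_option autoImplicit false
open Cfsg

namespace Cfsg.Agent.S2928

open CfsgLib.AltSyl CfsgLib.LAE CfsgLib.NatSyl

/-- Let n ≥ 8 and let H be a subgroup of the symmetric group of degree n whose generalized Fitting subgroup F*(H) is quasisimple. If H contains a Sylow 2-subgroup of the alternating group of degree n, then F*(H) is isomorphic to an alternating group of degree m for some m ∈ {n − 3, n − 2, n − 1, n}. -/
theorem result (n : ℕ) (hn : 8 ≤ n) (H : Subgroup (Equiv.Perm (Fin n))) (hF : Cfsg.IsQuasisimple ↥(Cfsg.generalizedFittingSubgroup ↥H)) (hS : ∃ P : Sylow 2 ↥(alternatingGroup (Fin n)), ((P : Subgroup ↥(alternatingGroup (Fin n))).map (alternatingGroup (Fin n)).subtype) ≤ H) : ∃ m : ℕ, (m = n - 3 ∨ m = n - 2 ∨ m = n - 1 ∨ m = n) ∧ Nonempty (↥(Cfsg.generalizedFittingSubgroup ↥H) ≃* ↥(alternatingGroup (Fin m))) := by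
  obtain ⟨P, hP⟩ := hS
  obtain ⟨τ, h1, h2⟩ := exists_tau (isSylowIn_map_subtype P)
    (Subgroup.normalizer_eq_top_iff.2 inferInstance).ge
  obtain ⟨D, e, hD⟩ := (QS.of hF).two ⟨h1, h2.trans hP⟩ (by simpa using hn)
  have h3 := Finset.card_le_univ D
  rw [Fintype.card_fin] at h3 hD
  exact ⟨D.card, by omega, ⟨(Subgroup.equivMapOfInjective _ _ H.subtype_injective).trans
    ((MulEquiv.subgroupCongr e).trans (altOnEquiv D rfl))⟩⟩

end Cfsg.Agent.S2928
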