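import Cfsg.Statements.S2929
import Cfsg.Agent.Lib.AltSyl.Three

set_option autoImplicit false
open Cfsg

namespace Cfsg.Agent.S2929

open CfsgLib.AltSyl CfsgLib.LAE CfsgLib.NatSyl

/-- Let n ≥ 5 and let H be a subgroup of the symmetric group of degree n whose generalized Fitting subgroup F*(H) is quasisimple. If H contains a Sylow 3-subgroup of the symmetric group, then F*(H) is isomorphic to an alternating group of degree m for some m ∈ {n − 2, n − 1, n}. -/
theorem result (n : ℕ) (hn : 5 ≤ n) (H : Subgroup (Equiv.Perm (Fin n))) (hF : Cfsg.IsQuasisimple ↥(Cfsg.generalizedFittingSubgroup ↥H)) (hS : ∃ P : Sylow 3 (Equiv.Perm (Fin n)), (P : Subgroup (Equiv.Perm (Fin n))) ≤ H) : ∃ m : ℕ, (m = n - 2 ∨ m = n - 1 ∨ m = n) ∧ Nonempty (↥(Cfsg.generalizedFittingSubgroup ↥H) ≃* ↥(alternatingGroup (Fin m))) := by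
  obtain ⟨P, hP⟩ := hS
  obtain ⟨U, hU, cov⟩ := exists_cover le_top (isSylowIn_top P)
  rw [Fintype.card_fin] at hU
  obtain ⟨u, hu⟩ : U.Nonempty := by rw [← Finset.card_pos]; omega
  obtain ⟨T, hT, -⟩ := cov u hu
  obtain ⟨D, e, -, hD⟩ := (QS.of hF).main (hT.mono hP)
  have h1 : U ⊆ D := fun x hx => by
    obtain ⟨T, hT, hxT⟩ := cov x hx
    exact hD T (hT.mono hP) hxT
  have h2 := Finset.card_le_card h1
  have h3 := Finset.card_le_univ D
  rw [Fintype.card_fin] at h3
  exact ⟨D.card, by omega, ⟨(Subgroup.equivMapOfInjective _ _ H.subtype_injective).trans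
    ((MulEquiv.subgroupCongr e).trans (altOnEquiv D rfl))⟩⟩

end Cfsg.Agent.S2929
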