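import Cfsg.Statements.S2930
import Cfsg.Agent.Lib.AltSyl.Three

set_option autoImplicit false
open Cfsg

namespace Cfsg.Agent.S2930

open CfsgLib.AltSyl CfsgLib.LAE CfsgLib.NatSyl CfsgLib.AltAut CfsgLib.Comp Equiv Subgroup

theorem sq_six (α : MulAut (alternatingGroup (Fin 6))) (a : alternatingGroup (Fin 6))
    (ha : (a : Perm (Fin 6)).IsThreeCycle) : ((α * α) a : Perm (Fin 6)).IsThreeCycle := by
  let c : alternatingGroup (Fin 6) := ⟨swap 0 1 * swap 1 2, by simp⟩
  have hc : orderOf c = 3 := orderOf_eq_prime (by decide) (by decide)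
  have k : ∀ a : alternatingGroup (Fin 6), orderOf a = 3 → (a : Perm (Fin 6)).cycleType = {3} ∨
      (a : Perm (Fin 6)).cycleType = Multiset.replicate 2 3 :=
    fun a ha => cycleType_of_orderOf_three (by rwa [orderOf_coe])
  have h1 : orderOf (α c) = 3 := (α.orderOf_eq c).trans hc
  have h0 : (c : Perm (Fin 6)).cycleType = {3} := by decide
  rcases k _ h1 with e | e
  · have := isThreeCycle_map_six α hc (e.trans h0.symm)
    exact this _ (this a ha)
  rcases k _ ((α.orderOf_eq _).trans h1) with e' | e'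
  · exact isThreeCycle_map_six (α * α) hc (e'.trans h0.symm) a ha
  · have := isThreeCycle_map_six α h1 (e'.trans e.symm)
    exact this _ (this a ha)

theorem mem_of_odd {X : Type*} [Group X] {N : Subgroup X} [N.Normal] {n : ℕ} (hn : 5 ≤ n)
    (e : N ≃* alternatingGroup (Fin n)) (hC : centralizer (N : Set X) = ⊥) {s : X} {m : ℕ}
    (hm : Odd m) (hs : s ^ m = 1) : s ∈ N := by
  have h4 : 4 ≤ Nat.card (Fin n) := by simp; omega
  obtain ⟨π, hπ⟩ := exists_perm_of_threeCycles h4 (indAut e s) (by
    by_cases h6 : n = 6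
    · subst h6
      obtain ⟨k, rfl⟩ := hm
      have : s = s ^ (k + 1) * s ^ (k + 1) := by
        rw [← pow_add, show k + 1 + (k + 1) = 2 * k + 1 + 1 by ring, pow_succ, hs, one_mul]
      rw [this, map_mul]
      exact sq_six _
    · exact isThreeCycle_map_of_ne_six (by simpa using h6) _)
  have h1 : π ^ m = 1 := conjNormal_injective h4 (by
    rw [map_pow, hπ, ← map_pow, hs, map_one, map_one])
  obtain ⟨x, hx⟩ := e.surjective ⟨π, sign_of_odd hm h1⟩
  have : indAut e x = indAut e s := by rw [indAut_coe, hx, hπ]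
  exact indAut_injective e hC this ▸ x.2

/-- Let X be a finite 3-minimal group (a Sylow 3-subgroup is not normal and lies in a unique maximal subgroup) whose generalized Fitting subgroup is isomorphic to an alternating group of degree n ≥ 5. Then X = F*(X), and n = 6, n = 9, or n = 3ᵃ + 1 for some a ≥ 2. -/
theorem result {X : Type*} [Group X] [Finite X] (hX : Cfsg.IsPMinimal 3 X) (n : ℕ) (hn : 5 ≤ n) (hF : Nonempty (↥(Cfsg.generalizedFittingSubgroup X) ≃* ↥(alternatingGroup (Fin n)))) : Cfsg.generalizedFittingSubgroup X = ⊤ ∧ (n = 6 ∨ n = 9 ∨ ∃ a : ℕ, 2 ≤ a ∧ n = 3 ^ a + 1) := by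
  obtain ⟨e⟩ := hF
  have := fstar_normal (G := X)
  have hs := alternatingGroup.isSimpleGroup (α := Fin n) (by simpa using hn)
  have hC : centralizer (Cfsg.generalizedFittingSubgroup X : Set X) = ⊥ := by
    rw [eq_bot_iff]
    intro x hx
    have h1 : (⟨x, centralizer_fstar_le hx⟩ : Cfsg.generalizedFittingSubgroup X) ∈ center _ :=
      mem_center_iff.2 fun g => Subtype.ext (hx g g.2)
    have h2 := map_center_of_mulEquiv e ▸ mem_map_of_mem e.toMonoidHom h1
    rw [alternatingGroup.center_eq_bot (by simp; omega), mem_bot] at h2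
    exact congrArg Subtype.val ((map_eq_one_iff e e.injective).1 h2)
  obtain ⟨S⟩ : Nonempty (Sylow 3 X) := inferInstance
  obtain ⟨hS, M, ⟨hM, hSM⟩, hu⟩ := hX S
  have key : ∀ Y : Subgroup X, (S : Subgroup X) ≤ Y → Y ≠ ⊤ → Y ≤ M := fun Y h1 h2 => by
    obtain ⟨Z, hZ, h3⟩ := (eq_top_or_exists_le_coatom Y).resolve_left h2
    exact hu Z ⟨hZ, h1.trans h3⟩ ▸ h3
  have hle : (S : Subgroup X) ≤ Cfsg.generalizedFittingSubgroup X := fun s hs => by
    obtain ⟨k, hk⟩ := isPGroup_iff_forall_mem.1 S.isPGroup' s hs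
    exact mem_of_odd hn e hC (Odd.pow (by decide)) hk
  have htop : Cfsg.generalizedFittingSubgroup X = ⊤ := by
    by_contra h
    apply hM.1
    rw [eq_top_iff, ← S.normalizer_sup_eq_top' hle]
    exact sup_le (key _ le_normalizer fun h => hS (normalizer_eq_top_iff.1 h)) (key _ hle h)
  refine ⟨htop, ?_⟩
  let e' : X ≃* alternatingGroup (Fin n) :=
    (topEquiv.symm.trans (MulEquiv.subgroupCongr htop.symm)).trans e
  let φ : X →* Perm (Fin n) := (alternatingGroup (Fin n)).subtype.comp e'.toMonoidHom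
  have hφ : Function.Injective φ := (alternatingGroup (Fin n)).subtype_injective.comp e'.injective
  have hr : (⊤ : Subgroup X).map φ = alternatingGroup (Fin n) := by
    rw [← map_map, map_top_of_surjective _ e'.surjective, ← MonoidHom.range_eq_map, range_subtype]
  have := (Uq.mk (P := (S : Subgroup X).map φ) (M := M.map φ) (hr ▸ (isSylowIn_top S).map φ)
    (fun h => hM.1 (top_le_iff.1 ((map_le_map_iff_of_injective hφ).1 (hr.le.trans h))))
    (fun Y h1 h2 h3 => by
      have h4 : (Y.comap φ).map φ = Y := map_comap_eq_self (by rwa [MonoidHom.range_eq_map, hr])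
      rw [← h4]
      exact map_mono (key _ (map_le_iff_le_comap.1 h1) fun h => h3 (by rw [← h4, h, hr])))).main
    (by simpa using hn)
  simpa using this

end Cfsg.Agent.S2930
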