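import Cfsg.Statements.S2932
import Cfsg.Agent.Lib.NatSyl.Main

set_option autoImplicit false
open Cfsg

namespace Cfsg.Agent.S2932

open Subgroup CfsgLib CfsgLib.LAE CfsgLib.NatSyl CfsgLib.Push

/-- Let p be a prime. Inside a finite ambient group let V be an elementary abelian p-subgroup and G a subgroup normalizing V and acting faithfully on it (G ∩ C(V) = 1), and let L ≤ G act on V as SL₂(F) on its natural module, F a finite field of characteristic p, with L ≅ SL₂(F). If every Sylow p-subgroup of N_G(L) is a Sylow p-subgroup of G, then either L is normal in G, or F has 4 elements and G is isomorphic to the alternating group of degree 7. -/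
theorem result {X : Type*} [Group X] [Finite X] {p : ℕ} [Fact p.Prime] (F : Type) [Field F] [Fintype F] [CharP F p] (V G L : Subgroup X) (hV : Cfsg.IsElementaryAbelian p V) (hGV : G ≤ Subgroup.normalizer (V : Set X)) (hfaith : G ⊓ Subgroup.centralizer (V : Set X) = ⊥) (hLG : L ≤ G) (hnat : Cfsg.IsNaturalSL2Module F V L) (hLiso : Nonempty (↥L ≃* Matrix.SpecialLinearGroup (Fin 2) F)) (hSyl : ∀ S : Sylow p ↥(G ⊓ Subgroup.normalizer (L : Set X)), ∀ P : Sylow p ↥G, Nat.card S = Nat.card P) : (L.subgroupOf G).Normal ∨ (Fintype.card F = 4 ∧ Nonempty (↥G ≃* ↥(alternatingGroup (Fin 7)))) := by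
  obtain ⟨-, ρ, ψ, hρ, hker, hact⟩ := hnat
  let c : G →* MulAut V := V.normalizerMonoidHom.comp (inclusion hGV)
  let : DistribMulAction G (Fin 2 → F) :=
    { smul := fun g w => ψ (Additive.ofMul (c g (ψ.symm w).toMul))
      one_smul := fun w => by
        show ψ (Additive.ofMul (c 1 (ψ.symm w).toMul)) = w
        simp
      mul_smul := fun a b w => by
        show ψ (Additive.ofMul (c (a * b) (ψ.symm w).toMul)) = ψ (Additive.ofMul (c a
          (ψ.symm (ψ (Additive.ofMul (c b (ψ.symm w).toMul)))).toMul))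
        simp
      smul_zero := fun a => by
        show ψ (Additive.ofMul (c a (ψ.symm 0).toMul)) = 0
        simp
      smul_add := fun a v w => by
        show ψ (Additive.ofMul (c a (ψ.symm (v + w)).toMul)) =
          ψ (Additive.ofMul (c a (ψ.symm v).toMul)) + ψ (Additive.ofMul (c a (ψ.symm w).toMul))
        simp }
  have sm : ∀ (g : G) (v : V), g • ψ (Additive.ofMul v) = ψ (Additive.ofMul (c g v)) := fun g v => by
    show ψ (Additive.ofMul (c g (ψ.symm (ψ (Additive.ofMul v))).toMul)) = _
    simp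
  have cv : ∀ (g : G) (v : V), (c g v : X) = g * v * (g : X)⁻¹ := fun g v => rfl
  have hinj : Function.Injective ρ := by
    rw [← MonoidHom.ker_eq_bot_iff, hker, eq_bot_iff]
    exact fun l hl => Subtype.ext (hfaith.le ⟨hLG l.2, hl⟩)
  let e := MulEquiv.ofBijective ρ ⟨hinj, hρ⟩
  let ι := (inclusion hLG).comp e.symm.toMonoidHom
  have hr : ι.range = L.subgroupOf G := by
    ext g
    exact ⟨fun ⟨l, h⟩ => h ▸ (e.symm l).2, fun h => ⟨e ⟨g, h⟩, by simp [ι]; rfl⟩⟩
  obtain ⟨S, hS, hT⟩ := exists_isSylowIn_ge (isPGroup_upU.map ι : IsPGroup p _)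
    ((map_le_range ι _).trans le_normalizer)
  obtain ⟨P⟩ : Nonempty (Sylow p G) := inferInstance
  have h1 := hS.map G.subtype
  rw [hr, ← subgroupOf_normalizer_eq hLG, subgroupOf_map_subtype, inf_comm] at h1
  have h2 := hSyl h1.toSylow P
  have h3 : Nat.card h1.toSylow = Nat.card S :=
    (Nat.card_congr (subgroupOfEquivOfLe h1.le).toEquiv).trans (card_map_of_injective
      G.subtype_injective)
  have h : Su p ι S := by
    refine ⟨fun g hg => Subtype.ext (hfaith.le ⟨g.2, mem_centralizer_iff.2 fun v hv => ?_⟩),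
      fun l w => ?_, isSylowIn_of_card_eq (isSylowIn_top P) le_top hS.isPGroup (h2.symm.trans h3).le,
      hS.le, fun b => hT (mem_map_of_mem ι (uu_mem b))⟩
    · have h4 := hg (ψ (Additive.ofMul ⟨v, hv⟩))
      rw [sm, ψ.apply_eq_iff_eq] at h4
      have h5 := (cv g ⟨v, hv⟩).symm.trans (congrArg Subtype.val (Additive.ofMul.injective h4))
      exact (mul_inv_eq_iff_eq_mul.1 h5).symm
    · obtain ⟨v, rfl⟩ := (ψ.surjective.comp Additive.ofMul.surjective) w
      obtain ⟨u, h4, h5⟩ := hact (e.symm l) v
      rw [Function.comp_apply, sm, show c (ι l) v = u from Subtype.ext h4.symm, h5, act_def,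
        show ρ (e.symm l) = l from e.apply_symm_apply l]
  exact hr ▸ h.main

end Cfsg.Agent.S2932
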