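import Cfsg.Statements.S2939
import Cfsg.Agent.Lib.SylCtl.Basic

set_option autoImplicit false
open Cfsg CfsgLib.LAE CfsgLib.SylCtl

namespace Cfsg.Agent.S2939

/-- Let p be a prime dividing the order of the finite group G and 𝓕 a family of subgroups of G closed under conjugation, with conjugates taken as X^g = g⁻¹Xg. Then 𝓕 controls Sylow p-intersections in G (any two distinct Sylow p-subgroups S and T with S ∩ T ≠ 1 are joined by a chain S = S₀, S₁, …, Sₙ = T of Sylow p-subgroups where, for each i, some member Xᵢ of 𝓕 meets both S_{i-1} and Sᵢ in Sylow p-subgroups of Xᵢ, satisfies S ∩ T ≤ Sᵢ ∩ Xᵢ, and contains an element xᵢ with Sᵢ^{xᵢ} = S_{i-1}) if and only if 𝓕 strongly controls p-fusion in G (whenever A is a subset of a Sylow p-subgroup S, A contains an element other than 1, and A^g ⊆ S, the element g factorises as g = y₁⋯yₙy with y ∈ N_G(S) and each yᵢ in a member Yᵢ of 𝓕 that meets S in a Sylow p-subgroup of Yᵢ, with A^{y₁⋯yᵢ} ⊆ S ∩ Yᵢ for each i). -/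
theorem result {G : Type*} [Group G] [Finite G] {p : ℕ} [Fact p.Prime] (hdiv : p ∣ Nat.card G) (𝓕 : Set (Subgroup G)) (h𝓕 : Cfsg.IsNormalSet 𝓕) : Cfsg.ControlsSylowIntersections p 𝓕 ↔ Cfsg.FamilyStronglyControlsFusion p 𝓕 := by
  have hsub : ∀ (g : G) (A : Set G) (K : Subgroup G),
      conjRight g A ⊆ (K : Set G) ↔ A ⊆ (conjS g K : Set G) := by
    intro g A K
    constructor
    · intro h a ha
      exact mem_conjS.mpr (h ⟨a, ha, rfl⟩)
    · rintro h _ ⟨a, ha, rfl⟩
      exact mem_conjS.mp (h ha)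
  constructor
  · intro hc S A g hA hA1 hg
    obtain ⟨T, hT⟩ := ((isSylowIn_top S).conj_of_mem (Subgroup.mem_top g)).exists_sylow_top
    by_cases hST : S = T
    · refine ⟨0, Fin.elim0, Fin.elim0, g, ?_, fun i => i.elim0, by simp, fun i => i.elim0⟩
      rw [mem_normalizer_iff_conjS, ← hT, hST]
    have hAD : A ⊆ ((S : Subgroup G) ⊓ (T : Subgroup G) : Subgroup G) := by
      intro a ha
      refine Subgroup.mem_inf.mpr ⟨hA ha, ?_⟩
      rw [hT]; exact (hsub g A S).mp hg ha
    obtain ⟨n, c, X, x, h0, hl, hs⟩ := hc S T hST (by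
      obtain ⟨a, ha, ha1⟩ := hA1
      intro e
      have := hAD ha
      rw [e] at this
      exact ha1 this)
    let u : Fin (n + 1) → G := Fin.induction 1 (fun i v => x i * v)
    have hu0 : u 0 = 1 := by simp [u]
    have hus : ∀ i : Fin n, u i.succ = x i * u i.castSucc := fun i => by simp [u]
    have hcu : ∀ i : Fin (n + 1), (c i : Subgroup G) = conjS (u i) S := by
      intro i
      induction i using Fin.induction with
      | zero => rw [hu0, conjS_one, h0]
      | succ i ih =>
        rw [hus, conjS_mul, ← ih, ← (hs i).2.2.2.1, subgroupConjRight_eq, conjS_conjS_inv]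
    have hpp : Fin.partialProd (fun i : Fin n => (u i.castSucc)⁻¹ * u i.succ) = u := by
      have := Fin.partialProd_left_inv u
      rwa [hu0, one_smul] at this
    refine ⟨n, fun i => conjS (u i.castSucc)⁻¹ (X i), fun i => (u i.castSucc)⁻¹ * u i.succ,
      (u (Fin.last n))⁻¹ * g, ?_, fun i => ⟨?_, ?_⟩, ?_, fun i => ?_⟩
    · rw [mem_normalizer_iff_conjS, conjS_mul, ← hT, ← hl, hcu, conjS_inv_conjS]
    · have := conjS_mem_sylowMembers h𝓕 (hs i).1 (u i.castSucc)⁻¹
      rwa [hcu, conjS_inv_conjS] at this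
    · beta_reduce
      rw [mem_conjS, hus]
      convert (hs i).2.2.1 using 1; group
    · have := congrFun hpp (Fin.last n)
      rw [Fin.partialProd, Fin.val_last, List.take_of_length_le (by simp)] at this
      rw [this]; group
    · have := congrFun hpp i.succ
      rw [Fin.partialProd, Fin.val_succ] at this
      rw [this]
      have h1 : A ⊆ (conjS (u i.succ) ((S : Subgroup G) ⊓ conjS (u i.castSucc)⁻¹ (X i)) :
          Subgroup G) := by
        rw [conjS_inf, ← hcu, hus, conjS_mul, conjS_conjS_inv, conjS_eq_of_mem (hs i).2.2.1]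
        exact hAD.trans (hs i).2.2.2.2
      exact (hsub _ _ _).mpr h1
  · intro hc
    rw [controls_iff]
    intro S T hS hT hne
    obtain ⟨g, -, rfl⟩ := hS.exists_conj hT
    obtain ⟨S, rfl⟩ := hS.exists_sylow_top
    obtain ⟨n, Y, y, y₀, hy₀, hY, hg, hs⟩ := hc S
      (((S : Subgroup G) ⊓ conjS g S : Subgroup G) : Set G) g (fun a ha => (Subgroup.mem_inf.mp ha).1)
      (by
        obtain ⟨⟨a, ha⟩, ha1⟩ := Subgroup.ne_bot_iff_exists_ne_one.mp hne
        exact ⟨a, ha, fun e => ha1 (Subtype.ext e)⟩)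
      ((hsub _ _ (S : Subgroup G)).mpr fun a ha => (Subgroup.mem_inf.mp ha).2)
    refine (exists_chain_iff _ _ _).mp ⟨n, fun i => conjS (Fin.partialProd y i) S, ?_, ?_,
      fun i => ?_⟩
    · simp [conjS_one]
    · beta_reduce
      rw [hg, conjS_mul, mem_normalizer_iff_conjS.mp hy₀, Fin.partialProd, Fin.val_last,
        List.take_of_length_le (by simp)]
    · have h1 := conjS_mem_sylowMembers h𝓕 (hY i).1 (Fin.partialProd y i.castSucc)
      have h2 := conjS_mem_sylowMembers h𝓕 (hY i).1 (Fin.partialProd y i.succ)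
      have e : conjS (Fin.partialProd y i.succ) (Y i) =
          conjS (Fin.partialProd y i.castSucc) (Y i) := by
        rw [Fin.partialProd_succ, conjS_mul, conjS_eq_of_mem (hY i).2]
      rw [e] at h2
      rw [mem_sylowMembers] at h1 h2
      refine ⟨(isSylowIn_top S).conj_of_mem (Subgroup.mem_top _),
        (isSylowIn_top S).conj_of_mem (Subgroup.mem_top _), _, h1.1, h1.2, h2.2,
        ⟨_, conj_mem_conjS.mpr (hY i).2, ?_⟩, ?_⟩
      · beta_reduce
        rw [← conjS_mul, Fin.partialProd_succ]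
        congr 1; group
      · beta_reduce
        rw [← e, ← conjS_inf]
        exact (hsub _ _ ((S : Subgroup G) ⊓ Y i)).mp (hs i)

end Cfsg.Agent.S2939
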