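import Cfsg.Statements.S2955
import Cfsg.Agent.Lib.SylCtl.Basic

set_option autoImplicit false
open Cfsg CfsgLib.LAE CfsgLib.SylCtl

namespace Cfsg.Agent.S2955

/-- Let p be a prime dividing the order of the finite group G and 𝓕 a conjugation-closed family of subgroups that controls Sylow p-intersections in G. Suppose the Sylow p-subgroups of G are chain-connected: any two of them are joined by a chain of Sylow p-subgroups, consecutive ones distinct with nontrivial intersection, all containing the intersection of the two ends (equivalently, the graph on the Sylow p-subgroups whose edges are the distinct pairs meeting nontrivially is connected). Then for every Sylow p-subgroup S, G is generated by N_G(S) together with the members of 𝓕 that meet S in a Sylow p-subgroup of themselves. -/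
theorem result {G : Type*} [Group G] [Finite G] (p : ℕ) [Fact p.Prime] (hdiv : p ∣ Nat.card G)
    (𝓕 : Set (Subgroup G)) (h𝓕 : Cfsg.IsNormalSet 𝓕) (hc : Cfsg.ControlsSylowIntersections p 𝓕)
    (hconn : Cfsg.IsSylowChainConnected p G) (S : Sylow p G) :
    (⨆ X ∈ Cfsg.sylowMembers p 𝓕 (S : Subgroup G), X) ⊔ Subgroup.normalizer ((S : Subgroup G) : Set G) = ⊤ := by
  set H := (⨆ X ∈ Cfsg.sylowMembers p 𝓕 (S : Subgroup G), X) ⊔
    Subgroup.normalizer ((S : Subgroup G) : Set G) with hH
  have hc' := (controls_iff _).mp hc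
  have hstep : ∀ D A B : Subgroup G, Step p 𝓕 ⊤ D A B → (∃ h ∈ H, conjS h S = A) →
      ∃ h ∈ H, conjS h S = B := by
    rintro D A B ⟨-, -, X, hX, h1, -, ⟨x, hx, rfl⟩, -⟩ ⟨h, hh, rfl⟩
    have h2 := conjS_mem_sylowMembers h𝓕 (mem_sylowMembers.mpr ⟨hX, h1⟩) h⁻¹
    rw [conjS_inv_conjS] at h2
    have h3 : conjS h⁻¹ X ≤ H :=
      (le_iSup₂_of_le (f := fun X (_ : X ∈ Cfsg.sylowMembers p 𝓕 (S : Subgroup G)) => X)
        _ h2 le_rfl).trans le_sup_left
    have h4 := h3 (conj_mem_conjS.mpr hx)
    refine ⟨x * h, ?_, conjS_mul _ _ _⟩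
    have := H.mul_mem hh h4
    convert this using 1; group
  have hconn' : ∀ D A B : Subgroup G, Conn p 𝓕 ⊤ D A B → (∃ h ∈ H, conjS h S = A) →
      ∃ h ∈ H, conjS h S = B := by
    intro D A B hAB hA
    induction hAB with
    | refl => exact hA
    | tail _ hbc ih => exact hstep _ _ _ hbc ih
  have hall : ∀ T : Sylow p G, ∃ h ∈ H, conjS h S = T := by
    intro T
    obtain ⟨n, c, h0, hl, -, hs⟩ := hconn S T
    have : ∀ i : Fin (n + 1), ∃ h ∈ H, conjS h S = c i := by
      intro i
      induction i using Fin.induction with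
      | zero => exact ⟨1, H.one_mem, by rw [conjS_one, h0]⟩
      | succ i ih => exact hconn' _ _ _ (hc' _ _ (isSylowIn_top _) (isSylowIn_top _) (hs i).2) ih
    rw [← hl]; exact this _
  rw [eq_top_iff]
  intro g _
  obtain ⟨T, hT⟩ := ((isSylowIn_top S).conj_of_mem (Subgroup.mem_top g)).exists_sylow_top
  obtain ⟨h, hh, e⟩ := hall T
  have h1 : h⁻¹ * g ∈ Subgroup.normalizer ((S : Subgroup G) : Set G) := by
    rw [mem_normalizer_iff_conjS, conjS_mul, ← hT, ← e, conjS_inv_conjS]
  have := H.mul_mem hh ((le_sup_right : _ ≤ H) h1)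
  simpa using this

end Cfsg.Agent.S2955
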