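import Cfsg.Statements.S2958
import Cfsg.Agent.Lib.SylCtl.Basic

set_option autoImplicit false
open Cfsg CfsgLib.LAE CfsgLib.SylCtl

namespace Cfsg.Agent.S2958

/-- Let X, A, B be subgroups of a group G such that G is generated by the conjugates of X and every conjugate of X is contained in A or in B. Then A = G or B = G. -/
theorem result {G : Type*} [Group G] (X A B : Subgroup G) (hgen : (⨆ g : G, X.map (MulAut.conj g).toMonoidHom) = ⊤) (hcover : ∀ g : G, X.map (MulAut.conj g).toMonoidHom ≤ A ∨ X.map (MulAut.conj g).toMonoidHom ≤ B) : A = ⊤ ∨ B = ⊤ := by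
  by_cases hA : A = ⊤
  · exact Or.inl hA
  right
  set B₀ : Subgroup G := ⨆ g : {g : G // ¬ conjS g X ≤ A}, conjS g X with hB₀
  have hB₀B : B₀ ≤ B := iSup_le fun g => (hcover g).resolve_left g.2
  have hAn : A ≤ Subgroup.normalizer (B₀ : Set G) := by
    have key : ∀ a ∈ A, conjS a B₀ ≤ B₀ := by
      intro a ha
      rw [hB₀, conjS_iSup]
      refine iSup_le fun g => ?_
      rw [← conjS_mul]
      refine le_iSup_of_le ⟨a * g, fun h => g.2 ?_⟩ le_rfl
      rw [conjS_mul, conjS_le_iff, conjS_eq_of_mem (A.inv_mem ha)] at h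
      exact h
    intro a ha
    rw [mem_normalizer_iff_conjS]
    exact le_antisymm (key a ha) (le_conjS_iff.mpr (key _ (A.inv_mem ha)))
  have htop : Subgroup.normalizer (B₀ : Set G) = ⊤ := by
    rw [eq_top_iff, ← hgen]
    refine iSup_le fun g => ?_
    by_cases h : conjS g X ≤ A
    · exact h.trans hAn
    · exact (le_iSup_of_le (f := fun g : {g : G // ¬ conjS g X ≤ A} => conjS (g : G) X) ⟨g, h⟩
        le_rfl).trans Subgroup.le_normalizer
  obtain ⟨g₀, hg₀⟩ : ∃ g : G, ¬ conjS g X ≤ A := by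
    by_contra hne
    push Not at hne
    exact hA (eq_top_iff.mpr (hgen ▸ iSup_le hne))
  rw [eq_top_iff, ← hgen]
  refine iSup_le fun g => le_trans ?_ hB₀B
  have h1 : conjS g₀ X ≤ B₀ :=
    le_iSup_of_le (f := fun g : {g : G // ¬ conjS g X ≤ A} => conjS (g : G) X) ⟨g₀, hg₀⟩ le_rfl
  have h2 := conjS_mono (g := g * g₀⁻¹) h1
  have h3 : g * g₀⁻¹ ∈ Subgroup.normalizer (B₀ : Set G) := htop ▸ Subgroup.mem_top _
  rw [← conjS_mul, inv_mul_cancel_right, mem_normalizer_iff_conjS.mp h3] at h2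
  exact h2

end Cfsg.Agent.S2958
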