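import Cfsg.Statements.S2962
import Mathlib
import Cfsg.Agent.Lib.ZStarApp.Basic
import Cfsg.Agent.Lib.Coprime.Action
import Cfsg.Agent.Lib.Core.Fitting
import Cfsg.Agent.Lib.FT.OddOrder

set_option autoImplicit false
open Cfsg Subgroup CfsgLib

namespace Cfsg.Agent.S2962

theorem comm_of_hom {G : Type*} [Group G] {Q : Subgroup G} {x : G}
    (h : ∀ a ∈ Q, ∀ b ∈ Q, a * b * x * (a * b)⁻¹ = b * a * x * (b * a)⁻¹) :
    ⁅Q, Q⁆ ≤ centralizer ({x} : Set G) := by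
  rw [commutator_le]
  intro a ha b hb
  rw [mem_centralizer_singleton_iff, commutatorElement_def]
  have h1 := h a⁻¹ (inv_mem ha) b⁻¹ (inv_mem hb)
  calc a * b * a⁻¹ * b⁻¹ * x
      = a * b * (a⁻¹ * b⁻¹ * x * (a⁻¹ * b⁻¹)⁻¹) * (a⁻¹ * b⁻¹) := by group
    _ = a * b * (b⁻¹ * a⁻¹ * x * (b⁻¹ * a⁻¹)⁻¹) * (a⁻¹ * b⁻¹) := by rw [h1]
    _ = x * (a * b * a⁻¹ * b⁻¹) := by group

theorem exists_sq_mem {G : Type*} [Group G] {B : Subgroup G} {y : G} (hy : y ∉ B) {k : ℕ}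
    (hk : y ^ 2 ^ k = 1) : ∃ j : ℕ, y ^ j ∉ B ∧ y ^ j * y ^ j ∈ B := by
  induction k generalizing y with
  | zero => simp at hk; exact absurd (hk ▸ B.one_mem) hy
  | succ k ih =>
    by_cases h : y * y ∈ B
    · exact ⟨1, by simpa using hy, by simpa using h⟩
    · obtain ⟨j, h1, h2⟩ := ih h (by rw [← pow_two, ← pow_mul, ← pow_succ', hk])
      exact ⟨2 * j, by rwa [pow_mul, pow_two], by rwa [pow_mul, pow_two]⟩

theorem key {G : Type*} [Group G] [Finite G] {N Q : Subgroup G} [hN : N.Normal] (hdisj : Q ⊓ N = ⊥)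
    {t : G} (htQ : t ∈ ⁅Q, Q⁆) (hC : N ⊓ centralizer ({t} : Set G) ≤ centralizer (Q : Set G))
    {S : Subgroup G} (hS : IsPGroup 2 S) (hQS : Q ≤ S) : S ⊓ N ≤ centralizer (Q : Set G) := by
  by_contra hne
  set P := S ⊓ N with hP
  set P₀ := P ⊓ centralizer (Q : Set G) with hP₀
  have hQP₀ : Q ≤ normalizer (P₀ : Set G) := fun q hq => Core.mem_normalizer_of_forall_conj_mem
    fun x hx => by
      have : q * x = x * q := mem_centralizer_iff.1 hx.2 q hq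
      rw [this, mul_inv_cancel_right]; exact hx
  have hQP : Q ≤ normalizer (P : Set G) := fun q hq => Core.mem_normalizer_of_forall_conj_mem
    fun x hx => mem_inf.2 ⟨mul_mem (mul_mem (hQS hq) hx.1) (inv_mem (hQS hq)), hN.conj_mem _ hx.2 _⟩
  have hBN : ∀ b ∈ Q ⊔ P₀, b ∈ N → b ∈ P₀ := fun b hb hbN => by
    obtain ⟨q, hq, m, hm, rfl⟩ := (Core.mem_sup_of_le_normalizer_right hQP₀).1 hb
    have : q ∈ Q ⊓ N := mem_inf.2 ⟨hq, (N.mul_mem_cancel_right hm.1.2).1 hbN⟩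
    rw [hdisj, mem_bot] at this
    rw [this, one_mul]; exact hm
  have hlt : Q ⊔ P₀ < Q ⊔ P := by
    refine lt_of_le_of_ne (sup_le_sup_left inf_le_left _) fun h => hne fun x hx => ?_
    exact (hBN x (h ▸ mem_sup_right hx) hx.2).2
  have hS' : IsPGroup 2 ↥(Q ⊔ P) := hS.to_le (sup_le hQS inf_le_left)
  obtain ⟨y₀, hy₀, hy₀B⟩ := SetLike.exists_of_lt (Core.lt_inf_normalizer_of_isPGroup hS' hlt)
  obtain ⟨k, hk⟩ := Core.isPGroup_subgroup_iff.1 hS' y₀ hy₀.1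
  obtain ⟨j, hyB, hyy⟩ := exists_sq_mem hy₀B hk
  have hy := pow_mem hy₀ j
  set y := y₀ ^ j
  obtain ⟨q₀, hq₀, x, hx, hqx⟩ := (Core.mem_sup_of_le_normalizer_right hQP).1 hy.1
  have hxn : x ∈ normalizer ((Q ⊔ P₀ : Subgroup G) : Set G) := by
    have : x = q₀⁻¹ * y := by rw [← hqx]; group
    rw [this]
    exact mul_mem (inv_mem (le_normalizer (mem_sup_left hq₀))) hy.2
  have hxB : x ∉ Q ⊔ P₀ := fun h => hyB (hqx ▸ mul_mem (mem_sup_left hq₀) h)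
  have hconj : ∀ q ∈ Q, x⁻¹ * q * x ∈ Q ⊔ P₀ := fun q hq => by
    have := (mem_normalizer_iff.1 (inv_mem hxn) q).1 (mem_sup_left hq)
    simpa using this
  have hxx : x * x ∈ P₀ := by
    refine hBN _ ?_ (mul_mem hx.2 hx.2)
    have h1 : x * x = (x * q₀⁻¹ * x⁻¹) * (q₀⁻¹ * (y * y)) := by
      rw [← hqx]
      have : q₀⁻¹ * (q₀ * x * (q₀ * x)) = x * q₀ * x := by group
      rw [this]; group
    rw [h1]
    refine mul_mem ?_ (mul_mem (inv_mem (mem_sup_left hq₀)) hyy)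
    exact (mem_normalizer_iff.1 hxn _).1 (inv_mem (mem_sup_left hq₀))
  have hφ : ∀ q ∈ Q, x⁻¹ * (q * x * q⁻¹) ∈ P₀ := fun q hq => by
    refine hBN _ ?_ (mul_mem (inv_mem hx.2) (hN.conj_mem _ hx.2 _))
    have : x⁻¹ * (q * x * q⁻¹) = (x⁻¹ * q * x) * q⁻¹ := by group
    rw [this]
    exact mul_mem (hconj q hq) (inv_mem (mem_sup_left hq))
  have hmul : ∀ a ∈ Q, ∀ b ∈ Q, a * b * x * (a * b)⁻¹ =
      x * (x⁻¹ * (a * x * a⁻¹)) * (x⁻¹ * (b * x * b⁻¹)) := fun a ha b hb => by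
    have h1 : a * (x⁻¹ * (b * x * b⁻¹)) = (x⁻¹ * (b * x * b⁻¹)) * a :=
      mem_centralizer_iff.1 (hφ b hb).2 a ha
    calc a * b * x * (a * b)⁻¹ = a * x * a⁻¹ * (a * (x⁻¹ * (b * x * b⁻¹))) * a⁻¹ := by group
      _ = _ := by rw [h1]; group
  have hinv : ∀ q ∈ Q, x * (x⁻¹ * (q * x * q⁻¹)) * x⁻¹ = (x⁻¹ * (q * x * q⁻¹))⁻¹ := fun q hq => by
    have h1 : q * (x * x) = (x * x) * q := mem_centralizer_iff.1 hxx.2 q hq
    calc x * (x⁻¹ * (q * x * q⁻¹)) * x⁻¹ = q * x⁻¹ * q⁻¹ * (q * (x * x)) * q⁻¹ * x⁻¹ := by group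
      _ = _ := by rw [h1]; group
  have ht : t ∈ centralizer ({x} : Set G) := by
    refine comm_of_hom (fun a ha b hb => ?_) htQ
    rw [hmul a ha b hb, hmul b hb a ha]
    have h1 := hinv _ (mul_mem ha hb)
    rw [hmul a ha b hb] at h1
    have h2 := hinv a ha
    have h3 := hinv b hb
    generalize x⁻¹ * (a * x * a⁻¹) = u at h1 h2 ⊢
    generalize x⁻¹ * (b * x * b⁻¹) = v at h1 h3 ⊢
    have h4 : u⁻¹ * v⁻¹ = v⁻¹ * u⁻¹ := by
      calc u⁻¹ * v⁻¹ = x * (x⁻¹ * (x * u * v)) * x⁻¹ := by rw [← h2, ← h3]; group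
        _ = _ := by rw [h1]; group
    have h5 : u * v = v * u := by
      have := congrArg (·⁻¹) h4
      simpa using this.symm
    rw [mul_assoc, h5, mul_assoc]
  refine hxB (mem_sup_right ⟨hx, hC (mem_inf.2 ⟨hx.2, ?_⟩)⟩)
  rw [mem_centralizer_singleton_iff] at ht ⊢
  exact ht.symm


/-- Let G be a finite group with G = QN, where N is a normal subgroup of G and Q is a non-abelian 2-subgroup with Q ∩ N = 1. Suppose that some nontrivial element t of Z(Q) ∩ [Q, Q] satisfies C_N(Q) = C_N(t). Then [N, Q] is solvable of odd order. -/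
theorem result {G : Type*} [Group G] [Finite G] (N Q : Subgroup G) [N.Normal] (hG : Q ⊔ N = ⊤) (hQ : IsPGroup 2 ↥Q) (hQna : ¬ IsMulCommutative ↥Q) (hdisj : Q ⊓ N = ⊥) (t : G) (ht1 : t ≠ 1) (htZ : t ∈ Q ⊓ Subgroup.centralizer (Q : Set G)) (htQ : t ∈ ⁅Q, Q⁆) (hC : N ⊓ Subgroup.centralizer (Q : Set G) = N ⊓ Subgroup.centralizer ({t} : Set G)) : Group.IsSolvable ↥⁅N, Q⁆ ∧ Odd (Nat.card ↥⁅N, Q⁆) := by
  classical
    have hN : N.Normal := inferInstance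
  have hC' : N ⊓ centralizer ({t} : Set G) ≤ centralizer (Q : Set G) := hC ▸ inf_le_right
  obtain ⟨S, hQS⟩ := hQ.exists_le_sylow
  have hdec : ∀ g : G, ∃ n ∈ N, ∃ q ∈ Q, n * q = g := fun g =>
    (Core.mem_sup_of_le_normalizer_left (N := N) (H := Q) le_normalizer_of_normal).1
      (by rw [sup_comm, hG]; trivial)
  have htc : ∀ q ∈ Q, q * t = t * q := fun q hq => mem_centralizer_iff.1 htZ.2 q hq
  have hw : ∀ g : G, g * t * g⁻¹ ∈ (S : Subgroup G) → g * t * g⁻¹ = t := fun g hg => by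
    obtain ⟨n, hn, q, hq, rfl⟩ := hdec g
    have e1 : n * q * t * (n * q)⁻¹ = n * t * n⁻¹ := by
      calc n * q * t * (n * q)⁻¹ = n * (q * t) * q⁻¹ * n⁻¹ := by group
        _ = _ := by rw [htc q hq]; group
    rw [e1] at hg ⊢
    have hs : n * t * n⁻¹ * t⁻¹ ∈ centralizer (Q : Set G) := by
      refine key hdisj htQ hC' S.isPGroup' hQS (mem_inf.2 ⟨mul_mem hg (inv_mem (hQS htZ.1)), ?_⟩)
      have : n * t * n⁻¹ * t⁻¹ = n * (t * n⁻¹ * t⁻¹) := by group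
      rw [this]
      exact mul_mem hn (hN.conj_mem _ (inv_mem hn) _)
    have hs' : n * t * n⁻¹ ∈ centralizer (Q : Set G) := by
      simpa using mul_mem hs htZ.2
    have hψN : ∀ a : G, n⁻¹ * a * n * a⁻¹ ∈ N := fun a => by
      have : n⁻¹ * a * n * a⁻¹ = n⁻¹ * (a * n * a⁻¹) := by group
      rw [this]
      exact mul_mem (inv_mem hn) (hN.conj_mem _ hn _)
    have hψ : ∀ a ∈ Q, n⁻¹ * a * n * a⁻¹ ∈ centralizer (Q : Set G) := fun a ha => by
      refine hC' ⟨hψN a, ?_⟩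
      have h1 : a * (n * t * n⁻¹) = (n * t * n⁻¹) * a := mem_centralizer_iff.1 hs' a ha
      have h2 := htc _ (inv_mem ha)
      change _ ∈ centralizer _
      rw [mem_centralizer_singleton_iff]
      calc n⁻¹ * a * n * a⁻¹ * t = n⁻¹ * a * n * (a⁻¹ * t) := by group
        _ = n⁻¹ * (a * (n * t * n⁻¹)) * n * a⁻¹ := by rw [h2]; group
        _ = _ := by rw [h1]; group
    set Q₁ := Q.map (MulAut.conj n⁻¹).toMonoidHom with hQ₁
    have hQ₁n : Q₁ ≤ normalizer (Q : Set G) := by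
      rintro _ ⟨a, ha, rfl⟩
      have : (MulAut.conj n⁻¹).toMonoidHom a = (n⁻¹ * a * n * a⁻¹) * a := by simp
      rw [this]
      exact mul_mem (centralizer_le_normalizer _ (hψ a ha)) (le_normalizer ha)
    have hS₁ : IsPGroup 2 ↥(Q₁ ⊔ Q) := (hQ.map _).to_sup_of_normal_right' hQ hQ₁n
    have hS₂ := hS₁.map (MulAut.conj n).toMonoidHom
    have hQ₂ : Q ≤ (Q₁ ⊔ Q).map (MulAut.conj n).toMonoidHom := fun a ha =>
      ⟨n⁻¹ * a * n, mem_sup_left ⟨a, ha, by simp⟩, by simp [mul_assoc]⟩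
    have hψ₂ : ∀ a ∈ Q, n * (n⁻¹ * a * n * a⁻¹) * n⁻¹ ∈ centralizer (Q : Set G) := fun a ha =>
      key hdisj htQ hC' hS₂ hQ₂ ⟨⟨n⁻¹ * a * n * a⁻¹,
        mul_mem (mem_sup_left ⟨a, ha, by simp⟩) (inv_mem (mem_sup_right ha)), by simp⟩,
        hN.conj_mem _ (hψN a) _⟩
    have hmul : ∀ a ∈ Q, ∀ b ∈ Q, a * b * n * (a * b)⁻¹ =
        n * (n⁻¹ * a * n * a⁻¹) * (n⁻¹ * b * n * b⁻¹) := fun a ha b hb => by
      have h1 : a * (n⁻¹ * b * n * b⁻¹) = (n⁻¹ * b * n * b⁻¹) * a :=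
        mem_centralizer_iff.1 (hψ b hb) a ha
      calc a * b * n * (a * b)⁻¹ = a * n * (a⁻¹ * (a * (n⁻¹ * b * n * b⁻¹))) * a⁻¹ := by group
        _ = _ := by rw [h1]; group
    have ht : t ∈ centralizer ({n} : Set G) := by
      refine comm_of_hom (fun a ha b hb => ?_) htQ
      rw [hmul a ha b hb, hmul b hb a ha]
      have h1 : b * (n * (n⁻¹ * a * n * a⁻¹) * n⁻¹) = (n * (n⁻¹ * a * n * a⁻¹) * n⁻¹) * b :=
        mem_centralizer_iff.1 (hψ₂ a ha) b hb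
      have h2 : b⁻¹ * (n⁻¹ * a * n * a⁻¹) = (n⁻¹ * a * n * a⁻¹) * b⁻¹ :=
        mem_centralizer_iff.1 (hψ a ha) _ (inv_mem hb)
      generalize n⁻¹ * a * n * a⁻¹ = u at h1 h2 ⊢
      calc n * u * (n⁻¹ * b * n * b⁻¹) = (n * u * n⁻¹) * b * n * b⁻¹ := by group
        _ = b * n * (u * b⁻¹) := by rw [← h1]; group
        _ = _ := by rw [← h2]; group
    rw [mem_centralizer_singleton_iff] at ht
    rw [← ht]; group
  have hO := Core.odd_card_oddCore G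
  have hle : ⁅N, Q⁆ ≤ pPrimeCore 2 G := by
    rw [commutator_le]
    intro x hx q hq
    have h1 : ⁅N, zpowers t⁆ ≤ N ⊓ pPrimeCore 2 G := by
      refine le_inf (commutator_le_left _ _) (commutator_le.2 fun y hy s hs => ?_)
      have := ZStarApp.commutator_mem_of_weaklyClosed S ((zpowers_le.2 (hQS htZ.1)) hs)
        (ZStarApp.weaklyClosed_of_mem_zpowers S (hQS htZ.1) hw hs) y
      simpa [commutatorElement_def, mul_assoc] using inv_mem this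
    have h2 : IsPGroup 2 (zpowers t) := hQ.to_le (zpowers_le.2 htZ.1)
    obtain ⟨u, hu, c, hc, rfl⟩ := Coprime.exists_mul_centralizer_of_commutator_le inf_le_left h1
      (Core.isPGroup_coprime_card h2 ((Nat.coprime_two_right.2 hO).of_dvd_left
        (card_dvd_of_le inf_le_right))) (Or.inl (Coprime.isSolvable_zpowers t)) hx
    rw [Core.centralizer_zpowers] at hc
    have h3 : q * c = c * q := mem_centralizer_iff.1 (hC' hc) q hq
    rw [commutatorElement_def]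
    have h4 : u * c * q * (u * c)⁻¹ * q⁻¹ = u * (q * u⁻¹ * q⁻¹) := by
      calc u * c * q * (u * c)⁻¹ * q⁻¹ = u * (c * q) * c⁻¹ * u⁻¹ * q⁻¹ := by group
        _ = _ := by rw [← h3]; group
    rw [h4]
    have hOn : (pPrimeCore 2 G).Normal := inferInstance
    exact mul_mem hu.2 (hOn.conj_mem _ (inv_mem hu.2) _)
  have hodd : Odd (Nat.card ↥⁅N, Q⁆) := hO.of_dvd_nat (card_dvd_of_le hle)
  exact ⟨FT.odd_subgroup_solvable hodd, hodd⟩

end Cfsg.Agent.S2962
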