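import Cfsg.Statements.S2963
import Mathlib


set_option autoImplicit false
open Cfsg

namespace Cfsg.Agent.S2963

open MulAction Equiv Pointwise in

/-- Let n be odd. If the symmetric group of degree n is a minimal parabolic group for the prime 2, that is, a Sylow 2-subgroup is not normal and lies in exactly one maximal subgroup, then n = 2^m + 1 for some natural number m. -/
theorem result (n : ℕ) (hn : Odd n) (h : Cfsg.IsPMinimal 2 (Equiv.Perm (Fin n))) : ∃ m : ℕ, n = 2 ^ m + 1 := by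
  classical
  have : Fact (Nat.Prime 2) := ⟨Nat.prime_two⟩
  obtain ⟨S⟩ : Nonempty (Sylow 2 (Perm (Fin n))) := inferInstance
  obtain ⟨h1, M, -, hM⟩ := h S
  obtain ⟨x, hx⟩ := IsPGroup.nonempty_fixed_point_of_prime_not_dvd_card S.isPGroup' (Fin n)
    (by rw [Nat.card_fin]; exact hn.not_two_dvd_nat)
  obtain ⟨y, hy⟩ : ∃ y : Fin n, y ∉ fixedPoints S (Fin n) := by
    by_contra hc
    push Not at hc
    refine h1 ?_
    have : (S : Subgroup (Perm (Fin n))) = ⊥ :=
      eq_bot_iff.2 fun g hg => Equiv.ext fun y => hc y ⟨g, hg⟩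
    rw [this]; infer_instance
  obtain ⟨m, hm⟩ := IsPGroup.card_orbit S.isPGroup' y
  have hodd : ∀ s : Set (Fin n), Nat.card (Fin n) ≠ 2 * s.ncard := fun s e => by
    rw [Nat.card_fin] at e
    exact hn.not_two_dvd_nat ⟨_, e⟩
  have hxy : x ∉ orbit S y := by
    rintro ⟨g, hg⟩
    refine hy fun k => ?_
    have : y = x := by rw [← hx g⁻¹, ← hg, inv_smul_smul]
    rw [this]; exact hx k
  have hne : y ≠ x := fun e => hxy (e ▸ mem_orbit_self y)
  have e1 := hM (stabilizer _ ({x} : Set (Fin n))) ⟨Perm.isCoatom_stabilizer (Set.singleton_nonempty x) ⟨y, hne⟩ (hodd _),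
    fun g hg => by rw [stabilizer_singleton]; exact hx ⟨g, hg⟩⟩
  have e2 := hM (stabilizer _ (orbit S y)) ⟨Perm.isCoatom_stabilizer ⟨y, mem_orbit_self y⟩ ⟨x, hxy⟩
    (hodd _), fun g hg => smul_orbit (⟨g, hg⟩ : S) y⟩
  have h3 : (orbit S y)ᶜ = {x} := by
    refine Set.eq_singleton_iff_unique_mem.2 ⟨hxy, fun z hz => ?_⟩
    have h4 : swap x z ∈ stabilizer (Perm (Fin n)) (orbit S y) :=
      Equiv.swap_mem_stabilizer.2 (iff_of_false hxy hz)
    rw [e2, ← e1, stabilizer_singleton] at h4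
    simpa using h4
  have h5 := Set.ncard_add_ncard_compl (orbit S y)
  rw [h3, Set.ncard_singleton, Nat.card_fin] at h5
  exact ⟨m, by rw [← hm]; exact h5.symm⟩

end Cfsg.Agent.S2963
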