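import Cfsg.Statements.S2987
import Cfsg.Agent.Lib.Blocks.Sub2

set_option autoImplicit false
open Cfsg

namespace Cfsg.Agent.S2987

/-- Let G be a finite group of characteristic p (C_G(O_p(G)) ≤ O_p(G)) and E a subnormal subgroup of G which is a B(T)-block for some Sylow p-subgroup T of G. Then E is a normal subgroup of the Baumann subgroup B(G) (generated by the B(T) over all Sylow p-subgroups T), E is a B(T')-block for every Sylow p-subgroup T' of G, and every subgroup F that is a B(T')-block for some Sylow p-subgroup T' satisfies F ≤ E or [F, E] = 1. -/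
theorem result {G : Type*} [Group G] [Finite G] {p : ℕ} [Fact p.Prime] (hG : Subgroup.centralizer (Cfsg.pCore p G : Set G) ≤ Cfsg.pCore p G) (E : Subgroup G) (hE : ∃ T : Sylow p G, Cfsg.IsBaumannBlock p (T : Subgroup G) E) (hEs : E.IsSubnormal) : E ≤ Cfsg.baumannSubgroup p G ∧ Cfsg.baumannSubgroup p G ≤ Subgroup.normalizer (E : Set G) ∧ (∀ T' : Sylow p G, Cfsg.IsBaumannBlock p (T' : Subgroup G) E) ∧ ∀ F : Subgroup G, (∃ T' : Sylow p G, Cfsg.IsBaumannBlock p (T' : Subgroup G) F) → F ≤ E ∨ ⁅F, E⁆ = ⊥ := by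
  have h := CfsgLib.Blocks.ab_of_isBaumannBlock hE
  exact ⟨h.le_baumann, iSup_le fun T => h.bau_le_norm hG hEs (CfsgLib.LAE.isSylowIn_top T),
    fun T => CfsgLib.Blocks.isBaumannBlock_of_blk (h.blk_all hG hEs (CfsgLib.LAE.isSylowIn_top T)),
    fun _ hF => h.le_or_comm hG hEs (CfsgLib.Blocks.ab_of_isBaumannBlock hF)⟩

end Cfsg.Agent.S2987
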