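import Cfsg.Statements.S2989
import Cfsg.Agent.Lib.GN.Star

set_option autoImplicit false
open Cfsg

namespace Cfsg.Agent.S2989

open CfsgLib CfsgLib.GN CfsgLib.LAE Subgroup

/-- Let G be a finite group and S a Sylow p-subgroup of G in the basic pushing-up situation (G ≠ 1, C_G(O_p(G)) ≤ O_p(G), S lies in a unique maximal subgroup of G, and some quotient of G is isomorphic to PSL₂ over a field of order a power of p), and suppose that S centralizes Z(J(S)), where J(S) is generated by the abelian subgroups of S of largest order (that is, J̃(S) = C_S(Z(J(S))) = S). Call a subgroup R of S centrally large if |R|·|Z(R)| is as large as possible among subgroups of S, and let S_Φ be the subgroup generated by the Frattini subgroups Φ(Q) of those minimal centrally large subgroups Q of S whose Ω₁(Z(Q)) has the largest order among minimal centrally large subgroups. Then Z(S) or S_Φ is normal in G; and if S_Φ = 1, the minimal centrally large subgroups of S are exactly the abelian subgroups of S of largest order, and at least one of them is elementary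 abelian. -/
theorem result {G : Type*} [Group G] [Finite G] {p : ℕ} [Fact p.Prime] (S : Subgroup G) (hE : Cfsg.IsPushingUpSituation p S) (hJ : S ≤ Subgroup.centralizer (Cfsg.centerThompsonAOf S : Set G)) : ((S ⊓ Subgroup.centralizer (S : Set G)).Normal ∨ ((Cfsg.frattiniOfMinimalCLJoin p ↥S).map S.subtype).Normal) ∧ (Cfsg.frattiniOfMinimalCLJoin p ↥S = ⊥ → (∀ Q : Subgroup ↥S, Cfsg.IsMinimalCentrallyLarge Q ↔ Q ∈ Cfsg.maxAbelianSubgroups ↥S) ∧ ∃ A ∈ Cfsg.maxAbelianSubgroups ↥S, Cfsg.IsElementaryAbelian p A) := by
  obtain ⟨M, h⟩ := exists_PU hE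
  refine ⟨?_, fun h0 => ?_⟩
  · rw [phiJ_eq]
    by_cases hz : ⊤ ≤ normalizer ((Push.cen S S : Subgroup G) : Set G)
    · exact .inl (normal_of_top_le hz)
    · exact .inr (normal_of_top_le (norm_phiJ h hz))
  · obtain ⟨Q, hQ⟩ := exists_mzIn p S
    have h1 : phi Q = ⊥ := by
      have := phiJ_eq (p := p) S
      rw [h0, Subgroup.map_bot] at this
      exact eq_bot_iff.2 ((le_iSup₂_of_le (f := fun (Q : Subgroup G) (_ : MZIn p S Q) => phi Q) _
        hQ le_rfl).trans this.ge)
    have h2 := PLocal.elemAb_subgroupOf
      ((Core.map_frattini_eq_bot_iff_of_isPGroup (h.pS.to_le hQ.1.1.1)).1 h1) S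
    have h3 := CL.mcl_iff_maxAb_of_comm hQ.1.1.sub h2.1
    exact ⟨h3, _, (h3 _).1 hQ.1.sub, h2⟩

end Cfsg.Agent.S2989
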