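import Cfsg.Statements.S2998
import Cfsg.Agent.Lib.IsolP.Basic
import Cfsg.Agent.Lib.CL.Product

set_option autoImplicit false
open Cfsg CfsgLib.LAE

namespace Cfsg.Agent.S2998

/-- Let G be a finite group, p a prime, P a Sylow p-subgroup of G and x ∈ P an element such that N_G(R) ≤ C_G(x) for every nontrivial subgroup R of P. Then P ≤ C_G(x); every G-conjugate of x lying in P equals x (so g ∈ C_G(x) whenever g x g⁻¹ ∈ P); and for every normal subgroup N of G, the image of x in G ⧸ N has the same property with respect to the image of P: the normalizer of every nontrivial subgroup of the image of P centralizes the image of x. -/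
theorem result {G : Type*} [Group G] [Finite G] {p : ℕ} [Fact p.Prime] (P : Sylow p G) (x : G) (hxP : x ∈ (P : Subgroup G)) (hlc : ∀ R : Subgroup G, R ≤ (P : Subgroup G) → R ≠ ⊥ → Subgroup.normalizer (R : Set G) ≤ Subgroup.centralizer ({x} : Set G)) : (P : Subgroup G) ≤ Subgroup.centralizer ({x} : Set G) ∧ (∀ g : G, g * x * g⁻¹ ∈ (P : Subgroup G) → g * x * g⁻¹ = x) ∧ ∀ (N : Subgroup G) [N.Normal], ∀ R : Subgroup (G ⧸ N), R ≤ (P : Subgroup G).map (QuotientGroup.mk' N) → R ≠ ⊥ → Subgroup.normalizer (R : Set (G ⧸ N)) ≤ Subgroup.centralizer ({(QuotientGroup.mk x : G ⧸ N)} : Set (G ⧸ N)) := by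
  have hPC : (P : Subgroup G) ≤ Subgroup.centralizer ({x} : Set G) := by
    by_cases h : (P : Subgroup G) = ⊥
    · rw [h]; exact bot_le
    · exact Subgroup.le_normalizer.trans (hlc _ le_rfl h)
  refine ⟨hPC, ?_, ?_⟩
  · intro g hg
    by_cases hx1 : x = 1
    · simp [hx1]
    have hP1 : (P : Subgroup G) ≠ ⊥ := fun h => hx1 (by simpa [h] using hxP)
    have hy1 : Subgroup.zpowers (g * x * g⁻¹) ≠ ⊥ := by
      rw [Ne, Subgroup.zpowers_eq_bot]
      intro h
      apply hx1
      calc x = g⁻¹ * (g * x * g⁻¹) * g := by group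
        _ = 1 := by rw [h]; group
    have h1 := hlc _ (Subgroup.zpowers_le.mpr hg) hy1
    have h2 : conjS g (P : Subgroup G) ≤ Subgroup.centralizer ({x} : Set G) := by
      intro y hy
      obtain ⟨z, hz, rfl⟩ := exists_of_mem_conjS hy
      apply h1
      have hz' := CfsgLib.IsolP.mem_centralizer_iff_conj.mp (hPC hz)
      have h3 : g * z * g⁻¹ * (g * x * g⁻¹) * (g * z * g⁻¹)⁻¹ = g * x * g⁻¹ := by
        calc g * z * g⁻¹ * (g * x * g⁻¹) * (g * z * g⁻¹)⁻¹ = g * (z * x * z⁻¹) * g⁻¹ := by group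
          _ = _ := by rw [hz']
      rw [mem_normalizer_iff_conjS, conjS_def, MonoidHom.map_zpowers]
      congr 1
    have hS1 : IsSylowIn p (P : Subgroup G) (Subgroup.centralizer ({x} : Set G)) :=
      isSylowIn_of_le P hPC
    have hS2 : IsSylowIn p (conjS g (P : Subgroup G)) (Subgroup.centralizer ({x} : Set G)) :=
      ((isSylowIn_top P).conj_of_mem (Subgroup.mem_top g)).mono h2 le_top
    obtain ⟨c, hc, he⟩ := hS1.exists_conj hS2
    have h4 : c⁻¹ * g ∈ Subgroup.normalizer ((P : Subgroup G) : Set G) := by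
      rw [mem_normalizer_iff_conjS, conjS_mul, ← he, conjS_inv_conjS]
    have h5 := Subgroup.mul_mem _ hc (hlc _ le_rfl hP1 h4)
    rw [mul_inv_cancel_left] at h5
    exact CfsgLib.IsolP.mem_centralizer_iff_conj.mp h5
  · intro N _ R hR hR1 g' hg'
    obtain ⟨g, rfl⟩ := QuotientGroup.mk'_surjective N g'
    set f := QuotientGroup.mk' N with hf
    have hNR : N ≤ R.comap f := by
      intro n hn
      rw [Subgroup.mem_comap, hf, QuotientGroup.mk'_apply, (QuotientGroup.eq_one_iff n).mpr hn]
      exact R.one_mem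
    have hdec : ∀ r ∈ R.comap f, ∃ n ∈ N, ∃ s ∈ R.comap f ⊓ (P : Subgroup G), r = n * s := by
      intro r hr
      obtain ⟨s, hs, hsr⟩ := hR hr
      have h1 : r * s⁻¹ ∈ N := by
        rw [← QuotientGroup.ker_mk' N, MonoidHom.mem_ker, map_mul, map_inv, ← hf, ← hsr]
        simp
      refine ⟨r * s⁻¹, h1, s, Subgroup.mem_inf.mpr ⟨?_, hs⟩, by group⟩
      rw [Subgroup.mem_comap, hsr]; exact hr
    have hS : IsSylowIn p (R.comap f ⊓ (P : Subgroup G)) (R.comap f) := by
      refine isSylowIn_of_not_dvd_relIndex inf_le_left (P.isPGroup'.to_le inf_le_right) ?_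
      have h1 : R.comap f = (R.comap f ⊓ (P : Subgroup G)) ⊔ N := by
        refine le_antisymm (fun r hr => ?_) (sup_le inf_le_left hNR)
        obtain ⟨n, hn, s, hs, rfl⟩ := hdec r hr
        exact Subgroup.mul_mem _ ((le_sup_right : N ≤ _) hn) ((le_sup_left : _ ≤ _ ⊔ N) hs)
      have h2 := ((isSylowIn_top P).inf_of_normal (N := N) le_top
        Subgroup.le_normalizer_of_normal).not_dvd_relIndex
      have h3 : (R.comap f ⊓ (P : Subgroup G)).relIndex (R.comap f) =
          ((P : Subgroup G) ⊓ N).relIndex N := by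
        have h4 := CfsgLib.CL.card_sup_mul_card_inf_of_le_normalizer
          (H := R.comap f ⊓ (P : Subgroup G)) (K := N) Subgroup.le_normalizer_of_normal
        rw [← h1] at h4
        have h5 : R.comap f ⊓ (P : Subgroup G) ⊓ N = (P : Subgroup G) ⊓ N := by
          rw [inf_assoc]; exact inf_eq_right.mpr (inf_le_right.trans hNR)
        rw [h5] at h4
        have h6 := CfsgLib.Core.card_mul_relIndex_of_le (H := R.comap f ⊓ (P : Subgroup G))
          (K := R.comap f) inf_le_left
        have h7 := CfsgLib.Core.card_mul_relIndex_of_le (H := (P : Subgroup G) ⊓ N) (K := N) inf_le_right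
        have p1 : 0 < Nat.card (R.comap f ⊓ (P : Subgroup G) : Subgroup G) := Nat.card_pos
        have p2 : 0 < Nat.card ((P : Subgroup G) ⊓ N : Subgroup G) := Nat.card_pos
        rw [← h6, ← h7] at h4
        apply Nat.eq_of_mul_eq_mul_left (Nat.mul_pos p1 p2)
        linarith
      rw [h3]; exact h2
    have hgN : g ∈ Subgroup.normalizer ((R.comap f : Subgroup G) : Set G) := by
      rw [Subgroup.mem_normalizer_iff]
      intro y
      rw [Subgroup.mem_comap, Subgroup.mem_comap, map_mul, map_mul, map_inv]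
      exact Subgroup.mem_normalizer_iff.mp hg' _
    obtain ⟨r, hr, y, hy, rfl⟩ := hS.frattini hgN
    have hne : R.comap f ⊓ (P : Subgroup G) ≠ ⊥ := by
      intro h
      apply hR1
      rw [eq_bot_iff]
      intro r' hr'
      obtain ⟨r, rfl⟩ := QuotientGroup.mk'_surjective N r'
      obtain ⟨n, hn, s, hs, rfl⟩ := hdec r hr'
      rw [h, Subgroup.mem_bot] at hs
      rw [hs, mul_one, Subgroup.mem_bot]
      exact (QuotientGroup.eq_one_iff n).mpr hn
    have hmap : ∀ z ∈ Subgroup.centralizer ({x} : Set G),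
        f z ∈ Subgroup.centralizer ({(QuotientGroup.mk x : G ⧸ N)} : Set (G ⧸ N)) := by
      intro z hz
      rw [Subgroup.mem_centralizer_singleton_iff] at hz ⊢
      have := congrArg f hz
      simpa [hf] using this
    obtain ⟨n, hn, s, hs, rfl⟩ := hdec r hr
    rw [map_mul, map_mul]
    refine Subgroup.mul_mem _ (Subgroup.mul_mem _ ?_ (hmap _ (hPC (Subgroup.mem_inf.mp hs).2)))
      (hmap _ (hlc _ inf_le_right hne hy))
    rw [hf, QuotientGroup.mk'_apply, (QuotientGroup.eq_one_iff n).mpr hn]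
    exact Subgroup.one_mem _

end Cfsg.Agent.S2998
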