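import Cfsg.Statements.S3003
import Mathlib
import Cfsg.Agent.Lib.Coprime.Generation
import Cfsg.Agent.Lib.Coprime.Abelian
import Cfsg.Agent.Lib.Core.Frattini

set_option autoImplicit false
open Cfsg

namespace Cfsg.Agent.S3003

open Subgroup in
theorem part1 {G : Type*} [Group G] [Finite G] {p : ℕ} [Fact p.Prime] (Q : Subgroup G) (hQp : IsPGroup p ↥Q) (hlarge : Cfsg.IsLarge Q) (G₁ : Subgroup G) (hQG : Q ≤ G₁) (R : Subgroup G) (hR : (Nat.card ↥R).Coprime p) (hGR : G₁ ≤ Subgroup.normalizer (R : Set G)) (U : Subgroup G)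
    (h : ∃ x ∈ U, x ≠ 1 ∧ ∃ g ∈ G₁, g * x * g⁻¹ ∈ Q ⊓ Subgroup.centralizer (Q : Set G)) :
    R ⊓ Subgroup.centralizer (U : Set G) = ⊥ := by
  obtain ⟨x, hxU, hx1, g, hg, hz⟩ := h
  have hRQ : R ⊓ Q = ⊥ := by
    have h1 : (Nat.card R).Coprime (Nat.card Q) := CfsgLib.Coprime.coprime_card_of_isPGroup hQp hR
    exact (Subgroup.disjoint_of_coprime_natCard h1).eq_bot
  rw [eq_bot_iff]
  rintro r ⟨hrR, hrU⟩
  set z := g * x * g⁻¹ with hzdef
  have hz1 : z ≠ 1 := by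
    intro h
    apply hx1
    have : x = g⁻¹ * z * g := by rw [hzdef]; group
    rw [this, h]; group
  have hr'R : g * r * g⁻¹ ∈ R := (mem_normalizer_iff.1 (hGR hg) r).1 hrR
  have hcomm : x * r = r * x := (mem_centralizer_iff.1 hrU) x hxU
  have hc : z * (g * r * g⁻¹) = (g * r * g⁻¹) * z := by
    rw [hzdef]
    calc g * x * g⁻¹ * (g * r * g⁻¹) = g * (x * r) * g⁻¹ := by group
      _ = g * (r * x) * g⁻¹ := by rw [hcomm]
      _ = _ := by group
  set r' := g * r * g⁻¹ with hr'def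
  have hN : r' ∈ normalizer ((zpowers z : Subgroup G) : Set G) := by
    apply centralizer_le_normalizer
    rw [mem_centralizer_iff]
    rintro _ ⟨n, rfl⟩
    exact (Commute.zpow_left hc n)
  have hNQ : r' ∈ normalizer (Q : Set G) :=
    hlarge.2 (zpowers z) (by rw [zpowers_le]; exact hz.2) (by simpa using hz1) hN
  have hcQ : r' ∈ centralizer (Q : Set G) := by
    rw [mem_centralizer_iff]
    intro q hq
    have h1 : r' * q * r'⁻¹ * q⁻¹ ∈ Q := Q.mul_mem ((mem_normalizer_iff.1 hNQ q).1 hq) (Q.inv_mem hq)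
    have h2 : r' * q * r'⁻¹ * q⁻¹ ∈ R := by
      have : q * r'⁻¹ * q⁻¹ ∈ R := (mem_normalizer_iff.1 (hGR (hQG hq)) _).1 (R.inv_mem hr'R)
      have h3 := R.mul_mem hr'R this
      simpa [mul_assoc] using h3
    have h3 : r' * q * r'⁻¹ * q⁻¹ ∈ R ⊓ Q := ⟨h2, h1⟩
    rw [hRQ, mem_bot] at h3
    calc q * r' = (r' * q * r'⁻¹ * q⁻¹) * (q * r') := by rw [h3, one_mul]
      _ = r' * q := by group
  have h4 : r' ∈ R ⊓ Q := ⟨hr'R, hlarge.1 hcQ⟩
  rw [hRQ, mem_bot] at h4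
  have : r = g⁻¹ * r' * g := by rw [hr'def]; group
  rw [mem_bot, this, h4]; group

/-- Let G be a finite group, p a prime and Q a large p-subgroup of G: C_G(Q) ≤ Q and N_G(U) ≤ N_G(Q) for every nontrivial subgroup U of C_G(Q). Let Q ≤ G₁ ≤ G, let R be a subgroup of order prime to p normalized by G₁, and let U ≤ G₁ be a p-subgroup. If U contains a nontrivial element which is G₁-conjugate to an element of Z(Q), then C_R(U) = 1. In particular, if U is elementary abelian of order at least p² and every maximal subgroup of U contains a nontrivial element G₁-conjugate into Z(Q), then R = 1. -/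
theorem result {G : Type*} [Group G] [Finite G] {p : ℕ} [Fact p.Prime] (Q : Subgroup G) (hQp : IsPGroup p ↥Q) (hlarge : Cfsg.IsLarge Q) (G₁ : Subgroup G) (hQG : Q ≤ G₁) (R : Subgroup G) (hR : (Nat.card ↥R).Coprime p) (hGR : G₁ ≤ Subgroup.normalizer (R : Set G)) (U : Subgroup G) (hUG : U ≤ G₁) (hUp : IsPGroup p ↥U) : ((∃ x ∈ U, x ≠ 1 ∧ ∃ g ∈ G₁, g * x * g⁻¹ ∈ Q ⊓ Subgroup.centralizer (Q : Set G)) → R ⊓ Subgroup.centralizer (U : Set G) = ⊥) ∧ (Cfsg.IsElementaryAbelian p U → p ^ 2 ≤ Nat.card ↥U → (∀ U₀ : Subgroup G, U₀ ≤ U → IsCoatom (U₀.subgroupOf U) → ∃ x ∈ U₀, x ≠ 1 ∧ ∃ g ∈ G₁, g * x * g⁻¹ ∈ Q ⊓ Subgroup.centralizer (Q : Set G)) → R = ⊥) := by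
  refine ⟨part1 Q hQp hlarge G₁ hQG R hR hGR U, ?_⟩
  intro hU hcard hall
  haveI := hU.1
  have hp : p.Prime := Fact.out
  have hU1 : U ≠ ⊥ := by
    rintro rfl
    have : 1 < p ^ 2 := Nat.one_lt_pow (by norm_num) hp.one_lt
    rw [Subgroup.card_bot] at hcard
    omega
  rw [eq_bot_iff]
  refine CfsgLib.Coprime.le_of_forall_hyperplane hp hU.2 hU1 (hUG.trans hGR)
    (CfsgLib.Coprime.coprime_card_of_isPGroup hUp hR).symm ?_
  intro B hB hidx
  have hco : IsCoatom (B.subgroupOf U) :=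
    CfsgLib.Core.isCoatom_of_index_prime (by rw [← Subgroup.relIndex, hidx]; exact hp)
  exact (part1 Q hQp hlarge G₁ hQG R hR hGR B (hall B hB hco)).le

end Cfsg.Agent.S3003
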