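import Cfsg.Statements.S3009
import Cfsg.Agent.Lib.Push.SL2Mod
import Cfsg.Agent.Lib.PLocal.Thompson

set_option autoImplicit false
open Cfsg

namespace Cfsg.Agent.S3009

open Subgroup CfsgLib.LAE CfsgLib.Push

/-- Let p be a prime and let G and V be subgroups of a finite group with V elementary abelian and normalized by G, and G isomorphic to SL₂(F) for a finite field F with pⁿ elements. Suppose G acts irreducibly and nontrivially on V by conjugation (no G-invariant subgroups of V other than 1 and V, and [V, G] ≠ 1), and let S be a Sylow p-subgroup of G and V₀ = C_V(S). If [V, S, S] = 1 or |V| ≤ |V₀|², then G acts on V as SL₂(F) on its natural two-dimensional module; in particular |V| = |F|². -/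
theorem result {X : Type*} [Group X] [Finite X] {p : ℕ} [Fact p.Prime] (G V : Subgroup X) (hV : Cfsg.IsElementaryAbelian p V) (hGV : G ≤ Subgroup.normalizer (V : Set X)) (F : Type) [Field F] [Fintype F] (n : ℕ) (hF : Fintype.card F = p ^ n) (hG : Nonempty (↥G ≃* Matrix.SpecialLinearGroup (Fin 2) F)) (hirr : ∀ U : Subgroup X, U ≤ V → G ≤ Subgroup.normalizer (U : Set X) → U = ⊥ ∨ U = V) (hnt : ⁅V, G⁆ ≠ ⊥) (S : Sylow p ↥G) (hyp : ⁅⁅V, (S : Subgroup ↥G).map G.subtype⁆, (S : Subgroup ↥G).map G.subtype⁆ = ⊥ ∨ Nat.card ↥V ≤ Nat.card ↥(V ⊓ Subgroup.centralizer (((S : Subgroup ↥G).map G.subtype : Subgroup X) : Set X)) ^ 2) : Cfsg.ActsAsSL2OnSection F ⊤ G V ⊥ := by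
  obtain ⟨θ⟩ := hG
  haveI : CharP F p := charP_of_card hF
  have hc : ⁅V, V⁆ ≤ ⊥ := by
    haveI := hV.1
    exact (commutator_eq_bot_iff_le_centralizer.2 (le_centralizer V)).le
  obtain ⟨D, -⟩ := exists_natData_of_hom (CfsgLib.PLocal.elemAb_isPGroup hV) bot_le hc hGV
    le_normalizer_of_normal θ.toMonoidHom θ.surjective
    (by rw [(MonoidHom.ker_eq_bot_iff _).2 θ.injective]; exact IsPGroup.of_bot)
    (fun e he x _ => by
      rw [θ.injective (he.trans (map_one θ).symm)]; simp) (isSylowIn_map_subtype S)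
    (fun Y _ h1 h2 => hirr Y h1 h2) (fun h => hnt (le_bot_iff.1 h))
    (hyp.imp Eq.le fun h => ⟨_, inf_le_left, (commutator_eq_bot_iff_le_centralizer.2
      inf_le_right).le, by simpa using h⟩)
  exact actsAsSL2OnSection_iff.2 ⟨D⟩

end Cfsg.Agent.S3009
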