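import Cfsg.Statements.S3011
import Mathlib
import Cfsg.Agent.S0200
import Cfsg.Agent.Lib.Core.Cores
import Cfsg.Agent.Lib.Core.Basic

set_option autoImplicit false
open Cfsg

namespace Cfsg.Agent.S3011

open Subgroup CfsgLib

theorem eq_one_of_odd {G : Type*} [Group G] {x : G} (hx : Odd (orderOf x)) (h : x * x = 1) : x = 1 := by
  have h2 : orderOf x ∣ 2 := orderOf_dvd_of_pow_eq_one (by rw [pow_two, h])
  have h3 : orderOf x = 1 := by
    have := (Nat.dvd_prime Nat.prime_two).1 h2
    rcases this with h | h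
    · exact h
    · rw [h] at hx; exact absurd hx (by decide)
  exact orderOf_eq_one_iff.1 h3

theorem commute_of_sq {G : Type*} [Group G] {x y : G} (hx : Odd (orderOf x)) (h : Commute (x * x) y) :
    Commute x y := by
  obtain ⟨k, hk⟩ := hx
  have h1 : x = ((x * x) ^ (k + 1)) := by
    rw [← pow_two, ← pow_mul, show 2 * (k + 1) = orderOf x + 1 by omega, pow_succ, pow_orderOf_eq_one, one_mul]
  rw [h1]
  exact h.pow_left _

theorem core_contra {G : Type*} [Group G] [Finite G] (V : Subgroup G) (hS : Cfsg.IsSidkiPair V) {a b x y : G}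
    (ha : a ∈ V) (hb : b ∈ V) (hall : ∀ w ∈ V, w ≠ 1 → w = a ∨ w = b ∨ w = a * b)
    (hx1 : x ≠ 1) (hx : Odd (orderOf x)) (hy1 : y ≠ 1) (hy : Odd (orderOf y))
    (hax : a * x * a⁻¹ = x⁻¹) (hbx : b * x * b⁻¹ = x) (hay : a * y * a⁻¹ = y) (hby : b * y * b⁻¹ = y⁻¹) :
    False := by
  have hcx : (a * b) * x * (a * b)⁻¹ = x⁻¹ := by
    calc (a * b) * x * (a * b)⁻¹ = a * (b * x * b⁻¹) * a⁻¹ := by group
      _ = _ := by rw [hbx, hax]
  have hcy : (a * b) * y * (a * b)⁻¹ = y⁻¹ := by
    calc (a * b) * y * (a * b)⁻¹ = a * (b * y * b⁻¹) * a⁻¹ := by group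
      _ = (a * y * a⁻¹)⁻¹ := by rw [hby]; group
      _ = _ := by rw [hay]
  have conj_mul : ∀ g u v : G, g * (u * v) * g⁻¹ = (g * u * g⁻¹) * (g * v * g⁻¹) := fun g u v => by group
  have conj_inv : ∀ g u : G, g * u⁻¹ * g⁻¹ = (g * u * g⁻¹)⁻¹ := fun g u => by group
  have hxy : Commute x y := by
    have ho : Odd (orderOf (x * y * x⁻¹)) := by
      have : orderOf (x * y * x⁻¹) = orderOf y := by
        have := (MulAut.conj x).orderOf_eq y
        simpa using this
      rw [this]; exact hy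
    obtain ⟨w, hw, hw1, hc⟩ := hS (x * y * x⁻¹) b hb ho (by
      rw [conj_mul, conj_mul, conj_inv, hbx, hby]; group)
    have hc' : w * (x * y * x⁻¹) * w⁻¹ = x * y * x⁻¹ := by rw [hc]; group
    rcases hall w hw hw1 with rfl | rfl | rfl
    · rw [conj_mul, conj_mul, conj_inv, hax, hay] at hc'
      apply commute_of_sq hx
      show x * x * y = y * (x * x)
      calc x * x * y = x * (x * y * x⁻¹) * x := by group
        _ = x * (x⁻¹ * y * x⁻¹⁻¹) * x := by rw [hc']
        _ = _ := by group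
    · rw [conj_mul, conj_mul, conj_inv, hbx, hby] at hc'
      exfalso
      apply hy1
      apply eq_one_of_odd hy
      calc y * y = y * (x⁻¹ * (x * y * x⁻¹) * x) := by group
        _ = y * (x⁻¹ * (x * y⁻¹ * x⁻¹) * x) := by rw [hc']
        _ = 1 := by group
    · rw [conj_mul, conj_mul, conj_inv, hcx, hcy] at hc'
      have h1 : x * x * y * (x * x)⁻¹ = y⁻¹ := by
        calc x * x * y * (x * x)⁻¹ = x * (x * y * x⁻¹) * x⁻¹ := by group
          _ = x * (x⁻¹ * y⁻¹ * x⁻¹⁻¹) * x⁻¹ := by rw [hc']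
          _ = _ := by group
      have hxx : Odd (orderOf (x * x)) := by
        rw [← pow_two]
        exact hx.of_dvd_nat (orderOf_pow_dvd 2)
      apply commute_of_sq hx
      apply commute_of_sq hxx
      show x * x * (x * x) * y = y * (x * x * (x * x))
      calc x * x * (x * x) * y = x * x * (x * x * y * (x * x)⁻¹) * (x * x) := by group
        _ = x * x * y⁻¹ * (x * x) := by rw [h1]
        _ = (x * x * y * (x * x)⁻¹)⁻¹ * (x * x * (x * x)) := by
          generalize x * x = u; group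
        _ = _ := by rw [h1]; group
  have ho : Odd (orderOf (x * y)) := (hx.mul hy).of_dvd_nat hxy.orderOf_mul_dvd_mul_orderOf
  obtain ⟨w, hw, hw1, hc⟩ := hS (x * y) (a * b) (V.mul_mem ha hb) ho (by
      rw [conj_mul, hcx, hcy, hxy.eq]; group)
  have hc' : w * (x * y) * w⁻¹ = x * y := by rw [hc]; group
  rcases hall w hw hw1 with rfl | rfl | rfl
  · rw [conj_mul, hax, hay] at hc'
    apply hx1
    apply eq_one_of_odd hx
    calc x * x = x * (x * y) * y⁻¹ := by group
      _ = x * (x⁻¹ * y) * y⁻¹ := by rw [hc']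
      _ = 1 := by group
  · rw [conj_mul, hbx, hby] at hc'
    apply hy1
    apply eq_one_of_odd hy
    calc y * y = x⁻¹ * (x * y) * y := by group
      _ = x⁻¹ * (x * y⁻¹) * y := by rw [hc']
      _ = 1 := by group
  · rw [conj_mul, hcx, hcy] at hc'
    have h1 : x * y = 1 := by
      apply eq_one_of_odd ho
      calc x * y * (x * y) = (y * x) * (x * y) := by rw [hxy.eq]
        _ = (y * x) * (x⁻¹ * y⁻¹) := by rw [hc']
        _ = 1 := by group
    have h2 : y = x⁻¹ := by rw [eq_inv_iff_mul_eq_one, ← hxy.eq, h1]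
    rw [h2, conj_inv, hax] at hay
    apply hx1
    apply eq_one_of_odd hx
    calc x * x = x * x⁻¹⁻¹ := by group
      _ = x * x⁻¹ := by rw [hay]
      _ = 1 := by group

/-- Let G be a finite group and V a nontrivial elementary abelian 2-subgroup of G of order at most 4 such that, whenever an element of V inverts an element h of G of odd order, some nontrivial element of V commutes with h. Then V meets O₂(G) nontrivially. (The case of order at most 4 has a short argument from the Baer–Suzuki theorem.) -/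
theorem result {G : Type*} [Group G] [Finite G] (V : Subgroup G) (hV : Cfsg.IsElementaryAbelian 2 V) (hV1 : V ≠ ⊥) (hS : Cfsg.IsSidkiPair V) (h4 : Nat.card V ≤ 4) : V ⊓ Cfsg.pCore 2 G ≠ ⊥ := by
  classical
  intro hbot
  haveI : Fact (Nat.Prime 2) := ⟨Nat.prime_two⟩
  have hsq : ∀ v ∈ V, v * v = 1 := fun v hv => by rw [← pow_two]; exact hV.2 v hv
  have hcomm : ∀ u ∈ V, ∀ v ∈ V, u * v = v * u := Core.isMulCommutative_iff_forall.1 hV.1
  have hinv : ∀ v ∈ V, v ≠ 1 → ∃ h : G, ∃ w ∈ V, w ≠ 1 ∧ w ≠ v ∧ h ≠ 1 ∧ Odd (orderOf h) ∧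
      v * h * v⁻¹ = h⁻¹ ∧ w * h * w⁻¹ = h := by
    intro v hv hv1
    obtain ⟨h, hh1, hho, hh⟩ := Cfsg.Agent.S0200.result v
      (orderOf_eq_prime (by rw [pow_two]; exact hsq v hv) hv1) (by
        intro N hN hNp hvN
        apply hv1
        have : v ∈ V ⊓ pCore 2 G := ⟨hv, Core.le_pCore hNp hvN⟩
        rwa [hbot, mem_bot] at this)
    obtain ⟨w, hw, hw1, hc⟩ := hS h v hv hho hh
    have hc' : w * h * w⁻¹ = h := by rw [hc]; group
    refine ⟨h, w, hw, hw1, ?_, hh1, hho, hh, hc'⟩
    rintro rfl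
    apply hh1
    apply eq_one_of_odd hho
    calc h * h = h * (w * h * w⁻¹) := by rw [hc']
      _ = 1 := by rw [hh]; group
  have hall : ∀ a ∈ V, ∀ b ∈ V, a ≠ 1 → b ≠ 1 → b ≠ a → ∀ w ∈ V, w ≠ 1 → w = a ∨ w = b ∨ w = a * b := by
    intro a ha b hb ha1 hb1 hba w hw hw1
    by_contra hcon
    push Not at hcon
    obtain ⟨h1, h2, h3⟩ := hcon
    have hab1 : a * b ≠ 1 := by
      intro h
      apply hba
      calc b = a * (a * b) := by rw [← mul_assoc, hsq a ha, one_mul]
        _ = a := by rw [h, mul_one]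
    have haba : a * b ≠ a := fun h => hb1 (by simpa using h)
    have habb : a * b ≠ b := fun h => ha1 (by simpa using h)
    have hsub : ({w, a * b, b, a, 1} : Finset G) ⊆ (V : Set G).toFinite.toFinset := by
      intro u hu
      simp only [Finset.mem_insert, Finset.mem_singleton] at hu
      rw [Set.Finite.mem_toFinset]
      rcases hu with rfl | rfl | rfl | rfl | rfl
      exacts [hw, V.mul_mem ha hb, hb, ha, V.one_mem]
    have hc := Finset.card_le_card hsub
    rw [Finset.card_insert_of_notMem (by simp [h1, h2, h3, hw1]),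
      Finset.card_insert_of_notMem (by simp [hab1, ha1, hb1]),
      Finset.card_insert_of_notMem (by simp [hba, hb1]),
      Finset.card_insert_of_notMem (by simp [ha1]), Finset.card_singleton,
      ← Set.ncard_eq_toFinset_card _ (V : Set G).toFinite, ← Nat.card_coe_set_eq] at hc
    have : Nat.card (V : Set G) = Nat.card V := rfl
    omega
  obtain ⟨⟨a, ha⟩, ha1⟩ := (Subgroup.ne_bot_iff_exists_ne_one).1 hV1
  have ha1' : a ≠ 1 := fun h => ha1 (Subtype.ext h)
  obtain ⟨x, b, hb, hb1, hba, hx1, hx, hax, hbx⟩ := hinv a ha ha1'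
  obtain ⟨y, c, hc, hc1, hcb, hy1, hy, hby, hcy⟩ := hinv b hb hb1
  have hcx : c * x * c⁻¹ = x⁻¹ := by
    rcases hall a ha b hb ha1' hb1 hba c hc hc1 with rfl | rfl | rfl
    · exact hax
    · exact absurd rfl hcb
    · calc (a * b) * x * (a * b)⁻¹ = a * (b * x * b⁻¹) * a⁻¹ := by group
        _ = _ := by rw [hbx, hax]
  exact core_contra V hS hc hb (hall c hc b hb hc1 hb1 hcb.symm) hx1 hx hy1 hy hcx hbx hcy hby

end Cfsg.Agent.S3011
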