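import Mathlib
import Cfsg.Statements.S3012

set_option autoImplicit false
open Cfsg

namespace Cfsg.Agent.S3012

/-- Let G be a finite group, V a nontrivial elementary abelian 2-subgroup of G satisfying the Sidki pair condition (every odd-order element inverted by an element of V commutes with a nontrivial element of V), and K a normal subgroup of G with V ∩ K = 1. Then the image of V in G/K satisfies the Sidki pair condition in G/K. -/
theorem result {G : Type*} [Group G] [Finite G] (V K : Subgroup G) [K.Normal] (hV : Cfsg.IsElementaryAbelian 2 V) (hV1 : V ≠ ⊥) (hS : Cfsg.IsSidkiPair V) (hVK : V ⊓ K = ⊥) : Cfsg.IsSidkiPair (V.map (QuotientGroup.mk' K)) := by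
  rintro hb _ ⟨v, hv, rfl⟩ hodd hinv
  obtain ⟨h, rfl⟩ := QuotientGroup.mk'_surjective K hb
  set π := QuotientGroup.mk' K
  have hvv : v * v = 1 := by rw [← pow_two]; exact hV.2 v hv
  have hvi : v⁻¹ = v := inv_eq_of_mul_eq_one_right hvv
  set x := h * (v * h⁻¹ * v⁻¹) with hx
  have hxinv : v * x * v⁻¹ = x⁻¹ := by
    rw [hx, hvi]
    calc v * (h * (v * h⁻¹ * v)) * v = v * h * v * h⁻¹ * (v * v) := by group
      _ = (h * (v⁻¹ * h⁻¹ * v⁻¹))⁻¹ := by rw [hvv]; group
      _ = _ := by rw [hvi]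
  have hπx : π x = π h ^ 2 := by
    have : π v * (π h)⁻¹ * (π v)⁻¹ = π h := by
      have h1 := congrArg (·⁻¹) hinv
      simp only [mul_inv_rev, inv_inv] at h1
      rw [mul_assoc]; exact h1
    rw [hx]
    simp only [map_mul, map_inv]
    rw [this, pow_two]
  obtain ⟨k, m, hm, hkm⟩ := Nat.exists_eq_two_pow_mul_odd (orderOf_pos x).ne'
  have hyodd : Odd (orderOf (x ^ 2 ^ k)) := by
    have : orderOf (x ^ 2 ^ k) ∣ m := by
      apply orderOf_dvd_of_pow_eq_one
      rw [← pow_mul, ← hkm, pow_orderOf_eq_one]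
    exact hm.of_dvd_nat this
  have hyinv : v * x ^ 2 ^ k * v⁻¹ = (x ^ 2 ^ k)⁻¹ := by
    rw [← conj_pow, hxinv, inv_pow]
  obtain ⟨w, hw, hw1, hwc⟩ := hS _ v hv hyodd hyinv
  refine ⟨π w, ⟨w, hw, rfl⟩, ?_, ?_⟩
  · intro h1
    have : w ∈ V ⊓ K := ⟨hw, (QuotientGroup.eq_one_iff w).1 h1⟩
    rw [hVK] at this
    exact hw1 (Subgroup.mem_bot.1 this)
  · have h1 : Commute (π w) (π h ^ (2 * 2 ^ k)) := by
      rw [pow_mul, ← hπx, ← map_pow]
      show π w * π _ = π _ * π w
      rw [← map_mul, hwc, map_mul]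
    have h2 : (2 * 2 ^ k).Coprime (orderOf (π h)) := by
      rw [← pow_succ']
      exact Nat.Coprime.pow_left _ ((Nat.coprime_two_left).2 hodd)
    obtain ⟨j, hj⟩ := exists_pow_eq_self_of_coprime h2
    have := h1.pow_right j
    rw [hj] at this
    exact this

end Cfsg.Agent.S3012
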