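import Mathlib
import Cfsg.Statements.S3013

set_option autoImplicit false
open Cfsg

namespace Cfsg.Agent.S3013

/-- Let G be a finite group and V a nontrivial elementary abelian 2-subgroup of G satisfying the Sidki pair condition. Let v ∈ V and let x be an element of odd order inverted by v, and put C = C_G(v) ∩ C_G(x), the centralizer of the dihedral subgroup generated by v and x. Then C ∩ V is nontrivial and satisfies the Sidki pair condition inside C: every odd-order element of C inverted by an element of C ∩ V commutes with a nontrivial element of C ∩ V. -/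
theorem result {G : Type*} [Group G] [Finite G] (V : Subgroup G) (hV : Cfsg.IsElementaryAbelian 2 V) (hV1 : V ≠ ⊥) (hS : Cfsg.IsSidkiPair V) (v x : G) (hv : v ∈ V) (hx : Odd (orderOf x)) (hinv : v * x * v⁻¹ = x⁻¹) (C : Subgroup G) (hC : C = Subgroup.centralizer ({v} : Set G) ⊓ Subgroup.centralizer ({x} : Set G)) : C ⊓ V ≠ ⊥ ∧ Cfsg.IsSidkiPair ((C ⊓ V).subgroupOf C) := by
  have hcomm : ∀ a ∈ V, ∀ b ∈ V, a * b = b * a := fun a ha b hb =>
    congrArg Subtype.val (hV.1.is_comm.comm (⟨a, ha⟩ : V) ⟨b, hb⟩)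
  have hmem : ∀ g : G, g ∈ C ↔ v * g = g * v ∧ x * g = g * x := by
    intro g
    rw [hC, Subgroup.mem_inf, Subgroup.mem_centralizer_singleton_iff,
      Subgroup.mem_centralizer_singleton_iff]
    exact ⟨fun h => ⟨h.1.symm, h.2.symm⟩, fun h => ⟨h.1.symm, h.2.symm⟩⟩
  constructor
  · obtain ⟨w, hw, hw1, hwc⟩ := hS x v hv hx hinv
    intro h
    have : w ∈ C ⊓ V := ⟨(hmem w).2 ⟨hcomm v hv w hw, hwc.symm⟩, hw⟩
    rw [h] at this
    exact hw1 (Subgroup.mem_bot.1 this)
  · rintro ⟨h, hh⟩ ⟨u, hu⟩ huV hodd huinv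
    have huV' : u ∈ V := (Subgroup.mem_subgroupOf.1 huV).2
    have hodd' : Odd (orderOf h) := by rwa [← Subgroup.orderOf_mk h hh]
    have huinv' : u * h * u⁻¹ = h⁻¹ := congrArg Subtype.val huinv
    obtain ⟨hvh, hxh⟩ := (hmem h).1 hh
    obtain ⟨hvu, hxu⟩ := (hmem u).1 hu
    have hc : Commute h x := hxh.symm
    have h1 : Odd (orderOf (h * x)) :=
      (hodd'.mul hx).of_dvd_nat (hc.orderOf_mul_dvd_mul_orderOf)
    have hvhx : v * (h * x) * v⁻¹ = h * x⁻¹ := by
      rw [← hinv, ← mul_assoc v, hvh]; group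
    have h2 : (u * v) * (h * x) * (u * v)⁻¹ = (h * x)⁻¹ := by
      calc (u * v) * (h * x) * (u * v)⁻¹ = u * (v * (h * x) * v⁻¹) * u⁻¹ := by group
        _ = (u * h * u⁻¹) * (u * x * u⁻¹)⁻¹ := by rw [hvhx]; group
        _ = h⁻¹ * x⁻¹ := by rw [huinv', ← hxu]; group
        _ = (h * x)⁻¹ := by rw [← mul_inv_rev, hxh]
    obtain ⟨w, hw, hw1, hwc⟩ := hS _ _ (mul_mem huV' hv) h1 h2
    have hwv := hcomm v hv w hw
    have h3 : Commute w (h * x) := hwc
    have h4 : Commute w (h * x⁻¹) := by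
      rw [← hvhx]
      have hwv' : Commute w v := hwv.symm
      exact (hwv'.mul_right h3).mul_right hwv'.inv_right
    have h5 : Commute w (h ^ 2) := by
      have : h ^ 2 = (h * x) * (h * x⁻¹) := by
        rw [mul_assoc, ← mul_assoc x, hxh, pow_two]; group
      rw [this]; exact h3.mul_right h4
    have h6 : Commute w h := by
      obtain ⟨j, hj⟩ := exists_pow_eq_self_of_coprime ((Nat.coprime_two_left).2 hodd')
      have := h5.pow_right j
      rwa [hj] at this
    have h7 : Commute w x := by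
      have := h6.inv_right.mul_right h3
      rwa [inv_mul_cancel_left] at this
    have hwC : w ∈ C := (hmem w).2 ⟨hwv, h7.symm⟩
    refine ⟨⟨w, hwC⟩, Subgroup.mem_subgroupOf.2 ⟨hwC, hw⟩, fun h8 => hw1 (congrArg Subtype.val h8),
      Subtype.ext h6⟩

end Cfsg.Agent.S3013
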