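import Cfsg.Statements.S3014
import Mathlib
import Cfsg.Agent.Lib.Tech.SylowIn
import Cfsg.Agent.Lib.Core.Frattini
import Cfsg.Agent.Lib.Core.Basic

set_option autoImplicit false
open Cfsg

namespace Cfsg.Agent.S3014

open Subgroup CfsgLib MulAction

theorem transfer_eq_self {G : Type*} [Group G] [Finite G] {M : Subgroup G} {A : Type*} [CommGroup A]
    (φ : M →* A) (h : ∀ t : G, t ∉ M → ∀ x ∈ M, ∀ hx : t⁻¹ * x * t ∈ M, φ ⟨_, hx⟩ = 1) (x : M) :
    MonoidHom.transfer φ (x : G) = φ x := by
  classical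
  let := M.fintypeQuotientOfFiniteIndex
  rw [MonoidHom.transfer_eq_prod_quotient_orbitRel_zpowers_quot]
  have hfix : ∀ g ∈ M, g • ((1 : G) : G ⧸ M) = ((1 : G) : G ⧸ M) := by
    intro g hg
    rw [MulAction.Quotient.smul_mk, QuotientGroup.eq]
    simpa using hg
  let q₀ : Quotient (orbitRel (zpowers (x : G)) (G ⧸ M)) := Quotient.mk _ ((1 : G) : G ⧸ M)
  have hq₀ : q₀.out = ((1 : G) : G ⧸ M) := by
    have : (orbitRel (zpowers (x : G)) (G ⧸ M)) q₀.out ((1 : G) : G ⧸ M) := Quotient.mk_out _
    rw [orbitRel_apply] at this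
    obtain ⟨⟨g, hg⟩, hg2⟩ := this
    rw [← hg2]
    exact hfix g ((zpowers_le.2 x.2) hg)
  rw [Finset.prod_eq_single q₀]
  · have h1 : Function.minimalPeriod ((x : G) • ·) q₀.out = 1 := by
      rw [Function.minimalPeriod_eq_one_iff_isFixedPt, hq₀]
      exact hfix x x.2
    have h2 : q₀.out.out ∈ M := by
      have : ((q₀.out.out : G) : G ⧸ M) = ((1 : G) : G ⧸ M) := by rw [QuotientGroup.out_eq', hq₀]
      rw [QuotientGroup.eq] at this
      simpa using this
    have h3 : (⟨_, QuotientGroup.out_conj_pow_minimalPeriod_mem M (x : G) q₀.out⟩ : M) =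
        (⟨_, h2⟩ : M)⁻¹ * x * ⟨_, h2⟩ := by
      apply Subtype.ext
      simp [h1]
    rw [h3, map_mul, map_mul, map_inv, mul_right_comm, inv_mul_cancel, one_mul]
  · intro q _ hq
    apply h _ _ _ (M.pow_mem x.2 _)
    intro hm
    apply hq
    have : q.out = ((1 : G) : G ⧸ M) := by
      rw [← QuotientGroup.out_eq' q.out, QuotientGroup.eq]
      simpa using hm
    rw [← Quotient.out_eq q, this]
  · intro h
    exact absurd (Finset.mem_univ _) h

/-- Let G be a finite group and H ≤ M ≤ G subgroups such that for every g ∈ G the subgroup generated by H and g H g⁻¹ meets M exactly in H. If H is a maximal subgroup of M and M is a maximal subgroup of G, then the normal closure of H in G meets M exactly in H. -/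
theorem result {G : Type*} [Group G] [Finite G] (H M : Subgroup G) (hHM : H ≤ M) (hcl : ∀ g : G, (H ⊔ H.map (MulAut.conj g).toMonoidHom) ⊓ M = H) (hmaxH : IsCoatom (H.subgroupOf M)) (hmaxM : IsCoatom M) : Subgroup.normalClosure (H : Set G) ⊓ M = H := by
  classical
  have hcl' : ∀ g : G, (H ⊔ Tech.cj g H) ⊓ M = H := hcl
  have hMN : M ≤ normalizer (H : Set G) := by
    intro m hm
    apply Tech.mem_normalizer_of_cj_le
    have h1 : Tech.cj m H ≤ M := by
      rw [Tech.cj_le_iff]
      intro x hx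
      exact M.mul_mem (M.mul_mem hm (hHM hx)) (M.inv_mem hm)
    exact (le_inf le_sup_right h1).trans (hcl' m).le
  suffices hK : ∃ K : Subgroup G, K.Normal ∧ H ≤ K ∧ K ⊓ M ≤ H by
    obtain ⟨K, hKn, hHK, hKM⟩ := hK
    exact le_antisymm ((inf_le_inf_right _ (normalClosure_le_normal hHK)).trans hKM)
      (le_inf le_normalClosure hHM)
  by_cases hn : H.Normal
  · exact ⟨H, hn, le_rfl, inf_le_left⟩
  have hNM : normalizer (H : Set G) = M := by
    rcases hMN.eq_or_lt with h | h
    · exact h.symm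
    · exact absurd (normalizer_eq_top_iff.1 (hmaxM.2 _ h)) hn
  by_cases hA : ∃ g : G, g ∉ M ∧ ∃ x ∈ M, g⁻¹ * x * g ∈ M ∧ x ∉ H
  · obtain ⟨g, hg, x, hxM, hxg, hxH⟩ := hA
    refine ⟨H ⊔ Tech.cj g H, ?_, le_sup_left, (hcl' g).le⟩
    rw [← normalizer_eq_top_iff]
    set L := H ⊔ Tech.cj g H with hL
    have hxL : x ∈ normalizer (L : Set G) := by
      apply Core.normalizer_inf_le_normalizer_sup
      refine ⟨hMN hxM, ?_⟩
      rw [← Tech.cj_normalizer, hNM]
      exact Tech.mem_cj.2 hxg
    have hML : M ≤ normalizer (L : Set G) := by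
      have h1 : H.subgroupOf M < (normalizer (L : Set G)).subgroupOf M := by
        refine lt_of_le_of_ne (fun y hy => (le_sup_left.trans le_normalizer : H ≤ _) hy) ?_
        intro h
        apply hxH
        have : (⟨x, hxM⟩ : M) ∈ (normalizer (L : Set G)).subgroupOf M := hxL
        rw [← h] at this
        exact this
      exact subgroupOf_eq_top.1 (hmaxH.2 _ h1)
    apply hmaxM.2
    refine lt_of_le_of_ne hML ?_
    intro h
    apply hg
    rw [← hNM]
    apply Tech.mem_normalizer_of_cj_le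
    refine (le_inf le_sup_right ?_).trans (hcl' g).le
    rw [h]
    exact le_sup_right.trans le_normalizer
  · push Not at hA
    haveI hn' : (H.subgroupOf M).Normal := (normal_subgroupOf_iff_le_normalizer hHM).2 hMN
    have hp := Core.index_prime_of_isCoatom_of_normal hmaxH
    haveI : Fact (H.subgroupOf M).index.Prime := ⟨hp⟩
    haveI : IsCyclic (M ⧸ H.subgroupOf M) := isCyclic_of_prime_card (p := (H.subgroupOf M).index) rfl
    letI : CommGroup (M ⧸ H.subgroupOf M) := IsCyclic.commGroup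
    let φ : M →* M ⧸ H.subgroupOf M := QuotientGroup.mk' _
    have hφ : ∀ x : M, φ x = 1 ↔ (x : G) ∈ H := fun x => QuotientGroup.eq_one_iff x
    have key := transfer_eq_self φ (by
      intro t ht x hx hx'
      rw [hφ]
      exact hA t⁻¹ (fun h => ht (by simpa using h)) _ hx' (by simpa [mul_assoc] using hx))
    refine ⟨(MonoidHom.transfer φ).ker, inferInstance, ?_, ?_⟩
    · intro x hx
      rw [MonoidHom.mem_ker]
      exact (key ⟨x, hHM hx⟩).trans ((hφ _).2 hx)
    · rintro x ⟨hx, hxM⟩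
      exact (hφ ⟨x, hxM⟩).1 ((key ⟨x, hxM⟩).symm.trans hx)

end Cfsg.Agent.S3014
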