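import Cfsg.Statements.S3015
import Mathlib
import Cfsg.Agent.S3014
import Cfsg.Agent.Lib.Transfer.NormalComplement
import Cfsg.Agent.Lib.Tech.SylowIn
import Cfsg.Agent.Lib.Core.Frattini
import Cfsg.Agent.Lib.Core.Basic

set_option autoImplicit false
open Cfsg

namespace Cfsg.Agent.S3015

open Subgroup CfsgLib

/-- Let G be a finite non-abelian simple group, M a maximal subgroup of G and H a normal subgroup of M of prime index in M. Then G is generated by H together with one of its conjugates. -/
theorem result {G : Type*} [Group G] [Finite G] [IsSimpleGroup G] (hG : ¬ IsMulCommutative G) (M H : Subgroup G) (hmaxM : IsCoatom M) (hHM : H ≤ M) (hHn : (H.subgroupOf M).Normal) (hidx : (H.relIndex M).Prime) : ∃ g : G, H ⊔ H.map (MulAut.conj g).toMonoidHom = ⊤ := by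
  classical
  by_contra hcon
  push Not at hcon
  have hcon' : ∀ g : G, H ⊔ Tech.cj g H ≠ ⊤ := hcon
  set p := H.relIndex M with hp
  haveI : Fact p.Prime := ⟨hidx⟩
  have hmaxH : IsCoatom (H.subgroupOf M) := Core.isCoatom_of_index_prime hidx
  have hMH : ¬ M ≤ H := fun h => hmaxH.1 (subgroupOf_eq_top.2 h)
  have hM1 : M ≠ ⊥ := fun h => hMH (h ▸ bot_le)
  have hnorm : ∀ K : Subgroup G, K ≠ ⊥ → K ≤ M → M ≤ normalizer (K : Set G) → normalizer (K : Set G) = M := by
    intro K hK hKM hMK
    rcases hMK.eq_or_lt with h | h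
    · exact h.symm
    · have hn := normalizer_eq_top_iff.1 (hmaxM.2 _ h)
      rcases hn.eq_bot_or_eq_top with h | h
      · exact absurd h hK
      · exact absurd (top_le_iff.1 (h ▸ hKM)) hmaxM.1
  have hNM : normalizer (M : Set G) = M := hnorm M hM1 le_rfl le_normalizer
  have hMN : M ≤ normalizer (H : Set G) := (normal_subgroupOf_iff_le_normalizer hHM).1 hHn
  have hcl : ∀ g : G, (H ⊔ Tech.cj g H) ⊓ M = H := by
    intro g
    by_contra hne
    have h1 : H.subgroupOf M < ((H ⊔ Tech.cj g H) ⊓ M).subgroupOf M := by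
      refine lt_of_le_of_ne (fun y hy => ⟨(le_sup_left : H ≤ _) hy, y.2⟩) ?_
      intro h
      apply hne
      refine le_antisymm ?_ (le_inf le_sup_left hHM)
      intro y hy
      have : (⟨y, hy.2⟩ : M) ∈ ((H ⊔ Tech.cj g H) ⊓ M).subgroupOf M := hy
      rw [← h] at this
      exact this
    have h2 : M ≤ H ⊔ Tech.cj g H := (subgroupOf_eq_top.1 (hmaxH.2 _ h1)).trans inf_le_left
    have h3 : H ⊔ Tech.cj g H = M := by
      rcases h2.eq_or_lt with h | h
      · exact h.symm
      · exact absurd (hmaxM.2 _ h) (hcon' g)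
    have h4 : Tech.cj g H ≤ M := h3 ▸ le_sup_right
    have hg : g ∉ M := by
      intro hg
      rw [Tech.mem_normalizer_iff_cj.1 (hMN hg), sup_idem] at h2
      exact hMH h2
    have hH1 : H ≠ ⊥ := by
      rintro rfl
      rw [Tech.cj_bot, sup_idem] at h2
      exact hMH h2
    -- the `p'`-elements of `M` lie in `H`
    have hpH : ∀ x ∈ M, (orderOf x).Coprime p → x ∈ H := by
      intro x hx hc
      have : (⟨x, hx⟩ : M) ∈ H.subgroupOf M :=
        Core.mem_of_coprime_orderOf_index (by rwa [orderOf_mk])
      exact this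
    set O := (pResidual p M).map M.subtype with hO
    have hOM : O ≤ M := map_subtype_le _
    have hgO : g ∈ normalizer (O : Set G) := by
      apply Tech.mem_normalizer_of_cj_le
      have : O ≤ Tech.cj g⁻¹ O := by
        conv_lhs => rw [hO, Transfer.map_pResidual_eq_closure]
        rw [closure_le]
        rintro x ⟨hx, hc⟩
        show x ∈ Tech.cj g⁻¹ O
        rw [Tech.mem_cj, inv_inv, hO, Transfer.map_pResidual_eq_closure]
        apply Subgroup.subset_closure
        refine ⟨h4 (Tech.conj_mem_cj.2 (hpH x hx hc)), ?_⟩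
        have := (MulAut.conj g).orderOf_eq x
        simp only [MulAut.conj_apply] at this
        rwa [this]
      have h5 := Tech.cj_mono g this
      rwa [Tech.cj_cj_inv] at h5
    have hO1 : O = ⊥ := by
      by_contra hO1
      rw [hnorm O hO1 hOM (Core.le_normalizer_map_subtype_of_normal _ (hK := Transfer.pResidual_normal p M))] at hgO
      exact hg hgO
    have hMp : IsPGroup p M := by
      rw [← Transfer.pResidual_eq_bot_iff]
      exact (map_eq_bot_iff_of_injective _ M.subtype_injective).1 hO1
    haveI : Group.IsNilpotent M := hMp.isNilpotent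
    have hidx' : (Tech.cj g H).relIndex M = p := by
      have e1 := Tech.card_mul_relIndex' h4
      have e2 := Tech.card_mul_relIndex' hHM
      rw [Tech.card_cj, ← e2] at e1
      exact Nat.eq_of_mul_eq_mul_left Nat.card_pos e1
    have hco : IsCoatom ((Tech.cj g H).subgroupOf M) :=
      Core.isCoatom_of_index_prime (by rw [← relIndex, hidx']; exact hidx)
    have hn2 : ((Tech.cj g H).subgroupOf M).Normal :=
      NormalizerCondition.normal_of_coatom _ Group.normalizerCondition_of_isNilpotent hco
    have h6 := (normal_subgroupOf_iff_le_normalizer h4).1 hn2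
    rw [← Tech.cj_normalizer, hnorm H hH1 hHM hMN] at h6
    apply hg
    rw [← hNM, Tech.mem_normalizer_iff_cj]
    exact (Core.eq_of_le_of_card_le h6 (Tech.card_cj g M).le).symm
  have hmain := Cfsg.Agent.S3014.result H M hHM hcl hmaxH hmaxM
  have hH1 : H = ⊥ := by
    rcases (normalClosure_normal (s := (H : Set G))).eq_bot_or_eq_top with h | h
    · exact le_bot_iff.1 (h ▸ le_normalClosure)
    · rw [h, top_inf_eq] at hmain
      exact absurd hmain.le hMH
  have hcard : Nat.card M = p := by
    rw [hp, hH1, relIndex_bot_left]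
  have hMp : IsPGroup p M := IsPGroup.of_card (n := 1) (by rw [hcard, pow_one])
  have hS : Tech.IsSylowIn p M ⊤ := by
    apply Tech.isSylowIn_of_isSylowIn_normalizer le_top
    rw [hNM, top_inf_eq]
    exact Tech.isSylowIn_of_maximal hMp le_rfl (fun R _ _ h => h)
  haveI : IsCyclic M := isCyclic_of_prime_card hcard
  have hnpc := Transfer.burnside_normal_complement hS.toSylowTop (by
    show normalizer ((hS.toSylowTop : Subgroup G) : Set G) ≤ centralizer ((hS.toSylowTop : Subgroup G) : Set G)
    rw [hS.coe_toSylowTop, hNM]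
    exact le_centralizer M)
  obtain ⟨N, hN, hc⟩ := (Transfer.hasNormalPComplement_iff_sylow hS.toSylowTop).1 hnpc
  rw [hS.coe_toSylowTop] at hc
  rcases hN.eq_bot_or_eq_top with rfl | rfl
  · have := hc.sup_eq_top
    rw [bot_sup_eq] at this
    exact hmaxM.1 this
  · exact hM1 (by simpa using hc.disjoint)

end Cfsg.Agent.S3015
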