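import Mathlib
-- Template for statement S3020 (row 3020; see /opt/grader/pristine/manifest.json for weights).
-- Copy to Cfsg/Agent/S3020.lean and replace the sorry. The statement below is byte-identical to the frozen
-- statement Cfsg.CfsgFrozen.S3020 (Cfsg/Statements/S3020.lean; the theorem Cfsg.lsp3_extremely_closed_abelian_p_subgroup_pair_generation);
-- the grader kernel-checks Cfsg.Agent.S3020.result against that frozen type. Keep the theorem IN THIS FILE
-- (a `result` declared elsewhere and merely imported here is not credited); helpers may live anywhere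
-- under Cfsg/Agent/.
import Cfsg.Statements.S3020
import Cfsg.Agent.Lib.ExtCl.Basic

set_option autoImplicit false
open Cfsg

namespace Cfsg.Agent.S3020

/-- Let G be a finite group, p a prime and H an abelian p-subgroup of G that is extremely closed (for every g, the subgroup generated by H and g H g⁻¹ meets N_G(H) exactly in H). Then for every g ∈ G, the subgroup T generated by H and g H g⁻¹ is the product of H with O_{p'}(T), and H meets O_{p'}(T) trivially; that is, O_{p'}(T) is a normal p-complement of H in T. -/
theorem result {G : Type*} [Group G] [Finite G] {p : ℕ} [Fact p.Prime] (H : Subgroup G) (hHp : IsPGroup p H) (hHab : IsMulCommutative H) (hcl : Cfsg.IsExtremelyClosed H) (g : G) (T : Subgroup G) (hT : T = H ⊔ H.map (MulAut.conj g).toMonoidHom) : H ⊔ (Cfsg.pPrimeCore p ↥T).map T.subtype = T ∧ H ⊓ (Cfsg.pPrimeCore p ↥T).map T.subtype = ⊥ := by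
  subst hT
  exact ⟨CfsgLib.ExtCl.sup_opOf hHp hHab hcl g, CfsgLib.PComp.isPGroup_inf_opOf hHp _⟩

end Cfsg.Agent.S3020
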