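import Mathlib
-- Template for statement S3021 (row 3021; see /opt/grader/pristine/manifest.json for weights).
-- Copy to Cfsg/Agent/S3021.lean and replace the sorry. The statement below is byte-identical to the frozen
-- statement Cfsg.CfsgFrozen.S3021 (Cfsg/Statements/S3021.lean; the theorem Cfsg.lsp3_extremely_closed_p_subgroup_strongly_closed_in_sylow);
-- the grader kernel-checks Cfsg.Agent.S3021.result against that frozen type. Keep the theorem IN THIS FILE
-- (a `result` declared elsewhere and merely imported here is not credited); helpers may live anywhere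
-- under Cfsg/Agent/.
import Cfsg.Statements.S3021
import Cfsg.Agent.Lib.ExtCl.Basic

set_option autoImplicit false
open Cfsg

namespace Cfsg.Agent.S3021

/-- Let G be a finite group, p a prime and H a p-subgroup of G that is extremely closed (for every g, the subgroup generated by H and g H g⁻¹ meets N_G(H) exactly in H). Then every p-subgroup Q of G containing H has N_G(Q) ≤ N_G(H); in particular every Sylow p-subgroup P of G containing H normalizes H, and H is strongly closed in P with respect to G. -/
theorem result {G : Type*} [Group G] [Finite G] {p : ℕ} [Fact p.Prime] (H : Subgroup G) (hHp : IsPGroup p H) (hcl : Cfsg.IsExtremelyClosed H) : (∀ Q : Subgroup G, IsPGroup p Q → H ≤ Q → Subgroup.normalizer (Q : Set G) ≤ Subgroup.normalizer (H : Set G)) ∧ ∀ P : Sylow p G, H ≤ (P : Subgroup G) → (P : Subgroup G) ≤ Subgroup.normalizer (H : Set G) ∧ Cfsg.IsStronglyClosed H (P : Subgroup G) := by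
  exact ⟨fun Q hQ h => CfsgLib.ExtCl.normalizer_le hHp hcl hQ h, fun P h =>
    ⟨Subgroup.le_normalizer.trans (CfsgLib.ExtCl.normalizer_le hHp hcl P.isPGroup' h),
      CfsgLib.ExtCl.stronglyClosed hHp hcl P.isPGroup' h⟩⟩

end Cfsg.Agent.S3021
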