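import Cfsg.Statements.S3023
import Mathlib
import Cfsg.Agent.Lib.Comp.Local
import Cfsg.Agent.Lib.SolvStruct.Subnormal
import Cfsg.Agent.Lib.Tech.SylowIn
import Cfsg.Agent.Lib.Coprime.Abelian
import Cfsg.Agent.Lib.Core.Basic

set_option autoImplicit false
open Cfsg

namespace Cfsg.Agent.S3023

open Subgroup CfsgLib
open scoped Pointwise

/-- Let p be a prime, G a finite group of parabolic characteristic p (every p-local subgroup containing a Sylow p-subgroup of G has characteristic p), S a Sylow p-subgroup of G and G₁ a subnormal subgroup of G. If the centre of S ∩ G₁ is nontrivial and contained in the centre of S, then G₁ has parabolic characteristic p. -/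
theorem result {G : Type*} [Group G] [Finite G] {p : ℕ} [Fact p.Prime] (hG : Cfsg.IsOfParabolicCharacteristic p G) (S : Sylow p G) (G₁ : Subgroup G) (hsn : G₁.IsSubnormal) (hne : ((S : Subgroup G) ⊓ G₁) ⊓ Subgroup.centralizer (((S : Subgroup G) ⊓ G₁ : Subgroup G) : Set G) ≠ ⊥) (hle : ((S : Subgroup G) ⊓ G₁) ⊓ Subgroup.centralizer (((S : Subgroup G) ⊓ G₁ : Subgroup G) : Set G) ≤ (S : Subgroup G) ⊓ Subgroup.centralizer ((S : Subgroup G) : Set G)) : Cfsg.IsOfParabolicCharacteristic p ↥G₁ := by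
  classical
  intro R hRp hR1 hpar
  obtain ⟨T, hT⟩ := hpar
  obtain ⟨Q, hQ⟩ := SolvStruct.exists_sylow_eq_subgroupOf_of_isSubnormal hsn S
  obtain ⟨g, hg⟩ := MulAction.exists_smul_eq G₁ Q T
  have hRT : R ≤ (T : Subgroup G₁) :=
    (Tech.IsSylowIn.of_sylow T hT).le_of_le_normalizer hRp le_normalizer le_rfl
  have hne' := Coprime.inf_centralizer_ne_bot_of_isPGroup T.isPGroup' R hRp hT hR1
  obtain ⟨⟨z, hzR, hzT⟩, hz1⟩ := (Subgroup.ne_bot_iff_exists_ne_one).1 hne'
  have hz1' : (z : G) ≠ 1 := by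
    intro h
    apply hz1
    ext
    simpa using h
  have memT : ∀ x : G₁, x ∈ (T : Subgroup G₁) ↔ ((g : G)⁻¹ * x * g) ∈ (S : Subgroup G) := by
    intro x
    rw [← hg, Sylow.coe_subgroup_smul, Core.mem_conj_smul_iff, hQ, mem_subgroupOf]
    simp
  -- z' = g⁻¹ z g is central in S
  have hz' : (g : G)⁻¹ * z * g ∈ (S : Subgroup G) ⊓ centralizer ((S : Subgroup G) : Set G) := by
    apply hle
    refine ⟨⟨(memT z).1 (hRT hzR), G₁.mul_mem (G₁.mul_mem (G₁.inv_mem g.2) z.2) g.2⟩, ?_⟩
    show _ ∈ centralizer _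
    rw [mem_centralizer_iff]
    rintro s ⟨hsS, hs1⟩
    have h1 : (g * ⟨s, hs1⟩ * g⁻¹ : G₁) ∈ (T : Subgroup G₁) := by
      rw [memT]
      have : (g : G)⁻¹ * ((g * ⟨s, hs1⟩ * g⁻¹ : G₁) : G) * g = s := by
        simp [mul_assoc]
      rw [this]; exact hsS
    have h2 := congrArg Subtype.val (mem_centralizer_iff.1 hzT _ h1)
    simp only [coe_mul, InvMemClass.coe_inv] at h2
    calc s * ((g : G)⁻¹ * z * g) = (g : G)⁻¹ * (g * s * (g : G)⁻¹ * z) * g := by group
      _ = (g : G)⁻¹ * (z * (g * s * (g : G)⁻¹)) * g := by rw [h2]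
      _ = _ := by group
  have hzp : IsPGroup p (zpowers (z : G)) := by
    rw [Core.isPGroup_zpowers_iff]
    obtain ⟨k, hk⟩ := Core.isPGroup_subgroup_iff.1 hRp z hzR
    exact ⟨k, by simpa using congrArg Subtype.val hk⟩
  have hpar' : IsParabolic p (normalizer ((zpowers (z : G) : Subgroup G) : Set G)) := by
    refine ⟨(g : G) • S, ?_⟩
    refine le_trans ?_ (centralizer_le_normalizer _)
    rw [Core.centralizer_zpowers]
    intro s hs
    rw [Sylow.coe_subgroup_smul, Core.mem_conj_smul_iff] at hs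
    have h2 := mem_centralizer_iff.1 hz'.2 _ hs
    rw [mem_centralizer_singleton_iff]
    calc s * z = g * ((g : G)⁻¹ * s * g * ((g : G)⁻¹ * z * g)) * (g : G)⁻¹ := by group
      _ = g * ((g : G)⁻¹ * z * g * ((g : G)⁻¹ * s * g)) * (g : G)⁻¹ := by rw [h2]
      _ = _ := by group
  have h1 := Comp.fstar_eq_pCore_iff.2 (hG _ hzp (by simpa using hz1') hpar')
  rw [Comp.fstar_normalizer_eq_pCore_iff hzp, Core.centralizer_zpowers] at h1
  set C := centralizer ({(z : G)} : Set G) with hC
  have h2 := Comp.fstar_eq_pCore_of_isSubnormal h1 (H := G₁.subgroupOf C) hsn.subgroupOf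
  have e1 : (G₁.subgroupOf C) = (C ⊓ G₁).subgroupOf C := by
    rw [inf_subgroupOf_left]
  have e2 : centralizer ({z} : Set G₁) = (C ⊓ G₁).subgroupOf G₁ := by
    rw [inf_subgroupOf_right]
    ext x
    rw [mem_subgroupOf, hC, mem_centralizer_singleton_iff, mem_centralizer_singleton_iff,
      Subtype.ext_iff]
    rfl
  have h3 : generalizedFittingSubgroup (centralizer ({z} : Set G₁)) = pCore p (centralizer ({z} : Set G₁)) := by
    rw [e2]
    rw [e1] at h2
    exact Comp.fstar_eq_pCore_congr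
      ((subgroupOfEquivOfLe inf_le_left).trans (subgroupOfEquivOfLe inf_le_right).symm) h2
  have h4 := Comp.fstar_centralizer_eq_pCore_of_le h3 hRp
    (by
      intro r hr
      rw [mem_centralizer_singleton_iff]
      exact mem_centralizer_iff.1 hzT r (hRT hr))
    (centralizer_le (by simpa using hzR))
  exact Comp.fstar_eq_pCore_iff.1 ((Comp.fstar_normalizer_eq_pCore_iff hRp).2 h4)

end Cfsg.Agent.S3023
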