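import Cfsg.Statements.S3025
import Mathlib
import Cfsg.Agent.Lib.Frob.Quaternion
import Cfsg.Agent.Lib.Tech.SylowIn
import Cfsg.Agent.Lib.Core.Basic

set_option autoImplicit false
open Cfsg

namespace Cfsg.Agent.S3025

open Subgroup CfsgLib

/-- Let F be a finite group and H a nontrivial subgroup of F that is contained in every nontrivial subgroup of F which H normalizes. Then F has a nontrivial normal subgroup N contained in every nontrivial normal subgroup of F (a unique minimal normal subgroup), N is simple, and one of the following holds: C_F(N) = 1; or H = N has prime order p, C_F(N) is cyclic of order a power of p, and F/C_F(N) is cyclic of order dividing p − 1; or H = N has order 2, N is central in F, and F is a generalized quaternion group. -/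
theorem result {F : Type*} [Group F] [Finite F] (H : Subgroup F) (hH : H ≠ ⊥)
    (hmin : ∀ R : Subgroup F, R ≠ ⊥ → H ≤ Subgroup.normalizer (R : Set F) → H ≤ R) :
    ∃ N : Subgroup F, N.Normal ∧ N ≠ ⊥ ∧ (∀ M : Subgroup F, M.Normal → M ≠ ⊥ → N ≤ M) ∧ IsSimpleGroup ↥N ∧
      (Subgroup.centralizer (N : Set F) = ⊥ ∨
       (H = N ∧ (Nat.card N).Prime ∧ IsCyclic ↥(Subgroup.centralizer (N : Set F)) ∧
          (∃ k : ℕ, 1 ≤ k ∧ Nat.card ↥(Subgroup.centralizer (N : Set F)) = Nat.card N ^ k) ∧
          (∃ g : F, Subgroup.centralizer (N : Set F) ⊔ Subgroup.zpowers g = ⊤) ∧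
          (Subgroup.centralizer (N : Set F)).index ∣ Nat.card N - 1) ∨
       (H = N ∧ Nat.card N = 2 ∧ Subgroup.centralizer (N : Set F) = ⊤ ∧
          ∃ k : ℕ, 1 ≤ k ∧ Nonempty (F ≃* QuaternionGroup (2 ^ k)))) := by
  classical
  set N := normalClosure (H : Set F) with hN
  have hHN : H ≤ N := le_normalClosure
  have hN1 : N ≠ ⊥ := fun h => hH (le_bot_iff.1 (h ▸ hHN))
  have hNmin : ∀ M : Subgroup F, M.Normal → M ≠ ⊥ → N ≤ M := fun M hM hM1 =>
    normalClosure_le_normal (hmin M hM1 le_normalizer_of_normal)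
  have hsimple : IsSimpleGroup N := by
    haveI : Nontrivial N := (nontrivial_iff_ne_bot N).2 hN1
    refine ⟨fun K hK => ?_⟩
    by_cases hK1 : K = ⊥
    · exact Or.inl hK1
    right
    set K' := K.map N.subtype with hK'
    have hK'1 : K' ≠ ⊥ := fun h => hK1 ((Subgroup.map_eq_bot_iff_of_injective _ N.subtype_injective).1 h)
    have hNK : N ≤ normalizer (K' : Set F) := Core.le_normalizer_map_subtype_of_normal K
    have h1 : ∀ g : F, H ≤ Tech.cj g K' := by
      intro g
      refine hmin _ (fun h => hK'1 (Tech.cj_eq_bot_iff.1 h)) ?_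
      rw [← Tech.cj_normalizer]
      refine hHN.trans (le_trans (le_of_eq (Tech.cj_eq_of_normal g N).symm) (Tech.cj_mono g hNK))
    have h2 : N ≤ K' := by
      rw [hN, normalClosure, closure_le]
      intro x hx
      obtain ⟨a, ha, hc⟩ := Group.mem_conjugatesOfSet_iff.1 hx
      obtain ⟨g, rfl⟩ := isConj_iff.1 hc
      have := Tech.mem_cj.1 (h1 g⁻¹ ha)
      simpa using this
    rw [eq_top_iff]
    intro x _
    obtain ⟨y, hy, hxy⟩ := h2 x.2
    rwa [show x = y from Subtype.ext hxy.symm]
  refine ⟨N, inferInstance, hN1, hNmin, hsimple, ?_⟩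
  set C := centralizer (N : Set F) with hC
  by_cases hC1 : C = ⊥
  · exact Or.inl hC1
  right
  have hNC : N ≤ C := hNmin C inferInstance hC1
  haveI : IsMulCommutative N := le_centralizer_iff_isMulCommutative.1 hNC
  have hp : (Nat.card N).Prime := by
    letI : CommGroup N := { (inferInstance : Group N) with mul_comm := fun a b => mul_comm' a b }
    exact IsSimpleGroup.prime_card
  set p := Nat.card N with hpdef
  haveI : Fact p.Prime := ⟨hp⟩
  have hHN' : H = N := by
    rcases (hsimple.eq_bot_or_eq_top_of_normal (H.subgroupOf N) inferInstance) with h | h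
    · rw [subgroupOf_eq_bot, disjoint_iff, inf_eq_left.2 hHN] at h
      exact absurd h hH
    · exact le_antisymm hHN (subgroupOf_eq_top.1 h)
  have hle : ∀ R : Subgroup F, R ≤ C → R ≠ ⊥ → N ≤ R := fun R hR hR1 =>
    hHN' ▸ hmin R hR1 (hHN.trans ((le_centralizer_iff.1 hR).trans (centralizer_le_normalizer _)))
  have hprime : ∀ x ∈ C, (orderOf x).Prime → zpowers x = N := by
    intro x hx hxp
    have h1 := hle (zpowers x) (zpowers_le.2 hx) (by
      intro h
      rw [zpowers_eq_bot] at h
      rw [h, orderOf_one] at hxp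
      exact Nat.not_prime_one hxp)
    have h2 := card_dvd_of_le h1
    rw [Nat.card_zpowers] at h2
    refine (Core.eq_of_le_of_card_le h1 ?_).symm
    rw [Nat.card_zpowers]
    exact ((Nat.prime_dvd_prime_iff_eq hp hxp).1 h2).ge
  have hCp : IsPGroup p C := by
    rw [IsPGroup.iff_card]
    refine ⟨_, Nat.eq_prime_pow_of_unique_prime_dvd Nat.card_pos.ne' fun {q} hq hd => ?_⟩
    haveI : Fact q.Prime := ⟨hq⟩
    obtain ⟨x, hx⟩ := exists_prime_orderOf_dvd_card' q hd
    rw [← orderOf_coe] at hx
    have := hprime x x.2 (hx ▸ hq)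
    rw [← hx, ← Nat.card_zpowers, this]
  have key := Frob.cyclic_or_quaternion_of_forall_mem_zpowers hCp (by
    intro x y hx hy
    rw [← orderOf_coe] at hx hy
    have h1 := hprime x x.2 (hx ▸ hp)
    have h2 := hprime y y.2 (hy ▸ hp)
    have h3 : (y : F) ∈ zpowers (x : F) := by rw [h1, ← h2]; exact mem_zpowers _
    obtain ⟨k, hk⟩ := mem_zpowers_iff.1 h3
    exact mem_zpowers_iff.2 ⟨k, Subtype.ext (by simpa using hk)⟩)
  haveI : IsCyclic N := isCyclic_of_prime_card (p := p) rfl
  let φ : F →* MulAut N := MulAut.conjNormal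
  have hker : φ.ker = C := by
    ext g
    rw [MonoidHom.mem_ker, hC, mem_centralizer_iff]
    constructor
    · intro h n hn
      have := congrArg (fun a : MulAut N => ((a ⟨n, hn⟩ : N) : F)) h
      simp only [φ, MulAut.conjNormal_apply, MulAut.one_apply] at this
      calc n * g = g * n * g⁻¹ * g := by rw [this]
        _ = _ := by group
    · intro h
      ext n
      simp only [φ, MulAut.conjNormal_apply, MulAut.one_apply]
      rw [← h n n.2]; group
  have hcardAut : Nat.card (MulAut N) = p - 1 := by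
    rw [IsCyclic.card_mulAut, ← hpdef, Nat.totient_prime hp]
  have hidx : C.index ∣ p - 1 := by
    rw [← hker, index_ker, ← hcardAut]
    exact card_subgroup_dvd_card _
  rcases key with hcyc | ⟨h2, k, hk, ⟨e⟩⟩
  · left
    refine ⟨hHN', hp, hcyc, ?_, ?_, hidx⟩
    · obtain ⟨k, hk⟩ := hCp.exists_card_eq
      refine ⟨k, ?_, hk⟩
      rcases k with _ | k
      · exact absurd (card_eq_one.1 hk) hC1
      · omega
    · haveI : IsCyclic (MulAut N) := by
        have e := IsCyclic.mulAutMulEquiv N
        rw [← hpdef] at e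
        exact isCyclic_of_surjective e.symm e.symm.surjective
      obtain ⟨⟨_, g, rfl⟩, hg⟩ := IsCyclic.exists_generator (α := φ.range)
      refine ⟨g, eq_top_iff.2 fun x _ => ?_⟩
      obtain ⟨k, hk⟩ := mem_zpowers_iff.1 (hg ⟨φ x, x, rfl⟩)
      have h1 : φ (g ^ k) = φ x := by
        rw [map_zpow]; exact congrArg Subtype.val hk
      have h2 : x * (g ^ k)⁻¹ ∈ C := by
        rw [← hker, MonoidHom.mem_ker, map_mul, map_inv, h1, mul_inv_cancel]
      have := mul_mem_sup h2 (zpow_mem_zpowers g k)
      simpa using this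
  · right
    have hCt : C = ⊤ := by
      rw [h2] at hidx
      exact index_eq_one.1 (Nat.dvd_one.1 hidx)
    refine ⟨hHN', h2, hCt, k, hk, ⟨(topEquiv.symm.trans (MulEquiv.subgroupCongr hCt.symm)).trans e⟩⟩

end Cfsg.Agent.S3025
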