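import Cfsg.Statements.S3027
import Cfsg.Agent.Lib.LAE.PIrr

set_option autoImplicit false
open Cfsg

namespace Cfsg.Agent.S3027

open CfsgLib.LAE Subgroup

/-- Let G be a finite group and D a normal subgroup of G such that G/D is perfect (that is, G = G′D). Then among the subnormal subgroups B of G with BD = G there is a least one, and it is normal in G. -/
theorem result {G : Type*} [Group G] [Finite G] (D : Subgroup G) [D.Normal] (hperf : ⁅(⊤ : Subgroup G), (⊤ : Subgroup G)⁆ ⊔ D = ⊤) :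
    ∃ B : Subgroup G, B.Normal ∧ B ⊔ D = ⊤ ∧ ∀ B' : Subgroup G, B'.IsSubnormal → B' ⊔ D = ⊤ → B ≤ B' := by
  have hq : ∀ X : Subgroup G, X ⊔ D = ⊤ ↔ X.map (QuotientGroup.mk' D) = ⊤ := fun X => by
    rw [← (comap_map_eq (QuotientGroup.mk' D) X).trans (congrArg _ (QuotientGroup.ker_mk' D))]
    exact ⟨fun h => comap_injective (QuotientGroup.mk'_surjective D) h, fun h => by rw [h, comap_top]⟩
  have key : ∀ X Y : Subgroup G, X ⊔ D = ⊤ → Y ⊔ D = ⊤ → ⁅X, Y⁆ ⊔ D = ⊤ := fun X Y hX hY => by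
    have h1 := (hq _).1 hperf
    rw [map_commutator, (hq ⊤).1 (top_sup_eq D)] at h1
    rw [hq, map_commutator, (hq X).1 hX, (hq Y).1 hY, h1]
  have key2 : ∀ X Y : Subgroup G, X ⊔ D = ⊤ → Y ⊔ D = ⊤ → X ≤ normalizer (Y : Set G) →
      Y ≤ normalizer (X : Set G) → (X ⊓ Y) ⊔ D = ⊤ := fun X Y hX hY h1 h2 =>
    eq_top_iff.2 ((key X Y hX hY).ge.trans (sup_le_sup_right (le_inf
      (commutator_le_left_of_le_normalizer h2) (commutator_le_right_of_le_normalizer h1)) D))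
  obtain ⟨B, -, hB⟩ := Finite.exists_le_minimal (p := fun B : Subgroup G => B.Normal ∧ B ⊔ D = ⊤)
    (a := ⊤) ⟨inferInstance, top_sup_eq D⟩
  haveI := hB.1.1
  obtain ⟨B₀, -, h0⟩ := Finite.exists_le_minimal
    (p := fun X : Subgroup G => X ≤ B ∧ B ≤ normalizer (X : Set G) ∧ X ⊔ D = ⊤) ⟨le_rfl, le_normalizer, hB.1.2⟩
  have hle : ∀ X ≤ B, B ≤ normalizer (X : Set G) → X ⊔ D = ⊤ → B₀ ≤ X := fun X h1 h2 h3 =>
    (h0.2 ⟨inf_le_left.trans h0.1.1, le_normalizer_inf h0.1.2.1 h2, key2 _ _ h0.1.2.2 h3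
      (h0.1.1.trans h2) (h1.trans h0.1.2.1)⟩ inf_le_left).trans inf_le_right
  have hn : B₀.Normal := normal_of_top_le fun g _ => mem_normalizer_of_conjS_le (conjS_le_iff.2
    (hle _ (by rw [← conjS_eq_of_normal g⁻¹ B]; exact conjS_mono h0.1.1)
      (by rw [← conjS_eq_of_normal g⁻¹ B, ← conjS_normalizer]; exact conjS_mono h0.1.2.1)
      (by rw [← conjS_eq_of_normal g⁻¹ D, ← conjS_sup, h0.1.2.2, conjS_top])))
  have hBB := hB.2 ⟨hn, h0.1.2.2⟩ h0.1.1
  refine ⟨B, hB.1.1, hB.1.2, fun B' h1 => ?_⟩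
  induction h1 with
  | top => exact fun _ => le_top
  | step H K h1 _ h2 ih =>
    intro h3
    have h4 := (ih (eq_top_iff.2 (h3.ge.trans (sup_le_sup_right h1 D)))).trans
      ((normal_subgroupOf_iff_le_normalizer h1).1 h2)
    exact hBB.trans ((hle _ inf_le_left (le_normalizer_inf le_normalizer h4)
      (key2 _ _ hB.1.2 h3 h4 le_normalizer_of_normal)).trans inf_le_right)

end Cfsg.Agent.S3027
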