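import Cfsg.Statements.S3031
import Cfsg.Agent.Lib.HSub.Basic

set_option autoImplicit false
open Cfsg CfsgLib.HSub CfsgLib.Tech

namespace Cfsg.Agent.S3031

/-- Let G be a finite group, p the smallest prime dividing |G| and P a Sylow p-subgroup. Suppose that P is cyclic, or that P has a subgroup D with 1 < |D| < |P| such that every subgroup E of P of order |D|, and also every subgroup E of P of order 4 when |D| = 2, satisfies g E g⁻¹ ∩ N_G(E) ≤ E for all g ∈ G (E is strongly closed in its normalizer with respect to G). Then G has a normal p-complement. -/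
theorem result {G : Type*} [Group G] [Finite G] {p : ℕ} [Fact p.Prime] (hdiv : p ∣ Nat.card G)
    (hmin : ∀ q : ℕ, q.Prime → q ∣ Nat.card G → p ≤ q) (P : Sylow p G)
    (h : IsCyclic ↥(P : Subgroup G) ∨ ∃ D : Subgroup G, D ≤ (P : Subgroup G) ∧ 1 < Nat.card D ∧ Nat.card D < Nat.card (P : Subgroup G) ∧
      ∀ E : Subgroup G, E ≤ (P : Subgroup G) → (Nat.card E = Nat.card D ∨ (Nat.card D = 2 ∧ Nat.card E = 4)) →
        ∀ g : G, E.map (MulAut.conj g).toMonoidHom ⊓ Subgroup.normalizer (E : Set G) ≤ E) :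
    Cfsg.HasNormalPComplement p G := by
  have hS := IsSylowIn.of_sylow_top P
  have hco : ∀ y ∈ (⊤ : Subgroup G), (orderOf y).Coprime p → (orderOf y).Coprime (p - 1) :=
    fun y hy _ => coprime_pred_of_min (fun q hq h1 => hmin q hq (by simpa using h1)) hy
  rw [← CfsgLib.Transfer.hasNormalPComplement_top_iff]
  rcases h with h | ⟨D, hD, h1, h2, h⟩
  · exact npc_of_cyclic hS hco h
  · obtain ⟨k, hk⟩ := IsPGroup.iff_card.1 (P.isPGroup'.to_le hD)
    rw [hk] at h1 h2 h
    refine npc_of_sc hS hco (k := k) (by rintro rfl; simp at h1) h2 fun F hF hFc g _ x hx hg => ?_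
    exact HS.sc (h F hF hFc) P.isPGroup' hF g hx hg

end Cfsg.Agent.S3031
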