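import Cfsg.Statements.S3049
import Mathlib
import Cfsg.Agent.Lib.IsolP.Basic
import Cfsg.Agent.Lib.Comp.Local
import Cfsg.Agent.Lib.Transfer.Frobenius
import Cfsg.Agent.Lib.PGroup.Critical
import Cfsg.Agent.Lib.Core.Fitting
import Cfsg.Agent.Lib.Tech.SylowIn
import Cfsg.Agent.Lib.PGroup.Rank
import Cfsg.Agent.Lib.SolvStruct.Subnormal

set_option autoImplicit false
open Cfsg

namespace Cfsg.Agent.S3049

open Subgroup CfsgLib

theorem coprime_of_npc {X : Type*} [Group X] [Finite X] {p : ℕ} [Fact p.Prime] (hq : IsQuasisimple X)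
    (h : HasNormalPComplement p X) : (Nat.card X).Coprime p := by
  haveI := Transfer.pResidual_normal p X
  rcases Comp.qs_normal hq (pResidual p X) inferInstance with h1 | h1
  · have := Transfer.hasNormalPComplement_iff_coprime.1 h
    rwa [h1, card_top] at this
  · exfalso
    apply Comp.qs_not_isSolvable hq
    haveI : Group.IsNilpotent (X ⧸ pResidual p X) := Transfer.isPGroup_quotient_pResidual.isNilpotent
    haveI : Group.IsSolvable (center X) := Core.isSolvable_of_isMulCommutative
    haveI : Group.IsSolvable (pResidual p X) := Core.isSolvable_of_le h1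
    exact Group.isSolvable_of_ker_le_range (pResidual p X).subtype (QuotientGroup.mk' (pResidual p X)) (by simp)

theorem mem_of_rank {G : Type*} [Group G] [Finite G] {p : ℕ} [Fact p.Prime] (hrank : Cfsg.PRankLE p 2 G)
    {x z y : G} (hx : orderOf x = p) (hz : z ^ p = 1) (hy : y ^ p = 1) (hzx : z ∉ zpowers x)
    (h1 : Commute x z) (h2 : Commute x y) (h3 : Commute z y) : y ∈ zpowers x ⊔ zpowers z := by
  have hp : p.Prime := Fact.out
  by_contra hn
  have hxp : x ^ p = 1 := hx ▸ pow_orderOf_eq_one x
  set A := closure ({x, z, y} : Set G) with hA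
  have hcomm : ∀ a ∈ ({x, z, y} : Set G), ∀ b ∈ ({x, z, y} : Set G), a * b = b * a := by
    intro a ha b hb
    simp only [Set.mem_insert_iff, Set.mem_singleton_iff] at ha hb
    rcases ha with rfl | rfl | rfl <;> rcases hb with rfl | rfl | rfl <;>
      first | rfl | exact h1.eq | exact h1.eq.symm | exact h2.eq | exact h2.eq.symm | exact h3.eq | exact h3.eq.symm
  have hAc : IsMulCommutative A := by
    rw [← le_centralizer_iff_isMulCommutative, hA, closure_le]
    intro a ha
    show a ∈ centralizer _
    rw [centralizer_closure, mem_centralizer_iff]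
    exact fun b hb => hcomm b hb a ha
  have hAe : ∀ a ∈ A, a ^ p = 1 := by
    intro a ha
    induction ha using closure_induction with
    | mem a ha =>
      simp only [Set.mem_insert_iff, Set.mem_singleton_iff] at ha
      rcases ha with rfl | rfl | rfl <;> assumption
    | one => exact one_pow _
    | mul a b ha hb iha ihb =>
      rw [Commute.mul_pow (Core.isMulCommutative_iff_forall.1 hAc a ha b hb), iha, ihb, one_mul]
    | inv a _ ih => rw [inv_pow, ih, inv_one]
  have hAp : IsPGroup p A := Core.isPGroup_subgroup_iff.2 fun g hg => ⟨1, by rw [pow_one]; exact hAe g hg⟩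
  have hle : zpowers x ⊔ zpowers z ≤ A :=
    sup_le (zpowers_le.2 (Subgroup.subset_closure (by simp))) (zpowers_le.2 (Subgroup.subset_closure (by simp)))
  have l1 : zpowers x < zpowers x ⊔ zpowers z :=
    lt_of_le_of_ne le_sup_left fun h => hzx (h ▸ mem_sup_right (mem_zpowers z))
  have l2 : zpowers x ⊔ zpowers z < A :=
    lt_of_le_of_ne hle fun h => hn (h ▸ Subgroup.subset_closure (by simp))
  have c1 := PGroup.card_mul_prime_le_of_lt (hAp.to_le hle) l1
  have c2 := PGroup.card_mul_prime_le_of_lt hAp l2
  have c3 := hrank A hAc hAe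
  rw [Nat.card_zpowers, hx] at c1
  have := hp.one_lt
  nlinarith [Nat.mul_le_mul_right p c1]

/-- Let G be a finite group and p an odd prime with O_{p'}(G) = 1. Suppose that G has p-rank at most 2 (no elementary abelian subgroup of order p³) and that some element x of order p is isolated in G (no G-conjugate of x other than x commutes with x) and not central. Then the generalized Fitting subgroup F*(G) is a non-abelian simple group. Since O_{p'}(G) = 1, such an x is not central modulo O_{p'}(G): the hypotheses describe a counterexample to the Z*_p statement in p-rank at most 2. -/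
theorem result {G : Type*} [Group G] [Finite G] {p : ℕ} [Fact p.Prime] (hp : p ≠ 2) (hcore : Cfsg.pPrimeCore p G = ⊥)
    (hrank : Cfsg.PRankLE p 2 G) (x : G) (hx : orderOf x = p) (hiso : Cfsg.IsIsolated x) (hnc : x ∉ Subgroup.center G) :
    IsSimpleGroup ↥(Cfsg.generalizedFittingSubgroup G) ∧ ¬ IsMulCommutative ↥(Cfsg.generalizedFittingSubgroup G) := by
  classical
  have hpp : p.Prime := Fact.out
  have hxo : ∃ k, orderOf x = p ^ k := ⟨1, by rw [hx, pow_one]⟩
  have hF : fittingSubgroup G = pCore p G := Comp.fit_eq_pCore_of_pPrimeCore_eq_bot hcore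
  haveI := Core.pCore_characteristic p G
  have hOx : pCore p G ≤ centralizer {x} :=
    IsolP.le_centralizer_of_mem_normalizer hxo hiso (Core.isPGroup_pCore p G) (le_normalizer_of_normal (mem_top x))
  obtain ⟨P, hP⟩ := (IsolP.isPGroup_zpowers hxo).exists_le_sylow
  have hxP : x ∈ (P : Subgroup G) := hP (mem_zpowers x)
  have hPx : (P : Subgroup G) ≤ centralizer {x} := IsolP.le_centralizer_of_isPGroup hiso P.isPGroup' hxP
  have hnp : ∀ L : Subgroup G, IsComponent L → ¬ (Nat.card L).Coprime p := fun L hL h =>
    Comp.comp_ne_bot hL (le_bot_iff.1 (hcore ▸ Core.le_pPrimeCore_of_isSubnormal hL.1 h))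
  have hsyl : ∀ L : Subgroup G, IsComponent L → ¬ p ∣ ((P : Subgroup G) ⊓ L).relIndex L := by
    intro L hL
    obtain ⟨Q, hQ⟩ := SolvStruct.exists_sylow_eq_subgroupOf_of_isSubnormal hL.1 P
    rw [inf_relIndex_right, relIndex, ← hQ]
    exact Q.not_dvd_index
  obtain ⟨K, hK, hKx⟩ : ∃ K : Subgroup G, IsComponent K ∧ ¬ K ≤ centralizer {x} := by
    by_contra h
    push Not at h
    have h1 : generalizedFittingSubgroup G ≤ centralizer {x} := by
      rw [Comp.fstar_def, hF]
      exact sup_le (Comp.layer_le_iff.2 h) hOx
    have h2 : x ∈ pCore p G := by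
      rw [← hF]
      apply Comp.centralizer_fstar_le_fit
      rw [mem_centralizer_iff]
      exact fun g hg => mem_centralizer_singleton_iff.1 (h1 hg)
    have h3 := IsolP.normalizer_le_centralizer hiso (Core.isPGroup_pCore p G) h2
    apply hnc
    rw [mem_center_iff]
    exact fun g => mem_centralizer_singleton_iff.1 (h3 (le_normalizer_of_normal (mem_top g)))
  have hxK : x ∈ normalizer (K : Set G) := by
    by_contra hn
    apply hnp K hK
    refine Comp.coprime_of_perfect_of_sylow_le_centralizer (Comp.comp_perfect hK) inf_le_right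
      (P.isPGroup'.to_le inf_le_left) (hsyl K hK) ?_
    intro y hy
    have h1 := Comp.comp_le_centralizer_of_ne (Comp.comp_map_conj hK x) hK
      (fun h => hn (Tech.mem_normalizer_iff_cj.2 h)) (Tech.conj_mem_cj.2 hy.2)
    rwa [← mem_centralizer_singleton_iff.1 (hPx hy.1), mul_inv_cancel_right] at h1
  have hno : ∀ z : G, orderOf z = p → z ∈ centralizer (K : Set G) → Commute x z → False := by
    intro z hz hzK hxz
    have hzp : z ^ p = 1 := hz ▸ pow_orderOf_eq_one z
    have hzx : z ∉ zpowers x := by
      intro h
      have h1 : zpowers z = zpowers x := Core.eq_of_le_of_card_le (zpowers_le.2 h) (by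
        rw [Nat.card_zpowers, Nat.card_zpowers, hx, hz])
      apply hKx
      rw [← Core.centralizer_zpowers, ← h1, le_centralizer_iff, zpowers_le]
      exact hzK
    set H := K ⊔ (zpowers x ⊔ zpowers z) with hH
    have hxH : x ∈ H := mem_sup_right (mem_sup_left (mem_zpowers x))
    have hzH : z ∈ H := mem_sup_right (mem_sup_right (mem_zpowers z))
    have hHz : H ≤ centralizer {z} := by
      refine sup_le (fun k hk => mem_centralizer_singleton_iff.2 (mem_centralizer_iff.1 hzK k hk)) (sup_le ?_ ?_)
      · rw [zpowers_le, mem_centralizer_singleton_iff]; exact hxz.eq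
      · rw [zpowers_le, mem_centralizer_singleton_iff]
    obtain ⟨R, hR⟩ := (IsolP.isPGroup_zpowers (x := (⟨x, hxH⟩ : H)) (by simpa [orderOf_mk] using hxo)).exists_le_sylow
    have hRx := IsolP.le_centralizer_of_isPGroup (IsolP.isolated_subgroup hiso H hxH) R.isPGroup'
      (hR (mem_zpowers _))
    have hnpc : HasNormalPComplement p H := by
      apply Transfer.frobenius_of_forall_centralizer R
      intro Q hQ _ g hg hc
      have hord : (orderOf (MulAut.conj g)).Coprime p :=
        Nat.Coprime.coprime_dvd_left (orderOf_map_dvd MulAut.conj g) hc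
      have := PGroup.aut_apply_eq_of_fix_pow_eq_one (n := 1) one_ne_zero (by simpa using hp) hord
        (H := Q) (R.isPGroup'.to_le hQ) (fun x hx => (mem_normalizer_iff.1 hg x).1 hx) (by
          intro y hy hyp
          have hyp' : (y : G) ^ p = 1 := by simpa using congrArg Subtype.val hyp
          have c1 : Commute x (y : G) :=
            (congrArg Subtype.val (mem_centralizer_singleton_iff.1 (hRx (hQ hy)))).symm
          have c2 : Commute z (y : G) := (mem_centralizer_singleton_iff.1 (hHz y.2)).symm
          have h1 := mem_of_rank hrank hx hzp hyp' hzx hxz c1 c2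
          obtain ⟨a, ha, b, hb, hab⟩ := (Core.mem_sup_of_le_normalizer_right (H := zpowers x) (N := zpowers z) (by
            refine le_trans ?_ (centralizer_le_normalizer _)
            rw [Core.centralizer_zpowers, zpowers_le, mem_centralizer_singleton_iff]
            exact hxz.eq)).1 h1
          obtain ⟨i, rfl⟩ := mem_zpowers_iff.1 ha
          obtain ⟨j, rfl⟩ := mem_zpowers_iff.1 hb
          have c3 : Commute x ((g : G) * y * (g : G)⁻¹) :=
            (congrArg Subtype.val (mem_centralizer_singleton_iff.1
              (hRx (hQ ((mem_normalizer_iff.1 hg y).1 hy))))).symm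
          have c4 : Commute (g : G) (z ^ j) := Commute.zpow_right (mem_centralizer_singleton_iff.1 (hHz g.2)) j
          have e1 : (g : G) * y * (g : G)⁻¹ = g * x ^ i * (g : G)⁻¹ * z ^ j := by
            rw [← hab]
            calc (g : G) * (x ^ i * z ^ j) * (g : G)⁻¹ = g * x ^ i * (g : G)⁻¹ * (g * z ^ j) * (g : G)⁻¹ := by group
              _ = _ := by rw [c4.eq]; group
          have c5 : Commute x ((g : G) * x ^ i * (g : G)⁻¹) := by
            have : (g : G) * x ^ i * (g : G)⁻¹ = (g : G) * y * (g : G)⁻¹ * (z ^ j)⁻¹ := by rw [e1]; group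
            rw [this]
            exact c3.mul_right (hxz.zpow_right j).inv_right
          apply Subtype.ext
          show (g : G) * y * (g : G)⁻¹ = y
          rw [e1, IsolP.conj_zpow_eq_of_commute hxo hiso i c5, hab])
      rw [mem_centralizer_iff]
      intro y hy
      have h2 := this y hy
      rw [MulAut.conj_apply] at h2
      calc y * g = g * y * g⁻¹ * g := by rw [h2]
        _ = g * y := by group
    exact hnp K hK (coprime_of_npc hK.2 (Transfer.hasNormalPComplement_of_le hnpc le_sup_left))
  have hzero : ∀ T : Subgroup G, T ≤ (P : Subgroup G) → T ≤ centralizer (K : Set G) → T = ⊥ := by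
    intro T hTP hTK
    by_contra hne
    obtain ⟨k, hk⟩ := (P.isPGroup'.to_le hTP).exists_card_eq
    have hd : p ∣ Nat.card T := by
      rcases k with _ | k
      · exact absurd (card_eq_one.1 hk) hne
      · rw [hk]; exact dvd_pow_self p (Nat.succ_ne_zero k)
    obtain ⟨z, hz⟩ := exists_prime_orderOf_dvd_card' p hd
    exact hno z (by rw [orderOf_coe, hz]) (hTK z.2) (mem_centralizer_singleton_iff.1 (hPx (hTP z.2))).symm
  have hF1 : fittingSubgroup G = ⊥ :=
    hzero _ (hF ▸ Core.pCore_le_sylow P) (Comp.fitting_le_centralizer_comp hK)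
  have hE : layer G = K := by
    refine le_antisymm (Comp.layer_le_iff.2 fun L hL => ?_) (Comp.comp_le_layer hK)
    by_contra hn
    have h1 := hzero ((P : Subgroup G) ⊓ L) inf_le_left
      (inf_le_right.trans (Comp.comp_le_centralizer_of_ne hL hK fun h => hn h.le))
    have h2 := hsyl L hL
    rw [h1, relIndex_bot_left] at h2
    exact hnp L hL ((Nat.Prime.coprime_iff_not_dvd hpp).2 h2).symm
  rw [Comp.fstar_def, hF1, sup_bot_eq, hE]
  refine ⟨Comp.isSimpleGroup_of_qs_of_center_eq_bot hK.2 ?_, Comp.qs_not_isMulCommutative hK.2⟩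
  rw [eq_bot_iff]
  intro a ha
  rw [mem_bot]
  apply Subtype.ext
  have := Comp.comp_inf_centralizer_le_fit hK ⟨a.2, mem_centralizer_iff.2 fun g hg =>
    congrArg Subtype.val (mem_center_iff.1 ha ⟨g, hg⟩)⟩
  rwa [hF1, mem_bot] at this

end Cfsg.Agent.S3049
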