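import Cfsg.Statements.S3038
import Cfsg.Agent.Lib.Rk2.Act
import Cfsg.Agent.S3049

set_option autoImplicit false
open Cfsg

namespace Cfsg.Agent.S3038

/-- Let G be a finite group and p an odd prime with O_{p'}(G) = 1. Suppose that G has p-rank at most 2 and that some element x of order p is isolated in G and not central. Then F*(G) is a non-abelian simple group, and for every Sylow p-subgroup P of F*(G), either no conjugate of x lies in P and P is cyclic, or some conjugate of x lies in P and either P is extraspecial of order p³ and exponent p, or p = 3 and P has order 3^{2k+1} for some k ≥ 2 and is of maximal class (nilpotency class 2k). Since O_{p'}(G) = 1, such an x is not central modulo O_{p'}(G): the hypotheses describe a counterexample to the Z*_p statement in p-rank at most 2, and the conclusion records the structure it would have. -/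
theorem result {G : Type*} [Group G] [Finite G] {p : ℕ} [Fact p.Prime] (hp : p ≠ 2) (hcore : Cfsg.pPrimeCore p G = ⊥)
    (hrank : Cfsg.PRankLE p 2 G) (x : G) (hx : orderOf x = p) (hiso : Cfsg.IsIsolated x) (hnc : x ∉ Subgroup.center G) :
    IsSimpleGroup ↥(Cfsg.generalizedFittingSubgroup G) ∧ ¬ IsMulCommutative ↥(Cfsg.generalizedFittingSubgroup G) ∧
    ∀ P : Sylow p ↥(Cfsg.generalizedFittingSubgroup G),
      ((∀ g : G, g * x * g⁻¹ ∉ ((P : Subgroup ↥(Cfsg.generalizedFittingSubgroup G)).map (Cfsg.generalizedFittingSubgroup G).subtype)) ∧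
          IsCyclic ↥(P : Subgroup ↥(Cfsg.generalizedFittingSubgroup G))) ∨
      ((∃ g : G, g * x * g⁻¹ ∈ ((P : Subgroup ↥(Cfsg.generalizedFittingSubgroup G)).map (Cfsg.generalizedFittingSubgroup G).subtype)) ∧
        ((Cfsg.IsExtraspecial p ↥(P : Subgroup ↥(Cfsg.generalizedFittingSubgroup G)) ∧
            Nat.card (P : Subgroup ↥(Cfsg.generalizedFittingSubgroup G)) = p ^ 3 ∧
            ∀ y ∈ (P : Subgroup ↥(Cfsg.generalizedFittingSubgroup G)), y ^ p = 1) ∨
         (p = 3 ∧ ∃ k : ℕ, 2 ≤ k ∧ Nat.card (P : Subgroup ↥(Cfsg.generalizedFittingSubgroup G)) = 3 ^ (2 * k + 1) ∧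
            ∃ _ : Group.IsNilpotent ↥(P : Subgroup ↥(Cfsg.generalizedFittingSubgroup G)),
              Group.nilpotencyClass ↥(P : Subgroup ↥(Cfsg.generalizedFittingSubgroup G)) = 2 * k))) := by
  obtain ⟨hs, hna⟩ := Cfsg.Agent.S3049.result hp hcore hrank x hx hiso hnc
  refine ⟨hs, hna, fun P => ?_⟩
  open Subgroup CfsgLib CfsgLib.IsolP in
  generalize Cfsg.generalizedFittingSubgroup G = K at hs hna P ⊢
  open Subgroup CfsgLib CfsgLib.IsolP in
  by_cases h : ∃ g : G, g * x * g⁻¹ ∈ (P : Subgroup K).map K.subtype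
  · refine Or.inr ⟨h, ?_⟩
    obtain ⟨g, ⟨y, hyK⟩, hy, rfl : y = _⟩ := h
    have ho : orderOf (⟨_, hyK⟩ : K) = p := by rw [← orderOf_coe, orderOf_conj', hx]
    rcases Rk2.sylow_of_perfect hp ((hs.eq_bot_or_eq_top_of_normal _ inferInstance).resolve_left
        fun e => hna ((commutator_eq_bot_iff K).1 e)) P
      (PGroup.pRankLE_subgroup (PGroup.pRankLE_subgroup hrank K) P) hy
      (fun e => (Fact.out : p.Prime).ne_one (by rw [← ho, e, orderOf_one])) (ho ▸ pow_orderOf_eq_one _)
      (normalizer_le_centralizer (isolated_subgroup (isolated_conj hiso g) K hyK) P.isPGroup' hy) with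
      ⟨h1, h2, h3⟩ | ⟨h1, k, h2, h3, h4⟩
    · exact Or.inl ⟨h1, h2, fun y hy => congrArg Subtype.val (h3 ⟨y, hy⟩)⟩
    · exact Or.inr ⟨h1, k, h2, h3, P.isPGroup'.isNilpotent, h4⟩
  refine Or.inl ⟨not_exists.1 h, by_contra fun hc => h ?_⟩
  obtain ⟨T, hT⟩ := (P.isPGroup'.map K.subtype).exists_le_sylow
  obtain ⟨g, hg⟩ := (Tech.IsSylowIn.of_sylow_top T).exists_conj_mem (mem_top x)
    (isPGroup_zpowers ⟨1, by rw [hx, pow_one]⟩)
  have hC := hT.trans (le_centralizer_of_isPGroup (isolated_conj hiso g) T.isPGroup' hg.2)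
  obtain ⟨V, -, hV, hVc⟩ := PGroup.exists_normal_rank_two hp P.isPGroup' hc
  have hp1 := (Fact.out : p.Prime).one_lt
  obtain ⟨⟨a, ha⟩, ha1⟩ := ne_bot_iff_exists_ne_one.1 (show V ≠ ⊥ from fun e => by
    rw [e, card_bot] at hVc; nlinarith)
  have hao : orderOf a = p := orderOf_eq_prime (hV.2 a ha) fun e => ha1 (Subtype.ext e)
  obtain ⟨b, hb, hba⟩ := SetLike.not_le_iff_exists.1 (show ¬ V ≤ zpowers a from fun e => by
    have := card_le_of_le e
    rw [hVc, Nat.card_zpowers, hao] at this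
    nlinarith)
  have hm : ∀ c : P, ((c : K) : G) ∈ (P : Subgroup K).map K.subtype := fun c => ⟨c, c.2, rfl⟩
  refine ⟨g, sup_le (zpowers_le.2 (hm a)) (zpowers_le.2 (hm b)) (Cfsg.Agent.S3049.mem_of_rank hrank
    (by rw [orderOf_coe, orderOf_coe, hao]) (congrArg (fun c : P => ((c : K) : G)) (hV.2 b hb))
    (by rw [conj_pow, ← hx, pow_orderOf_eq_one, mul_one, mul_inv_cancel]) ?_
    (congrArg (fun c : P => ((c : K) : G)) (le_centralizer_iff_isMulCommutative.2 hV.1 hb a ha))
    (mem_centralizer_singleton_iff.1 (hC (hm a))) (mem_centralizer_singleton_iff.1 (hC (hm b))))⟩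
  rintro ⟨k, hk⟩
  exact hba ⟨k, Subtype.ext (Subtype.ext (by simpa using hk))⟩

end Cfsg.Agent.S3038
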