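import Cfsg.Statements.S3047
import Cfsg.Agent.Lib.RkZ.Model

set_option autoImplicit false
open Cfsg

namespace Cfsg.Agent.S3047

/-- Let p ≥ 5 be a prime, G a finite group all of whose composition factors are known simple groups, S a Sylow p-subgroup and P a p-minimal subgroup of G containing S such that O^p(P/O_p(P)) is isomorphic to SL₂(pᵃ), PSL₂(pᵃ), SU₃(pᵃ) or PSU₃(pᵃ) for some a ≥ 1. Let L be the subgroup generated by N_G(S) and the p-minimal subgroups of G containing S other than P. Then either O^p(P) is normal in G, or every p-element of the centre of L lies in O_p(P). -/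
theorem result {G : Type*} [Group G] [Finite G] {p : ℕ} [Fact p.Prime] (hp : 5 ≤ p) (hK : Cfsg.IsCompositionKGroup G)
    (S : Sylow p G) (P : Subgroup G) (hSP : (S : Subgroup G) ≤ P) (hPmin : Cfsg.IsPMinimal p ↥P) [hn : (Cfsg.pCore p ↥P).Normal]
    (hrk1 : ∃ (F : Type) (_ : Field F) (_ : Fintype F) (a : ℕ), 1 ≤ a ∧
      ((Fintype.card F = p ^ a ∧ (Nonempty (↥(Cfsg.pResidual p (↥P ⧸ Cfsg.pCore p ↥P)) ≃* Matrix.SpecialLinearGroup (Fin 2) F) ∨
                                  Nonempty (↥(Cfsg.pResidual p (↥P ⧸ Cfsg.pCore p ↥P)) ≃* Matrix.ProjectiveSpecialLinearGroup (Fin 2) F))) ∨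
       (Fintype.card F = p ^ (2 * a) ∧ (Nonempty (↥(Cfsg.pResidual p (↥P ⧸ Cfsg.pCore p ↥P)) ≃* ↥(Cfsg.SU 3 F (p ^ a))) ∨
                                        Nonempty (↥(Cfsg.pResidual p (↥P ⧸ Cfsg.pCore p ↥P)) ≃* Cfsg.PSU 3 F (p ^ a))))))
    (L : Subgroup G)
    (hL : L = Subgroup.normalizer ((S : Subgroup G) : Set G) ⊔ ⨆ P' : {P' : Subgroup G // (S : Subgroup G) ≤ P' ∧ Cfsg.IsPMinimal p ↥P' ∧ P' ≠ P}, (P' : Subgroup G)) :
    ((Cfsg.pResidual p ↥P).map P.subtype).Normal ∨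
    ∀ z ∈ L ⊓ Subgroup.centralizer (L : Set G), (∃ k : ℕ, orderOf z = p ^ k) → z ∈ (Cfsg.pCore p ↥P).map P.subtype := by
  refine .inr fun z hz ⟨k, hk⟩ => ?_
  have hz1 : z ^ p ^ k = 1 := by rw [← hk, pow_orderOf_eq_one]
  have hc : ∀ n ∈ Subgroup.normalizer ((S : Subgroup G) : Set G), n * z = z * n := fun n hn =>
    hz.2 n (by rw [hL]; exact Subgroup.mem_sup_left hn)
  have hzS : z ∈ (S : Subgroup G) := CfsgLib.RkZ.mem_of_pel S
    (Subgroup.centralizer_le_normalizer _ fun n hn => hc n (Subgroup.le_normalizer hn)) hz1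
  have h1 : CfsgLib.RkZ.R1 p (Cfsg.pResidual p (↥P ⧸ Cfsg.pCore p ↥P)) := by
    obtain ⟨F, _, _, a, ha, ⟨hF, ⟨⟨e⟩⟩ | ⟨⟨e⟩⟩⟩ | ⟨hF, ⟨⟨e⟩⟩ | ⟨⟨e⟩⟩⟩⟩ := hrk1
    · exact (CfsgLib.RkZ.r1_SL2 hp ha hF).equiv e
    · exact (CfsgLib.RkZ.r1_SL2 hp ha hF).quot.equiv e
    · exact (CfsgLib.RkZ.r1_SU3 hp ha hF).equiv e
    · exact (CfsgLib.RkZ.r1_SU3 hp ha hF).quot.equiv e
  have hO : Cfsg.pCore p ↥P ≤ (S.subtype hSP : Subgroup P) :=
    (CfsgLib.Core.isPGroup_pCore p P).le_sylow_of_normal _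
  have h2 := CfsgLib.RkZ.key h1 (CfsgLib.Core.pCore_quotient_pCore p P)
    ((S.subtype hSP).mapSurjective (QuotientGroup.mk'_surjective (Cfsg.pCore p ↥P)))
    (z := QuotientGroup.mk' _ ⟨z, hSP hzS⟩) (k := k)
    (by rw [← map_pow, show (⟨z, hSP hzS⟩ : P) ^ p ^ k = 1 from Subtype.ext hz1, map_one]) (fun n hn => by
      obtain ⟨n, rfl⟩ := QuotientGroup.mk'_surjective _ n
      rw [← map_mul, ← map_mul]
      refine congrArg _ (Subtype.ext (hc n (Subgroup.mem_normalizer_fintype fun s hs => ?_)))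
      obtain ⟨t, ht, e⟩ := CfsgLib.RkZ.conj_mem hn
        (Subgroup.mem_map_of_mem (QuotientGroup.mk' _) (show (⟨s, hSP hs⟩ : P) ∈ (S.subtype hSP : Subgroup P) from hs))
      rw [← map_inv, ← map_mul, ← map_mul, QuotientGroup.mk'_apply, QuotientGroup.mk'_apply, QuotientGroup.eq] at e
      have := mul_mem ht (hO e)
      rw [mul_inv_cancel_left] at this
      exact this)
  exact ⟨_, (QuotientGroup.eq_one_iff _).1 h2, rfl⟩

end Cfsg.Agent.S3047
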