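import Cfsg.Statements.S3048
import Mathlib
import Cfsg.Agent.S3011
import Cfsg.Agent.Lib.Comp.FStar
import Cfsg.Agent.Lib.Core.Fitting
import Cfsg.Agent.Lib.Core.Commutator
import Cfsg.Agent.Lib.Tech.SylowIn
import Cfsg.Agent.Lib.Transfer.Residual
import Cfsg.Agent.Lib.Coprime.Action

set_option autoImplicit false
universe u
open Cfsg

namespace Cfsg.Agent.S3048

open Subgroup CfsgLib

section
variable {G : Type u} [Group G] [Finite G]

theorem mem_of_sq {A : Subgroup G} {x : G} (hx : Odd (orderOf x)) (h : x * x ∈ A) : x ∈ A := by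
  obtain ⟨k, hk⟩ := hx
  have h1 : x = ((x * x) ^ (k + 1)) := by
    rw [← pow_two, ← pow_mul, show 2 * (k + 1) = orderOf x + 1 by omega, pow_succ, pow_orderOf_eq_one, one_mul]
  rw [h1]
  exact A.pow_mem h _

theorem odd_of_coprime {n : ℕ} (h : n.Coprime 2) : Odd n := (Nat.coprime_two_right).1 h

theorem sidki_map {V N : Subgroup G} [N.Normal] (hV : ∀ v ∈ V, v * v = 1) (hS : Cfsg.IsSidkiPair V)
    (hVN : V ⊓ N = ⊥) : Cfsg.IsSidkiPair (V.map (QuotientGroup.mk' N)) := by
  haveI : Fact (Nat.Prime 2) := ⟨Nat.prime_two⟩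
  set f := QuotientGroup.mk' N with hf
  rintro h _ ⟨v, hv, rfl⟩ ho hinv
  obtain ⟨k, hk⟩ := ho
  obtain ⟨h₀, hh₀⟩ := QuotientGroup.mk'_surjective N (h ^ (k + 1))
  rw [← hf] at hh₀
  set h' := h₀ * v * h₀⁻¹ * v⁻¹ with hh'
  have hvv : v⁻¹ = v := inv_eq_of_mul_eq_one_right (hV v hv)
  have e1 : f h' = h := by
    have : f v * h ^ (k + 1) * (f v)⁻¹ = (h ^ (k + 1))⁻¹ := by
      rw [← conj_pow, hinv, inv_pow]
    simp only [hh', map_mul, map_inv, hh₀]
    calc h ^ (k + 1) * f v * (h ^ (k + 1))⁻¹ * (f v)⁻¹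
        = h ^ (k + 1) * (f v * h ^ (k + 1) * (f v)⁻¹)⁻¹ := by group
      _ = h ^ (orderOf h + 1) := by rw [this, inv_inv, ← pow_add, hk]; congr 1; ring
      _ = h := by rw [pow_succ, pow_orderOf_eq_one, one_mul]
  have e2 : v * h' * v⁻¹ = h'⁻¹ := by
    calc v * h' * v⁻¹ = v * h₀ * v * h₀⁻¹ * (v * v)⁻¹ := by rw [hh']; group
      _ = v * h₀ * v⁻¹ * h₀⁻¹ := by rw [hV v hv, hvv]; group
      _ = _ := by rw [hh']; group
  obtain ⟨a, b, ha, hb, ⟨j, hj⟩, hbo, hab⟩ := Transfer.exists_p_part (p := 2) h'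
  obtain ⟨n, rfl⟩ := mem_zpowers_iff.1 hb
  obtain ⟨m, rfl⟩ := mem_zpowers_iff.1 ha
  obtain ⟨w, hw, hw1, hc⟩ := hS (h' ^ n) v hv (odd_of_coprime hbo) (by rw [← conj_zpow, e2, inv_zpow])
  have e3 : f (h' ^ m) = 1 := by
    rw [← orderOf_eq_one_iff]
    have d1 : orderOf (f (h' ^ m)) ∣ 2 ^ j := orderOf_dvd_of_pow_eq_one (by rw [← map_pow, hj, map_one])
    have d2 : orderOf (f (h' ^ m)) ∣ orderOf h := by
      rw [map_zpow, e1]
      exact orderOf_dvd_of_mem_zpowers (zpow_mem_zpowers h m)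
    have : (orderOf h).Coprime (2 ^ j) := Nat.Coprime.pow_right _ ((Nat.coprime_two_right).2 ⟨k, hk⟩)
    exact Nat.eq_one_of_dvd_coprimes this d2 d1
  have e4 : f (h' ^ n) = h := by
    rw [← e1]
    conv_rhs => rw [hab, map_mul, e3, one_mul]
  refine ⟨f w, ⟨w, hw, rfl⟩, ?_, ?_⟩
  · intro h1
    apply hw1
    have : w ∈ V ⊓ N := ⟨hw, (QuotientGroup.eq_one_iff w).1 h1⟩
    rwa [hVN, mem_bot] at this
  · rw [← e4, ← map_mul, hc, map_mul]

theorem mem_of_inverts {D A : Subgroup G} (hD : ∀ x ∈ D, ∀ y ∈ D, x * y = y * x)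
    (hn : D ≤ normalizer (A : Set G)) {a d : G} (ha : a ∈ D ⊔ A) (hd : d ∈ D) (ho : Odd (orderOf a))
    (hinv : d * a * d⁻¹ = a⁻¹) : a ∈ A := by
  apply mem_of_sq ho
  obtain ⟨y, hy, s, hs, rfl⟩ := (Core.mem_sup_of_le_normalizer_right hn).1 ha
  have h1 : y * s * (y * s) = y * (s * (d * s⁻¹ * d⁻¹)) * y⁻¹ := by
    calc y * s * (y * s) = y * s * (d * (y * s) * d⁻¹)⁻¹ := by rw [hinv, inv_inv]
      _ = y * s * d * s⁻¹ * (d * y)⁻¹ := by group
      _ = y * s * d * s⁻¹ * (y * d)⁻¹ := by rw [hD d hd y hy]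
      _ = _ := by group
  rw [h1]
  exact (mem_normalizer_iff.1 (hn hy) _).1 (A.mul_mem hs ((mem_normalizer_iff.1 (hn hd) _).1 (A.inv_mem hs)))

/-- In a proper subgroup `W A`, a relative Sidki pair `W` centralizes `A` nontrivially. -/
theorem exists_centralizes (hO : pCore 2 G = ⊥)
    (hminG : ∀ (H : Type u) [Group H] [Finite H] (W : Subgroup H), Nat.card H < Nat.card G → Cfsg.IsElementaryAbelian 2 W → W ≠ ⊥ → Cfsg.IsSidkiPair W → W ⊓ Cfsg.pCore 2 H ≠ ⊥)
    {W A : Subgroup G} (hW : Cfsg.IsElementaryAbelian 2 W) (hW1 : W ≠ ⊥) (hA : A.IsSubnormal)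
    (hn : W ≤ normalizer (A : Set G)) (hne : W ⊔ A ≠ ⊤)
    (hS : ∀ a ∈ A, ∀ v ∈ W, Odd (orderOf a) → v * a * v⁻¹ = a⁻¹ → ∃ w ∈ W, w ≠ 1 ∧ w * a = a * w) :
    ∃ w ∈ W, w ≠ 1 ∧ w ∈ centralizer (A : Set G) := by
  have hcomm := Core.isMulCommutative_iff_forall.1 hW.1
  set H := W ⊔ A with hH
  have hWH : W ≤ H := le_sup_left
  have h1 := hminG H (W.subgroupOf H) (Core.card_lt_of_ne_top hne)
    ⟨Core.isMulCommutative_iff_forall.2 fun a ha b hb => Subtype.ext (hcomm _ ha _ hb),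
      fun a ha => Subtype.ext (hW.2 _ ha)⟩
    (fun h => hW1 (by rwa [subgroupOf_eq_bot, disjoint_iff, inf_eq_left.2 hWH] at h))
    (by
      intro h v hv ho hinv
      have ho' : Odd (orderOf (h : G)) := by rwa [orderOf_coe]
      have hinv' : (v : G) * h * (v : G)⁻¹ = (h : G)⁻¹ := congrArg Subtype.val hinv
      obtain ⟨w, hw, hw1, hc⟩ := hS h (mem_of_inverts hcomm hn h.2 hv ho' hinv') v hv ho' hinv'
      exact ⟨⟨w, hWH hw⟩, hw, fun h => hw1 (congrArg Subtype.val h), Subtype.ext hc⟩)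
  obtain ⟨⟨w, hw, hwO⟩, hw1⟩ := (Subgroup.ne_bot_iff_exists_ne_one).1 h1
  refine ⟨w, hw, fun h => hw1 (Subtype.ext (Subtype.ext h)), ?_⟩
  set O := (pCore 2 H).map H.subtype with hOdef
  have hHO : H ≤ normalizer (O : Set G) := le_normalizer.trans (Core.normalizer_le_normalizer_map_pCore H)
  have hHA : H ≤ normalizer (A : Set G) := sup_le hn le_normalizer
  have hOA : O ⊓ A = ⊥ := by
    rw [eq_bot_iff, ← hO]
    refine Core.le_pCore_of_isSubnormal ?_ ((Core.isPGroup_map_pCore H).to_le inf_le_left)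
    refine IsSubnormal.trans inf_le_right ((normal_subgroupOf_iff_le_normalizer inf_le_right).2 ?_).isSubnormal hA
    exact (le_inf (le_sup_right.trans hHO) le_normalizer).trans inf_normalizer_le_normalizer_inf
  exact Core.le_centralizer_of_le_normalizer_of_disjoint ((map_subtype_le _).trans hHA)
    (le_sup_right.trans hHO) hOA ⟨w, hwO, rfl⟩

end

/-- Minimal counterexample reduction for the Sidki pair problem. Let G be a finite group and V a nontrivial elementary abelian 2-subgroup satisfying the Sidki pair condition with V ∩ O₂(G) = 1. Suppose that for every finite group H of smaller order, every nontrivial elementary abelian 2-subgroup W of H satisfying the Sidki pair condition meets O₂(H) nontrivially, and that the same holds in G for every such subgroup W of order smaller than that of V. Then the generalized Fitting subgroup F*(G) is a non-abelian simple group and G = V F*(G). -/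
theorem result {G : Type u} [Group G] [Finite G] (V : Subgroup G) (hV : Cfsg.IsElementaryAbelian 2 V) (hV1 : V ≠ ⊥) (hS : Cfsg.IsSidkiPair V) (hVO : V ⊓ Cfsg.pCore 2 G = ⊥) (hminG : ∀ (H : Type u) [Group H] [Finite H] (W : Subgroup H), Nat.card H < Nat.card G → Cfsg.IsElementaryAbelian 2 W → W ≠ ⊥ → Cfsg.IsSidkiPair W → W ⊓ Cfsg.pCore 2 H ≠ ⊥) (hminV : ∀ W : Subgroup G, Nat.card W < Nat.card V → Cfsg.IsElementaryAbelian 2 W → W ≠ ⊥ → Cfsg.IsSidkiPair W → W ⊓ Cfsg.pCore 2 G ≠ ⊥) : IsSimpleGroup ↥(Cfsg.generalizedFittingSubgroup G) ∧ ¬ IsMulCommutative ↥(Cfsg.generalizedFittingSubgroup G) ∧ V ⊔ Cfsg.generalizedFittingSubgroup G = ⊤ := by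
  classical
  haveI : Fact (Nat.Prime 2) := ⟨Nat.prime_two⟩
  have hsq : ∀ v ∈ V, v * v = 1 := fun v hv => by rw [← pow_two]; exact hV.2 v hv
  have hcomm : ∀ u ∈ V, ∀ v ∈ V, u * v = v * u := Core.isMulCommutative_iff_forall.1 hV.1
  have hsub : ∀ W : Subgroup G, W ≤ V → Cfsg.IsElementaryAbelian 2 W := fun W hW =>
    ⟨Core.isMulCommutative_iff_forall.2 fun a ha b hb => hcomm _ (hW ha) _ (hW hb), fun a ha => hV.2 a (hW ha)⟩
  have hVp : IsPGroup 2 V := Core.isPGroup_subgroup_iff.2 fun g hg => ⟨1, by rw [pow_one]; exact hV.2 g hg⟩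
  have hquot : ∀ (N : Subgroup G) [N.Normal], N ≠ ⊥ → V ⊓ N = ⊥ →
      ∃ v ∈ V, v ≠ 1 ∧ QuotientGroup.mk' N v ∈ pCore 2 (G ⧸ N) := by
    intro N _ hN hVN
    have h1 := hminG (G ⧸ N) (V.map (QuotientGroup.mk' N)) (Core.card_quotient_lt_of_ne_bot hN)
      ⟨Core.isMulCommutative_iff_forall.2 (by
          rintro _ ⟨a, ha, rfl⟩ _ ⟨b, hb, rfl⟩
          rw [← map_mul, hcomm a ha b hb, map_mul]),
        by rintro _ ⟨a, ha, rfl⟩; rw [← map_pow, hV.2 a ha, map_one]⟩
      (by
        intro h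
        rw [Subgroup.map_eq_bot_iff, QuotientGroup.ker_mk'] at h
        exact hV1 (by rwa [inf_eq_left.2 h] at hVN))
      (sidki_map hsq hS hVN)
    obtain ⟨⟨_, ⟨v, hv, rfl⟩, hvO⟩, hv1⟩ := (Subgroup.ne_bot_iff_exists_ne_one).1 h1
    exact ⟨v, hv, fun h => hv1 (Subtype.ext (by simp [h])), hvO⟩
  haveI := Core.pCore_characteristic 2 G
  have hO : pCore 2 G = ⊥ := by
    by_contra hne
    obtain ⟨v, hv, hv1, h⟩ := hquot _ hne hVO
    rw [Core.pCore_quotient_pCore, mem_bot, QuotientGroup.mk'_apply, QuotientGroup.eq_one_iff] at h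
    have : v ∈ V ⊓ pCore 2 G := ⟨hv, h⟩
    rw [hVO, mem_bot] at this
    exact hv1 this
  have hFodd : ∀ x ∈ fittingSubgroup G, Odd (orderOf x) := fun x hx =>
    odd_of_coprime (Core.subgroup_coprime_card_iff.1 (Core.coprime_card_pPrimeCore 2 G) x
      (Core.fittingSubgroup_le_pPrimeCore_of_pCore_eq_bot Nat.prime_two hO hx))
  have hVF : ∀ v ∈ V, v ∈ fittingSubgroup G → v = 1 := fun v hv h =>
    S3011.eq_one_of_odd (hFodd v h) (hsq v hv)
  have hZ : center G = ⊥ := by
    by_contra hne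
    obtain ⟨v, hv, hv1, h⟩ := hquot _ hne (eq_bot_iff.2 fun x hx =>
      mem_bot.2 (hVF x hx.1 (Core.center_le_fittingSubgroup hx.2)))
    haveI : Group.IsNilpotent (pCore 2 (G ⧸ center G)) := (Core.isPGroup_pCore 2 _).isNilpotent
    haveI := Core.pCore_characteristic 2 (G ⧸ center G)
    have h2 := Core.isNilpotent_comap_of_ker_le_center (QuotientGroup.mk' (center G))
      (QuotientGroup.ker_mk' _).le (pCore 2 (G ⧸ center G))
    exact hv1 (hVF v hv (Core.le_fittingSubgroup h2 h))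
  -- step 2
  have hcentA : ∀ A : Subgroup G, A.Normal → V ⊔ A ≠ ⊤ → V ≤ centralizer (A : Set G) := by
    intro A hA hne
    by_contra hcon
    set W := V ⊓ centralizer (A : Set G) with hW
    have hW1 : W ≠ ⊥ := by
      obtain ⟨w, hw, hw1, h⟩ := exists_centralizes hO hminG hV hV1 hA.isSubnormal le_normalizer_of_normal hne
        (fun a _ v hv ho hinv => hS a v hv ho hinv)
      intro hb
      have : w ∈ W := ⟨hw, h⟩
      rw [hb, mem_bot] at this
      exact hw1 this
    have hlt : W < V := lt_of_le_of_ne inf_le_left fun h => hcon (h.ge.trans inf_le_right)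
    have hnS : ¬ Cfsg.IsSidkiPair W := fun h =>
      hminV W (Core.card_lt_of_lt hlt) (hsub W hlt.le) hW1 h (by rw [hO, inf_bot_eq])
    simp only [Cfsg.IsSidkiPair, not_forall] at hnS
    obtain ⟨b, w, hw, hbo, hwb, hno⟩ := hnS
    have hbC : b ∈ centralizer (A : Set G) := by
      apply mem_of_sq hbo
      have h1 : b * b = b * w * b⁻¹ * w⁻¹ := by
        calc b * b = b * (w * b * w⁻¹)⁻¹ := by rw [hwb, inv_inv]
          _ = _ := by group
      rw [h1]
      exact (centralizer (A : Set G)).mul_mem (Normal.conj_mem inferInstance w hw.2 b)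
        ((centralizer (A : Set G)).inv_mem hw.2)
    set D := V ⊓ centralizer {b} with hD
    have hD1 : D ≠ ⊥ := by
      obtain ⟨t, ht, ht1, hc⟩ := hS b w hw.1 hbo hwb
      intro hb
      have : t ∈ D := ⟨ht, mem_centralizer_singleton_iff.2 hc⟩
      rw [hb, mem_bot] at this
      exact ht1 this
    have hnS' : ¬ ∀ a ∈ A, ∀ v ∈ D, Odd (orderOf a) → v * a * v⁻¹ = a⁻¹ → ∃ w ∈ D, w ≠ 1 ∧ w * a = a * w := by
      intro h
      obtain ⟨t, ht, ht1, htA⟩ := exists_centralizes hO hminG (hsub D inf_le_left) hD1 hA.isSubnormal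
        le_normalizer_of_normal (fun h => hne (top_le_iff.1 (h.ge.trans (sup_le_sup_right inf_le_left _)))) h
      exact hno ⟨t, ⟨ht.1, htA⟩, ht1, mem_centralizer_singleton_iff.1 ht.2⟩
    simp only [not_forall] at hnS'
    obtain ⟨a, haA, d, hd, hao, hda, hno'⟩ := hnS'
    have hab : Commute a b := mem_centralizer_iff.1 hbC a haA
    have hdb : d * b = b * d := mem_centralizer_singleton_iff.1 hd.2
    have hwA : ∀ x ∈ A, x * w = w * x := mem_centralizer_iff.1 hw.2
    obtain ⟨t, ht, ht1, htc⟩ := hS (a * b) (w * d) (V.mul_mem hw.1 hd.1)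
      ((hao.mul hbo).of_dvd_nat hab.orderOf_mul_dvd_mul_orderOf) (by
        calc w * d * (a * b) * (w * d)⁻¹ = w * (d * a * d⁻¹) * (d * b) * d⁻¹ * w⁻¹ := by group
          _ = (w * a⁻¹) * b * w⁻¹ := by rw [hda, hdb]; group
          _ = a⁻¹ * (w * b * w⁻¹) := by rw [← hwA _ (A.inv_mem haA)]; group
          _ = (b * a)⁻¹ := by rw [hwb]; group
          _ = _ := by rw [hab.eq])
    set z := a⁻¹ * (t * a * t⁻¹) with hz
    have hzA : z ∈ A := A.mul_mem (A.inv_mem haA) (hA.conj_mem a haA t)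
    have e1 : t * b * t⁻¹ = z⁻¹ * b := by
      calc t * b * t⁻¹ = (t * a * t⁻¹)⁻¹ * (t * (a * b)) * t⁻¹ := by group
        _ = _ := by rw [htc, hz]; group
    have hzb : z * b = b * z := mem_centralizer_iff.1 hbC z hzA
    have e2 : z⁻¹ = z := by
      have h1 : w * (t * b * t⁻¹) * w⁻¹ = (t * b * t⁻¹)⁻¹ := by
        calc w * (t * b * t⁻¹) * w⁻¹ = (w * t) * b * (w * t)⁻¹ := by group
          _ = t * (w * b * w⁻¹) * t⁻¹ := by rw [hcomm w hw.1 t ht]; group
          _ = _ := by rw [hwb]; group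
      rw [e1] at h1
      have h2 : w * (z⁻¹ * b) * w⁻¹ = z⁻¹ * b⁻¹ := by
        calc w * (z⁻¹ * b) * w⁻¹ = (w * z⁻¹) * b * w⁻¹ := by group
          _ = z⁻¹ * (w * b * w⁻¹) := by rw [← hwA _ (A.inv_mem hzA)]; group
          _ = _ := by rw [hwb]
      rw [h2] at h1
      calc z⁻¹ = (z⁻¹ * b⁻¹) * b := by group
        _ = b⁻¹ * (z * b) := by rw [h1]; group
        _ = z := by rw [hzb]; group
    have e3 : Commute b t := by
      apply S3011.commute_of_sq hbo
      show b * b * t = t * (b * b)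
      calc b * b * t = (z⁻¹ * (z * b) * b) * t := by group
        _ = (z⁻¹ * (b * z) * b) * t := by rw [hzb]
        _ = (z⁻¹ * b) * (z * b) * t := by group
        _ = (t * b * t⁻¹) * (t * b * t⁻¹) * t := by rw [e1, e2]
        _ = _ := by group
    refine hno' ⟨t, ⟨ht, mem_centralizer_singleton_iff.2 e3.eq.symm⟩, ht1, ?_⟩
    calc t * a = t * (a * b) * b⁻¹ := by group
      _ = a * (b * t) * b⁻¹ := by rw [htc]; group
      _ = a * t := by rw [e3.eq]; group
  have hL : normalClosure (V : Set G) = ⊤ := by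
    by_contra hne
    have h1 := hcentA _ normalClosure_normal (by rwa [sup_eq_right.2 le_normalClosure])
    apply hV1
    rw [eq_bot_iff, ← hO]
    refine Core.le_pCore_of_isSubnormal ?_ hVp
    refine IsSubnormal.trans le_normalClosure ((normal_subgroupOf_iff_le_normalizer le_normalClosure).2 ?_).isSubnormal
      normalClosure_normal.isSubnormal
    exact (le_centralizer_iff.1 h1).trans (centralizer_le_normalizer _)
  have hall : ∀ A : Subgroup G, A.Normal → A ≠ ⊥ → V ⊔ A = ⊤ := by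
    intro A hA hA1
    by_contra hne
    have h1 := normalClosure_le_normal (hcentA A hA hne)
    rw [hL] at h1
    apply hA1
    rw [eq_bot_iff, ← hZ, ← centralizer_univ]
    exact le_centralizer_iff.1 h1
  have hcen : ∀ A : Subgroup G, A.Normal → A ≠ ⊥ → ∀ v ∈ V, A ≤ centralizer {v} → v = 1 := by
    intro A hA hA1 v hv h
    have h1 : (⊤ : Subgroup G) ≤ centralizer {v} := by
      rw [← hall A hA hA1]
      exact sup_le (fun x hx => mem_centralizer_singleton_iff.2 (hcomm x hx v hv)) h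
    rw [← mem_bot, ← hZ, mem_center_iff]
    exact fun g => mem_centralizer_singleton_iff.1 (h1 (mem_top g))
  obtain ⟨⟨x₀, hx₀⟩, hx₀1⟩ := (Subgroup.ne_bot_iff_exists_ne_one).1 hV1
  have hx₀1' : x₀ ≠ 1 := fun h => hx₀1 (Subtype.ext h)
  have hinvc : ∀ x ∈ V, ∀ a : G, x * (a * x * a⁻¹ * x⁻¹) * x⁻¹ = (a * x * a⁻¹ * x⁻¹)⁻¹ := by
    intro v hv a
    have hvv : v⁻¹ = v := inv_eq_of_mul_eq_one_right (hsq v hv)
    calc v * (a * v * a⁻¹ * v⁻¹) * v⁻¹ = v * a * v * a⁻¹ * (v * v)⁻¹ := by group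
      _ = v * a * v⁻¹ * a⁻¹ := by rw [hsq v hv, hvv]; group
      _ = _ := by group
  have hF : fittingSubgroup G = ⊥ := by
    by_contra hne
    haveI := Core.fittingSubgroup_normal G
    haveI := Core.isNilpotent_fittingSubgroup G
    set A := fittingSubgroup G ⊓ centralizer (fittingSubgroup G : Set G) with hA
    have hA1 : A ≠ ⊥ := Core.inf_centralizer_ne_bot_of_isNilpotent le_rfl le_normalizer hne
    have hAn : A.Normal := inferInstance
    have hfree : ∀ v ∈ V, v ≠ 1 → A ⊓ centralizer {v} = ⊥ := by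
      intro v hv hv1
      by_contra hB
      refine hv1 (hcen _ ?_ hB v hv inf_le_right)
      rw [← normalizer_eq_top_iff, eq_top_iff, ← hall A hAn hA1]
      refine sup_le ?_ ?_
      · refine (le_inf le_normalizer_of_normal (le_trans ?_ le_normalizer)).trans inf_normalizer_le_normalizer_inf
        exact fun x hx => mem_centralizer_singleton_iff.2 (hcomm x hx v hv)
      · exact inf_le_right.trans ((centralizer_le (SetLike.coe_subset_coe.2
          (inf_le_left.trans inf_le_left))).trans (centralizer_le_normalizer _))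
    obtain ⟨⟨a, ha⟩, ha1⟩ := (Subgroup.ne_bot_iff_exists_ne_one).1 hA1
    have hh : a * x₀ * a⁻¹ * x₀⁻¹ ∈ A := by
      have := A.mul_mem ha (hAn.conj_mem _ (A.inv_mem ha) x₀)
      simpa [mul_assoc] using this
    obtain ⟨w, hw, hw1, hc⟩ := hS _ x₀ hx₀ (hFodd _ hh.1) (hinvc x₀ hx₀ a)
    have h1 : a * x₀ * a⁻¹ * x₀⁻¹ ∈ A ⊓ centralizer {w} := ⟨hh, mem_centralizer_singleton_iff.2 hc.symm⟩
    rw [hfree w hw hw1, mem_bot] at h1
    have h2 : a ∈ A ⊓ centralizer {x₀} := by
      refine ⟨ha, mem_centralizer_singleton_iff.2 ?_⟩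
      calc a * x₀ = (a * x₀ * a⁻¹ * x₀⁻¹) * (x₀ * a) := by group
        _ = _ := by rw [h1, one_mul]
    rw [hfree x₀ hx₀ hx₀1', mem_bot] at h2
    exact ha1 (Subtype.ext h2)
  haveI : Nontrivial G := ⟨⟨x₀, 1, hx₀1'⟩⟩
  have hFE : generalizedFittingSubgroup G = layer G := by rw [Comp.fstar_def, hF, sup_bot_eq]
  have hE1 : layer G ≠ ⊥ := hFE ▸ Comp.fstar_ne_bot
  have hVE := hall _ Comp.layer_normal hE1
  obtain ⟨K, hK⟩ : ∃ K : Subgroup G, IsComponent K := by
    by_contra h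
    push Not at h
    exact hE1 (Comp.layer_eq_bot_iff.2 h)
  have hcj : ∀ g : G, IsComponent (Tech.cj g K) := fun g => Comp.comp_map_conj hK g
  have hZK : ∀ a ∈ K, a ∈ centralizer (K : Set G) → a = 1 := fun a ha hc => by
    have := Comp.comp_inf_centralizer_le_fit hK ⟨ha, hc⟩
    rwa [hF, mem_bot] at this
  have hout : ∀ w, w ∉ normalizer (K : Set G) → ∀ a ∈ K, w * a * w⁻¹ ∈ centralizer (K : Set G) :=
    fun w hw a ha => Comp.comp_le_centralizer_of_ne (hcj w) hK
      (fun h => hw (Tech.mem_normalizer_iff_cj.2 h)) (Tech.conj_mem_cj.2 ha)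
  have hVK : V ≤ normalizer (K : Set G) := by
    by_contra hcon
    set U := V ⊓ normalizer (K : Set G) with hU
    by_cases hU1 : U = ⊥
    · have hnot : ∀ w ∈ V, w ≠ 1 → w ∉ normalizer (K : Set G) := by
        intro w hw hw1 h
        have : w ∈ U := ⟨hw, h⟩
        rw [hU1, mem_bot] at this
        exact hw1 this
      obtain ⟨a, haK, ha1, hao⟩ : ∃ a ∈ K, a ≠ 1 ∧ Odd (orderOf a) := by
        by_contra h
        push Not at h
        apply Comp.comp_not_le_solvable hK (Coprime.isSolvable_of_isPGroup (p := 2) ?_) le_rfl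
        rw [Core.isPGroup_subgroup_iff]
        intro g hg
        obtain ⟨k, hk⟩ := Transfer.exists_pow_coprime (p := 2) g
        refine ⟨k, ?_⟩
        by_contra h1
        exact h _ (K.pow_mem hg _) h1 (odd_of_coprime hk)
      have hc0 := hout x₀ (hnot x₀ hx₀ hx₀1') a⁻¹ (K.inv_mem haK)
      have hcm : Commute a (x₀ * a⁻¹ * x₀⁻¹) := mem_centralizer_iff.1 hc0 a haK
      have e0 : a * x₀ * a⁻¹ * x₀⁻¹ = a * (x₀ * a⁻¹ * x₀⁻¹) := by group
      have ho : Odd (orderOf (a * x₀ * a⁻¹ * x₀⁻¹)) := by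
        rw [e0]
        refine (hao.mul ?_).of_dvd_nat hcm.orderOf_mul_dvd_mul_orderOf
        have := (MulAut.conj x₀).orderOf_eq a⁻¹
        rw [MulAut.conj_apply, orderOf_inv] at this
        rwa [this]
      obtain ⟨w, hw, hw1, hc⟩ := hS _ x₀ hx₀ ho (hinvc x₀ hx₀ a)
      apply ha1
      apply hZK a haK
      have h1 : a * x₀ * a⁻¹ * x₀⁻¹ ∈ centralizer (K : Set G) := by
        by_cases hwx : w = x₀
        · subst hwx
          have h2 : a * w * a⁻¹ * w⁻¹ = 1 := by
            apply S3011.eq_one_of_odd ho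
            have h3 := hinvc w hw a
            rw [hc, mul_inv_cancel_right] at h3
            nth_rewrite 2 [h3]
            exact mul_inv_cancel _
          rw [h2]; exact one_mem _
        · have hwx1 : w * x₀ ≠ 1 := by
            intro h
            apply hwx
            calc w = w * x₀ * x₀ := by rw [mul_assoc, hsq x₀ hx₀, mul_one]
              _ = x₀ := by rw [h, one_mul]
          have h2 : a * x₀ * a⁻¹ * x₀⁻¹ = (w * a * w⁻¹) * ((w * x₀) * a⁻¹ * (w * x₀)⁻¹) := by
            calc a * x₀ * a⁻¹ * x₀⁻¹ = (a * x₀ * a⁻¹ * x₀⁻¹ * w) * w⁻¹ := by group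
              _ = _ := by rw [← hc]; group
          rw [h2]
          exact mul_mem (hout w (hnot w hw hw1) a haK)
            (hout _ (hnot _ (V.mul_mem hw hx₀) hwx1) _ (K.inv_mem haK))
      have h4 := mul_mem h1 (inv_mem hc0)
      rwa [e0, mul_inv_cancel_right] at h4
    · have hnS : ¬ ∀ a ∈ K, ∀ v ∈ U, Odd (orderOf a) → v * a * v⁻¹ = a⁻¹ →
          ∃ w ∈ U, w ≠ 1 ∧ w * a = a * w := by
        intro h
        obtain ⟨u, hu, hu1, huK⟩ := exists_centralizes hO hminG (hsub U inf_le_left) hU1 hK.1 inf_le_right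
          (fun h => hcon (le_top.trans (h.ge.trans (sup_le inf_le_right le_normalizer)))) h
        apply hu1
        set L := ⨆ v : V, Tech.cj (v : G) K with hLdef
        have hKL : K ≤ L := le_trans (le_of_eq (Tech.cj_one K).symm)
          (le_iSup (fun s : V => Tech.cj (s : G) K) 1)
        refine hcen L ?_ (fun h => Comp.comp_ne_bot hK (le_bot_iff.1 (h ▸ hKL))) u hu.1 ?_
        · rw [← normalizer_eq_top_iff, eq_top_iff, ← hVE]
          refine sup_le ?_ ?_
          · intro t ht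
            apply Tech.mem_normalizer_of_cj_le
            show Subgroup.map _ _ ≤ _
            rw [Subgroup.map_iSup]
            refine iSup_le fun s => ?_
            refine le_trans (le_of_eq ?_) (le_iSup (fun s : V => Tech.cj (s : G) K) (⟨t, ht⟩ * s))
            exact (Tech.cj_mul t s K).symm
          · intro e he
            apply Tech.mem_normalizer_of_cj_le
            show Subgroup.map _ _ ≤ _
            rw [Subgroup.map_iSup]
            refine iSup_le fun s => ?_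
            refine le_trans (le_of_eq ?_) (le_iSup (fun s : V => Tech.cj (s : G) K) s)
            exact Tech.mem_normalizer_iff_cj.1 (Comp.layer_le_normalizer_comp (hcj s) he)
        · refine iSup_le fun s => Tech.cj_le_iff.2 fun k hk => ?_
          have h1 : (s : G) ∈ centralizer {u} := mem_centralizer_singleton_iff.2 (hcomm _ s.2 u hu.1)
          exact mul_mem (mul_mem h1 (mem_centralizer_singleton_iff.2 (mem_centralizer_iff.1 huK k hk)))
            (inv_mem h1)
      simp only [not_forall] at hnS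
      obtain ⟨a, haK, u, hu, hao, hua, hno⟩ := hnS
      obtain ⟨w, hw, hw1, hc⟩ := hS a u hu.1 hao hua
      have hwK : w ∉ normalizer (K : Set G) := fun h => hno ⟨w, ⟨hw, h⟩, hw1, hc⟩
      have h1 := hout w hwK a haK
      rw [hc, mul_inv_cancel_right] at h1
      obtain ⟨⟨u', hu'⟩, hu1⟩ := (Subgroup.ne_bot_iff_exists_ne_one).1 hU1
      exact hno ⟨u', hu', fun h => hu1 (Subtype.ext h), by rw [hZK a haK h1]; simp⟩
  haveI hKn : K.Normal := by
    rw [← normalizer_eq_top_iff, eq_top_iff, ← hVE]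
    exact sup_le hVK (Comp.layer_le_normalizer_comp hK)
  have hVK' := hall K hKn (Comp.comp_ne_bot hK)
  have hEK : layer G = K := by
    refine le_antisymm ?_ (Comp.comp_le_layer hK)
    rw [← Comp.layer_perfect, Core.commutator_le_iff_map_mk']
    have h1 : ∀ g : G, ∃ v ∈ V, QuotientGroup.mk' K g = QuotientGroup.mk' K v := by
      intro g
      obtain ⟨v, hv, k, hk, rfl⟩ := (Core.mem_sup_of_le_normalizer_right hVK).1 (hVK' ▸ mem_top g)
      refine ⟨v, hv, ?_⟩
      rw [map_mul, QuotientGroup.mk'_apply K k, (QuotientGroup.eq_one_iff k).2 hk, mul_one]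
    rintro _ ⟨g, -, rfl⟩
    rw [mem_centralizer_iff]
    rintro _ ⟨h, -, rfl⟩
    obtain ⟨v, hv, e1⟩ := h1 g
    obtain ⟨w, hw, e2⟩ := h1 h
    rw [e1, e2, ← map_mul, hcomm w hw v hv, map_mul]
  rw [hFE, hEK]
  refine ⟨Comp.isSimpleGroup_of_qs_of_center_eq_bot hK.2 ?_, Comp.qs_not_isMulCommutative hK.2, hVK'⟩
  rw [eq_bot_iff]
  intro a ha
  rw [mem_bot]
  apply Subtype.ext
  refine hZK a a.2 (mem_centralizer_iff.2 fun g hg => ?_)
  exact congrArg Subtype.val (mem_center_iff.1 ha ⟨g, hg⟩)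

end Cfsg.Agent.S3048
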