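import Cfsg.Statements.S3053
import Cfsg.Agent.Lib.Push.PUComm
import Cfsg.Agent.Lib.PGroup.Extraspecial

set_option autoImplicit false
open Cfsg

namespace Cfsg.Agent.S3053

open CfsgLib.Push CfsgLib.LAE CfsgLib.PLocal Subgroup
open scoped commutatorElement

theorem eq_of_card {G : Type*} [Group G] [Finite G] {p : ℕ} [Fact p.Prime] {Z B X S : Subgroup G}
    (hZ : Nat.card Z = p) (hS : Nat.card S = p ^ 3) (h1 : Z < B) (h2 : B ≤ X) (h3 : X < S) : X = B := by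
  have hp : 1 < p := (Fact.out : p.Prime).one_lt
  obtain ⟨i, -, hi⟩ := (Nat.dvd_prime_pow Fact.out).1 (hS ▸ card_dvd_of_le (h2.trans h3.le))
  obtain ⟨j, -, hj⟩ := (Nat.dvd_prime_pow Fact.out).1 (hS ▸ card_dvd_of_le h3.le)
  have c1 := CfsgLib.Core.card_lt_of_lt h1
  have c2 := CfsgLib.Core.card_lt_of_lt h3
  rw [hZ, hi] at c1
  rw [hS, hj, Nat.pow_lt_pow_iff_right hp] at c2
  nth_rewrite 1 [← pow_one p] at c1
  rw [Nat.pow_lt_pow_iff_right hp] at c1
  refine (eq_of_le_of_card_ge h2 ?_).symm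
  rw [hi, hj]
  exact Nat.pow_le_pow_right hp.le (by omega)

/-- Let p be an odd prime and G a finite group with a Sylow p-subgroup P that is extraspecial of order p³ and exponent p². Then the centre of P is strongly closed in P with respect to G: a G-conjugate of an element of Z(P) that lies in P already lies in Z(P). In particular a nontrivial central element of P is conjugate in G to no noncentral element of P. -/
theorem result {G : Type*} [Group G] [Finite G]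
    {p : ℕ} [Fact p.Prime] (hp : p ≠ 2) (P : Sylow p G) (hE : Cfsg.IsExtraspecial p ↥P)
    (hcard : Nat.card P = p ^ 3) (hexp : Monoid.exponent ↥P = p ^ 2) :
    Cfsg.IsStronglyClosed ((Subgroup.center ↥P).map (P : Subgroup G).subtype) (P : Subgroup G) := by
  refine (map_center_subtype (P : Subgroup G)).symm ▸ ?_
  obtain ⟨e1, e2⟩ := CfsgLib.PGroup.IsExtraspecial.ambient (E := (P : Subgroup G)) hE
  set S : Subgroup G := (P : Subgroup G) with hS
  set Z := S ⊓ centralizer (S : Set G) with hZ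
  refine ⟨inf_le_left, fun z hz g hx => by_contra fun hxZ => ?_⟩
  set x := g * z * g⁻¹ with hxd
  have hZp : ∀ c ∈ Z, c ^ p = 1 := fun c hc =>
    congrArg Subtype.val (e2 ▸ pow_card_eq_one' (x := (⟨c, hc⟩ : Z)))
  have hcm : ∀ {a b}, a ∈ S → b ∈ S → ⁅a, b⁆ ∈ Z := fun ha hb =>
    e1.le (commutator_mem_commutator ha hb)
  have hgen : ∀ c ∈ Z, c ≠ 1 → zpowers c = Z := fun c hc h1 => eq_of_le_of_card_ge (zpowers_le.2 hc)
    (by rw [Nat.card_zpowers, orderOf_eq_prime (hZp c hc) h1, e2])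
  have hpow : ∀ {a b}, a ∈ S → b ∈ S → (a * b) ^ p = a ^ p * b ^ p := fun {a b} ha hb => by
    obtain ⟨k, hk⟩ := Nat.Prime.dvd_choose_self (Fact.out : p.Prime) two_ne_zero
      (lt_of_le_of_ne (Nat.Prime.two_le Fact.out) (Ne.symm hp))
    rw [mul_pow_of_commute_commutator ((hcm hb ha).2 a ha).symm ((hcm hb ha).2 b hb).symm, hk, pow_mul,
      hZp _ (hcm hb ha), one_pow, mul_one]
  have hmove : ∀ b ∈ S, b ∉ Z → ∀ c ∈ Z, ∃ u ∈ S, u * b * u⁻¹ = c * b := fun b hb hbZ c hc => by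
    obtain ⟨u, hu, h1⟩ : ∃ u ∈ S, ⁅u, b⁆ ≠ 1 := by
      by_contra! h
      exact hbZ ⟨hb, fun u hu => commutatorElement_eq_one_iff_mul_comm.1 (h u hu)⟩
    obtain ⟨k, rfl⟩ := mem_powers_iff_mem_zpowers.2 ((hgen _ (hcm hu hb) h1).ge hc)
    refine ⟨u ^ k, pow_mem hu k, ?_⟩
    clear hc
    induction k with
    | zero => simp
    | succ k ih =>
      have h2 : u * ⁅u, b⁆ ^ k = ⁅u, b⁆ ^ k * u := (pow_mem (hcm hu hb) k).2 u hu
      calc u ^ (k + 1) * b * (u ^ (k + 1))⁻¹ = u * (u ^ k * b * (u ^ k)⁻¹) * u⁻¹ := by group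
        _ = (u * ⁅u, b⁆ ^ k) * b * u⁻¹ := by rw [ih]; group
        _ = ⁅u, b⁆ ^ (k + 1) * b := by rw [h2, pow_succ, commutatorElement_def]; group
  have hz1 : z ≠ 1 := fun h => hxZ (by rw [hxd, h]; simpa using Z.one_mem)
  have hxp : x ^ p = 1 := by rw [hxd, conj_pow, hZp z hz]; simp
  set B := Z ⊔ zpowers x with hB
  have hZB : Z < B := lt_of_le_of_ne le_sup_left fun h => hxZ (h ▸ mem_sup_right (mem_zpowers x))
  have hBS : B ≤ S := sup_le inf_le_left (zpowers_le.2 hx)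
  have hmem : ∀ b ∈ B, ∃ i j : ℤ, b = z ^ i * x ^ j := fun b hb => by
    obtain ⟨c, hc, _, ⟨j, rfl⟩, rfl⟩ := (mem_sup_iff_of_left_le_normalizer ((inf_le_right.trans
      (centralizer_anti (zpowers_le.2 hx))).trans (centralizer_le_normalizer _))).1 hb
    obtain ⟨i, rfl⟩ := (hgen z hz hz1).ge hc
    exact ⟨i, j, rfl⟩
  have hzx : Commute z x := (hz.2 x hx).symm
  have hBx : B ≤ centralizer (zpowers x : Set G) := sup_le
    (inf_le_right.trans (centralizer_anti (zpowers_le.2 hx))) (le_centralizer _)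
  have hBc : B ≤ centralizer (B : Set G) := by
    rw [hB, centralizer_sup]
    exact le_inf (le_centralizer_iff.1 (inf_le_right.trans (centralizer_anti hBS))) hBx
  have hC : S ⊓ centralizer (B : Set G) = B := eq_of_card e2 hcard hZB (le_inf hBS hBc)
    (lt_of_le_of_ne inf_le_left fun h => hxZ ⟨hx, le_centralizer_iff.1 (inf_eq_left.1 h)
      (mem_sup_right (mem_zpowers x))⟩)
  let Ω : Subgroup G :=
    { carrier := {s | s ∈ S ∧ s ^ p = 1}
      one_mem' := ⟨one_mem _, one_pow _⟩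
      mul_mem' := fun ha hb => ⟨mul_mem ha.1 hb.1, by rw [hpow ha.1 hb.1, ha.2, hb.2, one_mul]⟩
      inv_mem' := fun ha => ⟨inv_mem ha.1, by rw [inv_pow, ha.2, inv_one]⟩ }
  obtain ⟨y, hy, hyp⟩ : ∃ y ∈ S, y ^ p ≠ 1 := by
    by_contra! h
    have h1 : p ^ 2 ∣ p := hexp ▸ Monoid.exponent_dvd_of_forall_pow_eq_one fun s => Subtype.ext (h s s.2)
    have := Nat.le_of_dvd (Fact.out : p.Prime).pos h1
    nlinarith [(Fact.out : p.Prime).one_lt]
  have hΩ : Ω = B := eq_of_card e2 hcard hZB (sup_le (fun c hc => ⟨hc.1, hZp c hc⟩)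
    (zpowers_le.2 ⟨hx, hxp⟩)) (lt_of_le_of_ne (fun s hs => hs.1) fun h => hyp (h.ge hy).2)
  have hSB : S ≤ normalizer (B : Set G) := le_normalizer_iff.2 fun s hs b hb =>
    hΩ.le ⟨mul_mem (mul_mem hs (hBS hb)) (inv_mem hs), by rw [conj_pow, (hΩ.ge hb).2]; simp⟩
  obtain ⟨c, hc, hcB⟩ := (isSylowIn_of_le P (le_centralizer_iff.1 ((hgen z hz hz1).le.trans
    inf_le_right))).exists_conj_le (isPGroup_conjS (P.isPGroup'.to_le hBS) g⁻¹) (by
      rw [conjS_le_iff, inv_inv, conjS_centralizer, conjS_def, MonoidHom.map_zpowers]; exact hBx)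
  rw [← conjS_mul] at hcB
  set h := c * g⁻¹ with hh
  have hhx : h⁻¹ * z * h = x := by
    calc h⁻¹ * z * h = g * c⁻¹ * (z * c) * g⁻¹ := by rw [hh]; group
      _ = x := by rw [hc z (mem_zpowers z), hxd]; group
  have hhB : h ∈ normalizer (B : Set G) := mem_normalizer_of_conjS_le (conjS_le_iff_forall.2
    fun b hb => hΩ.le ⟨hcB (conj_mem_conjS.2 hb), by rw [conj_pow, (hΩ.ge hb).2]; simp⟩)
  have hx' : h * z * h⁻¹ ∉ Z := fun h1 => hxZ (by
    have : h ∈ normalizer (Z : Set G) := mem_normalizer_of_conjS_le (by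
      rw [← hgen z hz hz1, conjS_def, MonoidHom.map_zpowers, zpowers_le, hgen z hz hz1]; exact h1)
    exact hhx ▸ conj_inv_mem_of_mem_normalizer this hz)
  obtain ⟨u, hu, hux⟩ := hmove x hx hxZ z hz
  obtain ⟨l', hl', hlx⟩ := hmove _ (hBS (conj_mem_of_mem_normalizer hhB (hZB.le hz))) hx' _ (inv_mem hz)
  have huz : u * z * u⁻¹ = z := by rw [hz.2 u hu]; group
  set l := h⁻¹ * l' * h with hl
  have l1 : l * z * l⁻¹ = x⁻¹ * z := by
    calc l * z * l⁻¹ = h⁻¹ * (l' * (h * z * h⁻¹) * l'⁻¹) * h := by rw [hl]; group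
      _ = x⁻¹ * z := by rw [hlx, ← hhx]; group
  have l2 : l * x * l⁻¹ = x := by
    calc l * x * l⁻¹ = h⁻¹ * (l' * z) * l'⁻¹ * h := by rw [hl, ← hhx]; group
      _ = x := by rw [hz.2 l' hl', ← hhx]; group
  set w := u * l * u with hw
  have w1 : w * x * w⁻¹ = z := by
    calc w * x * w⁻¹ = u * l * (u * x * u⁻¹) * l⁻¹ * u⁻¹ := by rw [hw]; group
      _ = u * ((l * z * l⁻¹) * (l * x * l⁻¹)) * u⁻¹ := by rw [hux]; group
      _ = u * (x⁻¹ * (z * x)) * u⁻¹ := by rw [l1, l2]; group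
      _ = z := by rw [hzx.eq, inv_mul_cancel_left, huz]
  have w2 : w * z * w⁻¹ = x⁻¹ := by
    calc w * z * w⁻¹ = u * (l * (u * z * u⁻¹) * l⁻¹) * u⁻¹ := by rw [hw]; group
      _ = u * (x⁻¹ * z) * u⁻¹ := by rw [huz, l1]
      _ = (u * x * u⁻¹)⁻¹ * (u * z * u⁻¹) := by group
      _ = x⁻¹ := by rw [hux, huz]; group
  have t1 : ∀ b ∈ B, w * w * b * (w * w)⁻¹ = b⁻¹ := fun b hb => by
    obtain ⟨i, j, rfl⟩ := hmem b hb
    calc w * w * (z ^ i * x ^ j) * (w * w)⁻¹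
        = w * ((w * z * w⁻¹) ^ i * (w * x * w⁻¹) ^ j) * w⁻¹ := by simp only [conj_zpow]; group
      _ = w * (x⁻¹ ^ i * z ^ j) * w⁻¹ := by rw [w1, w2]
      _ = (w * x * w⁻¹)⁻¹ ^ i * (w * z * w⁻¹) ^ j := by simp only [conj_zpow, inv_zpow]; group
      _ = (z ^ i * x ^ j)⁻¹ := by rw [w1, w2, (hzx.zpow_zpow i j).eq]; group
  have t2 : ∀ t, (∀ b ∈ B, t * b * t⁻¹ = b⁻¹) → ∀ s ∈ normalizer (B : Set G),
      t * s * t⁻¹ * s⁻¹ ∈ centralizer (B : Set G) := fun t ht s hs b hb => by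
    have h1 := ht _ (conj_inv_mem_of_mem_normalizer hs (inv_mem hb))
    have h2 := ht _ (inv_mem hb)
    calc b * (t * s * t⁻¹ * s⁻¹) = t * (t⁻¹ * b * t) * s * t⁻¹ * s⁻¹ := by group
      _ = t * s * (s⁻¹ * b⁻¹ * s) * t⁻¹ * s⁻¹ := by
        rw [show t⁻¹ * b * t = b⁻¹ by nth_rewrite 1 [← inv_inv b, ← h2]; group]; group
      _ = t * s * t⁻¹ * (t * (s⁻¹ * b⁻¹ * s) * t⁻¹) * s⁻¹ := by group
      _ = _ := by rw [h1]; group
  have hK : S ⊔ centralizer (B : Set G) ≤ normalizer (B : Set G) :=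
    sup_le hSB (centralizer_le_normalizer _)
  obtain ⟨n, hn, k, hk, hnk⟩ := (isSylowIn_of_le P le_sup_left).frattini'
    (N := S ⊔ centralizer (B : Set G)) (x := w * w) (mem_normalizer_of_conjS_le
      (conjS_le_iff_forall.2 fun s hs => by
        simpa using mul_mem (mem_sup_right (t2 _ t1 s (hK hs))) hs))
  obtain ⟨s, hs, d, hd, rfl⟩ :=
    (mem_sup_iff_of_left_le_normalizer (le_normalizer_centralizer hSB)).1 hk
  have t3 : ∀ b ∈ B, n * s * b * (n * s)⁻¹ = b⁻¹ := fun b hb => by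
    rw [← t1 b hb, hnk]
    calc n * s * b * (n * s)⁻¹ = n * s * (b * d) * d⁻¹ * (n * s)⁻¹ := by group
      _ = _ := by rw [hd b hb]; group
  have hy' := conj_mem_of_mem_normalizer (mul_mem hn (le_normalizer hs)) hy
  have ha : n * s * y * (n * s)⁻¹ * y⁻¹ ∈ B := hC.le ⟨S.mul_mem hy' (S.inv_mem hy), t2 _ t3 y (hSB hy)⟩
  have h1 := hpow (hBS ha) hy
  have hyB : y ^ p ∈ B := hΩ.le ⟨pow_mem hy p, by
    rw [← pow_mul, ← pow_two, ← hexp]
    exact congrArg Subtype.val (Monoid.pow_exponent_eq_one (⟨y, hy⟩ : P))⟩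
  rw [inv_mul_cancel_right, conj_pow, t3 _ hyB, (hΩ.ge ha).2, one_mul] at h1
  refine hyp (orderOf_eq_one_iff.1 (Nat.eq_one_of_dvd_coprimes
    ((Nat.coprime_primes Nat.prime_two Fact.out).2 (Ne.symm hp)) (orderOf_dvd_of_pow_eq_one ?_)
    (orderOf_dvd_of_pow_eq_one (hΩ.ge hyB).2)))
  rw [pow_two]
  nth_rewrite 1 [← h1]
  exact inv_mul_cancel _

end Cfsg.Agent.S3053
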