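import Cfsg.Statements.S3057
import Cfsg.Agent.S0016
import Cfsg.Agent.Lib.Core.MinNormal
import Cfsg.Agent.Lib.AG.Ess
import Cfsg.Agent.Lib.LocStr.RankOne
import Cfsg.Agent.Lib.LocStr.Basic
import Cfsg.Agent.Lib.Coprime.Generation
import Cfsg.Agent.Lib.PLocal.PSolvable

set_option autoImplicit false
open Cfsg

namespace Cfsg.Agent.S3057

open CfsgLib.LAE CfsgLib.LocStr Subgroup
open scoped Pointwise

theorem chain_of {G : Type*} [Group G] {p : ℕ} {S T : Sylow p G}
    (h : Relation.ReflTransGen (fun A B : Sylow p G => (A : Subgroup G) ⊓ B ≠ ⊥) S T) :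
    ∃ (n : ℕ) (c : Fin (n + 1) → Sylow p G), c 0 = S ∧ c (Fin.last n) = T ∧
      ∀ i : Fin n, c i.castSucc ≠ c i.succ ∧
        (c i.castSucc : Subgroup G) ⊓ (c i.succ : Subgroup G) ≠ ⊥ := by
  induction h with
  | refl => exact ⟨0, fun _ => S, rfl, rfl, fun i => i.elim0⟩
  | @tail B C _ hBC ih =>
    obtain ⟨n, c, h0, h1, h2⟩ := ih
    by_cases e : B = C
    · exact ⟨n, c, h0, e ▸ h1, h2⟩
    · refine ⟨n + 1, Fin.snoc c C, ?_, by simp, fun i => ?_⟩
      · rw [← h0]; rfl
      · refine Fin.lastCases ?_ (fun j => ?_) i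
        · simp only [Fin.snoc_castSucc, Fin.succ_last, Fin.snoc_last, h1]
          exact ⟨e, hBC⟩
        · simp only [Fin.succ_castSucc, Fin.snoc_castSucc]
          exact h2 j

theorem exists_spe {G : Type*} [Group G] [Finite G] {p : ℕ} [Fact p.Prime] (hdiv : p ∣ Nat.card G)
    (P : Sylow p G) (h : ¬ IsSylowChainConnected p G) :
    ∃ M, IsStronglyPEmbedded p M ∧ (P : Subgroup G) ≤ M := by
  let r := Relation.ReflTransGen (fun A B : Sylow p G => (A : Subgroup G) ⊓ B ≠ ⊥)
  have hsm : ∀ (g : G) {A B : Sylow p G}, r A B → r (g • A) (g • B) := fun g A B h => by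
    induction h with
    | refl => exact Relation.ReflTransGen.refl
    | tail _ hAB ih =>
      refine ih.tail fun h0 => hAB ?_
      rwa [Sylow.coe_subgroup_smul, Sylow.coe_subgroup_smul, ← conjS_eq_smul, ← conjS_eq_smul,
        ← conjS_inf, conjS_eq_bot_iff] at h0
  have hsy : ∀ {A B : Sylow p G}, r A B → r B A := fun h => by
    induction h with
    | refl => exact Relation.ReflTransGen.refl
    | tail _ hAB ih => exact ih.head (by rwa [inf_comm])
  let M : Subgroup G :=
    { carrier := {g | r P (g • P)}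
      one_mem' := by simp [r, Relation.ReflTransGen.refl]
      mul_mem' := fun {a b} ha hb => by
        have := hsm a hb
        rw [← mul_smul] at this
        exact Relation.ReflTransGen.trans ha this
      inv_mem' := fun {a} ha => by
        have := hsm a⁻¹ ha
        rw [inv_smul_smul] at this
        exact hsy this }
  have hP1 : (P : Subgroup G) ≠ ⊥ := P.ne_bot_of_dvd_card hdiv
  have hN : ∀ Q ≤ (P : Subgroup G), Q ≠ ⊥ → normalizer (Q : Set G) ≤ M := fun Q hQ h1 g hg =>
    Relation.ReflTransGen.single fun h0 => h1 (eq_bot_iff.2 (h0 ▸ le_inf hQ (by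
      rw [Sylow.coe_subgroup_smul, ← conjS_eq_smul, ← mem_normalizer_iff_conjS.1 hg]
      exact conjS_mono hQ)))
  refine ⟨M, spe_iff_sylow.2 ⟨hdiv, fun hM => h fun S T => ?_, P, hN⟩,
    le_normalizer.trans (hN _ le_rfl hP1)⟩
  have hall : ∀ S : Sylow p G, r P S := fun S => by
    obtain ⟨g, rfl⟩ := MulAction.exists_smul_eq G P S
    exact (hM ▸ mem_top g : g ∈ M)
  by_cases h0 : (S : Subgroup G) ⊓ T = ⊥
  · obtain ⟨n, c, h1, h2, h3⟩ := chain_of (Relation.ReflTransGen.trans (hsy (hall S)) (hall T))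
    exact ⟨n, c, h1, h2, fun i => h0 ▸ bot_le, h3⟩
  · by_cases e : S = T
    · exact ⟨0, fun _ => S, rfl, e, fun _ => inf_le_left, fun i => i.elim0⟩
    · refine ⟨1, ![S, T], rfl, rfl, fun i => ?_, fun i => ?_⟩
      · fin_cases i
        · exact inf_le_left
        · exact inf_le_right
      · fin_cases i
        exact ⟨e, h0⟩

/-- Let p be a prime and G a finite p-solvable group of order divisible by p, with Sylow p-subgroup P. Then the Sylow p-subgroups of G fail to be chain-connected through nontrivial intersections (equivalently, G has a strongly p-embedded subgroup) if and only if O_p(G) = 1 and P is cyclic or, for p = 2, generalized quaternion. -/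
theorem result {G : Type*} [Group G] [Finite G]
    (p : ℕ) [Fact p.Prime] (hdiv : p ∣ Nat.card G) (hsol : Cfsg.IsPSolvable p G) (P : Sylow p G) :
    ¬ Cfsg.IsSylowChainConnected p G ↔
      Cfsg.pCore p G = ⊥ ∧ (IsCyclic ↥P ∨ (p = 2 ∧ ∃ n : ℕ, Nonempty (↥P ≃* QuaternionGroup (2 ^ n)))) := by
  have hP1 : (P : Subgroup G) ≠ ⊥ := P.ne_bot_of_dvd_card hdiv
  constructor
  · intro h
    obtain ⟨M, hM, hPM⟩ := exists_spe hdiv P h
    refine ⟨spe_pCore_eq_bot hM, Cfsg.Agent.S0016.result p P.isPGroup' ?_⟩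
    obtain ⟨z, hz, hz1⟩ := exists_orderOf_of_isPGroup (P.isPGroup'.to_le inf_le_left)
      (inf_centralizer_ne_bot P.isPGroup' P.isPGroup' le_normalizer hP1)
    have key : ∀ y ∈ (P : Subgroup G), y ^ p = 1 → y ∈ zpowers z := fun y hy hyp => by
      by_contra hyz
      let A := closure ({z, y} : Set G)
      have hzA : z ∈ A := subset_closure (by simp)
      have hyA : y ∈ A := subset_closure (by simp)
      have hAP : A ≤ P := (closure_le _).2 (by rintro _ (rfl | rfl); exacts [hz.1, hy])
      have : IsMulCommutative A := isMulCommutative_closure (by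
        rintro _ (rfl | rfl) _ (rfl | rfl)
        exacts [rfl, (hz.2 _ hy).symm, hz.2 _ hy, rfl])
      have hA : ¬ IsCyclic A := fun hc => hyz (by
        obtain ⟨k, hk⟩ := mem_zpowers_of_isCyclic (T := A) (Fact.out : p.Prime).pos
          (x := ⟨z, hzA⟩) (y := ⟨y, hyA⟩) (by rw [← orderOf_coe]; exact hz1) (Subtype.ext hyp)
        exact ⟨k, congrArg Subtype.val hk⟩)
      obtain ⟨n, hn⟩ := IsPGroup.iff_card.1 (P.isPGroup'.to_le hAP)
      have hK : pPrimeCore p G ≤ M := CfsgLib.Coprime.le_of_forall_centralizer_le hA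
        le_normalizer_of_normal
        (by rw [hn]; exact CfsgLib.PLocal.PSolv.coprime_card_pPrimeCore.symm.pow_left n)
        fun a ha ha1 => inf_le_right.trans (by
          rw [← centralizer_closure, ← zpowers_eq_closure]
          exact spe_centralizer_le hM (P.isPGroup'.to_le (zpowers_le.2 (hAP ha)))
            (zpowers_le.2 (hPM (hAP ha))) (by simpa using ha1))
      have h1 : M.map (QuotientGroup.mk' (pPrimeCore p G)) ≠ ⊤ := fun e => spe_ne_top hM (by
        rw [← comap_map_eq_self (f := QuotientGroup.mk' (pPrimeCore p G)) (H := M)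
          (by rwa [QuotientGroup.ker_mk']), e, comap_top])
      have h2 := spe_map (QuotientGroup.mk'_surjective _)
        (by rw [QuotientGroup.ker_mk']; exact CfsgLib.PLocal.PSolv.coprime_card_pPrimeCore) hM h1
      have : Nontrivial (G ⧸ pPrimeCore p G) := by
        by_contra hh
        rw [not_nontrivial_iff_subsingleton] at hh
        exact h1 (Subsingleton.elim _ _)
      rcases CfsgLib.PLocal.PSolv.pCore_ne_bot_or (CfsgLib.PLocal.PSolv.quotient hsol
        (pPrimeCore p G)) with h3 | h3
      · exact h3 (spe_pCore_eq_bot h2)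
      · exact h3 CfsgLib.PLocal.PSolv.pPrimeCore_quotient
    have key2 : ∀ H : Subgroup P, Nat.card H = p → H = zpowers (⟨z, hz.1⟩ : P) := fun H hH => by
      refine eq_of_le_of_card_ge (fun y hy => ?_)
        (by rw [Nat.card_zpowers, ← orderOf_coe, hz1, hH])
      have h1 : y ^ p = 1 := by
        have := pow_card_eq_one' (x := (⟨y, hy⟩ : H))
        rw [hH] at this
        exact congrArg Subtype.val this
      obtain ⟨k, hk⟩ := key y y.2 (congrArg Subtype.val h1)
      exact ⟨k, Subtype.ext hk⟩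
    exact fun H K hH hK => (key2 H hH).trans (key2 K hK).symm
  · rintro ⟨h1, h2⟩
    have hM := spe_normalizer_omegaOne h1 P hP1 (unique_of_cyclic_or_quaternion P.isPGroup'
      (h2.imp id fun ⟨_, n, h⟩ => ⟨_, h⟩))
    have hPM : (P : Subgroup G) ≤ normalizer (omegaOne p (P : Subgroup G) : Set G) :=
      le_normalizer.trans (CfsgLib.Core.normalizer_le_normalizer_omegaOne p _)
    refine CfsgLib.AG.not_chainConnected_of_spe P hP1 (spe_ne_top hM) fun x hx => ?_
    have := spe_mem_of_conj_le hM (P.isPGroup'.to_le inf_le_left) (inf_le_left.trans hPM) hx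
      (g := x⁻¹) ((le_conjS_iff.1 inf_le_right).trans hPM)
    simpa using this

end Cfsg.Agent.S3057
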