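import Cfsg.Statements.S3056
import Cfsg.Agent.S3057

set_option autoImplicit false
open Cfsg

namespace Cfsg.Agent.S3056

open CfsgLib.LAE CfsgLib.LocStr Subgroup

theorem dvd_card {G : Type*} [Group G] [Finite G] {p : ℕ} [Fact p.Prime]
    (h : ¬ IsSylowChainConnected p G) : p ∣ Nat.card G := by
  by_contra h1
  have h2 : ∀ S : Sylow p G, (S : Subgroup G) = ⊥ := fun S => by_contra fun h3 =>
    h1 ((dvd_card_of_isPGroup S.isPGroup' h3).trans (card_subgroup_dvd_card _))
  exact h fun S T => ⟨0, fun _ => S, rfl, Sylow.ext ((h2 S).trans (h2 T).symm),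
    fun _ => inf_le_left, fun i => i.elim0⟩

theorem mem_of_inf {G : Type*} [Group G] [Finite G] {p : ℕ} [Fact p.Prime] {M : Subgroup G}
    (hM : IsStronglyPEmbedded p M) {P : Sylow p G} (hPM : (P : Subgroup G) ≤ M) (x : G)
    (hx : (P : Subgroup G) ⊓ conjS x P ≠ ⊥) : x ∈ M := by
  have := spe_mem_of_conj_le hM (P.isPGroup'.to_le inf_le_left) (inf_le_left.trans hPM) hx
    (g := x⁻¹) ((le_conjS_iff.1 inf_le_right).trans hPM)
  simpa using this

/-- Let G be a finite group and p a prime. Join two Sylow p-subgroups when they are distinct and meet nontrivially. This graph on the Sylow p-subgroups is disconnected (the Sylow p-subgroups are not chain-connected through nontrivial intersections) if and only if G has a strongly p-embedded subgroup in the classical sense: a proper subgroup H of order divisible by p such that H ∩ gHg⁻¹ has order prime to p for every g outside H. -/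
theorem result {G : Type*} [Group G] [Finite G]
    (p : ℕ) [Fact p.Prime] :
    ¬ Cfsg.IsSylowChainConnected p G ↔
      ∃ H : Subgroup G, H ≠ ⊤ ∧ p ∣ Nat.card H ∧
        ∀ g : G, g ∉ H → ¬ p ∣ Nat.card ↥(H ⊓ H.map (MulAut.conj g).toMonoidHom) := by
  refine Iff.trans ?_ (exists_congr fun H => spe_iff_classical (p := p) (M := H))
  refine ⟨fun h => (S3057.exists_spe (dvd_card h) default h).imp fun _ h => h.1, fun ⟨M, hM⟩ => ?_⟩
  obtain ⟨P, h1, h2, -⟩ := spe_exists_sylow_le hM
  exact CfsgLib.AG.not_chainConnected_of_spe P h2 (spe_ne_top hM) (mem_of_inf hM h1)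

end Cfsg.Agent.S3056
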