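import Cfsg.Statements.S3059
import Cfsg.Agent.Lib.LocStr.SPE
import Cfsg.Agent.Lib.LAE.CharP

set_option autoImplicit false
open Cfsg

namespace Cfsg.Agent.S3059

open CfsgLib.LAE CfsgLib.LocStr Subgroup

/-- Let p be a prime and H a strongly p-embedded subgroup of the finite group G in the classical sense: H is proper, p divides the order of H, and H ∩ gHg⁻¹ has order prime to p for every g outside H. Then for every normal subgroup N of G of order divisible by p, G = H · O^p(N), where O^p(N) is the subgroup generated by the elements of N of order prime to p. -/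
theorem result {G : Type*} [Group G] [Finite G]
    (p : ℕ) [Fact p.Prime] (H : Subgroup G) (hH : H ≠ ⊤) (hpH : p ∣ Nat.card H)
    (hse : ∀ g : G, g ∉ H → ¬ p ∣ Nat.card ↥(H ⊓ H.map (MulAut.conj g).toMonoidHom))
    (N : Subgroup G) [N.Normal] (hN : p ∣ Nat.card N) :
    H ⊔ Subgroup.closure {g : G | g ∈ N ∧ (orderOf g).Coprime p} = ⊤ := by
  have hM := spe_of_classical hH hpH hse
  obtain ⟨P, h1, -⟩ := spe_exists_sylow_le hM
  have h2 := (isSylowIn_top P).inf_of_normal (N := N) le_top le_normalizer_of_normal
  rw [← pResOf_eq_closure, eq_top_iff, ← spe_sup_eq_top hM hN]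
  exact sup_le (h2.pResOf_sup.ge.trans (sup_le le_sup_right
    ((inf_le_left.trans h1).trans le_sup_left))) le_sup_left

end Cfsg.Agent.S3059
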