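import Cfsg.Statements.S3062
import Cfsg.Agent.Lib.LAE.DStar

set_option autoImplicit false
open Cfsg

namespace Cfsg.Agent.S3062

open CfsgLib.LAE CfsgLib.PLocal Subgroup

/-- Let S be a finite p-group, J(S) the subgroup generated by the abelian subgroups of S of largest order and Z(J(S)) its centre. Then Z(S) ≤ D*(S) ≤ Z(J(S)), and every maximal normal abelian subgroup of S contains D*(S). -/
theorem result {S : Type*} [Group S] [Finite S] {p : ℕ} [Fact p.Prime]
    (hS : IsPGroup p S) :
    Subgroup.center S ≤ Cfsg.dStar S ∧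
    Cfsg.dStar S ≤ Cfsg.thompsonSubgroupA S ⊓ Subgroup.centralizer (Cfsg.thompsonSubgroupA S : Set S) ∧
    ∀ A : Subgroup S, A.Normal → IsMulCommutative A →
      (∀ B : Subgroup S, B.Normal → IsMulCommutative B → A ≤ B → B = A) → Cfsg.dStar S ≤ A := by
  have hT := hS.to_subgroup ⊤
  rw [← dStarOf_top, CfsgLib.ZJ.thompsonSubgroupA_eq, ← thompsonSubgroupOf_top]
  refine ⟨DFam.le_dStarOf ⟨le_top, center_le_centralizer _, fun x _ _ a ha =>
    (mem_center_iff.1 ha x).symm⟩, ?_, fun A h1 h2 h3 => ?_⟩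
  · obtain ⟨A, hA⟩ := maxElemIn_nonempty (p := 0) (⊤ : Subgroup S)
    exact le_inf ((dStarOf_le_of_mem_maxElemIn hT hA).trans (le_thompsonSubgroupOf hA))
      (le_centralizer_iff.1 (thompsonSubgroupOf_le_iff.2 fun B hB => (elemAb_le_centralizer
        hB.2.1).trans (centralizer_anti (dStarOf_le_of_mem_maxElemIn hT hB))))
  · haveI := hS.isNilpotent
    exact (dStarOf_le_centralizer hT le_top (le_centralizer_iff_isMulCommutative.2 h2)
      le_normalizer_of_normal).trans (CfsgLib.PGroup.centralizer_le_of_maximal_normal_abelian h2 h3)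

end Cfsg.Agent.S3062
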