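import Cfsg.Statements.S3064
import Mathlib
import Cfsg.Agent.S0035
import Cfsg.Agent.Lib.Transfer.NormalComplement
import Cfsg.Agent.Lib.Tech.SylowIn
import Cfsg.Agent.Lib.Core.Basic

set_option autoImplicit false
open Cfsg

namespace Cfsg.Agent.S3064

open Subgroup CfsgLib
open scoped Pointwise

universe u

theorem aux {p : ℕ} [Fact p.Prime] (n : ℕ) : ∀ (G : Type u) [Group G] [Finite G] (x : G), Nat.card G = n →
    (∃ k, x ^ p ^ k = 1) → (∃ S : Sylow p G, (S : Subgroup G) ≤ centralizer {x}) →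
    (∀ g : G, Commute x (g * x * g⁻¹) → g * x * g⁻¹ = x) →
    (∀ H : Subgroup G, (Nat.card H).Coprime p → (∀ h ∈ H, x * h * x⁻¹ ∈ H) → ∀ h ∈ H, x * h = h * x) →
    (∀ (P : Subgroup G), IsPGroup p P → x ∈ P → P ≤ centralizer {x}) → x ∈ center G := by
  induction n using Nat.strong_induction_on with
  | _ n ih =>
  intro G _ _ x hn hxp ⟨S, hS⟩ hiso hb hP
  have hp : p.Prime := Fact.out
  by_contra hnc
  set C := centralizer ({x} : Set G) with hC
  have hxC : x ∈ C := mem_centralizer_singleton_iff.2 rfl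
  have hproper : ∀ H : Subgroup G, x ∈ H → H ≠ ⊤ → H ≤ C := by
    intro H hxH hH
    have hP' : ∀ (P : Subgroup H), IsPGroup p P → (⟨x, hxH⟩ : H) ∈ P → P ≤ centralizer {⟨x, hxH⟩} := by
      intro P hPp hx y hy
      have := hP (P.map H.subtype) (hPp.map _) ⟨_, hx, rfl⟩ ⟨y, hy, rfl⟩
      rw [mem_centralizer_singleton_iff] at this ⊢
      exact Subtype.ext this
    obtain ⟨k, hk⟩ := hxp
    have h1 := ih _ (hn ▸ Core.card_lt_of_ne_top hH) H ⟨x, hxH⟩ rfl ⟨k, Subtype.ext hk⟩ ?_ ?_ ?_ hP'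
    · intro h hh
      rw [hC, mem_centralizer_singleton_iff]
      exact congrArg Subtype.val (mem_center_iff.1 h1 ⟨h, hh⟩)
    · obtain ⟨T, hT⟩ := (Core.isPGroup_zpowers_iff.2 ⟨k, (Subtype.ext hk : (⟨x, hxH⟩ : H) ^ p ^ k = 1)⟩).exists_le_sylow
      exact ⟨T, hP' T T.isPGroup' (hT (mem_zpowers _))⟩
    · intro g hg
      exact Subtype.ext (hiso g (congrArg Subtype.val hg.eq))
    · intro K hK hxK h hh
      refine Subtype.ext (hb (K.map H.subtype) (by rwa [Core.card_map_subtype]) ?_ h ⟨h, hh, rfl⟩)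
      rintro _ ⟨y, hy, rfl⟩
      exact ⟨_, hxK y hy, rfl⟩
  have hCt : C ≠ ⊤ := by
    intro h
    apply hnc
    rw [mem_center_iff]
    exact fun g => mem_centralizer_singleton_iff.1 (h ▸ mem_top g : g ∈ C)
  have hZC : center G ≤ C := fun z hz => mem_centralizer_singleton_iff.2 (mem_center_iff.1 hz x).symm
  have hTI : ∀ g : G, g ∉ C → ∀ d ∈ C, g⁻¹ * d * g ∈ C → d ∈ center G := by
    intro g hg d hd hdg
    have h1 : centralizer {d} = ⊤ := by
      by_contra hne
      have h2 := hproper _ (mem_centralizer_singleton_iff.2 (mem_centralizer_singleton_iff.1 hd).symm) hne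
      have h3 : g * x * g⁻¹ ∈ centralizer {d} := by
        rw [mem_centralizer_singleton_iff]
        have := mem_centralizer_singleton_iff.1 hdg
        calc g * x * g⁻¹ * d = g * (x * (g⁻¹ * d * g)) * g⁻¹ := by group
          _ = _ := by rw [← this]; group
      have h4 := hiso g (mem_centralizer_singleton_iff.1 (h2 h3)).symm
      apply hg
      rw [hC, mem_centralizer_singleton_iff]
      calc g * x = g * x * g⁻¹ * g := by group
        _ = _ := by rw [h4]
    rw [mem_center_iff]
    exact fun y => mem_centralizer_singleton_iff.1 (h1 ▸ mem_top y)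
  let f := QuotientGroup.mk' (center G)
  have hf : Function.Surjective f := QuotientGroup.mk'_surjective _
  have hker : f.ker = center G := QuotientGroup.ker_mk' _
  have hcm : (C.map f).comap f = C := comap_map_eq_self (hker.le.trans hZC)
  have hfrob : IsFrobeniusComplement (C.map f) := by
    refine ⟨?_, ?_, ?_⟩
    · intro h
      rw [Subgroup.map_eq_bot_iff, hker] at h
      exact hnc (h hxC)
    · intro h
      rw [h, comap_top] at hcm
      exact hCt hcm.symm
    · intro g hg
      obtain ⟨g, rfl⟩ := hf g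
      rw [eq_bot_iff]
      rintro _ ⟨⟨d, hd, rfl⟩, h2⟩
      change f d ∈ MulAut.conj (f g) • map f C at h2
      rw [Core.mem_conj_smul_iff, ← map_inv, ← map_mul, ← map_mul, ← mem_comap, hcm] at h2
      rw [mem_bot, ← MonoidHom.mem_ker, hker]
      exact hTI g (fun h => hg ⟨g, h, rfl⟩) d hd h2
  obtain ⟨N, -, hN, hcompl⟩ := Cfsg.Agent.S0035.result _ hfrob
  have hNc : (Nat.card N).Coprime p := by
    rw [← hcompl.index_eq_card, ← index_comap_of_surjective _ hf, hcm]
    exact ((Nat.Prime.coprime_iff_not_dvd hp).2 fun h => S.not_dvd_index (h.trans (index_dvd_of_le hS))).symm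
  set K := N.comap f with hK
  let φ : K →* N := (f.comp K.subtype).codRestrict N fun y => y.2
  have hnpc : HasNormalPComplement p K := by
    refine Transfer.hasNormalPComplement_of_ker_le_center φ ?_ (Transfer.hasNormalPComplement_of_coprime hNc)
    intro y hy
    have h1 : (y : G) ∈ center G := by
      rw [← hker, MonoidHom.mem_ker]
      exact congrArg Subtype.val hy
    rw [mem_center_iff]
    exact fun g => Subtype.ext (mem_center_iff.1 h1 g)
  haveI := Transfer.map_pResidual_normal (p := p) K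
  have hK₀ : (pResidual p K).map K.subtype ≤ C := by
    intro y hy
    rw [hC, mem_centralizer_singleton_iff]
    refine (hb _ ?_ (fun h hh => Normal.conj_mem inferInstance h hh x) y hy).symm
    rw [Core.card_map_subtype]
    exact Transfer.hasNormalPComplement_iff_coprime.1 hnpc
  have hKC : K ≤ C := by
    intro y hy
    obtain ⟨a, b, ha, hb', ⟨k, hk⟩, hbo, rfl⟩ := Transfer.exists_p_part (p := p) y
    have haK : a ∈ K := (zpowers_le.2 hy) ha
    have hbK : b ∈ K := (zpowers_le.2 hy) hb'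
    refine C.mul_mem (hZC ?_) (hK₀ ⟨⟨b, hbK⟩, Transfer.mem_pResidual_of_coprime (by rwa [orderOf_mk]), rfl⟩)
    rw [← hker, MonoidHom.mem_ker, ← orderOf_eq_one_iff]
    have d1 : orderOf (f a) ∣ p ^ k := orderOf_dvd_of_pow_eq_one (by rw [← map_pow, hk, map_one])
    have d2 : orderOf (f a) ∣ Nat.card N := orderOf_dvd_natCard N haK
    exact Nat.eq_one_of_dvd_coprimes (hNc.pow_right k) d2 d1
  have h1 : N ≤ C.map f := by
    rw [← map_comap_eq_self_of_surjective hf N]
    exact map_mono hKC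
  have h2 := hcompl.sup_eq_top
  rw [sup_eq_right.2 h1] at h2
  exact hfrob.2.1 h2

/-- Let S be a Sylow p-subgroup of the finite group G and x an element of S such that (i) x is the only G-conjugate of x lying in S, and (ii) x centralizes every subgroup of order prime to p that it normalizes. Then x lies in the centre of G. -/
theorem result {G : Type*} [Group G] [Finite G] {p : ℕ} [Fact p.Prime]
    (S : Sylow p G) (x : G) (hx : x ∈ S)
    (hU : ∀ g : G, g⁻¹ * x * g ∈ S → g⁻¹ * x * g = x)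
    (hb : ∀ H : Subgroup G, (Nat.card H).Coprime p → (∀ h ∈ H, x * h * x⁻¹ ∈ H) → ∀ h ∈ H, x * h = h * x) :
    x ∈ Subgroup.center G := by
  have hU' : ∀ P : Subgroup G, IsPGroup p P → x ∈ P → ∀ g : G, g * x * g⁻¹ ∈ P → g * x * g⁻¹ = x := by
    intro P hP hxP g hg
    obtain ⟨h, -, hh⟩ := (Tech.IsSylowIn.of_sylow_top S).exists_cj_le hP le_top
    have h1 := hU h⁻¹ (by rw [inv_inv]; exact hh (Tech.conj_mem_cj.2 hxP))
    have h2 := hU (h * g)⁻¹ (by
      rw [show (h * g)⁻¹⁻¹ * x * (h * g)⁻¹ = h * (g * x * g⁻¹) * h⁻¹ by group]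
      exact hh (Tech.conj_mem_cj.2 hg))
    calc g * x * g⁻¹ = h⁻¹ * ((h * g)⁻¹⁻¹ * x * (h * g)⁻¹) * h := by group
      _ = h⁻¹ * (h⁻¹⁻¹ * x * h⁻¹) * h := by rw [h1, h2]
      _ = x := by group
  have hP : ∀ (P : Subgroup G), IsPGroup p P → x ∈ P → P ≤ centralizer {x} := by
    intro P hP hxP y hy
    have := hU' P hP hxP y (P.mul_mem (P.mul_mem hy hxP) (P.inv_mem hy))
    rw [mem_centralizer_singleton_iff]
    calc y * x = y * x * y⁻¹ * y := by group
      _ = _ := by rw [this]
  obtain ⟨k, hk⟩ := Core.isPGroup_subgroup_iff.1 S.isPGroup' x hx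
  refine aux _ G x rfl ⟨k, hk⟩ ⟨S, hP _ S.isPGroup' hx⟩ ?_ hb hP
  intro g hc
  have h1 : IsPGroup p (zpowers x) := Core.isPGroup_zpowers_iff.2 ⟨k, hk⟩
  have h2 : IsPGroup p (zpowers (g * x * g⁻¹)) := Core.isPGroup_zpowers_iff.2 ⟨k, by rw [conj_pow, hk]; group⟩
  refine hU' (zpowers x ⊔ zpowers (g * x * g⁻¹)) (IsPGroup.to_sup_of_normal_right' h1 h2 ?_)
    (mem_sup_left (mem_zpowers _)) g (mem_sup_right (mem_zpowers _))
  refine le_trans ?_ (centralizer_le_normalizer _)
  rw [Core.centralizer_zpowers, zpowers_le, mem_centralizer_singleton_iff]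
  exact hc.eq

end Cfsg.Agent.S3064
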