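import Cfsg.Statements.S3067
import Mathlib
import Cfsg.Agent.Lib.ZStar.Main
import Cfsg.Agent.Lib.Coprime.Aut
import Cfsg.Agent.Lib.Core.Fitting
import Cfsg.Agent.Lib.Invol.Count
import Cfsg.Agent.Lib.Invol.SylowElem

set_option autoImplicit false
open Cfsg Subgroup CfsgLib

namespace Cfsg.Agent.S3067

theorem fixc {G : Type*} [Group G] [Finite G] {α : MulAut G}
    (hcop : (orderOf α).Coprime (Nat.card G)) {g : G} (hc : α (g⁻¹ * α g) = g⁻¹ * α g) :
    α g = g := by
  set c := g⁻¹ * α g with hcd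
  have h0 : α g = g * c := by rw [hcd]; group
  have h1 : ∀ k : ℕ, (α ^ k) g = g * c ^ k := fun k => by
    induction k with
    | zero => simp
    | succ k ih => rw [pow_succ', MulAut.mul_apply, ih, map_mul, map_pow, h0, hc, pow_succ', mul_assoc]
  have h2 := h1 (orderOf α)
  rw [pow_orderOf_eq_one, MulAut.one_apply, left_eq_mul] at h2
  have h3 : orderOf c ∣ 1 := hcop ▸ Nat.dvd_gcd (orderOf_dvd_of_pow_eq_one h2) (orderOf_dvd_natCard c)
  rw [h0, orderOf_eq_one_iff.1 (Nat.dvd_one.1 h3), mul_one]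

theorem card_conj_fibre {G : Type*} [Group G] [Fintype G] [DecidableEq G] (τ : G) (s : Finset G)
    (J : Finset G) (hJ : ∀ y ∈ J, IsConj τ y) (hs : ∀ g, g ∈ s ↔ g * τ * g⁻¹ ∈ J) :
    s.card = J.card * Nat.card (centralizer ({τ} : Set G)) := by
  rw [Finset.card_eq_sum_card_fiberwise (f := fun g => g * τ * g⁻¹) (t := J)
    (fun g hg => (hs g).1 hg), ← smul_eq_mul, ← Finset.sum_const]
  refine Finset.sum_congr rfl fun y hy => ?_
  rw [← Invol.card_conj_eq_card_centralizer (hJ y hy), Nat.card_eq_fintype_card, Fintype.card_subtype]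
  congr 1
  ext g
  simp only [Finset.mem_filter, Finset.mem_univ, true_and, hs]
  exact ⟨fun h => h.2, fun h => ⟨h ▸ hy, h⟩⟩


/-- Let G be a finite non-abelian simple group, τ an involution of G, and α a nontrivial automorphism of G whose order is coprime to the order of G. Then α moves some element of the centralizer of τ: α does not fix C_G(τ) elementwise. -/
theorem result {G : Type*} [Group G] [Finite G] [IsSimpleGroup G]
    (hG : ¬ IsMulCommutative G) (τ : G) (hτ : orderOf τ = 2) (α : MulAut G) (hα : α ≠ 1)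
    (hcop : (orderOf α).Coprime (Nat.card G)) :
    ∃ c ∈ Subgroup.centralizer ({τ} : Set G), α c ≠ c := by
  classical
  have := Fintype.ofFinite G
  by_contra hne
  push Not at hne
  have hττ : τ * τ = 1 := by rw [← pow_two, ← hτ, pow_orderOf_eq_one]
  set φ : zpowers α →* MulAut G := (zpowers α).subtype with hφ
  set H : Subgroup G := Coprime.autFix φ with hH
  have hmem : ∀ g, g ∈ H ↔ α g = g := fun g => by
    rw [hH, Coprime.mem_autFix]
    refine ⟨fun h => h ⟨α, mem_zpowers α⟩, fun h a => ?_⟩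
    obtain ⟨k, hk⟩ := mem_powers_iff_mem_zpowers.2 a.2
    have h1 : ∀ k : ℕ, (α ^ k) g = g := fun k => by
      induction k with
      | zero => simp
      | succ k ih => rw [pow_succ', MulAut.mul_apply, ih, h]
    change (a : MulAut G) g = g
    rw [← hk]; exact h1 k
  have hinv : ∀ K : Subgroup G, (∀ x ∈ K, α x ∈ K) → Coprime.AutInv φ K := fun K h a x hx => by
    obtain ⟨k, hk⟩ := mem_powers_iff_mem_zpowers.2 a.2
    have h1 : ∀ k : ℕ, (α ^ k) x ∈ K := fun k => by
      induction k with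
      | zero => simpa using hx
      | succ k ih => rw [pow_succ', MulAut.mul_apply]; exact h _ ih
    change (a : MulAut G) x ∈ K
    rw [← hk]; exact h1 k
  have hcA : (Nat.card (zpowers α)).Coprime (Nat.card G) := by rwa [Nat.card_zpowers]
  have hsA : Group.IsSolvable (zpowers α) := Coprime.isSolvable_zpowers α
  have hCH : ∀ c, c * τ = τ * c → c ∈ H := fun c hc =>
    (hmem c).2 (hne c (mem_centralizer_singleton_iff.2 hc))
  have hτH : τ ∈ H := hCH τ rfl
  have hfus : ∀ g, g * τ * g⁻¹ ∈ H → g ∈ H := fun g hg => by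
    rw [hmem] at hg ⊢
    refine fixc hcop ((hmem _).1 (hCH _ ?_))
    rw [map_mul, map_mul, map_inv, (hmem τ).1 hτH] at hg
    calc g⁻¹ * α g * τ = g⁻¹ * (α g * τ * (α g)⁻¹) * α g := by group
      _ = _ := by rw [hg]; group
  obtain ⟨S, hτS, hSi⟩ := Coprime.aut_exists_invariant_sylow_ge (φ := φ) hcA (Or.inl hsA)
    (Invol.isPGroup_zpowers_of_mul_self hττ)
    (Coprime.autInv_of_le_autFix (zpowers_le.2 hτH))
  have hSH : (S : Subgroup G) ≤ H := by
    by_contra h
    have hlt : (S : Subgroup G) ⊓ H < S := lt_of_le_of_ne inf_le_left fun e => h (inf_eq_left.1 e)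
    obtain ⟨n, hn, hnT⟩ := SetLike.exists_of_lt (Core.lt_inf_normalizer_of_isPGroup S.isPGroup' hlt)
    refine hnT (mem_inf.2 ⟨hn.1, hfus n ?_⟩)
    exact ((mem_normalizer_iff.1 hn.2 τ).1 (mem_inf.2 ⟨hτS (mem_zpowers τ), hτH⟩)).2
  have hRH : ∀ R : Subgroup G, IsPGroup 2 R → Coprime.AutInv φ R → R ≤ H := fun R hR hRi x hx => by
    obtain ⟨P, hRP, hPi⟩ := Coprime.aut_exists_invariant_sylow_ge (φ := φ) hcA (Or.inl hsA) hR hRi
    obtain ⟨c, hc, hcP⟩ := Coprime.aut_exists_autFix_smul_sylow_eq hcA (Or.inl hsA) P S hPi hSi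
    have h1 : c * x * c⁻¹ ∈ (S : Subgroup G) := by
      rw [← hcP, Sylow.coe_subgroup_smul, Core.mem_conj_smul_iff]
      simpa [mul_assoc] using hRP hx
    have h2 := mul_mem (mul_mem (inv_mem hc) (hSH h1)) hc
    simpa [mul_assoc] using h2
  have hIsq : ∀ t, IsConj τ t → t * t = 1 := fun t ht => by
    obtain ⟨g, rfl⟩ := isConj_iff.1 ht
    calc g * τ * g⁻¹ * (g * τ * g⁻¹) = g * (τ * τ) * g⁻¹ := by group
      _ = 1 := by rw [hττ]; group
  -- conjugating an outer involution into `H`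
  have hkey : ∀ t, IsConj τ t → ∃ c : G, c * t * c⁻¹ ∈ H ∧
      ∀ d ∈ H, t * d * t⁻¹ ∈ H → c * d * c⁻¹ = d := fun t ht => by
    have htt := hIsq t ht
    have hti : t⁻¹ = t := inv_eq_of_mul_eq_one_right htt
    have hD : ∀ d : G, t * (t * d * t⁻¹) * t⁻¹ = d := fun d => by
      calc t * (t * d * t⁻¹) * t⁻¹ = (t * t) * d * (t * t)⁻¹ := by group
        _ = d := by rw [htt]; group
    let Y : Subgroup G :=
      { carrier := {y | (∀ d ∈ H, t * d * t⁻¹ ∈ H → y * d * y⁻¹ = d) ∨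
          (∀ d ∈ H, t * d * t⁻¹ ∈ H → y * d * y⁻¹ = t * d * t⁻¹)}
        one_mem' := Or.inl fun d _ _ => by simp
        mul_mem' := by
          intro a b ha hb
          have e : ∀ d, a * b * d * (a * b)⁻¹ = a * (b * d * b⁻¹) * a⁻¹ := fun d => by group
          rcases ha with ha | ha <;> rcases hb with hb | hb
          · exact Or.inl fun d h1 h2 => by rw [e, hb d h1 h2, ha d h1 h2]
          · exact Or.inr fun d h1 h2 => by rw [e, hb d h1 h2, ha _ h2 (by rwa [hD])]
          · exact Or.inr fun d h1 h2 => by rw [e, hb d h1 h2, ha d h1 h2]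
          · exact Or.inl fun d h1 h2 => by rw [e, hb d h1 h2, ha _ h2 (by rwa [hD]), hD]
        inv_mem' := by
          intro a ha
          rcases ha with ha | ha
          · refine Or.inl fun d h1 h2 => ?_
            conv_lhs => rw [← ha d h1 h2]
            group
          · refine Or.inr fun d h1 h2 => ?_
            have := ha _ h2 (by rwa [hD])
            rw [hD] at this
            conv_lhs => rw [← this]
            group }
    have htY : t ∈ Y := Or.inr fun d _ _ => rfl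
    have hYi : Coprime.AutInv φ Y := hinv Y fun y hy => by
      rcases hy with hy | hy
      · refine Or.inl fun d h1 h2 => ?_
        have := congrArg α (hy d h1 h2)
        rwa [map_mul, map_mul, map_inv, (hmem d).1 h1] at this
      · refine Or.inr fun d h1 h2 => ?_
        have := congrArg α (hy d h1 h2)
        rwa [(hmem _).1 h2, map_mul, map_mul, map_inv, (hmem d).1 h1] at this
    obtain ⟨R, -, hRY, hR, hRi, hRa⟩ := Coprime.aut_exists_invariant_sylow' (φ := φ) 2 hYi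
      (Coprime.coprime_subgroup hcA Y) (Or.inl hsA) (bot_le (a := Y)) IsPGroup.of_bot Coprime.autInv_bot
    obtain ⟨k, hk, hle⟩ := Coprime.exists_conj_smul_le_sylow hRY hR hRi (zpowers_le.2 htY)
      (Invol.isPGroup_zpowers_of_mul_self htt)
    have h1 := hRH R hR hRa (Core.mem_conj_smul_iff.1 (hle (mem_zpowers t)))
    rcases Y.inv_mem hk with h2 | h2
    · exact ⟨k⁻¹, by simpa using h1, h2⟩
    · refine ⟨k⁻¹ * t, by simpa [mul_assoc] using h1, fun d h3 h4 => ?_⟩
      have := h2 _ h4 (by rwa [hD])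
      rw [hD] at this
      conv_rhs => rw [← this]
      group
  set I : Finset G := Finset.univ.filter (IsConj τ) with hI
  set J : Finset G := I.filter (· ∈ H) with hJ
  have hIm : ∀ x, x ∈ I ↔ IsConj τ x := fun x => by simp [hI]
  have hJm : ∀ x, x ∈ J ↔ IsConj τ x ∧ x ∈ H := fun x => by simp [hJ, hI]
  have hc1 := card_conj_fibre τ Finset.univ I (fun y hy => (hIm y).1 hy)
    (fun g => by simp [hIm])
  have hc2 := card_conj_fibre τ (Finset.univ.filter (· ∈ H)) J (fun y hy => ((hJm y).1 hy).1)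
    (fun g => by
      simp only [Finset.mem_filter, Finset.mem_univ, true_and, hJm]
      exact ⟨fun h => ⟨isConj_iff.2 ⟨g, rfl⟩, mul_mem (mul_mem h hτH) (inv_mem h)⟩,
        fun h => hfus g h.2⟩)
  have hIJ : I.card = Fintype.card (G ⧸ H) * J.card := by
    have h1 := H.card_eq_card_quotient_mul_card_subgroup
    rw [Nat.card_eq_fintype_card, Nat.card_eq_fintype_card, Nat.card_eq_fintype_card,
      Fintype.card_subtype, hc2, ← Finset.card_univ, hc1, ← mul_assoc] at h1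
    exact Nat.eq_of_mul_eq_mul_right Nat.card_pos h1
  -- the injections
  have hmap : ∀ t ∈ I, ∀ c : G, c * t * c⁻¹ ∈ H → (∀ d ∈ H, t * d * t⁻¹ ∈ H → c * d * c⁻¹ = d) →
      ∀ s ∈ I.filter fun x : G => (x : G ⧸ H) = (t : G ⧸ H),
        (t⁻¹ * s ∈ H ∧ t * (t⁻¹ * s) * t⁻¹ ∈ H) ∧ c * s * c⁻¹ = c * t * c⁻¹ * (t⁻¹ * s) ∧
          c * s * c⁻¹ ∈ J := fun t ht c h1 h2 s hs => by
    rw [Finset.mem_filter] at hs
    have h3 : t⁻¹ * s ∈ H := QuotientGroup.eq.1 hs.2.symm
    have h4 : t * (t⁻¹ * s) * t⁻¹ ∈ H := by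
      have e1 : t⁻¹ = t := inv_eq_of_mul_eq_one_right (hIsq t ((hIm t).1 ht))
      have e2 : s⁻¹ = s := inv_eq_of_mul_eq_one_right (hIsq s ((hIm s).1 hs.1))
      have := inv_mem h3
      rw [mul_inv_rev, inv_inv, e2] at this
      rwa [mul_inv_cancel_left, e1]
    have h5 : c * s * c⁻¹ = c * t * c⁻¹ * (t⁻¹ * s) := by
      conv_rhs => rw [← h2 _ h3 h4]
      group
    exact ⟨⟨h3, h4⟩, h5, (hJm _).2 ⟨((hIm s).1 hs.1).trans (isConj_iff.2 ⟨c, rfl⟩),
      h5 ▸ mul_mem h1 h3⟩⟩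
  have hinj : ∀ c : G, Function.Injective fun s : G => c * s * c⁻¹ := fun c a b h => by
    simpa using h
  have hle : ∀ q : G ⧸ H, (I.filter fun x : G => (x : G ⧸ H) = q).card ≤ J.card := fun q => by
    rcases (I.filter fun x : G => (x : G ⧸ H) = q).eq_empty_or_nonempty with h | ⟨t, ht⟩
    · simp [h]
    rw [Finset.mem_filter] at ht
    obtain ⟨c, h1, h2⟩ := hkey t ((hIm t).1 ht.1)
    rw [← ht.2]
    exact Finset.card_le_card_of_injOn (fun s => c * s * c⁻¹)
      (fun s hs => (hmap t ht.1 c h1 h2 s hs).2.2) (hinj c).injOn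
  have heq : ∀ q : G ⧸ H, (I.filter fun x : G => (x : G ⧸ H) = q).card = J.card := by
    have h1 := Finset.card_eq_sum_card_fiberwise (f := fun x : G => (x : G ⧸ H)) (s := I)
      (t := Finset.univ) (fun _ _ => Finset.mem_coe.2 (Finset.mem_univ _))
    rw [hIJ, ← Finset.card_univ, ← smul_eq_mul, ← Finset.sum_const] at h1
    intro q
    exact (Finset.sum_eq_sum_iff_of_le fun q _ => hle q).1 h1.symm q (Finset.mem_univ _)
  have hτJ : τ ∈ J := (hJm τ).2 ⟨IsConj.refl τ, hτH⟩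
  have hcore : ∀ u ∈ J, τ⁻¹ * u ∈ H.normalCore := fun u hu g => by
    obtain ⟨t, ht⟩ : (I.filter fun x : G => (x : G ⧸ H) = ((g⁻¹ : G) : G ⧸ H)).Nonempty := by
      rw [← Finset.card_pos, heq]
      exact Finset.card_pos.2 ⟨τ, hτJ⟩
    rw [Finset.mem_filter] at ht
    obtain ⟨c, h1, h2⟩ := hkey t ((hIm t).1 ht.1)
    have hsurj := Finset.surjOn_of_injOn_of_card_le (fun s => c * s * c⁻¹)
      (s := I.filter fun x : G => (x : G ⧸ H) = (t : G ⧸ H)) (t := J)
      (fun s hs => (hmap t ht.1 c h1 h2 s hs).2.2) (hinj c).injOn (heq _).ge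
    obtain ⟨s₁, hs₁, e₁⟩ := hsurj hτJ
    obtain ⟨s₂, hs₂, e₂⟩ := hsurj hu
    obtain ⟨⟨-, a₁⟩, b₁, -⟩ := hmap t ht.1 c h1 h2 s₁ hs₁
    obtain ⟨⟨-, a₂⟩, b₂, -⟩ := hmap t ht.1 c h1 h2 s₂ hs₂
    dsimp only at e₁ e₂
    have h3 : t * (τ⁻¹ * u) * t⁻¹ ∈ H := by
      rw [← e₁, ← e₂, b₁, b₂]
      convert mul_mem (inv_mem a₁) a₂ using 1
      group
    have h4 : t⁻¹ * g⁻¹ ∈ H := QuotientGroup.eq.1 ht.2
    have e1 : t⁻¹ = t := inv_eq_of_mul_eq_one_right (hIsq t ((hIm t).1 ht.1))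
    have h5 := mul_mem (mul_mem (inv_mem h4) h3) h4
    have e3 : (t⁻¹ * g⁻¹)⁻¹ * (t * (τ⁻¹ * u) * t⁻¹) * (t⁻¹ * g⁻¹) =
        g * (t * t) * (τ⁻¹ * u) * (t * t)⁻¹ * g⁻¹ := by group
    rw [e3, hIsq t ((hIm t).1 ht.1)] at h5
    simpa using h5
  have hcb : H.normalCore = ⊥ := by
    rcases (inferInstance : H.normalCore.Normal).eq_bot_or_eq_top with h | h
    · exact h
    · refine absurd (MulEquiv.ext fun g => ?_) hα
      exact (hmem g).1 (H.normalCore_le (h ▸ mem_top g))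
  refine ZStar.not_isolated_of_simple hG τ ⟨hτ, fun g hg => ?_⟩
  have h1 := hcore _ ((hJm _).2 ⟨isConj_iff.2 ⟨g, rfl⟩, hCH _ hg.eq.symm⟩)
  rw [hcb, mem_bot, inv_mul_eq_one] at h1
  exact h1.symm

end Cfsg.Agent.S3067
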