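import Cfsg.Statements.S3068
import Cfsg.Agent.Lib.CFun.KInfMain
import Cfsg.Agent.Lib.ZJ.Thompson
import Cfsg.Agent.Lib.Transfer.Tate
import Cfsg.Agent.Lib.Core.Commutator

set_option autoImplicit false
open Cfsg

namespace Cfsg.Agent.S3068

set_option linter.unusedSectionVars false
set_option linter.style.haveILetI false

open Subgroup CfsgLib CfsgLib.Core CfsgLib.PLocal
open scoped commutatorElement

section Basic
variable {G : Type*} [Group G]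

/-- centralizer of a subgroup -/
abbrev cc (H : Subgroup G) : Subgroup G := centralizer (H : Set G)

theorem mem_cc {H : Subgroup G} {x : G} : x ∈ cc H ↔ ∀ h ∈ H, h * x = x * h :=
  mem_centralizer_iff

theorem cc_comm {H K : Subgroup G} (h : H ≤ cc K) : K ≤ cc H := le_centralizer_iff.1 h

theorem cc_anti {H K : Subgroup G} (h : H ≤ K) : cc K ≤ cc H := centralizer_le h

theorem ab_sup {H K : Subgroup G} (hH : H ≤ cc H) (hK : K ≤ cc K) (hHK : H ≤ cc K) :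
    H ⊔ K ≤ cc (H ⊔ K) :=
  sup_le (cc_comm (sup_le hH (cc_comm hHK))) (cc_comm (sup_le hHK hK))

theorem ab_mono {H K : Subgroup G} (hK : K ≤ cc K) (h : H ≤ K) : H ≤ cc H :=
  h.trans (hK.trans (cc_anti h))

theorem com_of {H K : Subgroup G} (h : H ≤ cc K) {x y : G} (hx : x ∈ H) (hy : y ∈ K) :
    Commute x y := (mem_cc.1 (h hx) y hy).symm

theorem cm_one {x y : G} (h : Commute x y) : ⁅x, y⁆ = 1 := commutatorElement_eq_one_iff_commute.2 h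

theorem of_cm_one {x y : G} (h : ⁅x, y⁆ = 1) : Commute x y :=
  commutatorElement_eq_one_iff_commute.1 h

theorem swap {u a b : G} (hab : Commute a b) (h1 : Commute ⁅u, a⁆ ⁅⁅u, b⁆, a⁆)
    (h2 : Commute ⁅u, b⁆ ⁅⁅u, a⁆, b⁆) (h3 : Commute ⁅u, a⁆ ⁅u, b⁆) :
    ⁅⁅u, a⁆, b⁆ = ⁅⁅u, b⁆, a⁆ := by
  have e1 : ⁅u, a * b⁆ = ⁅u, a⁆ * ⁅⁅u, b⁆, a⁆⁻¹ * ⁅u, b⁆ := by
    simp only [commutatorElement_def]; group
  have e2 : ⁅u, b * a⁆ = ⁅u, b⁆ * ⁅⁅u, a⁆, b⁆⁻¹ * ⁅u, a⁆ := by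
    simp only [commutatorElement_def]; group
  rw [hab.eq, e2, h2.inv_right.eq, h1.inv_right.eq, mul_assoc, mul_assoc, h3.eq,
    mul_left_inj, inv_inj] at e1
  exact e1

theorem cm_mem {Z : Subgroup G} [hZ : Z.Normal] {x : G} (hx : x ∈ Z) (a : G) : ⁅x, a⁆ ∈ Z := by
  have := Z.mul_mem hx (hZ.conj_mem _ (Z.inv_mem hx) a)
  simpa [commutatorElement_def, mul_assoc] using this

theorem cm_mul_left (x y a : G) : ⁅x * y, a⁆ = x * ⁅y, a⁆ * x⁻¹ * ⁅x, a⁆ := by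
  simp only [commutatorElement_def]; group

theorem cm_mul_left_of {x y a : G} (h : Commute y a) : ⁅x * y, a⁆ = ⁅x, a⁆ := by
  rw [cm_mul_left, cm_one h]; group

theorem swapZ {Z : Subgroup G} [Z.Normal] (hZ : Z ≤ cc Z) {x a b : G} (hx : x ∈ Z)
    (hab : Commute a b) : ⁅⁅x, a⁆, b⁆ = ⁅⁅x, b⁆, a⁆ :=
  swap hab (com_of hZ (cm_mem hx a) (cm_mem (cm_mem hx b) a))
    (com_of hZ (cm_mem hx b) (cm_mem (cm_mem hx a) b)) (com_of hZ (cm_mem hx a) (cm_mem hx b))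

/-- the subgroup `[u, A]` -/
def cm (u : G) (A : Subgroup G) : Subgroup G := closure {x | ∃ a ∈ A, x = ⁅u, a⁆}

theorem mem_cm {u a : G} {A : Subgroup G} (ha : a ∈ A) : ⁅u, a⁆ ∈ cm u A :=
  subset_closure ⟨a, ha, rfl⟩

theorem cm_le {u : G} {A H : Subgroup G} (h : ∀ a ∈ A, ⁅u, a⁆ ∈ H) : cm u A ≤ H :=
  (closure_le _).2 (by rintro _ ⟨a, ha, rfl⟩; exact h a ha)

theorem mem_cc_cm {u x : G} {A : Subgroup G} (h : ∀ a ∈ A, Commute ⁅u, a⁆ x) : x ∈ cc (cm u A) := by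
  have : cm u A ≤ centralizer {x} :=
    cm_le fun a ha => mem_centralizer_singleton_iff.2 (h a ha).eq
  exact mem_cc.2 fun y hy => mem_centralizer_singleton_iff.1 (this hy)

theorem conj_mem_cm {u a m : G} {A : Subgroup G} (ha : a ∈ A) (hm : m ∈ cm u A) :
    a * m * a⁻¹ ∈ cm u A := by
  have : cm u A ≤ (cm u A).comap (MulAut.conj a).toMonoidHom := cm_le fun b hb => by
    have e : a * ⁅u, b⁆ * a⁻¹ = ⁅u, a⁆⁻¹ * ⁅u, a * b⁆ := by
      simp only [commutatorElement_def]; group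
    change a * ⁅u, b⁆ * a⁻¹ ∈ cm u A
    rw [e]
    exact mul_mem (inv_mem (mem_cm ha)) (mem_cm (mul_mem ha hb))
  exact this hm

theorem cm_mem_cm {u a m : G} {A : Subgroup G} (ha : a ∈ A) (hm : m ∈ cm u A) :
    ⁅m, a⁆ ∈ cm u A := by
  have := mul_mem hm (conj_mem_cm ha (inv_mem hm))
  simpa [commutatorElement_def, mul_assoc] using this

theorem exists_mul_of_cc {M E : Subgroup G} (h : E ≤ cc M) {x : G} (hx : x ∈ M ⊔ E) :
    ∃ m ∈ M, ∃ e ∈ E, x = m * e := by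
  have hn : E ≤ normalizer (M : Set G) := h.trans (centralizer_le_normalizer _)
  rw [← SetLike.mem_coe, coe_mul_of_right_le_normalizer_left _ _ hn] at hx
  obtain ⟨m, hm, e, he, rfl⟩ := hx
  exact ⟨m, hm, e, he, rfl⟩

theorem card_sup_cc {M E : Subgroup G} (h : M ≤ cc E) :
    Nat.card ↥(M ⊔ E) * Nat.card ↥(M ⊓ E) = Nat.card M * Nat.card E :=
  card_sup_mul_card_inf_of_le_normalizer (h.trans (centralizer_le_normalizer _))

/-- abelian subgroups of largest order -/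
def MA (S A : Subgroup G) : Prop :=
  A ≤ S ∧ A ≤ cc A ∧ ∀ B : Subgroup G, B ≤ S → B ≤ cc B → Nat.card B ≤ Nat.card A

theorem ma_iff {S A : Subgroup G} : A ∈ maxElemIn 0 S ↔ MA S A := by
  have e : ∀ B : Subgroup G, IsElementaryAbelian 0 B ↔ B ≤ cc B := fun B => by
    rw [ZJ.elemAb_zero_iff, le_centralizer_iff_isMulCommutative]
  simp only [mem_maxElemIn, MA, e]

variable [Finite G]

theorem MA.mem {S A : Subgroup G} (hA : MA S A) {x : G} (hx : x ∈ S) (hc : x ∈ cc A) : x ∈ A :=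
  mem_of_mem_maxElemIn_of_centralizes (ma_iff.2 hA) hx hc (pow_zero x)

theorem MA.of_card {S A B : Subgroup G} (hA : MA S A) (hB : B ≤ S) (hc : B ≤ cc B)
    (h : Nat.card A ≤ Nat.card B) : MA S B :=
  ⟨hB, hc, fun C h1 h2 => (hA.2.2 C h1 h2).trans h⟩

/-- the measure inequality -/
theorem MA.meas {S A M : Subgroup G} (hA : MA S A) (hMS : M ≤ S) (hM : M ≤ cc M) :
    Nat.card ↥(M ⊔ (A ⊓ cc M)) * Nat.card ↥(M ⊓ A) = Nat.card M * Nat.card ↥(A ⊓ cc M) ∧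
      Nat.card ↥(M ⊔ (A ⊓ cc M)) ≤ Nat.card A := by
  have h1 : M ≤ cc (A ⊓ cc M) := cc_comm inf_le_right
  have h2 : M ⊓ (A ⊓ cc M) = M ⊓ A :=
    le_antisymm (inf_le_inf_left _ inf_le_left)
      (le_inf inf_le_left (le_inf inf_le_right (inf_le_left.trans hM)))
  refine ⟨h2 ▸ card_sup_cc h1, hA.2.2 _ (sup_le hMS (inf_le_left.trans hA.1))
    (ab_sup hM (ab_mono hA.2.1 inf_le_left) h1)⟩

theorem MA.repl {S A M : Subgroup G} (hA : MA S A) (hMS : M ≤ S) (hM : M ≤ cc M)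
    (h : Nat.card A * Nat.card ↥(M ⊓ A) ≤ Nat.card M * Nat.card ↥(A ⊓ cc M)) :
    MA S (M ⊔ (A ⊓ cc M)) := by
  refine hA.of_card (sup_le hMS (inf_le_left.trans hA.1))
    (ab_sup hM (ab_mono hA.2.1 inf_le_left) (cc_comm inf_le_right)) ?_
  rw [← (hA.meas hMS hM).1] at h
  exact Nat.le_of_mul_le_mul_right h Nat.card_pos

/-- Thompson's count -/
theorem thompson {S A : Subgroup G} (hA : MA S A) {u : G} (hu : u ∈ S)
    (hM : cm u A ≤ cc (cm u A)) :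
    Nat.card A * Nat.card ↥(cm u A ⊓ A) ≤ Nat.card (cm u A) * Nat.card ↥(A ⊓ cc (cm u A)) ∧
      ∀ m ∈ cm u A, ∃ c ∈ A, ∃ y ∈ A, m = ⁅u, c⁆ * y := by
  set M := cm u A with hMdef
  have hMS : M ≤ S := cm_le fun a ha =>
    S.mul_mem (S.mul_mem (S.mul_mem hu (hA.1 ha)) (S.inv_mem hu)) (S.inv_mem (hA.1 ha))
  let f : A → M ⧸ A.subgroupOf M := fun a => QuotientGroup.mk ⟨⁅u, (a : G)⁆, mem_cm a.2⟩
  have hf : ∀ a c : A, f a = f c → a⁻¹ * c ∈ (cc M).subgroupOf A := by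
    intro a c h
    have h1 : ⁅u, (a : G)⁆⁻¹ * ⁅u, (c : G)⁆ ∈ A :=
      mem_subgroupOf.1 (QuotientGroup.eq (s := A.subgroupOf M).1 h)
    have he : (a : G)⁻¹ * c ∈ A := mul_mem (inv_mem a.2) c.2
    have h2 : ⁅u, (a : G)⁻¹ * c⁆ ∈ A := by
      have e : ⁅u, (a : G)⁻¹ * c⁆ = (a : G)⁻¹ * (⁅u, (a : G)⁆⁻¹ * ⁅u, (c : G)⁆) * a := by
        simp only [commutatorElement_def]; group
      rw [e]
      exact mul_mem (mul_mem (inv_mem a.2) h1) a.2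
    change (a : G)⁻¹ * c ∈ cc M
    refine mem_cc_cm fun d hd => of_cm_one ?_
    rw [swap (com_of hA.2.1 hd he) (com_of hM (mem_cm hd) (cm_mem_cm hd (mem_cm he)))
      (com_of hM (mem_cm he) (cm_mem_cm he (mem_cm hd))) (com_of hM (mem_cm hd) (mem_cm he))]
    exact cm_one (com_of hA.2.1 h2 hd)
  let g : A ⧸ (cc M).subgroupOf A → M ⧸ A.subgroupOf M := fun q => f q.out
  have hg : Function.Injective g := fun q q' h => by
    rw [← q.out_eq', ← q'.out_eq']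
    exact QuotientGroup.eq.2 (hf _ _ h)
  have c1 : Nat.card A = Nat.card (A ⧸ (cc M).subgroupOf A) * Nat.card ↥(A ⊓ cc M) := by
    rw [card_eq_card_quotient_mul_card_subgroup ((cc M).subgroupOf A), inf_comm,
      ← inf_subgroupOf_right, Nat.card_congr (subgroupOfEquivOfLe inf_le_right).toEquiv]
  have c2 : Nat.card M = Nat.card (M ⧸ A.subgroupOf M) * Nat.card ↥(M ⊓ A) := by
    rw [card_eq_card_quotient_mul_card_subgroup (A.subgroupOf M), inf_comm,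
      ← inf_subgroupOf_right, Nat.card_congr (subgroupOfEquivOfLe inf_le_right).toEquiv]
  have c3 := Nat.card_le_card_of_injective g hg
  obtain ⟨c4, c5⟩ := hA.meas hMS hM
  have c6 : Nat.card (M ⧸ A.subgroupOf M) ≤ Nat.card (A ⧸ (cc M).subgroupOf A) := by
    have := Nat.mul_le_mul_right (Nat.card ↥(M ⊓ A)) c5
    rw [c4, c1, c2] at this
    have p1 : 0 < Nat.card ↥(M ⊓ A) * Nat.card ↥(A ⊓ cc M) := Nat.mul_pos Nat.card_pos Nat.card_pos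
    refine Nat.le_of_mul_le_mul_right ?_ p1
    calc _ = Nat.card (M ⧸ A.subgroupOf M) * Nat.card ↥(M ⊓ A) * Nat.card ↥(A ⊓ cc M) := by ring
      _ ≤ _ := this
      _ = _ := by ring
  refine ⟨?_, fun m hm => ?_⟩
  · rw [c1, c2]
    calc _ = Nat.card (A ⧸ (cc M).subgroupOf A) * (Nat.card ↥(M ⊓ A) * Nat.card ↥(A ⊓ cc M)) := by
          ring
      _ ≤ Nat.card (M ⧸ A.subgroupOf M) * (Nat.card ↥(M ⊓ A) * Nat.card ↥(A ⊓ cc M)) :=
          Nat.mul_le_mul_right _ c3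
      _ = _ := by ring
  · obtain ⟨q, hq⟩ := (hg.bijective_of_nat_card_le c6).2 (QuotientGroup.mk ⟨m, hm⟩)
    have h1 : ⁅u, (q.out : G)⁆⁻¹ * m ∈ A :=
      mem_subgroupOf.1 (QuotientGroup.eq (s := A.subgroupOf M).1 hq)
    exact ⟨q.out, q.out.2, _, h1, by group⟩

end Basic

section Kil
variable {G : Type*} [Group G]

/-- all iterated commutators of length `n` with entries in `A` lie in `V` -/
def KV (V A : Subgroup G) : ℕ → G → Prop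
  | 0, u => u ∈ V
  | n + 1, u => ∀ a ∈ A, KV V A n ⁅u, a⁆

theorem KV.succ {V A : Subgroup G} [V.Normal] : ∀ {n : ℕ} {u : G}, KV V A n u → KV V A (n + 1) u
  | 0, _, h => fun a _ => cm_mem h a
  | _ + 1, _, h => fun a ha => KV.succ (h a ha)

theorem KV.mono {V A : Subgroup G} [V.Normal] {m n : ℕ} (hmn : m ≤ n) {u : G} (h : KV V A m u) :
    KV V A n u := by
  induction hmn with
  | refl => exact h
  | step _ ih => exact ih.succ

theorem exists_up {U V : Subgroup G} [U.Normal] [V.Normal] (A : Subgroup G) (hUV : ⁅U, U⁆ ≤ V)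
    (n : ℕ) : ∃ W : Subgroup G, V ⊓ U ≤ W ∧ (∀ u, u ∈ W ↔ u ∈ U ∧ KV V A n u) ∧
      iterCommutator W A n ≤ V := by
  induction n with
  | zero => exact ⟨V ⊓ U, le_rfl, fun u => and_comm, inf_le_left⟩
  | succ n ih =>
    obtain ⟨W, h1, h2, h3⟩ := ih
    have hWU : W ≤ U := fun u hu => ((h2 u).1 hu).1
    have hn : U ≤ normalizer (W : Set G) := by
      have key : ∀ x ∈ U, ∀ w ∈ W, x * w * x⁻¹ ∈ W := fun x hx w hw => by
        have e : x * w * x⁻¹ = ⁅x, w⁆ * w := by simp only [commutatorElement_def]; group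
        rw [e]
        exact mul_mem (h1 ⟨hUV (commutator_mem_commutator hx (hWU hw)), cm_mem hx w⟩) hw
      intro x hx
      rw [mem_normalizer_iff]
      refine fun w => ⟨key x hx w, fun hw => ?_⟩
      have := key x⁻¹ (inv_mem hx) _ hw
      simpa [mul_assoc] using this
    refine ⟨U ⊓ commutatorStabilizer A W, fun x hx => ⟨hx.2, hn hx.2, fun a _ =>
      h1 ⟨cm_mem hx.1 a, cm_mem hx.2 a⟩⟩, fun u => ⟨fun hu => ⟨hu.1, fun a ha =>
        ((h2 _).1 (hu.2.2 a ha)).2⟩, fun hu => ⟨hu.1, hn hu.1, fun a ha =>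
          (h2 _).2 ⟨cm_mem hu.1 a, hu.2 a ha⟩⟩⟩, ?_⟩
    rw [add_comm, CFun.iterCommutator_add]
    exact (LAE.iterCommutator_mono (le_commutatorStabilizer_iff.1 inf_le_right).2 le_rfl n).trans h3

theorem iter_le {U V A : Subgroup G} [U.Normal] [V.Normal] (hUV : ⁅U, U⁆ ≤ V) {n : ℕ}
    (h : ∀ u ∈ U, KV V A n u) : iterCommutator U A n ≤ V := by
  obtain ⟨W, -, h2, h3⟩ := exists_up A hUV n
  exact (LAE.iterCommutator_mono (fun u hu => (h2 u).2 ⟨hu, h u hu⟩) le_rfl n).trans h3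

theorem exists_KV [Finite G] {p : ℕ} [Fact p.Prime] {S A : Subgroup G} (hS : IsPGroup p S)
    (hA : A ≤ S) (V : Subgroup G) {u : G} (hu : u ∈ S) : ∃ n, KV V A n u := by
  have := hS.isNilpotent
  have key : ∀ (n : ℕ) (x : S), x ∈ Subgroup.upperCentralSeries S n → KV V A n x := by
    intro n
    induction n with
    | zero =>
      intro x hx
      rw [Subgroup.upperCentralSeries_zero, mem_bot] at hx
      rw [hx]; exact V.one_mem
    | succ n ih =>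
      intro x hx a ha
      exact ih _ (Subgroup.mem_upperCentralSeries_succ_iff.1 hx ⟨a, hA ha⟩)
  obtain ⟨n, hn⟩ := (Group.IsNilpotent.nilpotent' : ∃ n, Subgroup.upperCentralSeries S n = ⊤)
  exact ⟨n, key n ⟨u, hu⟩ (hn ▸ mem_top _)⟩

theorem KV.mul {Z A : Subgroup G} [Z.Normal] (hZ : Z ≤ cc Z) :
    ∀ {n : ℕ} {x y : G}, x ∈ Z → y ∈ Z → KV ⊥ A n x → KV ⊥ A n y → KV ⊥ A n (x * y)
  | 0, _, _, _, _, h, h' => mul_mem h h'
  | n + 1, x, y, hx, hy, h, h' => fun a ha => by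
    rw [cm_mul_left, (com_of hZ hx (cm_mem hy a)).eq, mul_inv_cancel_right]
    exact KV.mul hZ (cm_mem hy a) (cm_mem hx a) (h' a ha) (h a ha)

theorem KV.conj {A : Subgroup G} (hA : A ≤ cc A) {b : G} (hb : b ∈ A) :
    ∀ {n : ℕ} {x : G}, KV ⊥ A n x → KV ⊥ A n (b * x * b⁻¹)
  | 0, _, h => by
    rw [show _ = (1 : G) from mem_bot.1 h, mul_one, mul_inv_cancel]; exact one_mem (⊥ : Subgroup G)
  | n + 1, x, h => fun a ha => by
    have e : ⁅b * x * b⁻¹, a⁆ = b * ⁅x, b⁻¹ * a * b⁆ * b⁻¹ := by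
      simp only [commutatorElement_def]; group
    rw [e, mul_assoc b⁻¹, (com_of hA ha hb).eq, inv_mul_cancel_left]
    exact KV.conj hA hb (h a ha)

/-- monomials of length `j` -/
def Mon (Q A : Subgroup G) : ℕ → G → Prop
  | 0, y => y ∈ Q
  | j + 1, y => ∃ y', Mon Q A j y' ∧ ∃ a ∈ A, y = ⁅y', a⁆

theorem Mon.pred {Q A : Subgroup G} [Q.Normal] : ∀ {j : ℕ} {y : G}, Mon Q A (j + 1) y → Mon Q A j y
  | 0, _, ⟨_, h, a, _, e⟩ => e ▸ cm_mem h a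
  | _ + 1, _, ⟨y', h, a, ha, e⟩ => ⟨y', h.pred, a, ha, e⟩

theorem Mon.mem {Q A : Subgroup G} [Q.Normal] : ∀ {j : ℕ} {y : G}, Mon Q A j y → y ∈ Q
  | 0, _, h => h
  | _ + 1, _, h => h.pred.mem

/-- isotropy -/
theorem iso {Q Z A : Subgroup G} [Q.Normal] [Z.Normal] (hZQ : Z ≤ Q) (hZc : Z ≤ cc Q)
    (hQ : ⁅Q, Q⁆ ≤ Z) (hA : A ≤ cc A) (h2 : ∀ z ∈ Z, KV ⊥ A 2 z) :
    ∀ (j k l : ℕ) {x y : G}, x ∈ Q → KV Z A k x → Mon Q A j y → k + 1 ≤ j + l →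
      KV ⊥ A l ⁅x, y⁆ := by
  have hZ : Z ≤ cc Z := hZc.trans (cc_anti hZQ)
  have h0 : ∀ (l : ℕ) {x y : G}, x ∈ Z → y ∈ Q → KV ⊥ A l ⁅x, y⁆ := fun l x y hx hy => by
    refine KV.mono (Nat.zero_le l) ?_
    rw [cm_one (com_of hZc hx hy)]; exact one_mem (⊥ : Subgroup G)
  intro j
  induction j with
  | zero =>
    intro k l x y hx hk hy hl
    rcases k with _ | k
    · exact h0 l hk hy
    · exact KV.mono (by omega) (h2 _ (hQ (commutator_mem_commutator hx hy)))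
  | succ j ih =>
    rintro k l x _ hx hk ⟨y, hy, a, ha, rfl⟩ hl
    rcases k with _ | k
    · exact h0 l hk (cm_mem hy.mem a)
    have hyQ := hy.mem
    have hxa : ⁅x, a⁻¹⁆ ∈ Q := cm_mem hx _
    have z1 : ⁅x, y⁆ ∈ Z := hQ (commutator_mem_commutator hx hyQ)
    have z2 : ⁅⁅x, a⁻¹⁆, y⁆ ∈ Z := hQ (commutator_mem_commutator hxa hyQ)
    -- the identity
    have c1 : Commute ⁅x, y⁆ ⁅x, a⁻¹⁆ := com_of hZc z1 hxa
    have c2 : Commute ⁅⁅x, a⁻¹⁆, y⁆ ⁅x, a⁻¹⁆ := com_of hZc z2 hxa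
    have c3 : Commute ⁅⁅x, a⁻¹⁆, y⁆ ⁅x, y⁆ := com_of hZ z2 z1
    have e1 : ⁅a⁻¹ * x * a, y⁆ = ⁅x, y⁆ * ⁅⁅x, a⁻¹⁆, y⁆⁻¹ := by
      have e : ⁅a⁻¹ * x * a, y⁆ =
          ⁅x, a⁻¹⁆⁻¹ * (⁅x, y⁆ * ⁅⁅x, a⁻¹⁆, y⁆⁻¹) * ⁅x, a⁻¹⁆ := by
        simp only [commutatorElement_def]; group
      rw [e, mul_assoc, (c1.mul_left c2.inv_left).eq, inv_mul_cancel_left]
    have z3 : ⁅x, a * y * a⁻¹⁆ ∈ Z :=
      hQ (commutator_mem_commutator hx (‹Q.Normal›.conj_mem _ hyQ a))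
    have c4 : Commute ⁅x, a * y * a⁻¹⁆ ⁅y, a⁆ := com_of hZc z3 (cm_mem hyQ a)
    have e2 : ⁅x, ⁅y, a⁆⁆ = ⁅x, y⁆ * ⁅x, a * y * a⁻¹⁆⁻¹ := by
      have e : ⁅x, ⁅y, a⁆⁆ = ⁅x, y⁆ * (⁅y, a⁆ * ⁅x, a * y * a⁻¹⁆⁻¹ * ⁅y, a⁆⁻¹) := by
        simp only [commutatorElement_def]; group
      rw [e, ← c4.inv_left.eq, mul_inv_cancel_right]
    have e3 : ⁅x, a * y * a⁻¹⁆ = a * ⁅a⁻¹ * x * a, y⁆ * a⁻¹ := by
      simp only [commutatorElement_def]; group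
    have e4 : ⁅x, ⁅y, a⁆⁆ = ⁅⁅x, y⁆, a⁆ * (a * ⁅⁅x, a⁻¹⁆, y⁆ * a⁻¹) := by
      rw [e2, e3, e1, ← c3.inv_left.eq, commutatorElement_def ⁅x, y⁆ a]
      group
    rw [e4]
    exact KV.mul hZ (cm_mem z1 a) (‹Z.Normal›.conj_mem _ z2 a)
      (ih (k + 1) (l + 1) hx hk hy (by omega) a ha)
      (KV.conj hA ha (ih k l hxa (hk _ (inv_mem ha)) hy (by omega)))

end Kil

section Main
variable {G : Type*} [Group G] [Finite G] {p : ℕ} [Fact p.Prime]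

/-- the setting -/
structure St (p : ℕ) (S T Q Z A : Subgroup G) : Prop where
  hS : IsPGroup p S
  hTS : T ≤ S
  hQT : Q ≤ T
  hZQ : Z ≤ Q
  hZc : Z ≤ cc Q
  h3 : ⁅T, Q⁆ ≤ Z
  hA : MA S A
  max1 : ∀ B, MA S B → ¬ B ≤ T → Nat.card ↥(B ⊓ Z) ≤ Nat.card ↥(A ⊓ Z)
  max2 : ∀ B, MA S B → ¬ B ≤ T → A ⊓ Z ≤ B → Nat.card ↥(B ⊓ T) ≤ Nat.card ↥(A ⊓ T)

namespace St
variable {S T Q Z A : Subgroup G} [T.Normal] [Q.Normal] [Z.Normal] (h : St p S T Q Z A)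
include h

theorem hZ : Z ≤ cc Z := h.hZc.trans (cc_anti h.hZQ)

theorem hZS : Z ≤ S := h.hZQ.trans (h.hQT.trans h.hTS)

theorem hQQ : ⁅Q, Q⁆ ≤ Z := (commutator_mono h.hQT le_rfl).trans h.h3

theorem com {a b : G} (ha : a ∈ A) (hb : b ∈ A) : Commute a b := com_of h.hA.2.1 ha hb

theorem qt {y t : G} (hy : y ∈ Q) (ht : t ∈ T) : ⁅y, t⁆ ∈ Z := by
  rw [← commutatorElement_inv]
  exact inv_mem (h.h3 (commutator_mem_commutator ht hy))

theorem sw {x a b : G} (hx : x ∈ Z) (ha : a ∈ A) (hb : b ∈ A) : ⁅⁅x, a⁆, b⁆ = ⁅⁅x, b⁆, a⁆ :=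
  swapZ h.hZ hx (h.com ha hb)

theorem phi {y a t : G} (hy : y ∈ Q) (ha : a ∈ A) (ht : t ∈ A) (ht' : t ∈ T) :
    ⁅⁅y, a⁆, t⁆ = ⁅⁅y, t⁆, a⁆ :=
  swap (h.com ha ht) (com_of h.hZc (cm_mem (h.qt hy ht') a) (cm_mem hy a)).symm
    (com_of h.hZ (h.qt hy ht') (h.qt (cm_mem hy a) ht'))
    (com_of h.hZc (h.qt hy ht') (cm_mem hy a)).symm

theorem cmZ {u : G} (hu : u ∈ Z) : cm u A ≤ Z := cm_le fun a _ => cm_mem hu a

theorem f2 {u : G} (hu : u ∈ Z) (h2 : ¬ KV ⊥ A 2 u) : A ⊓ cc (cm u A) ≤ T := by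
  by_contra hE
  have hM := ab_mono h.hZ (h.cmZ hu)
  have hB := h.hA.repl ((h.cmZ hu).trans h.hZS) hM (thompson h.hA (h.hZS hu) hM).1
  have h1 : A ⊓ Z ≤ (cm u A ⊔ (A ⊓ cc (cm u A))) ⊓ Z :=
    le_inf ((inf_le_inf_left A (h.hZ.trans (cc_anti (h.cmZ hu)))).trans le_sup_right) inf_le_right
  have h4 := eq_of_le_of_card_ge h1 (h.max1 _ hB fun hle => hE (le_sup_right.trans hle))
  refine h2 fun a ha b hb => ?_
  have : ⁅u, a⁆ ∈ A ⊓ Z := h4 ▸ ⟨mem_sup_left (mem_cm ha), cm_mem hu a⟩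
  exact mem_bot.2 (cm_one (h.com this.1 hb))

theorem f3aux {a b c : G} (ha : a ∈ A) (hb : b ∈ A) (hc : c ∈ A) :
    ∀ (n : ℕ) {u : G}, u ∈ Z → KV ⊥ A n u → (∀ d ∈ A, ⁅⁅u, c⁆, d⁆ = ⁅⁅⁅u, a⁆, b⁆, d⁆) →
      ¬ KV ⊥ A 2 u → c ∈ T := by
  intro n
  induction n with
  | zero => exact fun _ hk _ h2 => (h2 (hk.mono (Nat.zero_le 2))).elim
  | succ n ih =>
    intro u hu hk hR h2
    by_cases h3 : KV ⊥ A 3 u
    · refine h.f2 hu h2 ⟨hc, mem_cc_cm fun d hd => of_cm_one ?_⟩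
      rw [h.sw hu hd hc, hR d hd]
      exact mem_bot.1 (h3 a ha b hb d hd)
    · obtain ⟨e, he, h4⟩ : ∃ e ∈ A, ¬ KV ⊥ A 2 ⁅u, e⁆ := by
        by_contra! hcon
        exact h3 hcon
      refine ih (cm_mem hu e) (hk e he) (fun d hd => ?_) h4
      rw [h.sw hu he hc, h.sw (cm_mem hu c) he hd, hR d hd, h.sw hu he ha,
        h.sw (cm_mem hu a) he hb, h.sw (cm_mem (cm_mem hu a) b) he hd]

theorem f3 {u a b : G} (hu : u ∈ Z) (ha : a ∈ A) (hb : b ∈ A) :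
    ∃ c ∈ A, c ∈ T ∧ ∀ d ∈ A, ⁅⁅u, c⁆, d⁆ = ⁅⁅⁅u, a⁆, b⁆, d⁆ := by
  by_cases h2 : KV ⊥ A 2 u
  · refine ⟨1, one_mem _, one_mem _, fun d _ => ?_⟩
    rw [show ⁅⁅u, a⁆, b⁆ = 1 from mem_bot.1 (h2 a ha b hb), commutatorElement_one_right]
  obtain ⟨c, hc, y, hy, e⟩ := (thompson h.hA (h.hZS hu) (ab_mono h.hZ (h.cmZ hu))).2 _
    (cm_mem_cm hb (mem_cm ha))
  have hR : ∀ d ∈ A, ⁅⁅u, c⁆, d⁆ = ⁅⁅⁅u, a⁆, b⁆, d⁆ := fun d hd => by
    rw [e, cm_mul_left_of (h.com hy hd)]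
  obtain ⟨n, hn⟩ := exists_KV h.hS h.hA.1 ⊥ (h.hZS hu)
  exact ⟨c, hc, h.f3aux ha hb hc n hu hn hR h2, hR⟩

theorem f4 {U V : Subgroup G} [U.Normal] [V.Normal] (hU : U ≤ Z) (hUT : ⁅U, T⁆ ≤ V) :
    iterCommutator U A 3 ≤ V := by
  refine iter_le ((commutator_mono le_rfl (hU.trans (h.hZQ.trans h.hQT))).trans hUT)
    fun u hu a ha b hb d hd => ?_
  obtain ⟨c, -, hc, e⟩ := h.f3 (hU hu) ha hb
  change ⁅⁅⁅u, a⁆, b⁆, d⁆ ∈ V
  rw [← e d hd]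
  exact cm_mem (hUT (commutator_mem_commutator hu hc)) d

/-- the lattice -/
def Lat (Z A N : Subgroup G) : Prop :=
  Z ⊓ A ≤ N ∧ N ≤ Z ∧
    Nat.card A * Nat.card ↥(Z ⊓ A) ≤ Nat.card N * Nat.card ↥(A ⊓ cc N)

theorem lat_le {N : Subgroup G} (h1 : Z ⊓ A ≤ N) (h2 : N ≤ Z) :
    Nat.card N * Nat.card ↥(A ⊓ cc N) ≤ Nat.card A * Nat.card ↥(Z ⊓ A) := by
  obtain ⟨c1, c2⟩ := h.hA.meas (h2.trans h.hZS) (ab_mono h.hZ h2)
  have e : N ⊓ A = Z ⊓ A := le_antisymm (inf_le_inf_right _ h2) (le_inf h1 inf_le_right)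
  rw [← c1, e]
  exact Nat.mul_le_mul_right _ c2

theorem lat_sup {N N' : Subgroup G} (hN : Lat Z A N) (hN' : Lat Z A N') : Lat Z A (N ⊔ N') := by
  refine ⟨hN.1.trans le_sup_left, sup_le hN.2.1 hN'.2.1, ?_⟩
  have c1 : Nat.card ↥(N ⊔ N') * Nat.card ↥(N ⊓ N') = Nat.card N * Nat.card N' :=
    card_sup_cc (hN.2.1.trans (h.hZ.trans (cc_anti hN'.2.1)))
  have c2 : Nat.card ↥((A ⊓ cc N) ⊔ (A ⊓ cc N')) * Nat.card ↥((A ⊓ cc N) ⊓ (A ⊓ cc N')) =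
      Nat.card ↥(A ⊓ cc N) * Nat.card ↥(A ⊓ cc N') :=
    card_sup_cc (inf_le_left.trans (h.hA.2.1.trans (cc_anti inf_le_left)))
  have c3 : Nat.card ↥((A ⊓ cc N) ⊓ (A ⊓ cc N')) ≤ Nat.card ↥(A ⊓ cc (N ⊔ N')) :=
    card_le_of_le (le_inf (inf_le_left.trans inf_le_left) (cc_comm (sup_le
      (cc_comm (inf_le_left.trans inf_le_right)) (cc_comm (inf_le_right.trans inf_le_right)))))
  have c4 : Nat.card ↥((A ⊓ cc N) ⊔ (A ⊓ cc N')) ≤ Nat.card ↥(A ⊓ cc (N ⊓ N')) :=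
    card_le_of_le (sup_le (inf_le_inf_left _ (cc_anti inf_le_left))
      (inf_le_inf_left _ (cc_anti inf_le_right)))
  have c5 := h.lat_le (le_inf hN.1 hN'.1) (inf_le_left.trans hN.2.1)
  have c6 := Nat.mul_le_mul hN.2.2 hN'.2.2
  have p1 : 0 < Nat.card A * Nat.card ↥(Z ⊓ A) := Nat.mul_pos Nat.card_pos Nat.card_pos
  refine Nat.le_of_mul_le_mul_right ?_ p1
  calc _ ≤ _ := c6
    _ = (Nat.card N * Nat.card N') * (Nat.card ↥(A ⊓ cc N) * Nat.card ↥(A ⊓ cc N')) := by ring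
    _ = (Nat.card ↥(N ⊔ N') * Nat.card ↥((A ⊓ cc N) ⊓ (A ⊓ cc N'))) *
        (Nat.card ↥(N ⊓ N') * Nat.card ↥((A ⊓ cc N) ⊔ (A ⊓ cc N'))) := by rw [← c1, ← c2]; ring
    _ ≤ _ := Nat.mul_le_mul (Nat.mul_le_mul_left _ c3) ((Nat.mul_le_mul_left _ c4).trans c5)

theorem lat_cm {u : G} (hu : u ∈ Z) : Lat Z A (cm u A ⊔ (Z ⊓ A)) := by
  have hM := ab_mono h.hZ (h.cmZ hu)
  refine ⟨le_sup_right, sup_le (h.cmZ hu) inf_le_left, ?_⟩
  have c1 := (thompson h.hA (h.hZS hu) hM).1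
  have c2 : Nat.card ↥(cm u A ⊔ (Z ⊓ A)) * Nat.card ↥(cm u A ⊓ (Z ⊓ A)) =
      Nat.card (cm u A) * Nat.card ↥(Z ⊓ A) :=
    card_sup_cc ((h.cmZ hu).trans (h.hZ.trans (cc_anti inf_le_left)))
  have e : cm u A ⊓ (Z ⊓ A) = cm u A ⊓ A := by rw [← inf_assoc, inf_eq_left.2 (h.cmZ hu)]
  have c3 : Nat.card ↥(A ⊓ cc (cm u A)) ≤ Nat.card ↥(A ⊓ cc (cm u A ⊔ (Z ⊓ A))) :=
    card_le_of_le (le_inf inf_le_left (cc_comm (sup_le (cc_comm inf_le_right)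
      (inf_le_right.trans (h.hA.2.1.trans (cc_anti inf_le_left))))))
  rw [e] at c2
  have p1 : 0 < Nat.card ↥(cm u A ⊓ A) := Nat.card_pos
  refine Nat.le_of_mul_le_mul_right ?_ p1
  calc _ = (Nat.card A * Nat.card ↥(cm u A ⊓ A)) * Nat.card ↥(Z ⊓ A) := by ring
    _ ≤ (Nat.card (cm u A) * Nat.card ↥(A ⊓ cc (cm u A ⊔ (Z ⊓ A)))) * Nat.card ↥(Z ⊓ A) :=
        Nat.mul_le_mul_right _ (c1.trans (Nat.mul_le_mul_left _ c3))
    _ = (Nat.card (cm u A) * Nat.card ↥(Z ⊓ A)) * Nat.card ↥(A ⊓ cc (cm u A ⊔ (Z ⊓ A))) := by ring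
    _ = _ := by rw [← c2]; ring

theorem f5 : ∃ N : Subgroup G, N ≤ Z ∧ (∀ u ∈ Z, cm u A ≤ N) ∧ MA S (N ⊔ (A ⊓ cc N)) := by
  obtain ⟨N, hN, hmax⟩ := (Set.toFinite {N : Subgroup G | Lat Z A N}).exists_maximal
    ⟨_, h.lat_cm (one_mem Z)⟩
  refine ⟨N, hN.2.1, fun u hu => le_sup_left.trans (le_sup_right.trans
    (hmax (h.lat_sup hN (h.lat_cm hu)) le_sup_left)), ?_⟩
  refine h.hA.repl (hN.2.1.trans h.hZS) (ab_mono h.hZ hN.2.1) ?_
  have e : N ⊓ A = Z ⊓ A := le_antisymm (inf_le_inf_right _ hN.2.1) (le_inf hN.1 inf_le_right)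
  rw [e]
  exact hN.2.2

theorem case2 {z : G} (hz : z ∈ Z) (h2 : ¬ KV ⊥ A 2 z) {y : G} (hy : y ∈ Q) : KV Z A 4 y := by
  obtain ⟨N, hNZ, hN, hD⟩ := h.f5
  have hE : A ⊓ cc N ≤ T := (inf_le_inf_left _ (cc_anti (hN z hz))).trans (h.f2 hz h2)
  intro a ha b hb d hd f hf
  have hx : ⁅⁅⁅y, a⁆, b⁆, d⁆ ∈ Q := cm_mem (cm_mem (cm_mem hy a) b) d
  have hc : ⁅⁅⁅y, a⁆, b⁆, d⁆ ∈ cc (N ⊔ (A ⊓ cc N)) := by
    have h1 : N ⊔ (A ⊓ cc N) ≤ centralizer {⁅⁅⁅y, a⁆, b⁆, d⁆} := by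
      refine sup_le (fun n hn => mem_centralizer_singleton_iff.2 (com_of h.hZc (hNZ hn) hx).eq)
        fun t ht => mem_centralizer_singleton_iff.2 (of_cm_one ?_).symm.eq
      have htT := hE ht
      obtain ⟨c, hc, hcT, e⟩ := h.f3 (h.qt hy htT) ha hb
      rw [h.phi (cm_mem (cm_mem hy a) b) hd ht.1 htT, h.phi (cm_mem hy a) hb ht.1 htT,
        h.phi hy ha ht.1 htT, ← e d hd, ← h.phi hy hc ht.1 htT, h.sw (h.qt hy hcT) ht.1 hd]
      exact cm_one (mem_cc.1 ht.2 _ (hN _ (h.qt hy hcT) (mem_cm hd)))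
    exact mem_cc.2 fun g hg => mem_centralizer_singleton_iff.1 (h1 hg)
  obtain ⟨n, hn, e, he, hne⟩ := exists_mul_of_cc inf_le_right
    (hD.mem (h.hTS (h.hQT hx)) hc)
  change ⁅⁅⁅⁅y, a⁆, b⁆, d⁆, f⁆ ∈ Z
  rw [hne, cm_mul_left_of (h.com he.1 hf)]
  exact cm_mem (hNZ hn) f

theorem case1aux (h2 : ∀ z ∈ Z, KV ⊥ A 2 z) {x : G} (hm : Mon Q A 3 x) (h3 : KV Z A 3 x) :
    KV Z A 2 x := by
  have hx := hm.mem
  have hm4 : ∀ b ∈ A, Mon Q A 4 ⁅x, b⁆ := fun b hb => ⟨x, hm, b, hb, rfl⟩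
  have hi : ∀ {w : G}, w ∈ Q → KV Z A 3 w → w ∈ cc (cm x A) := fun {w} hw hk =>
    mem_cc_cm fun b hb => (of_cm_one (mem_bot.1
      (iso h.hZQ h.hZc h.hQQ h.hA.2.1 h2 4 3 0 hw hk (hm4 b hb) le_rfl))).symm
  have hM : cm x A ≤ cc (cm x A) := cm_le fun a ha => hi (cm_mem hx a) (h3 a ha).succ
  have hMQ : cm x A ≤ Q := cm_le fun a _ => cm_mem hx a
  have h0 : ∀ {w t : G}, Mon Q A 2 w → t ∈ A → t ∈ T → Commute w t := by
    rintro _ t ⟨_, ⟨y, hy, a, ha, rfl⟩, b, hb, rfl⟩ ht ht'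
    refine of_cm_one ?_
    rw [h.phi (cm_mem hy a) hb ht ht', h.phi hy ha ht ht']
    exact mem_bot.1 (h2 _ (h.qt hy ht') a ha b hb)
  have hD := h.hA.repl (hMQ.trans (h.hQT.trans h.hTS)) hM
    (thompson h.hA (h.hTS (h.hQT hx)) hM).1
  by_cases hE : A ⊓ cc (cm x A) ≤ T
  · have hc : x ∈ cc (cm x A ⊔ (A ⊓ cc (cm x A))) := by
      have h1 : cm x A ⊔ (A ⊓ cc (cm x A)) ≤ centralizer {x} :=
        sup_le (fun m hm' => mem_centralizer_singleton_iff.2 (mem_cc.1 (hi hx h3) m hm'))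
          fun t ht => mem_centralizer_singleton_iff.2 (h0 hm.pred ht.1 (hE ht)).symm.eq
      exact mem_cc.2 fun g hg => mem_centralizer_singleton_iff.1 (h1 hg)
    obtain ⟨m, hm', e, he, hme⟩ := exists_mul_of_cc inf_le_right
      (hD.mem (h.hTS (h.hQT hx)) hc)
    obtain ⟨W, -, hW, -⟩ := exists_up A h.hQQ 2
    have hMW : cm x A ≤ W := cm_le fun a ha => (hW _).2 ⟨cm_mem hx a, h3 a ha⟩
    intro a ha
    have := ((hW _).1 (hMW hm')).2 a ha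
    rwa [← cm_mul_left_of (h.com he.1 ha), ← hme] at this
  · have h1 : A ⊓ T ≤ A ⊓ cc (cm x A) := fun t ht =>
      ⟨ht.1, mem_cc_cm fun b hb => h0 (hm4 b hb).pred.pred ht.1 ht.2⟩
    have h4 := eq_of_le_of_card_ge (le_inf (h1.trans le_sup_right) inf_le_right)
      (h.max2 _ hD (fun hle => hE (le_sup_right.trans hle))
        ((inf_le_inf_left _ (h.hZQ.trans h.hQT)).trans (h1.trans le_sup_right)))
    intro a ha b hb
    have : ⁅x, a⁆ ∈ A ⊓ T := h4 ▸ ⟨mem_sup_left (mem_cm ha), h.hQT (cm_mem hx a)⟩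
    change ⁅⁅x, a⁆, b⁆ ∈ Z
    rw [cm_one (h.com this.1 hb)]
    exact one_mem _

theorem case1 (h2 : ∀ z ∈ Z, KV ⊥ A 2 z) {y : G} (hy : y ∈ Q) : KV Z A 5 y := by
  have key : ∀ (n : ℕ) {x : G}, Mon Q A 3 x → KV Z A n x → KV Z A 2 x := by
    intro n
    induction n with
    | zero => exact fun _ hk => hk.mono (Nat.zero_le 2)
    | succ n ih =>
      exact fun {x} hm hk => h.case1aux h2 hm fun e he =>
        ih (Mon.pred ⟨x, hm, e, he, rfl⟩) (hk e he)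
  intro a ha b hb c hc
  have hm : Mon Q A 3 ⁅⁅⁅y, a⁆, b⁆, c⁆ := ⟨_, ⟨_, ⟨_, hy, a, ha, rfl⟩, b, hb, rfl⟩, c, hc, rfl⟩
  obtain ⟨n, hn⟩ := exists_KV h.hS h.hA.1 Z (h.hTS (h.hQT hm.mem))
  exact key n hm hn

end St

theorem exists_St {S T Q Z : Subgroup G} (hS : IsPGroup p S) (hTS : T ≤ S) (hQT : Q ≤ T)
    (hZQ : Z ≤ Q) (hZc : Z ≤ cc Q) (h3 : ⁅T, Q⁆ ≤ Z) (hex : ∃ A, MA S A ∧ ¬ A ≤ T) :
    ∃ A, ¬ A ≤ T ∧ St p S T Q Z A := by
  obtain ⟨A₁, hA₁, hm₁⟩ := Set.exists_max_image {A | MA S A ∧ ¬ A ≤ T}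
    (fun A => Nat.card ↥(A ⊓ Z)) (Set.toFinite _) hex
  obtain ⟨A, hA, hm⟩ := Set.exists_max_image
    {A | (MA S A ∧ ¬ A ≤ T) ∧ Nat.card ↥(A₁ ⊓ Z) ≤ Nat.card ↥(A ⊓ Z)}
    (fun A => Nat.card ↥(A ⊓ T)) (Set.toFinite _) ⟨A₁, hA₁, le_rfl⟩
  exact ⟨A, hA.1.2, hS, hTS, hQT, hZQ, hZc, h3, hA.1.1,
    fun B h1 h2 => (hm₁ B ⟨h1, h2⟩).trans hA.2,
    fun B h1 h2 h4 => hm B ⟨⟨h1, h2⟩, hA.2.trans (card_le_of_le (le_inf h4 inf_le_right))⟩⟩

theorem engel {S : Subgroup G} (hS : IsPGroup p S) (hTS : pCore p G ≤ S)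
    (hJ : ¬ (thompsonSubgroupAOf S).Normal) :
    ∃ g ∈ S, g ∉ pCore p G ∧ ∀ U V : Subgroup G, IsChiefFactor U V → U ≤ pCore p G →
      iterCommutator U (zpowers g) 6 ≤ V := by
  have hT := Core.isPGroup_pCore p G
  have hex : ∃ A, MA S A ∧ ¬ A ≤ pCore p G := by
    by_contra! hcon
    apply hJ
    rw [ZJ.thompsonSubgroupAOf_eq, ← thompsonSubgroupOf_eq_of_le hTS
      (thompsonSubgroupOf_le_iff.2 fun A hA => hcon A (ma_iff.1 hA))]
    exact thompsonSubgroupOf_normal _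
  obtain ⟨Q, hQn, hQT, h3, h4⟩ := CFun.exists_crit hT
  have hZn : (CFun.zc Q).Normal := inferInstance
  obtain ⟨A, hAT, h⟩ := exists_St hS hTS hQT (CFun.zc_le Q) (CFun.zc_le_cent Q) h3 hex
  obtain ⟨g, hg, hg'⟩ := SetLike.not_le_iff_exists.1 hAT
  refine ⟨g, h.hA.1 hg, hg', fun U V hc hU =>
    (LAE.iterCommutator_mono le_rfl (zpowers_le.2 hg) 6).trans ?_⟩
  by_cases h2 : ∀ z ∈ CFun.zc Q, KV ⊥ A 2 z
  · have h5 : iterCommutator Q A 5 ≤ CFun.zc Q := iter_le h.hQQ fun u hu => h.case1 h2 hu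
    have h6 : iterCommutator (CFun.zc Q) A 2 = ⊥ := le_bot_iff.1 (iter_le
      (commutator_eq_bot_iff_le_centralizer.2 h.hZ).le h2)
    exact CFun.chief_degree_bound hT hQT h3 h4 (i := 5) (j := 2) (by norm_num)
      (fun U V h hU => CFun.chief_iter_le_of_filtration (m := 5) (n := 2) le_rfl (by norm_num)
        h5 h6 h hU)
      (fun U V _ hU => (LAE.iterCommutator_mono hU le_rfl 2).trans (h6.le.trans bot_le)) hc hU
  · push Not at h2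
    obtain ⟨z, hz, h2⟩ := h2
    have h5 : iterCommutator Q A 4 ≤ CFun.zc Q := iter_le h.hQQ fun u hu => h.case2 hz h2 hu
    refine CFun.chief_degree_bound hT hQT h3 h4 (i := 4) (j := 3) (by norm_num)
      (fun U V hc hU => ?_) (fun U V hc hU => ?_) hc hU
    · have := hc.2.1
      have := hc.2.2.1
      by_cases hR : U ⊓ CFun.zc Q ≤ V
      · refine le_trans (le_inf (LAE.iterCommutator_le le_normalizer_of_normal 4)
          ((LAE.iterCommutator_mono hU le_rfl 4).trans h5)) hR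
      · refine CFun.iterCommutator_le_of_cover hc hR (CFun.iterCommutator_le_of_le
          le_normalizer_of_normal (by norm_num : 3 ≤ 4) (h.f4 inf_le_right ?_))
        exact (commutator_mono inf_le_left le_rfl).trans
          (CFun.chief_commutator_le hc hT (hU.trans hQT))
    · have := hc.2.1
      have := hc.2.2.1
      exact h.f4 hU (CFun.chief_commutator_le hc hT (hU.trans ((CFun.zc_le Q).trans hQT)))

end Main

universe u

theorem charF (p : ℕ) [Fact p.Prime] :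
    IsCharPFunctor.{u} p (fun (Q : Type u) [Group Q] => thompsonSubgroupA Q) := by
  refine ⟨fun Q _ _ hQ _ h0 => ?_, fun Q R _ _ _ _ φ => ?_⟩
  · have := hQ.isNilpotent
    have h1 : center Q ≠ ⊥ := (nontrivial_iff_ne_bot _).1 hQ.center_nontrivial
    obtain ⟨A, hA⟩ := maxElemIn_nonempty (p := 0) (⊤ : Subgroup Q)
    have h2 : A ≤ thompsonSubgroupOf 0 ⊤ := le_thompsonSubgroupOf hA
    rw [thompsonSubgroupOf_top, ← ZJ.thompsonSubgroupA_eq] at h2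
    have h3 : center Q ≤ A := fun x hx => (ma_iff.1 hA).mem (mem_top x)
      (mem_cc.2 fun y _ => mem_center_iff.1 hx y)
    exact h1 (le_bot_iff.1 (h3.trans (h2.trans (le_of_eq h0))))
  · simp only [ZJ.thompsonSubgroupA_eq]
    exact map_thompsonSubgroup_equiv φ

theorem trCtl {G : Type u} [Group G] [Finite G] {p : ℕ} [Fact p.Prime] (hp : 7 ≤ p) :
    CFun.TrCtl p {fun (Q : Type u) [Group Q] => thompsonSubgroupA Q} G := by
  refine CFun.trCtl_of_engel (CFun.singleton_char (charF p)) (Set.singleton_nonempty _) (G := G)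
    (fun K R _ _ T h => ?_) G (CFun.Sec.refl G)
  obtain ⟨g, h1, h2, h3⟩ := engel T.isPGroup'
    (CFun.pCore_le_sylIn' (Tech.IsSylowIn.of_sylow_top T)) (h _ rfl)
  refine ⟨g, h1, h2, fun U V h hU => ?_⟩
  have := h.2.2.1
  exact CFun.iterCommutator_le_of_le le_normalizer_of_normal (by omega) (h3 U V h hU)

/-- Let p ≥ 7 be a prime, S a Sylow p-subgroup of the finite group G, J(S) the subgroup generated by the abelian subgroups of S of largest order and M = N_G(J(S)). Then G/O^p(G) ≅ M/O^p(M): the largest p-factor group of G is that of M (here O^p(X) is the subgroup generated by the elements of X of order prime to p). -/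
theorem result {G : Type*} [Group G] [Finite G] {p : ℕ} [Fact p.Prime]
    (hp : 7 ≤ p) (S : Sylow p G)
    [hn : (Cfsg.pResidual p G).Normal]
    [hm : (Cfsg.pResidual p ↥(Subgroup.normalizer (Cfsg.thompsonSubgroupAOf (S : Subgroup G) : Set G))).Normal] :
    Nonempty (G ⧸ Cfsg.pResidual p G ≃*
      ↥(Subgroup.normalizer (Cfsg.thompsonSubgroupAOf (S : Subgroup G) : Set G)) ⧸
        Cfsg.pResidual p ↥(Subgroup.normalizer (Cfsg.thompsonSubgroupAOf (S : Subgroup G) : Set G))) := by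
  set M := Subgroup.normalizer (Cfsg.thompsonSubgroupAOf (S : Subgroup G) : Set G) with hM
  have h1 := (CFun.controlsTransferIn_iff (CFun.isConjugacyFunctor_induced (charF p))
    (Tech.IsSylowIn.of_sylow_top S)).1 (CFun.trCtl_singleton_iff.1 (trCtl (G := G) hp))
  rw [top_inf_eq] at h1
  have hSM : (S : Subgroup G) ≤ M := by
    rw [hM, ZJ.thompsonSubgroupAOf_eq]
    exact le_normalizer.trans (normalizer_le_normalizer_thompsonSubgroupOf _)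
  have h2 := Transfer.tate_of_commutator_inf_le S hSM (by rw [inf_comm]; exact h1)
  let f : M →* G ⧸ pResidual p G := (QuotientGroup.mk' _).comp M.subtype
  have hf : Function.Surjective f := by
    intro x
    obtain ⟨g, rfl⟩ := QuotientGroup.mk'_surjective _ x
    have hg : g ∈ (S : Subgroup G) ⊔ pResidual p G := by
      rw [sup_comm, Transfer.pResidual_sup_sylow]; exact mem_top g
    rw [← SetLike.mem_coe, mul_normal] at hg
    obtain ⟨s, hs, r, hr, rfl⟩ := hg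
    refine ⟨⟨s, hSM hs⟩, ?_⟩
    simp only [f, MonoidHom.comp_apply, coe_subtype, map_mul]
    rw [show QuotientGroup.mk' (pResidual p G) r = 1 from (QuotientGroup.eq_one_iff r).2 hr,
      mul_one]
  have hk : f.ker = pResidual p M := by
    apply map_injective M.subtype_injective
    rw [← h2, ← MonoidHom.comap_ker, QuotientGroup.ker_mk']
    exact (subgroupOf_map_subtype _ _).trans (inf_comm _ _)
  exact ⟨((QuotientGroup.quotientMulEquivOfEq hk.symm).trans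
    (QuotientGroup.quotientKerEquivOfSurjective f hf)).symm⟩

end Cfsg.Agent.S3068
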