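import Cfsg.Statements.S3069
import Cfsg.Agent.Lib.CFun.KInfMain

set_option autoImplicit false
open Cfsg

namespace Cfsg.Agent.S3069

open CfsgLib CfsgLib.CFun CfsgLib.Tech Subgroup

universe u

theorem key {p : ℕ} [Fact p.Prime] (hp : 5 ≤ p) (n : ℕ) :
    ∀ (G : Type u) [Group G] [Finite G], Nat.card G = n → ∀ S : Subgroup G, IsSylowIn p S ⊤ →
      (∀ g ∈ normalizer (S : Set G), (orderOf g).Coprime p → g ∈ centralizer (S : Set G)) →
      S ≤ ⁅(⊤ : Subgroup G), (⊤ : Subgroup G)⁆ → S = ⊥ := by
  induction n using Nat.strong_induction_on with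
  | _ n ih =>
  intro G _ _ hn S hS hN hle
  by_contra hne
  have hcf := isConjugacyFunctor_induced (G := G) (isCharPFunctor_kInfUpper.{u} p)
  set K := inducedFunctor kInfUpper S with hK
  have hK1 : K ≠ ⊥ := cf_ne_bot hcf hS.pgroup hne
  have hKS : K ≤ S := cf_le hcf hS.pgroup
  have hSN : S ≤ normalizer (K : Set G) := cf_le_norm hcf hS.pgroup
  have hctl := (controlsTransferIn_iff hcf hS).1
    (trCtl_singleton_iff.1 (trCtl_of_kinf (X := G) hp (Or.inr rfl)))
  rw [top_inf_eq, ← hK, inf_eq_left.2 hle] at hctl
  by_cases hM : normalizer (K : Set G) = ⊤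
  · have : K.Normal := normalizer_eq_top_iff.1 hM
    -- the quotient by `K`
    have hq : S.map (QuotientGroup.mk' K) = ⊥ := by
      have hlt : Nat.card (G ⧸ K) < n := by
        rw [← hn, ← K.card_mul_index]
        have h1 : 1 < Nat.card K := (one_lt_card_iff_ne_bot K).2 hK1
        have h2 : 0 < K.index := Nat.pos_of_ne_zero K.index_ne_zero_of_finite
        change K.index < _
        nlinarith
      refine ih _ hlt (G ⧸ K) rfl _ (sylIn_map_top hS (QuotientGroup.mk'_surjective K)) ?_ ?_
      · intro x hx hxp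
        obtain ⟨g, rfl⟩ := QuotientGroup.mk'_surjective K x
        have hg : g ∈ normalizer (S : Set G) := by
          refine mem_normalizer_of_forall fun s hs => ?_
          have := conj_mem_of_mem_normalizer hx (mem_map_of_mem (QuotientGroup.mk' K) hs)
          rw [← map_inv, ← map_mul, ← map_mul] at this
          have h2 : g * s * g⁻¹ ∈ (S.map (QuotientGroup.mk' K)).comap (QuotientGroup.mk' K) := this
          rw [comap_map_eq, QuotientGroup.ker_mk', sup_eq_left.2 hKS] at h2
          exact h2
        obtain ⟨a, b, ha, hb, ⟨k, hk⟩, hbp, hab⟩ := Transfer.exists_p_part (p := p) g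
        have hbN : b ∈ normalizer (S : Set G) := (zpowers_le.2 hg) hb
        have hbC := hN b hbN hbp
        have ha1 : QuotientGroup.mk' K a = 1 := by
          have h1 : orderOf (QuotientGroup.mk' K a) ∣ p ^ k :=
            orderOf_dvd_of_pow_eq_one (by rw [← map_pow, hk, map_one])
          have h2 : orderOf (QuotientGroup.mk' K a) ∣ orderOf (QuotientGroup.mk' K g) := by
            obtain ⟨m, rfl⟩ := ha
            rw [map_zpow]
            exact orderOf_dvd_of_mem_zpowers ⟨m, rfl⟩
          have h3 : (orderOf (QuotientGroup.mk' K a)).Coprime (p ^ k) :=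
            (Nat.Coprime.coprime_dvd_left h2 hxp).pow_right k
          exact orderOf_eq_one_iff.1 (Nat.Coprime.eq_one_of_dvd h3 h1)
        rw [hab, map_mul, ha1, one_mul, mem_centralizer_iff]
        rintro _ ⟨s, hs, rfl⟩
        rw [← map_mul, ← map_mul, mem_centralizer_iff.1 hbC s hs]
      · refine (map_mono hle).trans ?_
        rw [map_commutator]
        exact commutator_mono le_top le_top
    rw [Subgroup.map_eq_bot_iff, QuotientGroup.ker_mk'] at hq
    have hKS' : K = S := le_antisymm hKS hq
    have : S.Normal := hKS' ▸ (inferInstance : K.Normal)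
    have hC : ⁅S, (⊤ : Subgroup G)⁆ ≤ ⁅S, S⁆ := by
      rw [commutator_le]
      intro s hs g _
      obtain ⟨r, hr, e, he, rfl⟩ := sylIn_exists_mul (E := centralizer (S : Set G)) hS
        (fun y _ hy => hN y (by rw [normalizer_eq_top_iff.2 ‹S.Normal›]; trivial) hy) (mem_top g)
      have h1 : e * s⁻¹ * e⁻¹ = s⁻¹ := by
        rw [← mem_centralizer_iff.1 he s⁻¹ (S.inv_mem hs)]; group
      have h2 : s * (r * e) * s⁻¹ * (r * e)⁻¹ = s * r * (e * s⁻¹ * e⁻¹) * r⁻¹ := by group
      rw [commutatorElement_def, h2, h1]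
      exact commutator_mem_commutator hs hr
    have : (⁅S, S⁆ : Subgroup G).Normal := inferInstance
    have := inf_commutator_le_of_commutator_le hS le_rfl hC
    rw [inf_eq_left.2 hle, sup_idem] at this
    exact hne (Transfer.eq_bot_of_le_commutator_of_isPGroup hS.pgroup le_rfl this)
  · set M := normalizer (K : Set G) with hMdef
    have hlt : Nat.card M < n := by
      rw [← hn, ← card_top (G := G)]
      exact Core.card_lt_of_lt (lt_top_iff_ne_top.2 hM)
    have hSM : IsSylowIn p S M := hS.of_le hSN le_top
    have h1 := ih _ hlt M rfl (S.subgroupOf M) (IsSylowIn.of_sylow_top hSM.toSylow) ?_ ?_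
    · apply hne
      rw [← map_subgroupOf_eq_of_le hSN, h1, Subgroup.map_bot]
    · intro g hg hgp
      have hg' : (g : G) ∈ normalizer (S : Set G) :=
        mem_normalizer_of_forall fun s hs =>
          conj_mem_of_mem_normalizer hg (x := ⟨s, hSN hs⟩) hs
      have := hN g hg' (by rwa [Subgroup.orderOf_coe])
      rw [mem_centralizer_iff]
      intro s hs
      exact Subtype.ext (mem_centralizer_iff.1 this s hs)
    · intro s hs
      have h2 : (s : G) ∈ (⁅(⊤ : Subgroup M), (⊤ : Subgroup M)⁆).map M.subtype := by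
        rw [map_commutator, ← MonoidHom.range_eq_map, range_subtype]
        exact hctl hs
      obtain ⟨t, ht, e⟩ := h2
      rwa [← Subtype.ext e]


/-- Let p ≥ 7 be a prime and S a nontrivial Sylow p-subgroup of the finite group G. If N_G(S)/C_G(S) is a p-group (every element of N_G(S) of order prime to p centralizes S), then O^p(G) < G, i.e. G has a nontrivial p-factor group. -/
theorem result {G : Type*} [Group G] [Finite G] {p : ℕ} [Fact p.Prime]
    (hp : 7 ≤ p) (S : Sylow p G) (hS : (S : Subgroup G) ≠ ⊥)
    (hN : ∀ g ∈ Subgroup.normalizer ((S : Subgroup G) : Set G), (orderOf g).Coprime p →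
      g ∈ Subgroup.centralizer ((S : Subgroup G) : Set G)) :
    Cfsg.pResidual p G ≠ ⊤ := by
  intro h
  exact hS (key (by omega) _ G rfl S (IsSylowIn.of_sylow_top S) hN
    ((Transfer.pResidual_eq_top_iff_le_commutator S).1 h))

end Cfsg.Agent.S3069
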