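import Cfsg.Statements.S3072
import Cfsg.Agent.Lib.AG.Ess

set_option autoImplicit false
open Cfsg

namespace Cfsg.Agent.S3072

open CfsgLib.AG CfsgLib.Tech CfsgLib.Core Subgroup

/-- The admissible steps. -/
def Step {G : Type*} [Group G] (p : ℕ) (P D : Subgroup G) (x : G) : Prop :=
  IsAG p P D ∧ D < P ∧ HasSPE P D ∧
    ∃ X, IsLeast p D X ∧ x ∈ (Cfsg.pResidual p X).map X.subtype

theorem Step.cj {G : Type*} [Group G] [Finite G] {p : ℕ} [Fact p.Prime] {P D : Subgroup G} {x y : G}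
    (hy : y ∈ normalizer (P : Set G)) (h : Step p P D x) : Step p P (cj y D) (y * x * y⁻¹) := by
  obtain ⟨h1, h2, h3, X, h4, h5⟩ := h
  have e := mem_normalizer_iff_cj.1 hy
  refine ⟨e ▸ h1.cj y, ?_, e ▸ h3.cj y, CfsgLib.Tech.cj y X, h4.cj y, ?_⟩
  · rw [← e]
    exact lt_of_le_of_ne (cj_mono y h2.le) fun h => h2.ne (cj_injective y h)
  · rw [CfsgLib.Transfer.map_pResidual_eq_closure] at h5 ⊢
    have h6 : y * x * y⁻¹ ∈ CfsgLib.Tech.cj y _ := conj_mem_cj.2 h5
    rw [CfsgLib.Tech.cj, MonoidHom.map_closure] at h6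
    refine closure_mono ?_ h6
    rintro _ ⟨a, ha, rfl⟩
    exact ⟨conj_mem_cj.2 ha.1, by
      rw [orderOf_injective (MulAut.conj y).toMonoidHom (MulAut.conj y).injective]; exact ha.2⟩

theorem chain {G : Type*} [Group G] [Finite G] {p : ℕ} [hp : Fact p.Prime] (P : Sylow p G)
    (A : Subgroup G) (g : G) (hA : A ≤ P) (hg : cj g A ≤ P) :
    ∃ (l : List (Subgroup G × G)) (c y : G), c ∈ centralizer (A : Set G) ∧
      y ∈ normalizer ((P : Subgroup G) : Set G) ∧ Chain (Step p (P : Subgroup G)) A l ∧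
      g⁻¹ = c * (l.map Prod.snd).prod * y := by
  let C : Subgroup G → G → Prop := fun A g => ∃ (l : List (Subgroup G × G)) (c y : G),
    c ∈ centralizer (A : Set G) ∧
      y ∈ normalizer ((P : Subgroup G) : Set G) ∧ Chain (Step p (P : Subgroup G)) A l ∧
      g⁻¹ = c * (l.map Prod.snd).prod * y
  have mono : ∀ A B g, A ≤ B → C B g → C A g := by
    rintro A B g hAB ⟨l, c, y, h1, h2, h3, h4⟩
    exact ⟨l, c, y, centralizer_le hAB h1, h2, h3.mono hAB, h4⟩
  have comp : ∀ A g h, C A g → C (cj g A) h → C A (h * g) := by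
    rintro A g h ⟨l, c, y, h1, hy, h2, h3⟩ ⟨l', c', y', h1', hy', h2', h3'⟩
    set w := (l.map Prod.snd).prod with hw
    have e : ∀ a ∈ A, w⁻¹ * a * w = y * (g * a * g⁻¹) * y⁻¹ := by
      intro a ha
      have : g = y⁻¹ * w⁻¹ * c⁻¹ := by rw [← inv_inv g, h3]; group
      rw [h3, this]
      have := h1 a ha
      calc w⁻¹ * a * w = w⁻¹ * c⁻¹ * (c * a) * w := by group
        _ = _ := by rw [← this]; group
    refine ⟨l ++ l'.map fun q => (cj y q.1, y * q.2 * y⁻¹), c * (w * y * c' * y⁻¹ * w⁻¹), y * y',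
      mul_mem h1 fun a ha => ?_, mul_mem hy hy',
      h2.append ((h2'.conj fun D x h => h.cj hy).mono ?_), ?_⟩
    · have h4 := h1' _ (conj_mem_cj.2 ha : g * a * g⁻¹ ∈ cj g A)
      have h5 : a = w * (y * (g * a * g⁻¹) * y⁻¹) * w⁻¹ := by rw [← e a ha]; group
      calc a * (w * y * c' * y⁻¹ * w⁻¹) = w * y * (g * a * g⁻¹ * c') * y⁻¹ * w⁻¹ := by
            conv_lhs => rw [h5]
            group
        _ = _ := by
            rw [h4]
            conv_rhs => rw [h5]
            group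
    · rintro _ ⟨a, ha, rfl⟩
      exact ⟨g * a * g⁻¹, conj_mem_cj.2 ha, (e a ha).symm⟩
    · rw [mul_inv_rev, h3, h3', List.map_append, List.prod_append, ← hw, prod_map_conj]
      group
  refine ess_induction P C mono comp ?_ ?_ ?_ A g hA hg
  · intro A c _ hc
    exact ⟨[], c⁻¹, 1, inv_mem hc, one_mem _, Chain.nil _, by simp⟩
  · intro x hx
    exact ⟨[], 1, x⁻¹, one_mem _, inv_mem hx, Chain.nil _, by simp⟩
  · intro D hD hlt hs ih x hx
    obtain ⟨X, hX⟩ := exists_isLeast_of_hasSPE hlt hD.syl P.isPGroup' hs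
    have hR : IsSylowIn p ((P : Subgroup G) ⊓ X) X := by
      have := hD.syl.inf_of_le_normalizer hX.normal
      rwa [inf_eq_right.2 hX.le_norm, inf_assoc, inf_eq_right.2 hX.le_norm] at this
    have hDR : D < (P : Subgroup G) ⊓ X :=
      lt_of_le_of_ne (le_inf hD.le hX.le) fun e => hR.not_dvd (e ▸ hX.dvd)
    obtain ⟨n, hn, hxn⟩ := hR.frattini' (hX.normal hx)
    have h1 := congrArg (Subgroup.map X.subtype)
      (CfsgLib.Transfer.pResidual_sup_eq_top (p := p) hR.not_dvd)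
    rw [Subgroup.map_sup, map_subgroupOf_eq_of_le inf_le_right, ← MonoidHom.range_eq_map,
      range_subtype, sup_comm] at h1
    have := CfsgLib.Transfer.pResidual_normal p X
    obtain ⟨r, hr, u, hu, e⟩ := (mem_sup_of_le_normalizer_right
      (inf_le_right.trans (le_normalizer_map_subtype_of_normal (Cfsg.pResidual p X)))).1
      (h1.ge (inv_mem hn))
    have hy : x * n * r ∈ normalizer (((P : Subgroup G) ⊓ X : Subgroup G) : Set G) :=
      mul_mem hxn (le_normalizer hr)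
    have h2 : C D (x * n * r) := by
      refine mono _ _ _ hDR.le (ih _ _ inf_le_left (card_lt_of_lt hDR) ?_)
      rw [mem_normalizer_iff_cj.1 hy]; exact inf_le_left
    have h3 : C D u := ⟨[(D, u⁻¹)], 1, 1, one_mem _, one_mem _,
      Chain.cons ⟨hD, hlt, hs, X, hX, inv_mem hu⟩ subset_rfl (Chain.nil _), by simp⟩
    have h4 := comp D u (x * n * r) h3
      (by rwa [mem_normalizer_iff_cj.1 (hX.le_norm (map_subtype_le _ hu))])
    rwa [mul_assoc, e, mul_inv_cancel_right] at h4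

/-- A strong form of the Alperin–Goldschmidt fusion Theorem. Let P be a Sylow p-subgroup of the finite group G, A a subset of P containing a nonidentity element, and g an element with g⁻¹Ag ⊆ P. Then g = c·x₁⋯xₙ·y with c ∈ C_G(A), y ∈ N_G(P) and, for each i, an element xᵢ and a subgroup Hᵢ ≤ P such that: N_P(Hᵢ) is a Sylow p-subgroup of N_G(Hᵢ); C_P(Hᵢ) ≤ Hᵢ; O_{p',p}(N_G(Hᵢ)) = Hᵢ·C_G(Hᵢ); the Sylow p-subgroups of N_G(Hᵢ)/Hᵢ are not chain-connected through nontrivial intersections (the quotient has a strongly p-embedded subgroup); xᵢ lies in O^p(Xᵢ), where Xᵢ/Hᵢ is the smallest normal subgroup of N_G(Hᵢ)/Hᵢ of order divisible by p; and (x₁⋯xᵢ₋₁)⁻¹A(x₁⋯xᵢ₋₁) ⊆ Hᵢ. -/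
theorem result {G : Type*} [Group G] [Finite G] {p : ℕ} [Fact p.Prime]
    (P : Sylow p G) (A : Set G) (hA : A ⊆ (P : Set G)) (hA1 : ∃ a ∈ A, a ≠ 1)
    (g : G) (hAg : (fun a => g⁻¹ * a * g) '' A ⊆ (P : Set G)) :
    ∃ (n : ℕ) (H X : Fin n → Subgroup G) (x : Fin n → G) (c y : G),
      c ∈ Subgroup.centralizer A ∧ y ∈ Subgroup.normalizer ((P : Subgroup G) : Set G) ∧
      g = c * (List.ofFn x).prod * y ∧
      ∀ i : Fin n,
        H i ≤ (P : Subgroup G) ∧
        ¬ p ∣ ((P : Subgroup G) ⊓ Subgroup.normalizer (H i : Set G)).relIndex (Subgroup.normalizer (H i : Set G)) ∧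
        (P : Subgroup G) ⊓ Subgroup.centralizer (H i : Set G) ≤ H i ∧
        (Cfsg.pPrimePCore p ↥(Subgroup.normalizer (H i : Set G))).map (Subgroup.normalizer (H i : Set G)).subtype =
          H i ⊔ Subgroup.centralizer (H i : Set G) ∧
        ¬ Cfsg.IsSylowChainConnected p
            (↥(Subgroup.normalizer (H i : Set G)) ⧸ (H i).subgroupOf (Subgroup.normalizer (H i : Set G))) ∧
        (H i ≤ X i ∧ X i ≤ Subgroup.normalizer (H i : Set G) ∧
          ((X i).subgroupOf (Subgroup.normalizer (H i : Set G))).Normal ∧ p ∣ (H i).relIndex (X i) ∧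
          ∀ Y : Subgroup G, H i ≤ Y → Y ≤ Subgroup.normalizer (H i : Set G) →
            (Y.subgroupOf (Subgroup.normalizer (H i : Set G))).Normal → p ∣ (H i).relIndex Y → X i ≤ Y) ∧
        x i ∈ (Cfsg.pResidual p ↥(X i)).map (X i).subtype ∧
        (fun a => (((List.ofFn x).take i.val).prod)⁻¹ * a * ((List.ofFn x).take i.val).prod) '' A ⊆ (H i : Set G) := by
  obtain ⟨l, c, y, h1, hy, h2, h3⟩ := chain P (Subgroup.closure A) g⁻¹
    ((Subgroup.closure_le _).2 hA) (by
      rw [CfsgLib.Tech.cj, MonoidHom.map_closure, Subgroup.closure_le]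
      rintro _ ⟨a, ha, rfl⟩
      simpa using hAg ⟨a, ha, rfl⟩)
  rw [inv_inv] at h3
  rw [Subgroup.centralizer_closure] at h1
  have hs := (h2.mono Subgroup.subset_closure).spec
  choose X hX using fun i => (hs i).1.2.2.2
  refine ⟨l.length, fun i => (l.get i).1, X, fun i => (l.get i).2, c, y, h1, hy,
    by rw [ofFn_get_snd, h3], fun i => ?_⟩
  obtain ⟨⟨hD, hlt, hspe, -⟩, h4⟩ := hs i
  refine ⟨hD.le, hD.syl.not_dvd, hD.inf_centralizer_le P.isPGroup', hD.opp_eq,
    not_chainConnected_of_hasSPE hlt hD.syl P.isPGroup' hspe,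
    ⟨(hX i).1.le, (hX i).1.le_norm,
      (normal_subgroupOf_iff_le_normalizer (hX i).1.le_norm).2 (hX i).1.normal, (hX i).1.dvd,
      fun Y a1 a2 a3 a4 => (hX i).1.least Y a1 a2
        ((normal_subgroupOf_iff_le_normalizer a2).1 a3) a4⟩, (hX i).2, ?_⟩
  rw [ofFn_get_snd]
  exact h4

end Cfsg.Agent.S3072
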