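import Cfsg.Statements.S3073
import Mathlib
import Cfsg.Agent.S0117
import Cfsg.Agent.Lib.ZJ.Thompson
import Cfsg.Agent.Lib.Transfer.NormalComplement
import Cfsg.Agent.Lib.Transfer.Frobenius
import Cfsg.Agent.Lib.Tech.SylowIn
import Cfsg.Agent.Lib.Core.Basic
import Cfsg.Agent.Lib.Core.Fitting

set_option autoImplicit false
universe u
open Cfsg

namespace Cfsg.Agent.S3073

open Subgroup CfsgLib

theorem comap_cT_eq {p : ℕ} {S : Type*} [Group S] {Q : Type*} [Group Q] (φ : S →* Q) (Z : Subgroup S) [Z.Normal]
    (h : φ.ker = Z) (C : Subgroup S) :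
    (centerThompsonOf p (C.map φ)).comap φ =
      (centerThompsonOf p (C.map (QuotientGroup.mk' Z))).comap (QuotientGroup.mk' Z) := by
  subst h
  have e : φ = (QuotientGroup.kerLift φ).comp (QuotientGroup.mk' φ.ker) := by
    ext x; simp
  have hinj := QuotientGroup.kerLift_injective φ
  have h1 : C.map φ = (C.map (QuotientGroup.mk' φ.ker)).map (QuotientGroup.kerLift φ) := by
    rw [map_map, ← e]
  rw [h1, ← ZJ.map_centerThompsonOf hinj]
  ext x
  rw [mem_comap, mem_comap]
  have : φ x = QuotientGroup.kerLift φ (QuotientGroup.mk' φ.ker x) := by simp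
  rw [this, mem_map_iff_mem hinj]

theorem core_step {p : ℕ} [Fact p.Prime] (hp : p ≠ 2) {H : Type u} [Group H] [Finite H]
    (P : Sylow p H) (K : Subgroup H) [K.Normal] (hKP : K ≤ (P : Subgroup H))
    (hM : HasNormalPComplement p (normalizer ((K ⊔ (centerThompsonOf p (((P : Subgroup H) ⊓ centralizer (K : Set H)).map
      (QuotientGroup.mk' (K ⊓ centralizer (K : Set H))))).comap
        (QuotientGroup.mk' (K ⊓ centralizer (K : Set H))) : Subgroup H) : Set H))) :
    HasNormalPComplement p H := by
  set D := centralizer (K : Set H) with hD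
  set π := QuotientGroup.mk' (K ⊓ D) with hπ
  have hπs : Function.Surjective π := QuotientGroup.mk'_surjective _
  have hker : π.ker = K ⊓ D := QuotientGroup.ker_mk' _
  set C := (P : Subgroup H) ⊓ D with hC
  set Wb := centerThompsonOf p (C.map π) with hWb
  set M := normalizer ((K ⊔ Wb.comap π : Subgroup H) : Set H) with hMdef
  have hNM : ∀ g : H, π g ∈ normalizer (Wb : Set (H ⧸ (K ⊓ D))) → g ∈ M := by
    intro g hg
    apply Core.normalizer_inf_le_normalizer_sup
    exact ⟨le_normalizer_of_normal (mem_top g), le_normalizer_comap π hg⟩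
  have hCD : Tech.IsSylowIn p C D := Tech.sylow_inf_normal P D
  have hDb : HasNormalPComplement p (D.map π) := by
    let Q : Sylow p (D.map π) := hCD.toSylow.mapSurjective (π.subgroupMap_surjective D)
    have hQ : (Q : Subgroup (D.map π)).map (D.map π).subtype = C.map π := by
      ext y
      constructor
      · rintro ⟨_, ⟨c, hc, rfl⟩, rfl⟩
        exact ⟨c, hc, rfl⟩
      · rintro ⟨c, hc, rfl⟩
        exact ⟨⟨π c, c, hc.2, rfl⟩, ⟨⟨c, hc.2⟩, hc, rfl⟩, rfl⟩
    rw [Cfsg.Agent.S0117.result hp Q]
    have h1 : (centerThompsonOf p (Q : Subgroup (D.map π))).map (D.map π).subtype = Wb := by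
      rw [ZJ.map_centerThompsonOf (D.map π).subtype_injective, hQ]
    have h2 : (normalizer (centerThompsonOf p (Q : Subgroup (D.map π)) : Set (D.map π))).map (D.map π).subtype
        ≤ M.map π := by
      refine le_trans (le_inf (map_subtype_le _) (le_normalizer_map _)) ?_
      rw [h1]
      rintro _ ⟨⟨d, -, rfl⟩, hd⟩
      exact ⟨d, hNM d hd, rfl⟩
    have h3 := Transfer.hasNormalPComplement_of_le (Transfer.hasNormalPComplement_map hM π) h2
    exact Transfer.hasNormalPComplement_of_mulEquiv h3 (equivMapOfInjective _ _ (D.map π).subtype_injective).symm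
  have hDn : HasNormalPComplement p D := by
    refine Transfer.hasNormalPComplement_of_ker_le_center (π.subgroupMap D) ?_ hDb
    intro d hd
    have h1 : (d : H) ∈ π.ker := congrArg Subtype.val hd
    rw [hker] at h1
    rw [mem_center_iff]
    exact fun g => Subtype.ext (mem_centralizer_iff.1 g.2 d h1.1).symm
  refine Transfer.hasNormalPComplement_of_isPGroup_quotient (N := D) ?_ hDn
  intro q
  obtain ⟨g, rfl⟩ := QuotientGroup.mk_surjective q
  obtain ⟨d, hd, hn⟩ := hCD.frattini (g := g) (le_normalizer_of_normal (mem_top g))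
  obtain ⟨k, hk⟩ := Transfer.exists_pow_coprime (p := p) (d * g)
  refine ⟨k, ?_⟩
  have h1 : d * g ∈ M := hNM _ (ZJ.normalizer_le_normalizer_centerThompsonOf _ (le_normalizer_map π ⟨_, hn, rfl⟩))
  have h2 : (d * g) ^ p ^ k ∈ D := Transfer.mem_centralizer_of_hasNormalPComplement hM (P.isPGroup'.to_le hKP)
    (le_sup_left.trans le_normalizer) (M.pow_mem h1 _) (le_normalizer_of_normal (mem_top _)) hk
  have h3 : ((d * g : H) : H ⧸ D) = (g : H ⧸ D) := by
    rw [QuotientGroup.mk_mul, (QuotientGroup.eq_one_iff d).2 hd, one_mul]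
  rw [← h3, ← QuotientGroup.mk_pow, QuotientGroup.eq_one_iff]
  exact h2

/-- `K` is good: a normal complement in its normalizer forces one in the whole group. -/
def Good (p : ℕ) {S : Type u} [Group S] (K : Subgroup S) : Prop :=
  ∀ (G : Type u) [Group G] [Finite G] (ι : S →* G), Function.Injective ι → ¬ p ∣ ι.range.index →
    HasNormalPComplement p (normalizer ((K.map ι : Subgroup G) : Set G)) → HasNormalPComplement p G

theorem map_centralizer_inj {S G : Type*} [Group S] [Group G] {ι : S →* G} (h : Function.Injective ι)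
    (K : Subgroup S) : (centralizer (K : Set S)).map ι = ι.range ⊓ centralizer ((K.map ι : Subgroup G) : Set G) := by
  ext y
  constructor
  · rintro ⟨c, hc, rfl⟩
    refine ⟨⟨c, rfl⟩, mem_centralizer_iff.2 ?_⟩
    rintro _ ⟨k, hk, rfl⟩
    rw [← map_mul, mem_centralizer_iff.1 hc k hk, map_mul]
  · rintro ⟨⟨c, rfl⟩, hc⟩
    refine ⟨c, mem_centralizer_iff.2 fun k hk => h ?_, rfl⟩
    rw [map_mul, map_mul]
    exact mem_centralizer_iff.1 hc _ ⟨k, hk, rfl⟩

theorem good_step {p : ℕ} [Fact p.Prime] (hp : p ≠ 2) {S : Type u} [Group S] [Finite S] (hS : IsPGroup p S)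
    (K : Subgroup S) [K.Characteristic] (hK : Good p K) (hn : ¬ centralizer (K : Set S) ≤ K) :
    ∃ L : Subgroup S, L.Characteristic ∧ Good p L ∧ K < L := by
  set C := centralizer (K : Set S) with hC
  set π := QuotientGroup.mk' (K ⊓ C) with hπ
  have hker : π.ker = K ⊓ C := QuotientGroup.ker_mk' _
  set W := (centerThompsonOf p (C.map π)).comap π with hW
  have hWC : W ≤ C := by
    have := comap_mono (f := π) (ZJ.centerThompsonOf_le (e := p) (C.map π))
    rwa [comap_map_eq_self (hker.le.trans inf_le_right)] at this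
  haveI hCc : C.Characteristic := inferInstance
  haveI hWc : W.Characteristic := by
    refine ⟨fun α => ?_⟩
    have h1 := comap_cT_eq (p := p) (π.comp α.toMonoidHom) (K ⊓ C) (by
      rw [← MonoidHom.comap_ker, hker, comap_inf, characteristic_iff_comap_eq.1 inferInstance α,
        characteristic_iff_comap_eq.1 hCc α]) C
    rw [← map_map, characteristic_iff_map_eq.1 hCc α, ← comap_comap] at h1
    exact h1
  refine ⟨K ⊔ W, ?_, ?_, ?_⟩
  · rw [characteristic_iff_map_eq]
    intro α
    rw [Subgroup.map_sup, characteristic_iff_map_eq.1 inferInstance α, characteristic_iff_map_eq.1 hWc α]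
  · intro G _ _ ι hι hidx hM
    apply hK G ι hι hidx
    set H := normalizer ((K.map ι : Subgroup G) : Set G) with hH
    have hr : ι.range ≤ H := by
      rw [MonoidHom.range_eq_map]
      exact (map_mono le_normalizer_of_normal).trans (le_normalizer_map ι)
    let ι' : S →* H := ι.codRestrict H fun s => hr ⟨s, rfl⟩
    have hι' : Function.Injective ι' := fun a b h => hι (congrArg Subtype.val h)
    have hmap : ∀ T : Subgroup S, (T.map ι').map H.subtype = T.map ι := fun T => by
      rw [map_map]; rfl
    have hsub : ∀ T : Subgroup S, T.map ι' = (T.map ι).subgroupOf H := fun T => by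
      rw [← hmap, subgroupOf, comap_map_eq_self_of_injective H.subtype_injective]
    have hrp : IsPGroup p ι'.range := hS.of_surjective ι'.rangeRestrict ι'.rangeRestrict_surjective
    have hri : ¬ p ∣ ι'.range.index := by
      rw [MonoidHom.range_eq_map, hsub, ← MonoidHom.range_eq_map]
      exact fun h => hidx (h.trans (relIndex_dvd_index_of_le hr))
    let P : Sylow p H := hrp.toSylow hri
    haveI : (K.map ι').Normal := by rw [hsub]; exact normal_in_normalizer
    refine core_step hp P (K.map ι') (map_le_range _ _) ?_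
    set K' := K.map ι' with hK'
    set π' := QuotientGroup.mk' (K' ⊓ centralizer (K' : Set H)) with hπ'
    have hker' : π'.ker = K' ⊓ centralizer (K' : Set H) := QuotientGroup.ker_mk' _
    have hC' : (P : Subgroup H) ⊓ centralizer (K' : Set H) = C.map ι' := (map_centralizer_inj hι' K).symm
    have hZ' : K' ⊓ centralizer (K' : Set H) = (K ⊓ C).map ι' := by
      rw [map_inf _ _ _ hι', ← hC', ← inf_assoc, inf_eq_left.2 (show K.map ι' ≤ (P : Subgroup H) from map_le_range ι' K)]
    have h1 := comap_cT_eq (p := p) (π'.comp ι') (K ⊓ C) (by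
      rw [← MonoidHom.comap_ker, hker', hZ', comap_map_eq_self_of_injective hι']) C
    rw [← map_map, ← comap_comap, ← hπ, ← hW] at h1
    have h2 : (centerThompsonOf p ((C.map ι').map π')).comap π' = W.map ι' := by
      rw [← h1, map_comap_eq_self]
      have := comap_mono (f := π') (ZJ.centerThompsonOf_le (e := p) ((C.map ι').map π'))
      rw [comap_map_eq_self (by rw [hker', hZ']; exact map_mono inf_le_right)] at this
      exact this.trans (map_le_range _ _)
    rw [hC', h2, ← Subgroup.map_sup]
    have h3 : (normalizer (((K ⊔ W).map ι' : Subgroup H) : Set H)).map H.subtype ≤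
        normalizer (((K ⊔ W).map ι : Subgroup G) : Set G) := by
      rw [← hmap]; exact le_normalizer_map _
    exact Transfer.hasNormalPComplement_of_mulEquiv (Transfer.hasNormalPComplement_of_le hM h3)
      (equivMapOfInjective _ _ H.subtype_injective).symm
  · refine lt_of_le_of_ne le_sup_left fun h => ?_
    have hWK : W ≤ K := h ▸ le_sup_right
    have h1 : C.map π ≠ ⊥ := by
      intro h
      rw [Subgroup.map_eq_bot_iff, hker] at h
      exact hn (h.trans inf_le_left)
    apply ZJ.centerThompsonOf_ne_bot (e := p) (Or.inr rfl) ((hS.to_subgroup C).map π) h1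
    rw [← map_comap_eq_self_of_surjective (QuotientGroup.mk'_surjective (K ⊓ C)) (centerThompsonOf p _),
      Subgroup.map_eq_bot_iff, QuotientGroup.ker_mk']
    exact le_inf hWK hWC

/-- For an odd prime p, every finite p-group S has a characteristic subgroup K with C_S(K) ≤ K such that, whenever S is (isomorphic to) a Sylow p-subgroup of a finite group G, G has a normal p-complement if and only if N_G(K)/C_G(K) is a p-group, i.e. every element of N_G(K) of order prime to p centralizes K (K transported into G along the isomorphism). -/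
theorem result (p : ℕ) [Fact p.Prime] (hp : p ≠ 2)
    (S : Type u) [Group S] [Finite S] (hS : IsPGroup p S) :
    ∃ K : Subgroup S, K.Characteristic ∧ Subgroup.centralizer (K : Set S) ≤ K ∧
      ∀ (G : Type u) [Group G] [Finite G] (P : Sylow p G) (e : ↥(P : Subgroup G) ≃* S),
        Cfsg.HasNormalPComplement p G ↔
          ∀ g ∈ Subgroup.normalizer (((K.comap (e : ↥(P : Subgroup G) →* S)).map (P : Subgroup G).subtype : Subgroup G) : Set G),
            (orderOf g).Coprime p →
              g ∈ Subgroup.centralizer (((K.comap (e : ↥(P : Subgroup G) →* S)).map (P : Subgroup G).subtype : Subgroup G) : Set G) := by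
  classical
  have hbot : Good p (⊥ : Subgroup S) := by
    intro G _ _ ι _ _ h
    rw [Subgroup.map_bot, normalizer_eq_top] at h
    exact Transfer.hasNormalPComplement_top_iff.1 h
  obtain ⟨K, ⟨hKc, hKg⟩, hmax⟩ := (Set.toFinite {K : Subgroup S | K.Characteristic ∧ Good p K}).exists_maximal
    ⟨⊥, inferInstance, hbot⟩
  have hC : centralizer (K : Set S) ≤ K := by
    by_contra hn
    obtain ⟨L, hLc, hLg, hlt⟩ := good_step hp hS K hKg hn
    exact absurd (hmax ⟨hLc, hLg⟩ hlt.le) (not_le_of_gt hlt)
  refine ⟨K, hKc, hC, fun G _ _ P e => ?_⟩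
  let ι : S →* G := (P : Subgroup G).subtype.comp e.symm.toMonoidHom
  have hι : Function.Injective ι := (P : Subgroup G).subtype_injective.comp e.symm.injective
  have hr : ι.range = P := by
    ext y
    constructor
    · rintro ⟨s, rfl⟩; exact (e.symm s).2
    · intro hy; exact ⟨e ⟨y, hy⟩, by simp [ι]⟩
  have hK' : (K.comap (e : ↥(P : Subgroup G) →* S)).map (P : Subgroup G).subtype = K.map ι := by
    ext y
    constructor
    · rintro ⟨s, hs, rfl⟩; exact ⟨e s, hs, by simp [ι]⟩
    · rintro ⟨k, hk, rfl⟩; exact ⟨e.symm k, by simpa using hk, rfl⟩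
  rw [hK']
  have hKP : K.map ι ≤ P := hr ▸ map_le_range _ _
  have hKp : IsPGroup p (K.map ι) := P.isPGroup'.to_le hKP
  constructor
  · intro h g hg hc
    exact Transfer.mem_centralizer_of_mem_normalizer h hKp hg hc
  · intro h
    apply hKg G ι hι (hr ▸ P.not_dvd_index)
    set N := normalizer ((K.map ι : Subgroup G) : Set G) with hN
    set D := centralizer ((K.map ι : Subgroup G) : Set G) with hD
    have hDN : D ≤ N := centralizer_le_normalizer _
    have hPN : (P : Subgroup G) ≤ N := by
      rw [← hr, MonoidHom.range_eq_map]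
      exact (map_mono le_normalizer_of_normal).trans (le_normalizer_map ι)
    have h1 : Tech.IsSylowIn p ((P : Subgroup G) ⊓ D) D := by
      have := (Tech.IsSylowIn.of_sylow P hPN).inf_of_le_normalizer (N := D)
        (Core.normalizer_le_normalizer_centralizer _)
      rwa [inf_eq_right.2 hDN] at this
    have h2 : HasNormalPComplement p D := by
      apply Transfer.hasNormalPComplement_of_sylow_le_center h1.toSylow
      intro y hy
      have h3 : (y : G) ∈ K.map ι := by
        apply map_mono hC
        rw [map_centralizer_inj hι, hr]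
        exact hy
      rw [mem_center_iff]
      exact fun g => Subtype.ext (mem_centralizer_iff.1 g.2 y h3).symm
    refine Transfer.hasNormalPComplement_of_pResidual_le (N := D.subgroupOf N) ?_
      ((Transfer.hasNormalPComplement_subgroupOf_iff hDN).2 h2)
    rw [Transfer.pResidual_le_iff]
    intro g hg
    exact h g g.2 (by rwa [orderOf_coe])

end Cfsg.Agent.S3073
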