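import Cfsg.Statements.S3074
import Cfsg.Agent.Lib.Push.QdF
import Cfsg.Agent.Lib.PGroup.MaxClass2

set_option autoImplicit false
open Cfsg

namespace Cfsg.Agent.S3074

open CfsgLib.Push CfsgLib.SL2 CfsgLib.LAE MatrixGroups Subgroup

theorem qdF_uu_pow {F : Type*} [Field F] (b : F) (e : Fin 2 → F) (n : ℕ) :
    qdF (uu b) e ^ n = qdF (uu (n * b)) (n • e + ![(n.choose 2 : F) * b * e 1, 0]) := by
  induction n with
  | zero =>
    rw [pow_zero, ← qdF_one]
    congr 1
    · simp [uu_zero]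
    · refine vec2_ext ?_ ?_ <;> simp
  | succ n ih =>
    rw [pow_succ, ih, qdF_mul, ← uu_add, act_uu, Nat.choose_succ_succ', Nat.choose_one_right]
    congr 1
    · congr 1; push_cast; ring
    · refine vec2_ext ?_ ?_ <;> simp [Matrix.vecHead, Matrix.vecTail] <;> ring

theorem main (p : ℕ) [Fact p.Prime] (hp : p ≠ 2) (P : Sylow p ↥(Cfsg.qdOver (ZMod p))) :
    Cfsg.IsExtraspecial p ↥P ∧ Nat.card P = p ^ 3 ∧ Monoid.exponent ↥P = p := by
  set T := (upU (ZMod p)).comap (qdLh (ZMod p)) with hT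
  have hm : ∀ b e, qdF (uu b) e ∈ T := fun b e => by
    rw [hT, mem_comap, qdLh_qdF]; exact uu_mem b
  have hm' : ∀ x ∈ T, ∃ b e, x = qdF (uu b) e := fun x hx => by
    obtain ⟨A, e, rfl⟩ := exists_qdF x
    rw [hT, mem_comap, qdLh_qdF] at hx
    obtain ⟨b, rfl⟩ := hx
    exact ⟨b, e, rfl⟩
  have hs : IsSylowIn p T ⊤ := isSylowIn_of_not_dvd_relIndex le_top
    (isPGroup_comap_of_ker (pCore_qdOver (F := ZMod p) (p := p) ▸ isPGroup_pCore) isPGroup_upU) (by
      rw [relIndex_top_right, hT, index_comap_of_surjective _ fun A => ⟨qdF A 0, qdLh_qdF A 0⟩,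
        ← relIndex_top_right]
      exact isSylowIn_upU.not_dvd_relIndex)
  obtain ⟨Q, hQ⟩ := hs.exists_sylow_top
  have e : P ≃* T := (P.equiv Q).trans (MulEquiv.subgroupCongr hQ)
  have hc : Nat.card P = p ^ 3 := by
    rw [Nat.card_congr e.toEquiv, ← Nat.card_eq_of_bijective
      (fun x : ZMod p × (Fin 2 → ZMod p) => (⟨qdF (uu x.1) x.2, hm _ _⟩ : T)) ⟨?_, ?_⟩]
    · simp; ring
    · rintro ⟨a, e⟩ ⟨b, f⟩ h
      obtain ⟨h1, h2⟩ := qdF_inj (congrArg Subtype.val h)
      exact Prod.ext (by simpa using congrArg (fun A : SL(2, ZMod p) => A 0 1) h1) h2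
    · rintro ⟨x, hx⟩
      obtain ⟨b, e, rfl⟩ := hm' x hx
      exact ⟨(b, e), rfl⟩
  have hn : ¬ IsMulCommutative P := fun h => by
    have h1 := congrArg (fun x => (e x).1) (mul_comm' (e.symm ⟨_, hm 1 0⟩) (e.symm ⟨_, hm 0 ![0, 1]⟩))
    simp only [map_mul, MulEquiv.apply_symm_apply, coe_mul, qdF_mul] at h1
    simpa [act_uu] using congrFun (qdF_inj h1).2 0
  refine ⟨CfsgLib.PGroup.isExtraspecial_of_card_eq_cube hc hn, hc, ?_⟩
  haveI : Nontrivial P := by
    by_contra h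
    rw [not_nontrivial_iff_subsingleton] at h
    exact hn ⟨⟨fun a b => Subsingleton.elim _ _⟩⟩
  refine (Monoid.exponent_eq_prime_iff Fact.out).2 fun x hx => orderOf_eq_prime ?_ hx
  refine e.injective (Subtype.ext ?_)
  obtain ⟨b, f, h⟩ := hm' _ (e x).2
  rw [map_pow, map_one, SubgroupClass.coe_pow, h, qdF_uu_pow, OneMemClass.coe_one, ← qdF_one,
    (CharP.cast_eq_zero_iff (ZMod p) p (p.choose 2)).2 (Nat.Prime.dvd_choose_self Fact.out two_ne_zero
      (lt_of_le_of_ne (Nat.Prime.two_le Fact.out) (Ne.symm hp)))]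
  congr 1
  · simp [uu_zero]
  · refine vec2_ext ?_ ?_ <;> simp

/-- Let p be an odd prime. A Sylow p-subgroup of Qd(p), the split extension of an elementary abelian group of order p² by SL₂(p) acting naturally, is extraspecial of order p³ and exponent p. -/
theorem result (p : ℕ) [Fact p.Prime] (hp : p ≠ 2) (P : Sylow p ↥(Cfsg.qd p)) :
    Cfsg.IsExtraspecial p ↥P ∧ Nat.card P = p ^ 3 ∧ Monoid.exponent ↥P = p := by
  exact main p hp P

end Cfsg.Agent.S3074
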