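import Cfsg.Statements.S3075
import Cfsg.Agent.Lib.Push.QdF
import Cfsg.Agent.Lib.SolvStruct.Util

set_option autoImplicit false
open Cfsg

namespace Cfsg.Agent.S3075

open CfsgLib.Push CfsgLib.SL2 CfsgLib.LAE MatrixGroups Subgroup
open scoped commutatorElement

/-- Let p be an odd prime and N a finite group with a normal elementary abelian subgroup A of order p² that is its own centralizer in N, such that N/A is isomorphic to SL₂(p) (over any field F with p elements). Then N splits over A: some subgroup U of N satisfies A ∩ U = 1 and AU = N. -/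
theorem result {N : Type*} [Group N] [Finite N] {p : ℕ} [Fact p.Prime] (hp : p ≠ 2)
    (A : Subgroup N) [A.Normal] (hAcomm : IsMulCommutative A) (hAcard : Nat.card A = p ^ 2) (hAexp : Monoid.exponent ↥A = p)
    (hAself : Subgroup.centralizer (A : Set N) = A)
    {F : Type*} [Field F] [Fintype F] (hF : Fintype.card F = p) (e : N ⧸ A ≃* Matrix.SpecialLinearGroup (Fin 2) F) :
    ∃ U : Subgroup N, A ⊓ U = ⊥ ∧ A ⊔ U = ⊤ := by
  haveI := charP_of_card (p := p) (n := 1) (hF.trans (pow_one p).symm)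
  let θ : N →* SL(2, F) := e.toMonoidHom.comp (QuotientGroup.mk' A)
  have hs : Function.Surjective θ := e.surjective.comp (QuotientGroup.mk'_surjective A)
  have hk : ∀ {x}, θ x = 1 ↔ x ∈ A := fun {x} => by simp [θ]
  have hexp : ∀ a ∈ A, a ^ p = 1 := fun a ha =>
    congrArg Subtype.val (hAexp ▸ Monoid.pow_exponent_eq_one (⟨a, ha⟩ : A))
  obtain ⟨m, hm⟩ := (Nat.Prime.odd_of_ne_two Fact.out hp : Odd p)
  obtain ⟨y, hy⟩ := hs (-1)
  set z := y ^ p with hz
  have hθ : θ z = -1 := by rw [hz, map_pow, hy, hm]; simp [pow_succ, pow_mul]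
  have hz2 : z ^ 2 = 1 := by
    rw [hz, ← pow_mul, mul_comm, pow_mul]
    exact hexp _ (hk.1 (by rw [map_pow, hy]; simp))
  have hA : A ≤ centralizer (A : Set N) := hAself.ge
  have hsup : A ⊔ centralizer (zpowers z : Set N) = ⊤ := eq_top_iff.2 fun g _ => by
    set a := g * z * g⁻¹ * z⁻¹ with ha
    have haA : a ∈ A := hk.1 (by simp [ha, hθ])
    have hzi : z⁻¹ = z := inv_eq_of_mul_eq_one_right (by rw [← pow_two, hz2])
    have h1 : z * a⁻¹ * z⁻¹ = a := by
      calc z * a⁻¹ * z⁻¹ = z ^ 2 * g * z⁻¹ * g⁻¹ * z⁻¹ := by rw [ha, pow_two]; group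
        _ = a := by rw [hz2, one_mul, ha]; nth_rewrite 1 [hzi]; rfl
    have h2 : a ^ (m + 1) * z * (a ^ (m + 1))⁻¹ = g * z * g⁻¹ := by
      calc a ^ (m + 1) * z * (a ^ (m + 1))⁻¹ = a ^ (m + 1) * (z * a⁻¹ * z⁻¹) ^ (m + 1) * z := by
            rw [conj_pow, inv_pow]; group
        _ = a ^ p * a * z := by rw [h1, hm]; group
        _ = g * z * g⁻¹ := by rw [hexp a haA, ha]; group
    rw [← mul_inv_cancel_left (a ^ (m + 1)) g]
    refine mul_mem (mem_sup_left (pow_mem haA _)) (mem_sup_right ?_)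
    rw [← zpowers_le, le_centralizer_iff, zpowers_le]
    rintro _ ⟨k, rfl⟩
    refine (Commute.zpow_left ?_ k).eq
    calc (a ^ (m + 1))⁻¹ * g * z = (a ^ (m + 1))⁻¹ * (g * z * g⁻¹) * g := by group
      _ = z * ((a ^ (m + 1))⁻¹ * g) := by rw [← h2]; group
  refine ⟨_, by_contra fun h0 => ?_, hsup⟩
  have hzo : (orderOf z).Coprime p := Nat.Coprime.coprime_dvd_left (orderOf_dvd_of_pow_eq_one hz2)
    ((Nat.coprime_primes Nat.prime_two Fact.out).2 (Ne.symm hp))
  obtain ⟨f1, f2⟩ := CfsgLib.Coprime.fitting_decomposition (V := A) (A := zpowers z)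
    le_normalizer_of_normal (by rw [Nat.card_zpowers, hAcard]; exact hzo.pow_right 2)
  have hn : ∀ {X : Subgroup N}, X ≤ A → centralizer (zpowers z : Set N) ≤ normalizer (X : Set N) →
      X ≠ ⊥ → X ≠ A → commutator N ≤ centralizer (X : Set N) := fun {X} h1 h2 h3 h4 => by
    haveI := normal_of_top_le (hsup.ge.trans (sup_le
      ((hA.trans (centralizer_anti h1)).trans (centralizer_le_normalizer _)) h2))
    obtain ⟨i, hi, h5⟩ := (Nat.dvd_prime_pow Fact.out).1 (hAcard ▸ card_dvd_of_le h1)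
    haveI : IsCyclic X := by
      interval_cases i
      · exact absurd (card_eq_one.1 h5) h3
      · exact isCyclic_of_prime_card (h5.trans (pow_one p))
      · exact absurd (eq_of_le_of_card_ge h1 (hAcard.trans h5.symm).le) h4
    exact CfsgLib.SolvStruct.commutator_le_centralizer_of_cyclic X
  have hne : A ⊓ centralizer (zpowers z : Set N) ≠ A := fun h => by
    have h1 := hk.2 (hAself.le (le_centralizer_iff.1 (inf_eq_left.1 h) (mem_zpowers z)))
    have h2 := congrArg (fun g : SL(2, F) => g 0 0) (hθ.symm.trans h1)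
    refine hp ((Nat.prime_dvd_prime_iff_eq Fact.out Nat.prime_two).1
      ((CharP.cast_eq_zero_iff F p 2).1 ?_))
    simp at h2
    push_cast
    linear_combination -h2
  have c1 := hn inf_le_left (le_normalizer_inf le_normalizer_of_normal le_normalizer) h0 hne
  have c2 := hn (commutator_le_left _ _) (le_normalizer_commutator le_normalizer_of_normal
    (centralizer_le_normalizer _)) (fun h => hne (by rw [h, sup_bot_eq] at f2; exact f2))
    (fun h => h0 (by rw [h, inf_eq_left.2 inf_le_left] at f1; exact f1))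
  obtain ⟨u, hu⟩ := hs (uu 1)
  obtain ⟨v, hv⟩ := hs (ll 1)
  have h1 := hk.2 (hAself.le (f2 ▸ ((le_inf c1 c2).trans (centralizer_sup _ _).ge)
    (commutator_mem_commutator (mem_top u) (mem_top v))))
  rw [map_commutatorElement, hu, hv, commutatorElement_eq_one_iff_mul_comm] at h1
  simpa [mul_ap] using congrArg (fun g : SL(2, F) => g 0 0) h1

end Cfsg.Agent.S3075
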