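import Cfsg.Statements.S3076
import Cfsg.Agent.Lib.LAE.PIrr
import Cfsg.Agent.Lib.Core.Cores

set_option autoImplicit false
open Cfsg

namespace Cfsg.Agent.S3076

open CfsgLib.LAE Subgroup

theorem coprime_pResOf {X : Type*} [Group X] [Finite X] {p : ℕ} [Fact p.Prime] {Z C : Subgroup X}
    (hZ : IsSylowIn p Z C) (hc : C ≤ centralizer (Z : Set X)) : (Nat.card (pResOf p C)).Coprime p := by
  have h : normalizer ((hZ.toSylow : Subgroup C) : Set C) ≤
      centralizer ((hZ.toSylow : Subgroup C) : Set C) :=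
    fun g _ z hz => Subtype.ext (hc g.2 z hz)
  have h1 : pResOf p C ≤ (MonoidHom.transferSylow hZ.toSylow h).ker.map C.subtype :=
    pResOf_le_iff.2 fun g hg h1 => ⟨⟨g, hg⟩, by
      obtain ⟨k, hk⟩ := hZ.toSylow.isPGroup' (MonoidHom.transferSylow hZ.toSylow h ⟨g, hg⟩)
      refine orderOf_eq_one_iff.1 (Nat.eq_one_of_dvd_coprimes (h1.pow_right k) ?_
        (orderOf_dvd_of_pow_eq_one hk))
      exact (orderOf_map_dvd _ _).trans (orderOf_coe _).symm.dvd, rfl⟩
  refine Nat.Coprime.coprime_dvd_left (card_dvd_of_le h1) ?_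
  rw [card_map_of_injective C.subtype_injective]
  exact ((Nat.Prime.coprime_iff_not_dvd Fact.out).2
    (MonoidHom.not_dvd_card_ker_transferSylow _ h)).symm

theorem le_comap_pCore {X : Type*} [Group X] [Finite X] {p : ℕ} [Fact p.Prime] {C D : Subgroup X}
    [C.Normal] [D.Normal] (h : pResOf p D ≤ C) :
    D ≤ (Cfsg.pCore p (X ⧸ C)).comap (QuotientGroup.mk' C) :=
  map_le_iff_le_comap.1 (le_pCore (Normal.map inferInstance _ (QuotientGroup.mk'_surjective C))
    (isPGroup_map_mk'_iff.2 h))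

theorem main {X : Type*} [Group X] [Finite X] {p : ℕ} [Fact p.Prime] {T H C : Subgroup X} [H.Normal]
    [C.Normal] (hT : IsSylowIn p T ⊤) (hH : H ≤ T) (hC : C = centralizer (H : Set X)) :
    (H ≤ (Cfsg.pCore p (X ⧸ C)).comap (QuotientGroup.mk' C) ∧
      ¬ p ∣ H.relIndex ((Cfsg.pCore p (X ⧸ C)).comap (QuotientGroup.mk' C))) ↔
    (T ⊓ C ≤ H ∧ Cfsg.pPrimePCore p X = H ⊔ C) := by
  set K := (Cfsg.pCore p (X ⧸ C)).comap (QuotientGroup.mk' C) with hK
  have hp := hT.isPGroup.to_le hH
  have hHK : H ≤ K := le_comap_pCore ((pResOf_eq_bot_of_isPGroup hp).le.trans bot_le)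
  have hCK : C ≤ K := le_comap_pCore (pResOf_le C)
  have hKC : pResOf p K ≤ C := pResOf_comap_pCore_le
  have hZ := hT.inf_of_normal (N := C) le_top le_normalizer_of_normal
  have key : T ⊓ C ≤ H → Cfsg.pPrimePCore p X = K := fun h => by
    haveI : (Cfsg.pPrimePCore p X).Normal := Normal.comap inferInstance _
    refine le_antisymm (le_comap_pCore (pResOf_comap_pCore_le.trans ?_)) (le_comap_pCore ?_)
    · exact CfsgLib.Core.pPrimeCore_le_centralizer_pCore.trans
        ((centralizer_anti (le_pCore inferInstance hp)).trans hC.ge)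
    · rw [← pResOf_eq_of_le hKC hCK]
      haveI := normal_of_top_le (le_normalizer_pResOf_of_le (p := p) (H := C) le_normalizer_of_normal)
      exact CfsgLib.Core.le_pPrimeCore (coprime_pResOf hZ (hC.le.trans (centralizer_anti h)))
  refine ⟨fun ⟨_, h⟩ => ?_, fun ⟨h1, h2⟩ => ⟨hHK, ?_⟩⟩
  · have hS := isSylowIn_of_not_dvd_relIndex hHK hp h
    have h1 := hS.le_of_normalizes hZ.isPGroup (inf_le_right.trans hCK) le_normalizer_of_normal
    exact ⟨h1, (key h1).trans (le_antisymm (hS.le_of_pResOf_le (hKC.trans le_sup_right) le_sup_left)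
      (sup_le hHK hCK))⟩
  · rw [← key h1, h2, sup_comm, relIndex_sup_right, ← inf_relIndex_right]
    exact fun h => hZ.not_dvd_relIndex (h.trans (relIndex_dvd_of_le_left C (le_inf h1 inf_le_right)))

/-- Let P be a Sylow p-subgroup of the finite group G and H ≤ P a subgroup with N_P(H) a Sylow p-subgroup of N_G(H). Let N be the preimage in N_G(H) of O_p(N_G(H)/C_G(H)). Then H is a Sylow p-subgroup of N if and only if C_P(H) ≤ H and O_{p',p}(N_G(H)) = H·C_G(H). -/
theorem result {G : Type*} [Group G] [Finite G] {p : ℕ} [Fact p.Prime]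
    (P : Sylow p G) (H : Subgroup G) (hHP : H ≤ (P : Subgroup G))
    (hSyl : ¬ p ∣ ((P : Subgroup G) ⊓ Subgroup.normalizer (H : Set G)).relIndex (Subgroup.normalizer (H : Set G)))
    [hC : ((Subgroup.centralizer (H : Set G)).subgroupOf (Subgroup.normalizer (H : Set G))).Normal] :
    (H ≤ ((Cfsg.pCore p (↥(Subgroup.normalizer (H : Set G)) ⧸
              (Subgroup.centralizer (H : Set G)).subgroupOf (Subgroup.normalizer (H : Set G)))).comap
            (QuotientGroup.mk' _)).map (Subgroup.normalizer (H : Set G)).subtype ∧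
      ¬ p ∣ H.relIndex (((Cfsg.pCore p (↥(Subgroup.normalizer (H : Set G)) ⧸
              (Subgroup.centralizer (H : Set G)).subgroupOf (Subgroup.normalizer (H : Set G)))).comap
            (QuotientGroup.mk' _)).map (Subgroup.normalizer (H : Set G)).subtype)) ↔
    ((P : Subgroup G) ⊓ Subgroup.centralizer (H : Set G) ≤ H ∧
      (Cfsg.pPrimePCore p ↥(Subgroup.normalizer (H : Set G))).map (Subgroup.normalizer (H : Set G)).subtype =
        H ⊔ Subgroup.centralizer (H : Set G)) := by
  set N := normalizer (H : Set G) with hN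
  have hHN : H ≤ N := le_normalizer
  have hCN : centralizer (H : Set G) ≤ N := centralizer_le_normalizer _
  haveI : (H.subgroupOf N).Normal := normal_subgroupOf_of_le le_rfl
  have hT := (isSylowIn_of_not_dvd_relIndex inf_le_right (P.isPGroup'.to_le inf_le_left)
    hSyl).subgroupOf le_rfl
  rw [subgroupOf_self] at hT
  have := main (H := H.subgroupOf N) hT (comap_mono (le_inf hHP hHN)) (centralizer_subgroupOf hHN).symm
  refine Iff.trans (and_congr ?_ ?_) (this.trans (and_congr ?_ ?_))
  · rw [← map_le_map_iff_of_injective N.subtype_injective, map_subgroupOf_eq_of_le hHN]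
  · rw [← relIndex_map_map_of_injective _ _ N.subtype_injective, map_subgroupOf_eq_of_le hHN]
  · exact ⟨fun h x hx => h (x := ⟨x, hCN hx.2⟩) ⟨⟨hx.1, hCN hx.2⟩, hx.2⟩,
      fun h x hx => h ⟨hx.1.1, hx.2⟩⟩
  · rw [← (map_injective N.subtype_injective).eq_iff, Subgroup.map_sup, map_subgroupOf_eq_of_le hHN,
      map_subgroupOf_eq_of_le hCN]

end Cfsg.Agent.S3076
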