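import Cfsg.Statements.S3116
import Mathlib

set_option autoImplicit false
open Cfsg

namespace Cfsg.Agent.S3116

theorem aux {X : Type*} [Group X] [Finite X] (x y : X) (n : ℕ) (hx : orderOf x = 2 ^ n)
    (hcov : ∀ g : X, g ∈ Subgroup.zpowers x ∨ ∃ c ∈ Subgroup.zpowers x, g = c * y)
    (hout : ∀ g : X, g ∉ Subgroup.zpowers x → orderOf g ≠ 2 ^ n) : IsPGroup 2 (MulAut X) := by
  intro φ
  have hφ : ∀ ψ : MulAut X, ∃ a : ℕ, ψ x = x ^ a := by
    intro ψ
    have : ψ x ∈ Subgroup.zpowers x := by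
      by_contra hc
      exact hout _ hc (by rw [MulEquiv.orderOf_eq, hx])
    obtain ⟨a, ha⟩ := (mem_powers_iff_mem_zpowers.2 this)
    exact ⟨a, ha.symm⟩
  obtain ⟨a, ha⟩ := hφ φ
  have hpow : ∀ k : ℕ, (φ ^ k) x = x ^ (a ^ k) := by
    intro k
    induction k with
    | zero => simp
    | succ k ih => rw [pow_succ', MulAut.mul_apply, ih, map_pow, ha, ← pow_mul, pow_succ']
  have hcop : Nat.Coprime a (2 ^ n) := by
    have h1 : orderOf (x ^ a) = orderOf x := by rw [← ha, MulEquiv.orderOf_eq]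
    rw [orderOf_pow x, hx] at h1
    have h2 := Nat.div_mul_cancel (Nat.gcd_dvd_left (2 ^ n) a)
    rw [h1] at h2
    have h3 : (2 ^ n).gcd a = 1 := by
      have : 0 < 2 ^ n := by positivity
      nlinarith
    exact Nat.Coprime.symm h3
  have hfix : (φ ^ (2 ^ n)) x = x := by
    rw [hpow]
    have h1 : a ^ Nat.totient (2 ^ n) ≡ 1 [MOD 2 ^ n] := Nat.ModEq.pow_totient hcop
    have h2 : Nat.totient (2 ^ n) ∣ 2 ^ n := by
      rcases n with _ | n
      · simp
      · rw [Nat.totient_prime_pow_succ Nat.prime_two]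
        simp [pow_succ]
    obtain ⟨c, hc⟩ := h2
    have h3 : a ^ (2 ^ n) ≡ 1 [MOD 2 ^ n] := by
      have := h1.pow c
      rwa [← pow_mul, ← hc, one_pow] at this
    conv_rhs => rw [← pow_one x]
    rw [pow_eq_pow_iff_modEq, hx]
    exact h3
  set ψ := φ ^ (2 ^ n) with hψ
  have hfix' : ∀ c ∈ Subgroup.zpowers x, ψ c = c := by
    rintro _ ⟨k, rfl⟩
    simp [hfix]
  obtain ⟨c, hc, hcy⟩ : ∃ c ∈ Subgroup.zpowers x, ψ y = c * y := by
    rcases hcov (ψ y) with h | h
    · refine ⟨1, one_mem _, ?_⟩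
      have := hfix' _ h
      rw [one_mul]
      exact ψ.injective this
    · exact h
  have hpy : ∀ k : ℕ, (ψ ^ k) y = c ^ k * y := by
    intro k
    induction k with
    | zero => simp
    | succ k ih =>
      rw [pow_succ', MulAut.mul_apply, ih, map_mul, hfix' _ (pow_mem hc k), hcy, pow_succ, mul_assoc]
  have hpx : ∀ k : ℕ, ∀ c ∈ Subgroup.zpowers x, (ψ ^ k) c = c := by
    intro k c hc
    induction k with
    | zero => simp
    | succ k ih => rw [pow_succ', MulAut.mul_apply, ih, hfix' c hc]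
  refine ⟨n + n, ?_⟩
  rw [pow_add, pow_mul, ← hψ]
  have hc1 : c ^ 2 ^ n = 1 := by
    obtain ⟨k, rfl⟩ := hc
    rw [← hx]
    simp only
    rw [← zpow_natCast, ← zpow_mul, mul_comm, zpow_mul, zpow_natCast, pow_orderOf_eq_one, one_zpow]
  ext g
  rcases hcov g with h | ⟨d, hd, rfl⟩
  · simpa using hpx _ g h
  · rw [map_mul, hpx _ d hd, hpy, hc1]; simp

theorem cover {X : Type*} [Group X] [Finite X] (x y : X) (hy : y ∉ Subgroup.zpowers x)
    (hi : (Subgroup.zpowers x).index = 2) (g : X) :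
    g ∈ Subgroup.zpowers x ∨ ∃ c ∈ Subgroup.zpowers x, g = c * y := by
  by_cases hg : g ∈ Subgroup.zpowers x
  · exact Or.inl hg
  · refine Or.inr ⟨g * y⁻¹, ?_, by simp⟩
    rw [Subgroup.mul_mem_iff_of_index_two hi]
    simp [hg, hy]


/-- The automorphism group of a dihedral 2-group of order at least 8, or of a quasi-dihedral (semidihedral) 2-group of order at least 16, is a 2-group. -/
theorem result {X : Type*} [Group X] [Finite X] (h2 : IsPGroup 2 X)
    (h : (∃ n : ℕ, 4 ≤ n ∧ Nonempty (X ≃* DihedralGroup n)) ∨ Cfsg.IsQuasiDihedral X) : IsPGroup 2 (MulAut X) := by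
  rcases h with ⟨n, hn, ⟨e⟩⟩ | ⟨n, hn, hcard, x, y, hx, hy, hxy⟩
  · have : NeZero n := ⟨by omega⟩
    have hcard : Nat.card X = 2 * n := by
      rw [Nat.card_congr e.toEquiv, DihedralGroup.nat_card]
    obtain ⟨k, hk⟩ := IsPGroup.iff_card.1 h2
    obtain ⟨m, rfl⟩ : ∃ m, k = m + 1 := by
      rcases k with _ | m
      · omega
      · exact ⟨m, rfl⟩
    have hm : n = 2 ^ m := by rw [pow_succ] at hk; omega
    have hr : ∀ i : ZMod n, e.symm (DihedralGroup.r i) ∈ Subgroup.zpowers (e.symm (DihedralGroup.r 1)) := by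
      intro i
      refine ⟨(i.val : ℤ), ?_⟩
      simp only [zpow_natCast]
      rw [← map_pow, DihedralGroup.r_one_pow]
      simp
    refine aux (e.symm (DihedralGroup.r 1)) (e.symm (DihedralGroup.sr 0)) m ?_ ?_ ?_
    · rw [MulEquiv.orderOf_eq, DihedralGroup.orderOf_r_one, hm]
    · intro g
      obtain ⟨g, rfl⟩ := e.symm.surjective g
      rcases g with i | i
      · exact Or.inl (hr i)
      · refine Or.inr ⟨_, hr (-i), ?_⟩
        rw [← map_mul]; simp
    · intro g hg
      obtain ⟨g, rfl⟩ := e.symm.surjective g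
      rcases g with i | i
      · exact absurd (hr i) hg
      · rw [MulEquiv.orderOf_eq, DihedralGroup.orderOf_sr]; omega
  · obtain ⟨m, rfl⟩ : ∃ m, n = m + 3 := ⟨n - 3, by omega⟩
    have hpos : 1 ≤ 2 ^ m := Nat.one_le_two_pow
    have e1 : m + 3 - 1 = m + 2 := by omega
    rw [e1] at hxy
    have hyx : y ∉ Subgroup.zpowers x := by
      rintro ⟨k, rfl⟩
      simp only at hxy
      have h1 : x ^ k * x * (x ^ k)⁻¹ = x ^ 1 := by group
      rw [h1, pow_eq_pow_iff_modEq, hx] at hxy
      have h3 := (Nat.modEq_iff_dvd' (by rw [pow_add]; omega)).1 hxy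
      have h4 := Nat.le_of_dvd (by rw [pow_add]; omega) h3
      rw [pow_add, pow_add] at h4
      omega
    have hi : (Subgroup.zpowers x).index = 2 := by
      have := (Subgroup.zpowers x).card_mul_index
      rw [Nat.card_zpowers, hx, hcard, pow_succ 2 (m + 3)] at this
      exact Nat.eq_of_mul_eq_mul_left (by positivity) this
    refine aux x y (m + 3) hx (cover x y hyx hi) ?_
    intro g hg
    rcases cover x y hyx hi g with h | ⟨c, hc, rfl⟩
    · exact absurd h hg
    · obtain ⟨i, rfl⟩ := mem_powers_iff_mem_zpowers.2 hc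
      simp only
      have hy2 : y * y = 1 := by rw [← pow_two, ← hy, pow_orderOf_eq_one]
      have h1 : (x ^ i * y) ^ 2 = x ^ (i * 2 ^ (m + 2)) := by
        calc (x ^ i * y) ^ 2 = x ^ i * (y * x * y⁻¹) ^ i * (y * y) := by
              rw [conj_pow, pow_two]; group
          _ = x ^ (i + (2 ^ (m + 2) - 1) * i) := by rw [hy2, hxy, mul_one, ← pow_mul, ← pow_add]
          _ = _ := by
              congr 1
              have : 1 ≤ 2 ^ (m + 2) := Nat.one_le_two_pow
              zify [this]; ring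
      have h2 : (x ^ i * y) ^ 4 = 1 := by
        rw [show 4 = 2 * 2 from rfl, pow_mul, h1, ← pow_mul, mul_assoc, ← pow_succ, mul_comm, pow_mul,
          ← hx, pow_orderOf_eq_one, one_pow]
      intro h3
      have h4 := Nat.le_of_dvd (by norm_num) (orderOf_dvd_of_pow_eq_one h2)
      rw [h3, pow_add] at h4
      omega

end Cfsg.Agent.S3116
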