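import Cfsg.Statements.S3153
import Cfsg.Agent.Lib.BG.Sec1
import Cfsg.Agent.Lib.BG.AmbHall
import Cfsg.Agent.Lib.PComp.Basic
import Cfsg.Agent.Lib.Invol.Four
import Cfsg.Agent.Lib.Invol.SylowElem
import Cfsg.Agent.Lib.TwoGrp.Pres

set_option autoImplicit false
open Cfsg

namespace Cfsg.Agent.S3153

open CfsgLib CfsgLib.BG Subgroup
open scoped commutatorElement

theorem eq_of_rank_one {X : Type*} [Group X] [Finite X] {C : Subgroup X} (hr : PRankLE 2 1 C)
    {a b : X} (ha : a ∈ C) (hb : b ∈ C) (haa : a * a = 1) (hbb : b * b = 1) (hb1 : b ≠ 1)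
    (hab : Commute a b) : a = 1 ∨ a = b := by
  by_contra h
  push Not at h
  have h1 := Invol.orderOf_eq_two h.1 haa
  have h2 := Invol.orderOf_eq_two hb1 hbb
  have hK := Invol.isKleinFour_four h1 h2 h.2 hab
  have hle : closure ({a, b} : Set X) ≤ C := by
    rw [closure_le]; rintro x (rfl | rfl) <;> assumption
  have := hr ((closure ({a, b} : Set X)).subgroupOf C)
    ⟨⟨fun x y => Subtype.ext (Subtype.ext (TwoGrp.comm_of_isKleinFour hK x.2 y.2))⟩⟩
    (fun x hx => Subtype.ext (by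
      rw [Subgroup.coe_pow, pow_two]; exact TwoGrp.mul_self_of_isKleinFour hK hx))
  rw [Nat.card_congr (subgroupOfEquivOfLe hle).toEquiv, hK.card_four] at this
  omega


/-- Let X be a finite group and P a standard subgroup of X whose centralizer has 2-rank at most 1 and whose centre has odd order. Let S be a Sylow 2-subgroup of N_X(P) and t an involution of S centralizing P. Suppose some element g of X normalizes S, does not lie in S, has its square in S, and conjugates t into P·C_X(P). Then P commutes elementwise with the largest normal odd-order subgroup O(X) of X; consequently every t-invariant 2-component of X containing P is quasisimple. -/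
theorem result {X : Type*} [Group X] [Finite X] (P : Subgroup X) (hP : Cfsg.IsStandardSubgroup P)
    (hr : Cfsg.PRankLE 2 1 ↥(Subgroup.centralizer (P : Set X))) (hZ : Odd (Nat.card ↥(Subgroup.center ↥P)))
    (S : Sylow 2 ↥(Subgroup.normalizer (P : Set X))) (t : X) (ht : orderOf t = 2) (htS : t ∈ (S : Subgroup ↥(Subgroup.normalizer (P : Set X))).map (Subgroup.normalizer (P : Set X)).subtype)
    (htP : t ∈ Subgroup.centralizer (P : Set X))
    (g : X) (hgN : ∀ s ∈ (S : Subgroup ↥(Subgroup.normalizer (P : Set X))).map (Subgroup.normalizer (P : Set X)).subtype, g * s * g⁻¹ ∈ (S : Subgroup ↥(Subgroup.normalizer (P : Set X))).map (Subgroup.normalizer (P : Set X)).subtype)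
    (hgS : g ∉ (S : Subgroup ↥(Subgroup.normalizer (P : Set X))).map (Subgroup.normalizer (P : Set X)).subtype) (hg2 : g ^ 2 ∈ (S : Subgroup ↥(Subgroup.normalizer (P : Set X))).map (Subgroup.normalizer (P : Set X)).subtype)
    (hgt : g * t * g⁻¹ ∈ P ⊔ Subgroup.centralizer (P : Set X)) :
    ⁅P, Cfsg.oddCore X⁆ = ⊥ ∧
      ∀ L : Subgroup X, Cfsg.IsPComponent 2 L → P ≤ L → (∀ l ∈ L, t * l * t⁻¹ ∈ L) → Cfsg.IsQuasisimple ↥L := by
  have : Fact (Nat.Prime 2) := ⟨Nat.prime_two⟩
  obtain ⟨hq, hte, -, hNN⟩ := hP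
  have hS := isSylowOf_map Nat.prime_two S
  set T := (S : Subgroup ↥(normalizer (P : Set X))).map (normalizer (P : Set X)).subtype with hT
  have hTN : T ≤ 𝒩(P) := pHall_sub hS
  have hT2 : IsPiSubgroup {2} T := pHall_pgroup hS
  have htt : t * t = 1 := Invol.mul_self_of_orderOf_two ht
  have ht1 : t ≠ 1 := Invol.ne_one_of_orderOf_two ht
  have hperf := Comp.qs_sub_perfect hq
  have hCt : ∀ x, x * t * x⁻¹ ∈ 𝒞(P) → x ∈ 𝒩(P) := by
    intro x hx
    rw [hNN]
    by_contra hn
    refine Nat.not_even_iff_odd.2 (hte.2 x hn) (Invol.even_card_of_involution_mem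
      (t := x * t * x⁻¹) ⟨hx, conj_mem_cj.2 htP⟩ ?_)
    rw [Invol.orderOf_conj, ht]
  have htZ : ∀ x ∈ T, Commute x t := by
    obtain ⟨Z, hZ', hZ2⟩ := pgp_exists_prime_subgroup
      (pigroupS (inf_le_left.trans inf_le_left) hT2) (meet_center_nil (pgp_nil hT2)
        (subcent_normal hTN) (ne_bot_of_mem ⟨htS, htP⟩ ht1))
    obtain ⟨z, hz, hz1⟩ := exists_ne_one_of_ne_bot (prime_ne_bot (hZ2 ▸ Nat.prime_two))
    have hzz := Invol.mul_self_of_orderOf_two (nt_prime_order hZ2 Nat.prime_two hz hz1)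
    have hc := mem_cent_iff.1 (hZ' hz).2.2
    rcases eq_of_rank_one hr (hZ' hz).1.2 htP hzz htt ht1 (hc t htS).symm with h | h
    · exact absurd h hz1
    · rw [← h]; exact hc
  set s := g * t * g⁻¹ with hs
  have hsT : s ∈ T := hgN t htS
  have hss : s * s = 1 := by rw [hs, conj_mul, htt]; group
  have hst : Commute s t := htZ s hsT
  have hsC : s ∉ 𝒞(P) := by
    intro h
    have hg : g ∈ 𝒩(T) := mem_norm_of_cj_le (cj_le_iff.2 hgN)
    refine hgS (zpowers_le.1 (norm_sub_pHall hS ?_ (zpowers_le.2 (hCt g h)) (zpowers_le.2 hg)))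
    obtain ⟨k, hk⟩ := pgp_isPGroup hT2 ⟨_, hg2⟩
    have hk' : (g ^ 2) ^ 2 ^ k = 1 := congrArg Subtype.val hk
    refine (pigroup_singleton Nat.prime_two).2 (Invol.isPGroup_zpowers_of_pow_eq_one (k := k + 1) ?_)
    rw [pow_succ', pow_mul, hk']
  obtain ⟨u, hu, c, hc, huc, huu, hcc⟩ : ∃ u ∈ P, ∃ c ∈ 𝒞(P), u * c = s ∧ u * u = 1 ∧ c * c = 1 := by
    obtain ⟨u, hu, c, hc, huc⟩ := (mem_sup_norm_l (cent_sub P)).1 hgt
    have h1 : Commute u c := mem_cent_iff.1 hc u hu
    have h2 : u * u * (c * c) = 1 := by rw [← hss, ← huc, ← h1.mul_mul_mul_comm]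
    have h3 : u * u ∈ centerOf P :=
      mem_centerOf.2
        ⟨mul_mem hu hu, by rw [eq_inv_of_mul_eq_one_left h2]; exact inv_mem (mul_mem hc hc)⟩
    have h4 : Odd (orderOf (u * u)) := by
      refine Invol.odd_orderOf_of_mem ?_ h3
      rwa [centerOf_eq_map, card_subtype]
    have h5 : (u * u) ^ orderOf (u * u) = 1 := pow_orderOf_eq_one _
    obtain ⟨k, hk⟩ := h4
    refine ⟨u ^ orderOf (u * u), pow_mem hu _, c ^ orderOf (u * u), pow_mem hc _, ?_, ?_, ?_⟩
    · rw [← h1.mul_pow, huc, hk, pow_succ, pow_mul, pow_two, hss, one_pow, one_mul]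
    · rw [← (Commute.refl u).mul_pow, h5]
    · rw [← (Commute.refl c).mul_pow, eq_inv_of_mul_eq_one_right h2, inv_pow, h5, inv_one]
  have hu1 : u ≠ 1 := fun h => hsC (by rw [← huc, h, one_mul]; exact hc)
  have hut : Commute u t := mem_cent_iff.1 htP u hu
  have hct : Commute c t := by
    have := hut.inv_left.mul_left (huc ▸ hst)
    rwa [inv_mul_cancel_left] at this
  have hPodd : ¬ (Nat.card P).Coprime 2 := fun h => Nat.not_even_iff_odd.2
    (Nat.coprime_two_right.1 h) (Invol.even_card_of_involution_mem hu (Invol.orderOf_eq_two hu1 huu))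
  set O := oddCore X with hO
  have hOn : ∀ H : Subgroup X, H ≤ 𝒩(O) := fun H => by rw [normalizer_eq_top]; exact le_top
  have hOc : (Nat.card O).Coprime 2 := Core.coprime_card_pPrimeCore 2 X
  have h1 : O ⊓ 𝒞[t] ≤ 𝒞(P) := by
    have hn : O ⊓ 𝒞[t] ≤ 𝒩(P) := fun x hx => hCt x (by
      rw [mem_cent1.1 hx.2, mul_inv_cancel_right]; exact htP)
    rcases Comp.qs_sub_normal hq (N := P ⊓ O) inf_le_left (normsGI le_rfl (hOn P)) with h | h
    · exact absurd (coprimeSg (inf_eq_left.1 h) hOc) hPodd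
    · refine commG1'.1 (Comp.commutator_eq_bot_of_perfect hperf (commG1.2 (le_trans ?_ h)))
      exact le_inf (commg_subr.2 hn) ((commSg P inf_le_left).trans (commg_subl.2 (hOn P)))
  have h2 : O ⊓ 𝒞[t] ≤ O ⊓ 𝒞[s] := fun x hx => by
    refine ⟨hx.1, mem_cent1.2 ?_⟩
    have hxu : Commute x u := (mem_cent_iff.1 (h1 hx) u hu).symm
    have hxt : Commute x t := mem_cent1.1 hx.2
    rw [← huc]
    rcases eq_of_rank_one hr hc htP hcc htt ht1 hct with h | h <;> rw [h]
    · exact hxu.mul_right (Commute.one_right x)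
    · exact hxu.mul_right hxt
  have h3 : O ⊓ 𝒞[t] = O ⊓ 𝒞[s] := by
    refine eq_of_le_card h2 (le_of_eq ?_)
    rw [← card_cj g (O ⊓ 𝒞[t]), cj_inf, cj_cent1, cj_eq_of_mem_norm (hOn ⊤ trivial)]
  have hs1 : s ≠ 1 := fun h => hsC (h ▸ one_mem _)
  have hne : t ≠ s := fun h => hsC (h ▸ htP)
  have hK := Invol.isKleinFour_four ht (Invol.orderOf_eq_two hs1 hss) hne hst.symm
  have h4 : O ≤ 𝒞[t * s] := by
    have h5 : O ⊓ 𝒞[t] ≤ 𝒞[t * s] := fun x hx =>
      mem_cent1.2 (Commute.mul_right (mem_cent1.1 hx.2) (mem_cent1.1 (h2 hx).2))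
    refine coprime_abelian_gen_cent1_le (A := closure {t, s})
      ⟨⟨fun x y => Subtype.ext (TwoGrp.comm_of_isKleinFour hK x.2 y.2)⟩⟩ IsKleinFour.not_isCyclic
      (hOn _) (by rw [hK.card_four]; exact Nat.Coprime.pow_right 2 hOc) fun a ha ha1 => ?_
    rcases (Invol.mem_closure_pair_of_commute htt hss hst.symm a).1 ha with h | h | h | h
    · exact absurd h ha1
    · rwa [h]
    · rwa [h, ← h3]
    · rw [h]; exact inf_le_right
  have hPO : P ≤ 𝒞(O) := by
    rcases Comp.qs_sub_normal hq (N := P ⊓ 𝒞(O)) inf_le_left (subcent_normal (hOn P)).norm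
      with h | h
    · exact inf_eq_left.1 h
    · exfalso
      have h5 : ⁅zpowers (t * s), P⁆ ≤ P ⊓ 𝒞(O) :=
        le_inf (commg_subr.2 (zpowers_le.2 (hTN (mul_mem htS hsT))))
          ((commSg P (zpowers_le.2 (sub_cent1.1 h4))).trans (commg_subl.2 (norms_cent (hOn P))))
      have h6 := commG1'.1 (Comp.commutator_eq_bot_of_perfect hperf (commG1.2 (h5.trans h)))
      exact hsC ((mul_mem_cancel_left htP).1 (zpowers_le.1 h6))
  refine ⟨commG1.2 hPO, fun L hL hPL _ => ?_⟩
  rcases (PComp.pc_isPQs hL).eq_or_commutator_le (S := L ⊓ 𝒞(O))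
    (PComp.subnIn_of_le_normalizer inf_le_left (subcent_normal (hOn L)).norm) with h | h
  · exact (PComp.pc_comp_iff_qs hL).1 ((PComp.pc_comp_iff hL).2 (commG1.2 (inf_eq_left.1 h)))
  · refine absurd (PComp.coprime_card_of_le_opOf (le_trans ?_ h)) hPodd
    exact hperf.ge.trans (commgSS (le_inf hPL hPO) hPL)

end Cfsg.Agent.S3153
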