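import Mathlib
import Cfsg.Statements.S3154
import Cfsg.Agent.Lib.Fusion.SemiEx
import Cfsg.Agent.Lib.CT.SL3
import Cfsg.Agent.Lib.SL2.Basic
import Cfsg.Agent.Lib.Push.QdF
import Cfsg.Agent.Lib.Coprime.Gaschutz
import Cfsg.Agent.Lib.Mathieu.L34
import Cfsg.Agent.Lib.Amalg.Base

set_option autoImplicit false

namespace Cfsg.Agent.S3154

open Subgroup Matrix MatrixGroups CfsgLib CfsgLib.Fusion CfsgLib.CT

section mat
variable {F : Type*} [Field F]

/-- the last column -/
def col (b c : F) : SL(3, F) := ut3 (0, b, c)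

theorem col_mul (b c b' c' : F) : col b c * col b' c' = col (b + b') (c + c') := by simp [col, ut3_mul]

theorem col_zero : col (0 : F) 0 = 1 := ut3_zero

theorem col_inj {b c b' c' : F} (h : col b c = col b' c') : b = b' ∧ c = c' := by simpa using ut3_injective h

/-- the transvections with a common axis -/
def E1 (F : Type*) [Field F] : Subgroup SL(3, F) where
  carrier := {g | ∃ b c, col b c = g}
  one_mem' := ⟨0, 0, col_zero⟩
  mul_mem' := by rintro _ _ ⟨b, c, rfl⟩ ⟨b', c', rfl⟩; exact ⟨_, _, (col_mul ..).symm⟩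
  inv_mem' := by
    rintro _ ⟨b, c, rfl⟩
    exact ⟨-b, -c, eq_inv_of_mul_eq_one_left (by rw [col_mul]; simp [col_zero])⟩

theorem emb_col (A : SL(2, F)) (b c : F) :
    emb0 A * col b c * (emb0 A)⁻¹ = col (A 1 0 * c + A 1 1 * b) (A 0 0 * c + A 0 1 * b) := by
  rw [mul_inv_eq_iff_eq_mul]
  ext i j
  fin_cases i <;> fin_cases j <;> simp [col, ut3_val, emb0_val, mul_apply, Fin.sum_univ_succ] <;> ring

/-- an element of `SL₂` -/
def mk2 (a b c d : F) (h : a * d - b * c = 1) : SL(2, F) := ⟨!![a, b; c, d], by rwa [det_fin_two_of]⟩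

theorem mk2_val (a b c d : F) (h : a * d - b * c = 1) : (mk2 a b c d h).1 = !![a, b; c, d] := rfl

/-- a scalar -/
def sc (r : F) (h : r ^ 3 = 1) : SL(3, F) := ⟨!![r, 0, 0; 0, r, 0; 0, 0, r], by simpa [det_fin_three, pow_succ] using h⟩

theorem sc_val (r : F) (h : r ^ 3 = 1) : (sc r h).1 = !![r, 0, 0; 0, r, 0; 0, 0, r] := rfl

theorem exists_emb {b c : F} (h : col b c ≠ 1) : ∃ A : SL(2, F), emb0 A * col 0 1 * (emb0 A)⁻¹ = col b c := by
  by_cases hc : c = 0
  · have hb : b ≠ 0 := fun hb => h (by rw [hb, hc, col_zero])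
    exact ⟨mk2 0 (-b⁻¹) b 0 (by simp [hb]), by simp [emb_col, mk2_val, hc]⟩
  · exact ⟨mk2 c 0 b c⁻¹ (by simp [hc]), by simp [emb_col, mk2_val]⟩

theorem center_iff {z : SL(3, F)} : z ∈ center SL(3, F) ↔ ∃ r : F, z.1 = !![r, 0, 0; 0, r, 0; 0, 0, r] := by
  rw [Matrix.SpecialLinearGroup.mem_center_iff]
  constructor
  · rintro ⟨r, -, h⟩
    exact ⟨r, by rw [← h]; ext i j; fin_cases i <;> fin_cases j <;> simp⟩
  · rintro ⟨r, h⟩
    refine ⟨r, ?_, by rw [h]; ext i j; fin_cases i <;> fin_cases j <;> simp⟩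
    have := z.2
    rw [h, det_fin_three] at this
    simpa [pow_succ] using this

theorem ut3_center {v : F × F × F} (h : ut3 v ∈ center SL(3, F)) : v = 0 := by
  obtain ⟨r, h⟩ := center_iff.1 h
  exact Prod.ext (congrFun (congrFun h 0) 1) (Prod.ext (congrFun (congrFun h 1) 2) (congrFun (congrFun h 0) 2))

theorem eq_one_of_center {z : SL(3, F)} (h : z ∈ center SL(3, F)) (h2 : z * z = 1) : z = 1 := by
  obtain ⟨r, h1, h⟩ := Matrix.SpecialLinearGroup.mem_center_iff.1 h
  have h3 : z ^ 3 = 1 := Subtype.ext ((Matrix.SpecialLinearGroup.coe_pow z 3).trans (by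
    rw [← h, ← map_pow]; exact (congrArg _ h1).trans (map_one _)))
  rwa [pow_succ, pow_two, h2, one_mul] at h3

theorem norm_E1 (h3 : ∀ d : F, d ≠ 0 → d ^ 3 = 1) {g : SL(3, F)} (h : ∀ b c, g * col b c * g⁻¹ ∈ E1 F) :
    ∃ z ∈ center SL(3, F), ∃ b c A, g = z * col b c * emb0 A := by
  have key : ∀ b c, g 2 0 * c + g 2 1 * b = 0 := fun b c => by
    obtain ⟨b', c', e⟩ := h b c
    have := congrArg (fun x : SL(3, F) => x.1 2 2) (eq_mul_inv_iff_mul_eq.1 e)
    simp [col, ut3_val, mul_apply, Fin.sum_univ_succ] at this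
    linear_combination -this
  have h0 : g 2 0 = 0 := by simpa using key 0 1
  have h1 : g 2 1 = 0 := by simpa using key 1 0
  have hd := g.2
  rw [det_fin_three] at hd
  change g 0 0 * g 1 1 * g 2 2 - g 0 0 * g 1 2 * g 2 1 - g 0 1 * g 1 0 * g 2 2 + g 0 1 * g 1 2 * g 2 0 +
    g 0 2 * g 1 0 * g 2 1 - g 0 2 * g 1 1 * g 2 0 = 1 at hd
  rw [h0, h1] at hd
  have d0 : g 2 2 ≠ 0 := fun e => by simp [e] at hd
  have d3 := h3 _ d0
  refine ⟨sc _ d3, center_iff.2 ⟨_, rfl⟩, g 2 2 ^ 2 * g 1 2, g 2 2 ^ 2 * g 0 2, mk2 (g 2 2 ^ 2 * g 0 0)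
    (g 2 2 ^ 2 * g 0 1) (g 2 2 ^ 2 * g 1 0) (g 2 2 ^ 2 * g 1 1) (by linear_combination (g 2 2 ^ 3) * hd + d3), ?_⟩
  ext i j
  fin_cases i <;> fin_cases j <;> simp [col, ut3_val, emb0_val, sc_val, mk2_val, mul_apply, Fin.sum_univ_succ, h0, h1,
    ← mul_assoc, ← pow_succ', d3]

theorem emb_eq_one {A : SL(2, F)} (h : ∀ b c, emb0 A * col b c * (emb0 A)⁻¹ = col b c) : A = 1 := by
  have h1 := col_inj ((emb_col A 0 1).symm.trans (h 0 1))
  have h2 := col_inj ((emb_col A 1 0).symm.trans (h 1 0))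
  ext i j
  fin_cases i <;> fin_cases j <;> simp_all

/-- an automorphism that interchanges the two maximal abelian subgroups of `U3` -/
def tau : SL(3, F) ≃* SL(3, F) where
  toFun g := (g⁻¹).transpose
  invFun g := (g⁻¹).transpose
  left_inv g := by
    apply Subtype.ext
    simp [SpecialLinearGroup.coe_transpose, SpecialLinearGroup.coe_inv, adjugate_transpose, adjugate_adjugate]
  right_inv g := by
    apply Subtype.ext
    simp [SpecialLinearGroup.coe_transpose, SpecialLinearGroup.coe_inv, adjugate_transpose, adjugate_adjugate]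
  map_mul' g h := by
    apply Subtype.ext
    simp [SpecialLinearGroup.coe_transpose, transpose_mul]

/-- a signed permutation matrix -/
def w0 : SL(3, F) := ⟨!![0, 0, -1; 0, 1, 0; 1, 0, 0], by simp [det_fin_three]⟩

/-- a signed permutation matrix -/
def w1 : SL(3, F) := ⟨!![1, 0, 0; 0, 0, -1; 0, 1, 0], by simp [det_fin_three]⟩

theorem w0_val : (w0 : SL(3, F)).1 = !![0, 0, -1; 0, 1, 0; 1, 0, 0] := rfl

theorem w1_val : (w1 : SL(3, F)).1 = !![1, 0, 0; 0, 0, -1; 0, 1, 0] := rfl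

theorem tau_col (a c : F) : w0 * tau (col a c) * w0⁻¹ = ut3 (a, 0, c) := by
  have : (col a c)⁻¹ = col (-a) (-c) := inv_eq_of_mul_eq_one_right (by rw [col_mul]; simp [col_zero])
  rw [mul_inv_eq_iff_eq_mul, show tau (col a c) = (col (-a) (-c)).transpose from congrArg Matrix.SpecialLinearGroup.transpose this]
  ext i j
  fin_cases i <;> fin_cases j <;>
    simp [col, w0_val, ut3_val, SpecialLinearGroup.coe_transpose, mul_apply, Fin.sum_univ_succ]

/-- the unipotent subgroup of `SL₂` -/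
def up : Multiplicative F →* SL(2, F) := MonoidHom.mk' (fun a => mk2 1 a.toAdd 0 1 (by simp))
  fun a b => by ext i j; fin_cases i <;> fin_cases j <;> simp [mk2_val, mul_apply, Fin.sum_univ_succ, add_comm]

theorem up_val (a : Multiplicative F) : (up a).1 = !![1, a.toAdd; 0, 1] := rfl

theorem w1_up (a : Multiplicative F) : w1 * emb0 (up a) * w1⁻¹ = col 0 a.toAdd := by
  rw [mul_inv_eq_iff_eq_mul]
  ext i j
  fin_cases i <;> fin_cases j <;> simp [col, w1_val, up_val, ut3_val, emb0_val, mul_apply, Fin.sum_univ_succ]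

end mat

section quot
variable {F : Type*} [Field F] {Y : Type*} [Group Y] {π : SL(3, F) →* Y}

theorem col_sq (h2 : (2 : F) = 0) (b c : F) : col b c * col b c = 1 := by
  rw [col_mul, ← two_mul, ← two_mul, h2, zero_mul, zero_mul, col_zero]

theorem col_comm (b c b' c' : F) : col b c * col b' c' = col b' c' * col b c := by
  rw [col_mul, col_mul, add_comm, add_comm c]

theorem pi_ut3 (hk : π.ker = center _) {v w : F × F × F} (h : π (ut3 v) = π (ut3 w)) : v = w := by
  have h1 : (ut3 v)⁻¹ * ut3 w ∈ center SL(3, F) := by rw [← hk, MonoidHom.mem_ker, map_mul, map_inv, h, inv_mul_cancel]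
  have h2 := h1
  rw [ut3_inv, ut3_mul] at h2
  rw [ut3_inv, ut3_mul, ut3_center h2] at h1
  apply ut3_injective
  rw [← inv_mul_eq_one, ut3_inv, ut3_mul, ut3_center h2]
  exact ut3_zero

theorem norm_map (h2 : (2 : F) = 0) (h3 : ∀ d : F, d ≠ 0 → d ^ 3 = 1) (hs : Function.Surjective π)
    (hk : π.ker = center _) {y : Y} (h : ∀ b c, y * π (col b c) * y⁻¹ ∈ (E1 F).map π) :
    ∃ b c A, y = π (col b c) * π (emb0 A) := by
  obtain ⟨g, rfl⟩ := hs y
  obtain ⟨z, hz, b, c, A, rfl⟩ := norm_E1 h3 (g := g) fun b c => by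
    obtain ⟨_, ⟨b', c', rfl⟩, e⟩ := h b c
    have h1 : (col b' c')⁻¹ * (g * col b c * g⁻¹) ∈ center SL(3, F) := by
      rw [← hk, MonoidHom.mem_ker, map_mul, map_inv, e, map_mul, map_mul, map_inv, inv_mul_cancel]
    refine ⟨b', c', inv_mul_eq_one.1 (eq_one_of_center h1 ?_)⟩
    have h4 : g * col b c * g⁻¹ * (g * col b c * g⁻¹) = 1 := by rw [conj_mul, col_sq h2, mul_one, mul_inv_cancel]
    rw [← mul_inv_cancel_left (col b' c') (g * col b c * g⁻¹)] at h4
    generalize (col b' c')⁻¹ * (g * col b c * g⁻¹) = z at h1 h4 ⊢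
    rwa [mul_assoc, ← mul_assoc z, ← mem_center_iff.1 h1, ← mul_assoc, ← mul_assoc, col_sq h2, one_mul] at h4
  exact ⟨b, c, A, by rw [map_mul, map_mul, MonoidHom.mem_ker.1 (hk ▸ hz), one_mul]⟩

theorem exists_pi [Fintype F] (hF : Fintype.card F = 4) (h2 : (2 : F) = 0) {E : Subgroup PSL(3, F)}
    (hE : ∀ a ∈ E, a ^ 2 = 1) (hc : Nat.card E = 16) :
    ∃ π : SL(3, F) →* PSL(3, F), Function.Surjective π ∧ π.ker = center _ ∧ E = (E1 F).map π := by
  set π := QuotientGroup.mk' (center SL(3, F))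
  have hk : π.ker = center _ := QuotientGroup.ker_mk' _
  have hs : Function.Surjective π := QuotientGroup.mk'_surjective _
  have c1 : Nat.card ((U3 F).map π) = 2 ^ 6 := by
    refine (Nat.card_congr (Equiv.ofBijective (fun v : F × F × F => (⟨π (ut3 v), _, ⟨v, rfl⟩, rfl⟩ : (U3 F).map π))
      ⟨fun v w h => pi_ut3 hk (congrArg Subtype.val h), ?_⟩)).symm.trans (by simp [hF])
    rintro ⟨_, _, ⟨v, rfl⟩, rfl⟩
    exact ⟨v, rfl⟩
  obtain ⟨l, -, hl⟩ := Amalg.exists_conj_le (L := ⊤) (Q := E) le_top c1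
    (by rw [card_top, Mathieu.card_psl3_of_card hF]; norm_num) le_top (IsPGroup.of_card (n := 4) hc)
  have key : ∀ σ : SL(3, F) ≃* SL(3, F), (∀ a ∈ E, l * a * l⁻¹ ∈ (E1 F).map (π.comp σ.toMonoidHom)) →
      ∃ π : SL(3, F) →* PSL(3, F), Function.Surjective π ∧ π.ker = center _ ∧ E = (E1 F).map π := fun σ h => by
    have hk' : (((MulAut.conj l⁻¹).toMonoidHom.comp π).comp σ.toMonoidHom).ker = center _ := by
      ext x
      refine Iff.trans ?_ (show σ x ∈ center SL(3, F) ↔ x ∈ center SL(3, F) from MulEquivClass.apply_mem_center_iff σ)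
      refine Iff.trans ?_ (SetLike.ext_iff.1 hk (σ x))
      exact (MulAut.conj l⁻¹).map_eq_one_iff
    refine ⟨_, ((MulAut.conj l⁻¹).surjective.comp hs).comp σ.surjective, hk', eq_of_le_of_card_ge (fun a ha => ?_) ?_⟩
    · obtain ⟨x, hx, e⟩ := h a ha
      exact ⟨x, hx, by simp [show π (σ x) = _ from e, mul_assoc]⟩
    · refine (Nat.card_le_card_of_surjective (fun v : F × F => (⟨_, _, ⟨v.1, v.2, rfl⟩, rfl⟩ : (E1 F).map _)) ?_).trans
        (by simp [hF, hc])
      rintro ⟨_, _, ⟨b, c, rfl⟩, rfl⟩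
      exact ⟨(b, c), rfl⟩
  have sq : ∀ a ∈ E, ∀ v, π (ut3 v) = l * a * l⁻¹ → v.1 * v.2.1 = 0 := fun a ha v e => by
    have : π (ut3 v * ut3 v) = π (ut3 (0, 0, 0)) := by
      rw [map_mul, e, conj_mul, ← pow_two, hE a ha, ut3_zero, map_one, mul_one, mul_inv_cancel]
    rw [ut3_mul] at this
    have := congrArg (fun v => v.2.2) (pi_ut3 hk this)
    simpa [← two_mul, h2] using this
  by_cases h : ∀ a ∈ E, ∀ v, π (ut3 v) = l * a * l⁻¹ → v.1 = 0
  · refine key (MulEquiv.refl _) fun a ha => ?_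
    obtain ⟨_, ⟨v, rfl⟩, e⟩ := hl a ha
    exact ⟨_, ⟨v.2.1, v.2.2, rfl⟩, by rw [← e, col, ← h a ha v e]; rfl⟩
  · push Not at h
    obtain ⟨a', ha', w, e', hw⟩ := h
    refine key (tau.trans (MulAut.conj w0)) fun a ha => ?_
    obtain ⟨_, ⟨v, rfl⟩, e⟩ := hl a ha
    have h1 := sq a ha v e
    have h3 := (mul_eq_zero.1 (sq a' ha' w e')).resolve_left hw
    have h4 := sq _ (E.mul_mem ha ha') _ (by rw [← conj_mul, ← e, ← e', ← map_mul, ut3_mul])
    simp only [h3, add_zero, add_mul, h1, zero_add, mul_eq_zero, hw, false_or] at h4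
    exact ⟨_, ⟨v.1, v.2.2, rfl⟩, by rw [← e]; exact congrArg π ((tau_col _ _).trans (by rw [← h4]))⟩

end quot

theorem split {W Q : Type*} [Group W] [Finite W] [Group Q] (g : W →* Q) (hs : Function.Surjective g)
    (hZ : g.ker ≤ center W) (S : Subgroup Q) (hS : Odd S.index) (hU : ∀ u ∈ S.comap g, u * u = 1) :
    ∃ C : Subgroup W, IsComplement' g.ker C := by
  have hc : ∀ {u v : W}, u ∈ S.comap g → v ∈ S.comap g → u * v = v * u := fun {u v} hu hv => by
    rw [← inv_eq_of_mul_eq_one_right (hU _ (mul_mem hu hv)), _root_.mul_inv_rev, inv_eq_of_mul_eq_one_right (hU u hu),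
      inv_eq_of_mul_eq_one_right (hU v hv)]
  obtain ⟨A, -, h1, h2⟩ := Push.exists_compl_of_elemAb (p := 2) (A := S.comap g) g.ker
    ⟨⟨⟨fun u v => Subtype.ext (hc u.2 v.2)⟩⟩, fun u hu => by rw [pow_two, hU u hu]⟩
  have : IsMulCommutative g.ker := ⟨⟨fun u v => Subtype.ext (mem_center_iff.1 (hZ v.2) u)⟩⟩
  rw [inf_eq_right.2 (ker_le_comap g S), sup_comm] at h2
  refine Coprime.gaschutz_exists ?_ h1 h2
  rw [index_comap_of_surjective _ hs]
  obtain ⟨n, hn⟩ := IsPGroup.iff_card.1 (show IsPGroup 2 g.ker from fun u =>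
    ⟨1, Subtype.ext (by rw [pow_one, pow_two]; exact hU _ (ker_le_comap g S u.2))⟩)
  exact hn ▸ (Nat.coprime_two_left.2 hS).pow_left n

theorem exists_ne {F : Type*} [Field F] [Fintype F] (hF : Fintype.card F = 4) : ∃ d : F, d ≠ 0 ∧ d ≠ 1 := by
  classical
  by_contra! h
  have h1 := Finset.card_le_card (s := Finset.univ) (t := ({0, 1} : Finset F)) fun d _ => by
    by_cases h0 : d = 0
    · simp [h0]
    · simp [h d h0]
  have h2 := Finset.card_le_two (a := (0 : F)) (b := 1)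
  rw [Finset.card_univ] at h1
  omega

theorem main {X Y F : Type*} [Group X] [Finite X] [Group Y] [Field F] [Fintype F] (hF : Fintype.card F = 4)
    (h2 : (2 : F) = 0) (hZ : ∀ z ∈ center X, z ^ 2 = 1) {f : X →* Y} (hf : Function.Surjective f)
    (kf : f.ker = center X) {π : SL(3, F) →* Y} (hs : Function.Surjective π) (hk : π.ker = center _) {H : Subgroup X}
    (hH : H = ((E1 F).map π).comap f) : (∀ a ∈ H, a * a = 1) ∧ centralizer (H : Set X) ≤ H ∧
      ∃ C : Subgroup X, C ≤ normalizer (H : Set X) ∧ C ⊓ H = ⊥ ∧ H ⊔ C = normalizer (H : Set X) ∧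
        Nonempty (C ≃* PSL(2, F)) := by
  have h3 : ∀ d : F, d ≠ 0 → d ^ 3 = 1 := fun d hd => by simpa [hF] using FiniteField.pow_card_sub_one_eq_one d hd
  have mem : ∀ {x}, x ∈ H ↔ ∃ b c, π (col b c) = f x := fun {x} => by
    rw [hH]; exact ⟨by rintro ⟨_, ⟨b, c, rfl⟩, e⟩; exact ⟨b, c, e⟩, fun ⟨b, c, e⟩ => ⟨_, ⟨b, c, rfl⟩, e⟩⟩
  have zz : ∀ {x}, f x = 1 → x ∈ center X := fun h => kf ▸ h
  have inj : ∀ {b c b' c' : F}, π (col b c) = π (col b' c') → b = b' ∧ c = c' := fun h => by simpa using pi_ut3 hk h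
  have lift : ∀ b c, ∃ x, π (col b c) = f x := fun b c => (hf _).imp fun _ => Eq.symm
  have sq : ∀ a ∈ H, a * a = 1 := by
    obtain ⟨x, hx⟩ := lift 0 1
    have hc : x * x ∈ center X := zz (by rw [map_mul, ← hx, ← map_mul, col_sq h2, map_one])
    have k1 : ∀ {y b c}, π (col b c) = f y → ¬ (b = 0 ∧ c = 0) → y * y = x * x := fun {y b c} e h => by
      obtain ⟨A, hA⟩ := exists_emb (b := b) (c := c) fun e => h (col_inj (e.trans col_zero.symm))
      obtain ⟨n, hn⟩ := hf (π (emb0 A))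
      have h4 := zz (x := (n * x * n⁻¹)⁻¹ * y) (by
        rw [map_mul, map_inv, map_mul, map_mul, map_inv, hn, ← hx, ← map_inv, ← map_mul, ← map_mul, hA, e, inv_mul_cancel])
      rw [← mul_inv_cancel_left (n * x * n⁻¹) y]
      generalize (n * x * n⁻¹)⁻¹ * y = z at h4
      rw [mul_assoc, ← mul_assoc z, ← mem_center_iff.1 h4, mul_assoc _ z, ← pow_two, hZ _ h4, mul_one, conj_mul,
        mem_center_iff.1 hc, mul_inv_cancel_right]
    have c2 : x * x * (x * x) = 1 := by rw [← pow_two, hZ _ hc]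
    have k2 : ∀ {y y' b c b' c'}, π (col b c) = f y → π (col b' c') = f y' → ¬ (b = 0 ∧ c = 0) → ¬ (b' = 0 ∧ c' = 0) →
        ¬ (b + b' = 0 ∧ c + c' = 0) → y' * y = x * x * (y * y') := fun {y y' b c b' c'} e e' h h' h'' => by
      have a1 := k1 e h
      have a2 := k1 e' h'
      have a3 := k1 (y := y * y') (by rw [map_mul, ← e, ← e', ← map_mul, col_mul]) h''
      have a4 := mem_center_iff.1 hc
      generalize x * x = c at *
      apply mul_left_cancel (a := y)
      apply mul_right_cancel (b := y')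
      rw [← mul_assoc, mul_assoc _ y, a3, ← mul_assoc, a4, mul_assoc c, mul_assoc c, ← mul_assoc y, a1, mul_assoc, a2,
        c2, mul_one]
    obtain ⟨d, d0, d1⟩ := exists_ne hF
    obtain ⟨y, hy⟩ := lift 1 0
    obtain ⟨u, hu⟩ := lift d 0
    have d2 : 1 + d ≠ 0 := fun e => d1 (by linear_combination e - h2)
    have a1 := k2 hx hy (by simp) (by simp) (by simp)
    have a2 := k2 hx hu (by simp) (by simp [d0]) (by simp)
    have a3 := k2 hx (y' := y * u) (by rw [map_mul, ← hy, ← hu, ← map_mul, col_mul]) (by simp) (by simp [d2]) (by simp)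
    have a4 : x * x = 1 := by
      rw [mul_assoc, a2, ← mul_assoc y, mem_center_iff.1 hc, mul_assoc, ← mul_assoc y, a1, ← mul_assoc, ← mul_assoc, c2,
        one_mul, mul_assoc] at a3
      exact (right_eq_mul.1 a3)
    intro a ha
    obtain ⟨b, c, e⟩ := mem.1 ha
    by_cases h : b = 0 ∧ c = 0
    · rw [← pow_two]; exact hZ _ (zz (by rw [← e, h.1, h.2, col_zero, map_one]))
    · rw [k1 e h, a4]
  have nrm : ∀ n ∈ normalizer (H : Set X), ∃ b c A, f n = π (col b c) * π (emb0 A) := fun n hn =>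
    norm_map h2 h3 hs hk fun b c => by
      obtain ⟨x, hx⟩ := lift b c
      have := (mem_normalizer_iff.1 hn x).1 (mem.2 ⟨b, c, hx⟩)
      rwa [hH, mem_comap, map_mul, map_mul, map_inv, ← hx] at this
  have triv : ∀ {A b c}, π (emb0 A) = π (col b c) → A = 1 := fun {A b c} e => emb_eq_one fun b' c' => by
    have : π (emb0 A * col b' c' * (emb0 A)⁻¹) = π (col b' c') := by
      rw [map_mul, map_mul, map_inv, e, ← map_mul, col_comm, map_mul, mul_inv_cancel_right]
    rw [emb_col] at this ⊢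
    rw [(inj this).1, (inj this).2]
  refine ⟨sq, fun n hn => ?_, ?_⟩
  · obtain ⟨b, c, A, e⟩ := nrm n (centralizer_le_normalizer _ hn)
    obtain rfl : A = 1 := emb_eq_one fun b' c' => by
      obtain ⟨x, hx⟩ := lift b' c'
      have h4 := congrArg f (hn x (mem.2 ⟨_, _, hx⟩))
      rw [map_mul, map_mul, e, ← hx, ← mul_assoc, ← map_mul, col_comm, map_mul, mul_assoc, mul_assoc, mul_right_inj,
        eq_comm, ← mul_inv_eq_iff_eq_mul, ← map_inv, ← map_mul, ← map_mul, emb_col] at h4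
      rw [emb_col, (inj h4).1, (inj h4).2]
    exact mem.2 ⟨b, c, by simpa using e.symm⟩
  have hj : Function.Injective (π.comp emb0) := (injective_iff_map_eq_one _).2 fun A h =>
    triv (h.trans (by rw [col_zero, map_one]))
  let L := (π.comp emb0).range.comap f
  let g : L →* SL(2, F) := (MonoidHom.ofInjective hj).symm.toMonoidHom.comp (f.subgroupComap _)
  have hg : ∀ l : L, π (emb0 (g l)) = f l := fun l =>
    congrArg Subtype.val ((MonoidHom.ofInjective hj).apply_symm_apply (f.subgroupComap _ l))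
  have gs : Function.Surjective g := fun A => by
    obtain ⟨x, hx⟩ := hf (π (emb0 A))
    exact ⟨⟨x, A, hx.symm⟩, hj ((hg _).trans hx)⟩
  have gz : ∀ l ∈ g.ker, (l : X) ∈ center X := fun l hl => zz (by rw [← hg, MonoidHom.mem_ker.1 hl, map_one, map_one])
  obtain ⟨C, hC⟩ := split g gs (fun l hl => mem_center_iff.2 fun y => Subtype.ext (mem_center_iff.1 (gz l hl) y))
    up.range (by
      have h4 := (up (F := F)).range.card_mul_index
      rw [Classical.sl2_card, ← Nat.card_congr (MonoidHom.ofInjective (f := up (F := F)) fun a b e =>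
        Multiplicative.toAdd.injective (congrArg (fun g : SL(2, F) => g.1 0 1) e)).toEquiv, hF] at h4
      simp only [Nat.card_eq_fintype_card, Fintype.card_multiplicative, hF] at h4
      exact ⟨7, by omega⟩) fun u ⟨a, ha⟩ => Subtype.ext (by
      obtain ⟨w, hw⟩ := hf (π w1)
      have := sq (w * u * w⁻¹) (mem.2 ⟨0, a.toAdd, by
        rw [map_mul, map_mul, map_inv, hw, ← hg, ← ha, ← w1_up, map_mul, map_mul, map_inv]⟩)
      rwa [conj_mul, conj_eq_one_iff] at this)
  have LN : L ≤ normalizer (H : Set X) := fun l ⟨A, hA⟩ => mem_normalizer_fintype fun x hx => by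
    obtain ⟨b, c, e⟩ := mem.1 hx
    exact mem.2 ⟨_, _, by rw [← emb_col A b c, map_mul, map_mul, map_inv, map_mul, map_mul, map_inv, e, ← hA]; rfl⟩
  refine ⟨C.map L.subtype, (map_subtype_le C).trans LN, eq_bot_iff.2 ?_, le_antisymm
    (sup_le le_normalizer ((map_subtype_le C).trans LN)) fun n hn => ?_, ⟨(C.equivMapOfInjective _ L.subtype_injective).symm.trans
      (hC.symm.QuotientMulEquiv.symm.trans ((QuotientGroup.quotientKerEquivOfSurjective g gs).trans
        (QuotientGroup.quotientBot.symm.trans (QuotientGroup.quotientMulEquivOfEq (SL2.center_eq_bot_of_two h2).symm))))⟩⟩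
  · rintro _ ⟨⟨c, hc, rfl⟩, h⟩
    obtain ⟨b, d, e⟩ := mem.1 h
    exact congrArg Subtype.val (disjoint_def.1 hC.disjoint (triv ((hg c).trans e.symm)) hc)
  · obtain ⟨b, c, A, e⟩ := nrm n hn
    obtain ⟨x, hx⟩ := lift b c
    obtain ⟨⟨z, y⟩, e', -⟩ := hC.existsUnique ⟨x⁻¹ * n, A, by rw [map_mul, map_inv, e, hx, inv_mul_cancel_left]; rfl⟩
    rw [← mul_inv_cancel_left x n, ← show (z : L) * (y : L) = x⁻¹ * n from congrArg Subtype.val e']
    exact mul_mem (mem_sup_left (mem.2 ⟨b, c, hx⟩)) (mul_mem (mem_sup_left (mem.2 ⟨0, 0, by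
      rw [col_zero, map_one, ← hg, MonoidHom.mem_ker.1 z.2, map_one, map_one]⟩)) (mem_sup_right ⟨y, y.2, rfl⟩))

open Cfsg in
/-- Let X be a finite quasisimple group whose centre is an elementary abelian 2-group and whose central quotient is isomorphic to the projective special linear group of dimension 3 over the field with 4 elements. Let T be a Sylow 2-subgroup of X and H ≠ K subgroups of T containing the centre Z(X) whose images in X/Z(X) are elementary abelian of order 16 (the two such subgroups of a Sylow 2-subgroup of the quotient). Then H and K are elementary abelian, H ∩ K is the centre of the subgroup they generate, and each of N_X(H), N_X(K) is a split extension of H, respectively K, by the projective special linear group of dimension 2 over the field with 4 elements (there is a complement isomorphic to that group). -/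
theorem result {X : Type*} [Group X] [Finite X] (hq : Cfsg.IsQuasisimple X) (hZ : Cfsg.IsElementaryAbelian 2 (Subgroup.center X))
    {F : Type*} [Field F] [Fintype F] (hF : Fintype.card F = 4) (hXL : Nonempty ((X ⧸ Subgroup.center X) ≃* Matrix.ProjectiveSpecialLinearGroup (Fin 3) F))
    (T : Sylow 2 X) (H K : Subgroup X) (hHK : H ≠ K) (hHT : H ≤ T) (hKT : K ≤ T) (hZH : Subgroup.center X ≤ H) (hZK : Subgroup.center X ≤ K)
    (hH : Cfsg.IsElementaryAbelian 2 (H.map (QuotientGroup.mk' (Subgroup.center X))) ∧ Nat.card ↥(H.map (QuotientGroup.mk' (Subgroup.center X))) = 16)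
    (hK : Cfsg.IsElementaryAbelian 2 (K.map (QuotientGroup.mk' (Subgroup.center X))) ∧ Nat.card ↥(K.map (QuotientGroup.mk' (Subgroup.center X))) = 16) :
    Cfsg.IsElementaryAbelian 2 H ∧ Cfsg.IsElementaryAbelian 2 K ∧
      H ⊓ K = (Subgroup.center ↥(H ⊔ K)).map (H ⊔ K).subtype ∧
      (∃ C : Subgroup X, C ≤ Subgroup.normalizer (H : Set X) ∧ C ⊓ H = ⊥ ∧ H ⊔ C = Subgroup.normalizer (H : Set X) ∧
        Nonempty (↥C ≃* Matrix.ProjectiveSpecialLinearGroup (Fin 2) F)) ∧
      (∃ C : Subgroup X, C ≤ Subgroup.normalizer (K : Set X) ∧ C ⊓ K = ⊥ ∧ K ⊔ C = Subgroup.normalizer (K : Set X) ∧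
        Nonempty (↥C ≃* Matrix.ProjectiveSpecialLinearGroup (Fin 2) F)) := by
  obtain ⟨e⟩ := hXL
  have h2 : (2 : F) = 0 := by
    have := FiniteField.cast_card_eq_zero F
    rw [hF] at this
    exact pow_eq_zero_iff (n := 2) (by omega) |>.1 (by rw [← this]; norm_num)
  set q := QuotientGroup.mk' (Subgroup.center X)
  have key : ∀ H : Subgroup X, center X ≤ H → IsElementaryAbelian 2 (H.map q) ∧ Nat.card (H.map q) = 16 →
      IsElementaryAbelian 2 H ∧ centralizer (H : Set X) ≤ H ∧ ∃ C : Subgroup X, C ≤ normalizer (H : Set X) ∧ C ⊓ H = ⊥ ∧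
        H ⊔ C = normalizer (H : Set X) ∧ Nonempty (C ≃* PSL(2, F)) := fun H hZH hH => by
    have kf : (e.toMonoidHom.comp q).ker = center X := by
      rw [← MonoidHom.comap_ker, (MonoidHom.ker_eq_bot_iff _).2 e.injective, MonoidHom.comap_bot, QuotientGroup.ker_mk']
    obtain ⟨π, hs, hk, hE⟩ := exists_pi hF h2 (E := H.map (e.toMonoidHom.comp q)) (by
      rintro _ ⟨a, ha, rfl⟩
      rw [MonoidHom.comp_apply, ← map_pow, hH.1.2 _ ⟨a, ha, rfl⟩, map_one])
      (by rw [← Subgroup.map_map, card_map_of_injective e.injective, hH.2])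
    obtain ⟨h3, h4⟩ := main hF h2 hZ.2 (e.surjective.comp (QuotientGroup.mk'_surjective _)) kf hs hk (H := H)
      (by rw [← hE, comap_map_eq_self (kf.le.trans hZH)])
    exact ⟨⟨⟨⟨fun u v => Subtype.ext (by
      rw [coe_mul, ← inv_eq_of_mul_eq_one_right (h3 _ (mul_mem u.2 v.2)), _root_.mul_inv_rev,
        inv_eq_of_mul_eq_one_right (h3 _ u.2), inv_eq_of_mul_eq_one_right (h3 _ v.2), coe_mul])⟩⟩,
      fun a ha => by rw [pow_two, h3 a ha]⟩, h4⟩
  obtain ⟨a1, a2, a3⟩ := key H hZH hH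
  obtain ⟨b1, b2, b3⟩ := key K hZK hK
  refine ⟨a1, b1, le_antisymm (fun x hx => ?_) ?_, a3, b3⟩
  · have : H ⊔ K ≤ centralizer {x} := sup_le
      (fun u hu => mem_centralizer_singleton_iff.2 (congrArg Subtype.val (a1.1.1.1 ⟨u, hu⟩ ⟨x, hx.1⟩)))
      fun u hu => mem_centralizer_singleton_iff.2 (congrArg Subtype.val (b1.1.1.1 ⟨u, hu⟩ ⟨x, hx.2⟩))
    exact ⟨⟨x, mem_sup_left hx.1⟩, mem_center_iff.2 fun y => Subtype.ext (mem_centralizer_singleton_iff.1 (this y.2)), rfl⟩
  · rintro _ ⟨x, hx, rfl⟩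
    exact ⟨a2 fun u hu => congrArg Subtype.val (mem_center_iff.1 hx ⟨u, mem_sup_left hu⟩),
      b2 fun u hu => congrArg Subtype.val (mem_center_iff.1 hx ⟨u, mem_sup_right hu⟩)⟩

end Cfsg.Agent.S3154
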