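import Cfsg.Statements.S3155
import Mathlib

set_option autoImplicit false
open Cfsg

namespace Cfsg.Agent.S3155


/-- Let B be the direct product of three cyclic groups of order 4. Then the automorphism of B inverting every element is not the square of any automorphism of B. -/
theorem result {B : Type*} [CommGroup B] [Finite B] (hB : Nonempty (B ≃* Multiplicative (ZMod 4 × ZMod 4 × ZMod 4)))
    (τ : B ≃* B) : τ.trans τ ≠ MulEquiv.inv B := by
  intro h
  obtain ⟨e⟩ := hB
  let V := ZMod 4 × ZMod 4 × ZMod 4
  let σ : Multiplicative V ≃* Multiplicative V := e.symm.trans (τ.trans e)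
  have hσ : ∀ v : Multiplicative V, σ (σ v) = v⁻¹ := by
    intro v
    have := congrArg (fun f : B ≃* B => f (e.symm v)) h
    simp only [MulEquiv.trans_apply, MulEquiv.inv_apply] at this
    simp only [σ, MulEquiv.trans_apply, MulEquiv.symm_apply_apply, this, map_inv,
      MulEquiv.apply_symm_apply]
  let f : V →+ V := 
    { toFun := fun v => Multiplicative.toAdd (σ (Multiplicative.ofAdd v))
      map_zero' := by simp
      map_add' := by intro a b; simp [ofAdd_add] }
  let g : V →ₗ[ZMod 4] V := f.toZModLinearMap 4
  have hg : g ∘ₗ g = (-1 : ZMod 4) • LinearMap.id := by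
    refine LinearMap.ext fun v => ?_
    simp [g, f, hσ]
  have hd := congrArg LinearMap.det hg
  rw [LinearMap.det_comp, LinearMap.det_smul, LinearMap.det_id] at hd
  have hr : Module.finrank (ZMod 4) V = 3 := by
    haveI : Nontrivial (ZMod 4) := ⟨⟨0, 1, by decide⟩⟩
    simp [V, Module.finrank_prod]
  rw [hr] at hd
  generalize LinearMap.det g = d at hd
  revert d
  decide

end Cfsg.Agent.S3155
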