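import Cfsg.Statements.S3156
import Cfsg.Agent.Lib.Unitary.UTAut

set_option autoImplicit false
open Cfsg

namespace Cfsg.Agent.S3156

/-- If a finite group T is isomorphic to a Sylow 2-subgroup of the projective special unitary group of dimension 3 with parameter 4 (realised over the field with 16 elements), then no subgroup of the automorphism group of T is isomorphic to the symmetric group of degree 3. -/
theorem result {T : Type*} [Group T] [Finite T] (hT : (∃ (F : Type) (_ : Field F) (_ : Fintype F), Fintype.card F = 16 ∧ ∃ S : Sylow 2 (Cfsg.PSU 3 F 4), Nonempty (T ≃* ↥(S : Subgroup (Cfsg.PSU 3 F 4))))) (H : Subgroup (MulAut T)) : ¬ Nonempty (↥H ≃* Equiv.Perm (Fin 3)) := by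
  obtain ⟨F, _, _, hF, S, ⟨e0⟩⟩ := hT
  have : Fact (Fintype.card F = 4 ^ 2) := ⟨hF⟩
  have h2 : (2 : F) = 0 := CfsgLib.Unitary.two_eq_zero_of_card (n := 4) hF
  obtain ⟨e1⟩ := CfsgLib.Unitary.sylow_PSU_iso h2 S
  rintro ⟨f⟩
  let φ : Equiv.Perm (Fin 3) →* MulAut (CfsgLib.Unitary.UT F 4) :=
    (MulAut.congr (e0.trans e1)).toMonoidHom.comp (H.subtype.comp f.symm.toMonoidHom)
  have hφ : Function.Injective φ :=
    (MulAut.congr (e0.trans e1)).injective.comp (H.subtype_injective.comp f.symm.injective)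
  have e3 : φ (finRotate 3) * φ (finRotate 3) * φ (finRotate 3) = 1 := by
    rw [← map_mul, ← map_mul, ← map_one φ]; exact congrArg φ (by decide)
  have e4 : φ (Equiv.swap 0 1) * φ (Equiv.swap 0 1) = 1 := by
    rw [← map_mul, ← map_one φ]; exact congrArg φ (by decide)
  have e5 : φ (Equiv.swap 0 1) * φ (finRotate 3) =
      φ (finRotate 3) * φ (finRotate 3) * φ (Equiv.swap 0 1) := by
    rw [← map_mul, ← map_mul, ← map_mul]; exact congrArg φ (by decide)
  have e6 : φ (finRotate 3) * φ (finRotate 3) ≠ 1 := by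
    rw [← map_mul, ← map_one φ]; exact fun h => absurd (hφ h) (by decide)
  generalize φ (finRotate 3) = r at e3 e5 e6
  generalize φ (Equiv.swap 0 1) = s at e4 e5
  obtain ⟨d, σ, h3, -⟩ := CfsgLib.Unitary.UT.exists_semilinear h2 r
  obtain ⟨c, τ, h4, h5, -⟩ := CfsgLib.Unitary.UT.aut_of_sq h2 (α := s)
    (by rw [e4]; exact Subgroup.one_mem _)
  have h6 : ∀ x, (d : F) * σ (d * σ (d * σ x)) = x := by
    intro x
    obtain ⟨u, rfl⟩ := CfsgLib.Unitary.UT.exists_X (q := 4) x
    have := congrArg (fun γ : MulAut (CfsgLib.Unitary.UT F 4) => (γ u).X) e3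
    simpa only [MulAut.mul_apply, h3, MulAut.one_apply] using this
  have h7 : σ ^ 3 = 1 := RingEquiv.ext fun x => by
    have h8 := h6 x
    have h9 := h6 1
    simp only [map_mul, map_one, mul_one] at h8 h9
    change σ (σ (σ x)) = x
    linear_combination h8 - σ (σ (σ x)) * h9
  have : Fact (Nat.Prime 2) := ⟨Nat.prime_two⟩
  have h8 : σ ^ 4 = 1 := by
    rw [← CfsgLib.ClAut.card_fieldAut (p := 2) (f := 4) hF]; exact pow_card_eq_one'
  have h9 : σ = 1 := by rw [pow_succ, h7, one_mul] at h8; exact h8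
  subst h9
  have h10 : (d : F) * (d * d) = 1 := by
    have := h6 1
    simpa using this
  have h11 := h5 d (by linear_combination (d : F) * h10)
  obtain ⟨u, hu⟩ := CfsgLib.Unitary.UT.exists_X (q := 4) (1 : F)
  have h12 := congrArg (fun γ : MulAut (CfsgLib.Unitary.UT F 4) => (γ u).X) e5
  have h13 : ∀ v, (r v).X = d * v.X := h3
  simp only [MulAut.mul_apply, h13, h4, hu, map_one, mul_one, h11] at h12
  have hc : c ≠ 0 := by
    intro h
    have := (CfsgLib.Unitary.UT.aut_X_eq_zero_iff s u).1 (by rw [h4, h, zero_mul])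
    exact one_ne_zero (hu.symm.trans this)
  have h14 : (d : F) = 1 := mul_left_cancel₀ (mul_ne_zero hc d.ne_zero) (by linear_combination -h12)
  exact e6 (CfsgLib.Unitary.UT.cenAut_mul_self h2 fun v => by rw [h13, h14, one_mul])

end Cfsg.Agent.S3156
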