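import Cfsg.Statements.S3157
import Cfsg.Agent.Lib.TwoGrp2.Fpf64

set_option autoImplicit false
open Cfsg

namespace Cfsg.Agent.S3157

/-- Let T be a non-abelian group of order 64 admitting automorphisms ρ of order 3 and x of order 2 with x ρ x⁻¹ = ρ⁻¹ (so they generate a symmetric group of degree 3), where ρ fixes only the identity. Then T is isomorphic to a Sylow 2-subgroup of the projective special linear group of dimension 3 over the field with 4 elements, and the subgroup of fixed points of x is dihedral of order 8 or quaternion of order 8. -/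
theorem result {T : Type*} [Group T] [Finite T] (hT : Nat.card T = 64) (hna : ¬ IsMulCommutative T) (ρ x : MulAut T) (hρ : orderOf ρ = 3) (hx : orderOf x = 2)
    (hxr : x * ρ * x⁻¹ = ρ⁻¹) (hfp : ∀ y : T, ρ y = y → y = 1) (C : Subgroup T) (hC : ∀ y : T, y ∈ C ↔ x y = y) :
    (∃ (F : Type) (_ : Field F) (_ : Fintype F), Fintype.card F = 4 ∧
        ∃ S : Sylow 2 (Matrix.ProjectiveSpecialLinearGroup (Fin 3) F), Nonempty (T ≃* ↥(S : Subgroup (Matrix.ProjectiveSpecialLinearGroup (Fin 3) F)))) ∧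
      (Nonempty (↥C ≃* DihedralGroup 4) ∨ Nonempty (↥C ≃* QuaternionGroup 2)) := by
  have h3 : ρ * ρ * ρ = 1 := by rw [← pow_three', ← hρ, pow_orderOf_eq_one]
  have hx2 : x * x = 1 := by rw [← sq, ← hx, pow_orderOf_eq_one]
  have hxρ : x * ρ = ρ * ρ * x := by rw [eq_inv_of_mul_eq_one_left h3, ← hxr, inv_mul_cancel_right]
  have := Fintype.ofFinite (GaloisField 2 2)
  have hF : Nat.card (GaloisField 2 2) = 4 := GaloisField.card 2 2 two_ne_zero
  obtain ⟨⟨π, ι, h⟩, h'⟩ := CfsgLib.TwoGrp2.f3_inv (IsPGroup.of_card (n := 6) hT) hfp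
    (fun y => DFunLike.congr_fun h3 y) hT (by
      by_contra! h
      exact hna ⟨⟨h⟩⟩) (fun y => DFunLike.congr_fun hx2 y) (fun y => DFunLike.congr_fun hxρ y) hC hF
  obtain ⟨f, -⟩ := h.equiv CfsgLib.TwoGrp2.ext_U3 (AddMonoidHom.mk' (fun v => AddMonoidHom.mk' (fun w => v.1 * w.2)
    fun _ _ => by simp; ring) fun _ _ => by ext : 1; simp; ring) fun _ => rfl
  exact ⟨⟨GaloisField 2 2, inferInstance, inferInstance, by rw [← hF, Nat.card_eq_fintype_card],
    Classical.arbitrary _, (CfsgLib.TwoGrp2.u3_equiv_sylow _).map f.trans⟩, h'⟩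

end Cfsg.Agent.S3157
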