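import Cfsg.Statements.S3162
import Cfsg.Agent.Lib.Unitary.UTAut

set_option autoImplicit false
open Cfsg

namespace Cfsg.Agent.S3162

/-- Let S be a Sylow 2-subgroup of the special unitary group of dimension 3 with parameter q = 2^n (n ≥ 2; realised over the field with q² elements). Then the largest normal 2-subgroup of the automorphism group of S is elementary abelian of order 2^(2n²), and the automorphism group has order 2^(2n²) · 2n(q² − 1). -/
theorem result {S : Type*} [Group S] [Finite S] (n : ℕ) (hn : 2 ≤ n) {F : Type*} [Field F] [Fintype F] (hF : Fintype.card F = 4 ^ n)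
    (P : Sylow 2 ↥(Cfsg.SU 3 F (2 ^ n))) (hS : Nonempty (S ≃* ↥(P : Subgroup ↥(Cfsg.SU 3 F (2 ^ n))))) :
    Cfsg.IsElementaryAbelian 2 (Cfsg.pCore 2 (MulAut S)) ∧ Nat.card ↥(Cfsg.pCore 2 (MulAut S)) = 2 ^ (2 * n ^ 2) ∧
      Nat.card (MulAut S) = 2 ^ (2 * n ^ 2) * (2 * n * ((2 ^ n) ^ 2 - 1)) := by
  have : Fact (Fintype.card F = (2 ^ n) ^ 2) := ⟨by rw [hF, ← pow_mul, mul_comm, pow_mul]; norm_num⟩
  have h2 : (2 : F) = 0 := CfsgLib.Unitary.two_eq_zero_of_card (n := 2 * n) (by rw [hF, pow_mul]; norm_num)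
  obtain ⟨e0⟩ := hS
  obtain ⟨e1⟩ := CfsgLib.Unitary.sylow_SU_iso h2 P
  let e := MulAut.congr (e0.trans e1)
  have h1 : Cfsg.pCore 2 (MulAut S) = (CfsgLib.Unitary.UT.cenAut F (2 ^ n)).comap e.toMonoidHom := by
    rw [← CfsgLib.Unitary.UT.pCore_aut h2]
    exact (CfsgLib.Core.comap_pCore_eq e.surjective (by
      rw [(MonoidHom.ker_eq_bot_iff _).2 e.injective]; exact IsPGroup.of_bot)).symm
  refine ⟨⟨⟨⟨fun a b => Subtype.ext (e.injective ?_)⟩⟩, fun a ha => e.injective ?_⟩, ?_, ?_⟩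
  · rw [Subgroup.coe_mul, Subgroup.coe_mul, map_mul, map_mul]
    exact CfsgLib.Unitary.UT.cenAut_comm h2 (h1.le a.2) (h1.le b.2)
  · rw [pow_two, map_mul, map_one]
    exact CfsgLib.Unitary.UT.cenAut_mul_self h2 (h1.le ha)
  · rw [h1, ← CfsgLib.Unitary.UT.card_cenAut h2 rfl, Subgroup.comap_equiv_eq_map_symm',
      Subgroup.card_map_of_injective e.symm.injective]
  · rw [Nat.card_congr e.toEquiv, CfsgLib.Unitary.UT.card_aut h2 rfl]

end Cfsg.Agent.S3162
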