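import Cfsg.Statements.S3175
import Cfsg.Agent.Lib.RuSyl.A4

set_option autoImplicit false
open Cfsg

namespace Cfsg.Agent.S3175

/-- Let G be a finite group whose Sylow 2-subgroup T has order at least 2^14 and whose upper central series has fourth term of order 16; let W be the centralizer in T of the third term, and suppose the Frattini subgroup of W has order at most 8 and lies in every subgroup of W of index at most 16. Then the normalizer of T in G has a normal 2-complement, and W is weakly closed in T with respect to G. -/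
theorem result {G : Type*} [Group G] [Finite G]
    (T : Sylow 2 G) (ha : 2 ^ 14 ≤ Nat.card ↥(T : Subgroup G))
    (hb : Nat.card ↥(Subgroup.upperCentralSeries ↥(T : Subgroup G) 4) = 16)
    (W : Subgroup ↥(T : Subgroup G))
    (hW : W = Subgroup.centralizer ((Subgroup.upperCentralSeries ↥(T : Subgroup G) 3 : Subgroup ↥(T : Subgroup G)) : Set ↥(T : Subgroup G)))
    (hc : Nat.card ↥(frattini ↥W) ≤ 8)
    (hd : ∀ U : Subgroup ↥W, U.index ≤ 16 → frattini ↥W ≤ U) :
    Cfsg.HasNormalPComplement 2 ↥(Subgroup.normalizer ((T : Subgroup G) : Set G)) ∧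
      Cfsg.IsWeaklyClosed (W.map (T : Subgroup G).subtype) (T : Subgroup G) := by
  have h : CfsgLib.RuSyl.Hyp W := ⟨T.isPGroup', ha, hb, hW, hc, hd⟩
  refine ⟨?_, Subgroup.map_subtype_le _, fun g hg => ?_⟩
  · let P : Sylow 2 (Subgroup.normalizer ((T : Subgroup G) : Set G)) :=
      T.subtype Subgroup.le_normalizer
    haveI : (P : Subgroup (Subgroup.normalizer ((T : Subgroup G) : Set G))).Normal :=
      Subgroup.normal_in_normalizer
    obtain ⟨K, hK⟩ := Subgroup.exists_left_complement'_of_coprime 
      (N := (P : Subgroup (Subgroup.normalizer ((T : Subgroup G) : Set G)))) P.card_coprime_index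
    refine ⟨P, K, Subgroup.normalizer_eq_top_iff.mp (eq_top_iff.mpr ?_), hK⟩
    rw [← hK.sup_eq_top]
    refine sup_le Subgroup.le_normalizer (le_trans ?_ (Subgroup.centralizer_le_normalizer _))
    intro t ht k hk
    have h1 : Odd (orderOf k) := by
      refine Odd.of_dvd_nat ?_ (Subgroup.orderOf_dvd_natCard K hk)
      rw [← hK.index_eq_card, ← Nat.not_even_iff_odd, even_iff_two_dvd]
      exact P.not_dvd_index
    have h2 : k ∈ (T : Subgroup G).normalizerMonoidHom.ker :=
      h.aut_odd (h1.of_dvd_nat (orderOf_map_dvd _ k))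
    rw [Subgroup.normalizerMonoidHom_ker, Subgroup.mem_subgroupOf] at h2
    exact Subtype.ext (h2 t ht).symm
  · have h1 := h.eq_of_equiv _ (((W.equivMapOfInjective _ (T : Subgroup G).subtype_injective).trans
      ((W.map (T : Subgroup G).subtype).equivMapOfInjective (MulAut.conj g).toMonoidHom
        (MulAut.conj g).injective)).trans (Subgroup.subgroupOfEquivOfLe hg).symm)
    rw [← Subgroup.map_subgroupOf_eq_of_le hg, h1]

end Cfsg.Agent.S3175
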