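import Cfsg.Statements.S3178
import Cfsg.Agent.Lib.BG.Sec1
import Cfsg.Agent.Lib.BG.AmbHall
import Cfsg.Agent.Lib.TwoGrp.Pres
import Cfsg.Agent.Lib.Transfer.Frobenius

set_option autoImplicit false
open Cfsg

namespace Cfsg.Agent.S3178

open CfsgLib CfsgLib.BG Subgroup
open scoped commutatorElement

theorem conj_eq_of_sq {G : Type*} [Group G] {g u : G} (hg : Odd (orderOf g))
    (h : g * g * u = u * (g * g)) : g * u * g⁻¹ = u := by
  obtain ⟨k, hk⟩ := hg
  have h1 : Commute (g * g) u := h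
  have h2 : g⁻¹ = (g * g) ^ k := by
    rw [← pow_two, ← pow_mul, inv_eq_iff_mul_eq_one, ← pow_succ', ← hk, pow_orderOf_eq_one]
  have h3 : Commute g⁻¹ u := h2 ▸ h1.pow_left k
  rw [mul_assoc, ← h3.eq, mul_inv_cancel_left]


/-- Groups with a modular Sylow 2-subgroup have a normal 2-complement. Let S, of order 2^(n+1) with n ≥ 3, be a Sylow 2-subgroup of a finite group G, and suppose S contains an element a of order 2^n and an involution b with b a b⁻¹ = a^(2^(n-1) + 1); so S is the non-abelian 2-group with a cyclic subgroup of index 2 that is neither dihedral, semidihedral nor generalized quaternion. Then G has a normal 2-complement. -/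
theorem result {G : Type*} [Group G] [Finite G]
    (S : Sylow 2 G) (n : ℕ) (hn : 3 ≤ n) (hS : Nat.card ↥(S : Subgroup G) = 2 ^ (n + 1))
    (a b : G) (ha : a ∈ (S : Subgroup G)) (hb : b ∈ (S : Subgroup G))
    (hao : orderOf a = 2 ^ n) (hbo : orderOf b = 2) (hrel : b * a * b⁻¹ = a ^ (2 ^ (n - 1) + 1)) :
    Cfsg.HasNormalPComplement 2 G := by
  obtain ⟨j, rfl⟩ := Nat.exists_eq_add_of_le' hn
  set k : ℕ := 2 ^ j with hk
  have hao' : orderOf a = 8 * k := by rw [hao, hk]; ring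
  have hrel' : b * a * b⁻¹ = a ^ (4 * k + 1 : ℤ) := by
    rw [hrel, ← zpow_natCast]; congr 1
    rw [hk, show j + 3 - 1 = j + 2 from rfl]; push_cast; ring
  have hkpos : (0 : ℤ) < k := by rw [hk]; positivity
  have hbb : b * b = 1 := by rw [← pow_two, ← hbo, pow_orderOf_eq_one]
  have hone : ∀ i : ℤ, a ^ i = 1 ↔ (8 * k : ℤ) ∣ i := fun i => by
    rw [← orderOf_dvd_iff_zpow_eq_one, hao']; push_cast; rfl
  have heq : ∀ i l : ℤ, a ^ i = a ^ l ↔ (8 * k : ℤ) ∣ i - l := fun i l => by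
    rw [TwoGrp.zpow_eq_zpow_iff_dvd, hao']; push_cast; rfl
  have hba : ∀ i : ℤ, b * a ^ i = a ^ ((4 * k + 1) * i) * b := fun i => by
    rw [zpow_mul, ← hrel', conj_zpow]; group
  have hbn : b ∉ zpowers a := by
    rintro ⟨i, rfl⟩
    have h1 : a ^ (4 * k + 1 : ℤ) = a ^ (1 : ℤ) := by rw [← hrel']; simp only []; group
    rw [heq] at h1
    have := Int.le_of_dvd (by omega) h1
    omega
  have hnorm : b ∈ normalizer (zpowers a : Set G) :=
    TwoGrp.mem_normalizer_zpowers (by rw [hrel']; exact zpow_mem_zpowers _ _)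
  have hSeq : zpowers a ⊔ zpowers b = (S : Subgroup G) := by
    refine eq_of_le_card (sup_le (zpowers_le.2 ha) (zpowers_le.2 hb)) ?_
    rw [TwoGrp.card_sup_zpowers hnorm (by rw [hbb]; exact one_mem _) hbn, hS, Nat.card_zpowers, hao]
    exact le_of_eq (by ring)
  have hmem : ∀ g ∈ (S : Subgroup G), ∃ i : ℤ, g = a ^ i ∨ g = a ^ i * b := fun g hg =>
    (TwoGrp.mem_zpowers_sup_zpowers_iff hnorm (by rw [hbb]; exact one_mem _)).1 (hSeq ▸ hg)
  have hsq : ∀ i : ℤ, a ^ i * b * (a ^ i * b) = a ^ ((4 * k + 2) * i) := fun i => by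
    rw [mul_assoc, ← mul_assoc b, hba, mul_assoc, hbb, mul_one, ← zpow_add]; congr 1; ring
  have hcop : IsCoprime (4 * k : ℤ) (2 * k + 1) := by
    have : (4 * k : ℤ) = 2 ^ (j + 2) := by rw [hk]; push_cast; ring
    rw [this]
    exact IsCoprime.pow_left ⟨-k, 1, by ring⟩
  have hhalf : ∀ i : ℤ, (4 * k : ℤ) ∣ i → a ^ i = 1 ∨ a ^ i = a ^ (4 * k : ℤ) := by
    rintro _ ⟨c, rfl⟩
    rcases Int.even_or_odd' c with ⟨d, rfl | rfl⟩
    · left; rw [hone]; exact ⟨d, by ring⟩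
    · right; rw [heq]; exact ⟨d, by ring⟩
  set z := a ^ (4 * k : ℤ) with hz
  have hzz : z * z = 1 := by rw [hz, ← zpow_add, hone]; exact ⟨1, by ring⟩
  have hcen : ∀ i : ℤ, ∀ s ∈ (S : Subgroup G), s * a ^ (2 * i) = a ^ (2 * i) * s := by
    intro i s hs
    have h1 : b * a ^ (2 * i) = a ^ (2 * i) * b := by
      rw [hba, mul_left_inj, heq]; exact ⟨i, by ring⟩
    obtain ⟨l, rfl | rfl⟩ := hmem s hs
    · exact zpow_mul_comm a l _
    · rw [mul_assoc, h1, ← mul_assoc, zpow_mul_comm, mul_assoc]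
  have hzc : ∀ s ∈ (S : Subgroup G), s * z = z * s := fun s hs => by
    have := hcen (2 * k) s hs
    rwa [show (2 * (2 * k) : ℤ) = 4 * k by ring] at this
  have hinva : ∀ i : ℤ, a ^ i * a ^ i = 1 → a ^ i = 1 ∨ a ^ i = z := fun i h => by
    rw [← zpow_add, hone] at h
    obtain ⟨c, hc⟩ := h
    exact hhalf i ⟨c, by linarith⟩
  have hinv : ∀ u ∈ (S : Subgroup G), u * u = 1 → u = 1 ∨ u = z ∨ u = b ∨ u = z * b := by
    intro u hu h
    obtain ⟨i, rfl | rfl⟩ := hmem u hu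
    · rcases hinva i h with h | h
      · exact Or.inl h
      · exact Or.inr (Or.inl h)
    · rw [hsq, hone] at h
      obtain ⟨c, hc⟩ := h
      have h1 : (4 * k : ℤ) ∣ (2 * k + 1) * i := ⟨c, by linarith⟩
      rcases hhalf i (hcop.dvd_of_dvd_mul_left h1) with h | h
      · rw [h, one_mul]; exact Or.inr (Or.inr (Or.inl rfl))
      · rw [h]; exact Or.inr (Or.inr (Or.inr rfl))
  have hsqz : ∀ s ∈ (S : Subgroup G), s * s * (s * s) = 1 → s * s = 1 ∨ s * s = z := by
    intro s hs h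
    obtain ⟨i, rfl | rfl⟩ := hmem s hs
    · rw [← zpow_add] at h ⊢; exact hinva _ h
    · rw [hsq] at h ⊢; exact hinva _ h
  have hz1 : z ≠ 1 := fun h => by
    rw [hz, hone] at h
    have := Int.le_of_dvd (by omega) h
    omega
  -- `z` is weakly closed in `S`
  have hwc : ∀ g : G, g * z * g⁻¹ ∈ (S : Subgroup G) → g * z * g⁻¹ = z := by
    intro g hg
    set u := g * z * g⁻¹ with hu
    have huw : u * a ^ (2 * k : ℤ) = a ^ (2 * k : ℤ) * u := hcen k u hg
    have hX : IsPiSubgroup {2} (cj g⁻¹ ((S : Subgroup G) ⊓ 𝒞[u])) :=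
      pigroup_cj.2 (pigroupS inf_le_left (pHall_pgroup (isSylowOf_top Nat.prime_two S)))
    have hXc : cj g⁻¹ ((S : Subgroup G) ⊓ 𝒞[u]) ≤ 𝒞[z] := by
      have : 𝒞[z] = cj g⁻¹ 𝒞[u] := by rw [cj_cent1, hu]; congr 2; group
      rw [this]; exact cj_mono _ inf_le_right
    have hSc : IsSylowOf 2 (S : Subgroup G) 𝒞[z] :=
      pHall_subl (fun s hs => mem_cent1.2 (hzc s hs)) le_top (isSylowOf_top Nat.prime_two S)
    obtain ⟨c, hc, hle⟩ := Sylow_Jsub Nat.prime_two hSc hXc hX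
    rw [cj_cj] at hle
    have hw : c * g⁻¹ * a ^ (2 * k : ℤ) * (c * g⁻¹)⁻¹ ∈ (S : Subgroup G) :=
      hle (conj_mem_cj.2 ⟨zpow_mem ha _, mem_cent1.2 huw.symm⟩)
    have hww : c * g⁻¹ * a ^ (2 * k : ℤ) * (c * g⁻¹)⁻¹ * (c * g⁻¹ * a ^ (2 * k : ℤ) * (c * g⁻¹)⁻¹)
        = c * g⁻¹ * z * (c * g⁻¹)⁻¹ := by
      rw [hz, show (4 * k : ℤ) = 2 * k + 2 * k by ring, zpow_add]; group
    have hcz : c⁻¹ * z * c = z := by rw [mul_assoc, ← mem_cent1.1 hc, inv_mul_cancel_left]
    rcases hsqz _ hw (by rw [hww, conj_mul, hzz]; group) with h | h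
    · rw [hww, conj_eq_one_iff] at h; exact absurd h hz1
    · rw [hww] at h
      calc u = g * (c⁻¹ * z * c) * g⁻¹ := by rw [hcz]
        _ = g * (c⁻¹ * (c * g⁻¹ * z * (c * g⁻¹)⁻¹) * c) * g⁻¹ := by rw [h]
        _ = z := by group
  refine Transfer.frobenius_of_forall_centralizer S fun Q hQ _ g hg hodd => ?_
  have hodd' : Odd (orderOf g) := Nat.coprime_two_right.1 hodd
  have hfix : ∀ u ∈ Q, u * u = 1 → g * u * g⁻¹ = u := by
    intro u hu huu
    have h1 : g * u * g⁻¹ ∈ Q := conj_mem_of_mem_norm hg hu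
    by_cases hu1 : u = 1
    · rw [hu1]; group
    by_cases huz : u = z
    · rw [huz] at h1 ⊢; exact hwc g (hQ h1)
    have h2 : g * u * g⁻¹ ≠ 1 := fun h => hu1 (conj_eq_one_iff.1 h)
    have h3 : g * u * g⁻¹ ≠ z := fun h => huz (by
      have := hwc g⁻¹ (by rw [← h]; group; exact hQ hu)
      rw [← this, ← h]; group)
    by_cases h4 : g * u * g⁻¹ = u
    · exact h4
    have h5 : g * u * g⁻¹ = z * u := by
      rcases hinv u (hQ hu) huu with h | h | h | h
      · exact absurd h hu1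
      · exact absurd h huz
      all_goals
        rcases hinv _ (hQ h1) (by rw [conj_mul, huu]; group) with h' | h' | h' | h'
        · exact absurd h' h2
        · exact absurd h' h3
        all_goals first
          | exact absurd (h'.trans h.symm) h4
          | (rw [h', h]; done)
          | (rw [h', h, ← mul_assoc, hzz, one_mul])
    have h6 : z ∈ Q := by
      have := mul_mem h1 (inv_mem hu)
      rwa [h5, mul_inv_cancel_right] at this
    have h7 : g * z * g⁻¹ = z := hwc g (hQ (conj_mem_of_mem_norm hg h6))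
    refine conj_eq_of_sq hodd' ?_
    have : g * (g * u * g⁻¹) * g⁻¹ = u := by
      rw [h5, ← conj_mul, h7, h5, ← mul_assoc, hzz, one_mul]
    calc g * g * u = g * (g * u * g⁻¹) * g⁻¹ * (g * g) := by group
      _ = u * (g * g) := by rw [this]
  have hQ2 : IsPiSubgroup {2} Q := pigroupS hQ (pHall_pgroup (isSylowOf_top Nat.prime_two S))
  have hg2 : IsPiSubgroup {2}ᶜ (zpowers g) := by
    rw [p'group_iff_coprime Nat.prime_two, Nat.card_zpowers]; exact hodd
  have hfix' : ∀ u ∈ Q, u * u = 1 → u ∈ 𝒞(zpowers g) := fun u hu huu => by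
    rw [cent_zpowers, mem_cent1, eq_comm, ← mul_inv_eq_iff_eq_mul]; exact hfix u hu huu
  have key : ∀ X ≤ Q, IsMulCommutative X → g ∈ 𝒩(X) → zpowers g ≤ 𝒞(X) := by
    intro X hX hab hn
    refine coprime_abelian_faithful_Ohm1 (zpowers_le.2 hn)
      (pigroup_coprime (pigroupS hX hQ2) hg2) hab fun x hx hp => hfix' x (hX hx) ?_
    have : orderOf x = 2 := pgp_prime_eq hQ2 hp (order_dvdG (hX hx))
    rw [← pow_two, ← this, pow_orderOf_eq_one]
  refine zpowers_le.1 ?_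
  by_cases hbQ : b ∈ Q
  · have hgb : g ∈ 𝒞[b] := cent1C.1 (by rw [← cent_zpowers]; exact hfix' b hbQ hbb)
    have hev : ∀ x ∈ Q ⊓ 𝒞[b], ∃ i : ℤ, x = a ^ (2 * i) ∨ x = a ^ (2 * i) * b := by
      intro x hx
      have h1 : ∀ i : ℤ, a ^ i * b = b * a ^ i → ∃ l, i = 2 * l := fun i h => by
        rw [hba, mul_left_inj, heq] at h
        obtain ⟨c, hc⟩ := h
        refine ⟨-c, ?_⟩
        have : (4 * k : ℤ) * (i - 2 * -c) = 0 := by linarith
        rcases mul_eq_zero.1 this with h | h <;> omega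
      have h2 := mem_cent1.1 hx.2
      obtain ⟨i, rfl | rfl⟩ := hmem x (hQ hx.1)
      · obtain ⟨l, rfl⟩ := h1 i h2; exact ⟨l, Or.inl rfl⟩
      · rw [← mul_assoc, mul_left_inj] at h2
        obtain ⟨l, rfl⟩ := h1 i h2; exact ⟨l, Or.inr rfl⟩
    have hab : IsMulCommutative ↥(Q ⊓ 𝒞[b]) := by
      rw [abelian_iff, cents_iff]
      intro x hx y hy
      obtain ⟨i, rfl | rfl⟩ := hev x hx
      · exact (hcen i y (hQ hy.1)).symm
      · rw [mul_assoc, ← mem_cent1.1 hy.2, ← mul_assoc, ← hcen i y (hQ hy.1), mul_assoc]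
    refine stable_factor_cent (key _ inf_le_left hab
      (zpowers_le.1 (normsI (zpowers_le.2 hg) (norms_cent1 (zpowers_le.2 hgb))))) ?_
      (pigroup_coprime (pigroupS inf_le_left hQ2) hg2)
    refine le_inf (commg_subl.2 (zpowers_le.2 hg)) (commutator_le.2 fun x hx γ hγ => ?_)
    have h1 := mem_cent_iff.1 (hfix' (x⁻¹ * b * x) (mul_mem (mul_mem (inv_mem hx) hbQ) hx)
      (by rw [show x⁻¹ * b * x * (x⁻¹ * b * x) = x⁻¹ * (b * b) * x by group, hbb]; group)) γ hγ
    have h2 := mem_cent_iff.1 (hfix' b hbQ hbb) γ hγ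
    rw [mem_cent1, commutatorElement_def]
    calc x * γ * x⁻¹ * γ⁻¹ * b = x * γ * x⁻¹ * (γ⁻¹ * (b * γ) * γ⁻¹) := by group
      _ = x * (γ * (x⁻¹ * b * x)) * x⁻¹ * γ⁻¹ := by rw [← h2]; group
      _ = b * (x * γ * x⁻¹ * γ⁻¹) := by rw [h1]; group
  · refine key Q le_rfl ?_ hg
    have hev : ∀ i l : ℤ, a ^ i ∈ Q → a ^ l * b ∈ Q → ∃ m, i = 2 * m := by
      intro i l hi hl
      rcases Int.even_or_odd' i with ⟨m, rfl | rfl⟩
      · exact ⟨m, rfl⟩
      · exfalso
        have hc : IsCoprime (2 * m + 1) (8 * k : ℤ) := by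
          have : (8 * k : ℤ) = 2 ^ (j + 3) := by rw [hk]; push_cast; ring
          rw [this]
          exact IsCoprime.pow_right ⟨1, -m, by ring⟩
        obtain ⟨u, v, huv⟩ := hc
        have h1 : (a ^ (2 * m + 1)) ^ u = a ^ (1 : ℤ) := by
          rw [← zpow_mul, heq]; exact ⟨-v, by linarith⟩
        have h2 : a ∈ Q := by rw [← zpow_one a, ← h1]; exact zpow_mem hi u
        exact hbQ ((mul_mem_cancel_left (zpow_mem h2 l)).1 hl)
    rw [abelian_iff, cents_iff]
    intro x hx y hy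
    obtain ⟨i, rfl | rfl⟩ := hmem x (hQ hx) <;> obtain ⟨l, rfl | rfl⟩ := hmem y (hQ hy)
    · exact zpow_mul_comm a i l
    · obtain ⟨m, rfl⟩ := hev i l hx hy
      exact (hcen m _ (hQ hy)).symm
    · obtain ⟨m, rfl⟩ := hev l i hy hx
      exact hcen m _ (hQ hx)
    · have h1 : a ^ (i - l) ∈ Q := by
        have := mul_mem hx (inv_mem hy)
        rwa [show a ^ i * b * (a ^ l * b)⁻¹ = a ^ (i - l) by group] at this
      obtain ⟨m, hm⟩ := hev _ l h1 hy
      have h2 : a ^ i * b = a ^ (2 * m) * (a ^ l * b) := by rw [← hm]; group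
      rw [h2, ← mul_assoc (a ^ l * b), hcen m _ (hQ hy)]

end Cfsg.Agent.S3178
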