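import Cfsg.Statements.S3179
import Cfsg.Agent.Lib.Elusive.Count
import Cfsg.Agent.Lib.Dickson.Subfield
import Cfsg.Agent.Lib.Spec.Small
import Cfsg.Agent.Lib.Unitary.Center
import Cfsg.Agent.S1163

set_option autoImplicit false
open Cfsg

namespace Cfsg.Agent.S3179

theorem no_order_nine_aux {G V : Type*} [Group G] [AddCommGroup V] [DistribMulAction G V]
    [FaithfulSMul G V] (hcard : Nat.card V = 32) (y : G) (hy : orderOf y = 9) : False := by
  classical
  haveI : Finite V := Nat.finite_of_card_ne_zero (by omega)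
  let W : AddSubgroup V :=
    { carrier := {v | y ^ 3 • v = v}
      add_mem' := by
        intro a b ha hb
        simp only [Set.mem_setOf_eq] at ha hb ⊢
        rw [smul_add, ha, hb]
      zero_mem' := by simp
      neg_mem' := by
        intro a ha
        simp only [Set.mem_setOf_eq] at ha ⊢
        rw [smul_neg, ha] }
  have hW : ∀ v, v ∈ W ↔ y ^ 3 • v = v := fun v => Iff.rfl
  have hWd : Nat.card W ∣ 32 := hcard ▸ W.card_addSubgroup_dvd_card
  have hy3 : y ^ 3 ≠ 1 := by
    intro h
    have := orderOf_dvd_of_pow_eq_one h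
    rw [hy] at this
    omega
  have hW32 : Nat.card W ≠ 32 := by
    intro h
    have hT : W = ⊤ := AddSubgroup.eq_top_of_card_eq W (h.trans hcard.symm)
    apply hy3
    apply eq_of_smul_eq_smul (α := V)
    intro v
    rw [one_smul, ← hW, hT]
    trivial
  haveI : Finite (Subgroup.zpowers y) :=
    Nat.finite_of_card_ne_zero (by rw [Nat.card_zpowers, hy]; omega)
  have hdvd := CfsgLib.Elusive.card_dvd_of_free (G := Subgroup.zpowers y) (α := V)
    (fun g v => (g : G) • v)
    (by intro a; simp) (by intro g h a; simp [mul_smul])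
    (fun v => v ∉ W)
    (by
      rintro ⟨g, k, rfl⟩ a ha hb
      apply ha
      have hc : Commute (y ^ 3) (y ^ k) := (Commute.refl y).pow_left 3 |>.zpow_right k
      rw [hW] at hb ⊢
      simp only at hb
      rw [smul_smul, hc.eq, mul_smul] at hb
      exact MulAction.injective _ hb)
    (by
      rintro ⟨g, hg⟩ a ha hb
      by_contra hne
      apply ha
      obtain ⟨k, hk, rfl⟩ : ∃ k < 9, y ^ k = g := by
        obtain ⟨z, rfl⟩ := hg
        refine ⟨(z % 9).toNat, by omega, ?_⟩
        have h1 := zpow_mod_orderOf y z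
        rw [hy] at h1
        simp only
        rw [← h1, ← zpow_natCast]
        congr 1
        omega
      simp only at hb
      rw [hW]
      have hpow : ∀ j : ℕ, ((y ^ k) ^ j) • a = a := by
        intro j
        induction j with
        | zero => simp
        | succ j ih => rw [pow_succ, mul_smul, hb, ih]
      have key : ∃ j : ℕ, (k * j) % 9 = 3 := by
        have hk0 : k ≠ 0 := by
          rintro rfl
          exact hne (Subtype.ext (by simp))
        interval_cases k
        · exact absurd rfl hk0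
        · exact ⟨3, by norm_num⟩
        · exact ⟨6, by norm_num⟩
        · exact ⟨1, by norm_num⟩
        · exact ⟨3, by norm_num⟩
        · exact ⟨6, by norm_num⟩
        · exact ⟨2, by norm_num⟩
        · exact ⟨3, by norm_num⟩
        · exact ⟨6, by norm_num⟩
      obtain ⟨j, hj⟩ := key
      have := hpow j
      rw [← pow_mul, ← pow_mod_orderOf, hy, hj] at this
      exact this)
  rw [Nat.card_zpowers, hy] at hdvd
  have hsum : Nat.card W + Nat.card {v : V // v ∉ W} = 32 := by
    rw [← hcard, ← Nat.card_sum]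
    exact Nat.card_congr (Equiv.sumCompl (fun v => v ∈ W))
  have h32 : (32 : ℕ) = 2 ^ 5 := by norm_num
  rw [h32, Nat.dvd_prime_pow Nat.prime_two] at hWd
  obtain ⟨i, hi, hi2⟩ := hWd
  rw [hi2] at hsum hW32
  interval_cases i <;> omega

theorem no_order_nine (y : GL (Fin 5) (ZMod 2)) (hy : orderOf y = 9) : False := by
  let e := (Matrix.GeneralLinearGroup.toLin (n := Fin 5) (R := ZMod 2)).trans
    (LinearMap.GeneralLinearGroup.generalLinearEquiv (ZMod 2) (Fin 5 → ZMod 2))
  refine no_order_nine_aux (V := Fin 5 → ZMod 2) (by simp) (e y) ?_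
  rw [MulEquiv.orderOf_eq, hy]


/-- Let X be a section of the general linear group GL(5, 2), that is, a quotient of a subgroup of it. If X is isomorphic to PSL(2, 2^n) for some n ≥ 2, to a Suzuki group over the field with 2^(2m+1) elements for some m ≥ 1, or to PSU(3, 2^n) for some n ≥ 2, then X is isomorphic to PSL(2, 4). -/
theorem result {H : Subgroup (GL (Fin 5) (ZMod 2))}
    {K : Subgroup ↥H} [K.Normal]
    (hX : (∃ (n : ℕ) (F : Type) (_ : Field F) (_ : Fintype F), 2 ≤ n ∧ Fintype.card F = 2 ^ n ∧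
        Nonempty (↥H ⧸ K ≃* Matrix.ProjectiveSpecialLinearGroup (Fin 2) F)) ∨
      (∃ (m : ℕ) (F : Type) (_ : Field F) (_ : Fintype F), 1 ≤ m ∧ Fintype.card F = 2 ^ (2 * m + 1) ∧
        Nonempty (↥H ⧸ K ≃* ↥(Cfsg.Lie.Sz F (2 ^ (m + 1))))) ∨
      (∃ (n : ℕ) (F : Type) (_ : Field F) (_ : Fintype F), 2 ≤ n ∧ Fintype.card F = 4 ^ n ∧
        Nonempty (↥H ⧸ K ≃* Cfsg.PSU 3 F (2 ^ n)))) :
    ∃ (F : Type) (_ : Field F) (_ : Fintype F), Fintype.card F = 4 ∧
      Nonempty (↥H ⧸ K ≃* Matrix.ProjectiveSpecialLinearGroup (Fin 2) F) := by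
  have hG : Nat.card (GL (Fin 5) (ZMod 2)) = 9999360 := by
    rw [Matrix.card_GL_field]
    simp [Fin.prod_univ_succ]
  have hd : Nat.card (↥H ⧸ K) ∣ 9999360 := by
    rw [← hG]
    exact (Subgroup.card_quotient_dvd_card K).trans (Subgroup.card_subgroup_dvd_card H)
  have hle : Nat.card (↥H ⧸ K) ≤ 9999360 := Nat.le_of_dvd (by norm_num) hd
  rcases hX with ⟨n, F, _, _, hn, hF, ⟨e⟩⟩ | ⟨m, F, _, _, hm, hF, ⟨e⟩⟩ | ⟨n, F, _, _, hn, hF, ⟨e⟩⟩
  · have hc := CfsgLib.Dickson.card_psl (K := F)
    rw [← Nat.card_congr e.toEquiv, Nat.card_eq_fintype_card (α := F), hF] at hc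
    have hn8 : n < 8 := by
      by_contra h
      have h1 : 256 ≤ 2 ^ n := by
        calc 256 = 2 ^ 8 := by norm_num
          _ ≤ 2 ^ n := Nat.pow_le_pow_right (by norm_num) (by omega)
      have hg : Nat.gcd 2 (2 ^ n - 1) = 1 := by
        have : 2 ∣ 2 ^ n := dvd_pow_self 2 (by omega)
        have h2 : Nat.Coprime 2 (2 ^ n - 1) := by
          rw [Nat.Prime.coprime_iff_not_dvd Nat.prime_two]
          omega
        exact h2
      rw [hg, one_mul] at hc
      have h3 : 256 * (256 ^ 2 - 1) ≤ 2 ^ n * ((2 ^ n) ^ 2 - 1) :=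
        Nat.mul_le_mul h1 (Nat.sub_le_sub_right (Nat.pow_le_pow_left h1 2) 1)
      omega
    interval_cases n
    · exact ⟨F, inferInstance, inferInstance, hF, ⟨e⟩⟩
    · exfalso
      haveI : Fact (Nat.Prime 2) := ⟨Nat.prime_two⟩
      haveI : CharP F 2 := by
        obtain ⟨p, hp⟩ := CharP.exists F
        obtain ⟨k, hpp, hk⟩ := FiniteField.card F p
        rw [hF] at hk
        have : p ∣ 2 ^ 3 := hk ▸ dvd_pow_self p (by simp)
        have := (Nat.prime_dvd_prime_iff_eq hpp Nat.prime_two).1 (hpp.dvd_of_dvd_pow this)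
        subst this
        exact hp
      have hs := CfsgLib.Spec.spectrum_psl_two (F := F) 2
      have h9 : (9 : ℕ) ∈ Set.range (orderOf :
          Matrix.ProjectiveSpecialLinearGroup (Fin 2) F → ℕ) := by
        rw [hs, hF]
        right; right
        norm_num
      obtain ⟨g, hg⟩ := h9
      obtain ⟨x, hx⟩ := QuotientGroup.mk_surjective (e.symm g)
      have h1 : 9 ∣ orderOf (x : GL (Fin 5) (ZMod 2)) := by
        rw [Subgroup.orderOf_coe, ← hg, ← MulEquiv.orderOf_eq e.symm, ← hx]
        exact orderOf_map_dvd (QuotientGroup.mk' K) x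
      have h0 : orderOf (x : GL (Fin 5) (ZMod 2)) ≠ 0 := (orderOf_pos _).ne'
      exact no_order_nine _ (orderOf_pow_orderOf_div h0 h1)
    all_goals
      exfalso
      norm_num at hc
      rw [hc] at hd
      norm_num at hd
  · exfalso
    have hc := (Cfsg.Agent.S1163.result hm hF).1
    rw [← Nat.card_congr e.toEquiv] at hc
    by_cases hm1 : m = 1
    · subst hm1
      rw [hc] at hd
      norm_num at hd
    · have h1 : 32 ≤ 2 ^ (2 * m + 1) := by
        calc 32 = 2 ^ 5 := by norm_num
          _ ≤ 2 ^ (2 * m + 1) := Nat.pow_le_pow_right (by norm_num) (by omega)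
      have h2 := Nat.pow_le_pow_left h1 2
      have h3 : 32 ^ 2 * (32 - 1) * (32 ^ 2 + 1) ≤
          (2 ^ (2 * m + 1)) ^ 2 * (2 ^ (2 * m + 1) - 1) * ((2 ^ (2 * m + 1)) ^ 2 + 1) :=
        Nat.mul_le_mul (Nat.mul_le_mul h2 (by omega)) (by omega)
      omega
  · exfalso
    have hF' : Fintype.card F = (2 ^ n) ^ 2 := by
      rw [hF, ← pow_mul, mul_comm, pow_mul]; norm_num
    have hc := CfsgLib.Unitary.card_PSU (n := 3) hF' (by norm_num)
    rw [← Nat.card_congr e.toEquiv] at hc
    simp only [Finset.prod_range_succ, Finset.range_zero, Finset.prod_empty] at hc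
    norm_num [Nat.even_iff] at hc
    by_cases hn4 : n < 4
    · interval_cases n
      all_goals
        norm_num at hc
        have : Nat.card (↥H ⧸ K) = 62400 ∨ Nat.card (↥H ⧸ K) = 5515776 := by omega
        rcases this with h | h <;> rw [h] at hd <;> norm_num at hd
    · have h1 : 16 ≤ 2 ^ n := by
        calc 16 = 2 ^ 4 := by norm_num
          _ ≤ 2 ^ n := Nat.pow_le_pow_right (by norm_num) (by omega)
      set q := 2 ^ n
      have hg : Nat.gcd 3 (q + 1) ≤ 3 := Nat.gcd_le_left _ (by norm_num)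
      have h2 := Nat.pow_le_pow_left h1 2
      have h3 := Nat.pow_le_pow_left h1 3
      have h4 : (q + 1) * (16 ^ 3 * ((16 ^ 2 - 1) * (16 ^ 3 + 1))) ≤
          q ^ 3 * ((q + 1) * (q ^ 2 - 1) * (q ^ 3 + 1)) := by
        calc (q + 1) * (16 ^ 3 * ((16 ^ 2 - 1) * (16 ^ 3 + 1)))
            ≤ (q + 1) * (q ^ 3 * ((q ^ 2 - 1) * (q ^ 3 + 1))) :=
              Nat.mul_le_mul_left _ (Nat.mul_le_mul h3 (Nat.mul_le_mul (by omega) (by omega)))
          _ = _ := by ring
      have h5 : Nat.gcd 3 (q + 1) * ((q + 1) * Nat.card (↥H ⧸ K)) ≤ (q + 1) * (3 * 9999360) := by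
        calc Nat.gcd 3 (q + 1) * ((q + 1) * Nat.card (↥H ⧸ K)) ≤ 3 * ((q + 1) * 9999360) :=
              Nat.mul_le_mul hg (Nat.mul_le_mul_left _ hle)
          _ = _ := by ring
      rw [hc] at h5
      have h6 := Nat.le_of_mul_le_mul_left (h4.trans h5) (by omega)
      norm_num at h6

end Cfsg.Agent.S3179
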