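import Cfsg.Statements.S3180
import Cfsg.Agent.Lib.InvChar.SylowBasic

set_option autoImplicit false
open Cfsg

namespace Cfsg.Agent.S3180

open CfsgLib.InvChar

/-- Let P be a Sylow p-subgroup of a finite group J and P₁ a subgroup of P that is weakly closed in P with respect to J. If J acts on a set and two points, each fixed by every element of P₁, lie in one J-orbit, then they lie in one orbit of the normalizer of P₁ in J. -/
theorem result {J : Type*} [Group J] [Finite J]
    {p : ℕ} [Fact p.Prime] (P : Sylow p J) (P₁ : Subgroup J) (hW : Cfsg.IsWeaklyClosed P₁ (P : Subgroup J))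
    {Ω : Type*} [MulAction J Ω] (x y : Ω) (hx : ∀ g ∈ P₁, g • x = x) (hy : ∀ g ∈ P₁, g • y = y)
    (hc : ∃ g : J, g • x = y) :
    ∃ g ∈ Subgroup.normalizer (P₁ : Set J), g • x = y := by
  obtain ⟨g, hg⟩ := hc
  have hP₁ : IsPGroup p P₁ := P.isPGroup'.to_le hW.1
  have h1 : P₁ ≤ MulAction.stabilizer J y := fun a ha => hy a ha
  have h2 : P₁.map (MulAut.conj g).toMonoidHom ≤ MulAction.stabilizer J y := by
    rw [map_conj_le_iff]
    intro a ha
    rw [MulAction.mem_stabilizer_iff, ← hg, mul_smul, mul_smul, inv_smul_smul, hx a ha]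
  obtain ⟨h, hh, R, hR, -, hR1, hR2⟩ :=
    exists_conj_mem_common (isPGroup_map_conj hP₁ g) h2 hP₁ h1
  obtain ⟨k, hk⟩ := exists_conj_mem_sylow P hR
  have e1 : k ∈ Subgroup.normalizer (P₁ : Set J) :=
    map_conj_eq_iff_mem_normalizer.1 (hW.2 k (map_conj_le_iff.2 fun a ha => hk a (hR1 ha)))
  have e2 : k * h * g ∈ Subgroup.normalizer (P₁ : Set J) := by
    refine map_conj_eq_iff_mem_normalizer.1 (hW.2 _ (map_conj_le_iff.2 fun a ha => ?_))
    have := hk _ (hR2 _ (conj_mem_map_conj g ha))
    simpa [mul_assoc] using this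
  refine ⟨h * g, ?_, ?_⟩
  · simpa [mul_assoc] using mul_mem (inv_mem e1) e2
  · rw [mul_smul, hg]
    exact hh

end Cfsg.Agent.S3180
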