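import Cfsg.Statements.S3184
import Cfsg.Agent.Lib.ZStarApp.Basic
import Cfsg.Agent.S3183
import Cfsg.Agent.Lib.Transfer.Thompson
import Cfsg.Agent.Lib.Transfer.Abelian

set_option autoImplicit false
open Cfsg

namespace Cfsg.Agent.S3184

open CfsgLib CfsgLib.SylTools CfsgLib.ZStarApp Subgroup

/-- Let G be a finite group in which the intersection of any two distinct Sylow 2-subgroups is contained in the centre of some Sylow 2-subgroup, and let S be a Sylow 2-subgroup. If C is a nontrivial cyclic characteristic subgroup of S, then the involution of C is central modulo the largest normal subgroup of odd order of G: each of its conjugates has the same image in G/O(G). -/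
theorem result {G : Type*} [Group G] [Finite G]
    (hCI : ∀ S T : Sylow 2 G, S ≠ T → ∃ U : Sylow 2 G,
      (S : Subgroup G) ⊓ (T : Subgroup G) ≤ (Subgroup.center ↥(U : Subgroup G)).map (U : Subgroup G).subtype)
    (S : Sylow 2 G) (C : Subgroup ↥(S : Subgroup G)) (hC : C ≠ ⊥) (hCc : IsCyclic ↥C) (hCh : C.Characteristic)
    (c : ↥(S : Subgroup G)) (hc : c ∈ C) (hc2 : orderOf c = 2) :
    ∀ g : G, (QuotientGroup.mk (s := Cfsg.oddCore G) (g * (c : G) * g⁻¹)) =
      QuotientGroup.mk (s := Cfsg.oddCore G) (c : G) := by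
  have hN : ∀ g ∈ normalizer ((S : Subgroup G) : Set G), g * (c : G) * g⁻¹ = c := by
    intro g hg
    let φ : MulAut (S : Subgroup G) := (S : Subgroup G).normalizerMonoidHom ⟨g, hg⟩
    have h1 : φ c ∈ C := by
      have := (characteristic_iff_map_le.1 hCh) φ
      exact this ⟨c, hc, rfl⟩
    have h2 : φ c = c := Transfer.eq_of_orderOf_eq_two_of_isCyclic hCc h1 hc
      (by rw [φ.orderOf_eq, hc2]) hc2
    exact congrArg Subtype.val h2
  have hcZ : (c : G) ∈ centralizer ((S : Subgroup G) : Set G) := by
    rw [mem_centralizer_iff]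
    intro s hs
    exact mul_inv_eq_iff_eq_mul.1 (hN s (le_normalizer hs))
  have hw : ∀ g : G, g * c * g⁻¹ ∈ (S : Subgroup G) → g * c * g⁻¹ = c := by
    intro g hg
    by_cases e : g • S = S
    · exact hN g (Sylow.smul_eq_iff_mem_normalizer.1 e)
    have h1 := ((Cfsg.Agent.S3183.result hCI S).2 _ e
      (mem_inf.2 ⟨hg, mem_smul_sylow.2 (by simp [mul_assoc])⟩)).1
    rw [Core.map_subtype_center] at h1
    obtain ⟨u, hu, h2⟩ := Transfer.exists_normalizer_conj_of_mem_centralizer S hcZ h1.2
    rw [h2, hN u hu]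
  intro g
  have := mem_center_iff.1 (mk_mem_center_of_weaklyClosed S c.2 hw) (QuotientGroup.mk' _ g)
  change QuotientGroup.mk' _ _ = QuotientGroup.mk' _ _
  rw [map_mul, map_mul, this]; simp

end Cfsg.Agent.S3184
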