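import Cfsg.Statements.S3190
import Cfsg.Agent.Lib.InvChar.SylowBasic

set_option autoImplicit false
open Cfsg

namespace Cfsg.Agent.S3190

open CfsgLib.InvChar

/-- Let p be an odd prime and, inside a finite group, let P be a p-subgroup normalized by a Klein four-group T. Let R be a subgroup of P, normal in P and normalized by T, such that P is the product of R with the centralizer of T in P. If T centralizes the centre of P, then T centralizes the centre of R. -/
theorem result {X : Type*} [Group X] [Finite X]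
    {p : ℕ} (hp : p.Prime) (hodd : Odd p) (P T R : Subgroup X) (hP : IsPGroup p ↥P) (hT : IsKleinFour ↥T)
    (hTP : T ≤ Subgroup.normalizer (P : Set X)) (hRP : R ≤ P) (hRn : (R.subgroupOf P).Normal)
    (hTR : T ≤ Subgroup.normalizer (R : Set X)) (hfac : R ⊔ (P ⊓ Subgroup.centralizer (T : Set X)) = P)
    (hZ : T ≤ Subgroup.centralizer (((Subgroup.center ↥P).map P.subtype : Subgroup X) : Set X)) :
    T ≤ Subgroup.centralizer (((Subgroup.center ↥R).map R.subtype : Subgroup X) : Set X) := by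
  have : Fact p.Prime := ⟨hp⟩
  intro t ht
  have ht2 : t * t = 1 := by
    have := hT.exponent_two
    have h2 := Monoid.pow_exponent_eq_one (⟨t, ht⟩ : T)
    rw [this] at h2
    simpa [pow_two] using congrArg Subtype.val h2
  have hti : t⁻¹ = t := inv_eq_of_mul_eq_one_right ht2
  let W : Subgroup X :=
    { carrier := {z | (z ∈ R ∧ ∀ y ∈ R, y * z = z * y) ∧ t * z * t⁻¹ = z⁻¹}
      one_mem' := ⟨⟨one_mem _, by simp⟩, by simp⟩
      mul_mem' := by
        rintro a b ⟨⟨ha1, ha2⟩, ha3⟩ ⟨⟨hb1, hb2⟩, hb3⟩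
        refine ⟨⟨mul_mem ha1 hb1, fun y hy => ?_⟩, ?_⟩
        · rw [← mul_assoc, ha2 y hy, mul_assoc, hb2 y hy, mul_assoc]
        · rw [show t * (a * b) * t⁻¹ = (t * a * t⁻¹) * (t * b * t⁻¹) by group, ha3, hb3, ← mul_inv_rev,
            ha2 b hb1]
      inv_mem' := by
        rintro a ⟨⟨ha1, ha2⟩, ha3⟩
        refine ⟨⟨inv_mem ha1, fun y hy => ?_⟩, ?_⟩
        · exact (Commute.inv_right (ha2 y hy)).eq
        · rw [show t * a⁻¹ * t⁻¹ = (t * a * t⁻¹)⁻¹ by group, ha3] }
  have hWn : P ≤ Subgroup.normalizer (W : Set X) := by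
    rw [← hfac]
    refine sup_le (fun g hg => mem_normalizer_of_conj_mem ?_) (fun g hg => mem_normalizer_of_conj_mem ?_)
    · intro w hw
      have : g * w * g⁻¹ = w := by rw [hw.1.2 g hg]; group
      rw [this]; exact hw
    · rintro w ⟨⟨hw1, hw2⟩, hw3⟩
      have hgR : ∀ r ∈ R, ∀ g ∈ P, g * r * g⁻¹ ∈ R := fun r hr g hg =>
        hRn.conj_mem ⟨r, hRP hr⟩ hr ⟨g, hg⟩
      have hgt : t * g = g * t := Subgroup.mem_centralizer_iff.1 hg.2 t ht
      refine ⟨⟨hgR w hw1 g hg.1, fun y hy => ?_⟩, ?_⟩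
      · have := hw2 _ (hgR y hy g⁻¹ (inv_mem hg.1))
        calc y * (g * w * g⁻¹) = g * (g⁻¹ * y * g⁻¹⁻¹ * w) * g⁻¹ := by group
          _ = g * (w * (g⁻¹ * y * g⁻¹⁻¹)) * g⁻¹ := by rw [this]
          _ = _ := by group
      · calc t * (g * w * g⁻¹) * t⁻¹ = (t * g) * w * (t * g)⁻¹ := by group
          _ = g * (t * w * t⁻¹) * g⁻¹ := by rw [hgt]; group
          _ = _ := by rw [hw3]; group
  have hW : W = ⊥ := by
    by_contra hW
    obtain ⟨w, hw, hw1, hw2⟩ := exists_mem_center_of_normalized (W := W) hP (fun w hw => hRP hw.1.1)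
      (fun g hg w hw => conj_mem_of_mem_normalizer (hWn hg) hw) hW
    have h1 : w * t = t * w :=
      Subgroup.mem_centralizer_iff.1 (hZ ht) w (mem_center_map_subtype_iff.2 ⟨hRP hw.1.1, hw2⟩)
    have h2 : w ^ 2 = 1 := by
      have h3 := hw.2
      rw [← h1, mul_inv_cancel_right] at h3
      rw [pow_two]; nth_rewrite 1 [h3]; simp
    obtain ⟨k, hk⟩ := hP ⟨w, hRP hw.1.1⟩
    have hk' : w ^ p ^ k = 1 := by simpa using congrArg Subtype.val hk
    have hc : Nat.Coprime 2 (p ^ k) := (Nat.coprime_two_left.2 hodd).pow_right k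
    apply hw1
    have := Nat.dvd_gcd (orderOf_dvd_of_pow_eq_one h2) (orderOf_dvd_of_pow_eq_one hk')
    rw [hc, Nat.dvd_one, orderOf_eq_one_iff] at this
    exact this
  rw [Subgroup.mem_centralizer_iff]
  intro z hz
  obtain ⟨hz1, hz2⟩ := mem_center_map_subtype_iff.1 hz
  have htR : ∀ r ∈ R, t * r * t⁻¹ ∈ R := fun r hr => conj_mem_of_mem_normalizer (hTR ht) hr
  have hmem : t * z * t⁻¹ * z⁻¹ ∈ W := by
    refine ⟨⟨mul_mem (htR z hz1) (inv_mem hz1), fun y hy => ?_⟩, ?_⟩
    · have h1 := hz2 _ (htR y hy)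
      have h2 : Commute y (t * z * t⁻¹) := by
        change y * (t * z * t⁻¹) = t * z * t⁻¹ * y
        calc y * (t * z * t⁻¹) = t * (t⁻¹ * y * t * z) * t⁻¹ := by group
          _ = t * (t * y * t⁻¹ * z) * t⁻¹ := by rw [hti]
          _ = t * (z * (t * y * t⁻¹)) * t⁻¹ := by rw [h1]
          _ = t * z * t * y * (t * t)⁻¹ := by group
          _ = _ := by rw [ht2, hti]; simp
      exact (h2.mul_right (Commute.inv_right (hz2 y hy))).eq
    · calc t * (t * z * t⁻¹ * z⁻¹) * t⁻¹ = (t * t) * z * (t * t)⁻¹ * (t * z⁻¹ * t⁻¹) := by group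
        _ = _ := by rw [ht2]; group
  rw [hW, Subgroup.mem_bot] at hmem
  calc z * t = (t * z * t⁻¹ * z⁻¹) * z * t := by rw [hmem]; simp
    _ = t * z := by group

end Cfsg.Agent.S3190
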