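import Cfsg.Statements.S3195
import Cfsg.Agent.Lib.BG.AmbPi
import Cfsg.Agent.Lib.TwoGrp.Pres
import Cfsg.Agent.Lib.Invol.BaerSuzuki

set_option autoImplicit false
open Cfsg

namespace Cfsg.Agent.S3195

open CfsgLib CfsgLib.BG Subgroup

theorem pow_four_of_matching {G : Type*} [Group G] {x₁ x₂ y₁ y₂ : G} (hx₁ : x₁ * x₁ = 1)
    (hx₂ : x₂ * x₂ = 1) (hy₁ : y₁ * y₁ = 1) (hy₂ : y₂ * y₂ = 1) (hx : Commute x₁ x₂)
    (h1 : Commute x₁ y₁) (h2 : Commute x₂ y₂) (h3 : Commute (x₁ * x₂) (y₁ * y₂)) :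
    (x₁ * y₂) ^ 4 = 1 := by
  have i1 : x₁⁻¹ = x₁ := inv_eq_of_mul_eq_one_right hx₁
  have i2 : x₂⁻¹ = x₂ := inv_eq_of_mul_eq_one_right hx₂
  have j1 : y₁⁻¹ = y₁ := inv_eq_of_mul_eq_one_right hy₁
  have j2 : y₂⁻¹ = y₂ := inv_eq_of_mul_eq_one_right hy₂
  set k := x₁ * y₂ * (x₁ * y₂) with hk
  have e1 : k = x₂ * y₁ * (x₂ * y₁) := by
    have h4 : x₂ * y₁ * y₂ = y₁ * (x₁ * y₂ * x₁) * x₂ := by
      calc x₂ * y₁ * y₂ = x₁⁻¹ * (x₁ * x₂ * (y₁ * y₂)) := by group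
        _ = x₁⁻¹ * (y₁ * y₂ * (x₁ * x₂)) := by rw [h3.eq]
        _ = (x₁ * y₁) * y₂ * x₁ * x₂ := by rw [i1]; group
        _ = y₁ * (x₁ * y₂ * x₁) * x₂ := by rw [h1.eq]; group
    have h5 : y₁ * x₂ * (y₁ * x₂) = k := by
      calc y₁ * x₂ * (y₁ * x₂) = y₁ * (x₂ * y₁ * y₂) * (y₂⁻¹ * x₂) := by group
        _ = (y₁ * y₁) * (x₁ * y₂ * x₁) * (x₂ * y₂) * x₂ := by rw [h4, j2]; group
        _ = (x₁ * y₂ * x₁) * y₂ * (x₂ * x₂) := by rw [hy₁, h2.eq]; group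
        _ = k := by rw [hx₂, hk]; group
    have h6 : Commute x₂ k := (hx.symm.mul_right h2).mul_right (hx.symm.mul_right h2)
    calc k = x₂ * k * x₂⁻¹ := by rw [h6.eq]; group
      _ = x₂ * y₁ * (x₂ * y₁) := by rw [← h5]; group
  have e2 : k⁻¹ = y₁ * x₂ * (y₁ * x₂) := by rw [e1, mul_inv_rev, mul_inv_rev, i2, j1]
  have h6 : Commute x₂ k := (hx.symm.mul_right h2).mul_right (hx.symm.mul_right h2)
  have e3 : k⁻¹ = k := by
    calc k⁻¹ = x₂⁻¹ * k * x₂ := by rw [e2, e1]; group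
      _ = k := by rw [mul_assoc, ← h6.eq]; group
  calc (x₁ * y₂) ^ 4 = k * k := by rw [hk]; simp only [pow_succ, pow_zero, one_mul, mul_assoc]
    _ = 1 := by nth_rewrite 1 [← e3]; exact inv_mul_cancel k

theorem four_dichotomy {G : Type*} [Group G] {B C : Subgroup G} (hB : IsKleinFour B)
    (hC : IsKleinFour C) (h1 : ∀ x ∈ B, x ≠ 1 → ∃ y ∈ C, y ≠ 1 ∧ Commute x y)
    (h2 : ∀ y ∈ C, y ≠ 1 → ∃ x ∈ B, x ≠ 1 ∧ Commute x y) {x y : G} (hx : x ∈ B) (hy : y ∈ C)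
    (h4 : (x * y) ^ 4 ≠ 1) : ∃ u ∈ B, u ≠ 1 ∧ ∀ v ∈ C, Commute u v := by
  have hxx := TwoGrp.mul_self_of_isKleinFour hB hx
  have hyy := TwoGrp.mul_self_of_isKleinFour hC hy
  have hn : ¬ Commute x y := fun h => h4 (by
    rw [h.mul_pow, show 4 = 2 * 2 from rfl, pow_mul, pow_mul, pow_two x, pow_two y, hxx, hyy]; simp)
  have hx1 : x ≠ 1 := fun h => hn (h ▸ Commute.one_left y)
  have hy1 : y ≠ 1 := fun h => hn (h ▸ Commute.one_right x)
  obtain ⟨y₁, hy₁, hy₁1, c1⟩ := h1 x hx hx1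
  obtain ⟨x₂, hx₂, hx₂1, c2⟩ := h2 y hy hy1
  have hx₂x₂ := TwoGrp.mul_self_of_isKleinFour hB hx₂
  have hy₁y₁ := TwoGrp.mul_self_of_isKleinFour hC hy₁
  have cx : Commute x x₂ := TwoGrp.comm_of_isKleinFour hB hx hx₂
  have hne : y₁ ≠ y := fun h => hn (h ▸ c1)
  have hne' : x * x₂ ≠ 1 := fun h => hn (by
    rw [eq_inv_of_mul_eq_one_left h]; exact c2.inv_left)
  obtain ⟨y', hy', hy'1, c3⟩ := h1 _ (mul_mem hx hx₂) hne'
  rcases (TwoGrp.mem_iff_of_isKleinFour hC hy₁ hy hy₁1 hy1 hne y').1 hy' with h | h | h | h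
  · exact absurd h hy'1
  · refine ⟨x₂, hx₂, hx₂1, fun v hv => ?_⟩
    have c4 : Commute x₂ y₁ := by
      have := c1.inv_left.mul_left (h ▸ c3)
      rwa [inv_mul_cancel_left] at this
    rcases (TwoGrp.mem_iff_of_isKleinFour hC hy₁ hy hy₁1 hy1 hne v).1 hv with h | h | h | h <;>
      rw [h]
    exacts [Commute.one_right _, c4, c2, c4.mul_right c2]
  · refine absurd ?_ hn
    have := (h ▸ c3 : Commute (x * x₂) y).mul_left c2.inv_left
    rwa [mul_inv_cancel_right] at this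
  · exact absurd (pow_four_of_matching hxx hx₂x₂ hy₁y₁ hyy cx c1 c2 (h ▸ c3)) h4

theorem eq_one_of_odd_of_inv {G : Type*} [Group G] {d : G} (hd : Odd (orderOf d)) {n : ℕ}
    (h : d ^ 2 ^ n = 1) : d = 1 := by
  rw [← orderOf_eq_one_iff]
  exact Nat.eq_one_of_dvd_coprimes (Nat.Coprime.pow_right n (Nat.coprime_two_right.2 hd)) dvd_rfl
    (orderOf_dvd_of_pow_eq_one h)


/-- Let A be a Klein four-subgroup of a finite group G. If every G-conjugate of every involution of A commutes with some involution of A (its centralizer meets A nontrivially), then A meets the largest normal 2-subgroup O₂(G) nontrivially. -/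
theorem result {G : Type*} [Group G] [Finite G]
    (A : Subgroup G) (hA : IsKleinFour ↥A)
    (h : ∀ a ∈ A, a ≠ 1 → ∀ g : G, A ⊓ Subgroup.centralizer ({g * a * g⁻¹} : Set G) ≠ ⊥) :
    A ⊓ Cfsg.pCore 2 G ≠ ⊥ := by
  intro hcon
  have hK : ∀ g : G, IsKleinFour (cj g A) := fun g =>
    ⟨by rw [card_cj]; exact hA.card_four, by
      rw [← Monoid.exponent_eq_of_mulEquiv (cjEquiv g A)]; exact hA.exponent_two⟩
  have hmeet : ∀ g k : G, ∀ y ∈ cj k A, y ≠ 1 → ∃ x ∈ cj g A, x ≠ 1 ∧ Commute x y := by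
    intro g k y hy hy1
    obtain ⟨a, ha, rfl⟩ := mem_cj'.1 hy
    obtain ⟨u, hu, hu1⟩ := exists_ne_one_of_ne_bot
      (h a ha (fun e => hy1 (by rw [e]; group)) (g⁻¹ * k))
    refine ⟨g * u * g⁻¹, conj_mem_cj.2 hu.1, fun e => hu1 (conj_eq_one_iff.1 e), ?_⟩
    have h1 := mem_cent1.1 hu.2
    calc g * u * g⁻¹ * (k * a * k⁻¹) = g * (u * (g⁻¹ * k * a * (g⁻¹ * k)⁻¹)) * g⁻¹ := by group
      _ = k * a * k⁻¹ * (g * u * g⁻¹) := by rw [h1]; group
  have hdich : ∀ g k : G, ∀ x ∈ cj g A, ∀ y ∈ cj k A, (x * y) ^ 4 ≠ 1 →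
      ∃ u ∈ cj g A, u ≠ 1 ∧ ∀ v ∈ cj k A, Commute u v := fun g k x hx y hy h4 =>
    four_dichotomy (hK g) (hK k) (fun x hx hx1 => by
      obtain ⟨y, hy, hy1, c⟩ := hmeet k g x hx hx1
      exact ⟨y, hy, hy1, c.symm⟩) (hmeet g k) hx hy h4
  have hstep : ∀ a ∈ A, a ≠ 1 → ∃ x ∈ A, x ≠ 1 ∧ ∃ d : G, d ≠ 1 ∧ Odd (orderOf d) ∧
      a * d * a⁻¹ = d⁻¹ ∧ Commute x d := by
    intro a ha ha1
    have haa := TwoGrp.mul_self_of_isKleinFour hA ha
    obtain ⟨g, d, hd, hd1, hodd, hinv⟩ := Invol.exists_inverted_of_not_mem_pCore haa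
      (fun h2 => ha1 (by rw [← mem_bot, ← hcon]; exact ⟨ha, h2⟩))
    obtain ⟨u, hu, hu1, hc⟩ := hdich 1 g a (by rwa [cj_one]) _ (conj_mem_cj.2 ha) (fun h4 => by
      obtain ⟨i, rfl⟩ := hd
      refine hd1 (eq_one_of_odd_of_inv hodd (n := 2) ?_)
      simp only []
      rw [← zpow_natCast, ← zpow_mul, mul_comm, zpow_mul, zpow_natCast]
      rw [show 2 ^ 2 = 4 from rfl, h4, one_zpow])
    rw [cj_one] at hu
    refine ⟨u, hu, hu1, d, hd1, hodd, hinv, ?_⟩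
    obtain ⟨i, rfl⟩ := hd
    exact (Commute.mul_right (TwoGrp.comm_of_isKleinFour hA hu ha)
      (hc _ (conj_mem_cj.2 ha))).zpow_right i
  have hnc : ∀ {a d : G}, d ≠ 1 → Odd (orderOf d) → a * d * a⁻¹ = d⁻¹ → ¬ Commute a (d * d) := by
    intro a d hd1 hodd hinv hc
    refine hd1 (eq_one_of_odd_of_inv hodd (n := 2) ?_)
    have h1 : a * (d * d) * a⁻¹ = d * d := by rw [hc.eq]; group
    rw [← conj_mul, hinv] at h1
    calc d ^ 2 ^ 2 = d * d * (d * d) := by rw [← pow_two, ← pow_two, ← pow_mul]; rfl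
      _ = 1 := by nth_rewrite 2 [← h1]; group
  obtain ⟨a, -, ha, -, ha1, -, -⟩ := TwoGrp.exists_gens_of_isKleinFour hA
  obtain ⟨x, hx, hx1, d, hd1, hdo, hda, hdx⟩ := hstep a ha ha1
  obtain ⟨x', hx', hx'1, e, he1, heo, hex, hex'⟩ := hstep x hx hx1
  have hxa : a ≠ x := fun h => hnc hd1 hdo hda (h ▸ hdx.mul_right hdx)
  have hxx' : x ≠ x' := fun h => hnc he1 heo hex (h ▸ hex'.mul_right hex')
  have hdx' : x' * d * x'⁻¹ = d⁻¹ := by
    rcases (TwoGrp.mem_iff_of_isKleinFour hA ha hx ha1 hx1 hxa x').1 hx' with h | h | h | h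
    · exact absurd h hx'1
    · rw [h, hda]
    · exact absurd h.symm hxx'
    · rw [h, ← hda, mul_assoc a, hdx.eq]; group
  have hxd : d * x * d⁻¹ = x := by rw [← hdx.eq]; group
  have hxe : e * x' * e⁻¹ = x' := by rw [← hex'.eq]; group
  have hxx := TwoGrp.mul_self_of_isKleinFour hA hx
  have cxx' : Commute x x' := TwoGrp.comm_of_isKleinFour hA hx hx'
  have f0 : ∀ {x e : G}, x * e * x⁻¹ = e⁻¹ → e * x * e⁻¹ = e * e * x := fun {x e} h => by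
    have h1 : x * e⁻¹ * x⁻¹ = e := by rw [← conj_inv, h, inv_inv]
    calc e * x * e⁻¹ = e * (x * e⁻¹ * x⁻¹) * x := by group
      _ = e * e * x := by rw [h1]
  have f1 := f0 hex
  have f2 := f0 hdx'
  obtain ⟨u, hu, hu1, hc⟩ := hdich d e _ (conj_mem_cj.2 hx) _ (conj_mem_cj.2 hx) (fun h4 => by
    refine he1 (eq_one_of_odd_of_inv heo (n := 3) ?_)
    have h1 : x * (e * e * x) = (e * e)⁻¹ := by
      rw [mul_inv_rev, ← hex, conj_mul, inv_eq_of_mul_eq_one_right hxx, mul_assoc x]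
    rw [hxd, f1, h1, inv_pow, inv_eq_one, ← pow_two, ← pow_mul] at h4
    exact h4)
  have c1 := hc _ (conj_mem_cj.2 hx)
  have c2 := hc _ (conj_mem_cj.2 hx')
  rw [f1] at c1
  rw [hxe] at c2
  obtain ⟨v, hv, rfl⟩ := mem_cj'.1 hu
  rcases (TwoGrp.mem_iff_of_isKleinFour hA hx hx' hx1 hx'1 hxx' v).1 hv with h | h | h | h
  · exact hu1 (by rw [h]; group)
  · rw [h, hxd] at c1
    have := c1.mul_right (Commute.refl x).inv_right
    rw [mul_inv_cancel_right] at this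
    exact hnc he1 heo hex this
  · rw [h, f2] at c2
    have := c2.symm.mul_right (Commute.refl x').inv_right
    rw [mul_inv_cancel_right] at this
    exact hnc hd1 hdo hdx' this
  · rw [h, ← conj_mul, hxd, f2] at c2
    have := (cxx'.symm.inv_right.mul_right c2.symm).mul_right (Commute.refl x').inv_right
    rw [inv_mul_cancel_left, mul_inv_cancel_right] at this
    exact hnc hd1 hdo hdx' this

end Cfsg.Agent.S3195
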