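import Cfsg.Statements.S3196
import Cfsg.Agent.Lib.InvChar.SylowBasic
import Cfsg.Agent.Lib.Core.MinNormal

set_option autoImplicit false
open Cfsg

namespace Cfsg.Agent.S3196

open CfsgLib.InvChar
section Polar

variable {P : Type*} (c : P → P → Prop) (L : P → P → P → Prop)

/-- An abstract polar space: `c` is collinearity, `L X Y Z` says that `Z` is on the line `X Y`. -/
structure IsPolar : Prop where
  refl : ∀ X, c X X
  symm : ∀ X Y, c X Y → c Y X
  left : ∀ X Y, L X Y X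
  right : ∀ X Y, L X Y Y
  all : ∀ X Y, X ≠ Y → c X Y → ∀ U V, L X Y U → L X Y V → U ≠ V → ∀ W, c W U → c W V →
    ∀ Z, L X Y Z → c W Z
  one : ∀ X Y, X ≠ Y → c X Y → ∀ W, ∃ Z, L X Y Z ∧ c W Z

variable {c L}

theorem IsPolar.line (h : IsPolar c L) {X Y : P} (hne : X ≠ Y) (hc : c X Y) {W : P} (h1 : c W X)
    (h2 : c W Y) {Z : P} (hZ : L X Y Z) : c W Z :=
  h.all X Y hne hc X Y (h.left _ _) (h.right _ _) hne W h1 h2 Z hZ

theorem IsPolar.on_line (h : IsPolar c L) {X Y : P} (hne : X ≠ Y) (hc : c X Y) {U V : P}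
    (hU : L X Y U) (hV : L X Y V) : c U V :=
  h.line hne hc (h.symm _ _ (h.line hne hc (h.refl X) hc hU))
    (h.symm _ _ (h.line hne hc (h.symm _ _ hc) (h.refl Y) hU)) hV

theorem IsPolar.eq_of_perp (h : IsPolar c L) (hnd : ∀ V, ∃ W, ¬ c V W) {A B : P}
    (hAB : ∀ U, c A U → c B U) : A = B := by
  by_contra hne
  have hc : c A B := h.symm _ _ (hAB A (h.refl A))
  have hstar : ∀ U, c A U → ∀ Z, L A B Z → c U Z := fun U hU Z hZ =>
    h.line hne hc (h.symm _ _ hU) (h.symm _ _ (hAB U hU)) hZ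
  obtain ⟨Pt, hP⟩ := hnd B
  obtain ⟨Q, hQ, hPQ⟩ := h.one A B hne hc Pt
  have hQB : Q ≠ B := fun e => hP (h.symm _ _ (e ▸ hPQ))
  obtain ⟨P', hP'⟩ := hnd Q
  obtain ⟨Q', hQ', hPQ'⟩ := h.one A B hne hc P'
  have hQQ' : Q ≠ Q' := fun e => hP' (h.symm _ _ (e ▸ hPQ'))
  have hPQ'ne : P' ≠ Q' := fun e => hP' (e ▸ h.on_line hne hc hQ hQ')
  obtain ⟨R, hR, hPR⟩ := h.one P' Q' hPQ'ne hPQ' Pt
  have hnPQ' : ¬ c Pt Q' := fun e =>
    hP (h.symm _ _ (h.all A B hne hc Q Q' hQ hQ' hQQ' Pt hPQ e B (h.right _ _)))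
  have hRQ' : R ≠ Q' := fun e => hnPQ' (e ▸ hPR)
  have hPRne : Pt ≠ R := fun e => hnPQ' (e ▸ h.on_line hPQ'ne hPQ' hR (h.right _ _))
  obtain ⟨U, hU, hAU⟩ := h.one Pt R hPRne hPR A
  have hUQ : c U Q := hstar U hAU Q hQ
  have hUP : U ≠ Pt := fun e => hP (hAB _ (e ▸ hAU))
  have hQR : c Q R := h.all Pt R hPRne hPR U Pt hU (h.left _ _) hUP Q (h.symm _ _ hUQ)
    (h.symm _ _ hPQ) R (h.right _ _)
  exact hP' (h.all P' Q' hPQ'ne hPQ' R Q' hR (h.right _ _) hRQ' Q hQR (h.on_line hne hc hQ hQ') P'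
    (h.left _ _))

theorem IsPolar.eq_of_perp' (h : IsPolar c L) (hnd : ∀ V, ∃ W, ¬ c V W) {A B W : P}
    (hAW : ¬ c A W) (hAB : c A B) (hH : ∀ U, c A U → c W U → c B U) : A = B := by
  refine h.eq_of_perp hnd fun U hU => ?_
  by_cases hAU : A = U
  · exact hAU ▸ h.symm _ _ hAB
  obtain ⟨U', hU', hWU'⟩ := h.one A U hAU hU W
  have h1 : U' ≠ A := fun e => hAW (h.symm _ _ (e ▸ hWU'))
  have h2 : c A U' := h.on_line hAU hU (h.left _ _) hU'
  exact h.all A U hAU hU U' A hU' (h.left _ _) h1 B (hH U' h2 hWU') (h.symm _ _ hAB) U (h.right _ _)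

theorem IsPolar.main (h : IsPolar c L) (hnd : ∀ V, ∃ W, ¬ c V W) {X X' W W' : P}
    (hXX' : c X X') (hXW : ¬ c X W) (hX'W : ¬ c X' W) (hWW' : W ≠ W')
    (h1 : ∀ U, c X U → c W U → c W' U) (h2 : ∀ U, c X' U → c W U → c W' U) : X = X' := by
  have hn : ¬ c W W' := by
    intro hc
    obtain ⟨Z, hZ, hXZ⟩ := h.one W W' hWW' hc X
    have : X = Z := h.eq_of_perp' hnd hXW hXZ fun U hU1 hU2 =>
      h.symm _ _ (h.line hWW' hc (h.symm _ _ hU2) (h.symm _ _ (h1 U hU1 hU2)) hZ)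
    exact hXW (this ▸ h.on_line hWW' hc hZ (h.left _ _))
  refine h.eq_of_perp' hnd hXW hXX' fun U hU1 hU2 => ?_
  have hWU : W ≠ U := fun e => hXW (e ▸ hU1)
  obtain ⟨U', hU', hX'U'⟩ := h.one W U hWU hU2 X'
  by_cases e : U = U'
  · exact e ▸ hX'U'
  · exfalso
    have h3 : c W U' := h.on_line hWU hU2 (h.left _ _) hU'
    exact hn (h.symm _ _ (h.all W U hWU hU2 U U' (h.right _ _) hU' e W' (h1 U hU1 hU2)
      (h2 U' hX'U' h3) W (h.left _ _)))

end Polar

section Grp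

variable {G : Type*} [Group G] [Finite G] {p : ℕ}

theorem eq_zpowers (hp : p.Prime) {X : Subgroup G} (hX : Nat.card X = p) {x : G} (hx : x ∈ X)
    (h1 : x ≠ 1) : Subgroup.zpowers x = X := by
  have hle : Subgroup.zpowers x ≤ X := by simpa using hx
  have hd := Subgroup.card_dvd_of_le hle
  rw [hX] at hd
  rcases (Nat.dvd_prime hp).1 hd with h | h
  · rw [Subgroup.card_eq_one, Subgroup.zpowers_eq_bot] at h
    exact absurd h h1
  · exact Subgroup.eq_of_le_of_card_ge hle (by rw [h, hX])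

theorem inf_eq_bot_of_ne (hp : p.Prime) {X Y : Subgroup G} (hX : Nat.card X = p) (hY : Nat.card Y = p)
    (hne : X ≠ Y) : X ⊓ Y = ⊥ := by
  rw [eq_bot_iff]
  intro x hx
  by_contra h1
  exact hne ((eq_zpowers hp hX hx.1 h1).symm.trans (eq_zpowers hp hY hx.2 h1))

theorem exists_ne_one (hp : p.Prime) {X : Subgroup G} (hX : Nat.card X = p) : ∃ x ∈ X, x ≠ 1 := by
  by_contra h
  push Not at h
  have : X = ⊥ := eq_bot_iff.2 h
  rw [this, Subgroup.card_bot] at hX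
  exact hp.one_lt.ne hX

theorem le_normalizer_of_comm {X Y : Subgroup G} (h : ∀ x ∈ X, ∀ y ∈ Y, x * y = y * x) :
    X ≤ Subgroup.normalizer (Y : Set G) := fun x hx =>
  mem_normalizer_of_conj_mem fun y hy => by rw [h x hx y hy]; simpa using hy

theorem card_sup (hp : p.Prime) {X Y : Subgroup G} (hX : Nat.card X = p) (hY : Nat.card Y = p)
    (hne : X ≠ Y) (h : ∀ x ∈ X, ∀ y ∈ Y, x * y = y * x) : Nat.card (X ⊔ Y : Subgroup G) = p * p := by
  rw [CfsgLib.Core.card_sup_of_le_normalizer_of_disjoint (le_normalizer_of_comm h)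
    (inf_eq_bot_of_ne hp hX hY hne), hX, hY]

theorem comm_self (hp : p.Prime) {X : Subgroup G} (hX : Nat.card X = p) :
    ∀ x ∈ X, ∀ y ∈ X, x * y = y * x := by
  obtain ⟨z, hz, hz1⟩ := exists_ne_one hp hX
  rw [← eq_zpowers hp hX hz hz1]
  rintro _ ⟨a, rfl⟩ _ ⟨b, rfl⟩
  exact (Commute.zpow_zpow_self z a b).eq

theorem pow_eq_one_of_mem_sup {X Y : Subgroup G} (hX : Nat.card X = p) (hY : Nat.card Y = p)
    (h : ∀ x ∈ X, ∀ y ∈ Y, x * y = y * x) {z : G} (hz : z ∈ X ⊔ Y) : z ^ p = 1 := by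
  obtain ⟨x, hx, y, hy, rfl⟩ :=
    (CfsgLib.Core.mem_sup_of_le_normalizer_right (le_normalizer_of_comm h)).1 hz
  have h1 : x ^ p = 1 := by
    have := pow_card_eq_one' (G := X) (x := ⟨x, hx⟩)
    rw [hX] at this
    exact congrArg Subtype.val this
  have h2 : y ^ p = 1 := by
    have := pow_card_eq_one' (G := Y) (x := ⟨y, hy⟩)
    rw [hY] at this
    exact congrArg Subtype.val this
  rw [Commute.mul_pow (h x hx y hy), h1, h2, mul_one]

theorem card_zpowers_eq (hp : p.Prime) {z : G} (h1 : z ≠ 1) (h2 : z ^ p = 1) :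
    Nat.card (Subgroup.zpowers z) = p := by
  have : Fact p.Prime := ⟨hp⟩
  rw [Nat.card_zpowers, orderOf_eq_prime h2 h1]

end Grp


/-- Let p be a prime and K a set of subgroups of order p of a finite group G, closed under conjugation, such that at least two distinct members of K commute elementwise, and whenever two distinct members X, Y of K commute: every subgroup of order p of the group XY they generate belongs to K, and every member W of K has centralizer meeting XY nontrivially. Then some member V of K commutes elementwise with every member of K and lies in O_p(G); in particular G is not simple. -/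
theorem result {G : Type*} [Group G] [Finite G]
    {p : ℕ} (hp : p.Prime) (K : Set (Subgroup G)) (hK : ∀ X ∈ K, Nat.card ↥X = p)
    (hKc : ∀ X ∈ K, ∀ g : G, X.map (MulAut.conj g).toMonoidHom ∈ K)
    (hex : ∃ X ∈ K, ∃ Y ∈ K, X ≠ Y ∧ ∀ x ∈ X, ∀ y ∈ Y, x * y = y * x)
    (ha : ∀ X ∈ K, ∀ Y ∈ K, X ≠ Y → (∀ x ∈ X, ∀ y ∈ Y, x * y = y * x) →
      ∀ Z : Subgroup G, Z ≤ X ⊔ Y → Nat.card ↥Z = p → Z ∈ K)
    (hb : ∀ X ∈ K, ∀ Y ∈ K, X ≠ Y → (∀ x ∈ X, ∀ y ∈ Y, x * y = y * x) →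
      ∀ W ∈ K, (X ⊔ Y) ⊓ Subgroup.centralizer (W : Set G) ≠ ⊥) :
    (∃ V ∈ K, (∀ W ∈ K, ∀ v ∈ V, ∀ w ∈ W, v * w = w * v) ∧ V ≤ Cfsg.pCore p G) ∧ ¬ IsSimpleGroup G := by
  have : Fact p.Prime := ⟨hp⟩
  let c : K → K → Prop := fun X Y => ∀ x ∈ X.1, ∀ y ∈ Y.1, x * y = y * x
  let L : K → K → K → Prop := fun X Y Z => Z.1 ≤ X.1 ⊔ Y.1
  have hcen : ∀ (W : K) (H : Subgroup G), H ≤ Subgroup.centralizer (W.1 : Set G) ↔
      ∀ x ∈ W.1, ∀ y ∈ H, x * y = y * x := by
    intro W H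
    exact ⟨fun h x hx y hy => h hy x hx, fun h y hy x hx => h x hx y hy⟩
  have hpol : IsPolar c L := by
    refine ⟨fun X => comm_self hp (hK _ X.2), fun X Y h y hy x hx => (h x hx y hy).symm,
      fun X Y => le_sup_left, fun X Y => le_sup_right, ?_, ?_⟩
    · intro X Y hne hc U V hU hV hUV W h1 h2 Z hZ
      have hXY : ∀ a ∈ X.1 ⊔ Y.1, ∀ b ∈ X.1 ⊔ Y.1, a * b = b * a := by
        have e1 : X.1 ⊔ Y.1 ≤ Subgroup.centralizer (X.1 : Set G) :=
          sup_le ((hcen X _).2 (comm_self hp (hK _ X.2))) ((hcen X _).2 hc)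
        have e2 : X.1 ⊔ Y.1 ≤ Subgroup.centralizer (Y.1 : Set G) :=
          sup_le ((hcen Y _).2 fun y hy x hx => (hc x hx y hy).symm) ((hcen Y _).2 (comm_self hp (hK _ Y.2)))
        intro a ha b hb
        have e3 : X.1 ⊔ Y.1 ≤ Subgroup.centralizer ({a} : Set G) :=
          sup_le (fun x hx => Subgroup.mem_centralizer_singleton_iff.2 (e1 ha x hx))
            (fun x hx => Subgroup.mem_centralizer_singleton_iff.2 (e2 ha x hx))
        exact (Subgroup.mem_centralizer_singleton_iff.1 (e3 hb)).symm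
      have hUVc : ∀ x ∈ U.1, ∀ y ∈ V.1, x * y = y * x := fun x hx y hy => hXY x (hU hx) y (hV hy)
      have heq : U.1 ⊔ V.1 = X.1 ⊔ Y.1 := by
        refine Subgroup.eq_of_le_of_card_ge (sup_le hU hV) ?_
        rw [card_sup hp (hK _ U.2) (hK _ V.2) (fun e => hUV (Subtype.ext e)) hUVc,
          card_sup hp (hK _ X.2) (hK _ Y.2) (fun e => hne (Subtype.ext e)) hc]
      have : Z.1 ≤ Subgroup.centralizer (W.1 : Set G) :=
        hZ.trans (heq ▸ sup_le ((hcen W _).2 h1) ((hcen W _).2 h2))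
      exact (hcen W _).1 this
    · intro X Y hne hc W
      have hne' : X.1 ≠ Y.1 := fun e => hne (Subtype.ext e)
      obtain ⟨z, hz, hz1⟩ := (Subgroup.bot_or_exists_ne_one _).resolve_left (hb X X.2 Y Y.2 hne' hc W W.2)
      have hzK : Subgroup.zpowers z ∈ K := ha X X.2 Y Y.2 hne' hc _ (by simpa using hz.1)
        (card_zpowers_eq hp hz1 (pow_eq_one_of_mem_sup (hK _ X.2) (hK _ Y.2) hc hz.1))
      exact ⟨⟨_, hzK⟩, by simpa [L] using hz.1, (hcen W _).1 (by simpa using hz.2)⟩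
  have hrad : ∃ V : K, ∀ W : K, c V W := by
    by_contra hcon
    push Not at hcon
    obtain ⟨X₀, hX₀, Y₀, hY₀, hne₀, hc₀⟩ := hex
    have hne₀' : (⟨X₀, hX₀⟩ : K) ≠ ⟨Y₀, hY₀⟩ := fun e => hne₀ (congrArg Subtype.val e)
    set X : K := ⟨X₀, hX₀⟩ with hXdef
    obtain ⟨W, hXW⟩ := hcon X
    obtain ⟨Y, hYL, hWY⟩ := hpol.one X ⟨Y₀, hY₀⟩ hne₀' hc₀ W
    have hXY : X ≠ Y := fun e => hXW (hpol.symm _ _ (e ▸ hWY))
    have hcXY : c X Y := hpol.on_line hne₀' hc₀ (hpol.left _ _) hYL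
    have hXY' : X.1 ≠ Y.1 := fun e => hXY (Subtype.ext e)
    obtain ⟨x, hx, hx1⟩ := exists_ne_one hp (hK _ X.2)
    obtain ⟨y, hy, hy1⟩ := exists_ne_one hp (hK _ Y.2)
    have hdisj := inf_eq_bot_of_ne hp (hK _ X.2) (hK _ Y.2) hXY'
    have hxyX : x * y ∉ X.1 := by
      intro h
      have : y ∈ X.1 ⊓ Y.1 := ⟨(mul_mem_cancel_left hx).1 h, hy⟩
      rw [hdisj] at this
      exact hy1 this
    have hxyY : x * y ∉ Y.1 := by
      intro h
      have : x ∈ X.1 ⊓ Y.1 := ⟨hx, (mul_mem_cancel_right hy).1 h⟩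
      rw [hdisj] at this
      exact hx1 this
    have hxy1 : x * y ≠ 1 := fun e => hxyX (e ▸ one_mem _)
    have hxymem : x * y ∈ X.1 ⊔ Y.1 := Subgroup.mul_mem_sup hx hy
    have hX'K : Subgroup.zpowers (x * y) ∈ K := ha X X.2 Y Y.2 hXY' hcXY _ (by simpa using hxymem)
      (card_zpowers_eq hp hxy1 (pow_eq_one_of_mem_sup (hK _ X.2) (hK _ Y.2) hcXY hxymem))
    set X' : K := ⟨_, hX'K⟩ with hX'def
    have hX'L : L X Y X' := by simpa [L, X'] using hxymem
    have hX'Y : X' ≠ Y := fun e => hxyY (e ▸ Subgroup.mem_zpowers (x * y))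
    have hX'W : ¬ c X' W := fun h => hXW (hpol.symm _ _
      (hpol.all X Y hXY hcXY X' Y hX'L (hpol.right _ _) hX'Y W (hpol.symm _ _ h) hWY X (hpol.left _ _)))
    let W' : K := ⟨_, hKc W W.2 x⟩
    have hconj : ∀ g : G, (∀ w ∈ W.1, g * w * g⁻¹ = x * w * x⁻¹) → ∀ U : K,
        (∀ u ∈ U.1, g * u = u * g) → c W U → c W' U := by
      rintro g hg U h1 h2 _ ⟨w, hw, rfl⟩ u hu
      change x * w * x⁻¹ * u = u * (x * w * x⁻¹)
      rw [← hg w hw]
      have e1 : Commute g u := h1 u hu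
      have e2 : Commute w u := h2 w hw u hu
      exact ((e1.mul_left e2).mul_left e1.inv_left).eq
    have hWW' : W ≠ W' := by
      intro e
      apply hXW
      have hn : X.1 ≤ Subgroup.normalizer (W.1 : Set G) := by
        rw [← eq_zpowers hp (hK _ X.2) hx hx1, Subgroup.zpowers_le]
        exact map_conj_eq_iff_mem_normalizer.1 (congrArg Subtype.val e).symm
      have hWne : W.1 ≠ ⊥ := by
        intro h
        have := hK _ W.2
        rw [h, Subgroup.card_bot] at this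
        exact hp.one_lt.ne this
      have := CfsgLib.Core.inf_centralizer_ne_bot_of_isPGroup (p := p)
        (IsPGroup.of_card (n := 1) (by rw [hK _ W.2, pow_one]))
        (IsPGroup.of_card (n := 1) (by rw [hK _ X.2, pow_one])) hn hWne
      obtain ⟨w, hw, hw1⟩ := (Subgroup.bot_or_exists_ne_one _).resolve_left this
      refine (hcen X _).1 ?_
      rw [← eq_zpowers hp (hK _ W.2) hw.1 hw1]
      simpa using hw.2
    have := hpol.main hcon (hpol.on_line hXY hcXY (hpol.left _ _) hX'L) hXW hX'W hWW'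
      (fun U h1 h2 => hconj x (fun _ _ => rfl) U (fun u hu => h1 x hx u hu) h2)
      (fun U h1 h2 => hconj (x * y) (fun w hw => by
        rw [mul_assoc x y w, ← hWY w hw y hy]; group) U
        (fun u hu => h1 _ (Subgroup.mem_zpowers _) u hu) h2)
    exact hxyX (this ▸ Subgroup.mem_zpowers (x * y))
  obtain ⟨V, hV⟩ := hrad
  have hVO : V.1 ≤ Cfsg.pCore p G := by
    obtain ⟨v, hv, hv1⟩ := exists_ne_one hp (hK _ V.2)
    have hvp : v ^ p = 1 := by
      have := pow_card_eq_one' (G := V.1) (x := ⟨v, hv⟩)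
      rw [hK _ V.2] at this
      exact congrArg Subtype.val this
    have hcj : ∀ a ∈ Group.conjugatesOfSet ({v} : Set G), ∃ g, g * v * g⁻¹ = a := by
      intro a ha
      obtain ⟨w, hw, ha'⟩ := Group.mem_conjugatesOfSet_iff.1 ha
      rw [Set.mem_singleton_iff.1 hw] at ha'
      exact isConj_iff.1 ha'
    have hcomm : ∀ a ∈ Group.conjugatesOfSet ({v} : Set G), ∀ b ∈ Group.conjugatesOfSet ({v} : Set G),
        a * b = b * a := by
      intro a ha b hb
      obtain ⟨g, rfl⟩ := hcj a ha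
      obtain ⟨h, rfl⟩ := hcj b hb
      have := hV ⟨_, hKc V V.2 (g⁻¹ * h)⟩ _ hv _ (conj_mem_map_conj (g⁻¹ * h) hv)
      calc _ = g * (v * (g⁻¹ * h * v * (g⁻¹ * h)⁻¹)) * g⁻¹ := by group
        _ = g * ((g⁻¹ * h * v * (g⁻¹ * h)⁻¹) * v) * g⁻¹ := by rw [this]
        _ = _ := by group
    have hN : ∀ a ∈ Subgroup.normalClosure ({v} : Set G), a ^ p = 1 := by
      intro a ha
      have hc := Subgroup.isMulCommutative_closure hcomm
      induction ha using Subgroup.closure_induction with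
      | mem a ha =>
        obtain ⟨g, rfl⟩ := hcj a ha
        rw [conj_pow, hvp]; simp
      | one => simp
      | mul a b ha hb iha ihb =>
        have : a * b = b * a := congrArg Subtype.val (hc.is_comm.comm ⟨a, ha⟩ ⟨b, hb⟩)
        rw [Commute.mul_pow this, iha, ihb, mul_one]
      | inv a _ iha => rw [inv_pow, iha, inv_one]
    have hle : Subgroup.normalClosure ({v} : Set G) ≤ Cfsg.pCore p G :=
      le_sSup ⟨inferInstance, CfsgLib.Core.isPGroup_of_forall_pow_eq_one hN⟩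
    rw [← eq_zpowers hp (hK _ V.2) hv hv1, Subgroup.zpowers_le]
    exact hle (Subgroup.subset_normalClosure rfl)
  refine ⟨⟨V.1, V.2, fun W hW => hV ⟨W, hW⟩, hVO⟩, fun hs => ?_⟩
  obtain ⟨X₀, hX₀, Y₀, hY₀, hne₀, -⟩ := hex
  have hVne : V.1 ≠ ⊥ := by
    intro h
    have := hK _ V.2
    rw [h, Subgroup.card_bot] at this
    exact hp.one_lt.ne this
  have htop : Cfsg.pCore p G = ⊤ :=
    (hs.eq_bot_or_eq_top_of_normal _ inferInstance).resolve_left fun e => hVne (le_bot_iff.1 (e ▸ hVO))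
  have hG : IsPGroup p G := by
    have := CfsgLib.Core.isPGroup_pCore p G
    rw [htop] at this
    exact this.of_equiv Subgroup.topEquiv
  have := hG.isNilpotent
  have hprime := CfsgLib.Core.card_prime_of_isSimpleGroup_of_isSolvable (G := G)
  have h1 : p = Nat.card G :=
    (Nat.prime_dvd_prime_iff_eq hp hprime).1 (hK _ hX₀ ▸ Subgroup.card_subgroup_dvd_card X₀)
  apply hne₀
  rw [(Subgroup.card_eq_iff_eq_top X₀).1 (by rw [hK _ hX₀, h1]),
    (Subgroup.card_eq_iff_eq_top Y₀).1 (by rw [hK _ hY₀, h1])]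

end Cfsg.Agent.S3196
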