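import Cfsg.Statements.S3200
import Cfsg.Agent.Lib.BG.AmbSol
import Cfsg.Agent.Lib.SolvStruct.Kegel

set_option autoImplicit false
open Cfsg

namespace Cfsg.Agent.S3200

open CfsgLib.BG Subgroup

theorem compl_of_hall {X : Type*} [Group X] [Finite X] (P : Sylow 2 X) {D : Subgroup X}
    (h : IsPiHallOf {2}ᶜ D ⊤) : IsComplement' (P : Subgroup X) D := by
  have hP := isSylowOf_top Nat.prime_two P
  refine isComplement'_of_coprime ?_ (pigroup_coprime (pHall_pgroup hP) (pHall_pgroup h))
  rw [card_pHall_mul hP h, card_top]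


/-- Let H be a finite group in which a Sylow 2-subgroup has an abelian complement (an abelian subgroup meeting it trivially whose product with it is all of H). Then H is solvable, and every subgroup and every quotient group of H again has a Sylow 2-subgroup with an abelian complement. -/
theorem result {H : Type*} [Group H] [Finite H]
    (S : Sylow 2 H) (C : Subgroup H) (hC : IsMulCommutative ↥C) (hSC : Subgroup.IsComplement' (S : Subgroup H) C) :
    Group.IsSolvable H ∧
    (∀ L : Subgroup H, ∃ (P : Sylow 2 ↥L) (D : Subgroup ↥L), IsMulCommutative ↥D ∧ Subgroup.IsComplement' (P : Subgroup ↥L) D) ∧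
    (∀ (N : Subgroup H) [N.Normal], ∃ (P : Sylow 2 (H ⧸ N)) (D : Subgroup (H ⧸ N)),
      IsMulCommutative ↥D ∧ Subgroup.IsComplement' (P : Subgroup (H ⧸ N)) D) := by
  have hS := isSylowOf_top Nat.prime_two S
  have hnil : Group.IsNilpotent (S : Subgroup H) := pgp_nil (pHall_pgroup hS)
  have hsol : Group.IsSolvable H :=
    CfsgLib.SolvStruct.IsFactor.isSolvable_of_isNilpotent (A := S) (B := C) (fun g => by
      obtain ⟨⟨a, b⟩, h, -⟩ := hSC.existsUnique g
      exact ⟨a, a.2, b, b.2, h.symm⟩) hnil (abelian_nil hC)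
  have hCH : IsPiHallOf {2}ᶜ C ⊤ := by
    refine pHall_intro le_top ?_ ?_
    · rw [p'group_iff Nat.prime_two, ← hSC.symm.index_eq_card, ← relIndex_top_right]
      exact Sylow_index Nat.prime_two hS
    · rw [compl_compl, relIndex_top_right, hSC.index_eq_card]
      exact pHall_pgroup hS
  refine ⟨hsol, fun L => ?_, fun N _ => ?_⟩
  · obtain ⟨D, hD⟩ := Hall_exists {2}ᶜ (M := L) inferInstance
    obtain ⟨x, -, hx⟩ := Hall_subJ (M := ⊤) inferInstance hCH le_top (pHall_pgroup hD)
    have hab : IsMulCommutative D := abelianS hx (isMulCommutative_cj.2 hC)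
    refine ⟨default, D.subgroupOf L, inferInstance, compl_of_hall _ ?_⟩
    exact pHall_top.2 ((pHall_subgroupOf (pHall_sub hD)).1 hD)
  · refine ⟨default, C.map (QuotientGroup.mk' N), inferInstance, compl_of_hall _ ?_⟩
    refine pHall_intro le_top ?_ ?_
    · exact isPiSubgroup_iff.2 ((isPiSubgroup_iff.1 (pHall_pgroup hCH)).of_dvd (card_map_dvd _ _))
    · refine (pHall_index hCH).of_dvd ?_
      rw [relIndex_top_right, relIndex_top_right]
      exact index_map_dvd _ (QuotientGroup.mk'_surjective N)

end Cfsg.Agent.S3200
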