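import Cfsg.Statements.S3201
import Cfsg.Agent.Lib.InvChar.QuatGens
import Cfsg.Agent.Lib.Core.Frattini

set_option autoImplicit false
open Cfsg

namespace Cfsg.Agent.S3201

open CfsgLib Subgroup
open scoped commutatorElement


/-- Let S be a finite 2-group whose centre Z(S) has n ≥ 2 distinct maximal subgroups C₁, …, Cₙ with trivial intersection such that each quotient S/Cᵢ is a non-abelian group with exactly one involution (a generalized quaternion group). Then S is the internal direct product of an elementary abelian subgroup and a non-abelian subgroup with exactly one involution. -/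
theorem result {S : Type*} [Group S] [Finite S]
    (hS : IsPGroup 2 S) (n : ℕ) (hn : 2 ≤ n) (C : Fin n → Subgroup ↥(Subgroup.center S))
    (hCmax : ∀ i, IsCoatom (C i)) (hCinj : Function.Injective C) (hCint : ⨅ i, C i = ⊥)
    (hCq : ∀ i, ∃ (_ : ((C i).map (Subgroup.center S).subtype).Normal),
      ¬ IsMulCommutative (S ⧸ (C i).map (Subgroup.center S).subtype) ∧
      ∃! x : S ⧸ (C i).map (Subgroup.center S).subtype, orderOf x = 2) :
    ∃ E Q : Subgroup S, Cfsg.IsInternalDirectProduct E Q ⊤ ∧ Cfsg.IsElementaryAbelian 2 E ∧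
      ¬ IsMulCommutative ↥Q ∧ ∃! x : ↥Q, orderOf x = 2 := by
  have : Fact (Nat.Prime 2) := ⟨Nat.prime_two⟩
  have hidx : ∀ i, (C i).index = 2 := by
    intro i
    have hZ : IsPGroup 2 (center S) := hS.to_subgroup _
    have := hZ.isNilpotent
    exact Core.index_eq_of_isCoatom_of_isPGroup hZ (hCmax i)
  have hall : ∀ z ∈ center S, (∀ i, z ∈ (C i).map (center S).subtype) → z = 1 := by
    intro z hz h
    have : (⟨z, hz⟩ : center S) ∈ ⨅ i, C i := mem_iInf.2 fun i => by
      obtain ⟨w, hw, e⟩ := h i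
      rwa [show (⟨z, hz⟩ : center S) = w from Subtype.ext e.symm]
    rw [hCint, mem_bot] at this
    exact congrArg Subtype.val this
  have hmem : ∀ i, ∀ z (hz : z ∈ center S), z ∈ (C i).map (center S).subtype ↔ ⟨z, hz⟩ ∈ C i :=
    fun i z hz => ⟨fun ⟨w, hw, e⟩ => by rwa [show (⟨z, hz⟩ : center S) = w from Subtype.ext e.symm],
      fun h => ⟨_, h, rfl⟩⟩
  have hsq : ∀ z ∈ center S, z * z = 1 := fun z hz =>
    hall _ (mul_mem hz hz) fun i => (hmem i _ _).2 (mul_self_mem_of_index_two (hidx i) ⟨z, hz⟩)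
  have hinv : ∀ i (g : S), g * g ∈ (C i).map (center S).subtype → g ∈ center S := by
    intro i g hg
    obtain ⟨_, -, hu⟩ := hCq i
    obtain ⟨z, hz⟩ : ∃ z : center S, z ∉ C i := by
      by_contra h
      push Not at h
      exact (hCmax i).1 (eq_top_iff.2 fun z _ => h z)
    by_cases hgC : g ∈ (C i).map (center S).subtype
    · exact map_subtype_le _ hgC
    have h1 : orderOf (QuotientGroup.mk' ((C i).map (center S).subtype) g) = 2 := by
      refine orderOf_eq_prime ?_ (by rwa [Ne, QuotientGroup.mk'_apply, QuotientGroup.eq_one_iff])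
      rwa [← map_pow, pow_two, QuotientGroup.mk'_apply, QuotientGroup.eq_one_iff]
    have h2 : orderOf (QuotientGroup.mk' ((C i).map (center S).subtype) z) = 2 := by
      refine orderOf_eq_prime ?_ (by
        rwa [Ne, QuotientGroup.mk'_apply, QuotientGroup.eq_one_iff, hmem i _ z.2])
      rw [← map_pow, pow_two, hsq _ z.2, map_one]
    obtain ⟨e, he, h3⟩ := (QuotientGroup.mk'_eq_mk' _).1 (hu.unique h2 h1)
    rw [← h3]
    exact mul_mem z.2 (map_subtype_le _ he)
  have hsame : ∀ g h : S, g ∉ center S → h ∉ center S → g * g ∈ center S → h * h ∈ center S →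
      g * g = h * h := by
    intro g h hg hh hg2 hh2
    have := hall (g * g * (h * h)) (mul_mem hg2 hh2) fun i => by
      rw [hmem i _ (mul_mem hg2 hh2)]
      refine (mul_mem_iff_of_index_two (hidx i) (a := ⟨_, hg2⟩) (b := ⟨_, hh2⟩)).2 ?_
      rw [← hmem, ← hmem]
      exact ⟨fun e => absurd (hinv i g e) hg, fun e => absurd (hinv i h e) hh⟩
    rw [eq_inv_of_mul_eq_one_left this, inv_eq_of_mul_eq_one_right (hsq _ hh2)]
  let i₀ : Fin n := ⟨0, by omega⟩
  obtain ⟨_, hna, hu⟩ := hCq i₀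
  set N := (C i₀).map (center S).subtype with hN
  have hNZ : N ≤ center S := map_subtype_le _
  obtain ⟨k, a', b', h1, h2, h3, h4, h5⟩ := InvChar.exists_quaternion_gens (hS.to_quotient N) hna hu
  obtain ⟨a, rfl⟩ := QuotientGroup.mk'_surjective N a'
  obtain ⟨b, rfl⟩ := QuotientGroup.mk'_surjective N b'
  set f := QuotientGroup.mk' N with hf
  have hker : ∀ g, f g = 1 ↔ g ∈ N := fun g => QuotientGroup.eq_one_iff g
  have h4k : f a ^ (4 * 2 ^ k) = 1 := by rw [← h1, pow_orderOf_eq_one]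
  have hZ : ∀ g, f g * f g * (f g * f g) = 1 → g * g ∈ center S := fun g h =>
    hinv i₀ _ ((hker _).1 (by simpa only [map_mul] using h))
  have hnZ : ∀ g, f g * f g = f a ^ (2 * 2 ^ k) → g ∉ center S := fun g h hg => by
    rw [← map_mul, hsq g hg, map_one, eq_comm, ← orderOf_dvd_iff_pow_eq_one, h1] at h
    have := Nat.le_of_dvd (by positivity) h
    have : 0 < 2 ^ k := by positivity
    omega
  have hkey : ∀ g, f g * f g = f a ^ (2 * 2 ^ k) → g * g = b * b := fun g h =>
    hsame g b (hnZ g h) (hnZ b h2) (hZ g (by rw [h, ← pow_add, ← h4k]; congr 1; ring))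
      (hZ b (by rw [h2, ← pow_add, ← h4k]; congr 1; ring))
  have e1 : a ^ (2 * 2 ^ k) = b * b := by
    rw [← hkey (a ^ 2 ^ k) (by rw [map_pow, ← pow_add, two_mul]), ← pow_add, two_mul]
  have e2 : a * b * (a * b) = b * b := hkey _ (by
    rw [← h2, map_mul]
    calc f a * f b * (f a * f b) = f a * (f b * f a * (f b)⁻¹) * (f b * f b) := by group
      _ = f b * f b := by rw [h3]; group)
  have e3 : b * a * b⁻¹ = a⁻¹ := by
    calc b * a * b⁻¹ = a⁻¹ * (a * b * (a * b)) * (b * b)⁻¹ := by group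
      _ = a⁻¹ := by rw [e2]; group
  have e4 : a ^ (4 * 2 ^ k) = 1 := by
    rw [← hsq (b * b) (hZ b (by rw [h2, ← pow_add, ← h4k]; congr 1; ring)), ← e1, ← pow_add]
    congr 1; ring
  have hQ : ∀ g, g ∈ zpowers a ⊔ zpowers b ↔ ∃ i : ℤ, g = a ^ i ∨ g = a ^ i * b := fun g =>
    TwoGrp.mem_zpowers_sup_zpowers_iff (TwoGrp.mem_normalizer_zpowers_of_inv e3)
      (by rw [← e1]; exact npow_mem_zpowers _ _)
  have hTI : N ⊓ (zpowers a ⊔ zpowers b) = ⊥ := by
    rw [eq_bot_iff]
    rintro g ⟨hg1, hg2⟩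
    obtain ⟨i, rfl | rfl⟩ := (hQ g).1 hg2
    · have := (hker _).2 hg1
      rw [map_zpow, ← orderOf_dvd_iff_zpow_eq_one, h1] at this
      obtain ⟨c, rfl⟩ := this
      rw [mem_bot, zpow_mul, zpow_natCast, e4, one_zpow]
    · have := (hker _).2 hg1
      rw [map_mul, map_zpow] at this
      exact absurd (by rw [eq_inv_of_mul_eq_one_right this]; exact inv_mem (zpow_mem_zpowers _ _)) h4
  have hsurj : ∀ y : S ⧸ N, ∃ g ∈ zpowers a ⊔ zpowers b, f g = y := by
    intro y
    obtain ⟨i, rfl | rfl⟩ := h5 y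
    · exact ⟨a ^ i, (hQ _).2 ⟨i, Or.inl rfl⟩, map_zpow _ _ _⟩
    · exact ⟨a ^ i * b, (hQ _).2 ⟨i, Or.inr rfl⟩, by rw [map_mul, map_zpow]⟩
  let e : ↥(zpowers a ⊔ zpowers b) ≃* S ⧸ N := MulEquiv.ofBijective (f.comp (Subgroup.subtype _)) ⟨by
    rw [injective_iff_map_eq_one]
    intro g hg
    have : (g : S) ∈ N ⊓ (zpowers a ⊔ zpowers b) := ⟨(hker _).1 hg, g.2⟩
    rw [hTI, mem_bot] at this
    exact Subtype.ext this, fun y => by
      obtain ⟨g, hg, rfl⟩ := hsurj y
      exact ⟨⟨g, hg⟩, rfl⟩⟩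
  refine ⟨N, zpowers a ⊔ zpowers b, ⟨le_top, le_top,
    fun x hx y _ => (mem_center_iff.1 (hNZ hx) y).symm, hTI, ?_⟩,
    ⟨⟨⟨fun x y => Subtype.ext (mem_center_iff.1 (hNZ y.2) x)⟩⟩,
      fun x hx => by rw [pow_two, hsq x (hNZ hx)]⟩, fun h => hna ⟨⟨fun x y => ?_⟩⟩, ?_⟩
  · rw [eq_top_iff]
    intro g _
    obtain ⟨g', hg', h⟩ := hsurj (f g)
    obtain ⟨d, hd, rfl⟩ := (QuotientGroup.mk'_eq_mk' _).1 h
    exact mul_mem (mem_sup_right hg') (mem_sup_left hd)
  · obtain ⟨x, rfl⟩ := e.surjective x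
    obtain ⟨y, rfl⟩ := e.surjective y
    rw [← map_mul, ← map_mul, mul_comm' x y]
  · obtain ⟨x, hx, hx'⟩ := hu
    refine ⟨e.symm x, by simpa using hx, fun y hy => ?_⟩
    rw [← hx' (e y) (by simpa using hy), MulEquiv.symm_apply_apply]

end Cfsg.Agent.S3201
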