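import Cfsg.Statements.S3202
import Cfsg.Agent.Lib.InvChar.QuatGens

set_option autoImplicit false
open Cfsg

namespace Cfsg.Agent.S3202

open CfsgLib Subgroup
open scoped commutatorElement


/-- Let S be a finite 2-group of 2-rank exactly 2 and D a maximal subgroup of the centre of S such that S/D is a non-abelian group with exactly one involution (a generalized quaternion group). Then S has a nontrivial cyclic characteristic subgroup. -/
theorem result {S : Type*} [Group S]
    [Finite S] (hS : IsPGroup 2 S) (hr2 : Cfsg.PRankLE 2 2 S) (hr1 : ¬ Cfsg.PRankLE 2 1 S)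
    (D : Subgroup ↥(Subgroup.center S)) (hD : IsCoatom D)
    (hq : ∃ (_ : (D.map (Subgroup.center S).subtype).Normal),
      ¬ IsMulCommutative (S ⧸ D.map (Subgroup.center S).subtype) ∧
      ∃! x : S ⧸ D.map (Subgroup.center S).subtype, orderOf x = 2) :
    ∃ C : Subgroup S, C ≠ ⊥ ∧ IsCyclic ↥C ∧ C.Characteristic := by
  obtain ⟨_, hna, hu⟩ := hq
  set N := D.map (center S).subtype with hN
  have hNZ : N ≤ center S := map_subtype_le D
  obtain ⟨k, a', b', -, -, h3, -, h5⟩ := InvChar.exists_quaternion_gens (hS.to_quotient N) hna hu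
  obtain ⟨a, rfl⟩ := QuotientGroup.mk'_surjective N a'
  obtain ⟨b, rfl⟩ := QuotientGroup.mk'_surjective N b'
  have hd : a * (b * a * b⁻¹) ∈ N := by
    rw [← QuotientGroup.eq_one_iff, ← QuotientGroup.mk'_apply, map_mul, map_mul, map_mul, map_inv, h3,
      mul_inv_cancel]
  set d := a * (b * a * b⁻¹) with hdd
  have hdc : ∀ g, g * d = d * g := mem_center_iff.1 (hNZ hd)
  have hba : b * a * b⁻¹ = a⁻¹ * d := by rw [hdd]; group
  have hmem : ∀ g : S, ∃ i : ℤ, ∃ e ∈ center S, g = a ^ i * e ∨ g = a ^ i * b * e := by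
    intro g
    obtain ⟨i, h | h⟩ := h5 (QuotientGroup.mk' N g)
    · rw [← map_zpow, eq_comm, QuotientGroup.mk'_eq_mk'] at h
      obtain ⟨e, he, h⟩ := h
      exact ⟨i, e, hNZ he, Or.inl h.symm⟩
    · rw [← map_zpow, ← map_mul, eq_comm, QuotientGroup.mk'_eq_mk'] at h
      obtain ⟨e, he, h⟩ := h
      exact ⟨i, e, hNZ he, Or.inr h.symm⟩
  clear_value d
  set c := a * a * d⁻¹ with hc
  have hdc' : ∀ g, Commute g d := hdc
  have hac : Commute a c := ((Commute.refl a).mul_right (Commute.refl a)).mul_right (hdc' a).inv_right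
  have hbc : b * c * b⁻¹ = c⁻¹ := by
    calc b * c * b⁻¹ = (b * a * b⁻¹) * (b * a * b⁻¹) * (b * d⁻¹ * b⁻¹) := by rw [hc]; group
      _ = a⁻¹ * (d * a⁻¹) * d * d⁻¹ := by rw [hba, (hdc' b).inv_right.eq]; group
      _ = c⁻¹ := by rw [← hdc, hc, mul_inv_rev (a * a), inv_inv, ← hdc]; group
  have hnorm : (zpowers c).Normal := by
    rw [← normalizer_eq_top_iff, eq_top_iff]
    intro g _
    have ha : a ∈ normalizer (zpowers c : Set S) :=
      TwoGrp.mem_normalizer_zpowers (by rw [hac.eq, mul_inv_cancel_right]; exact mem_zpowers c)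
    have hb : b ∈ normalizer (zpowers c : Set S) := TwoGrp.mem_normalizer_zpowers_of_inv hbc
    obtain ⟨i, e, he, rfl | rfl⟩ := hmem g
    · exact mul_mem (zpow_mem ha i) (center_le_normalizer _ he)
    · exact mul_mem (mul_mem (zpow_mem ha i) hb) (center_le_normalizer _ he)
  have hle : commutator S ≤ zpowers c := by
    rw [_root_.commutator_def, commutator_le]
    intro x _ y _
    let f := QuotientGroup.mk' (zpowers c)
    have hab : Commute (f a) (f b) := by
      rw [← commutatorElement_eq_one_iff_commute, ← map_commutatorElement, QuotientGroup.mk'_apply,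
        QuotientGroup.eq_one_iff]
      have : ⁅a, b⁆ = c := by
        calc ⁅a, b⁆ = a * (b * a * b⁻¹)⁻¹ := by rw [commutatorElement_def]; group
          _ = c := by rw [hba, hc, mul_inv_rev, inv_inv, ← (hdc' a).inv_right.eq, mul_assoc]
      rw [this]; exact mem_zpowers c
    have hz : ∀ e ∈ center S, ∀ g, Commute (f g) (f e) := fun e he g =>
      Commute.map (mem_center_iff.1 he g) f
    have h1 : ∀ g, Commute (f a) (f g) ∧ Commute (f b) (f g) := by
      intro g
      obtain ⟨i, e, he, rfl | rfl⟩ := hmem g <;> simp only [map_mul, map_zpow]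
      · exact ⟨((Commute.refl _).zpow_right i).mul_right (hz e he a),
          (hab.symm.zpow_right i).mul_right (hz e he b)⟩
      · exact ⟨(((Commute.refl _).zpow_right i).mul_right hab).mul_right (hz e he a),
          ((hab.symm.zpow_right i).mul_right (Commute.refl _)).mul_right (hz e he b)⟩
    rw [← QuotientGroup.eq_one_iff, ← QuotientGroup.mk'_apply, map_commutatorElement,
      commutatorElement_eq_one_iff_commute]
    obtain ⟨i, e, he, rfl | rfl⟩ := hmem x <;> simp only [map_mul, map_zpow]
    · exact ((h1 y).1.zpow_left i).mul_left (hz e he y).symm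
    · exact (((h1 y).1.zpow_left i).mul_left (h1 y).2).mul_left (hz e he y).symm
  refine ⟨commutator S, fun h => hna ⟨⟨fun x y => ?_⟩⟩, Subgroup.isCyclic_of_le hle, inferInstance⟩
  obtain ⟨x, rfl⟩ := QuotientGroup.mk'_surjective N x
  obtain ⟨y, rfl⟩ := QuotientGroup.mk'_surjective N y
  have : ⁅x, y⁆ ∈ commutator S := commutator_mem_commutator (mem_top x) (mem_top y)
  rw [h, mem_bot, commutatorElement_eq_one_iff_commute] at this
  exact (this.map _).eq

end Cfsg.Agent.S3202
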