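import Cfsg.Statements.S3208
import Cfsg.Agent.Lib.InvChar.SylowBasic

set_option autoImplicit false
open Cfsg

namespace Cfsg.Agent.S3208

open CfsgLib.InvChar

/-- Let j be an involution of a finite group G, H a subgroup of G, and T a Sylow 2-subgroup of H ∩ C_G(j) containing j such that ⟨j⟩ is a characteristic subgroup of T. Then T is a Sylow 2-subgroup of H. -/
theorem result {G : Type*} [Group G] [Finite G]
    (j : G) (hj : orderOf j = 2) (H T : Subgroup G) (hT : T ≤ H ⊓ Subgroup.centralizer ({j} : Set G)) (h2 : IsPGroup 2 ↥T)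
    (hSyl : ¬ 2 ∣ T.relIndex (H ⊓ Subgroup.centralizer ({j} : Set G))) (hjT : j ∈ T)
    (hchar : ((Subgroup.zpowers j).subgroupOf T).Characteristic) :
    ¬ 2 ∣ T.relIndex H := by
  classical
  intro hdvd
  have hTH : T ≤ H := hT.trans inf_le_left
  have hT' : IsPGroup 2 (T.subgroupOf H) := h2.comap_subtype
  obtain ⟨R, hR⟩ := hT'.exists_le_sylow
  set P := (R : Subgroup H).map H.subtype with hP
  have hPp : IsPGroup 2 P := R.isPGroup'.map _
  have hTP : T ≤ P := fun x hx => ⟨⟨x, hTH hx⟩, hR hx, rfl⟩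
  have hne : T ≠ P := by
    intro he
    apply R.not_dvd_index
    have : (R : Subgroup H) = T.subgroupOf H := by
      rw [he, hP, Subgroup.subgroupOf, Subgroup.comap_map_eq_self_of_injective H.subtype_injective]
    rw [this]
    exact hdvd
  obtain ⟨n, hnP, hnT, hn⟩ := exists_mem_normalizer_not_mem hPp hTP hne
  have hnH : n ∈ H := Subgroup.map_subtype_le _ hnP
  have hnj : n * j = j * n := by
    let φ : T ≃* T := Subgroup.normalizerMonoidHom T ⟨n, hn⟩
    have h1 := (Subgroup.characteristic_iff_map_le.1 hchar) φ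
      (Subgroup.mem_map_of_mem φ.toMonoidHom (x := ⟨j, hjT⟩) (Subgroup.mem_zpowers j))
    have h3 : n * j * n⁻¹ ∈ Subgroup.zpowers j := h1
    rw [mem_zpowers_iff_mem_range_orderOf, hj] at h3
    simp only [Finset.mem_image, Finset.mem_range] at h3
    obtain ⟨k, hk, hk2⟩ := h3
    interval_cases k
    · exfalso
      have : j = 1 := by
        have h4 : n * j * n⁻¹ = 1 := by simpa using hk2.symm
        simpa using h4
      simp [this] at hj
    · rw [pow_one, eq_mul_inv_iff_mul_eq] at hk2
      exact hk2.symm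
  set K := H ⊓ Subgroup.centralizer ({j} : Set G) with hK
  have hnK : n ∈ K := ⟨hnH, Subgroup.mem_centralizer_singleton_iff.2 hnj⟩
  set Q := P ⊓ K with hQ
  have hQp : IsPGroup 2 Q := hPp.to_le inf_le_left
  have hTQ : T ≤ Q := le_inf hTP hT
  apply hSyl
  rw [← Subgroup.relIndex_mul_relIndex T Q K hTQ inf_le_right]
  apply Dvd.dvd.mul_right
  obtain ⟨k, hk⟩ := IsPGroup.index hQp (T.subgroupOf Q)
  rw [Subgroup.relIndex, hk]
  apply dvd_pow_self
  rintro rfl
  rw [pow_zero, Subgroup.index_eq_one, Subgroup.subgroupOf_eq_top] at hk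
  exact hnT (hk ⟨hnP, hnK⟩)

end Cfsg.Agent.S3208
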