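import Mathlib
import Cfsg.Statements.S3209
import Cfsg.Agent.Lib.SL2.TwoComm

set_option autoImplicit false
open Cfsg

namespace Cfsg.Agent.S3209

open CfsgLib.SL2


/-- Let L₁ ≅ SL₂(q₁) and L₂ ≅ SL₂(q₂), q₁ and q₂ odd, be elementwise-commuting subgroups of a finite group meeting in ⟨j⟩ for an involution j. Then L₁L₂ has exactly two conjugacy classes of involutions: the central involution j, and one further class (there is an involution x ≠ j in L₁L₂, and every involution of L₁L₂ other than j is conjugate to x by an element of L₁L₂). -/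
theorem result {G : Type*} [Group G] [Finite G]
    {F₁ : Type*} [Field F₁] [Fintype F₁] {F₂ : Type*} [Field F₂] [Fintype F₂]
    (hF₁ : Odd (Fintype.card F₁)) (hF₂ : Odd (Fintype.card F₂)) (L₁ L₂ : Subgroup G)
    (e₁ : ↥L₁ ≃* Matrix.SpecialLinearGroup (Fin 2) F₁) (e₂ : ↥L₂ ≃* Matrix.SpecialLinearGroup (Fin 2) F₂)
    (hc : ∀ x ∈ L₁, ∀ y ∈ L₂, x * y = y * x) (j : G) (hj : orderOf j = 2) (hm : L₁ ⊓ L₂ = Subgroup.zpowers j) :
    ∃ x ∈ L₁ ⊔ L₂, orderOf x = 2 ∧ x ≠ j ∧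
      ∀ y ∈ L₁ ⊔ L₂, orderOf y = 2 → y = j ∨ ∃ g ∈ L₁ ⊔ L₂, g * x * g⁻¹ = y := by
  have hjm := hm.ge (Subgroup.mem_zpowers j)
  have h1 := slIn_of_equiv hF₁ e₁ hj hjm.1
  have h2 := slIn_of_equiv hF₂ e₂ hj hjm.2
  have hjj : j * j = 1 := by simpa [hj, pow_two] using pow_orderOf_eq_one j
  have hj1 : j ≠ 1 := fun h => by simp [h] at hj
  have sq : ∀ a ∈ L₁, ∀ b ∈ L₂, a * b * (a * b) = a * a * (b * b) := fun a ha b hb => by
    rw [mul_assoc, ← mul_assoc b, ← hc a ha b hb]; group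
  obtain ⟨a, ha, ha'⟩ := h1.ex
  obtain ⟨b, hb, hb'⟩ := h2.ex
  have h3 : a * b ∉ Subgroup.zpowers j := fun h => by
    rcases (mem_zpowers_two hj).1 (hm.le ⟨ha, (Subgroup.mul_mem_cancel_right _ hb).1 (hm.ge h).2⟩) with rfl | rfl
    exacts [hj1 (by simpa using ha'.symm), hj1 (ha'.symm.trans hjj)]
  refine ⟨a * b, mul_mem (Subgroup.mem_sup_left ha) (Subgroup.mem_sup_right hb), orderOf_eq_prime
    (by rw [pow_two, sq a ha b hb, ha', hb', hjj]) fun h => h3 (h ▸ one_mem _),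
    fun h => h3 (h ▸ Subgroup.mem_zpowers _), fun y hy hy2 => ?_⟩
  obtain ⟨c, hc1, d, hd, rfl⟩ := exists_mul_of_mem_sup hc hy
  have h4 : c * c * (d * d) = 1 := by simpa [hy2, pow_two, sq c hc1 d hd] using pow_orderOf_eq_one (c * d)
  rcases (mem_zpowers_two hj).1 (hm.le ⟨mul_mem hc1 hc1, eq_inv_of_mul_eq_one_left h4 ▸ L₂.inv_mem (mul_mem hd hd)⟩)
    with h | h
  · rw [h, one_mul] at h4
    exact .inl (((mem_zpowers_two hj).1 (mul_mem (h1.sq c hc1 h) (h2.sq d hd h4))).resolve_left fun h5 => by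
      simp [h5] at hy2)
  · rw [h, ← hjj, mul_right_inj] at h4
    obtain ⟨g, hg, rfl⟩ := h1.conj a ha c hc1 ha' h
    obtain ⟨k, hk, rfl⟩ := h2.conj b hb d hd hb' h4
    refine .inr ⟨g * k, mul_mem (Subgroup.mem_sup_left hg) (Subgroup.mem_sup_right hk), ?_⟩
    calc _ = g * (k * a) * (b * k⁻¹) * g⁻¹ := by group
      _ = g * a * (k * b * k⁻¹ * g⁻¹) := by rw [← hc a ha k hk]; group
      _ = _ := by rw [← hc _ (inv_mem hg) _ (mul_mem (mul_mem hk hb) (inv_mem hk))]; group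

end Cfsg.Agent.S3209
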