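import Mathlib
import Cfsg.Statements.S3210
import Cfsg.Agent.Lib.SL2.TwoComm

set_option autoImplicit false
open Cfsg

namespace Cfsg.Agent.S3210

open CfsgLib.SL2


/-- Let G be a finite group with subgroups L₁ ≅ SL₂(q₁) and L₂ ≅ SL₂(q₂), q₁ and q₂ odd prime powers, which commute elementwise and meet in ⟨j⟩ for an involution j, and suppose L₁L₂ has index 2 in C_G(j). Then every element n of C_G(j) outside L₁L₂ either normalizes both L₁ and L₂, or conjugates L₁ onto L₂; in the second case q₁ = q₂ and there is an element n′ of C_G(j) outside L₁L₂ conjugating L₁ onto L₂ with n′² ∈ ⟨j⟩. -/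
theorem result {G : Type*} [Group G] [Finite G]
    {F₁ : Type*} [Field F₁] [Fintype F₁] {F₂ : Type*} [Field F₂] [Fintype F₂]
    (hF₁ : Odd (Fintype.card F₁)) (hF₂ : Odd (Fintype.card F₂)) (L₁ L₂ : Subgroup G)
    (e₁ : ↥L₁ ≃* Matrix.SpecialLinearGroup (Fin 2) F₁) (e₂ : ↥L₂ ≃* Matrix.SpecialLinearGroup (Fin 2) F₂)
    (hc : ∀ x ∈ L₁, ∀ y ∈ L₂, x * y = y * x) (j : G) (hj : orderOf j = 2) (hm : L₁ ⊓ L₂ = Subgroup.zpowers j)
    (hle : L₁ ⊔ L₂ ≤ Subgroup.centralizer ({j} : Set G)) (hi : (L₁ ⊔ L₂).relIndex (Subgroup.centralizer ({j} : Set G)) = 2) (n : G) (hn : n ∈ Subgroup.centralizer ({j} : Set G)) (hn' : n ∉ L₁ ⊔ L₂) :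
    (L₁.map (MulAut.conj n).toMonoidHom = L₁ ∧ L₂.map (MulAut.conj n).toMonoidHom = L₂) ∨
      (L₁.map (MulAut.conj n).toMonoidHom = L₂ ∧ Fintype.card F₁ = Fintype.card F₂ ∧
        ∃ n' ∈ Subgroup.centralizer ({j} : Set G), n' ∉ L₁ ⊔ L₂ ∧ L₁.map (MulAut.conj n').toMonoidHom = L₂ ∧ n' ^ 2 ∈ Subgroup.zpowers j) := by
  have hjm := hm.ge (Subgroup.mem_zpowers j)
  have h1 := slIn_of_equiv hF₁ e₁ hj hjm.1
  have h2 := slIn_of_equiv hF₂ e₂ hj hjm.2
  have hnj : n * j * n⁻¹ = j := mul_inv_eq_iff_eq_mul.2 (Subgroup.mem_centralizer_singleton_iff.1 hn)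
  have hN := Subgroup.normal_of_index_eq_two hi
  have hnN := (Subgroup.normal_subgroupOf_iff_le_normalizer hle).1 hN hn
  have e : L₁ ⊔ L₂ = L₁.map (MulAut.conj n).toMonoidHom ⊔ L₂.map (MulAut.conj n).toMonoidHom := by
    rw [← Subgroup.map_sup]
    exact (Subgroup.mem_normalizer_iff_conj_image_eq.1 hnN |> SetLike.coe_injective).symm
  have hc' : ∀ x ∈ L₁.map (MulAut.conj n).toMonoidHom, ∀ y ∈ L₂.map (MulAut.conj n).toMonoidHom, x * y = y * x := by
    rintro _ ⟨x, hx, rfl⟩ _ ⟨y, hy, rfl⟩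
    rw [← map_mul, hc x hx y hy, map_mul]
  have hm' : L₁.map (MulAut.conj n).toMonoidHom ⊓ L₂.map (MulAut.conj n).toMonoidHom = Subgroup.zpowers j := by
    rw [← Subgroup.map_inf _ _ _ (MulAut.conj n).injective, hm, MonoidHom.map_zpowers]
    exact congrArg _ hnj
  have h3 := (h1.map_conj hnj).le_or_le (h2.map_conj hnj) hc hc' hm hm' e
  have h4 := (h2.map_conj hnj).le_or_le (h1.map_conj hnj) hc (fun x hx y hy => (hc' y hy x hx).symm) hm
    ((inf_comm _ _).trans hm') (e.trans (sup_comm _ _))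
  have c1 := Subgroup.card_map_of_injective (K := L₁) (f := (MulAut.conj n).toMonoidHom) (MulAut.conj n).injective
  have c2 := Subgroup.card_map_of_injective (K := L₂) (f := (MulAut.conj n).toMonoidHom) (MulAut.conj n).injective
  have hjj : j * j = 1 := by simpa [hj, pow_two] using pow_orderOf_eq_one j
  have nz : ∀ {L : Subgroup G}, SLIn L j → ¬ L ≤ Subgroup.zpowers j := fun h H => by
    obtain ⟨a, ha, ha'⟩ := h.ex
    have hj1 : j ≠ 1 := fun h => by simp [h] at hj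
    rcases (mem_zpowers_two hj).1 (H ha) with rfl | rfl
    exacts [hj1 (by simpa using ha'.symm), hj1 (ha'.symm.trans hjj)]
  rcases h3 with h3 | h3 <;> rcases h4 with h4 | h4
  · exact absurd ((le_inf (le_sup_right.trans (e.le.trans (sup_le h3 h4))) le_rfl).trans hm.le) (nz h2)
  · exact .inl ⟨Subgroup.eq_of_le_of_card_ge h3 c1.ge, Subgroup.eq_of_le_of_card_ge h4 c2.ge⟩
  · have h5 := c1 ▸ Subgroup.card_le_of_le h3
    have h6 := c2 ▸ Subgroup.card_le_of_le h4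
    have h7 := Subgroup.eq_of_le_of_card_ge h3 (h6.trans c1.ge)
    refine .inr ⟨h7, ?_, ?_⟩
    · have h8 := le_antisymm h5 h6
      rw [Nat.card_congr e₁.toEquiv, Nat.card_congr e₂.toEquiv, card_SL2, card_SL2] at h8
      have h9 : StrictMonoOn (fun q : ℕ => q * (q ^ 2 - 1)) (Set.Ici 2) := fun x hx y _ hxy => by
        have h10 : 2 ^ 2 ≤ x ^ 2 := Nat.pow_le_pow_left hx 2
        have h11 : x ^ 2 ≤ y ^ 2 := Nat.pow_le_pow_left hxy.le 2
        exact mul_lt_mul hxy (by omega) (by omega) (by omega)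
      exact h9.injOn Fintype.one_lt_card Fintype.one_lt_card h8
    · obtain ⟨a, ha, b, hb, h8⟩ := exists_mul_of_mem_sup hc
        (Subgroup.mem_subgroupOf.1 (Subgroup.mul_self_mem_of_index_two hi ⟨n, hn⟩))
      have h9 : n * n = a * b := h8
      have h10 : n * a * n⁻¹ ∈ L₂ := h3 ⟨a, ha, rfl⟩
      have h11 : n * b * n⁻¹ ∈ L₁ := h4 ⟨b, hb, rfl⟩
      have h12 : n * b * n⁻¹ * a⁻¹ = (n * a * n⁻¹)⁻¹ * b := by
        rw [mul_inv_eq_iff_eq_mul, mul_assoc _ b a, ← hc a ha b hb, ← h9, eq_inv_mul_iff_mul_eq]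
        calc _ = n * (a * b) * n⁻¹ := by group
          _ = _ := by rw [← h9]; group
      refine ⟨n * a⁻¹, mul_mem hn (inv_mem (hle (Subgroup.mem_sup_left ha))), fun h => hn'
        ((Subgroup.mul_mem_cancel_right _ (inv_mem (Subgroup.mem_sup_left ha))).1 h), ?_, ?_⟩
      · rw [map_mul, ← h7]
        exact (Subgroup.map_map L₁ (MulAut.conj n).toMonoidHom (MulAut.conj a⁻¹).toMonoidHom).symm.trans
          (congrArg _ (Subgroup.mem_normalizer_iff_conj_image_eq.1 (Subgroup.le_normalizer (inv_mem ha)) |>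
            SetLike.coe_injective))
      · have h13 : (n * a⁻¹) ^ 2 = (n * a * n⁻¹)⁻¹ * b := by
          calc _ = (n * a * n⁻¹)⁻¹ * (n * n) * a⁻¹ := by rw [pow_two]; group
            _ = _ := by rw [h9, hc a ha b hb]; group
        rw [h13, ← hm]
        exact Subgroup.mem_inf.2 ⟨h12 ▸ mul_mem h11 (inv_mem ha), mul_mem (inv_mem h10) hb⟩
  · exact absurd ((le_inf le_rfl (le_sup_left.trans (e.le.trans (sup_le h3 h4)))).trans hm.le) (nz h1)

end Cfsg.Agent.S3210
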