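import Cfsg.Statements.S3211
import Cfsg.Agent.Lib.InvChar.SylowBasic
import Cfsg.Agent.Lib.InvChar.SL2Facts
import Cfsg.Agent.Lib.Transfer.Thompson
import Cfsg.Agent.Lib.Isol.ZSyl

set_option autoImplicit false
open Cfsg

namespace Cfsg.Agent.S3211

open CfsgLib CfsgLib.InvChar Subgroup

theorem core {G : Type*} [Group G] [Finite G] {L₁ L₂ : Subgroup G} {j n : G}
    (h₁ : SLF L₁ j) (h₂ : SLF L₂ j) (hc : ∀ x ∈ L₁, ∀ y ∈ L₂, x * y = y * x) (hj : orderOf j = 2)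
    (hm : ∀ x ∈ L₁, x ∈ L₂ → x = 1 ∨ x = j)
    (hi : (L₁ ⊔ L₂).relIndex (centralizer ({j} : Set G)) = 2) (hn : n * j = j * n)
    (hn2 : n * n = j) (h12 : ∀ a ∈ L₁, n * a * n⁻¹ ∈ L₂)
    (h21 : ∀ b ∈ L₂, n * b * n⁻¹ ∈ L₁) : IsIsolatedInvolution j := by
  classical
  refine ⟨hj, fun g₀ hg₀ => ?_⟩
  by_contra hne₀
  have hjj := Invol.mul_self_of_orderOf_two hj
  have hj1 := h₁.ne_one
  set C := centralizer ({j} : Set G) with hC
  set Y := L₁ ⊔ L₂ with hY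
  have memC : ∀ g, g ∈ C ↔ g * j = j * g := fun g => mem_centralizer_singleton_iff
  have c1 : ∀ a ∈ L₁, a * j = j * a := fun a ha => hc a ha j h₂.mem
  have c2 : ∀ b ∈ L₂, b * j = j * b := fun b hb => (hc j h₁.mem b hb).symm
  have memY : ∀ y, y ∈ Y ↔ ∃ a ∈ L₁, ∃ b ∈ L₂, a * b = y := by
    intro y
    have hN : L₁ ≤ normalizer (L₂ : Set G) := fun a ha =>
      mem_normalizer_of_conj_mem fun x hx => by rwa [hc a ha x hx, mul_inv_cancel_right]
    rw [← SetLike.mem_coe, hY, coe_mul_of_left_le_normalizer_right _ _ hN]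
    rfl
  have hYC : ∀ y ∈ Y, y ∈ C := by
    intro y hy
    obtain ⟨a, ha, b, hb, rfl⟩ := (memY y).1 hy
    exact mul_mem ((memC a).2 (c1 a ha)) ((memC b).2 (c2 b hb))
  have hmul : ∀ x ∈ C, ∀ y ∈ C, (x * y ∈ Y ↔ (x ∈ Y ↔ y ∈ Y)) := by
    intro x hx y hy
    exact mul_mem_iff_of_index_two (H := Y.subgroupOf C) hi (a := ⟨x, hx⟩) (b := ⟨y, hy⟩)
  have hnC : n ∈ C := (memC n).2 hn
  have hnn : ∀ a, a * j = j * a → n * (n * a * n⁻¹) * n⁻¹ = a := by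
    intro a ha
    calc n * (n * a * n⁻¹) * n⁻¹ = (n * n) * a * (n * n)⁻¹ := by group
      _ = a := by rw [hn2, ← ha]; group
  have hsq : ∀ x, x = 1 ∨ x = j → x * x = 1 := by
    rintro x (rfl | rfl)
    · simp
    · exact hjj
  have hcen : ∀ x, x = 1 ∨ x = j → ∀ y ∈ C, y * x = x * y := by
    rintro x (rfl | rfl) y hy
    · simp
    · exact (memC y).1 hy
  have hprod : ∀ x, x = 1 ∨ x = j → ∀ y, y = 1 ∨ y = j → x * y = 1 ∨ x * y = j := by
    rintro x (rfl | rfl) y (rfl | rfl) <;> simp [hjj]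
  have hnY : n ∉ Y := by
    intro h
    obtain ⟨a, ha, b, hb, hab⟩ := (memY n).1 h
    obtain ⟨x, hx, hxx⟩ := h₁.ex4
    have h1 : n * x * n⁻¹ = a * x * a⁻¹ := by
      rw [← hab]
      calc a * b * x * (a * b)⁻¹ = a * (b * x) * b⁻¹ * a⁻¹ := by group
        _ = _ := by rw [← hc x hx b hb]; group
    have h2 := hsq _ (hm _ (h1 ▸ mul_mem (mul_mem ha hx) (inv_mem ha)) (h12 x hx))
    apply hj1
    calc j = n⁻¹ * ((n * x * n⁻¹) * (n * x * n⁻¹)) * n := by rw [← hxx]; group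
      _ = 1 := by rw [h2]; group
  have hout : ∀ g ∈ C, g ∉ Y → g * n⁻¹ ∈ Y := fun g hg hgY =>
    (hmul g hg _ (inv_mem hnC)).2 (iff_of_false hgY (fun h => hnY (by simpa using inv_mem h)))
  -- no involutions outside `Y`
  have hnoinv : ∀ g ∈ C, g * g = 1 → g ∈ Y := by
    intro g hg hgg
    by_contra hgY
    obtain ⟨a, ha, b, hb, hab⟩ := (memY _).1 (hout g hg hgY)
    have hg' : g = a * b * n := by rw [hab]; group
    have ha' := h12 a ha
    have hb' := h21 b hb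
    set a' := n * a * n⁻¹ with ea
    set b' := n * b * n⁻¹ with eb
    have h1 : (a * b') * ((b * a') * j) = 1 := by
      rw [← hgg, hg', ← hn2]
      calc a * b' * (b * a' * (n * n)) = a * (b' * (b * a')) * (n * n) := by group
        _ = a * ((b * a') * b') * (n * n) := by rw [hc b' hb' _ (mul_mem hb ha')]
        _ = _ := by rw [ea, eb]; group
    have h2 : a * b' ∈ L₂ := by
      rw [eq_inv_of_mul_eq_one_left h1]
      exact inv_mem (mul_mem (mul_mem hb ha') h₂.mem)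
    have h3 := hm _ (mul_mem ha hb') h2
    have h4 : a' * b = a * b' := by
      calc a' * b = n * (a * b') * n⁻¹ := by
            conv_lhs => rw [← hnn b (c2 b hb)]
            rw [ea, ← eb]; group
        _ = a * b' := by rw [hcen _ h3 n hnC]; group
    have h5 : b * a' = a * b' := by
      calc b * a' = b * (a' * b) * b⁻¹ := by group
        _ = a * b' := by rw [h4, hcen _ h3 b (hYC b (mem_sup_right hb))]; group
    rw [h5, ← mul_assoc, hsq _ h3, one_mul] at h1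
    exact hj1 h1
  have hpowmul : ∀ a ∈ L₁, ∀ b ∈ L₂, ∀ k : ℕ, (a * b) ^ k = a ^ k * b ^ k :=
    fun a ha b hb k => Commute.mul_pow (hc a ha b hb) k
  have hsplit : ∀ a ∈ L₁, ∀ b ∈ L₂, a * b = 1 → (a = 1 ∨ a = j) ∧ (b = 1 ∨ b = j) := by
    intro a ha b hb h
    refine ⟨hm a ha ?_, hm b ?_ hb⟩
    · rw [eq_inv_of_mul_eq_one_left h]; exact inv_mem hb
    · rw [eq_inv_of_mul_eq_one_right h]; exact inv_mem ha
  have hinvY : ∀ a ∈ L₁, ∀ b ∈ L₂, a * b * (a * b) = 1 → a * b ≠ 1 → a * b ≠ j →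
      a * a = j ∧ b * b = j := by
    intro a ha b hb h hne hne'
    have h1 : a * a * (b * b) = 1 := by
      rw [← h, ← pow_two, ← pow_two, ← pow_two, hpowmul a ha b hb]
    obtain ⟨h2, h3⟩ := hsplit _ (mul_mem ha ha) _ (mul_mem hb hb) h1
    rcases h2 with h2 | h2
    · rw [h2, one_mul] at h1
      rcases hprod _ (h₁.uniq a ha h2) _ (h₂.uniq b hb h1) with h | h
      exacts [absurd h hne, absurd h hne']
    · refine ⟨h2, ?_⟩
      rcases h3 with h3 | h3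
      · rw [h2, h3, mul_one] at h1; exact absurd h1 hj1
      · exact h3
  have hconjY : ∀ x ∈ C, ∀ y ∈ C, x * x = 1 → y * y = 1 → x ≠ 1 → y ≠ 1 → x ≠ j → y ≠ j →
      IsConj x y := by
    intro x hx y hy hxx hyy hx1 hy1 hxj hyj
    obtain ⟨a, ha, b, hb, rfl⟩ := (memY x).1 (hnoinv x hx hxx)
    obtain ⟨a', ha', b', hb', rfl⟩ := (memY y).1 (hnoinv y hy hyy)
    obtain ⟨e1, e2⟩ := hinvY a ha b hb hxx hx1 hxj
    obtain ⟨e3, e4⟩ := hinvY a' ha' b' hb' hyy hy1 hyj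
    obtain ⟨c, hc1, rfl⟩ := h₁.conj4 a ha a' ha' e1 e3
    obtain ⟨d, hd, rfl⟩ := h₂.conj4 b hb b' hb' e2 e4
    refine isConj_iff.2 ⟨c * d, ?_⟩
    calc c * d * (a * b) * (c * d)⁻¹ = c * (d * a) * (b * d⁻¹ * c⁻¹) := by group
      _ = c * (a * d) * (c⁻¹ * (b * d⁻¹)) := by
        rw [← hc a ha d hd, hc c⁻¹ (inv_mem hc1) _ (mul_mem hb (inv_mem hd))]
      _ = c * a * (d * c⁻¹) * (b * d⁻¹) := by group
      _ = _ := by rw [← hc c⁻¹ (inv_mem hc1) d hd]; group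
  have conj_sq : ∀ g, (g * j * g⁻¹) * (g * j * g⁻¹) = 1 := fun g =>
    Invol.mul_self_of_orderOf_two ((Invol.orderOf_conj g j).trans hj)
  have conj_ne : ∀ g, g * j * g⁻¹ ≠ 1 := fun g =>
    Invol.ne_one_of_orderOf_two ((Invol.orderOf_conj g j).trans hj)
  have hall : ∀ y ∈ C, y * y = 1 → y ≠ 1 → IsConj j y := by
    intro y hy hyy hy1
    by_cases hyj : y = j
    · rw [hyj]
    · exact (isConj_iff.2 ⟨g₀, rfl⟩).trans (hconjY _ ((memC _).2 hg₀.symm.eq) y hy (conj_sq g₀)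
        hyy (conj_ne g₀) hy1 hne₀ hyj)
  have hodd : ¬ 2 ∣ C.index := by
    refine odd_index_centralizer_of_mul_conj hjj fun y hy hcy hyj => ?_
    obtain ⟨g, rfl⟩ := isConj_iff.1 hy
    refine hall _ ((memC _).2 ((Commute.refl j).mul_left hcy.symm).eq) ?_ ?_
    · calc j * (g * j * g⁻¹) * (j * (g * j * g⁻¹))
          = j * ((g * j * g⁻¹) * j) * (g * j * g⁻¹) := by group
        _ = (j * j) * ((g * j * g⁻¹) * (g * j * g⁻¹)) := by rw [← hcy.eq]; group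
        _ = 1 := by rw [hjj, conj_sq, one_mul]
    · intro h
      exact hyj ((eq_inv_of_mul_eq_one_right h).trans (inv_eq_of_mul_eq_one_right hjj))
  -- the exponent of the `2`-elements
  have hex : ∃ m : ℕ, ∀ c ∈ L₁, (∃ k : ℕ, c ^ 2 ^ k = 1) → c ^ 2 ^ m = 1 := by
    refine ⟨Nat.card G, fun c _ ⟨k, hk⟩ => ?_⟩
    obtain ⟨i, -, hi⟩ := (Nat.dvd_prime_pow Nat.prime_two).1 (orderOf_dvd_of_pow_eq_one hk)
    have h1 : 2 ^ i ≤ Nat.card G := hi ▸ orderOf_le_card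
    have h2 : i ≤ Nat.card G := (Nat.lt_two_pow_self.le).trans h1
    exact orderOf_dvd_iff_pow_eq_one.1 (hi ▸ pow_dvd_pow 2 h2)
  obtain ⟨l, hl, a₀, ha₀, ha₀j⟩ : ∃ l : ℕ,
      (∀ c ∈ L₁, (∃ k : ℕ, c ^ 2 ^ k = 1) → c ^ 2 ^ (l + 2) = 1) ∧
        ∃ a₀ ∈ L₁, a₀ ^ 2 ^ (l + 1) = j := by
    have hspec := Nat.find_spec hex
    obtain ⟨x, hx, hxx⟩ := h₁.ex4
    have hx4 : x ^ 2 ^ 2 = 1 := by
      calc x ^ 2 ^ 2 = (x * x) * (x * x) := by norm_num [pow_succ, mul_assoc]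
        _ = 1 := by rw [hxx, hjj]
    have h2 : 2 ≤ Nat.find hex := by
      by_contra hlt
      have h3 := hspec x hx ⟨2, hx4⟩
      have h4 : x ^ 2 ^ 1 = 1 := orderOf_dvd_iff_pow_eq_one.1
        ((orderOf_dvd_of_pow_eq_one h3).trans (pow_dvd_pow 2 (by omega)))
      rw [pow_one, pow_two, hxx] at h4
      exact hj1 h4
    obtain ⟨l, hl⟩ := Nat.exists_eq_add_of_le' h2
    refine ⟨l, hl ▸ hspec, ?_⟩
    have h5 := Nat.find_min hex (m := l + 1) (by omega)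
    push Not at h5
    obtain ⟨c, hc1, hc2, hc3⟩ := h5
    refine ⟨c, hc1, (h₁.uniq _ (pow_mem hc1 _) ?_).resolve_left hc3⟩
    rw [← pow_add, ← two_mul, ← pow_succ', ← hl]
    exact hspec c hc1 hc2
  have hl1 : ∀ c ∈ L₁, (∃ k : ℕ, c ^ 2 ^ k = 1) → c ^ 2 ^ (l + 1) = 1 ∨ c ^ 2 ^ (l + 1) = j := by
    intro c hc1 hk
    refine h₁.uniq _ (pow_mem hc1 _) ?_
    rw [← pow_add, ← two_mul, ← pow_succ']
    exact hl c hc1 hk
  have hl2 : ∀ c ∈ L₂, (∃ k : ℕ, c ^ 2 ^ k = 1) → c ^ 2 ^ (l + 1) = 1 ∨ c ^ 2 ^ (l + 1) = j := by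
    intro c hc1 ⟨k, hk⟩
    have h1 := hl1 _ (h21 c hc1) ⟨k, by rw [conj_pow, hk]; group⟩
    have h2 := hcen _ h1 n hnC
    rw [conj_pow] at h1 h2
    have h3 : n * c ^ 2 ^ (l + 1) * n⁻¹ = c ^ 2 ^ (l + 1) := by
      calc n * c ^ 2 ^ (l + 1) * n⁻¹ = n⁻¹ * (n * (n * c ^ 2 ^ (l + 1) * n⁻¹)) := by group
        _ = _ := by rw [h2]; group
    rwa [h3] at h1
  have htwo : ∀ a ∈ L₁, ∀ b ∈ L₂, (∃ k : ℕ, (a * b) ^ 2 ^ k = 1) →
      (∃ k : ℕ, a ^ 2 ^ k = 1) ∧ ∃ k : ℕ, b ^ 2 ^ k = 1 := by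
    intro a ha b hb ⟨k, hk⟩
    rw [hpowmul a ha b hb] at hk
    obtain ⟨h1, h2⟩ := hsplit _ (pow_mem ha _) _ (pow_mem hb _) hk
    exact ⟨⟨k + 1, by rw [pow_succ, pow_mul, pow_two, hsq _ h1]⟩,
      ⟨k + 1, by rw [pow_succ, pow_mul, pow_two, hsq _ h2]⟩⟩
  have ha₀2 : a₀ ^ 2 ^ (l + 2) = 1 := by rw [pow_succ, pow_mul, ha₀j, pow_two, hjj]
  have ha₁ : a₀ ^ 2 ^ l * a₀ ^ 2 ^ l = j := by rw [← pow_add, ← two_mul, ← pow_succ', ha₀j]
  have hn4 : orderOf n = 2 ^ 2 := by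
    apply orderOf_eq_prime_pow (p := 2) (n := 1)
    · rw [pow_one, pow_two, hn2]; exact hj1
    · calc n ^ 2 ^ (1 + 1) = (n * n) * (n * n) := by norm_num [pow_succ, mul_assoc]
        _ = 1 := by rw [hn2, hjj]
  rcases Transfer.thompson_transfer_large_order hodd hi hn4 (fun y hy hyY => by
    by_contra hlt
    have h1 : 0 < orderOf y := orderOf_pos y
    refine hyY (hnoinv y hy ?_)
    rw [← pow_two]
    apply orderOf_dvd_iff_pow_eq_one.1
    have : orderOf y = 1 ∨ orderOf y = 2 := by norm_num at hlt; omega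
    rcases this with h | h <;> simp [h]) with ⟨M, hMn, hM, hnM⟩ | ⟨h, hh⟩
  · have hYM : Y ≤ M := sup_le (h₁.le_of_index M hM) (h₂.le_of_index M hM)
    obtain ⟨b, hb, hbb⟩ := h₂.ex4
    have hx := pow_mem ha₀ (2 ^ l)
    have hxx : a₀ ^ 2 ^ l * b * (a₀ ^ 2 ^ l * b) = 1 := by
      rw [← pow_two, hpowmul _ hx b hb, pow_two, pow_two, ha₁, hbb, hjj]
    have hxne : ∀ e, e = 1 ∨ e = j → a₀ ^ 2 ^ l * b ≠ e := by
      intro e he h
      have h1 : a₀ ^ 2 ^ l * (b * e) = 1 := by rw [← mul_assoc, h, hsq e he]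
      have h2 := (hsplit _ hx _ (mul_mem hb (by rcases he with rfl | rfl
                                                exacts [one_mem _, h₂.mem])) h1).1
      exact hj1 (ha₁ ▸ hsq _ h2)
    obtain ⟨g, hg⟩ := isConj_iff.1 (hall _ (hYC _ (mul_mem (mem_sup_left hx) (mem_sup_right hb)))
      hxx (hxne 1 (Or.inl rfl)))
    have hcomm : Commute a₀ (a₀ ^ 2 ^ l * b) :=
      ((Commute.refl a₀).pow_right _).mul_right (hc a₀ ha₀ b hb)
    have huC : g⁻¹ * a₀ * g ∈ C := by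
      rw [memC]
      rw [← hg] at hcomm
      calc g⁻¹ * a₀ * g * j = g⁻¹ * (a₀ * (g * j * g⁻¹)) * g := by group
        _ = _ := by rw [hcomm.eq]; group
    have huM : g⁻¹ * a₀ * g ∈ M := by
      simpa using hMn.conj_mem a₀ (hYM (mem_sup_left ha₀)) g⁻¹
    have huY : g⁻¹ * a₀ * g ∈ Y := by
      by_contra h
      have := mul_mem (inv_mem (hYM (hout _ huC h))) huM
      exact hnM (by simpa [mul_assoc] using this)
    obtain ⟨c, hc1, d, hd, hcd⟩ := (memY _).1 huY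
    have hpw : ∀ k : ℕ, (c * d) ^ k = g⁻¹ * a₀ ^ k * g := fun k => by
      rw [hcd]; simpa using conj_pow (a := g⁻¹) (b := a₀) (i := k)
    obtain ⟨t1, t2⟩ := htwo c hc1 d hd ⟨l + 2, by rw [hpw, ha₀2]; group⟩
    have h3 := hprod _ (hl1 c hc1 t1) _ (hl2 d hd t2)
    rw [← hpowmul c hc1 d hd, hpw, ha₀j] at h3
    rcases h3 with h3 | h3
    · exact conj_ne g⁻¹ (by simpa using h3)
    · refine hxne j (Or.inr rfl) ?_
      rw [← hg]
      conv_lhs => rw [← h3]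
      group
  · obtain ⟨a, ha, b, hb, hab⟩ := (memY _).1 hh
    have hm2 : a * a * (b * b) = h * j * h⁻¹ := by
      rw [← pow_two, ← pow_two, ← hpowmul a ha b hb, hab, conj_pow, pow_two, hn2]
    have hhC : h * j * h⁻¹ ≠ j := by
      intro e
      have hh' : h ∈ C := (memC h).2 (mul_inv_eq_iff_eq_mul.1 e)
      have h1 := (hmul _ (mul_mem hh' hnC) _ (inv_mem hh')).1 hh
      rw [hmul _ hh' _ hnC, inv_mem_iff] at h1
      tauto
    obtain ⟨e1, -⟩ := hinvY _ (mul_mem ha ha) _ (mul_mem hb hb) (by rw [hm2]; exact conj_sq h)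
      (by rw [hm2]; exact conj_ne h) (by rw [hm2]; exact hhC)
    have hl0 : 1 ≤ l := by
      by_contra h0
      have h0' : l = 0 := by omega
      have h1 := hl a ha ⟨3, by
        calc a ^ 2 ^ 3 = (a * a * (a * a)) * (a * a * (a * a)) := by norm_num [pow_succ, mul_assoc]
          _ = 1 := by rw [e1, hjj]⟩
      rw [h0'] at h1
      apply hj1
      rw [← e1, ← h1]
      norm_num [pow_succ, mul_assoc]
    obtain ⟨c, hc1, hca⟩ := h₁.conj4 _ (pow_mem ha₀ (2 ^ l)) _ (mul_mem ha ha) ha₁ e1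
    have hv : c * a₀ * c⁻¹ ∈ L₁ := mul_mem (mul_mem hc1 ha₀) (inv_mem hc1)
    have hva : Commute (c * a₀ * c⁻¹) a := by
      refine h₁.ab _ (mul_mem ha ha) _ hv a ha (by rw [e1]; exact hj1) ?_
        ((Commute.refl a).mul_right (Commute.refl a))
      rw [← hca, ← conj_pow]
      exact (Commute.refl _).pow_right _
    have hvm : Commute (c * a₀ * c⁻¹) (h * n * h⁻¹) := hab ▸ hva.mul_right (hc _ hv b hb)
    set u := h⁻¹ * (c * a₀ * c⁻¹) * h with hu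
    have hun : Commute u n := by
      change u * n = n * u
      calc u * n = h⁻¹ * ((c * a₀ * c⁻¹) * (h * n * h⁻¹)) * h := by rw [hu]; group
        _ = _ := by rw [hvm.eq, hu]; group
    have hupw : ∀ k : ℕ, u ^ k = (h⁻¹ * c) * a₀ ^ k * (h⁻¹ * c)⁻¹ := fun k => by
      rw [← conj_pow, hu]; congr 1; group
    have huC : u ∈ C := (memC u).2 (hn2 ▸ (hun.mul_right hun).eq)
    have hn0 : ∀ k, 2 ≤ k → n ^ 2 ^ k = 1 := fun k hk =>
      orderOf_dvd_iff_pow_eq_one.1 (hn4 ▸ pow_dvd_pow 2 hk)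
    have key : ∀ y ∈ Y, Commute y n → y ^ 2 ^ (l + 2) = 1 → y ^ 2 ^ (l + 1) = 1 := by
      intro y hy hyn hy2
      obtain ⟨p, hp, q, hq, rfl⟩ := (memY y).1 hy
      obtain ⟨t1, t2⟩ := htwo p hp q hq ⟨_, hy2⟩
      have hp' := h12 p hp
      have hq' := h21 q hq
      have h1 : (p⁻¹ * (n * q * n⁻¹)) * ((n * p * n⁻¹) * q⁻¹) = 1 := by
        calc p⁻¹ * (n * q * n⁻¹) * (n * p * n⁻¹ * q⁻¹)
            = p⁻¹ * ((n * q * n⁻¹) * (n * p * n⁻¹)) * q⁻¹ := by group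
          _ = p⁻¹ * ((n * p * n⁻¹) * (n * q * n⁻¹)) * q⁻¹ := by rw [hc _ hq' _ hp']
          _ = p⁻¹ * (n * (p * q)) * n⁻¹ * q⁻¹ := by group
          _ = 1 := by rw [← hyn.eq]; group
      have h2 := (hsplit _ (mul_mem (inv_mem hp) hq') _ (mul_mem hp' (inv_mem hq)) h1).2
      have h3 : n * p * n⁻¹ = (n * p * n⁻¹ * q⁻¹) * q := by group
      have h4 : (n * p * n⁻¹) ^ 2 ^ (l + 1) = q ^ 2 ^ (l + 1) := by
        rw [h3, Commute.mul_pow (hcen _ h2 q (hYC q (mem_sup_right hq))).symm, pow_succ' 2 l,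
          pow_mul, pow_two, hsq _ h2, one_pow, one_mul]
      have h5 := hl1 p hp t1
      rw [conj_pow, hcen _ h5 n hnC, mul_inv_cancel_right] at h4
      rw [hpowmul p hp q hq, ← h4, hsq _ h5]
    have hu2 : u ^ 2 ^ (l + 2) = 1 := by rw [hupw, ha₀2]; group
    have hu1 : u ^ 2 ^ (l + 1) ≠ 1 := by rw [hupw, ha₀j]; exact conj_ne _
    by_cases huY : u ∈ Y
    · exact hu1 (key u huY hun hu2)
    · have h1 := key _ (hout u huC huY) (hun.mul_left (Commute.refl n).inv_left) (by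
        rw [hun.inv_right.mul_pow, hu2, inv_pow, hn0 _ (by omega)]; simp)
      rw [hun.inv_right.mul_pow, inv_pow, hn0 _ (by omega)] at h1
      exact hu1 (by simpa using h1)


/-- Let G be a finite group with subgroups L₁ ≅ SL₂(q₁) and L₂ ≅ SL₂(q₂), q₁ and q₂ odd prime powers, which commute elementwise and meet in ⟨j⟩ for an involution j, and suppose L₁L₂ has index 2 in C_G(j). If some n ∈ C_G(j) with n² = j interchanges L₁ and L₂ under conjugation (so that C_G(j) = L₁L₂⟨n⟩), then G = C_G(j)O(G). -/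
theorem result {G : Type*} [Group G] [Finite G]
    {F₁ : Type*} [Field F₁] [Fintype F₁] {F₂ : Type*} [Field F₂] [Fintype F₂]
    (hF₁ : Odd (Fintype.card F₁)) (hF₂ : Odd (Fintype.card F₂)) (L₁ L₂ : Subgroup G)
    (e₁ : ↥L₁ ≃* Matrix.SpecialLinearGroup (Fin 2) F₁) (e₂ : ↥L₂ ≃* Matrix.SpecialLinearGroup (Fin 2) F₂)
    (hc : ∀ x ∈ L₁, ∀ y ∈ L₂, x * y = y * x) (j : G) (hj : orderOf j = 2) (hm : L₁ ⊓ L₂ = Subgroup.zpowers j)
    (hle : L₁ ⊔ L₂ ≤ Subgroup.centralizer ({j} : Set G)) (hi : (L₁ ⊔ L₂).relIndex (Subgroup.centralizer ({j} : Set G)) = 2) (n : G) (hn : n ∈ Subgroup.centralizer ({j} : Set G))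
    (hn2 : n ^ 2 = j) (hswap : L₁.map (MulAut.conj n).toMonoidHom = L₂) :
    Subgroup.centralizer ({j} : Set G) ⊔ Cfsg.oddCore G = ⊤ := by
  have hj12 : j ∈ L₁ ⊓ L₂ := hm ▸ mem_zpowers j
  have h₁ := slf_of_equiv hF₁ e₁ hj12.1 hj
  have h₂ := slf_of_equiv hF₂ e₂ hj12.2 hj
  have hnn : n * n = j := by rw [← pow_two, hn2]
  have h12 : ∀ a ∈ L₁, n * a * n⁻¹ ∈ L₂ := fun a ha => hswap ▸ conj_mem_map_conj n ha
  have hiso : IsIsolatedInvolution j := by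
    refine core h₁ h₂ hc hj ?_ hi (mem_centralizer_singleton_iff.1 hn) hnn h12 ?_
    · intro x hx1 hx2
      have hx : x ∈ zpowers j := hm ▸ ⟨hx1, hx2⟩
      refine h₁.uniq x hx1 ?_
      obtain ⟨k, rfl⟩ := hx
      simp only
      rw [← zpow_add, ← two_mul, zpow_mul, zpow_two, Invol.mul_self_of_orderOf_two hj, one_zpow]
    · intro b hb
      rw [← hswap] at hb
      obtain ⟨a, ha, rfl⟩ := hb
      have : n * (n * a * n⁻¹) * n⁻¹ = a := by
        calc n * (n * a * n⁻¹) * n⁻¹ = (n * n) * a * (n * n)⁻¹ := by group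
          _ = a := by rw [hnn, ← hc a ha j hj12.2]; group
      change n * (n * a * n⁻¹) * n⁻¹ ∈ L₁
      rw [this]
      exact ha
  rw [eq_top_iff]
  intro g _
  obtain ⟨o, ho, c, hc', rfl⟩ := Isol.exists_oddCore_mul_centralizer hiso g
  exact mul_mem (mem_sup_right ho) (mem_sup_left (mem_centralizer_singleton_iff.2 hc'))

end Cfsg.Agent.S3211
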