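import Cfsg.Statements.S3213
import Mathlib


set_option autoImplicit false
open Cfsg

namespace Cfsg.Agent.S3213


open Matrix Module

/-- product of 2 × 2 matrices as quadruples -/
def m4 (p q : ZMod 5 × ZMod 5 × ZMod 5 × ZMod 5) : ZMod 5 × ZMod 5 × ZMod 5 × ZMod 5 :=
  (p.1 * q.1 + p.2.1 * q.2.2.1, p.1 * q.2.1 + p.2.1 * q.2.2.2,
    p.2.2.1 * q.1 + p.2.2.2 * q.2.2.1, p.2.2.1 * q.2.1 + p.2.2.2 * q.2.2.2)

/-- the quadruple of entries -/
def q4 (x : SpecialLinearGroup (Fin 2) (ZMod 5)) : ZMod 5 × ZMod 5 × ZMod 5 × ZMod 5 :=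
  (x 0 0, x 0 1, x 1 0, x 1 1)

theorem q4_mul (x y : SpecialLinearGroup (Fin 2) (ZMod 5)) : q4 (x * y) = m4 (q4 x) (q4 y) := by
  simp [q4, m4, Matrix.mul_apply, Fin.sum_univ_two]

theorem q4_one : q4 1 = (1, 0, 0, 1) := by
  simp [q4]

theorem q4_inj {x y : SpecialLinearGroup (Fin 2) (ZMod 5)} (h : q4 x = q4 y) : x = y := by
  simp only [q4, Prod.mk.injEq] at h
  obtain ⟨h1, h2, h3, h4⟩ := h
  ext i j
  fin_cases i <;> fin_cases j
  · exact h1
  · exact h2
  · exact h3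
  · exact h4

/-- the square of `x · x^g` -/
def sq4 (p : ZMod 5 × ZMod 5 × ZMod 5 × ZMod 5) (t : ZMod 5) :
    ZMod 5 × ZMod 5 × ZMod 5 × ZMod 5 :=
  m4 (m4 p (m4 (m4 (1, t, 0, 1) p) (1, -t, 0, 1))) (m4 p (m4 (m4 (1, t, 0, 1) p) (1, -t, 0, 1)))

/-- fifth power -/
def p5 (y : ZMod 5 × ZMod 5 × ZMod 5 × ZMod 5) : ZMod 5 × ZMod 5 × ZMod 5 × ZMod 5 :=
  m4 (m4 (m4 (m4 y y) y) y) y

set_option synthInstance.maxSize 4000 in
set_option synthInstance.maxHeartbeats 200000 in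
theorem comp5 : ∀ a b c d : ZMod 5, m4 (m4 (a, b, c, d) (a, b, c, d)) (a, b, c, d) = (1, 0, 0, 1) →
    (a, b, c, d) ≠ (1, 0, 0, 1) → a * d - b * c = 1 → ∃ t : ZMod 5,
      sq4 (a, b, c, d) t ≠ (1, 0, 0, 1) ∧ p5 (sq4 (a, b, c, d) t) = (1, 0, 0, 1) := by
  decide +kernel

theorem q4_five (y : SpecialLinearGroup (Fin 2) (ZMod 5)) : q4 (y ^ 5) = p5 (q4 y) := by
  have : y ^ 5 = y * y * y * y * y := by simp only [pow_succ, pow_zero, one_mul]
  rw [this, q4_mul, q4_mul, q4_mul, q4_mul, p5]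

theorem q4_sq (x g g' : SpecialLinearGroup (Fin 2) (ZMod 5)) (t : ZMod 5)
    (hg : q4 g = (1, t, 0, 1)) (hg' : q4 g' = (1, -t, 0, 1)) :
    q4 ((x * (g * x * g')) ^ 2) = sq4 (q4 x) t := by
  rw [pow_two, q4_mul, q4_mul, q4_mul, q4_mul, hg, hg', sq4]

theorem exists_five0 (x : SpecialLinearGroup (Fin 2) (ZMod 5)) (h3 : x ^ 3 = 1) (h1 : x ≠ 1) :
    ∃ g : SpecialLinearGroup (Fin 2) (ZMod 5),
      (x * (g * x * g⁻¹)) ^ 2 ≠ 1 ∧ ((x * (g * x * g⁻¹)) ^ 2) ^ 5 = 1 := by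
  have hd : x 0 0 * x 1 1 - x 0 1 * x 1 0 = 1 := by
    have := x.det_coe
    rw [Matrix.det_fin_two] at this
    exact this
  have e3 : m4 (m4 (q4 x) (q4 x)) (q4 x) = (1, 0, 0, 1) := by
    rw [← q4_mul, ← q4_mul, ← q4_one, ← h3, pow_three']
  have e1 : q4 x ≠ (1, 0, 0, 1) := fun h => h1 (q4_inj (by rw [h, q4_one]))
  obtain ⟨t, ht1, ht2⟩ := comp5 (x 0 0) (x 0 1) (x 1 0) (x 1 1) e3 e1 hd
  obtain ⟨g, hg⟩ : ∃ g : SpecialLinearGroup (Fin 2) (ZMod 5), q4 g = (1, t, 0, 1) :=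
    ⟨⟨!![1, t; 0, 1], by simp [Matrix.det_fin_two]⟩, rfl⟩
  obtain ⟨g', hg'⟩ : ∃ g : SpecialLinearGroup (Fin 2) (ZMod 5), q4 g = (1, -t, 0, 1) :=
    ⟨⟨!![1, -t; 0, 1], by simp [Matrix.det_fin_two]⟩, rfl⟩
  have hinv : g⁻¹ = g' := by
    apply inv_eq_of_mul_eq_one_right
    apply q4_inj
    rw [q4_mul, hg, hg', q4_one]
    simp [m4]
  have hs := q4_sq x g g' t hg hg'
  rw [← hinv] at hs
  refine ⟨g, fun h => ht1 ?_, q4_inj ?_⟩
  · rw [h, q4_one] at hs
    exact hs.symm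
  · rw [q4_one, q4_five, hs]
    exact ht2

theorem exists_five {K : Type*} [Field K] [Fintype K] (hK : Fintype.card K = 5)
    (x : SpecialLinearGroup (Fin 2) K) (hx : orderOf x = 3) :
    ∃ g : SpecialLinearGroup (Fin 2) K,
      (x * (g * x * g⁻¹)) ^ 2 ≠ 1 ∧ ((x * (g * x * g⁻¹)) ^ 2) ^ 5 = 1 := by
  let e : ZMod 5 ≃+* K := ZMod.ringEquivOfPrime K (by norm_num) hK
  let ψ : SpecialLinearGroup (Fin 2) (ZMod 5) →* SpecialLinearGroup (Fin 2) K :=
    SpecialLinearGroup.map e.toRingHom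
  let χ : SpecialLinearGroup (Fin 2) K →* SpecialLinearGroup (Fin 2) (ZMod 5) :=
    SpecialLinearGroup.map e.symm.toRingHom
  have h1 : ∀ y, ψ (χ y) = y := fun y => by
    ext i j
    simp [ψ, χ]
  have h2 : ∀ y, χ (ψ y) = y := fun y => by
    ext i j
    simp [ψ, χ]
  have hx3 : χ x ^ 3 = 1 := by rw [← map_pow, ← hx, pow_orderOf_eq_one, map_one]
  have hx1 : χ x ≠ 1 := fun h => by
    have : x = 1 := by rw [← h1 x, h, map_one]
    rw [this, orderOf_one] at hx
    omega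
  obtain ⟨g, hg1, hg2⟩ := exists_five0 (χ x) hx3 hx1
  refine ⟨ψ g, fun h => hg1 ?_, ?_⟩
  · have := congrArg χ h
    simpa only [map_pow, map_mul, map_inv, h2, map_one] using this
  · have := congrArg ψ hg2
    simpa only [map_pow, map_mul, map_inv, h1, map_one] using this

theorem finrank_le_map {F V : Type*} [Field F] [AddCommGroup V] [Module F V]
    [FiniteDimensional F V] (f : V →ₗ[F] V) (U : Submodule F V) :
    finrank F U ≤ finrank F (U.map f) + finrank F (LinearMap.ker f) := by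
  have h := LinearMap.finrank_range_add_finrank_ker (f.domRestrict U)
  rw [LinearMap.range_domRestrict, LinearMap.ker_domRestrict] at h
  have h2 : finrank F (Submodule.comap U.subtype (LinearMap.ker f)) ≤
      finrank F (LinearMap.ker f) := by
    rw [← Submodule.finrank_map_subtype_eq, Submodule.map_comap_subtype]
    exact Submodule.finrank_mono inf_le_right
  omega

theorem five_fix {F : Type*} [Field F] [Fintype F] (hF : Fintype.card F = 3)
    (Y : Matrix (Fin 2 ⊕ Fin 2) (Fin 2 ⊕ Fin 2) F) (h5 : Y ^ 5 = 1)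
    (v : Fin 2 ⊕ Fin 2 → F) (hv : v ≠ 0) (hY : Y.mulVec v = v) : Y = 1 := by
  classical
  haveI : Fact (Nat.Prime 5) := ⟨by norm_num⟩
  let f : Function.End (Fin 2 ⊕ Fin 2 → F) := fun w => Y.mulVec w
  have hf : ∀ n : ℕ, ∀ w, (f ^ n) w = (Y ^ n).mulVec w := by
    intro n
    induction n with
    | zero => intro w; simp; rfl
    | succ n ih =>
      intro w
      rw [pow_succ, pow_succ, ← Matrix.mulVec_mulVec, ← ih]
      rfl
  have hf5 : f ^ 5 ^ 1 = 1 := by
    funext w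
    rw [pow_one, hf, h5, Matrix.one_mulVec]
    rfl
  have hm := Equiv.Perm.card_fixedPoints_modEq hf5
  let C : Submodule F (Fin 2 ⊕ Fin 2 → F) := LinearMap.ker (Matrix.toLin' Y - LinearMap.id)
  have hC : ∀ w, w ∈ C ↔ Y.mulVec w = w := fun w => by
    simp [C, sub_eq_zero]
  have hc : Fintype.card f.fixedPoints = 3 ^ finrank F C := by
    rw [← hF, ← Module.card_eq_pow_finrank (K := F) (V := C)]
    exact Fintype.card_congr (Equiv.subtypeEquivRight fun w => (hC w).symm)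
  have h81 : Fintype.card (Fin 2 ⊕ Fin 2 → F) = 81 := by simp [hF]
  have h4 : finrank F (Fin 2 ⊕ Fin 2 → F) = 4 := by simp
  have hle : finrank F C ≤ 4 := h4 ▸ Submodule.finrank_le C
  have hpos : 0 < finrank F C := by
    rw [Module.finrank_pos_iff_exists_ne_zero]
    exact ⟨⟨v, (hC v).2 hY⟩, fun h => hv (congrArg Subtype.val h)⟩
  rw [hc, h81] at hm
  have h44 : finrank F C = 4 := by
    generalize finrank F C = k at *
    interval_cases k
    · exact absurd hm (by decide)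
    · exact absurd hm (by decide)
    · exact absurd hm (by decide)
    · rfl
  have htop : C = ⊤ := Submodule.eq_top_of_finrank_eq (h44.trans h4.symm)
  apply Matrix.toLin'.injective
  refine LinearMap.ext fun w => ?_
  have hw : w ∈ C := htop ▸ Submodule.mem_top
  rw [Matrix.toLin'_apply, Matrix.toLin'_one, (hC w).1 hw]
  rfl

theorem form_inv {F : Type*} [Field F] (A : ↥(Matrix.symplecticGroup (Fin 2) F))
    (v w : Fin 2 ⊕ Fin 2 → F) :
    dotProduct ((A : Matrix (Fin 2 ⊕ Fin 2) (Fin 2 ⊕ Fin 2) F).mulVec v)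
      ((Matrix.J (Fin 2) F).mulVec ((A : Matrix (Fin 2 ⊕ Fin 2) (Fin 2 ⊕ Fin 2) F).mulVec w)) =
      dotProduct v ((Matrix.J (Fin 2) F).mulVec w) := by
  have h := SymplecticGroup.mem_iff'.1 A.2
  conv_rhs => rw [← h]
  rw [← Matrix.mulVec_mulVec, ← Matrix.mulVec_mulVec, Matrix.dotProduct_mulVec v,
    Matrix.vecMul_transpose]

theorem form_alt {F : Type*} [Field F] (v : Fin 2 ⊕ Fin 2 → F) :
    dotProduct v ((Matrix.J (Fin 2) F).mulVec v) = 0 := by
  simp [Matrix.J, Matrix.mulVec, dotProduct, Fintype.sum_sum_type, Fin.sum_univ_two,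
    Matrix.one_apply]
  ring

theorem form_skew {F : Type*} [Field F] (v w : Fin 2 ⊕ Fin 2 → F) :
    dotProduct v ((Matrix.J (Fin 2) F).mulVec w) =
      -dotProduct w ((Matrix.J (Fin 2) F).mulVec v) := by
  simp [Matrix.J, Matrix.mulVec, dotProduct, Fintype.sum_sum_type, Fin.sum_univ_two,
    Matrix.one_apply]
  ring


/-- Let F be the field with 3 elements and K the field with 5 elements. For every injective homomorphism φ from SL₂(K) into the symplectic group Sp₄(F) (4 × 4 matrices g with g J gᵀ = J for the standard alternating matrix J) and every element x of order 3 of SL₂(K), the vectors of F⁴ fixed by φ(x) form a 2-dimensional subspace that is totally isotropic for the alternating form defined by J. -/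
theorem result {F : Type*} [Field F] [Fintype F] (hF : Fintype.card F = 3)
    {K : Type*} [Field K] [Fintype K] (hK : Fintype.card K = 5)
    (φ : Matrix.SpecialLinearGroup (Fin 2) K →* ↥(Matrix.symplecticGroup (Fin 2) F)) (hφ : Function.Injective φ)
    (x : Matrix.SpecialLinearGroup (Fin 2) K) (hx : orderOf x = 3) :
    Module.finrank F ↥(LinearMap.ker (Matrix.toLin' ((φ x : Matrix (Fin 2 ⊕ Fin 2) (Fin 2 ⊕ Fin 2) F)) - LinearMap.id)) = 2 ∧
      ∀ v w : Fin 2 ⊕ Fin 2 → F, (φ x : Matrix (Fin 2 ⊕ Fin 2) (Fin 2 ⊕ Fin 2) F).mulVec v = v →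
        (φ x : Matrix (Fin 2 ⊕ Fin 2) (Fin 2 ⊕ Fin 2) F).mulVec w = w →
          dotProduct v ((Matrix.J (Fin 2) F).mulVec w) = 0 := by
  classical
  have hchar : CharP F 3 := charP_of_card_eq_prime hF
  haveI : Fact (Nat.Prime 3) := ⟨by norm_num⟩
  have h4 : finrank F (Fin 2 ⊕ Fin 2 → F) = 4 := by simp
  -- the fixed spaces
  let N : Matrix.SpecialLinearGroup (Fin 2) K →
      ((Fin 2 ⊕ Fin 2 → F) →ₗ[F] (Fin 2 ⊕ Fin 2 → F)) := fun y =>
    Matrix.toLin' ((φ y : Matrix (Fin 2 ⊕ Fin 2) (Fin 2 ⊕ Fin 2) F)) - LinearMap.id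
  have hN : ∀ y w, N y w = (φ y : Matrix (Fin 2 ⊕ Fin 2) (Fin 2 ⊕ Fin 2) F).mulVec w - w :=
    fun y w => by simp [N]
  have hC : ∀ y w, w ∈ LinearMap.ker (N y) ↔
      (φ y : Matrix (Fin 2 ⊕ Fin 2) (Fin 2 ⊕ Fin 2) F).mulVec w = w := fun y w => by
    rw [LinearMap.mem_ker, hN, sub_eq_zero]
  have hmul : ∀ y z w, (φ (y * z) : Matrix (Fin 2 ⊕ Fin 2) (Fin 2 ⊕ Fin 2) F).mulVec w =
      (φ y : Matrix (Fin 2 ⊕ Fin 2) (Fin 2 ⊕ Fin 2) F).mulVec
        ((φ z : Matrix (Fin 2 ⊕ Fin 2) (Fin 2 ⊕ Fin 2) F).mulVec w) := fun y z w => by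
    rw [map_mul, Submonoid.coe_mul, Matrix.mulVec_mulVec]
  have hone : ∀ w, (φ 1 : Matrix (Fin 2 ⊕ Fin 2) (Fin 2 ⊕ Fin 2) F).mulVec w = w := fun w => by
    rw [map_one, OneMemClass.coe_one, Matrix.one_mulVec]
  have hx3 : x * (x * x) = 1 := by rw [← pow_three, ← hx, pow_orderOf_eq_one]
  have h3 : ∀ w : Fin 2 ⊕ Fin 2 → F, w + w + w = 0 := fun w => by
    have : (3 : F) = 0 := by exact_mod_cast CharP.cast_eq_zero F 3
    calc w + w + w = (3 : F) • w := by module
      _ = 0 := by rw [this, zero_smul]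
  have hN3 : ∀ w, N x (N x (N x w)) = 0 := fun w => by
    have e := hone w
    rw [← hx3, hmul, hmul] at e
    simp only [hN, Matrix.mulVec_sub]
    rw [e]
    set A := (φ x : Matrix (Fin 2 ⊕ Fin 2) (Fin 2 ⊕ Fin 2) F)
    have a1 := h3 (A.mulVec w)
    have a2 := h3 (A.mulVec (A.mulVec w))
    calc _ = (A.mulVec w + A.mulVec w + A.mulVec w) -
        (A.mulVec (A.mulVec w) + A.mulVec (A.mulVec w) + A.mulVec (A.mulVec w)) := by abel
      _ = 0 := by rw [a1, a2, sub_zero]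
  have hge : 2 ≤ finrank F (LinearMap.ker (N x)) := by
    have a1 := finrank_le_map (N x) ⊤
    have a2 := finrank_le_map (N x) (Submodule.map (N x) ⊤)
    have a3 := finrank_le_map (N x) (Submodule.map (N x) (Submodule.map (N x) ⊤))
    have a4 : Submodule.map (N x) (Submodule.map (N x) (Submodule.map (N x) ⊤)) = ⊥ := by
      rw [eq_bot_iff]
      rintro _ ⟨_, ⟨_, ⟨w, -, rfl⟩, rfl⟩, rfl⟩
      exact hN3 w
    rw [a4, finrank_bot] at a3
    rw [finrank_top, h4] at a1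
    omega
  have hle : finrank F (LinearMap.ker (N x)) ≤ 2 := by
    by_contra hlt
    obtain ⟨g, hg1, hg2⟩ := exists_five hK x hx
    have hconj : finrank F (LinearMap.ker (N x)) ≤ finrank F (LinearMap.ker (N (g * x * g⁻¹))) := by
      let G := Matrix.toLin' ((φ g : Matrix (Fin 2 ⊕ Fin 2) (Fin 2 ⊕ Fin 2) F))
      have hG : LinearMap.ker G = ⊥ := by
        rw [LinearMap.ker_eq_bot']
        intro w hw
        have := hmul g⁻¹ g w
        rw [inv_mul_cancel, hone] at this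
        rw [this]
        have hw' : (φ g : Matrix (Fin 2 ⊕ Fin 2) (Fin 2 ⊕ Fin 2) F).mulVec w = 0 := hw
        rw [hw', Matrix.mulVec_zero]
      have a1 := finrank_le_map G (LinearMap.ker (N x))
      rw [hG, finrank_bot, add_zero] at a1
      refine a1.trans (Submodule.finrank_mono ?_)
      rintro _ ⟨w, hw, rfl⟩
      rw [hC]
      show (φ (g * x * g⁻¹) : Matrix (Fin 2 ⊕ Fin 2) (Fin 2 ⊕ Fin 2) F).mulVec
        ((φ g : Matrix (Fin 2 ⊕ Fin 2) (Fin 2 ⊕ Fin 2) F).mulVec w) =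
        (φ g : Matrix (Fin 2 ⊕ Fin 2) (Fin 2 ⊕ Fin 2) F).mulVec w
      rw [← hmul, inv_mul_cancel_right, hmul, (hC x w).1 hw]
    have a1 := Submodule.finrank_sup_add_finrank_inf_eq (LinearMap.ker (N x))
      (LinearMap.ker (N (g * x * g⁻¹)))
    have a2 : finrank F ↥(LinearMap.ker (N x) ⊔ LinearMap.ker (N (g * x * g⁻¹))) ≤ 4 :=
      h4 ▸ Submodule.finrank_le _
    have a3 : 0 < finrank F ↥(LinearMap.ker (N x) ⊓ LinearMap.ker (N (g * x * g⁻¹))) := by omega
    rw [Module.finrank_pos_iff_exists_ne_zero] at a3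
    obtain ⟨⟨v, hv1, hv2⟩, hv⟩ := a3
    have hv0 : v ≠ 0 := fun h => hv (Subtype.ext h)
    have hfix : (φ (x * (g * x * g⁻¹)) : Matrix (Fin 2 ⊕ Fin 2) (Fin 2 ⊕ Fin 2) F).mulVec v = v := by
      rw [hmul, (hC _ v).1 hv2, (hC _ v).1 hv1]
    have := five_fix hF (φ ((x * (g * x * g⁻¹)) ^ 2) : Matrix (Fin 2 ⊕ Fin 2) (Fin 2 ⊕ Fin 2) F)
      (by rw [← SubmonoidClass.coe_pow, ← map_pow, hg2, map_one, OneMemClass.coe_one]) v hv0
      (by rw [pow_two, hmul, hfix, hfix])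
    exact hg1 (hφ (by rw [map_one]; exact Subtype.ext this))
  have h2 : finrank F (LinearMap.ker (N x)) = 2 := le_antisymm hle hge
  refine ⟨h2, fun v w hv hw => ?_⟩
  -- a non-zero vector of the image that is fixed
  have hperp : ∀ c u, (φ x : Matrix (Fin 2 ⊕ Fin 2) (Fin 2 ⊕ Fin 2) F).mulVec c = c →
      dotProduct c ((Matrix.J (Fin 2) F).mulVec (N x u)) = 0 := fun c u hc => by
    have := form_inv (φ x) c u
    rw [hc] at this
    rw [hN, Matrix.mulVec_sub, dotProduct_sub, this, sub_self]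
  obtain ⟨u, hu0, hu⟩ : ∃ u, N x u ≠ 0 ∧ N x (N x u) = 0 := by
    by_cases hq : ∀ u, N x (N x u) = 0
    · by_contra hn
      push Not at hn
      have : LinearMap.ker (N x) = ⊤ := by
        rw [eq_top_iff]
        intro u _
        by_contra hu
        exact hn u hu (hq u)
      rw [this, finrank_top, h4] at h2
      omega
    · push Not at hq
      obtain ⟨u, hu⟩ := hq
      exact ⟨N x u, hu, hN3 u⟩
  by_cases hvr : v ∈ Submodule.span F {N x u}
  · obtain ⟨a, rfl⟩ := Submodule.mem_span_singleton.1 hvr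
    rw [form_skew, Matrix.mulVec_smul, dotProduct_smul, hperp w u hw]
    simp
  · have hsp : Submodule.span F {N x u} ⊔ Submodule.span F {v} = LinearMap.ker (N x) := by
      apply Submodule.eq_of_le_of_finrank_le
      · refine sup_le ?_ ?_
        · rw [Submodule.span_singleton_le_iff_mem]; exact hu
        · rw [Submodule.span_singleton_le_iff_mem]; exact (hC x v).2 hv
      · have hlt : Submodule.span F {N x u} < Submodule.span F {N x u} ⊔ Submodule.span F {v} := by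
          refine lt_of_le_of_ne le_sup_left fun h => hvr ?_
          rw [h]
          exact Submodule.mem_sup_right (Submodule.mem_span_singleton_self v)
        have := Submodule.finrank_lt_finrank_of_lt hlt
        rw [finrank_span_singleton hu0] at this
        omega
    have hw' : w ∈ Submodule.span F {N x u} ⊔ Submodule.span F {v} := hsp ▸ (hC x w).2 hw
    obtain ⟨_, h1, _, h2, rfl⟩ := Submodule.mem_sup.1 hw'
    obtain ⟨a, rfl⟩ := Submodule.mem_span_singleton.1 h1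
    obtain ⟨b, rfl⟩ := Submodule.mem_span_singleton.1 h2
    rw [Matrix.mulVec_add, Matrix.mulVec_smul, Matrix.mulVec_smul, dotProduct_add,
      dotProduct_smul, dotProduct_smul, hperp v u hv, form_alt]
    simp

end Cfsg.Agent.S3213
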