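import Mathlib
import Cfsg.Statements.S3215
import Cfsg.Agent.Lib.CIT.Basic
import Cfsg.Agent.Lib.PLocal.Constrained
import Cfsg.Agent.Lib.Frob.Complement
import Cfsg.Agent.Lib.Core.Fitting
import Cfsg.Agent.Lib.SolvStruct.Util
import Cfsg.Agent.Lib.Coprime.Hall

set_option autoImplicit false
open Cfsg

namespace Cfsg.Agent.S3215

open Subgroup CfsgLib CfsgLib.CIT

/-- Let H be a finite solvable group with no nontrivial normal subgroup of odd order in which the centralizer of every involution has a normal 2-complement. Let X be a Hall 2'-subgroup of H (odd order, index a power of 2) and Y = O₂(H). Then no non-identity element of X commutes with a non-identity element of Y (so for X ≠ 1 the group XY is a Frobenius group with kernel Y), every Sylow subgroup of X is cyclic, XY is normal in H, and H/XY is a cyclic 2-group. -/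
theorem result {H : Type*} [Group H] [Finite H] (hsol : Group.IsSolvable H)
    (hO : Cfsg.oddCore H = ⊥)
    (hI : ∀ t : H, orderOf t = 2 → Cfsg.HasNormalPComplement 2 ↥(Subgroup.centralizer ({t} : Set H)))
    (X : Subgroup H) (hXodd : Odd (Nat.card X)) (hXidx : ∃ k : ℕ, X.index = 2 ^ k) :
    (∀ x ∈ X, x ≠ 1 → ∀ y ∈ Cfsg.pCore 2 H, y ≠ 1 → x * y ≠ y * x) ∧
      (∀ (p : ℕ) [Fact p.Prime] (P : Sylow p ↥X), IsCyclic ↥(P : Subgroup ↥X)) ∧
      (X ⊔ Cfsg.pCore 2 H).Normal ∧
      ∀ hN : (X ⊔ Cfsg.pCore 2 H).Normal, IsCyclic (H ⧸ (X ⊔ Cfsg.pCore 2 H)) ∧ IsPGroup 2 (H ⧸ (X ⊔ Cfsg.pCore 2 H)) := by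
  have : Fact (Nat.Prime 2) := ⟨Nat.prime_two⟩
  set Y := Cfsg.pCore 2 H with hY
  have hY2 : IsPGroup 2 Y := Core.isPGroup_pCore 2 H
  have hC : centralizer (Y : Set H) ≤ Y := Core.centralizer_pCore_le_of_isSolvable Nat.prime_two hO
  have nY : ∀ x, x ∈ normalizer (Y : Set H) := fun x => normalizer_eq_top Y ▸ mem_top x
  have one : ∀ {x : H}, Odd (orderOf x) → Two x → x = 1 := fun ho h2 => by
    by_contra h; exact not_two_of_odd ho h h2
  have cit : ∀ v x : H, v ≠ 1 → Two v → Odd (orderOf x) → x * v = v * x → x = 1 := fun v x v1 v2 ho hc => by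
    obtain ⟨n, t1, t2⟩ := v2.exists_involution v1
    have ht : orderOf (v ^ n) = 2 := orderOf_eq_prime (by rw [sq, t2]) t1
    have hx : x ∈ centralizer {v ^ n} := mem_centralizer_singleton_iff.2 (Commute.pow_right hc n).eq
    obtain ⟨P, N, hN, hPN⟩ := hI _ ht
    obtain ⟨k, hk⟩ := IsPGroup.iff_card.1 P.2
    have xN : (⟨x, hx⟩ : centralizer {v ^ n}) ∈ N := Core.mem_of_coprime_orderOf_index (by
      rw [orderOf_mk, hPN.symm.index_eq_card, hk]; exact (Nat.coprime_two_right.2 ho).pow_right k)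
    have oN : Odd (Nat.card N) := by
      rw [← hPN.index_eq_card, ← Nat.not_even_iff_odd, even_iff_two_dvd]; exact P.not_dvd_index
    refine one ho (two_of_mem hY2 (hC (PLocal.Constr.a_times_b (two_of_mul_self t2).isPGroup hY2 le_normalizer_of_normal
      (Nat.coprime_two_right.2 ho) (nY _) ?_ fun u hu huc => ?_)))
    · rwa [zpowers_eq_closure, centralizer_closure]
    rw [zpowers_eq_closure, centralizer_closure] at huc
    have m1 : (⟨u, huc⟩ * ⟨x, hx⟩ * ⟨u, huc⟩⁻¹ * ⟨x, hx⟩⁻¹ : centralizer {v ^ n}) ∈ N :=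
      mul_mem (hN.conj_mem _ xN _) (inv_mem xN)
    have m2 : u * x * u⁻¹ * x⁻¹ ∈ Y := by
      have := mul_mem hu ((inferInstance : Y.Normal).conj_mem _ (inv_mem hu) x)
      rwa [← mul_assoc, ← mul_assoc] at this
    have o1 := oN.of_dvd_nat (N.orderOf_dvd_natCard m1)
    rw [← orderOf_coe] at o1
    have := one o1 (two_of_mem hY2 m2)
    exact commutatorElement_eq_one_iff_commute.1 this
  have oX : ∀ x ∈ X, Odd (orderOf x) := fun x hx => hXodd.of_dvd_nat (X.orderOf_dvd_natCard hx)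
  have h1 : ∀ x ∈ X, x ≠ 1 → ∀ y ∈ Y, y ≠ 1 → x * y ≠ y * x := fun x hx x1 y hy y1 e =>
    x1 (cit y x y1 (two_of_mem hY2 hy) (oX x hx) e)
  by_cases hb : Y = ⊥
  · have : Subsingleton H := ⟨fun a b => by
      have h : ∀ a : H, a = 1 := fun a => mem_bot.1 (hb ▸ hC (by rw [hb]; rintro _ rfl; simp))
      rw [h a, h b]⟩
    exact ⟨h1, fun p _ P => isCyclic_of_subsingleton, ⟨fun a ha g => Subsingleton.elim a (g * a * g⁻¹) ▸ ha⟩, fun hN =>
      have := (QuotientGroup.mk'_surjective (X ⊔ Y)).subsingleton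
      ⟨isCyclic_of_subsingleton, fun g => ⟨0, Subsingleton.elim _ _⟩⟩⟩
  have hZ : IsZGroup X := (Frob.pqCond_of_fpf hb le_normalizer_of_normal fun x hx x1 => Frob.fpf_iff.2 fun k hk e => by
    by_contra k1; exact h1 x hx x1 k hk k1 e.symm).isZGroup_of_odd hXodd
  have citOn : CITOn (⊤ : Subgroup H) := fun v _ g _ v1 v2 e => by
    obtain ⟨k, m, hm, hk⟩ := Nat.exists_eq_two_pow_mul_odd (orderOf_pos g).ne'
    refine ⟨k, cit v _ v1 v2 ?_ (Commute.pow_left e _).eq⟩
    rwa [orderOf_pow' _ (by positivity), hk, Nat.gcd_mul_right_left, Nat.mul_div_cancel_left _ (by positivity)]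
  let π := QuotientGroup.mk' Y
  have hπ : Function.Surjective π := QuotientGroup.mk'_surjective Y
  set F := fittingSubgroup (H ⧸ Y)
  have : F.Normal := Core.fittingSubgroup_normal _
  have oF : Odd (Nat.card F) := (Core.odd_card_oddCore _).of_dvd_nat (card_dvd_of_le
    (Core.fittingSubgroup_le_pPrimeCore_of_pCore_eq_bot Nat.prime_two (Core.pCore_quotient_pCore 2 H)))
  obtain ⟨k, hk⟩ := hXidx
  have FX : F ≤ X.map π := Coprime.le_of_isPiHall_of_normal (π := {2}ᶜ) (Coprime.isPiHall_map_of_surjective hπ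
    (Coprime.isPiHall_iff.2 ⟨(Coprime.IsPiNum.compl_singleton_iff Nat.prime_two).2 (Nat.coprime_two_right.2 hXodd),
      hk ▸ Coprime.IsPiNum.of_prime_pow Nat.prime_two (by simp)⟩))
    ((Coprime.IsPiNum.compl_singleton_iff Nat.prime_two).2 (Nat.coprime_two_right.2 oF))
  have : IsZGroup (X.map π) := IsZGroup.of_surjective (π.subgroupMap_surjective X)
  have : IsZGroup F := IsZGroup.of_injective (inclusion_injective FX)
  have := Core.isNilpotent_fittingSubgroup (H ⧸ Y)
  have cF : commutator (H ⧸ Y) ≤ F := (SolvStruct.commutator_le_centralizer_of_cyclic F).trans Core.centralizer_fittingSubgroup_le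
  have e : X ⊔ Y = (X.map π).comap π := by rw [comap_map_eq, QuotientGroup.ker_mk']
  refine ⟨h1, fun p _ P => inferInstance, e ▸ (Normal.of_commutator_le _ (cF.trans FX)).comap π, fun hN => ?_⟩
  have h2 : IsPGroup 2 (H ⧸ (X ⊔ Y)) := by
    obtain ⟨j, -, hj⟩ := (Nat.dvd_prime_pow Nat.prime_two).1 (hk ▸ index_dvd_of_le (le_sup_left : X ≤ X ⊔ Y))
    exact IsPGroup.of_card hj
  refine ⟨?_, h2⟩
  let φ : H ⧸ Y →* H ⧸ (X ⊔ Y) := QuotientGroup.map _ _ (MonoidHom.id H) le_sup_right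
  have hφ : Function.Surjective φ := fun y => by
    obtain ⟨y, rfl⟩ := QuotientGroup.mk_surjective y
    exact ⟨y, rfl⟩
  obtain ⟨T⟩ : Nonempty (Sylow 2 (H ⧸ Y)) := inferInstance
  have hT : IsCyclic T := by
    by_cases hF : F = ⊥
    · have : (T : Subgroup (H ⧸ Y)) = ⊥ :=
        eq_bot_iff.2 fun a _ => hF ▸ Core.centralizer_fittingSubgroup_le (show a ∈ centralizer (F : Set _) by rw [hF]; rintro _ rfl; simp)
      rw [this]; infer_instance
    refine (Frob.pqCond_of_fpf hF le_normalizer_of_normal fun t ht t1 => Frob.fpf_iff.2 fun x hx e => ?_).isCyclic_of_comm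
      ⟨⟨fun a b => Subtype.ext ((commutatorElement_eq_one_iff_mul_comm (g₁ := a.1) (g₂ := b.1)).1 ?_)⟩⟩
    · obtain ⟨t, rfl⟩ := hπ t
      obtain ⟨x, rfl⟩ := hπ x
      by_contra x1
      refine t1 ((QuotientGroup.eq_one_iff t).2 (citOn.mem_of_comm_mem hY2 le_top trivial (mem_top x) ?_ ?_
        (nY _) (nY _) ?_))
      · obtain ⟨j, hj⟩ := two_of_mem T.2 ht
        exact Two.of_pow (k := j) (two_of_mem hY2 ((QuotientGroup.eq_one_iff _).1 hj))
      · rintro ⟨j, hj⟩
        exact not_two_of_odd (oF.of_dvd_nat (F.orderOf_dvd_natCard hx)) x1 ⟨j, by rw [← map_pow, hj, map_one]⟩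
      · rw [← QuotientGroup.eq_one_iff]
        exact commutatorElement_eq_one_iff_mul_comm.2 e
    · by_contra c1
      exact not_two_of_odd (oF.of_dvd_nat (F.orderOf_dvd_natCard
        (cF (commutator_mem_commutator (mem_top _) (mem_top _))))) c1 (two_of_mem T.2 (a * b * a⁻¹ * b⁻¹).2)
  refine isCyclic_of_surjective (φ.comp (T : Subgroup _).subtype) fun y => ?_
  have : (⊤ : Subgroup _) = (T : Subgroup _).map φ := (T.mapSurjective hφ).3 (h2.to_subgroup ⊤) le_top
  obtain ⟨t, ht, rfl⟩ := this ▸ mem_top y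
  exact ⟨⟨t, ht⟩, rfl⟩

end Cfsg.Agent.S3215
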