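import Cfsg.Statements.S3237
import Cfsg.Agent.Lib.W2.L34Main

set_option autoImplicit false
open Cfsg

namespace Cfsg.Agent.S3237


/-- Let G be a finite group of even order with an involution z, H = C_G(z), such that H has a normal subgroup E of order 32 that is extraspecial and contains no elementary abelian subgroup of order 8 (the central product of a dihedral group of order 8 with a quaternion group), C_H(E) ≤ E, and H/E ≅ S₄. Then O(G) is abelian, and if G is not solvable then G is isomorphic to the automorphism group of PGL₃(4). -/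
theorem result {G : Type*} [Group G] [Finite G]
    (hev : Even (Nat.card G)) (z : G) (hz : orderOf z = 2)
    (E : Subgroup ↥(Subgroup.centralizer ({z} : Set G))) [hEn : E.Normal] (hE : Cfsg.IsExtraspecial 2 ↥E) (hE32 : Nat.card ↥E = 32)
    (hEminus : ∀ A : Subgroup ↥E, Cfsg.IsElementaryAbelian 2 A → Nat.card ↥A ≠ 8)
    (hCE : Subgroup.centralizer (E : Set ↥(Subgroup.centralizer ({z} : Set G))) ≤ E)
    (e : (↥(Subgroup.centralizer ({z} : Set G)) ⧸ E) ≃* Equiv.Perm (Fin 4)) {F : Type*} [Field F] [Fintype F] (hF : Fintype.card F = 4) :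
    IsMulCommutative ↥(Cfsg.oddCore G) ∧
      (¬ Group.IsSolvable G → Nonempty (G ≃* MulAut (GL (Fin 3) F ⧸ Subgroup.center (GL (Fin 3) F)))) := by
  obtain ⟨α, β, ψ, h, -⟩ := CfsgLib.W2.L34.exists_HD hz E hE hE32 hEminus hCE e
  exact ⟨h.comm_oddCore, fun hG => h.main hG hF⟩

end Cfsg.Agent.S3237
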