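import Cfsg.Statements.S3244
import Cfsg.Agent.Lib.InvChar.EarlyB
import Cfsg.Agent.Lib.SylTools.Rank

set_option autoImplicit false
open Cfsg

namespace Cfsg.Agent.S3244

open Subgroup CfsgLib.InvChar.Early CfsgLib.Tech CfsgLib.Core

/-- Say that a finite group G is of characteristic 2 type in the early sense when a Sylow 2-subgroup S of G has a self-centralizing normal subgroup of rank at least 3, S normalizes no nontrivial subgroup of odd order, and every 2-local subgroup of G is 2-constrained. If G is a non-abelian simple group of characteristic 2 type in this sense, then for some maximal 2-local subgroup M of G the centre of O₂(M) is not cyclic. -/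
theorem result {G : Type*} [Group G] [Finite G] [IsSimpleGroup G]
    (hG : ¬ IsMulCommutative G) (S : Sylow 2 G) (A : Subgroup G) (hA : Cfsg.IsSCN (S : Subgroup G) A) (hA3 : ¬ Cfsg.PRankLE 2 2 ↥A)
    (hinv : ∀ X : Subgroup G, Odd (Nat.card ↥X) → (S : Subgroup G) ≤ Subgroup.normalizer (X : Set G) → X = ⊥)
    (hcon : ∀ T : Subgroup G, IsPGroup 2 ↥T → T ≠ ⊥ → Cfsg.IsPConstrained 2 ↥(Subgroup.normalizer (T : Set G))) :
    ∃ M : Subgroup G, Cfsg.IsMaximalTwoLocal M ∧ ¬ IsCyclic ↥(Subgroup.center ↥(Cfsg.pCore 2 ↥M)) := by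
  obtain ⟨hAS, hSA, hAc⟩ := hA
  have hcomm : IsMulCommutative A := ⟨⟨fun a b => Subtype.ext (by
    have : (b : G) ∈ centralizer (A : Set G) := (hAc.ge b.2).2
    exact this a a.2)⟩⟩
  have hE := isElementaryAbelian_omegaOne 2 A
  have hE4 : 4 < Nat.card (omegaOne 2 A) := by
    rw [CfsgLib.SylTools.pRankLE_subgroup_iff] at hA3
    push Not at hA3
    obtain ⟨B, hBA, -, hB, hB4⟩ := hA3
    exact lt_of_lt_of_le hB4 (card_le_of_le fun b hb => mem_omegaOne (hBA hb) (hB b hb))
  have hcon' : ∀ t : G, orderOf t = 2 → IsPConstrained 2 (centralizer ({t} : Set G)) := by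
    intro t ht
    rw [← CfsgLib.InvHarv.normalizer_zpowers_of_orderOf_two ht]
    exact hcon _ (isPGroup_two_zpowers (mul_self_of_orderOf_two ht))
      (by rw [Ne, zpowers_eq_bot]; exact ne_one_of_orderOf_two ht)
  have h0 : ∀ t : G, orderOf t = 2 → centralizerPPrimeCore 2 t = ⊥ := by
    intro t ht
    obtain ⟨g, -, hg⟩ := (IsSylowIn.of_sylow_top S).exists_conj_mem (mem_top t)
      (isPGroup_two_zpowers (mul_self_of_orderOf_two ht))
    have := theta_S S.isPGroup' ((omegaOne_le 2 A).trans hAS)
      (hSA.trans (normalizer_le_normalizer_omegaOne 2 A)) hE hE4 hinv hcon'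
      (mul_self_of_orderOf_two (by rw [orderOf_conj_eq, ht])) hg
    rwa [← cj_theta, cj_eq_bot_iff] at this
  refine exists_noncyclic_center hG (fun T hT hT1 => ?_)
    (isElementaryAbelian_isPGroup hE) (by rintro h; rw [h] at hE4; simp at hE4)
  exact (CfsgLib.PLocal.Constr.isPConstrained_iff_of_pPrimeCore_eq_bot
    (core_normalizer_eq_bot hcon' h0 hT hT1)).1 (hcon T hT hT1)

end Cfsg.Agent.S3244
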