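import Cfsg.Statements.S3245
import Cfsg.Agent.Lib.Perm.BenderPow
import Cfsg.Agent.Lib.Perm.OneClass
import Cfsg.Agent.Lib.FT.OddOrder

set_option autoImplicit false
open Cfsg

namespace Cfsg.Agent.S3245


/-- A finite non-abelian simple group in which all maximal 2-local subgroups are conjugate is isomorphic to L₂(2ⁿ), Sz(2ⁿ) or U₃(2ⁿ) for some n ≥ 2. -/
theorem result {G : Type*} [Group G] [Finite G] [IsSimpleGroup G] (hG : ¬ IsMulCommutative G)
    (h1 : ∀ M M' : Subgroup G, Cfsg.IsMaximalTwoLocal M → Cfsg.IsMaximalTwoLocal M' → ∃ g : G, M' = M.map (MulAut.conj g).toMonoidHom) :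
    (∃ (F : Type) (_ : Field F) (_ : Fintype F) (n : ℕ), 2 ≤ n ∧ Fintype.card F = 2 ^ n ∧
        Nonempty (G ≃* Matrix.ProjectiveSpecialLinearGroup (Fin 2) F)) ∨
      Cfsg.Lie.IsoSuzuki G ∨
      (∃ (F : Type) (_ : Field F) (_ : Fintype F) (n : ℕ), 2 ≤ n ∧ Fintype.card F = (2 ^ n) ^ 2 ∧ Nonempty (G ≃* Cfsg.PSU 3 F (2 ^ n))) := by
  haveI : Fact (Nat.Prime 2) := ⟨Nat.prime_two⟩
  obtain ⟨t, ht⟩ := exists_prime_orderOf_dvd_card' (G := G) 2 (CfsgLib.FT.even_card_of_simple hG).two_dvd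
  obtain ⟨M, hM⟩ := CfsgLib.Perm.OneClass.se_of_one_class h1 ht fun T hT h2 =>
    (hT.eq_bot_or_eq_top).resolve_right fun e => by
      subst e
      have h3 : IsPGroup 2 G := h2.of_equiv Subgroup.topEquiv
      haveI := h3.isNilpotent
      exact hG ⟨⟨fun a b => IsSimpleGroup.comm_iff_isSolvable.2 inferInstance a b⟩⟩
  exact CfsgLib.Perm.bender_pow hG hM

end Cfsg.Agent.S3245
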