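import Mathlib
import Cfsg.Statements.S3246
import Cfsg.Agent.Lib.InvHarv.ConstrLocal
import Cfsg.Agent.Lib.Tech.SylowIn
import Cfsg.Agent.Lib.PGroup.Omega
import Cfsg.Agent.Lib.Coprime.Generation
import Cfsg.Agent.Lib.Coprime.Action

set_option autoImplicit false
open Cfsg

namespace Cfsg.Agent.S3246

open Subgroup CfsgLib CfsgLib.InvHarv CfsgLib.Tech
open scoped Pointwise commutatorElement

/-- Let G be a finite group whose Sylow 2-subgroup S has a self-centralizing normal subgroup of rank at least 3. Suppose that either every maximal 2-local subgroup of G is 2-constrained with no nontrivial normal subgroup of odd order, or the centralizer of every involution of G is 2-constrained with no nontrivial normal subgroup of odd order. Then S normalizes no nontrivial subgroup of G of odd order and every 2-local subgroup of G is 2-constrained. -/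
theorem result {G : Type*} [Group G] [Finite G]
    (S : Sylow 2 G) (A : Subgroup G) (hA : Cfsg.IsSCN (S : Subgroup G) A) (hA3 : ¬ Cfsg.PRankLE 2 2 ↥A)
    (h : (∀ M : Subgroup G, Cfsg.IsMaximalTwoLocal M → Cfsg.IsPConstrained 2 ↥M ∧ Cfsg.oddCore ↥M = ⊥) ∨
      (∀ t : G, orderOf t = 2 → Cfsg.IsPConstrained 2 ↥(Subgroup.centralizer ({t} : Set G)) ∧
        Cfsg.oddCore ↥(Subgroup.centralizer ({t} : Set G)) = ⊥)) :
    (∀ X : Subgroup G, Odd (Nat.card ↥X) → (S : Subgroup G) ≤ Subgroup.normalizer (X : Set G) → X = ⊥) ∧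
      (∀ T : Subgroup G, IsPGroup 2 ↥T → T ≠ ⊥ → Cfsg.IsPConstrained 2 ↥(Subgroup.normalizer (T : Set G))) := by
  have hchar : ∀ t : G, orderOf t = 2 →
      centralizer (Cfsg.pCore 2 (centralizer ({t} : Set G)) : Set (centralizer ({t} : Set G))) ≤
        Cfsg.pCore 2 (centralizer ({t} : Set G)) := by
    intro t ht
    rcases h with h | h
    · have hp : IsPGroup 2 (zpowers t) := isPGroup_zpowers_iff.2 ⟨1, by simpa using ht⟩
      have hne : zpowers t ≠ ⊥ := by
        rw [Ne, zpowers_eq_bot]; rintro rfl; simp at ht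
      obtain ⟨M, hM, hM1, hmax⟩ := PGroup.exists_maximal_ge (fun M : Subgroup G => IsTwoLocal M)
        (A := normalizer (zpowers t : Set G)) ⟨_, hp, hne, rfl⟩
      obtain ⟨h1, h2⟩ := h M ⟨hM1, hmax⟩
      rw [← normalizer_zpowers_of_orderOf_two ht]
      exact char_p_normalizer_of_le hp hM
        ((PLocal.Constr.isPConstrained_iff_of_pPrimeCore_eq_bot h2).1 h1)
    · obtain ⟨h1, h2⟩ := h t ht
      exact (PLocal.Constr.isPConstrained_iff_of_pPrimeCore_eq_bot h2).1 h1
  refine ⟨fun X hX hSX => ?_, fun T hT hT1 => isPConstrained_normalizer_of_forall_centralizer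
    (fun x hx => PLocal.Constr.isPConstrained_of_centralizer_le (hchar x hx)) hT hT1⟩
  obtain ⟨hAS, hAn, hAc⟩ := hA
  have hAcomm : IsMulCommutative A := PGroup.isMulCommutative_iff.2 fun a ha b hb =>
    ((hAc.ge hb).2 a ha)
  -- a normal four-subgroup of `S`
  have hn1 : (A.subgroupOf (S : Subgroup G)).Normal := (normal_subgroupOf_iff_le_normalizer hAS).2 hAn
  have hc1 : IsMulCommutative (A.subgroupOf (S : Subgroup G)) :=
    PGroup.isMulCommutative_iff.2 fun a ha b hb =>
      Subtype.ext (PGroup.isMulCommutative_iff.1 hAcomm _ ha _ hb)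
  have hn2 := PGroup.powKer_normal (A.subgroupOf (S : Subgroup G)) hc1 2
  have hcard : 2 ^ 2 ≤ Nat.card (PGroup.powKer (A.subgroupOf (S : Subgroup G)) hc1 2) := by
    unfold Cfsg.PRankLE at hA3
    push Not at hA3
    obtain ⟨E, -, hE2, hE⟩ := hA3
    refine hE.le.trans (Nat.card_le_card_of_injective
      (fun e : E => (⟨⟨((e : A) : G), hAS (e : A).2⟩, PGroup.mem_powKer.2 ⟨(e : A).2, ?_⟩⟩ :
        PGroup.powKer (A.subgroupOf (S : Subgroup G)) hc1 2)) ?_)
    · have := congrArg Subtype.val (hE2 e e.2)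
      exact Subtype.ext this
    · intro a b hab
      simp only [Subtype.mk.injEq] at hab
      exact Subtype.ext (Subtype.ext hab)
  obtain ⟨U₀, hU₀n, hU₀le, hU₀c⟩ := PGroup.exists_normal_le_card_eq S.isPGroup' _ 2 hcard
  set U := U₀.map (S : Subgroup G).subtype with hU
  have hUS : U ≤ S := map_subtype_le _
  have hUA : U ≤ A := by
    rintro _ ⟨u, hu, rfl⟩
    exact (PGroup.mem_powKer.1 (hU₀le hu)).1
  have hU2 : ∀ u ∈ U, u ^ 2 = 1 := by
    rintro _ ⟨u, hu, rfl⟩
    exact congrArg Subtype.val (PGroup.mem_powKer.1 (hU₀le hu)).2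
  have hUc : Nat.card U = 4 := by rw [hU, Core.card_map_subtype, hU₀c]; rfl
  have hUcomm : IsMulCommutative U := PGroup.isMulCommutative_of_le hAcomm hUA
  have hUnc : ¬ IsCyclic U := by
    intro hcyc
    obtain ⟨g, hg⟩ := isCyclic_iff_exists_orderOf_eq_natCard.1 hcyc
    have : orderOf g ∣ 2 := orderOf_dvd_of_pow_eq_one (Subtype.ext (hU2 g g.2))
    rw [hg, hUc] at this
    omega
  have hX2 : (Nat.card X).Coprime 2 := (Nat.coprime_two_right).2 hX
  by_contra hX0
  obtain ⟨u, hu, hu1, hne⟩ := Coprime.exists_centralizer_ne_bot hUnc (hUS.trans hSX)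
    (by rw [hUc]; exact (hX2.pow_right 2).symm) hX0
  have hu2 : orderOf u = 2 := orderOf_eq_prime (hU2 u hu) hu1
  apply hne
  set C := centralizer ({u} : Set G) with hC
  set Q := (Cfsg.pCore 2 C).map C.subtype with hQ
  have hQp : IsPGroup 2 Q := Core.isPGroup_map_pCore C
  have hQC : Q ≤ C := map_subtype_le _
  have hCQ : C ≤ normalizer (Q : Set G) := Core.le_normalizer_map_subtype_of_normal _
  have hidx : C.relIndex (S : Subgroup G) ≤ 2 := by
    obtain ⟨u₀, hu₀, rfl⟩ := hu
    have h1 := PGroup.index_centralizer_le_of_normal S.isPGroup' 2 U₀ hU₀c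
    have h2 : centralizer (U₀ : Set (S : Subgroup G)) ≤ C.subgroupOf (S : Subgroup G) := by
      intro s hs
      rw [mem_subgroupOf, hC, mem_centralizer_singleton_iff]
      exact (congrArg Subtype.val (hs u₀ hu₀)).symm
    exact (Nat.le_of_dvd (Nat.pos_of_ne_zero index_ne_zero_of_finite) (index_dvd_of_le h2)).trans h1
  -- `Q ⊓ S` has index at most two in `Q`
  obtain ⟨T, hT, hST⟩ := exists_isSylowIn_ge (S.isPGroup'.to_le (inf_le_left : (S : Subgroup G) ⊓ C ≤ _))
    (inf_le_right : (S : Subgroup G) ⊓ C ≤ C)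
  have hQT : Q ≤ T := hT.le_of_le_normalizer hQp hQC hCQ
  have hTS : Nat.card T ≤ Nat.card (S : Subgroup G) :=
    (IsSylowIn.of_sylow_top S).card_le hT.pgroup le_top
  have hidx2 : ((S : Subgroup G) ⊓ C).relIndex T ≤ 2 := by
    have h1 := Core.card_mul_relIndex_of_le hST
    have h2 := Core.card_inf_mul_relIndex C (S : Subgroup G)
    rw [inf_comm] at h2
    have h3 : 0 < Nat.card ↥((S : Subgroup G) ⊓ C) := Nat.card_pos
    nlinarith
  set Q₀ := Q ⊓ (S : Subgroup G) with hQ₀
  have hidx3 : Q₀.relIndex Q ≤ 2 := by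
    have h1 : Q₀.relIndex Q = ((S : Subgroup G) ⊓ C).relIndex Q := by
      rw [hQ₀, inf_relIndex_left, ← inf_relIndex_right ((S : Subgroup G) ⊓ C), inf_assoc,
        inf_eq_right.2 hQC, inf_relIndex_right]
    rw [h1]
    exact (relIndex_le_of_le_right hQT index_ne_zero_of_finite).trans hidx2
  have hY : X ⊓ C ≤ centralizer (Q₀ : Set G) := by
    intro y hy q hq
    have h1 : q * y * q⁻¹ * y⁻¹ ∈ Q ⊓ X := by
      refine ⟨?_, X.mul_mem ((mem_normalizer_iff.1 (hSX hq.2) y).1 hy.1) (X.inv_mem hy.1)⟩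
      have := Q.mul_mem hq.1 ((mem_normalizer_iff.1 (hCQ hy.2) q⁻¹).1 (Q.inv_mem hq.1))
      simpa [mul_assoc] using this
    rw [Core.isPGroup_inf_eq_bot_of_coprime hQp hX2, mem_bot] at h1
    calc q * y = q * y * q⁻¹ * y⁻¹ * (y * q) := by group
      _ = y * q := by rw [h1, one_mul]
  have hYc : (Nat.card ↥(X ⊓ C)).Coprime 2 :=
    hX2.coprime_dvd_left (card_dvd_of_le inf_le_left)
  have hY' : X ⊓ C ≤ centralizer (Q : Set G) := by
    refine Coprime.le_centralizer_of_commutator_le (N := Q₀) inf_le_left ?_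
      (Core.isPGroup_coprime_card (hQp.to_le inf_le_left) hYc).symm hY
    rw [commutator_le]
    intro q hq y hy
    have hyq : y * q * y⁻¹ ∈ Q := (mem_normalizer_iff.1 (hCQ hy.2) q).1 hq
    have e : ⁅q, y⁆ = q * (y * q * y⁻¹)⁻¹ := by simp [commutatorElement_def, mul_assoc]
    by_cases hq0 : q ∈ Q₀
    · have := hY hy q hq0
      rw [commutatorElement_def, this]
      simpa using Q₀.one_mem
    · have h0 : y * q * y⁻¹ ∉ Q₀ := by
        intro h'
        have := hY hy _ h'
        apply hq0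
        have e2 : q = y * q * y⁻¹ := by
          calc q = y⁻¹ * (y * q * y⁻¹ * y) := by group
            _ = _ := by rw [this]; group
        rwa [e2]
      have h2 : (Q₀.subgroupOf Q).index = 2 := by
        have h3 : Q₀.relIndex Q ≠ 1 := fun h' => hq0 (relIndex_eq_one.1 h' hq)
        have h4 : Q₀.relIndex Q ≠ 0 := index_ne_zero_of_finite
        change Q₀.relIndex Q = 2
        omega
      have h5 := (mul_mem_iff_of_index_two h2 (a := ⟨q, hq⟩) (b := ⟨_, hyq⟩⁻¹)).2
        (by simp [mem_subgroupOf, hq0, h0])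
      rw [e]
      exact h5
  rw [eq_bot_iff, ← Core.isPGroup_inf_eq_bot_of_coprime hQp hX2]
  intro y hy
  refine ⟨⟨⟨y, hy.2⟩, hchar u hu2 fun z hz => Subtype.ext ?_, rfl⟩, hy.1⟩
  exact hY' hy z ⟨z, hz, rfl⟩

end Cfsg.Agent.S3246
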