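import Mathlib
import Cfsg.Statements.S3247
import Cfsg.Agent.Lib.InvHarv.ConstrLocal
import Cfsg.Agent.Lib.Tech.SylowIn

set_option autoImplicit false
open Cfsg

namespace Cfsg.Agent.S3247

open Subgroup CfsgLib CfsgLib.InvHarv CfsgLib.Tech
open scoped Pointwise commutatorElement

/-- Let G be a finite group and p a prime; here a p-local subgroup means the normalizer of a nontrivial p-subgroup, other than G itself. If every p-local subgroup of G that is maximal among p-local subgroups is p-constrained, or if the centralizer of every element of order p of G is p-constrained, then every p-local subgroup of G is p-constrained. -/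
theorem result {G : Type*} [Group G] [Finite G] (p : ℕ) [hp : Fact p.Prime]
    (h : (∀ M : Subgroup G, (∃ T : Subgroup G, IsPGroup p ↥T ∧ T ≠ ⊥ ∧ M = Subgroup.normalizer (T : Set G)) → M ≠ ⊤ →
        (∀ M' : Subgroup G, (∃ T' : Subgroup G, IsPGroup p ↥T' ∧ T' ≠ ⊥ ∧ M' = Subgroup.normalizer (T' : Set G)) → M' ≠ ⊤ → M ≤ M' → M = M') →
        Cfsg.IsPConstrained p ↥M) ∨
      (∀ x : G, orderOf x = p → Cfsg.IsPConstrained p ↥(Subgroup.centralizer ({x} : Set G))))
    (T : Subgroup G) (hT : IsPGroup p ↥T) (hT1 : T ≠ ⊥) (hTG : Subgroup.normalizer (T : Set G) ≠ ⊤) :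
    Cfsg.IsPConstrained p ↥(Subgroup.normalizer (T : Set G)) := by
  rcases h with h | h
  · obtain ⟨M, hM, ⟨hM1, hM2⟩, hmax⟩ := PGroup.exists_maximal_ge
      (fun M : Subgroup G => (∃ T : Subgroup G, IsPGroup p ↥T ∧ T ≠ ⊥ ∧
        M = Subgroup.normalizer (T : Set G)) ∧ M ≠ ⊤) (A := normalizer (T : Set G))
      ⟨⟨T, hT, hT1, rfl⟩, hTG⟩
    exact isPConstrained_normalizer_of_le hT hM
      (h M hM1 hM2 fun M' h1 h2 h3 => (hmax M' ⟨h1, h2⟩ h3).symm)
  · exact isPConstrained_normalizer_of_forall_centralizer h hT hT1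

end Cfsg.Agent.S3247
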