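import Cfsg.Statements.S3260
import Cfsg.Agent.Lib.EqZJ.Main
import Cfsg.Agent.Lib.Coprime.Aut
import Cfsg.Agent.Lib.Classical.SmallIso

set_option autoImplicit false
open Cfsg

namespace Cfsg.Agent.S3260

/-- Let p ≥ 5 be a prime, G a finite p-constrained group with Sylow p-subgroup S, and A a group of automorphisms of G of order coprime to |G| whose fixed-point subgroup has no section isomorphic to PSL₂(p). Then G = O_{p'}(G) · N_G(Z(J(S))), where J(S) is the subgroup generated by the abelian subgroups of S of largest order. -/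
theorem result {G : Type*} [Group G] [Finite G] (p : ℕ) [hp : Fact p.Prime] (hp5 : 5 ≤ p)
    (hG : Cfsg.IsPConstrained p G) (S : Sylow p G) (A : Subgroup (MulAut G)) (hA : (Nat.card ↥A).Coprime (Nat.card G))
    (C : Subgroup G) (hC : ∀ g : G, g ∈ C ↔ ∀ a ∈ A, a g = g)
    {F : Type*} [Field F] [Fintype F] (hF : Fintype.card F = p)
    (hfix : ¬ Cfsg.Involves (Matrix.ProjectiveSpecialLinearGroup (Fin 2) F) ↥C) :
    Cfsg.pPrimeCore p G ⊔ Subgroup.normalizer (Cfsg.centerThompsonAOf (S : Subgroup G) : Set G) = ⊤ := by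
  by_cases h : p ∣ Nat.card G
  swap
  · rw [CfsgLib.Core.pPrimeCore_eq_top_iff.2 (hp.out.coprime_iff_not_dvd.2 h).symm, top_sup_eq]
  have := CfsgLib.Coprime.finite_sd (φ := A.subtype)
  have e : CfsgLib.Coprime.sdL A.subtype ⊤ = SemidirectProduct.inl.range := (MonoidHom.range_eq_map _).symm
  refine CfsgLib.EqZJ.Hyp.sup_eq_top (A := CfsgLib.Coprime.sdR A.subtype ⊤) SemidirectProduct.inl_injective
    ⟨e ▸ CfsgLib.Coprime.sdL_top_normal, ?_, e ▸ CfsgLib.Coprime.coprime_sd (by rwa [Subgroup.card_top]),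
      fun h1 => hfix ?_⟩ hp5 hG S
  · rw [SemidirectProduct.range_inl_eq_ker_rightHom, Subgroup.index_ker,
      MonoidHom.range_eq_top.2 SemidirectProduct.rightHom_surjective, Subgroup.card_top]
    exact hA.coprime_dvd_right h
  · rw [← e, CfsgLib.Coprime.sdL_inf_centralizer, top_inf_eq, show CfsgLib.Coprime.autFix A.subtype = C from
      Subgroup.ext fun g => by rw [hC]; exact Subtype.forall] at h1
    have e1 := CfsgLib.Classical.pslMapEquiv (ι := Fin 2) (FiniteField.ringEquivOfCardEq (K := F) (K' := ZMod p)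
      (hF.trans (ZMod.card p).symm))
    have e2 := (CfsgLib.Coprime.sdLEquiv (φ := A.subtype) C).symm
    exact CfsgLib.ZJ.involves_trans (CfsgLib.ZJ.involves_of_injective e1.toMonoidHom e1.injective)
      (CfsgLib.ZJ.involves_trans h1 (CfsgLib.ZJ.involves_of_injective e2.toMonoidHom e2.injective))

end Cfsg.Agent.S3260
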