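import Cfsg.Statements.S3278
import Cfsg.Agent.Lib.InvChar.KleinIndex
import Cfsg.Agent.Lib.DihSyl.Klein
import Cfsg.Agent.Lib.SmallSimple.Basic
import Cfsg.Agent.Lib.Core.MinNormal
import Cfsg.Agent.S3276
import Cfsg.Agent.S3277
import Cfsg.Agent.S0992

set_option autoImplicit false
open Cfsg

namespace Cfsg.Agent.S3278

open Subgroup CfsgLib CfsgLib.Tech

/-- Let G be a finite simple group with an involution x such that a Sylow 2-subgroup of C_G(x) is a Klein four-group which is normal in C_G(x). Then G is isomorphic to the alternating group of degree 5 (that is, to PSL(2, 5)). -/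
theorem result {G : Type*} [Group G] [Finite G] [IsSimpleGroup G] (x : G) (hx : orderOf x = 2)
    (S₀ : Subgroup G) (hle : S₀ ≤ Subgroup.centralizer ({x} : Set G)) (hK : IsKleinFour ↥S₀)
    (hodd : ¬ 2 ∣ S₀.relIndex (Subgroup.centralizer ({x} : Set G))) (hn : (S₀.subgroupOf (Subgroup.centralizer ({x} : Set G))).Normal) :
    Nonempty (G ≃* ↥(alternatingGroup (Fin 5))) := by
  set C := centralizer ({x} : Set G) with hC
  have hx1 : x ≠ 1 := Invol.ne_one_of_orderOf_two hx
  have hV2 : IsPGroup 2 S₀ := IsPGroup.of_card (n := 2) hK.card_four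
  have hS : IsSylowIn 2 S₀ C := ⟨hle, hV2, hodd⟩
  have hCn : C ≤ normalizer (S₀ : Set G) := (normal_subgroupOf_iff_le_normalizer hle).1 hn
  have hV : ∀ a : G, orderOf a = 2 → Commute a x → a ∈ S₀ := fun a ha hax =>
    hS.le_of_normalizes (Invol.isPGroup_zpowers_of_mul_self (Invol.mul_self_of_orderOf_two ha))
      (zpowers_le.2 (mem_centralizer_singleton_iff.2 hax))
      (zpowers_le.2 (hCn (mem_centralizer_singleton_iff.2 hax))) (mem_zpowers a)
  have hxV : x ∈ S₀ := hV x hx (Commute.refl x)
  have h4 : 4 ∣ Nat.card G := hK.card_four ▸ card_subgroup_dvd_card S₀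
  have hG : ¬ IsMulCommutative G := by
    intro h
    have : Group.IsSolvable G := Group.isSolvable_of_comm fun a b => h.is_comm.comm a b
    have hp := Core.card_prime_of_isSimpleGroup_of_isSolvable (G := G)
    have := (Nat.prime_dvd_prime_iff_eq Nat.prime_two hp).1 (Dvd.dvd.trans (by norm_num) h4)
    rw [← this] at h4
    omega
  obtain ⟨y, hyV, hy1, hyx⟩ : ∃ y ∈ S₀, y ≠ 1 ∧ x ≠ y := by
    obtain ⟨a, b, ha, hb, ha1, hb1, hab⟩ := TwoGrp.exists_gens_of_isKleinFour hK
    by_cases h : x = a
    · exact ⟨b, hb, hb1, h ▸ hab⟩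
    · exact ⟨a, ha, ha1, h⟩
  -- `C` centralizes `S₀`
  have hCV : C ≤ centralizer (S₀ : Set G) := by
    have hmem := TwoGrp.mem_iff_of_isKleinFour hK hxV hyV hx1 hy1 hyx
    have hcent : ∀ g ∈ C, g * y * g⁻¹ = y → g ∈ centralizer (S₀ : Set G) := by
      intro g hg hgy a ha
      have h1 : Commute x g := (mem_centralizer_singleton_iff.1 hg).symm
      have h2 : Commute y g := (mul_inv_eq_iff_eq_mul.1 hgy).symm
      rcases (hmem a).1 ha with rfl | rfl | rfl | rfl
      · simp
      · exact h1
      · exact h2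
      · exact h1.mul_left h2
    have hsq : ∀ g ∈ C, g * g ∈ centralizer (S₀ : Set G) := by
      intro g hg
      have h1 : g * x * g⁻¹ = x := mul_inv_eq_iff_eq_mul.2 (mem_centralizer_singleton_iff.1 hg)
      rcases (hmem _).1 (conj_mem_of_mem_normalizer (hCn hg) hyV) with h | h | h | h
      · exact absurd (by simpa using h) hy1
      · rw [← h1] at h
        exact absurd (by simpa using h.symm) hyx
      · exact mul_mem (hcent g hg h) (hcent g hg h)
      · refine hcent _ (C.mul_mem hg hg) ?_
        calc g * g * y * (g * g)⁻¹ = g * (g * y * g⁻¹) * g⁻¹ := by group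
          _ = g * (x * y) * g⁻¹ := by rw [h]
          _ = (g * x * g⁻¹) * (g * y * g⁻¹) := by group
          _ = (x * x) * y := by rw [h, h1]; group
          _ = y := by rw [Invol.mul_self_of_orderOf_two hx, one_mul]
    intro g hg
    have hi : ¬ 2 ∣ (centralizer (S₀ : Set G)).relIndex C := fun h => hodd (h.trans
      (relIndex_dvd_of_le_left C fun a ha b hb => TwoGrp.comm_of_isKleinFour hK hb ha))
    have : ((centralizer (S₀ : Set G)).subgroupOf C).Normal :=
      normal_subgroupOf_of_le_normalizer (hCn.trans (Core.normalizer_le_normalizer_centralizer _))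
    have h1 := pow_index_mem (H := (centralizer (S₀ : Set G)).subgroupOf C) ⟨g, hg⟩
    obtain ⟨k, hk⟩ : Odd ((centralizer (S₀ : Set G)).subgroupOf C).index :=
      Nat.odd_iff.2 (Nat.two_dvd_ne_zero.1 hi)
    rw [hk, pow_succ, pow_mul, pow_two, mem_subgroupOf] at h1
    exact (mul_mem_cancel_left (pow_mem (hsq g hg) k)).1 h1
  obtain ⟨S, hVS⟩ := hV2.exists_le_sylow
  rcases hVS.eq_or_lt with hVS' | hlt
  · have hfus : ∀ a ∈ S₀, a ≠ 1 → IsConj x a := by
      rcases DihSyl.klein_dichotomy S (hVS' ▸ hK) with h | h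
      · exact fun a ha h1 => h x (hVS hxV) a (hVS ha) hx1 h1
      · exact absurd h (SmallSimple.not_normalizer_le_centralizer hG S
          (Dvd.dvd.trans (by norm_num) h4))
    have hNC : normalizer (hS.toSylow : Subgroup C) ≤ centralizer (hS.toSylow : Set C) :=
      fun g _ a ha => Subtype.ext (hCV g.2 a ha)
    have hcomp := MonoidHom.ker_transferSylow_isComplement' hS.toSylow hNC
    obtain ⟨h1, h2⟩ := Invol.odd_of_isComplement' hS.toSylow hcomp
    set N := (MonoidHom.transferSylow hS.toSylow hNC).ker
    have hcard : Nat.card C = 4 * Nat.card N := by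
      rw [← hcomp.card_mul_card, hS.coe_toSylow, Nat.card_congr (subgroupOfEquivOfLe hle).toEquiv,
        hK.card_four, mul_comm]
    have hlt := InvChar.Klein.index_lt (N := N.map C.subtype) hK hx hxV hfus hV (map_subtype_le _)
      (by rwa [card_map_of_injective C.subtype_injective])
      (fun g hg ho => ⟨⟨g, hg⟩, h2 _ (by rwa [orderOf_mk]), rfl⟩)
      (by rwa [card_map_of_injective C.subtype_injective])
    have hCeq : centralizer ((S : Subgroup G) : Set G) = C :=
      le_antisymm (centralizer_le (Set.singleton_subset_iff.2 (hVS hxV))) (hVS' ▸ hCV)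
    have hSi := S.not_dvd_index
    have h3 := (Cfsg.Agent.S0992.result hG (even_iff_two_dvd.2 (Dvd.dvd.trans (by norm_num) h4))
      (by
        rw [← (S : Subgroup G).card_mul_index, ← hVS', hK.card_four]
        rw [← hVS'] at hSi
        omega) S).2
    rw [hCeq] at h3
    have h5 := relIndex_mul_index (H := C) (K := normalizer ((S : Subgroup G) : Set G))
      (hCeq ▸ centralizer_le_normalizer _)
    rw [h3] at h5
    have hne : normalizer ((S : Subgroup G) : Set G) ≠ ⊤ := by
      intro h
      rcases (normalizer_eq_top_iff.1 h).eq_bot_or_eq_top with h | h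
      · exact hx1 (by simpa [h] using hVS hxV)
      · exact hG ⟨⟨fun a b => TwoGrp.comm_of_isKleinFour hK (hVS' ▸ h ▸ mem_top a)
          (hVS' ▸ h ▸ mem_top b)⟩⟩
    have h6 := SmallSimple.two_mul_card_dvd_factorial hG _ hne
    have h7 : ¬ 2 ∣ (normalizer ((S : Subgroup G) : Set G)).index := fun h =>
      hSi (h.trans (index_dvd_of_le le_normalizer))
    rw [← C.card_mul_index, ← h5, hcard] at h6
    rw [← hC, ← h5] at hlt
    have hN1 : Nat.card N = 1 := by
      have h8 : 0 < Nat.card N := Nat.card_pos
      obtain h | h | h : (normalizer ((S : Subgroup G) : Set G)).index = 1 ∨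
          (normalizer ((S : Subgroup G) : Set G)).index = 3 ∨
          (normalizer ((S : Subgroup G) : Set G)).index = 5 := by omega
      all_goals
        rw [h] at h6
        have := Nat.le_of_dvd (Nat.factorial_pos _) h6
        simp only [Nat.factorial] at this
        omega
    rw [hN1] at hcard
    have hCS : S₀ = C := eq_of_le_of_card_ge hle (by rw [hcard, hK.card_four])
    refine Cfsg.Agent.S3277.result x hx hcard (fun c hc => ?_) ?_ fun E hE hEe => ?_
    · rw [pow_two]
      exact congrArg Subtype.val (IsKleinFour.mul_self (⟨c, hCS ▸ hc⟩ : S₀))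
    · rintro ⟨P, M, hM, hMP⟩
      rcases hM.eq_bot_or_eq_top with rfl | rfl
      · have h8 := isComplement'_bot_left.1 hMP
        have : Group.IsNilpotent G :=
          (IsPGroup.of_equiv (h8 ▸ P.isPGroup') topEquiv).isNilpotent
        have hp := Core.card_prime_of_isSimpleGroup_of_isSolvable (G := G)
        have := (Nat.prime_dvd_prime_iff_eq Nat.prime_two hp).1 (Dvd.dvd.trans (by norm_num) h4)
        rw [← this] at h4
        omega
      · have h8 := isComplement'_top_left.1 hMP
        have h9 := P.not_dvd_index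
        rw [h8, index_bot] at h9
        exact h9 (Dvd.dvd.trans (by norm_num) h4)
    · rcases hE.eq_bot_or_eq_top with rfl | rfl
      · simp
      · exact absurd ⟨⟨fun a b => PLocal.elemAb_comm hEe (mem_top a) (mem_top b)⟩⟩ hG
  · exfalso
    obtain ⟨g, hgS, hgV, hgN⟩ := exists_mem_normalizer_of_lt S.isPGroup' hlt
    obtain ⟨z, hzS, hzc, hz⟩ := InvHarv.exists_central_orderOf_eq S.isPGroup' (ne_bot_of_gt hlt)
    have hz1 : z ≠ 1 := Invol.ne_one_of_orderOf_two hz
    have hzV : z ∈ S₀ := hV z hz (hzc x (hVS hxV)).symm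
    have hSz : (S : Subgroup G) ≤ centralizer {z} := fun s hs =>
      mem_centralizer_singleton_iff.2 (hzc s hs)
    have hnc' : ∀ k : G, k * x * k⁻¹ ≠ z := by
      intro k hk
      rw [← hk, ← cj_centralizer_singleton] at hSz
      have h1 := (hS.cj k).card_le S.isPGroup' hSz
      rw [card_cj] at h1
      exact absurd (Core.card_lt_of_lt hlt) (not_lt.2 h1)
    have hxz : x ≠ z := fun h => hnc' 1 (by simpa using h)
    have hmem := TwoGrp.mem_iff_of_isKleinFour hK hxV hzV hx1 hz1 hxz
    have hg : g * x * g⁻¹ = x * z := by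
      rcases (hmem _).1 (conj_mem_of_mem_normalizer hgN hxV) with h | h | h | h
      · exact absurd (by simpa using h) hx1
      · refine absurd (hS.le_of_normalizes (isPGroup_zpowers_of_mem S.isPGroup' hgS)
          (zpowers_le.2 (mem_centralizer_singleton_iff.2 (mul_inv_eq_iff_eq_mul.1 h)))
          (zpowers_le.2 hgN) (mem_zpowers g)) hgV
      · exact absurd h (hnc' g)
      · exact h
    have hCxz : centralizer {x * z} ≤ centralizer (S₀ : Set G) := by
      rw [← hg, ← cj_centralizer_singleton, ← mem_normalizer_iff_cj.1 hgN, ← cj_centralizer]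
      exact cj_mono g hCV
    obtain ⟨hne, -, -⟩ := Cfsg.Agent.S3276.result x z hx hz
      (TwoGrp.comm_of_isKleinFour hK hxV hzV) (fun h => by
        obtain ⟨k, hk⟩ := isConj_iff.1 h
        exact hnc' k hk) (fun u hu hux k hk => by
        rcases (hmem u).1 (hV u hu hux) with h | h | h | h
        · exact absurd h (Invol.ne_one_of_orderOf_two hu)
        · exact (hCV (mem_centralizer_singleton_iff.2 (h ▸ hk)) z hzV).symm
        · exact h ▸ hk
        · exact (hCxz (mem_centralizer_singleton_iff.2 (h ▸ hk)) z hzV).symm)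
    rcases (inferInstance : (normalClosure ({z} : Set G)).Normal).eq_bot_or_eq_top with h | h
    · exact hz1 (mem_bot.1 (h ▸ subset_normalClosure rfl))
    · exact hne h

end Cfsg.Agent.S3278
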