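import Cfsg.Statements.S3279
import Cfsg.Agent.Lib.ZStar.Main
import Cfsg.Agent.Lib.SylTools.Basic
import Cfsg.Agent.Lib.PGroup.Basic

set_option autoImplicit false
open Cfsg

namespace Cfsg.Agent.S3279

open CfsgLib CfsgLib.SylTools CfsgLib.Isol Subgroup

theorem exists_central {G : Type*} [Group G] [Finite G] {s t : G} (hs : orderOf s = 2)
    (ht : orderOf t = 2) (h : ¬ IsConj s t) : ∃ u : G, orderOf u = 2 ∧ Commute s u ∧ Commute t u := by
  rcases Nat.even_or_odd (orderOf (s * t)) with ⟨m, hm⟩ | hodd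
  · have hpos := orderOf_pos (s * t)
    exact ⟨_, half_pow_of_even (mul_self_of_orderOf_two hs) (mul_self_of_orderOf_two ht)
      (m := m) (by omega) (by omega)⟩
  · obtain ⟨j, hj⟩ := exists_zpow_conj_of_odd (mul_self_of_orderOf_two hs)
      (mul_self_of_orderOf_two ht) hodd
    exact absurd (isConj_iff.2 ⟨_, hj⟩) h

theorem orderOf_mul_two {G : Type*} [Group G] {x y : G} (hx : orderOf x = 2) (hy : orderOf y = 2)
    (hc : Commute x y) (hne : y ≠ x) : orderOf (x * y) = 2 := by
  refine orderOf_eq_two_iff.2 ⟨?_, fun e => hne ?_⟩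
  · calc x * y * (x * y) = x * (y * x) * y := by group
      _ = (x * x) * (y * y) := by rw [← hc.eq]; group
      _ = 1 := by rw [mul_self_of_orderOf_two hx, mul_self_of_orderOf_two hy, one_mul]
  · rw [← inv_eq_of_mul_self (mul_self_of_orderOf_two hx)]
    exact (eq_inv_of_mul_eq_one_right e)

theorem mem_three {G : Type*} [Group G] [Finite G] {x y : G} (hx : orderOf x = 2)
    (h3 : Nat.card {u : ↥(Subgroup.centralizer ({x} : Set G)) // orderOf u = 2} ≤ 3)
    (hy : orderOf y = 2) (hc : Commute x y) (hne : y ≠ x) {u : G} (hu : orderOf u = 2)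
    (hxu : Commute x u) : u = x ∨ u = y ∨ u = x * y := by
  by_contra hcon
  push Not at hcon
  obtain ⟨h1, h2, h4⟩ := hcon
  have hxy := orderOf_mul_two hx hy hc hne
  have m : ∀ a : G, Commute x a → a ∈ Subgroup.centralizer ({x} : Set G) := fun a ha =>
    mem_centralizer_singleton_iff.2 ha.symm.eq
  have hx1 := ne_one_of_orderOf_two hx
  have hy1 := ne_one_of_orderOf_two hy
  let f : Fin 4 → {u : ↥(Subgroup.centralizer ({x} : Set G)) // orderOf u = 2} :=
    ![⟨⟨x, m x rfl⟩, by rw [← orderOf_coe]; exact hx⟩, ⟨⟨y, m y hc⟩, by rw [← orderOf_coe]; exact hy⟩,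
      ⟨⟨x * y, m _ ((Commute.refl x).mul_right hc)⟩, by rw [← orderOf_coe]; exact hxy⟩,
      ⟨⟨u, m u hxu⟩, by rw [← orderOf_coe]; exact hu⟩]
  have hf : Function.Injective f := by
    intro i j hij
    have := congrArg (fun a => (a.1 : G)) hij
    fin_cases i <;> fin_cases j <;> simp_all [f, eq_comm]
  have := Nat.card_le_card_of_injective f hf
  simp at this
  omega

/-- Let G be a finite simple group and x an involution of G whose centralizer contains at most three involutions. Then C_G(x) contains a Sylow 2-subgroup of G, and all involutions of G are conjugate. -/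
theorem result {G : Type*} [Group G] [Finite G] [IsSimpleGroup G] (x : G) (hx : orderOf x = 2)
    (h3 : Nat.card {u : ↥(Subgroup.centralizer ({x} : Set G)) // orderOf u = 2} ≤ 3) :
    (∃ S : Sylow 2 G, (S : Subgroup G) ≤ Subgroup.centralizer ({x} : Set G)) ∧
      ∀ u v : G, orderOf u = 2 → orderOf v = 2 → IsConj u v := by
  have hx1 := ne_one_of_orderOf_two hx
  by_cases hab : IsMulCommutative G
  · have hc : ∀ a b : G, a * b = b * a := fun a b => hab.is_comm.comm a b
    refine ⟨⟨default, fun s _ => mem_centralizer_singleton_iff.2 (hc _ _)⟩, fun u v hu hv => ?_⟩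
    have hn : (zpowers u).Normal := ⟨fun a ha g => by rw [hc g a]; simpa using ha⟩
    rcases hn.eq_bot_or_eq_top with h | h
    · exact absurd (zpowers_eq_bot.1 h) (ne_one_of_orderOf_two hu)
    · obtain ⟨k, rfl⟩ : v ∈ zpowers u := h ▸ mem_top v
      simp only at hv ⊢
      have h2 : u ^ (2 : ℤ) = 1 := by rw [zpow_two, mul_self_of_orderOf_two hu]
      rcases Int.even_or_odd' k with ⟨k, rfl | rfl⟩
      · rw [zpow_mul, h2, one_zpow] at hv; simp at hv
      · rw [zpow_add, zpow_mul, h2, one_zpow, one_mul, zpow_one]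
  have hni := ZStar.not_isolated_of_simple hab x
  obtain ⟨g, hg, hne⟩ : ∃ g : G, Commute x (g * x * g⁻¹) ∧ g * x * g⁻¹ ≠ x := by
    by_contra hcon
    push Not at hcon
    exact hni ⟨hx, hcon⟩
  set y := g * x * g⁻¹ with hydef
  have hy : orderOf y = 2 := by rw [hydef, orderOf_conj, hx]
  have hxy : IsConj x y := isConj_iff.2 ⟨g, rfl⟩
  have hw := orderOf_mul_two hx hy hg hne
  have k1 := fun u hu hxu => mem_three hx h3 hy hg hne (u := u) hu hxu
  -- transport to conjugates
  have k2 : ∀ c a : G, orderOf a = 2 → Commute (c * x * c⁻¹) a →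
      IsConj x a ∨ a = c * (x * y) * c⁻¹ := by
    intro c a ha hc
    have h1 : Commute x (c⁻¹ * a * c⁻¹⁻¹) := by
      have := hc.eq
      change x * _ = _ * x
      calc x * (c⁻¹ * a * c⁻¹⁻¹) = c⁻¹ * (c * x * c⁻¹ * a) * c := by group
        _ = _ := by rw [this]; group
    rcases k1 _ (by rw [orderOf_conj, ha]) h1 with e | e | e
    · exact Or.inl (isConj_iff.2 ⟨c, by rw [← e]; group⟩)
    · exact Or.inl (hxy.trans (isConj_iff.2 ⟨c, by rw [← e]; group⟩))
    · exact Or.inr (by rw [← e]; group)
  have hxw : IsConj x (x * y) := by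
    by_contra hcon
    have k3 : ∀ c : G, Commute (x * y) (c * (x * y) * c⁻¹) := by
      intro c
      have ho : orderOf (c * (x * y) * c⁻¹) = 2 := by rw [orderOf_conj, hw]
      have hn : ¬ IsConj x (c * (x * y) * c⁻¹) := fun e =>
        hcon (e.trans (isConj_iff.2 ⟨c, rfl⟩).symm)
      obtain ⟨u, hu, h1, h2⟩ := exists_central hx ho hn
      rcases k1 u hu h1 with rfl | rfl | rfl
      · rcases k2 1 _ ho (by simpa using h2.symm) with e | e
        · exact absurd e hn
        · rw [e]; simp
      · rcases k2 g _ ho h2.symm with e | e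
        · exact absurd e hn
        · rcases k2 g (x * y) hw ((hg.symm).mul_right (Commute.refl y)) with e' | e'
          · exact absurd e' hcon
          · rw [e, ← e']
      · exact h2.symm
    have hN : normalClosure {x * y} = (⊤ : Subgroup G) := by
      refine (normalClosure_normal.eq_bot_or_eq_top).resolve_left fun e => ?_
      have : x * y ∈ normalClosure {x * y} := subset_normalClosure rfl
      rw [e, mem_bot] at this
      exact ne_one_of_orderOf_two hw this
    have hle : normalClosure {x * y} ≤ centralizer {x * y} := by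
      refine (closure_le _).2 fun a ha => ?_
      obtain ⟨_, rfl, hb⟩ := Group.mem_conjugatesOfSet_iff.1 ha
      obtain ⟨c, rfl⟩ := isConj_iff.1 hb
      exact mem_centralizer_singleton_iff.2 (k3 c).symm.eq
    refine ZStar.not_isolated_of_simple hab (x * y) ⟨hw, fun c _ => ?_⟩
    rw [mem_centralizer_singleton_iff.1 (hle (hN ▸ mem_top c))]; group
  have k4 : ∀ c a : G, orderOf a = 2 → Commute (c * x * c⁻¹) a → IsConj x a := by
    intro c a ha hc
    rcases k2 c a ha hc with e | e
    · exact e
    · exact hxw.trans (isConj_iff.2 ⟨c, e.symm⟩)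
  have k5 : ∀ u : G, orderOf u = 2 → IsConj x u := by
    intro u hu
    by_contra hcon
    obtain ⟨v, hv, h1, h2⟩ := exists_central hx hu hcon
    obtain ⟨c, rfl⟩ := isConj_iff.1 (k4 1 v hv (by simpa using h1))
    exact hcon (k4 c u hu h2.symm)
  refine ⟨?_, fun u v hu hv => (k5 u hu).symm.trans (k5 v hv)⟩
  obtain ⟨S, hS⟩ := (isPGroup_zpowers_of_orderOf (p := 2) (k := 1) (by simpa using hx)).exists_le_sylow
  have : Nontrivial (S : Subgroup G) := ⟨⟨⟨x, hS (mem_zpowers x)⟩, 1, fun e => hx1 (congrArg Subtype.val e)⟩⟩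
  obtain ⟨z, -, hz, hzo⟩ := PGroup.exists_mem_center_orderOf_eq S.isPGroup' ⊤ top_ne_bot
  obtain ⟨c, hc⟩ := isConj_iff.1 (k5 z (by rw [orderOf_coe, hzo])).symm
  refine ⟨c • S, fun s hs => ?_⟩
  have := congrArg Subtype.val (mem_center_iff.1 hz ⟨_, mem_smul_sylow.1 hs⟩)
  simp only [coe_mul] at this
  rw [mem_centralizer_singleton_iff, ← hc]
  calc s * (c * z * c⁻¹) = c * (c⁻¹ * s * c * z) * c⁻¹ := by group
    _ = _ := by rw [this]; group

end Cfsg.Agent.S3279
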