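import Cfsg.Statements.S3283
import Cfsg.Agent.Lib.Small9.Main

set_option autoImplicit false
open Cfsg

namespace Cfsg.Agent.S3283

/-- Let G be a finite group with an involution z whose centralizer M has Q = O₂(M) extraspecial of order 2⁹ with C_M(Q) ≤ Q, and M/Q isomorphic to S₃ × A₆ or to S₃ × S₆. Then G is not simple. -/
theorem result {G : Type*} [Group G] [Finite G] (z : G) (hz : orderOf z = 2)
    (hQ : Cfsg.IsExtraspecial 2 ↥(Cfsg.pCore 2 ↥(Subgroup.centralizer ({z} : Set G)))) (hQ9 : Nat.card ↥(Cfsg.pCore 2 ↥(Subgroup.centralizer ({z} : Set G))) = 2 ^ 9)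
    (hCQ : Subgroup.centralizer ((Cfsg.pCore 2 ↥(Subgroup.centralizer ({z} : Set G))) : Set ↥(Subgroup.centralizer ({z} : Set G))) ≤ Cfsg.pCore 2 ↥(Subgroup.centralizer ({z} : Set G)))
    (hMQ : Nonempty (↥(Subgroup.centralizer ({z} : Set G)) ⧸ Cfsg.pCore 2 ↥(Subgroup.centralizer ({z} : Set G)) ≃* (Equiv.Perm (Fin 3) × ↥(alternatingGroup (Fin 6)))) ∨
      Nonempty (↥(Subgroup.centralizer ({z} : Set G)) ⧸ Cfsg.pCore 2 ↥(Subgroup.centralizer ({z} : Set G)) ≃* (Equiv.Perm (Fin 3) × Equiv.Perm (Fin 6)))) :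
    ¬ IsSimpleGroup G := by
  intro hG
  have h := CfsgLib.LargeExtra.pre_of_normal (CfsgLib.ExtraTwo.ne_one_of_orderOf hz) _ hQ hCQ
  rcases hMQ with ⟨⟨e⟩⟩ | ⟨⟨e⟩⟩
  · refine CfsgLib.Small9.not_simple h hQ9 (((MonoidHom.id _).prodMap (Subgroup.subtype _)).comp
      e.toMonoidHom) (fun _ _ h => e.injective
        (Function.injective_id.prodMap Subtype.val_injective h)) ?_ ⟨e.symm (CfsgLib.Small9.ρ0.1, 1), by simp [CfsgLib.Small9.ρ0]⟩
    rintro _ ⟨x, hx, rfl⟩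
    exact ⟨e.symm (1, ⟨x, hx⟩), by simp⟩
  · exact CfsgLib.Small9.not_simple h hQ9 e.toMonoidHom e.injective (fun x _ => e.surjective x)
      (e.surjective _)

end Cfsg.Agent.S3283
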