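import Mathlib
import Cfsg.Statements.S3300
import Cfsg.Agent.Lib.LargeExtra.Trans

set_option autoImplicit false
open Cfsg

namespace Cfsg.Agent.S3300

open Subgroup CfsgLib.ExtraTwo CfsgLib.LargeExtra CfsgLib.Transfer

/-- Let G be a finite group with no nontrivial 2-group quotient (O^2(G) = G), z an involution of G with H = C_G(z), and suppose E = O_2(H) is extraspecial with C_G(E) ≤ E and of order 2^(2n+1) with n ≥ 3. If H has a normal subgroup of index 2, then z is conjugate in G to an element of E other than z. -/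
theorem result {G : Type*} [Group G] [Finite G] (hres : Cfsg.pResidual 2 G = ⊤) (z : G) (hz : orderOf z = 2)
    (E : Subgroup G) (hE : E = (Cfsg.pCore 2 ↥(Subgroup.centralizer ({z} : Set G))).map (Subgroup.centralizer ({z} : Set G)).subtype)
    (hext : Cfsg.IsExtraspecial 2 ↥E) (hcent : Subgroup.centralizer (E : Set G) ≤ E) (n : ℕ) (hn : 3 ≤ n) (hcard : Nat.card ↥E = 2 ^ (2 * n + 1))
    (K : Subgroup G) (hKH : K ≤ Subgroup.centralizer ({z} : Set G))
    (hKn : ∀ h ∈ Subgroup.centralizer ({z} : Set G), K.map (MulAut.conj h).toMonoidHom = K)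
    (hKi : K.relIndex (Subgroup.centralizer ({z} : Set G)) = 2) :
    ∃ g : G, g * z * g⁻¹ ∈ E ∧ g * z * g⁻¹ ≠ z := by
  have h := pre_of_pCore hz hE hext hcent
  by_contra hne
  push Not at hne
  obtain ⟨ψ, hψ⟩ := exists_hom_of_relIndex_two hKi
  have h1 : ψ = 1 := h.hom_eq_one (index_ne_two_of_pResidual_eq_top hres) ψ fun g hg hg' => by
    rcases h.relIndex_fixE hg hg' with ⟨-, e⟩ | h4
    · exact absurd (mem_cent.2 (comm_of_conj_eq (hne g e))) hg'
    rcases h.fixE_cases hg with e | e
    · refine ⟨0, by omega, ?_, by omega, by omega⟩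
      have h2 := ((fixE E z g).subgroupOf E).index_mul_card
      rw [Nat.card_congr (subgroupOfEquivOfLe (show fixE E z g ≤ E from inf_le_left)).toEquiv, hcard] at h2
      change (fixE E z g).relIndex E * _ = _ at h2
      have h3 : 2 ^ 7 ≤ 2 ^ (2 * n + 1) := Nat.pow_le_pow_right two_pos (by omega)
      by_contra h5
      nlinarith
    · exact ⟨1, by omega, by omega, fun _ => Abelianization.commutator_subset_ker ψ e, by omega⟩
  obtain ⟨a, ha, ha', -⟩ := relIndex_eq_two_iff_exists_notMem_and.1 hKi
  have := (hψ ⟨a, ha⟩).2 ha'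
  rw [h1] at this
  exact absurd (show (1 : Multiplicative (ZMod 2)) = _ from this) (by decide)

end Cfsg.Agent.S3300
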