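import Mathlib
import Cfsg.Statements.S3301
import Cfsg.Agent.Lib.LargeExtra.Trans
import Cfsg.Agent.Lib.Invol.IndexTwo

set_option autoImplicit false
open Cfsg

namespace Cfsg.Agent.S3301

open Subgroup CfsgLib.ExtraTwo CfsgLib.LargeExtra CfsgLib.Transfer

theorem exists_hom {H : Type*} [Group H] [Finite H] {q : Abelianization H} {k : ℕ} (hk : orderOf q = 2 ^ k)
    (hq : q ^ 2 ≠ 1) : ∃ ψ : H →* Multiplicative (ZMod 2), ψ ≠ 1 ∧ ∀ x, x * x ∈ _root_.commutator H → ψ x = 1 := by
  have : Finite (Abelianization H) := Finite.of_surjective _ (QuotientGroup.mk'_surjective (_root_.commutator H))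
  obtain ⟨s, m, hm, e⟩ := Nat.exists_eq_two_pow_mul_odd (Nat.card_pos (α := Abelianization H)).ne'
  let f : H →* Abelianization H := (powMonoidHom (2 * m)).comp Abelianization.of
  have hf : ∀ x, f x = (Abelianization.of x ^ 2) ^ m := fun x => pow_mul _ _ _
  have h1 : IsPGroup 2 f.range := by
    rintro ⟨_, x, rfl⟩
    refine ⟨s, Subtype.ext ?_⟩
    change f x ^ 2 ^ s = 1
    rw [hf, ← pow_mul, mul_comm, ← e, pow_card_eq_one']
  have h2 : Nontrivial f.range := (nontrivial_iff_ne_bot _).2 fun e => by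
    obtain ⟨x, rfl⟩ : ∃ x, Abelianization.of x = q := QuotientGroup.mk'_surjective (_root_.commutator H) q
    have h3 : f x = 1 := mem_bot.1 (e ▸ ⟨x, rfl⟩)
    rw [hf, ← pow_mul, ← orderOf_dvd_iff_pow_eq_one, hk] at h3
    exact hq (orderOf_dvd_iff_pow_eq_one.1 (hk ▸ (Nat.Coprime.pow_left k (Nat.coprime_two_left.2 hm)).dvd_of_dvd_mul_right h3))
  obtain ⟨M, hM⟩ := CfsgLib.Invol.exists_index_two_of_isPGroup h1
  obtain ⟨φ, hφ⟩ := exists_hom_of_relIndex_two (M.relIndex_top_right.trans hM)
  obtain ⟨⟨_, a, rfl⟩, ha, -⟩ := index_eq_two_iff_exists_notMem_and.1 hM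
  refine ⟨(φ.comp topEquiv.symm.toMonoidHom).comp f.rangeRestrict, fun e => ?_, fun x hx => (hφ _).1 ?_⟩
  · exact absurd (show _ = (1 : Multiplicative (ZMod 2)) from
      ((hφ ⟨⟨_, a, rfl⟩, mem_top _⟩).2 ha).symm.trans (DFunLike.congr_fun e a)) (by decide)
  · have : f.rangeRestrict x = 1 := Subtype.ext (by
      change f x = 1
      rw [hf, pow_two, ← map_mul, show Abelianization.of (x * x) = 1 from (QuotientGroup.eq_one_iff _).2 hx, one_pow])
    change f.rangeRestrict x ∈ M
    rw [this]; exact one_mem _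

/-- Let G be a finite group with no nontrivial 2-group quotient (O^2(G) = G), z an involution of G with H = C_G(z), and suppose E = O_2(H) is extraspecial with C_G(E) ≤ E. Then the Sylow 2-subgroups of H/[H, H] are elementary abelian: every element of 2-power order of the abelianization of H has order at most 2. -/
theorem result {G : Type*} [Group G] [Finite G] (hres : Cfsg.pResidual 2 G = ⊤) (z : G) (hz : orderOf z = 2)
    (E : Subgroup G) (hE : E = (Cfsg.pCore 2 ↥(Subgroup.centralizer ({z} : Set G))).map (Subgroup.centralizer ({z} : Set G)).subtype)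
    (hext : Cfsg.IsExtraspecial 2 ↥E) (hcent : Subgroup.centralizer (E : Set G) ≤ E) :
    ∀ q : Abelianization ↥(Subgroup.centralizer ({z} : Set G)), (∃ k : ℕ, orderOf q = 2 ^ k) → q ^ 2 = 1 := by
  have h := pre_of_pCore hz hE hext hcent
  rintro q ⟨k, hk⟩
  by_contra hq
  obtain ⟨ψ, h1, hψ⟩ := exists_hom hk hq
  refine h1 (h.hom_eq_one (index_ne_two_of_pResidual_eq_top hres) ψ fun g hg hg' => ?_)
  have hsq : ∀ e, ∀ he : g⁻¹ * e * g ∈ centralizer ({z} : Set G), e * e = 1 → ψ ⟨_, he⟩ = 1 := fun e he h2 =>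
    hψ _ (by
      rw [show (⟨_, he⟩ * ⟨_, he⟩ : centralizer ({z} : Set G)) = 1 from Subtype.ext (by
        change g⁻¹ * e * g * (g⁻¹ * e * g) = 1
        rw [show g⁻¹ * e * g * (g⁻¹ * e * g) = g⁻¹ * (e * e) * g by group, h2]; group)]
      exact one_mem _)
  rcases h.relIndex_fixE hg hg' with ⟨h2, ht⟩ | h4
  · refine ⟨2, le_rfl, by omega, fun _ => hsq z hg h.es.mul_self, fun _ e he he' => ?_⟩
    rcases h.es.sq he with h3 | h3
    · exact hsq e he' h3
    rcases h.fixE_cases hg with h5 | h5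
    · exfalso
      have hz2 := h.es.mul_self
      have hz1 := h.es.ne_one
      have ht2 : g * z * g⁻¹ * (g * z * g⁻¹) = 1 := by rw [conj_mul, hz2]; simp
      have ht1 : g * z * g⁻¹ ≠ 1 := by simpa using hz1
      have htz : g * z * g⁻¹ ≠ z := fun e => hg' (mem_cent.2 (comm_of_conj_eq e))
      have htF : g * z * g⁻¹ ∈ fixE E z g := mem_fixE'.2 ⟨ht, rfl⟩
      have hzF : z ∈ fixE E z g := mem_fixE.2 ⟨h.es.mem, hg⟩
      have heF : e ∈ fixE E z g := mem_fixE.2 ⟨he, he'⟩
      generalize g * z * g⁻¹ = t at ht2 ht1 htz htF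
      have n1 : e ≠ 1 := fun x => hz1 (by rw [← h3, x, mul_one])
      have n2 : e ≠ z := fun x => hz1 (by rw [← h3, x, hz2])
      have n3 : e ≠ t := fun x => hz1 (by rw [← h3, x, ht2])
      have n4 : e * z ≠ 1 := fun x => n2 (by rw [← h.es.zz' e, x, one_mul])
      have n5 : e * z ≠ z := fun x => n1 (mul_eq_right.1 x)
      have n6 : e * z ≠ e := fun x => hz1 (mul_eq_left.1 x)
      have n7 : e * z ≠ t := fun x => hz1 (by
        rw [← x, mul_assoc, ← mul_assoc z, ← h.es.comm_z e he, mul_assoc, hz2, mul_one, h3] at ht2; exact ht2)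
      classical
      have h6 : ({1, z, t, e, e * z} : Finset G).card ≤ Nat.card (fixE E z g) := by
        rw [← Set.ncard_coe_finset]
        exact Set.ncard_le_ncard (t := (fixE E z g : Set G)) (by
          simp [Set.insert_subset_iff, one_mem, hzF, htF, heF, mul_mem heF hzF])
      rw [Finset.card_insert_of_notMem (by simp [hz1.symm, ht1.symm, n1.symm, n4.symm]),
        Finset.card_insert_of_notMem (by simp [htz.symm, n2.symm, n5.symm]),
        Finset.card_insert_of_notMem (by simp [n3.symm, n7.symm]), Finset.card_pair n6.symm] at h6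
      omega
    · exact hψ _ (by
        convert h5 using 1
        refine Subtype.ext ?_
        change g⁻¹ * e * g * (g⁻¹ * e * g) = g⁻¹ * z * g
        rw [← h3]; group)
  · exact ⟨1, by omega, by omega, fun _ => hsq z hg h.es.mul_self, by omega⟩

end Cfsg.Agent.S3301
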