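import Mathlib
import Cfsg.Statements.S3305
import Cfsg.Agent.Lib.Tech.SylowIn
import Cfsg.Agent.Lib.Core.Basic

set_option autoImplicit false
open Cfsg

namespace Cfsg.Agent.S3305

open Subgroup CfsgLib CfsgLib.Tech
open scoped Pointwise commutatorElement

/-- If any two distinct Sylow 2-subgroups of the finite group G intersect in a cyclic group, then the same holds in every quotient group G/H, H a normal subgroup of G. -/
theorem result {G : Type*} [Group G] [Finite G]
    (hC : ∀ S T : Sylow 2 G, S ≠ T → IsCyclic ↥((S : Subgroup G) ⊓ (T : Subgroup G))) (H : Subgroup G) [H.Normal] :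
    ∀ S T : Sylow 2 (G ⧸ H), S ≠ T → IsCyclic ↥((S : Subgroup (G ⧸ H)) ⊓ (T : Subgroup (G ⧸ H))) := by
  intro S' T' hne
  have hs := QuotientGroup.mk'_surjective H
  obtain ⟨S, rfl⟩ := Sylow.mapSurjective_surjective hs 2 S'
  obtain ⟨T, rfl⟩ := Sylow.mapSurjective_surjective hs 2 T'
  set D := ((S.mapSurjective hs : Sylow 2 (G ⧸ H)) : Subgroup (G ⧸ H)) ⊓
    ((T.mapSurjective hs : Sylow 2 (G ⧸ H)) : Subgroup (G ⧸ H)) with hD
  set K := D.comap (QuotientGroup.mk' H) with hK
  have hHK : H ≤ K := by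
    conv_lhs => rw [← QuotientGroup.ker_mk' H]
    exact ker_le_comap _ _
  -- `R ⊓ K` maps onto `D` and is Sylow in `K`
  have hmap : ∀ R : Sylow 2 G, D ≤ (R : Subgroup G).map (QuotientGroup.mk' H) →
      ((R : Subgroup G) ⊓ K).map (QuotientGroup.mk' H) = D := by
    intro R hR
    refine le_antisymm (map_le_iff_le_comap.2 inf_le_right) fun d hd => ?_
    obtain ⟨r, hr, rfl⟩ := hR hd
    exact ⟨r, ⟨hr, hd⟩, rfl⟩
  have hsyl : ∀ R : Sylow 2 G, D ≤ (R : Subgroup G).map (QuotientGroup.mk' H) →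
      IsSylowIn 2 ((R : Subgroup G) ⊓ K) K := by
    intro R hR
    obtain ⟨Q, hQ, hle⟩ := exists_isSylowIn_ge (R.isPGroup'.to_le (inf_le_left : _ ⊓ K ≤ _))
      inf_le_right
    refine hQ.of_card_le (R.isPGroup'.to_le inf_le_left) inf_le_right ?_
    have h1 := Core.card_map_mk'_mul_card_inf Q H
    have h2 := Core.card_map_mk'_mul_card_inf ((R : Subgroup G) ⊓ K) H
    rw [hmap R hR, inf_assoc, inf_eq_right.2 hHK] at h2
    rw [← h1, ← h2]
    refine Nat.mul_le_mul (card_le_of_le (map_le_iff_le_comap.2 hQ.le)) ?_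
    exact (sylow_inf_normal R H).card_le (hQ.pgroup.to_le inf_le_left) inf_le_right
  have hS := hsyl S inf_le_left
  have hT := hsyl T inf_le_right
  obtain ⟨k, hk, hke⟩ := hT.exists_cj_eq hS
  have hne' : S ≠ k • T := by
    intro h
    apply hne
    -- `k ∈ K ≤ T H`
    obtain ⟨t, ht, htk⟩ := (inf_le_right : D ≤ _) hk
    rw [h, Sylow.ext_iff, Sylow.coe_mapSurjective, Sylow.coe_mapSurjective, coe_smul_sylow]
    have h1 : (cj k (T : Subgroup G)).map (QuotientGroup.mk' H) =
        cj (QuotientGroup.mk' H k) ((T : Subgroup G).map (QuotientGroup.mk' H)) := by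
      ext x
      obtain ⟨x, rfl⟩ := hs x
      rw [mem_cj]
      constructor
      · rintro ⟨y, hy, e⟩
        exact ⟨_, mem_cj.1 hy, by rw [map_mul, map_mul, map_inv, e]⟩
      · rintro ⟨y, hy, e⟩
        refine ⟨k * y * k⁻¹, conj_mem_cj.2 hy, ?_⟩
        rw [map_mul, map_mul, map_inv, e]; group
    rw [h1, ← htk]
    exact cj_eq_of_mem ⟨t, ht, rfl⟩
  have hcyc := hC S (k • T) hne'
  have hle : (S : Subgroup G) ⊓ K ≤ (S : Subgroup G) ⊓ (k • T : Sylow 2 G) := by
    refine le_inf inf_le_left ?_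
    rw [coe_smul_sylow, ← hke]
    exact cj_mono k inf_le_left
  have hcyc' : IsCyclic ↥((S : Subgroup G) ⊓ K) := isCyclic_of_le hle
  rw [← hmap S inf_le_left]
  exact isCyclic_of_surjective _ ((QuotientGroup.mk' H).subgroupMap_surjective _)

end Cfsg.Agent.S3305
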