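import Mathlib
import Cfsg.Statements.S3303
import Cfsg.Agent.Lib.InvHarv.QuatAut
import Cfsg.Agent.Lib.Core.Cores
import Cfsg.Agent.S3305

set_option autoImplicit false
open Cfsg

namespace Cfsg.Agent.S3303

open Subgroup CfsgLib CfsgLib.InvHarv CfsgLib.Tech
open scoped Pointwise commutatorElement

/-- Let G be a finite solvable group in which the intersection of any two distinct Sylow 2-subgroups is cyclic. Then G/O(G) has a normal Sylow 2-subgroup, where O(G) is the largest normal subgroup of odd order. -/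
theorem result {G : Type*} [Group G] [Finite G] (hs : Group.IsSolvable G)
    (hC : ∀ S T : Sylow 2 G, S ≠ T → IsCyclic ↥((S : Subgroup G) ⊓ (T : Subgroup G))) :
    ∃ P : Sylow 2 (G ⧸ Cfsg.oddCore G), (P : Subgroup (G ⧸ Cfsg.oddCore G)).Normal := by
  obtain ⟨P⟩ : Nonempty (Sylow 2 (G ⧸ Cfsg.oddCore G)) := inferInstance
  refine ⟨P, ?_⟩
  by_contra hn
  have hne : ∃ T : Sylow 2 (G ⧸ Cfsg.oddCore G), P ≠ T := by
    by_contra h
    push Not at h
    have : Subsingleton (Sylow 2 (G ⧸ Cfsg.oddCore G)) := ⟨fun a b => (h a).symm.trans (h b)⟩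
    exact hn (Sylow.normal_of_subsingleton P)
  obtain ⟨T, hT⟩ := hne
  have hcyc := Cfsg.Agent.S3305.result hC (Cfsg.oddCore G) P T hT
  have hcyc' : IsCyclic (Cfsg.pCore 2 (G ⧸ Cfsg.oddCore G)) :=
    isCyclic_of_le (le_inf (Core.pCore_le_sylow P) (Core.pCore_le_sylow T))
  have h2 := isPGroup_of_char_p (char_p_quotient_of_isSolvable 2 hs) fun g hg =>
    mem_centralizer_of_cyclic_two hcyc' (Core.isPGroup_pCore _ _)
      (by rw [normalizer_eq_top]; trivial) hg
  apply hn
  rw [← P.is_maximal' (h2.to_subgroup ⊤) le_top]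
  infer_instance

end Cfsg.Agent.S3303
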