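import Cfsg.Statements.S3306
import Mathlib
import Cfsg.Agent.Lib.ZStar.Main
import Cfsg.Agent.Lib.Coprime.Action
import Cfsg.Agent.Lib.Core.Fitting
import Cfsg.Agent.Lib.Invol.Count
import Cfsg.Agent.Lib.Invol.SylowElem
import Cfsg.Agent.Lib.Invol.Dihedral
import Cfsg.Agent.Lib.Invol.Four
import Cfsg.Agent.Lib.SylTools.Basic
import Cfsg.Agent.Lib.TwoGrp.OddAut
import Cfsg.Agent.Lib.FT.OddOrder

set_option autoImplicit false
open Cfsg Subgroup CfsgLib

namespace Cfsg.Agent.S3306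

theorem comm_calc {G : Type*} [Group G] {a b c : G} (h0 : a * b * a⁻¹ = b * c) (hac : c * a = a * c)
    (hbc : c * b = b * c) (hab : a * a * b = b * (a * a)) :
    c * c = 1 ∧ a * b * (a * b) = a * a * (b * b) * c⁻¹ := by
  have hac' : a * c * a⁻¹ = c := by rw [← hac]; group
  constructor
  · calc c * c = b⁻¹ * ((b * c) * c) := by group
      _ = b⁻¹ * ((a * b * a⁻¹) * (a * c * a⁻¹)) := by rw [hac', h0]
      _ = b⁻¹ * (a * (b * c) * a⁻¹) := by group
      _ = b⁻¹ * (a * a * b) * a⁻¹ * a⁻¹ := by rw [← h0]; group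
      _ = 1 := by rw [hab]; group
  · have h1 : a * b = b * a * c := by
      calc a * b = (a * b * a⁻¹) * a := by group
        _ = b * (c * a) := by rw [h0]; group
        _ = _ := by rw [hac]; group
    calc a * b * (a * b) = a * (b * a * c) * (c⁻¹ * (b * c)) * c⁻¹ := by group
      _ = _ := by rw [← h1, ← hbc]; group

theorem fin {X : Type*} [Group X] [Finite X]
    (C : Subgroup X) [hCn : C.Normal] (hCt : C ≠ ⊤) (hp : ∀ x : X, ∃ k : ℕ, x ^ 2 ^ k ∈ C)
    (ho : ∀ s, s ∉ C → ∀ S T : Sylow 2 X, s ∈ (S : Subgroup X) → s ∈ (T : Subgroup X) → S = T)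
    (S : Sylow 2 X) {t d : X} (htt : t * t = 1) (hdinv : t * d * t⁻¹ = d⁻¹) (hdodd : Odd (orderOf d))
    (hd1 : d ≠ 1) (hdC : d ∈ C) (hdN : d ∈ normalizer ((S : Subgroup X) : Set X)) : False := by
  obtain ⟨s₀, hs₀, hs₀C⟩ : ∃ s ∈ (S : Subgroup X), s ∉ C := by
    by_contra h
    push Not at h
    refine hCt (eq_top_iff.2 fun x _ => ?_)
    obtain ⟨k, hk⟩ := hp x
    have h1 : ¬ 2 ∣ C.index := fun h1 => S.not_dvd_index (h1.trans (index_dvd_of_le h))
    have h2 : (QuotientGroup.mk' C x) ^ 2 ^ k = 1 := by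
      rw [← map_pow]; exact (QuotientGroup.eq_one_iff _).2 hk
    have h3 : orderOf (QuotientGroup.mk' C x) ∣ C.index := orderOf_dvd_natCard _
    have h4 : (2 ^ k).Coprime C.index :=
      Nat.Coprime.pow_left k ((Nat.Prime.coprime_iff_not_dvd Nat.prime_two).2 h1)
    exact (QuotientGroup.eq_one_iff x).1 (orderOf_eq_one_iff.1
      (Nat.eq_one_of_dvd_coprimes h4 (orderOf_dvd_of_pow_eq_one h2) h3))
  have hcm : ⁅(S : Subgroup X), zpowers d⁆ ≤ (S : Subgroup X) ⊓ C :=
    le_inf (Coprime.commutator_le_of_le_normalizer (zpowers_le.2 hdN))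
      ((commutator_mono le_rfl (zpowers_le.2 hdC)).trans (commutator_le_right _ _))
  have hcop : (Nat.card (zpowers d)).Coprime (Nat.card ↥((S : Subgroup X) ⊓ C)) := by
    have h1 : IsPGroup 2 ↥((S : Subgroup X) ⊓ C) := S.isPGroup'.to_le inf_le_left
    rw [Nat.card_zpowers]
    exact (Core.isPGroup_coprime_card h1 (Nat.coprime_two_right.2 hdodd)).symm
  obtain ⟨v, hv, c, hc, rfl⟩ := Coprime.exists_mul_centralizer_of_commutator_le inf_le_left hcm hcop
    (Or.inl (Coprime.isSolvable_zpowers d)) hs₀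
  have hcC : c ∉ C := fun h => hs₀C (mul_mem hv.2 h)
  rw [Core.centralizer_zpowers] at hc
  obtain ⟨e, he, R, hR, hcR, -, -, htR⟩ := SylTools.exists_conj_le_common
    (A := zpowers c) (B := zpowers t) (H := Invol.extCentralizer d)
    (S.isPGroup'.to_le (zpowers_le.2 hc.1))
    (zpowers_le.2 (Invol.centralizer_le_extCentralizer d hc.2))
    (Invol.isPGroup_zpowers_of_mul_self htt)
    (zpowers_le.2 (Invol.mem_extCentralizer.2 (Or.inr hdinv)))
  obtain ⟨P, hRP⟩ := hR.exists_le_sylow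
  have hPS : P = S := ho c hcC P S (hRP (hcR (mem_zpowers c))) hc.1
  have ht' : e * t * e⁻¹ ∈ (S : Subgroup X) := hPS ▸ hRP (htR t (mem_zpowers t))
  have hinv' : (e * t * e⁻¹) * d * (e * t * e⁻¹)⁻¹ = d⁻¹ := by
    have h1 := Invol.mem_extCentralizer.1 (inv_mem he)
    have h2 := Invol.mem_extCentralizer.1 he
    rw [inv_inv] at h1
    have e1 : (e * t * e⁻¹) * d * (e * t * e⁻¹)⁻¹ = e * (t * (e⁻¹ * d * e) * t⁻¹) * e⁻¹ := by group
    rcases h1 with h1 | h1
    · rw [e1, h1, hdinv]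
      conv_lhs => rw [← h1]
      group
    · rw [e1, h1]
      have h3 : t * d⁻¹ * t⁻¹ = d := by
        have := congrArg (·⁻¹) hdinv
        simpa [mul_assoc] using this
      rw [h3]
      have h4 : d = e⁻¹ * d⁻¹ * e := by
        have := congrArg (·⁻¹) h1
        simpa [mul_assoc] using this.symm
      conv_lhs => rw [h4]
      group
  have hdd : d * d ∈ (S : Subgroup X) := by
    have h1 := mul_mem ((mem_normalizer_iff.1 hdN _).1 ht') (inv_mem ht')
    have h2 : d * (e * t * e⁻¹) * d⁻¹ * (e * t * e⁻¹)⁻¹ =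
        d * ((e * t * e⁻¹) * d * (e * t * e⁻¹)⁻¹)⁻¹ := by group
    rwa [h2, hinv', inv_inv] at h1
  obtain ⟨k, hk⟩ := Invol.exists_pow_eq_one_of_mem_sylow S hdd
  exact hd1 (ZStar.eq_one_of_odd_of_pow hdodd (k := k + 1) (by rw [pow_succ', pow_mul, pow_two, hk]))

theorem core {X : Type*} [Group X] [Finite X] (hO : pPrimeCore 2 X = ⊥) (hO2 : pCore 2 X = ⊥)
    (C : Subgroup X) [hCn : C.Normal] (hCt : C ≠ ⊤) (hp : ∀ x : X, ∃ k : ℕ, x ^ 2 ^ k ∈ C)
    (Good : X → Prop) (g0 : ∀ u g, Good u → Good (g * u * g⁻¹))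
    (g1 : ∀ u, Good u → orderOf u = 2 ∧ u ∈ C ∧
      ∀ S T : Sylow 2 X, u ∈ (S : Subgroup X) → u ∈ (T : Subgroup X) → S = T)
    (g2 : ∀ u v, u ∈ C → v ∈ C → orderOf u = 2 → orderOf v = 2 → u ≠ v → Commute u v →
      (Good u ↔ Good v) → Good (u * v))
    (ho : ∀ s, s ∉ C → ∀ S T : Sylow 2 X, s ∈ (S : Subgroup X) → s ∈ (T : Subgroup X) → S = T) :
    False := by
  have hiso : ∀ t : X, orderOf t = 2 → ∃ g, Commute t (g * t * g⁻¹) ∧ g * t * g⁻¹ ≠ t := fun t ht => by
    by_contra h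
    push Not at h
    have h1 := ZStar.zstar_center hO ⟨ht, h⟩
    have h2 : (zpowers t).Normal := ⟨fun x hx g => by
      rw [mem_center_iff.1 (zpowers_le.2 h1 hx) g, mul_inv_cancel_right]; exact hx⟩
    have h3 := Core.le_pCore (Invol.isPGroup_zpowers_of_mul_self (Invol.mul_self_of_orderOf_two ht))
    rw [hO2, le_bot_iff, zpowers_eq_bot] at h3
    exact Invol.ne_one_of_orderOf_two ht h3
  have hnt : ¬ IsPGroup 2 X := fun h => hCt (by
    rw [eq_top_iff, ← Core.pCore_eq_top_iff.2 h, hO2]; exact bot_le)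
  obtain ⟨u, hu⟩ : ∃ u, Good u := by
    have h1 : Even (Nat.card C) := by
      by_contra h
      have h2 := Core.le_pPrimeCore (Nat.coprime_two_right.2 (Nat.not_even_iff_odd.1 h))
      rw [hO] at h2
      exact hnt fun x => (hp x).imp fun k hk => mem_bot.1 (h2 hk)
    obtain ⟨t, htC, ht⟩ := Invol.exists_involution_mem_of_even_card h1
    by_cases hg : Good t
    · exact ⟨t, hg⟩
    obtain ⟨g, h2, h3⟩ := hiso t ht
    refine ⟨_, g2 t _ htC (hCn.conj_mem _ htC g) ht (by rw [Invol.orderOf_conj, ht]) h3.symm h2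
      ⟨fun h => absurd h hg, fun h => ?_⟩⟩
    simpa [mul_assoc] using g0 _ g⁻¹ h
  have hsq : ∀ a, Good a → a * a = 1 := fun a ha => Invol.mul_self_of_orderOf_two (g1 a ha).1
  have hcomm : ∀ a y, Good a → y * y = 1 → Commute y a → ∀ S : Sylow 2 X, a ∈ (S : Subgroup X) →
      y ∈ (S : Subgroup X) := fun a y ha hy hc S haS => by
    obtain ⟨T, h1, h2⟩ := Invol.exists_sylow_mem_of_commute (Invol.isPGroup_zpowers_of_mul_self hy)
      (Invol.isPGroup_zpowers_of_mul_self (hsq a ha)) hc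
    rw [(g1 a ha).2.2 S T haS h2]; exact h1
  have heven : ∀ a b, Good a → Good b → Even (orderOf (a * b)) →
      ∃ k : ℕ, Good ((a * b) ^ k) ∧ Commute ((a * b) ^ k) a ∧ Commute ((a * b) ^ k) b :=
    fun a b ha hb he => by
    obtain ⟨h1, h2, h3⟩ := Invol.central_involution (hsq a ha) (hsq b hb) he
    refine ⟨_, ?_, h2, h3⟩
    generalize orderOf (a * b) / 2 = k at h1 h2 h3
    have hyC : (a * b) ^ k ∈ C := pow_mem (mul_mem (g1 a ha).2.1 (g1 b hb).2.1) k
    by_cases hay : a = (a * b) ^ k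
    · exact hay ▸ ha
    have h4 : Good (a * (a * b) ^ k) := by
      rcases Nat.even_or_odd' k with ⟨j, rfl | rfl⟩
      · have := Isol.mul_zpow_even (hsq a ha) (hsq b hb) j
        rw [show (2 * (j : ℤ)) = ((2 * j : ℕ) : ℤ) by push_cast; ring, zpow_natCast] at this
        rw [this]; exact g0 _ _ ha
      · have := Isol.mul_zpow_odd (hsq a ha) (hsq b hb) j
        rw [show (2 * (j : ℤ) + 1) = ((2 * j + 1 : ℕ) : ℤ) by push_cast; ring, zpow_natCast] at this
        rw [this]; exact g0 _ _ hb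
    have h5 := g2 a _ (g1 a ha).2.1 (g1 _ h4).2.1 (g1 a ha).1 (g1 _ h4).1
      (fun h => Invol.ne_one_of_orderOf_two h1 (left_eq_mul.1 h))
      ((Commute.refl a).mul_right h2.symm) ⟨fun _ => h4, fun _ => ha⟩
    rwa [← mul_assoc, hsq a ha, one_mul] at h5
  have hodd : ∀ a b, Good a → Good b → ∀ S T : Sylow 2 X, a ∈ (S : Subgroup X) →
      b ∈ (T : Subgroup X) → S ≠ T → Odd (orderOf (a * b)) := fun a b ha hb S T haS hbT hST => by
    by_contra h
    obtain ⟨k, h1, h2, h3⟩ := heven a b ha hb (Nat.not_odd_iff_even.1 h)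
    exact hST ((g1 _ h1).2.2 S T (hcomm a _ ha (hsq _ h1) h2 S haS) (hcomm b _ hb (hsq _ h1) h3 T hbT))
  obtain ⟨S, huS⟩ := Invol.exists_sylow_mem (Invol.isPGroup_zpowers_of_mul_self (hsq u hu))
  have huS' : u ∈ (S : Subgroup X) := huS
  obtain ⟨t, ht, htS⟩ : ∃ t, Good t ∧ t ∉ (S : Subgroup X) := by
    by_contra h
    push Not at h
    have h1 : ∀ T : Sylow 2 X, u ∈ (T : Subgroup X) := fun T => by
      obtain ⟨g, rfl⟩ := SylTools.exists_smul_eq_sylow S T
      rw [SylTools.mem_smul_sylow]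
      simpa using h _ (g0 u g⁻¹ hu)
    have h2 : u ∈ pCore 2 X := by
      rw [Core.pCore_eq_iInf_sylow]; exact mem_iInf.2 h1
    rw [hO2, mem_bot] at h2
    exact Invol.ne_one_of_orderOf_two (g1 u hu).1 h2
  have htt := hsq t ht
  have hti : t⁻¹ = t := inv_eq_of_mul_eq_one_right htt
  have hnorm : ∀ y : X, IsPGroup 2 (zpowers y) → y • S = S → y ∈ (S : Subgroup X) := fun y h1 h2 => by
    have h3 := h1.inf_normalizer_sylow S
    have h4 : y ∈ zpowers y ⊓ normalizer (S : Set X) :=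
      mem_inf.2 ⟨mem_zpowers y, Sylow.smul_eq_iff_mem_normalizer.1 h2⟩
    rw [h3] at h4
    exact h4.2
  have htSS : S ≠ t • S := fun h => htS (hnorm t (Invol.isPGroup_zpowers_of_mul_self htt) h.symm)
  obtain ⟨g, hg1, hg2⟩ := hiso u (g1 u hu).1
  set a := g * u * g⁻¹ with hadef
  have ha : Good a := g0 u g hu
  have haS : a ∈ (S : Subgroup X) := hcomm u a hu (hsq a ha) hg1.symm S huS
  have hb : Good (t * u * t⁻¹) := g0 u t hu
  have hbS : t * u * t⁻¹ ∈ ((t • S : Sylow 2 X) : Subgroup X) := by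
    rw [SylTools.mem_smul_sylow]; simpa [mul_assoc] using huS'
  obtain ⟨w, hw, hwa⟩ : ∃ w, Good w ∧ w * a * w⁻¹ = t * u * t⁻¹ := by
    have h1 := hodd a _ ha hb S _ haS hbS htSS
    set r := a * (t * u * t⁻¹) with hr
    have h2 : a * r * a⁻¹ = r⁻¹ := Invol.conj_mul_eq_inv (hsq a ha) (hsq _ hb)
    obtain ⟨m, hm⟩ := h1
    refine ⟨a * r ^ (2 * ((m + 1) ^ 2 : ℤ)), ?_, ?_⟩
    · rw [hr, Isol.mul_zpow_even (hsq a ha) (hsq _ hb)]; exact g0 _ _ ha
    · rw [Invol.mul_zpow_conj_of_inverts (hsq a ha) h2]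
      have h3 : r ^ (2 * (2 * ((m + 1) ^ 2 : ℤ))) = r := by
        have : (2 * (2 * ((m + 1) ^ 2 : ℤ))) = (orderOf r : ℤ) * (2 * m + 3) + 1 := by
          rw [hm]; push_cast; ring
        rw [this, zpow_add, zpow_mul, zpow_natCast, pow_orderOf_eq_one, one_zpow, one_mul, zpow_one]
      rw [h3, hr, ← mul_assoc, hsq a ha, one_mul]
  have hda : t * w * a * (t * w)⁻¹ = u := by
    calc t * w * a * (t * w)⁻¹ = t * (w * a * w⁻¹) * t⁻¹ := by group
      _ = (t * t) * u * (t * t)⁻¹ := by rw [hwa]; group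
      _ = u := by rw [htt]; group
  have hdS : (t * w) • S = S := by
    refine (g1 u hu).2.2 _ _ ?_ huS
    rw [SylTools.mem_smul_sylow, ← hda]; simpa [mul_assoc] using haS
  have hdinv : t * (t * w) * t⁻¹ = (t * w)⁻¹ := Invol.conj_mul_eq_inv htt (hsq w hw)
  have hdodd : Odd (orderOf (t * w)) := by
    by_contra h
    obtain ⟨k, h1, h2, -⟩ := heven t w ht hw (Nat.not_odd_iff_even.1 h)
    have h3 : (t * w) ^ k ∈ (S : Subgroup X) := by
      refine hnorm _ (Invol.isPGroup_zpowers_of_mul_self (hsq _ h1)) ?_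
      exact pow_mem (S := MulAction.stabilizer X S) hdS k
    refine htSS ((g1 _ h1).2.2 _ _ h3 ?_)
    rw [SylTools.mem_smul_sylow, mul_assoc, h2.eq, inv_mul_cancel_left]
    exact h3
  have hd1 : t * w ≠ 1 := fun h => hg2 (by rw [← hda, h]; simp)
  have hdC : t * w ∈ C := mul_mem (g1 t ht).2.1 (g1 w hw).2.1
  have hdN : t * w ∈ normalizer ((S : Subgroup X) : Set X) := Sylow.smul_eq_iff_mem_normalizer.1 hdS
  exact fin C hCt hp ho S htt hdinv hdodd hd1 hdC hdN

theorem main {G : Type*} [Group G] [Finite G] (hns : ¬ Group.IsSolvable G) (hO : pPrimeCore 2 G = ⊥)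
    (hC : ∀ S T : Sylow 2 G, S ≠ T → IsCyclic ↥((S : Subgroup G) ⊓ (T : Subgroup G))) :
    IsCyclic (pCore 2 G) ∧ pCore 2 G ≤ center G ∧
      ∀ N : Subgroup G, N.Normal → Group.IsSolvable N → N ≤ pCore 2 G := by
  classical
  set V := pCore 2 G with hV
  have hVn : V.Normal := inferInstance
  have hVp : IsPGroup 2 V := Core.isPGroup_pCore 2 G
  have hVs : Group.IsSolvable V := Coprime.isSolvable_of_isPGroup hVp
  have hVc : IsCyclic V := by
    by_contra h
    obtain ⟨S⟩ : Nonempty (Sylow 2 G) := inferInstance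
    have h1 : Subsingleton (Sylow 2 G) := ⟨fun S T => by
      by_contra h1
      have := hC S T h1
      exact h (isCyclic_of_le (le_inf (Core.pCore_le_sylow S) (Core.pCore_le_sylow T)))⟩
    have h2 := S.normal_of_subsingleton
    have h3 := Coprime.isSolvable_of_isPGroup S.isPGroup'
    have h4 := FT.odd_order_solvable (G := G ⧸ (S : Subgroup G))
      (Nat.coprime_two_left.1 ((Nat.Prime.coprime_iff_not_dvd Nat.prime_two).2 S.not_dvd_index))
    exact hns (Group.isSolvable_of_ker_le_range (S : Subgroup G).subtype (QuotientGroup.mk' (S : Subgroup G))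
      (by simp))
  have hp : ∀ x : G, ∃ k : ℕ, x ^ 2 ^ k ∈ centralizer (V : Set G) := fun x => by
    obtain ⟨k, hk⟩ := TwoGrp.isPGroup_mulAut_of_isCyclic hVp (MulAut.conjNormal (H := V) x)
    refine ⟨k, mem_centralizer_iff.2 fun v hv => ?_⟩
    rw [← map_pow] at hk
    have := congrArg (fun φ : MulAut V => (φ ⟨v, hv⟩ : G)) hk
    simp only [MulAut.conjNormal_apply, MulAut.one_apply] at this
    conv_lhs => rw [← this]
    group
  have hsol : ∀ N : Subgroup G, N.Normal → Group.IsSolvable N → N ≤ V := fun N hN hs => by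
    have hF := Core.fittingSubgroup_eq_pCore_of_pPrimeCore_eq_bot Nat.prime_two hO
    have h1 : Group.IsSolvable ↥(N ⊓ centralizer (V : Set G)) := Core.isSolvable_of_le inf_le_left
    have h2 := Core.le_fittingSubgroup_of_isSolvable_of_le_centralizer (N ⊓ centralizer (V : Set G))
      (hF ▸ inf_le_right)
    rw [hF] at h2
    refine Core.le_pCore (Core.isPGroup_subgroup_iff.2 fun x hx => ?_)
    obtain ⟨k, hk⟩ := hp x
    obtain ⟨j, hj⟩ := Core.isPGroup_subgroup_iff.1 hVp _ (h2 (mem_inf.2 ⟨pow_mem hx _, hk⟩))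
    exact ⟨k + j, by rw [pow_add, pow_mul, hj]⟩
  refine ⟨hVc, ?_, hsol⟩
  by_contra hVZ
  obtain ⟨v₀, hv₀⟩ := V.isCyclic_iff_exists_zpowers_eq_top.1 hVc
  have hv₀V : v₀ ∈ V := hv₀ ▸ mem_zpowers v₀
  have hmemV : ∀ v ∈ V, ∃ i : ℤ, v = v₀ ^ (2 * i) ∨ v = v₀ ^ (2 * i + 1) := fun v hv => by
    rw [← hv₀] at hv
    obtain ⟨i, rfl⟩ := hv
    rcases Int.even_or_odd' i with ⟨j, rfl | rfl⟩
    exacts [⟨j, Or.inl rfl⟩, ⟨j, Or.inr rfl⟩]
  have hvv : v₀ * v₀ ≠ 1 := fun h => hVZ (by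
    rw [← hv₀, zpowers_le, mem_center_iff]
    intro g
    have h1 : ∀ i : ℤ, v₀ ^ (2 * i) = 1 := fun i => by
      rw [zpow_mul, zpow_two, h, one_zpow]
    obtain ⟨i, h2 | h2⟩ := hmemV _ (hVn.conj_mem _ hv₀V g)
    · rw [h1] at h2
      have : v₀ = 1 := by simpa using h2
      simp [this]
    · rw [zpow_add, h1, one_mul, zpow_one] at h2
      conv_rhs => rw [← h2]
      group)
  have hVab : ∀ a ∈ V, ∀ b ∈ V, a * b = b * a := fun a ha b hb =>
    congrArg Subtype.val (hVc.isMulCommutative.is_comm.comm (⟨a, ha⟩ : V) ⟨b, hb⟩)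
  have hsqr : ∀ c ∈ V, c * c = 1 → ∃ i : ℤ, c = v₀ ^ (2 * i) := fun c hc h => by
    obtain ⟨i, h1 | h1⟩ := hmemV c hc
    · exact ⟨i, h1⟩
    exfalso
    obtain ⟨k, hk⟩ := SylTools.exists_orderOf_eq_pow_of_mem hVp (mul_mem hv₀V hv₀V)
    have h2 : (v₀ * v₀) ^ (2 * i + 1) = 1 := by
      rw [(Commute.refl v₀).mul_zpow, ← h1, h]
    have h3 := orderOf_dvd_iff_zpow_eq_one.2 h2
    rcases k with _ | k
    · exact hvv (orderOf_eq_one_iff.1 hk)
    · rw [hk, pow_succ] at h3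
      have : (2 : ℤ) ∣ 2 * i + 1 := (Dvd.intro_left _ (by push_cast; rfl)).trans h3
      omega
  set C := centralizer (V : Set G) with hCdef
  have hCn : C.Normal := inferInstance
  have hVC : V ≤ C := fun a ha => mem_centralizer_iff.2 fun b hb => hVab b hb a ha
  have hCc : ∀ y ∈ C, ∀ v ∈ V, v * y = y * v := fun y hy => mem_centralizer_iff.1 hy
  let π := QuotientGroup.mk' V
  have hπ : Function.Surjective π := QuotientGroup.mk'_surjective V
  have hker : ∀ x, π x = 1 ↔ x ∈ V := fun x => QuotientGroup.eq_one_iff x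
  have hmemC : ∀ x, π x ∈ C.map π ↔ x ∈ C := fun x => by
    change x ∈ (C.map π).comap π ↔ _
    rw [comap_map_eq_self (by rwa [QuotientGroup.ker_mk'])]
  have huniq : ∀ x : G, (∀ D : Subgroup G, IsCyclic D → x ∈ D → V ≤ D → False) →
      ∀ S T : Sylow 2 (G ⧸ V), π x ∈ (S : Subgroup (G ⧸ V)) → π x ∈ (T : Subgroup (G ⧸ V)) → S = T :=
    fun x hx S T h1 h2 => by
    have hk : IsPGroup 2 π.ker := by rwa [QuotientGroup.ker_mk']
    have hr : ∀ P : Sylow 2 (G ⧸ V), (P : Subgroup (G ⧸ V)) ≤ π.range := fun P => by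
      rw [MonoidHom.range_eq_top.2 hπ]; exact le_top
    by_contra hST
    refine hx _ (hC (S.comapOfKerIsPGroup π hk (hr S)) (T.comapOfKerIsPGroup π hk (hr T)) fun h => ?_)
      (mem_inf.2 ⟨h1, h2⟩) (le_inf (Core.pCore_le_sylow _) (Core.pCore_le_sylow _))
    exact hST (Sylow.ext (comap_injective hπ (congrArg (fun P : Sylow 2 G => (P : Subgroup G)) h)))
  have hCm : (C.map π).Normal := hCn.map π hπ
  refine core (X := G ⧸ V) ?_ (Core.pCore_quotient_pCore 2 G) (C.map π) (fun h => hVZ fun v hv => ?_)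
    (fun x => ?_) (fun u => u ≠ 1 ∧ ∃ y ∈ C, π y = u ∧ y * y = 1) ?_ ?_ ?_ ?_
  · have h1 := FT.odd_subgroup_solvable (Core.odd_card_oddCore (G ⧸ V))
    have h2 : Group.IsSolvable π.ker := by rwa [QuotientGroup.ker_mk']
    have h3 := hsol _ (Normal.comap inferInstance π) (Core.isSolvable_comap π (pPrimeCore 2 (G ⧸ V)))
    rw [eq_bot_iff]
    intro x hx
    obtain ⟨y, rfl⟩ := hπ x
    exact (hker y).2 (h3 hx)
  · exact mem_center_iff.2 fun g => (hCc g ((hmemC g).1 (h ▸ mem_top _)) v hv).symm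
  · obtain ⟨y, rfl⟩ := hπ x
    obtain ⟨k, hk⟩ := hp y
    exact ⟨k, by rw [← map_pow]; exact mem_map_of_mem π hk⟩
  · rintro u g ⟨h1, y, hy, rfl, h2⟩
    obtain ⟨g, rfl⟩ := hπ g
    refine ⟨by simpa using h1, g * y * g⁻¹, hCn.conj_mem _ hy _, by simp, ?_⟩
    calc g * y * g⁻¹ * (g * y * g⁻¹) = g * (y * y) * g⁻¹ := by group
      _ = 1 := by rw [h2]; group
  · rintro u ⟨h1, y, hy, rfl, h2⟩
    refine ⟨Invol.orderOf_eq_two h1 (by rw [← map_mul, h2, map_one]), mem_map_of_mem π hy,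
      huniq y fun D hD hyD hVD => ?_⟩
    obtain ⟨z, hzV, hz⟩ : ∃ z ∈ V, orderOf z = 2 := by
      refine Invol.exists_involution_mem_of_even_card ?_
      obtain ⟨k, hk⟩ := IsPGroup.iff_card.1 hVp
      rcases k with _ | k
      · rw [pow_zero, card_eq_one] at hk
        rw [hk, mem_bot] at hv₀V
        exact absurd (by rw [hv₀V, mul_one]) hvv
      · rw [hk, pow_succ]; simp
    have hy1 : y ≠ 1 := fun h => h1 (by rw [h, map_one])
    have hyz : y ≠ z := fun h => h1 ((hker y).2 (h ▸ hzV))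
    have h3 := Invol.isKleinFour_four (Invol.orderOf_eq_two hy1 h2) hz hyz (hCc y hy z hzV).symm
    have h4 : IsCyclic (closure ({y, z} : Set G)) := by
      refine isCyclic_of_le (H' := D) ((closure_le _).2 ?_)
      rintro x (rfl | rfl)
      exacts [hyD, hVD hzV]
    exact IsKleinFour.not_isCyclic h4
  · intro u v hu hv ou ov huv hc hg
    refine ⟨Invol.ne_one_of_orderOf_two (Invol.orderOf_mul_of_commute
      (Invol.mul_self_of_orderOf_two ou) (Invol.mul_self_of_orderOf_two ov) huv hc), ?_⟩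
    obtain ⟨a, ha, rfl⟩ := hu
    obtain ⟨b, hb, rfl⟩ := hv
    have hgood : ∀ y ∈ C, (∃ i : ℤ, y * y = v₀ ^ (2 * i)) ↔ ∃ y' ∈ C, π y' = π y ∧ y' * y' = 1 :=
      fun y hy => by
      constructor
      · rintro ⟨i, hi⟩
        have h1 := hCc y hy _ (zpow_mem hv₀V (-i))
        refine ⟨y * v₀ ^ (-i), mul_mem hy (hVC (zpow_mem hv₀V _)), ?_, ?_⟩
        · rw [map_mul, (hker _).2 (zpow_mem hv₀V _), mul_one]
        · calc y * v₀ ^ (-i) * (y * v₀ ^ (-i)) = y * (v₀ ^ (-i) * y) * v₀ ^ (-i) := by group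
            _ = y * y * v₀ ^ (-i) * v₀ ^ (-i) := by rw [h1]; group
            _ = 1 := by rw [hi]; group
      · rintro ⟨y', hy', h1, h2⟩
        have h3 : y'⁻¹ * y ∈ V := QuotientGroup.eq.1 h1
        have h4 := hCc y' hy' _ h3
        rw [← hv₀] at h3
        obtain ⟨i, hi⟩ := h3
        dsimp only at hi
        refine ⟨i, ?_⟩
        calc y * y = y' * ((y'⁻¹ * y) * y') * (y'⁻¹ * y) := by group
          _ = (y' * y') * (y'⁻¹ * y) * (y'⁻¹ * y) := by rw [h4]; group
          _ = _ := by rw [h2, ← hi]; group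
    have haa : a * a ∈ V := (hker _).1 (by rw [map_mul, Invol.mul_self_of_orderOf_two ou])
    have hbb : b * b ∈ V := (hker _).1 (by rw [map_mul, Invol.mul_self_of_orderOf_two ov])
    have hcV : b⁻¹ * (a * b * a⁻¹) ∈ V := (hker _).1 (by
      simp only [map_mul, map_inv]
      rw [hc.eq]; group)
    obtain ⟨e1, e2⟩ := comm_calc (a := a) (b := b) (c := b⁻¹ * (a * b * a⁻¹)) (by group)
      (hCc a ha _ hcV) (hCc b hb _ hcV) (hCc b hb _ haa)
    obtain ⟨k, hk⟩ := hsqr _ hcV e1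
    have hab : a * b * (a * b) = (a * a) * (b * b) * v₀ ^ (-(2 * k)) := by rw [e2, hk, zpow_neg]
    rw [← map_mul, ← hgood _ (mul_mem ha hb), hab]
    have h1 : π a ≠ 1 := Invol.ne_one_of_orderOf_two ou
    have h2 : π b ≠ 1 := Invol.ne_one_of_orderOf_two ov
    simp only [ne_eq, h1, h2, not_false_eq_true, true_and] at hg
    rw [← hgood a ha, ← hgood b hb] at hg
    obtain ⟨i, hi | hi⟩ := hmemV _ haa
    · obtain ⟨j, hj⟩ := hg.1 ⟨i, hi⟩
      exact ⟨i + j - k, by rw [hi, hj]; group⟩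
    obtain ⟨j, hj | hj⟩ := hmemV _ hbb
    · obtain ⟨i, hi⟩ := hg.2 ⟨j, hj⟩
      exact ⟨i + j - k, by rw [hi, hj]; group⟩
    · exact ⟨i + j + 1 - k, by rw [hi, hj]; group⟩
  · intro s hs
    obtain ⟨y, rfl⟩ := hπ s
    refine huniq y fun D hD hyD hVD => hs (mem_map_of_mem π (mem_centralizer_iff.2 fun v hv => ?_))
    exact congrArg Subtype.val (hD.isMulCommutative.is_comm.comm (⟨v, hVD hv⟩ : D) ⟨y, hyD⟩)


/-- Let G be a finite nonsolvable group in which any two distinct Sylow 2-subgroups intersect in a cyclic group, and let N be a solvable normal subgroup of G. Then the image of N in G/O(G) is a cyclic 2-group contained in the centre of G/O(G) (O(G) the largest normal subgroup of odd order). In other words the solvable radical of G is V·O(G) with V a cyclic 2-group central modulo O(G). -/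
theorem result {G : Type*} [Group G] [Finite G] (hns : ¬ Group.IsSolvable G)
    (hC : ∀ S T : Sylow 2 G, S ≠ T → IsCyclic ↥((S : Subgroup G) ⊓ (T : Subgroup G)))
    (N : Subgroup G) [N.Normal] (hN : Group.IsSolvable ↥N) :
    IsCyclic ↥(N.map (QuotientGroup.mk' (Cfsg.oddCore G))) ∧ IsPGroup 2 ↥(N.map (QuotientGroup.mk' (Cfsg.oddCore G))) ∧
      N.map (QuotientGroup.mk' (Cfsg.oddCore G)) ≤ Subgroup.center (G ⧸ Cfsg.oddCore G) := by
  have hO := FT.odd_subgroup_solvable (Core.odd_card_oddCore G)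
  set O := pPrimeCore 2 G with hOdef
  let π := QuotientGroup.mk' O
  have hπ : Function.Surjective π := QuotientGroup.mk'_surjective O
  obtain ⟨h1, h2, h3⟩ := main (G := G ⧸ O)
    (fun h => hns (Group.isSolvable_of_ker_le_range O.subtype π (by simp [π])))
    (Core.pPrimeCore_quotient_pPrimeCore 2 G) (fun S' T' hST => by
      obtain ⟨S, rfl⟩ := Sylow.mapSurjective_surjective hπ 2 S'
      obtain ⟨T, rfl⟩ := Sylow.mapSurjective_surjective hπ 2 T'
      set R := (S : Subgroup G) ⊓ ((T : Subgroup G).map π).comap π with hR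
      obtain ⟨h, hh, hRT⟩ := SylTools.exists_conj_le_sylow_of_le (A := R)
        (S.isPGroup'.to_le inf_le_left) inf_le_right T (le_comap_map _ _)
      have hne : S ≠ h⁻¹ • T := fun e => hST (Sylow.ext (by
        refine ((S.mapSurjective hπ).is_maximal' (T.mapSurjective hπ).isPGroup' ?_).symm
        rintro _ ⟨x, hx, rfl⟩
        rw [e, SetLike.mem_coe, SylTools.mem_smul_sylow, inv_inv] at hx
        have h4 : π x = (π h)⁻¹ * π (h * x * h⁻¹) * π h := by simp [mul_assoc]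
        rw [Sylow.coe_mapSurjective, h4]
        exact mul_mem (mul_mem (inv_mem hh) (mem_map_of_mem π hx)) hh))
      have h4 := hC S _ hne
      have h5 : IsCyclic R := isCyclic_of_le (H' := (S : Subgroup G) ⊓ ((h⁻¹ • T : Sylow 2 G) : Subgroup G))
        (le_inf inf_le_left fun x hx => by
          rw [SylTools.mem_smul_sylow, inv_inv]; exact hRT x hx)
      have h6 : IsCyclic (R.map π) := isCyclic_of_surjective _ (π.subgroupMap_surjective R)
      refine isCyclic_of_le (H' := R.map π) ?_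
      rintro _ ⟨⟨x, hx, rfl⟩, h7⟩
      exact ⟨x, mem_inf.2 ⟨hx, h7⟩, rfl⟩)
  have h4 := h3 (N.map π) (Normal.map inferInstance π hπ) (Core.isSolvable_map π N)
  exact ⟨isCyclic_of_le h4, (Core.isPGroup_pCore 2 _).to_le h4, h4.trans h2⟩

end Cfsg.Agent.S3306
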