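import Cfsg.Statements.S3315
import Cfsg.Agent.Lib.Unitary.UTAut

set_option autoImplicit false
open Cfsg

namespace Cfsg.Agent.S3315

/-- Let S be a Sylow 2-subgroup of SU₃(2ⁿ), n ≥ 2 (realised over the field with 4ⁿ elements). If a finite 2-group R contains a subgroup S' of index 2 isomorphic to S, then the centre of S' is contained in the centre of R. -/
theorem result {R : Type*} [Group R] [Finite R]
    (hR : IsPGroup 2 R) (n : ℕ) (hn : 2 ≤ n) {F : Type*} [Field F] [Fintype F] (hF : Fintype.card F = 4 ^ n)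
    (P : Sylow 2 ↥(Cfsg.SU 3 F (2 ^ n))) (S' : Subgroup R) (hS : Nonempty (↥S' ≃* ↥(P : Subgroup ↥(Cfsg.SU 3 F (2 ^ n)))))
    (hidx : S'.index = 2) :
    (Subgroup.center ↥S').map S'.subtype ≤ Subgroup.center R := by
  have : Fact (Fintype.card F = (2 ^ n) ^ 2) := ⟨by rw [hF, ← pow_mul, mul_comm, pow_mul]; norm_num⟩
  have h2 : (2 : F) = 0 := CfsgLib.Unitary.two_eq_zero_of_card (n := 2 * n) (by rw [hF, pow_mul]; norm_num)
  obtain ⟨e0⟩ := hS
  obtain ⟨e1⟩ := CfsgLib.Unitary.sylow_SU_iso h2 P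
  let e := e0.trans e1
  have hN : S'.Normal := Subgroup.normal_of_index_eq_two hidx
  rintro _ ⟨z, hz, rfl⟩
  rw [Subgroup.mem_center_iff]
  intro r
  let α := MulAut.congr e (MulAut.conjNormal (H := S') r)
  have hr : r * r ∈ S' := Subgroup.mul_self_mem_of_index_two hidx r
  obtain ⟨-, -, -, -, h⟩ := CfsgLib.Unitary.UT.aut_of_sq h2 (α := α) (fun u => by
    obtain ⟨u, rfl⟩ := e.surjective u
    have h3 : (α * α) (e u) = e (⟨r * r, hr⟩ * u * ⟨r * r, hr⟩⁻¹) := by
      rw [← map_mul, ← map_mul]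
      change e (MulAut.conjNormal (r * r) (e.symm (e u))) = e _
      rw [e.symm_apply_apply]
      rfl
    rw [h3, map_mul, map_mul, map_inv]
    simp)
  have h3 := h (e z) (CfsgLib.Unitary.UT.mem_center_iff.1 (Subgroup.centerCongr e ⟨z, hz⟩).2)
  have h4 : MulAut.conjNormal (H := S') r z = z := by
    apply e.injective
    rw [← h3]
    change _ = e (MulAut.conjNormal r (e.symm (e z)))
    rw [e.symm_apply_apply]
  have h5 : r * z * r⁻¹ = z := congrArg Subtype.val h4
  exact mul_inv_eq_iff_eq_mul.1 h5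

end Cfsg.Agent.S3315
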