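import Cfsg.Statements.S3335
import Mathlib
import Cfsg.Agent.Lib.AltCover.Pres

set_option autoImplicit false
open Cfsg

namespace Cfsg.Agent.S3335

open CfsgLib.AltCover

/-- the relators -/
def rels (k : ℕ) : Set (FreeGroup (Fin k)) :=
  {g : FreeGroup (Fin k) | ∃ i : Fin k, i.val = 0 ∧ g = FreeGroup.of i ^ 3} ∪
    {g | ∃ i : Fin k, 1 ≤ i.val ∧ g = FreeGroup.of i ^ 2} ∪
    {g | ∃ i j : Fin k, j.val = i.val + 1 ∧ g = (FreeGroup.of i * FreeGroup.of j) ^ 3} ∪
    {g | ∃ i j : Fin k, i.val + 1 < j.val ∧ g = (FreeGroup.of i * FreeGroup.of j) ^ 2}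


/-- A presentation of the alternating group of degree n ≥ 3 on generators x_1, …, x_{n−2} (indexed here by 0, …, n−3): the first generator cubes to 1, every other generator squares to 1, the product of two consecutive generators has order dividing 3, and the product of two generators at distance at least 2 has order dividing 2. The group so presented is isomorphic to the alternating group of degree n. -/
theorem result (n : ℕ) (hn : 3 ≤ n) :
    Nonempty (PresentedGroup
      ({g : FreeGroup (Fin (n - 2)) | ∃ i : Fin (n - 2), i.val = 0 ∧ g = FreeGroup.of i ^ 3} ∪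
       {g | ∃ i : Fin (n - 2), 1 ≤ i.val ∧ g = FreeGroup.of i ^ 2} ∪
       {g | ∃ i j : Fin (n - 2), j.val = i.val + 1 ∧ g = (FreeGroup.of i * FreeGroup.of j) ^ 3} ∪
       {g | ∃ i j : Fin (n - 2), i.val + 1 < j.val ∧ g = (FreeGroup.of i * FreeGroup.of j) ^ 2})
      ≃* alternatingGroup (Fin n)) := by
  obtain ⟨k, rfl⟩ : ∃ k, n = k + 2 := ⟨n - 2, by omega⟩
  show Nonempty (PresentedGroup (rels k) ≃* alternatingGroup (Fin (k + 1 + 1)))
  have hX := moore_X (k + 1)
  have hr : ∀ r ∈ rels k, FreeGroup.lift (fun i : Fin k => X (k + 1) (i + 1)) r = 1 := by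
    rintro r (((⟨i, hi, rfl⟩ | ⟨i, hi, rfl⟩) | ⟨i, j, hij, rfl⟩) | ⟨i, j, hij, rfl⟩) <;>
      simp only [map_pow, map_mul, FreeGroup.lift_apply_of]
    · rw [hi]; exact hX.h1 (by omega)
    · exact hX.h2 _ (by omega) (by omega)
    · rw [hij]; exact hX.h3 _ (by omega) (by omega)
    · exact hX.h4 _ _ (by omega) (by omega) (by omega)
  let ψ := PresentedGroup.toGroup hr
  have hψ : ∀ i, ψ (PresentedGroup.of i) = X (k + 1) (i + 1) := fun i => PresentedGroup.toGroup.of hr
  let y : ℕ → PresentedGroup (rels k) := fun i =>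
    if h : i - 1 < k then PresentedGroup.of ⟨i - 1, h⟩ else 1
  have hy : ∀ i (h : i - 1 < k), y i = PresentedGroup.mk _ (FreeGroup.of ⟨i - 1, h⟩) :=
    fun i h => dif_pos h
  have h1 : ∀ r ∈ rels k, PresentedGroup.mk (rels k) r = 1 := fun r hr =>
    PresentedGroup.one_of_mem hr
  have hM : Moore (k + 1) y := by
    refine ⟨fun h => ?_, fun i h hi => ?_, fun i h hi => ?_, fun i j h hij hj => ?_⟩
    · rw [hy 1 (by omega), ← map_pow]
      exact h1 _ (Or.inl (Or.inl (Or.inl ⟨_, rfl, rfl⟩)))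
    · rw [hy i (by omega), ← map_pow]
      exact h1 _ (Or.inl (Or.inl (Or.inr ⟨_, by simp only; omega, rfl⟩)))
    · rw [hy i (by omega), hy (i + 1) (by omega), ← map_mul, ← map_pow]
      exact h1 _ (Or.inl (Or.inr ⟨_, _, by simp only; omega, rfl⟩))
    · rw [hy i (by omega), hy j (by omega), ← map_mul, ← map_pow]
      exact h1 _ (Or.inr ⟨_, _, by simp only; omega, rfl⟩)
  obtain ⟨φ, hφ⟩ := hM.exists_hom
  have e1 : φ.comp ψ = MonoidHom.id _ := PresentedGroup.ext fun i => by
    rw [MonoidHom.comp_apply, hψ, hφ _ (by omega) (by omega), hy _ (by simp)]; rfl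
  have e2 : ψ.comp φ = MonoidHom.id _ := hom_ext_X fun i h hi => by
    rw [MonoidHom.comp_apply, hφ i h hi, hy i (by omega)]
    refine (hψ _).trans ?_
    simp only [MonoidHom.id_apply]
    congr 1; omega
  exact ⟨MonoidHom.toMulEquiv ψ φ e1 e2⟩

end Cfsg.Agent.S3335
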