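import Cfsg.Statements.S3341
import Cfsg.Agent.Lib.Exc.CC9
import Cfsg.Agent.Lib.Exc.Leonard
import Cfsg.Agent.S0497

set_option autoImplicit false
open Cfsg

namespace Cfsg.Agent.S3341

/-- Let G be a finite simple group whose Sylow 3-subgroup S is elementary abelian of order 9, such that G has more than one conjugacy class of elements of order 3 and C_G(s) = S for every non-identity s in S. Then G is isomorphic to the alternating group of degree 6. -/
theorem result {G : Type*} [Group G] [Finite G] [IsSimpleGroup G]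
    (P : Sylow 3 G) (S : Subgroup G) (hSP : S = P) (hcomm : IsMulCommutative S) (hexp : ∀ a ∈ S, a ^ 3 = 1)
    (hcard : Nat.card S = 9)
    (hclasses : ∃ a b : G, orderOf a = 3 ∧ orderOf b = 3 ∧ ∀ g : G, g * a * g⁻¹ ≠ b)
    (hcent : ∀ s ∈ S, s ≠ 1 → Subgroup.centralizer ({s} : Set G) = S) :
    Nonempty (G ≃* alternatingGroup (Fin 6)) := by
  subst hSP
  have := Fact.mk Nat.prime_three
  have h : CfsgLib.Exc.IsCC9 P := ⟨hcard, hexp, hcent⟩
  obtain ⟨a, b, ha, hb, hab⟩ := hclasses
  have hbot : (P : Subgroup G) ≠ ⊥ := fun e => by rw [e, Subgroup.card_bot] at hcard; omega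
  have hn : ¬ (P : Subgroup G).Normal := fun hn => by
    have htop := (hn.eq_bot_or_eq_top).resolve_left hbot
    have h1 : (Subgroup.zpowers a).Normal := ⟨fun x hx g => by
      rwa [h.comm g (htop ▸ trivial) x (htop ▸ trivial), mul_inv_cancel_right]⟩
    have h2 := Nat.card_zpowers a
    rcases h1.eq_bot_or_eq_top with e | e
    · rw [e, Subgroup.card_bot] at h2; omega
    · rw [e, ← htop, hcard] at h2; omega
  rcases h.relIndex_cases ha hb (fun hc => (isConj_iff.1 hc).elim hab) with he | he | he
  · exact absurd he (h.relIndex_ne_one fun e => hn (e ▸ inferInstance))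
  · obtain ⟨χ, hχ, h2⟩ := h.exists_degree_two he
    have := (CfsgLib.Exc.linear_of_small_degree P (fun x hx hx1 => le_antisymm
      (fun y hy z hz => h.comm z hz y (hcent x hx hx1 ▸ hy))
      (Subgroup.centralizer_le (Set.singleton_subset_iff.2 hx)))
      (fun K hK hPK => hK.eq_bot_or_eq_top.resolve_left fun e => hbot (le_bot_iff.1 (e ▸ hPK)))
      hχ (fun e => by rw [e] at h2; norm_num at h2) (x := 2) h2 (by
        show _ < Nat.card (P : Subgroup G); rw [hcard]; norm_num)).1
    omega
  · rcases h.card_of_four he with e | e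
    · exact absurd (Subgroup.normalizer_eq_top_iff.1 e) hn
    · exact Cfsg.Agent.S0497.result e

end Cfsg.Agent.S3341
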