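import Cfsg.Statements.S3346
import Mathlib
import Cfsg.Agent.Lib.W2.HSMain

set_option autoImplicit false
open Cfsg

namespace Cfsg.Agent.S3346


/-- A characterization of the Higman–Sims group. Let G be a finite group with an involution t, H = C_G(t) and R = O₂(H). Suppose R is the central product of a cyclic group of order 4 with an extraspecial group of order 32 (R = CE with C cyclic of order 4 central in R, E extraspecial of order 32, and C ∩ E = Z(E)), and H/R is isomorphic to Sym(5). Suppose further that V ≤ R is elementary abelian of order 8 with M = N_G(V) satisfying O₂(M) ≅ C₄ × C₄ × C₄ and M/O₂(M) ≅ GL(3,2). Then G is isomorphic to the Higman–Sims group. -/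
theorem result {G : Type*} [Group G] [Finite G]
    (t : G) (ht : orderOf t = 2) (H : Subgroup G) (hH : H = Subgroup.centralizer ({t} : Set G))
    (R : Subgroup G) (hR : R = (Cfsg.pCore 2 H).map H.subtype)
    (Cy E : Subgroup G) (hCy : IsCyclic Cy) (hCycard : Nat.card Cy = 4)
    (hCyle : Cy ≤ R ⊓ Subgroup.centralizer (R : Set G))
    (hEle : E ≤ R) (hEex : Cfsg.IsExtraspecial 2 E) (hEcard : Nat.card E = 32)
    (hprod : Cy ⊔ E = R) (hmeet : Cy ⊓ E = E ⊓ Subgroup.centralizer (E : Set G))
    (eH : H ⧸ Cfsg.pCore 2 H ≃* Equiv.Perm (Fin 5))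
    (V : Subgroup G) (hVcomm : IsMulCommutative V) (hVexp : ∀ v ∈ V, v ^ 2 = 1) (hVcard : Nat.card V = 8)
    (hVR : V ≤ R) (M : Subgroup G) (hM : M = Subgroup.normalizer (V : Set G))
    (eOM : Cfsg.pCore 2 M ≃* Multiplicative (ZMod 4 × ZMod 4 × ZMod 4))
    (eM : M ⧸ Cfsg.pCore 2 M ≃* GL (Fin 3) (ZMod 2)) :
    Cfsg.Spor.IsoHS G := by
  subst hH hM
  obtain ⟨c, v, w, B, π, h⟩ := CfsgLib.W2.HS.exists_hyp t ht R hR Cy E hCy hCycard hCyle hEle hEex
    hEcard hprod hmeet eH V hVcomm hVexp hVcard hVR eOM eM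
  exact h.nonempty_equiv
end Cfsg.Agent.S3346
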