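import Cfsg.Statements.S3349

set_option autoImplicit false
open Cfsg

namespace Cfsg.Agent.S3349

/-- Let Q be a finite extraspecial p-group and α an automorphism of Q fixing every element of some maximal abelian subgroup of Q. Then the order of α is a power of p. -/
theorem result {Q : Type*} [Group Q] [Finite Q]
    (p : ℕ) [Fact p.Prime] (hQ : Cfsg.IsExtraspecial p Q) (α : MulAut Q)
    (A : Subgroup Q) (hA : IsMulCommutative A) (hmax : ∀ B : Subgroup Q, A ≤ B → IsMulCommutative B → B = A)
    (hfix : ∀ a ∈ A, α a = a) :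
    ∃ k : ℕ, orderOf α = p ^ k := by
  obtain ⟨⟨hP, -, hcomm⟩, -⟩ := hQ
  have hC : ∀ x : Q, (∀ a ∈ A, a * x = x * a) → x ∈ A := by
    intro x hx
    have h1 : IsMulCommutative (Subgroup.closure (insert x (A : Set Q))) := by
      apply Subgroup.isMulCommutative_closure
      have hAc : ∀ a ∈ A, ∀ b ∈ A, a * b = b * a := fun a ha b hb =>
        congrArg Subtype.val (hA.is_comm.comm (⟨a, ha⟩ : A) ⟨b, hb⟩)
      rintro a (rfl | ha) b (rfl | hb)
      · rfl
      · exact (hx b hb).symm
      · exact hx a ha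
      · exact hAc a ha b hb
    have h2 := hmax _ (fun a ha => Subgroup.subset_closure (Set.mem_insert_of_mem _ ha)) h1
    rw [← h2]
    exact Subgroup.subset_closure (Set.mem_insert _ _)
  have hZ : Subgroup.center Q ≤ A := fun z hz => hC z (fun a _ => Subgroup.mem_center_iff.1 hz a)
  have hN : ∀ x : Q, ∀ a ∈ A, x * a * x⁻¹ ∈ A := by
    intro x a ha
    have h1 : x * a * x⁻¹ * a⁻¹ ∈ A := by
      apply hZ
      rw [← hcomm]
      exact Subgroup.commutator_mem_commutator (Subgroup.mem_top _) (Subgroup.mem_top _)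
    have := A.mul_mem h1 ha
    simpa using this
  have hc : ∀ x : Q, x⁻¹ * α x ∈ A := by
    intro x
    apply hC
    intro a ha
    have h1 := hfix _ (hN x a ha)
    rw [map_mul, map_mul, map_inv, hfix a ha] at h1
    calc a * (x⁻¹ * α x) = x⁻¹ * (x * a * x⁻¹) * α x := by group
      _ = x⁻¹ * (α x * a * (α x)⁻¹) * α x := by rw [h1]
      _ = x⁻¹ * α x * a := by group
  have hpow : ∀ (n : ℕ) (x : Q), (α ^ n) x = x * (x⁻¹ * α x) ^ n := by
    intro n x
    induction n with
    | zero => simp
    | succ n ih =>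
      rw [pow_succ', MulAut.mul_apply, ih, map_mul, hfix _ (A.pow_mem (hc x) n), pow_succ',
        ← mul_assoc, mul_inv_cancel_left]
  obtain ⟨k, hk⟩ := IsPGroup.iff_card.1 hP
  have : α ^ p ^ k = 1 := by
    ext x
    rw [hpow, ← hk, pow_card_eq_one', mul_one, MulAut.one_apply]
  obtain ⟨j, -, hj⟩ := (Nat.dvd_prime_pow Fact.out).1 (orderOf_dvd_of_pow_eq_one this)
  exact ⟨j, hj⟩

end Cfsg.Agent.S3349
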