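import Cfsg.Statements.S3360
import Cfsg.Agent.Lib.Perm.MultiTransHuppert

set_option autoImplicit false
open Cfsg

namespace Cfsg.Agent.S3360


/-- Let q be a prime and V a non-trivial finite vector space over the field with q elements, and let G be a finite solvable group acting faithfully and linearly on V and transitively on the non-zero vectors. Then either V can be identified with the additive group of a finite field F in such a way that every element of G acts as x ↦ a·σ(x) for some a ∈ F and some field automorphism σ, or the number of elements of V is one of 3^2, 5^2, 7^2, 11^2, 23^2, 3^4. -/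
theorem result
    (q : ℕ) [Fact q.Prime] {V : Type*} [AddCommGroup V] [Module (ZMod q) V] [Finite V] [Nontrivial V]
    {G : Type*} [Group G] [Finite G] (hsol : Group.IsSolvable G)
    (ρ : G →* (V ≃ₗ[ZMod q] V)) (hρ : Function.Injective ρ)
    (htrans : ∀ v w : V, v ≠ 0 → w ≠ 0 → ∃ g : G, ρ g v = w) :
    (∃ (F : Type) (_ : Field F) (_ : Fintype F) (e : V ≃+ F),
        ∀ g : G, ∃ (a : F) (σ : F ≃+* F), ∀ v : V, e (ρ g v) = a * σ (e v)) ∨
    Nat.card V ∈ ({9, 25, 49, 121, 529, 81} : Set ℕ) := by
  let _ : DistribMulAction G V := DistribMulAction.compHom V ρ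
  have : FaithfulSMul G V := ⟨fun h => hρ (LinearEquiv.ext h)⟩
  have hq : q.Prime := Fact.out
  have hV := Module.natCard_eq_pow_finrank (K := ZMod q) (V := V)
  rw [Nat.card_zmod] at hV
  refine (CfsgLib.Perm.huppert (G := G) htrans hq hV).imp id ?_
  rintro ⟨A, E, -, -, h2, hA, hE, ⟨hn, h⟩ | ⟨hn, rfl⟩⟩
  · have h1 := CfsgLib.Perm.card_sub_one_dvd (G := G) htrans
    have h3 : Nat.card G ∣ (q - 1) * 24 := by
      rw [← E.card_mul_index, hE, hn, mul_assoc]
      exact Nat.mul_dvd_mul hA (by rcases h with h | h <;> rw [h] <;> norm_num)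
    have h4 := h1.trans h3
    have h5 := hq.two_le
    rw [hV, hn, ← one_pow 2, Nat.sq_sub_sq, one_pow, mul_comm] at h4
    have h6 := Nat.dvd_of_mul_dvd_mul_left (by omega) h4
    have h7 := Nat.le_of_dvd (by norm_num) h6
    have h8 := h2.trans hA
    have h9 : q ≤ 23 := by omega
    rw [hV, hn]
    interval_cases q <;> first | omega | decide
  · rw [hV, hn]
    decide

end Cfsg.Agent.S3360
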