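import Cfsg.Statements.S3361
import Cfsg.Agent.Lib.Perm.MultiTransHuppert
import Cfsg.Agent.Lib.Invol.IndexTwo
import Cfsg.Agent.Lib.Frob.Quaternion
import Cfsg.Agent.S0106

set_option autoImplicit false
open Cfsg

namespace Cfsg.Agent.S3361

open Subgroup CfsgLib

theorem sl23 {H : Type*} [Group H] [Finite H] (h24 : Nat.card H = 24)
    (hu : ∀ x y : H, orderOf x = 2 → orderOf y = 2 → x = y)
    (h2 : ¬ ∃ N : Subgroup H, N.index = 2) :
    Nonempty (H ≃* Matrix.SpecialLinearGroup (Fin 2) (ZMod 3)) := by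
  have : Fact (Nat.Prime 2) := ⟨Nat.prime_two⟩
  have hev : Even (Nat.card H) := by rw [h24]; decide
  obtain ⟨T⟩ : Nonempty (Sylow 2 H) := inferInstance
  rcases Frob.cyclic_or_quaternion_of_forall_mem_zpowers T.isPGroup' (fun x y hx hy => by
    rw [Subtype.ext (hu x y (by rwa [orderOf_coe]) (by rwa [orderOf_coe]))]
    exact mem_zpowers y) with h | ⟨-, n, hn, h⟩
  · exact absurd (Invol.exists_index_two_of_isCyclic hev T h) h2
  rcases S0106.result T n hn h with ⟨P, N, hN, h⟩ | ⟨L, K, hK, ⟨e⟩⟩
  · exact absurd (Invol.exists_index_two_of_normal_complement hev P h) h2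
  have h3 := (K.subgroupOf L).card_eq_card_quotient_mul_card_subgroup
  rw [Nat.card_congr e.toEquiv, S2427.card_G3] at h3
  have h4 := card_le_card_group L
  have h5 : 0 < Nat.card (K.subgroupOf L) := Nat.card_pos
  have h6 : K.subgroupOf L = ⊥ := eq_bot_of_card_eq _ (by omega)
  have h7 : L = ⊤ := eq_top_of_card_eq _ (by omega)
  exact ⟨((topEquiv.symm.trans (MulEquiv.subgroupCongr h7.symm)).trans
    (QuotientGroup.quotientBot.symm.trans (QuotientGroup.quotientMulEquivOfEq h6.symm))).trans e⟩


/-- Let q be a prime and V a non-trivial finite vector space over the field with q elements, and let G be a finite solvable group acting faithfully and linearly on V and regularly on the non-zero vectors (transitively, with only the identity fixing a non-zero vector). Then either V can be identified with the additive group of a finite field F so that every element of G acts as x ↦ a·σ(x) (a ∈ F, σ a field automorphism), or V has 5^2, 7^2, 11^2 or 23^2 elements. Moreover, if q ≠ 2 then G has a normal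 subgroup of index 2, except that when V has 25 elements G may be isomorphic to SL(2,3) and when V has 121 elements G may be isomorphic to SL(2,3) × C₅. -/
theorem result
    (q : ℕ) [Fact q.Prime] {V : Type*} [AddCommGroup V] [Module (ZMod q) V] [Finite V] [Nontrivial V]
    {G : Type*} [Group G] [Finite G] (hsol : Group.IsSolvable G)
    (ρ : G →* (V ≃ₗ[ZMod q] V)) (hρ : Function.Injective ρ)
    (htrans : ∀ v w : V, v ≠ 0 → w ≠ 0 → ∃ g : G, ρ g v = w)
    (hreg : ∀ v : V, v ≠ 0 → ∀ g : G, ρ g v = v → g = 1) :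
    ((∃ (F : Type) (_ : Field F) (_ : Fintype F) (e : V ≃+ F),
        ∀ g : G, ∃ (a : F) (σ : F ≃+* F), ∀ v : V, e (ρ g v) = a * σ (e v)) ∨
      Nat.card V ∈ ({25, 49, 121, 529} : Set ℕ)) ∧
    (q ≠ 2 → (∃ N : Subgroup G, N.Normal ∧ N.index = 2) ∨
      (Nat.card V = 25 ∧ Nonempty (G ≃* Matrix.SpecialLinearGroup (Fin 2) (ZMod 3))) ∨
      (Nat.card V = 121 ∧ Nonempty (G ≃* Matrix.SpecialLinearGroup (Fin 2) (ZMod 3) × Multiplicative (ZMod 5)))) := by
  classical
  let _ : DistribMulAction G V := DistribMulAction.compHom V ρ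
  have : FaithfulSMul G V := ⟨fun h => hρ (LinearEquiv.ext h)⟩
  change ∀ v w : V, v ≠ 0 → w ≠ 0 → ∃ g : G, g • v = w at htrans
  change ∀ v : V, v ≠ 0 → ∀ g : G, g • v = v → g = 1 at hreg
  have hq : q.Prime := Fact.out
  have hV := Module.natCard_eq_pow_finrank (K := ZMod q) (V := V)
  rw [Nat.card_zmod] at hV
  have hG : Nat.card G = Nat.card V - 1 := by
    obtain ⟨v, hv⟩ := exists_ne (0 : V)
    have h : MulAction.orbit G v = {0}ᶜ := Set.ext fun w =>
      ⟨fun ⟨g, hg⟩ => hg ▸ (smul_ne_zero_iff_ne g).2 hv, fun hw => htrans v w hv hw⟩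
    rw [← index_bot, ← eq_bot_iff.2 (show MulAction.stabilizer G v ≤ ⊥ from hreg v hv),
      MulAction.index_stabilizer, h, Set.ncard_compl, Set.ncard_singleton]
  have hinv : ∀ x : G, orderOf x = 2 → ∀ v : V, x • v = -v := fun x hx v => by
    by_contra h
    have h1 := hreg (x • v + v) (fun e => h (eq_neg_of_add_eq_zero_left e)) x (by
      rw [smul_add, smul_smul, ← sq, ← hx, pow_orderOf_eq_one, one_smul, add_comm])
    rw [h1, orderOf_one] at hx
    omega
  have hu : ∀ x y : G, orderOf x = 2 → orderOf y = 2 → x = y := fun x y hx hy =>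
    FaithfulSMul.eq_of_smul_eq_smul (α := V) fun v => by rw [hinv x hx, hinv y hy]
  rcases Perm.huppert (G := G) htrans hq hV with ⟨F, _, _, e, h⟩ | ⟨A, E, hE, hZ, h2, hA, hEA, h⟩
  · refine ⟨Or.inl ⟨F, _, inferInstance, e, h⟩, fun hq2 => Or.inl ?_⟩
    have hF : ringChar F ≠ 2 := fun h2 => by
      have h3 := FiniteField.even_card_iff_char_two.1 h2
      rw [← Nat.card_eq_fintype_card, ← Nat.card_congr e.toEquiv, hV] at h3
      exact hq2 ((Nat.prime_dvd_prime_iff_eq Nat.prime_two hq).1
        (Nat.prime_two.dvd_of_dvd_pow (Nat.dvd_of_mod_eq_zero h3))).symm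
    let φ : G →* ℤ := ⟨⟨fun g => quadraticChar F (e (g • e.symm 1)), by simp⟩, fun g g' => by
      obtain ⟨a, σ, hg⟩ := h g
      have hσ : ∀ x, quadraticChar F (σ x) = quadraticChar F x := fun x => by
        have : IsSquare (σ x) ↔ IsSquare x := ⟨fun h => by simpa using h.map σ.symm, fun h => h.map σ⟩
        simp [quadraticCharFun, this]
      dsimp only
      rw [mul_smul, hg, hg, map_mul, map_mul, hσ, hσ, e.apply_symm_apply,
        (quadraticChar F).map_one, mul_one]⟩
    refine ⟨φ.toHomUnits.ker, inferInstance, ?_⟩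
    rw [index_ker, MonoidHom.range_eq_top.2 fun u => ?_, card_top, Nat.card_eq_fintype_card,
      Fintype.card_units_int]
    rcases Int.units_eq_one_or u with rfl | rfl
    · exact ⟨1, map_one _⟩
    · obtain ⟨a, ha⟩ := quadraticChar_exists_neg_one' hF
      obtain ⟨g, hg⟩ := htrans (e.symm 1) (e.symm a) (by simp) (by simp)
      refine ⟨g, Units.ext ?_⟩
      change quadraticChar F (e (g • e.symm 1)) = -1
      rw [hg, e.apply_symm_apply, ha]
  have h5 := hq.two_le
  obtain ⟨b, hb⟩ := h2
  rcases h with ⟨hn, h⟩ | ⟨hn, rfl⟩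
  swap
  · have := E.card_subgroup_dvd_card
    rw [hG, hV, hEA, hn, hb] at this
    have := (Dvd.intro b (by ring) : 32 ∣ 2 * b * 4 ^ 2).trans this
    norm_num at this
  rw [hn] at hV hEA
  have h3 : (q + 1) * (q - 1) = Nat.card A * (4 * E.index) := by
    rw [← Nat.sq_sub_sq, one_pow, ← hV, ← hG, ← E.card_mul_index, hEA, mul_assoc]
    rfl
  have h6 : q + 1 ∣ 4 * E.index := Nat.dvd_of_mul_dvd_mul_left (by omega : 0 < q - 1)
    (by rw [mul_comm, h3]; exact Nat.mul_dvd_mul_right hA _)
  rw [hV] at hG ⊢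
  rcases h with h | h
  · rw [h] at h3 h6
    have h7 := Nat.le_of_dvd (by norm_num) h6
    have h9 : q ≤ 11 := by omega
    have h10 : q = 5 ∨ q = 11 := by interval_cases q <;> omega
    refine ⟨Or.inr (by rcases h10 with rfl | rfl <;> decide), fun _ => or_iff_not_imp_left.2 fun hN => ?_⟩
    have hN' : ¬ ∃ N : Subgroup G, N.index = 2 := fun ⟨N, h⟩ => hN ⟨N, N.normal_of_index_eq_two h, h⟩
    rcases h10 with rfl | rfl
    · exact Or.inl ⟨rfl, sl23 hG hu hN'⟩
    refine Or.inr ⟨rfl, ?_⟩
    obtain ⟨z, hz, hz5⟩ := Core.exists_mem_orderOf_eq_of_dvd_card (p := 5) (H := A) (by norm_num)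
      (by omega)
    have hzc : zpowers z ≤ center G := (zpowers_le.2 hz).trans hZ
    have := Core.normal_of_le_center hzc
    have hc5 : Nat.card (zpowers z) = 5 := by rw [Nat.card_zpowers, hz5]
    have hi : (zpowers z).index = 24 := by
      have := (zpowers z).card_mul_index
      rw [hc5, hG] at this
      omega
    obtain ⟨H, hH⟩ := exists_right_complement'_of_coprime (N := zpowers z) (by
      rw [hc5, hi]; norm_num)
    have hH24 : Nat.card H = 24 := by rw [← hH.symm.index_eq_card, hi]
    let f : H × zpowers z →* G := H.subtype.noncommCoprod (zpowers z).subtype fun x y =>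
      mem_center_iff.1 (hzc y.2) x
    let e := MulEquiv.ofBijective f hH.symm
    obtain ⟨e1⟩ := sl23 hH24 (fun x y hx hy =>
      Subtype.ext (hu x y (by rwa [orderOf_coe]) (by rwa [orderOf_coe]))) fun ⟨N, h⟩ =>
        hN' ⟨N.comap ((MonoidHom.fst _ _).comp e.symm.toMonoidHom), by
          rw [index_comap_of_surjective _ (Prod.fst_surjective.comp e.symm.surjective), h]⟩
    have : Fact (Nat.Prime 5) := ⟨by norm_num⟩
    exact ⟨e.symm.trans (e1.prodCongr (mulEquivOfPrimeCardEq hc5 (by simp)))⟩
  · rw [h] at h3 h6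
    have h7 := Nat.le_of_dvd (by norm_num) h6
    have h9 : q ≤ 23 := by omega
    refine ⟨Or.inr (by interval_cases q <;> first | omega | decide), fun _ => Or.inl ?_⟩
    have : Fact (Nat.Prime 3) := ⟨Nat.prime_three⟩
    obtain ⟨P, hP⟩ := Sylow.exists_subgroup_card_pow_prime (G := G ⧸ E) 3 (n := 1) (by
      rw [← index_eq_card, h]; norm_num)
    have h8 : (P.comap (QuotientGroup.mk' E)).index = 2 := by
      rw [index_comap_of_surjective _ (QuotientGroup.mk'_surjective E)]
      have := P.card_mul_index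
      rw [hP, ← index_eq_card, h] at this
      omega
    exact ⟨_, normal_of_index_eq_two h8, h8⟩

end Cfsg.Agent.S3361
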