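import Cfsg.Statements.S3376
import Mathlib
import Cfsg.Agent.Lib.LAE.Sylow
import Cfsg.Agent.Lib.PLocal.Thompson

set_option autoImplicit false
open Cfsg

namespace Cfsg.Agent.S3376

open Subgroup CfsgLib in

/-- Let G be a group of order 162 = 3⁴·2 with Sylow 3-subgroup S and Sylow 2-subgroup T, having an elementary abelian normal subgroup J of order 27, such that Z = Z(S) has order 3, Z centralizes T, and C_S(T) ≠ S. Then G is isomorphic to the centralizer in Sym(9) of a product of three disjoint 3-cycles. -/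
theorem result {G : Type*} [Group G] [Finite G] (hG : Nat.card G = 162)
    (S : Sylow 3 G) (T : Sylow 2 G) (J : Subgroup G) [hJn : J.Normal] (hJcomm : IsMulCommutative J)
    (hJexp : ∀ a ∈ J, a ^ 3 = 1) (hJcard : Nat.card J = 27)
    (Z : Subgroup G) (hZ : Z = (S : Subgroup G) ⊓ Subgroup.centralizer ((S : Subgroup G) : Set G)) (hZcard : Nat.card Z = 3)
    (hZT : Z ≤ Subgroup.centralizer ((T : Subgroup G) : Set G))
    (hST : (S : Subgroup G) ⊓ Subgroup.centralizer ((T : Subgroup G) : Set G) ≠ S) :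
    Nonempty (G ≃* Subgroup.centralizer ({Equiv.swap (0 : Fin 9) 1 * Equiv.swap 1 2 * Equiv.swap 3 4 * Equiv.swap 4 5 * Equiv.swap 6 7 * Equiv.swap 7 8} : Set (Equiv.Perm (Fin 9)))) := by
  classical
  have k3 : (1 : ZMod 3) + 1 ≠ 0 := by decide
  have : Fact (Nat.Prime 3) := ⟨Nat.prime_three⟩
  have : Fact (Nat.Prime 2) := ⟨Nat.prime_two⟩
  have hS : Nat.card (S : Subgroup G) = 81 := by
    rw [S.card_eq_multiplicity, hG]; decide +kernel
  have hT : Nat.card (T : Subgroup G) = 2 := by
    rw [T.card_eq_multiplicity, hG]; decide +kernel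
  have hSi : (S : Subgroup G).index = 2 := by
    have := (S : Subgroup G).card_mul_index
    rw [hS, hG] at this; omega
  have hSn : (S : Subgroup G).Normal := normal_of_index_eq_two hSi
  have hJS : J ≤ S := (IsPGroup.of_card (n := 3) hJcard).le_sylow_of_normal S
  have hST' : (S : Subgroup G) ⊔ T = ⊤ := by
    rw [← index_eq_one]
    have h1 : ((S : Subgroup G) ⊔ T).index ∣ 2 := (index_dvd_of_le le_sup_left).trans hSi.dvd
    have h2 : ¬ 2 ∣ ((S : Subgroup G) ⊔ T).index := fun h =>
      T.not_dvd_index (h.trans (index_dvd_of_le le_sup_right))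
    rcases (Nat.dvd_prime Nat.prime_two).1 h1 with h | h
    · exact h
    · exact absurd h.symm.dvd h2
  have hZc : ∀ z ∈ Z, ∀ g, g * z = z * g := fun z hz g => by
    have : (⊤ : Subgroup G) ≤ centralizer ({z} : Set G) := by
      rw [← hST']
      exact sup_le (fun s hs => mem_centralizer_singleton_iff.2 ((hZ.le hz).2 s hs))
        fun t ht => mem_centralizer_singleton_iff.2 (hZT hz t ht)
    exact mem_centralizer_singleton_iff.1 (this (mem_top g))
  have meet : ∀ N : Subgroup G, N.Normal → N ≤ S → N ≠ ⊥ → Z ≤ N := by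
    intro N hN h1 h2
    have h3 : Z ⊓ N ≠ ⊥ := by
      have hp : IsPGroup 3 N := S.isPGroup'.to_le h1
      have hnt : Nontrivial N := (nontrivial_iff_ne_bot N).2 h2
      let φ : (S : Subgroup G) →* MulAut N := (MulAut.conjNormal).comp (S : Subgroup G).subtype
      letI := MulAction.compHom N φ
      obtain ⟨k, hk0, hk⟩ := hp.nontrivial_iff_card.1 hnt
      obtain ⟨b, hb, hb1⟩ := S.isPGroup'.exists_fixed_point_of_prime_dvd_card_of_fixed_point N
        (by rw [hk]; exact dvd_pow_self 3 hk0.ne') (a := 1) fun s => map_one (φ s)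
      refine ne_bot_iff_exists_ne_one.2 ⟨⟨b, hZ ▸ mem_inf.2 ⟨h1 b.2, fun s hs => ?_⟩, b.2⟩,
        fun e => hb1 (Subtype.ext (congrArg Subtype.val e).symm)⟩
      have := congrArg Subtype.val (hb ⟨s, hs⟩)
      exact mul_inv_eq_iff_eq_mul.1 this
    have : Fact (Nat.card Z).Prime := hZcard ▸ ⟨Nat.prime_three⟩
    rcases (Subgroup.eq_bot_or_eq_top_of_prime_card (N.subgroupOf Z)) with h | h
    · exact absurd (by rw [inf_comm]; exact disjoint_iff.1 (subgroupOf_eq_bot.1 h)) h3
    · exact subgroupOf_eq_top.1 h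
  have hZJ : Z ≤ J := meet J hJn hJS fun e => by rw [e, card_bot] at hJcard; omega
  -- an invariant complement to `Z` in `J`
  obtain ⟨t, ht⟩ := exists_prime_orderOf_dvd_card' (G := (T : Subgroup G)) 2 hT.symm.dvd
  have hTt : zpowers (t : G) = T := by
    refine eq_of_le_of_card_ge (zpowers_le.2 t.2) ?_
    rw [Nat.card_zpowers, Subgroup.orderOf_coe, ht, hT]
  have tt : (t : G) * t = 1 := by
    have := pow_orderOf_eq_one t
    rw [ht, pow_two] at this
    exact congrArg Subtype.val this
  obtain ⟨z, hz⟩ := exists_prime_orderOf_dvd_card' (G := Z) 3 hZcard.symm.dvd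
  have z1 : (z : G) ≠ 1 := fun e => by
    rw [show z = 1 from Subtype.ext e, orderOf_one] at hz; omega
  obtain ⟨K, hK1, hK2, hK3, hK4⟩ : ∃ K : Subgroup G, K ≤ J ∧ Nat.card K = 9 ∧ (z : G) ∉ K ∧
      (t : G) ∈ normalizer (K : Set G) := by
    letI : CommGroup J := { (inferInstance : Group J) with mul_comm := hJcomm.is_comm.comm }
    haveI : Fact (Nat.Prime 3) := ⟨Nat.prime_three⟩
    letI : Module (ZMod 3) (Additive J) := AddCommGroup.zmodModule fun a =>
      Additive.toMul.injective (Subtype.ext (hJexp _ (Additive.toMul a).2))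
    obtain ⟨f, hf⟩ := Module.Projective.exists_dual_eq_one (ZMod 3) (V := Additive J)
      (x := Additive.ofMul ⟨z, hZJ z.2⟩) fun e => z1 (congrArg Subtype.val (ofMul_eq_zero.1 e))
    let c : J →* J := (MulAut.conjNormal (t : G)).toMonoidHom
    let f₀ : J →* Multiplicative (ZMod 3) := AddMonoidHom.toMultiplicativeRight f.toAddMonoidHom
    let g : J →* Multiplicative (ZMod 3) := f₀ * f₀.comp c
    have hgz : g ⟨z, hZJ z.2⟩ ≠ 1 := by
      have : c ⟨z, hZJ z.2⟩ = ⟨z, hZJ z.2⟩ := Subtype.ext (by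
        change (t : G) * z * (t : G)⁻¹ = z
        rw [hZc z z.2, mul_inv_cancel_right])
      change f₀ _ * f₀ (c _) ≠ 1
      rw [this]
      change Multiplicative.ofAdd (f _) * Multiplicative.ofAdd (f _) ≠ 1
      erw [hf]
      exact k3
    refine ⟨g.ker.map J.subtype, map_subtype_le _, ?_, ?_, ?_⟩
    · have h1 : g.ker.index ∣ 3 := by
        rw [index_ker]
        simpa using card_subgroup_dvd_card g.range
      have h2 : g.ker.index ≠ 1 := fun e => hgz (by
        rw [← MonoidHom.mem_ker, index_eq_one.1 e]; trivial)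
      have h3 := g.ker.card_mul_index
      rw [((Nat.dvd_prime Nat.prime_three).1 h1).resolve_left h2, hJcard] at h3
      rw [PLocal.card_map_subtype]; omega
    · rintro ⟨y, hy, e⟩
      exact hgz (by rw [← show y = ⟨z, hZJ z.2⟩ from Subtype.ext e]; exact hy)
    · refine LAE.mem_normalizer_of_conjS_le (LAE.conjS_le_iff_forall.2 ?_)
      rintro _ ⟨y, hy, rfl⟩
      refine ⟨c y, ?_, rfl⟩
      have : c (c y) = y := Subtype.ext (by
        change (t : G) * (t * y * (t : G)⁻¹) * (t : G)⁻¹ = y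
        rw [← eq_inv_of_mul_eq_one_left tt]
        calc (t : G) * (t * y * t) * t = (t * t) * y * (t * t) := by group
          _ = y := by rw [tt, one_mul, mul_one])
      change f₀ (c y) * f₀ (c (c y)) = 1
      rw [this, mul_comm]; exact hy
  have hTK : (T : Subgroup G) ≤ normalizer (K : Set G) := hTt ▸ zpowers_le.2 hK4
  have hTS : (T : Subgroup G) ⊓ S = ⊥ :=
    inf_eq_bot_of_coprime (by rw [hT, hS]; decide)
  set H := (T : Subgroup G) ⊔ K with hH
  have hHS : H ⊓ S ≤ K := by
    rintro x ⟨h1, h2⟩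
    obtain ⟨a, ha, b, hb, rfl⟩ := (PLocal.mem_sup_of_le_normalizer hTK).1 h1
    have : a ∈ (T : Subgroup G) ⊓ S :=
      ⟨ha, (Subgroup.mul_mem_cancel_right _ (hJS (hK1 hb))).1 h2⟩
    rw [hTS, mem_bot] at this
    rwa [this, one_mul]
  have hHc : Nat.card (G ⧸ H) = 9 := by
    have h1 := PLocal.card_sup_mul_card_inf hTK
    rw [eq_bot_iff.2 ((inf_le_inf_left _ (hK1.trans hJS)).trans hTS.le), card_bot, hT, hK2] at h1
    have h2 := H.card_mul_index
    rw [hG] at h2
    change H.index = 9
    rw [← hH, mul_one] at h1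
    rw [h1] at h2
    omega
  have hzH : (z : G) ∉ H := fun e => hK3 (hHS ⟨e, hJS (hZJ z.2)⟩)
  have hinj : Function.Injective (MulAction.toPermHom G (G ⧸ H)) := by
    rw [← MonoidHom.ker_eq_bot_iff, ← normalCore_eq_ker]
    have h1 : H.normalCore ⊓ S = ⊥ := by
      by_contra h
      exact hzH (H.normalCore_le (meet _ inferInstance inf_le_right h z.2).1)
    by_contra h
    have h2 : Nat.card H.normalCore ∣ 2 := by
      rw [← relIndex_bot_left, ← h1, inf_comm, inf_relIndex_right, ← hSi]
      exact relIndex_dvd_index_of_normal _ _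
    have h3 : Nat.card H.normalCore = 2 :=
      ((Nat.dvd_prime Nat.prime_two).1 h2).resolve_left fun e => h (card_eq_one.1 e)
    have h4 : H.normalCore = T := eq_of_le_of_card_ge
      ((IsPGroup.of_card (n := 1) h3).le_sylow_of_normal T) (by rw [hT, h3])
    refine hST (inf_eq_left.2 (le_centralizer_iff.1 ?_))
    rw [← h4, ← commutator_eq_bot_iff_le_centralizer, eq_bot_iff, ← h1]
    exact commutator_le_inf _ _
  let e : (G ⧸ H) ≃ Fin 9 := Finite.equivFinOfCardEq hHc
  let ψ : G →* Equiv.Perm (Fin 9) := e.permCongrHom.toMonoidHom.comp (MulAction.toPermHom G (G ⧸ H))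
  have hψ : Function.Injective ψ := e.permCongrHom.injective.comp hinj
  have hord : orderOf (ψ z) = 3 := by rw [orderOf_injective ψ hψ, Subgroup.orderOf_coe, hz]
  have hsupp : (ψ z).support = Finset.univ := by
    refine Finset.eq_univ_of_forall fun i => Equiv.Perm.mem_support.2 fun h => hzH ?_
    obtain ⟨x, hx⟩ := QuotientGroup.mk_surjective (e.symm i)
    have h1 : (z : G) • e.symm i = e.symm i := e.injective (by rw [e.apply_symm_apply]; exact h)
    rw [← hx, MulAction.Quotient.smul_mk, QuotientGroup.eq, smul_eq_mul, ← hZc z z.2] at h1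
    simpa using h1
  set σ := Equiv.swap (0 : Fin 9) 1 * Equiv.swap 1 2 * Equiv.swap 3 4 * Equiv.swap 4 5 *
    Equiv.swap 6 7 * Equiv.swap 7 8 with hσ
  have ct : ∀ τ : Equiv.Perm (Fin 9), orderOf τ = 3 → τ.support = Finset.univ →
      τ.cycleType = Multiset.replicate 3 3 := by
    intro τ h1 h2
    obtain ⟨k, hk⟩ := Equiv.Perm.cycleType_prime_order (h1 ▸ Nat.prime_three : (orderOf τ).Prime)
    have h3 := τ.sum_cycleType
    rw [hk, h1, h2] at h3
    simp at h3
    rw [hk, h1, show k + 1 = 3 by omega]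
  have hσt := ct σ (orderOf_eq_prime (by decide) (by decide)) (by decide)
  obtain ⟨u, hu⟩ := isConj_iff.1 (Equiv.Perm.isConj_iff_cycleType_eq.2 ((ct _ hord hsupp).trans hσt.symm))
  let χ : G →* centralizer ({σ} : Set (Equiv.Perm (Fin 9))) :=
    ((MulAut.conj u).toMonoidHom.comp ψ).codRestrict _ fun g => mem_centralizer_singleton_iff.2 (by
      rw [← hu]
      change u * ψ g * u⁻¹ * _ = _ * (u * ψ g * u⁻¹)
      rw [conj_mul, conj_mul, ← map_mul, ← map_mul, hZc z z.2])
  refine ⟨MulEquiv.ofBijective χ ((Nat.bijective_iff_injective_and_card _).2 ⟨fun a b h => ?_, ?_⟩)⟩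
  · exact hψ ((MulAut.conj u).injective (congrArg Subtype.val h))
  · rw [hG, Equiv.Perm.nat_card_centralizer, hσt]
    decide

end Cfsg.Agent.S3376
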