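import Cfsg.Statements.S3389
import Cfsg.Agent.Lib.Recog.Fixity

set_option autoImplicit false
open Cfsg

namespace Cfsg.Agent.S3389

/-- Let G be a finite group acting faithfully and transitively on a finite set Ω with fixity k ≥ 1: every non-identity element fixes at most k points and some non-identity element fixes exactly k points. Then |Z(G)| divides k; if k = 2 then |G| is even; and for every prime p > k dividing |G| and every point α, either p does not divide |G_α| or G_α contains a Sylow p-subgroup of G. -/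
theorem result {G : Type*} [Group G] [Finite G] {Ω : Type*} [Fintype Ω] [MulAction G Ω] [FaithfulSMul G Ω]
    (htr : MulAction.IsPretransitive G Ω) (k : ℕ) (hk : 1 ≤ k)
    (hfix : ∀ g : G, g ≠ 1 → Nat.card (MulAction.fixedBy Ω g) ≤ k) (hex : ∃ g : G, g ≠ 1 ∧ Nat.card (MulAction.fixedBy Ω g) = k) :
    Nat.card (Subgroup.center G) ∣ k ∧ (k = 2 → 2 ∣ Nat.card G) ∧
      ∀ (p : ℕ), p.Prime → k < p → p ∣ Nat.card G → ∀ α : Ω,
        ¬ p ∣ Nat.card (MulAction.stabilizer G α) ∨ ¬ p ∣ (MulAction.stabilizer G α).index := by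
  classical
  refine ⟨?_, ?_, ?_⟩
  · obtain ⟨g, hg1, hg⟩ := hex
    rw [← hg]
    apply CfsgLib.Recog.card_dvd_ncard_of_semiregular _ _ (Set.toFinite _)
    · intro z hz a ha
      exact CfsgLib.Recog.smul_mem_fixedBy_of_commute (Subgroup.mem_center_iff.1 hz g) ha
    · intro z hz a _ h
      exact CfsgLib.Recog.eq_one_of_mem_center_of_smul_eq hz h
  · rintro rfl
    by_contra hodd
    obtain ⟨g0, hg01, hg0⟩ := hex
    have ho : orderOf g0 ≠ 1 := by simpa using hg01
    obtain ⟨p, hp, hpd⟩ := Nat.exists_prime_and_dvd ho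
    have := Fact.mk hp
    have hpG : p ∣ Nat.card G := hpd.trans (orderOf_dvd_natCard g0)
    have hp2 : 2 < p := by
      rcases hp.two_le.lt_or_eq with h | h
      · exact h
      · exact absurd (h ▸ hpG) hodd
    set g := g0 ^ (orderOf g0 / p) with hgdef
    have hgo : orderOf g = p := orderOf_pow_orderOf_div (orderOf_pos g0).ne' hpd
    have hg1 : g ≠ 1 := by
      intro h; rw [h, orderOf_one] at hgo; exact hp.one_lt.ne hgo
    obtain ⟨α, β, hαβ, hs⟩ := Set.ncard_eq_two.1 (show (MulAction.fixedBy Ω g0).ncard = 2 from hg0)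
    have hfix_pow : ∀ a ∈ MulAction.fixedBy Ω g0, g • a = a := fun a ha =>
      (MulAction.stabilizer G a).pow_mem ha _
    have hα : g • α = α := hfix_pow α (by rw [hs]; simp)
    have hβ : g • β = β := hfix_pow β (by rw [hs]; simp)
    have hgs : MulAction.fixedBy Ω g = {α, β} := by
      symm
      apply Set.eq_of_subset_of_ncard_le
      · rintro a (rfl | rfl)
        · exact hα
        · exact hβ
      · rw [Set.ncard_pair hαβ]; exact hfix g hg1
      · exact Set.toFinite _
    have hP : IsPGroup p (Subgroup.zpowers g) :=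
      IsPGroup.of_card (n := 1) (by rw [Nat.card_zpowers, hgo, pow_one])
    obtain ⟨S, hS⟩ := hP.exists_le_sylow
    have hgS : g ∈ (S : Subgroup G) := hS (Subgroup.mem_zpowers g)
    have hfix' : ∀ g : G, g ≠ 1 → Nat.card (MulAction.fixedBy Ω g) < p :=
      fun x hx => (hfix x hx).trans_lt hp2
    have hSα := CfsgLib.Recog.pgroup_le_stabilizer_of_fixity_lt hfix' S S.isPGroup' hgS hg1 hα
    have hSβ := CfsgLib.Recog.pgroup_le_stabilizer_of_fixity_lt hfix' S S.isPGroup' hgS hg1 hβ
    obtain ⟨x, hx⟩ := MulAction.exists_smul_eq G β α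
    have hxS : ((x • S : Sylow p G) : Subgroup G) ≤ MulAction.stabilizer G α := by
      intro y hy
      rw [Sylow.coe_subgroup_smul, Subgroup.mem_smul_pointwise_iff_exists] at hy
      obtain ⟨s, hs, rfl⟩ := hy
      have := hSβ hs
      rw [MulAction.mem_stabilizer_iff] at this ⊢
      rw [← hx, MulAut.smul_def, MulAut.conj_apply, mul_smul, mul_smul, inv_smul_smul, this]
    obtain ⟨y, hy⟩ := MulAction.exists_smul_eq (MulAction.stabilizer G α)
      ((x • S).subtype hxS) (S.subtype hSα)
    rw [Sylow.smul_subtype] at hy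
    have hy2 := Sylow.subtype_injective hy
    have hn : ((y : G) * x) • S = S := by rw [mul_smul]; exact hy2
    set n := (y : G) * x with hndef
    have hnβ : n • β = α := by rw [hndef, mul_smul, hx]; exact y.2
    have hnN : n ∈ Subgroup.normalizer ((S : Subgroup G) : Set G) :=
      Sylow.smul_eq_iff_mem_normalizer.1 hn
    have hnα : n • α = β := by
      have h1 : n⁻¹ * g * n ∈ (S : Subgroup G) := by
        have := (Subgroup.mem_normalizer_iff.1 hnN (n⁻¹ * g * n)).2
        apply this
        simpa [mul_assoc] using hgS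
      have h2 : n • α ∈ MulAction.fixedBy Ω g := by
        have h3 : (n⁻¹ * g * n) • α = α := hSα h1
        rw [MulAction.mem_fixedBy]
        rw [mul_smul, mul_smul, inv_smul_eq_iff] at h3
        exact h3
      rw [hgs] at h2
      rcases h2 with h2 | h2
      · exact absurd (smul_left_cancel n (h2.trans hnβ.symm)) hαβ
      · exact h2
    have hpow : ∀ m : ℕ, n ^ (2 * m + 1) • α = β := by
      intro m
      induction m with
      | zero => simpa using hnα
      | succ m ih =>
        rw [show 2 * (m + 1) + 1 = 2 + (2 * m + 1) by ring, pow_add, mul_smul, ih, pow_two,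
          mul_smul, hnβ, hnα]
    have hodd' : Odd (Nat.card G) := by
      rw [← Nat.not_even_iff_odd, even_iff_two_dvd]; exact hodd
    obtain ⟨m, hm⟩ := hodd'
    have := hpow m
    rw [← hm, pow_card_eq_one', one_smul] at this
    exact hαβ this
  · intro p hp hkp hpG α
    have := Fact.mk hp
    by_cases h : p ∣ Nat.card (MulAction.stabilizer G α)
    · right
      obtain ⟨g, hg⟩ := exists_prime_orderOf_dvd_card' p h
      have hgo : orderOf (g : G) = p := by rw [Subgroup.orderOf_coe, hg]
      have hg1 : (g : G) ≠ 1 := by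
        intro h; rw [h, orderOf_one] at hgo; exact hp.one_lt.ne hgo
      have hP : IsPGroup p (Subgroup.zpowers (g : G)) :=
        IsPGroup.of_card (n := 1) (by rw [Nat.card_zpowers, hgo, pow_one])
      obtain ⟨S, hS⟩ := hP.exists_le_sylow
      have hgS : (g : G) ∈ (S : Subgroup G) := hS (Subgroup.mem_zpowers _)
      have hfix' : ∀ g : G, g ≠ 1 → Nat.card (MulAction.fixedBy Ω g) < p :=
        fun x hx => (hfix x hx).trans_lt hkp
      have hSα := CfsgLib.Recog.pgroup_le_stabilizer_of_fixity_lt hfix' S S.isPGroup' hgS hg1 g.2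
      intro hd
      exact S.not_dvd_index (hd.trans (Subgroup.index_dvd_of_le hSα))
    · exact Or.inl h

end Cfsg.Agent.S3389
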