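import Cfsg.Statements.S3391
import Cfsg.Agent.Lib.Sz.Normalizers

set_option autoImplicit false
open Cfsg

namespace Cfsg.Agent.S3391

open CfsgLib.Sz CfsgLib.Sz.Tits Pointwise

theorem mul_self_mem {G : Type*} [Group G] [Finite G] {K L : Subgroup G} (h : K.relIndex L ≤ 2) {g : G} (hg : g ∈ L) :
    g * g ∈ K := by
  have h0 : K.relIndex L ≠ 0 := Subgroup.index_ne_zero_of_finite
  obtain h1 | h1 : K.relIndex L = 1 ∨ K.relIndex L = 2 := by omega
  · exact Subgroup.relIndex_eq_one.1 h1 (mul_mem hg hg)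
  · exact Subgroup.mul_self_mem_of_index_two h1 ⟨g, hg⟩

theorem relIndex_le {G Ω : Type*} [Group G] [MulAction G Ω] [Finite Ω] (α : Ω) (g : G) (L : Subgroup G)
    (h : ∀ n ∈ L, n⁻¹ * g * n ∈ MulAction.stabilizer G α) :
    (MulAction.stabilizer G α).relIndex L ≤ Nat.card (MulAction.fixedBy Ω g) := by
  change (MulAction.stabilizer L α).index ≤ _
  rw [MulAction.index_stabilizer, Nat.card_coe_set_eq]
  refine Set.ncard_le_ncard ?_
  rintro _ ⟨n, rfl⟩
  have := h n n.2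
  rwa [MulAction.mem_stabilizer_iff, mul_smul, mul_smul, inv_smul_eq_iff] at this

theorem core {F : Type*} [Field F] [Finite F] {τ : Tits F} {m : ℕ} (hm : 1 ≤ m) (hF : Nat.card F = 2 ^ (2 * m + 1))
    {K : Subgroup τ.grp} (hK : K ≠ ⊤) (hK' : K ≠ ⊥)
    (h : ∀ g, g ≠ 1 → ∀ L : Subgroup τ.grp, (∀ n ∈ L, n⁻¹ * g * n ∈ K) → K.relIndex L ≤ 2) :
    (∃ ω : τ.Pt, K = MulAction.stabilizer τ.grp ω) ∨ Nat.card K = Nat.card F - 1 := by
  have ht := exists_ne_zero_one' hm hF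
  rcases Nat.even_or_odd (Nat.card K) with h2 | h2
  · obtain ⟨⟨z, hzK⟩, hz⟩ := exists_prime_orderOf_dvd_card' 2 (even_iff_two_dvd.1 h2)
    rw [Subgroup.orderOf_mk] at hz
    obtain ⟨hz2, hz1⟩ := orderOf_eq_two_iff.1 hz
    obtain ⟨x, rfl⟩ := isConj_iff.1 (isConj_S_zero_one hz2 hz1)
    have hsq : ∀ L : Subgroup τ.grp, (∀ n ∈ L, x * (n⁻¹ * τ.S 0 1 * n) * x⁻¹ ∈ K) → ∀ n ∈ L, x * (n * n) * x⁻¹ ∈ K :=
      fun L hL n hn => by
        rw [← conj_mul]
        refine mul_self_mem (h _ hz1 (MulAut.conj x • L) fun n hn => ?_) (mem_conj_smul.2 (by simpa [mul_assoc] using hn))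
        simpa [mul_assoc] using hL _ (mem_conj_smul.1 hn)
    have hZ : ∀ b, x * τ.S 0 b * x⁻¹ ∈ K := fun b => by
      obtain ⟨a, rfl⟩ := τ.mul_θ_surjective b
      rw [← τ.S_sq a 0]
      refine hsq τ.U (fun n hn => ?_) _ (τ.S_mem_U a 0)
      rwa [mul_assoc n⁻¹, comm_of_mem_Z (τ.S_mem_Z 1) hn, inv_mul_cancel_left]
    have hB : ∀ g ∈ τ.B, g ∉ τ.U → x * g * x⁻¹ ∈ K := fun g hg hU => by
      obtain ⟨u, hu, hH⟩ := exists_conj_mem_H hg hU
      obtain ⟨k, hk⟩ := mem_H.1 hH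
      obtain ⟨l, rfl⟩ := Finite.surjective_of_injective (f := fun l : Fˣ => l * l)
        (fun a b h => Units.ext (τ.sq_inj (by simpa [pow_two] using congrArg Units.val h))) k
      have : g = u * τ.M l * u⁻¹ * (u * τ.M l * u⁻¹) := by rw [conj_mul, M_mul_M, ← hk]; group
      rw [this]
      refine hsq τ.B (fun n hn => ?_) _ (mul_mem (mul_mem (τ.U_le_B hu) (τ.M_mem_B l)) (inv_mem (τ.U_le_B hu)))
      obtain ⟨b, hb⟩ := conj_mem_Z (inv_mem hn) (τ.S_mem_Z 1)
      rw [inv_inv] at hb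
      exact hb ▸ hZ b
    have hU : τ.U ≤ MulAut.conj x⁻¹ • K := by
      rintro _ ⟨a, b, rfl⟩
      obtain ⟨t, ht0, ht1⟩ := ht
      have hk : Units.mk0 t ht0 ≠ 1 := fun h => ht1 (congrArg Units.val h)
      have h1 := hB _ (mul_mem (τ.S_mem_B a b) (τ.M_mem_B (Units.mk0 t ht0))) (SM_mem_U.not.2 hk)
      have h2 := hB _ (mul_mem (τ.S_mem_B 0 0) (τ.M_mem_B (Units.mk0 t ht0))) (SM_mem_U.not.2 hk)
      rw [S_zero, one_mul] at h2
      exact mem_conj_smul.2 (by simpa [mul_assoc] using mul_mem h1 (inv_mem h2))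
    refine Or.inl ⟨x • .inf, ?_⟩
    rw [stabilizer_smul_inf, ← inv_smul_eq_iff, ← map_inv]
    refine le_antisymm ((le_B_or_eq_top ht hU).resolve_right fun h => hK ?_) fun g hg => ?_
    · refine eq_top_iff.2 fun g _ => ?_
      have h1 : x⁻¹ * g * x ∈ MulAut.conj x⁻¹ • K := h ▸ Subgroup.mem_top _
      rwa [mem_conj_smul, show x⁻¹⁻¹ * (x⁻¹ * g * x) * x⁻¹ = g by group] at h1
    · by_cases h : g ∈ τ.U
      · exact hU h
      · exact mem_conj_smul.2 (by simpa using hB g hg h)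
  · obtain ⟨A, hA, hle⟩ := exists_isTorus_le_of_odd hm hF h2 hK'
    obtain ⟨⟨g, hg⟩, h1⟩ := Subgroup.ne_bot_iff_exists_ne_one.1 hK'
    replace h1 : g ≠ 1 := fun h => h1 (Subtype.ext h)
    have hKA : K = A := le_antisymm hle fun a ha => by
      obtain ⟨k, hk⟩ := exists_pow_eq_self_of_coprime (x := a) (n := 2) (Nat.coprime_two_left.2 (hA.odd_orderOf ha))
      rw [← hk, pow_two]
      refine pow_mem (mul_self_mem (h g h1 A fun n hn => ?_) ha) k
      rwa [mul_assoc, hA.selfCent.comm (hle hg) hn, inv_mul_cancel_left]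
    subst hKA
    have h3 := h g h1 (Subgroup.normalizer (K : Set τ.grp)) fun n hn => by
      simpa using (Subgroup.mem_normalizer_iff.1 (inv_mem hn) g).1 hg
    rcases hA.split_or_aniso ht with ⟨x, rfl⟩ | h4
    · exact Or.inr (by rw [card_conj_smul, card_H])
    · rw [(h4.card_eq hm hF).2] at h3
      omega

/-- Let q = 2^{2m+1} ≥ 8 and let G be isomorphic to the Suzuki group Sz(q). If G acts faithfully and transitively on a finite set Ω with fixity 2 (every non-identity element fixes at most two points, and some fixes exactly two), then either |Ω| = q² + 1 and the action is 2-transitive, or |Ω| = q²(q² + 1) and the point stabilizers have order q − 1. -/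
theorem result {G : Type*} [Group G] [Finite G] (F : Type) [Field F] [Fintype F] (m : ℕ) (hm : 1 ≤ m) (hF : Fintype.card F = 2 ^ (2 * m + 1))
    (e : G ≃* ↥(Cfsg.Lie.Sz F (2 ^ (m + 1)))) {Ω : Type*} [Fintype Ω] [MulAction G Ω] [FaithfulSMul G Ω] (htr : MulAction.IsPretransitive G Ω)
    (hfix : ∀ g : G, g ≠ 1 → Nat.card (MulAction.fixedBy Ω g) ≤ 2) (hex : ∃ g : G, g ≠ 1 ∧ Nat.card (MulAction.fixedBy Ω g) = 2) :
    (Fintype.card Ω = Fintype.card F ^ 2 + 1 ∧ MulAction.IsMultiplyPretransitive G Ω 2) ∨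
    (Fintype.card Ω = Fintype.card F ^ 2 * (Fintype.card F ^ 2 + 1) ∧ ∀ α : Ω, Nat.card (MulAction.stabilizer G α) = Fintype.card F - 1) := by
  have hF' : Nat.card F = 2 ^ (2 * m + 1) := by rw [Nat.card_eq_fintype_card, hF]
  have f : (tits hF).grp ≃* G := (lieSzEquiv hF).trans e.symm
  generalize tits hF = τ at f
  let _ : MulAction τ.grp Ω := MulAction.compHom Ω f.toMonoidHom
  have hs : ∀ (g : τ.grp) (α : Ω), g • α = f g • α := fun _ _ => rfl
  have htr' : MulAction.IsPretransitive τ.grp Ω := ⟨fun a b => by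
    obtain ⟨g, hg⟩ := htr.exists_smul_eq a b
    exact ⟨f.symm g, by rw [hs, f.apply_symm_apply, hg]⟩⟩
  obtain ⟨g, hg1, hg⟩ := hex
  obtain ⟨α, β, hab, -⟩ := Nat.card_eq_two_iff.1 hg
  have hcard : ∀ γ : Ω, Nat.card (MulAction.stabilizer G γ) = Nat.card (MulAction.stabilizer τ.grp γ) := fun γ =>
    (Nat.card_congr (f.toEquiv.subtypeEquiv fun _ => Iff.rfl)).symm
  have hidx : ∀ γ : Ω, (MulAction.stabilizer τ.grp γ).index = Fintype.card Ω := fun γ => by
    rw [MulAction.index_stabilizer_of_transitive, Nat.card_eq_fintype_card]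
  rw [← Nat.card_eq_fintype_card (α := F)]
  rcases core hm hF' (K := MulAction.stabilizer τ.grp (α : Ω)) (fun h => by
      obtain ⟨x, hx⟩ := htr'.exists_smul_eq (α : Ω) β
      have h1 : x ∈ MulAction.stabilizer τ.grp (α : Ω) := h ▸ Subgroup.mem_top x
      exact hab (Subtype.ext ((MulAction.mem_stabilizer_iff.1 h1).symm.trans hx)))
    (Subgroup.ne_bot_iff_exists_ne_one.2 ⟨⟨f.symm g, by
      rw [MulAction.mem_stabilizer_iff, hs, f.apply_symm_apply]; exact α.2⟩,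
      fun h => hg1 (by simpa using congrArg Subtype.val h)⟩)
    (fun x hx L hL => (relIndex_le _ x L hL).trans (hfix (f x) (by simpa using hx))) with ⟨ω, h⟩ | h
  · refine Or.inl ⟨by rw [← hidx α, h, index_stabilizer], MulAction.is_two_pretransitive_iff.2 fun {a b c d} h1 h2 => ?_⟩
    have key : ∀ x y : τ.grp, x • (α : Ω) = y • (α : Ω) ↔ x • ω = y • ω := fun x y => by
      rw [← inv_smul_eq_iff, ← mul_smul, ← MulAction.mem_stabilizer_iff, h, MulAction.mem_stabilizer_iff, mul_smul,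
        inv_smul_eq_iff]
    obtain ⟨a, rfl⟩ := htr'.exists_smul_eq (α : Ω) a
    obtain ⟨b, rfl⟩ := htr'.exists_smul_eq (α : Ω) b
    obtain ⟨c, rfl⟩ := htr'.exists_smul_eq (α : Ω) c
    obtain ⟨d, rfl⟩ := htr'.exists_smul_eq (α : Ω) d
    rw [Ne, key] at h1 h2
    obtain ⟨x, e1, e2⟩ := two_transitive h1 h2
    exact ⟨f x, by rw [← hs, ← mul_smul, key, mul_smul, e1], by rw [← hs, ← mul_smul, key, mul_smul, e2]⟩
  · have hΩ : Fintype.card Ω = Nat.card F ^ 2 * (Nat.card F ^ 2 + 1) := by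
      have := (MulAction.stabilizer τ.grp (α : Ω)).card_mul_index
      rw [h, hidx, card_grp, mul_comm] at this
      exact Nat.eq_of_mul_eq_mul_right (Nat.sub_pos_of_lt Finite.one_lt_card) this
    refine Or.inr ⟨hΩ, fun γ => ?_⟩
    have := (MulAction.stabilizer τ.grp γ).card_mul_index
    rw [hidx, hΩ, card_grp, mul_comm] at this
    rw [hcard]
    exact Nat.eq_of_mul_eq_mul_left (Nat.mul_pos (pow_pos Nat.card_pos 2) (Nat.succ_pos _)) this

end Cfsg.Agent.S3391
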