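import Cfsg.Statements.S3399
import Cfsg.Agent.Lib.Prae.Main

set_option autoImplicit false
open Cfsg

namespace Cfsg.Agent.S3399

/-- Let G be a transitive permutation group of finite degree n and K a nontrivial subgroup of G that is pronormal in G (K and gKg⁻¹ are conjugate inside ⟨K, gKg⁻¹⟩ for every g ∈ G). If K fixes exactly f points, then f ≤ (n − 1)/2, that is, 2f + 1 ≤ n. -/
theorem result (n : ℕ) (G : Subgroup (Equiv.Perm (Fin n)))
    (htrans : ∀ a b : Fin n, ∃ g ∈ G, g a = b)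
    (K : Subgroup (Equiv.Perm (Fin n))) (hKG : K ≤ G) (hK : K ≠ ⊥)
    (hpro : ∀ g ∈ G, ∃ w ∈ K ⊔ K.map (MulAut.conj g).toMonoidHom,
      K.map (MulAut.conj w).toMonoidHom = K.map (MulAut.conj g).toMonoidHom) :
    2 * Nat.card {a : Fin n // ∀ k ∈ K, k a = a} + 1 ≤ n := by
  have pr : CfsgLib.Prae.PrIn K G := fun g hg => by
    obtain ⟨w, h1, h2⟩ := hpro g hg
    refine ⟨w, fun L h3 h4 => sup_le h3 (by rintro _ ⟨k, hk, rfl⟩; exact h4 k hk) h1, fun x => ?_⟩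
    have := SetLike.ext_iff.1 h2 x
    rwa [Subgroup.mem_map_equiv, Subgroup.mem_map_equiv] at this
  obtain ⟨⟨k, hk⟩, h1⟩ := Subgroup.ne_bot_iff_exists_ne_one.1 hK
  obtain ⟨x, hx⟩ : ∃ x, k x ≠ x := by_contra fun e => h1 (Subtype.ext (Equiv.ext (by simpa using e)))
  have e : CfsgLib.Prae.Or (⊤ : Subgroup G) x = Set.univ := Set.eq_univ_of_forall fun y => by
    obtain ⟨g, hg, e⟩ := htrans x y
    exact ⟨⟨g, hg⟩, trivial, e⟩
  have := (CfsgLib.Prae.main _ G _ (pr.sub hKG) (Fin n) ⊤ x le_top (Nat.lt_succ_self _)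
    fun h => hx (h (CfsgLib.Prae.self_mem_Or x) ⟨k, hKG hk⟩ hk)).1
  rw [e, Set.univ_inter, Set.ncard_univ, Nat.card_eq_fintype_card, Fintype.card_fin, ← Nat.card_coe_set_eq] at this
  rwa [Nat.card_congr (Equiv.subtypeEquivRight fun a => (⟨fun h k hk => h k hk, fun h k hk => h ⟨k, hKG hk⟩ hk⟩ :
    (∀ k ∈ K, k a = a) ↔ a ∈ CfsgLib.Prae.Fx (K.subgroupOf G) (Fin n)))]

end Cfsg.Agent.S3399
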