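import Cfsg.Statements.S3430
import Cfsg.Agent.Lib.Spec.Zsig

set_option autoImplicit false
open Cfsg

namespace Cfsg.Agent.S3430

/-- Let q, n ≥ 2 be integers. Unless (n = 2 and q + 1 = 2^s·3^t for some s ≥ 0 and t ≤ 1), or (q = 2 and n ∈ {4, 6, 10, 12, 18}), or (q = 3 and n ∈ {4, 6}), or (q, n) = (5, 6), there is a prime p dividing q^n − 1 but no q^i − 1 with 1 ≤ i < n (a primitive prime divisor), such that p > n + 1 or p² divides q^n − 1. -/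
theorem result (q n : ℕ) (hq : 2 ≤ q) (hn : 2 ≤ n)
    (h1 : ¬ (n = 2 ∧ ∃ s t : ℕ, t ≤ 1 ∧ q + 1 = 2 ^ s * 3 ^ t))
    (h2 : ¬ (q = 2 ∧ (n = 4 ∨ n = 6 ∨ n = 10 ∨ n = 12 ∨ n = 18)))
    (h3 : ¬ (q = 3 ∧ (n = 4 ∨ n = 6))) (h4 : ¬ (q = 5 ∧ n = 6)) :
    ∃ p : ℕ, p.Prime ∧ p ∣ q ^ n - 1 ∧ (∀ i : ℕ, 1 ≤ i → i < n → ¬ p ∣ q ^ i - 1) ∧ (n + 1 < p ∨ p ^ 2 ∣ q ^ n - 1) := by
  by_cases hn2 : n = 2
  · subst hn2
    have hsq : q + 1 ∣ q ^ 2 - 1 := ⟨q - 1, by simpa using Nat.sq_sub_sq q 1⟩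
    have key : ∀ p, 2 < p → p ∣ q + 1 → ∀ i : ℕ, 1 ≤ i → i < 2 → ¬ p ∣ q ^ i - 1 := by
      intro p hp h i hi hi'
      rw [show i = 1 by omega, pow_one]
      exact CfsgLib.Spec.not_dvd_sub_one_of_dvd_add_one (by omega) hp h
    by_contra hcon
    obtain ⟨t, m, hm, hqm⟩ := Nat.exists_eq_pow_mul_and_not_dvd (show q + 1 ≠ 0 by omega) 3 (by norm_num)
    have hm0 : m ≠ 0 := by rintro rfl; simp at hm
    have h5 : m = 2 ^ m.primeFactorsList.length := by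
      refine Nat.eq_prime_pow_of_unique_prime_dvd hm0 fun {d} hd hd' => ?_
      by_contra h6
      have h7 : d ≠ 3 := by rintro rfl; exact hm hd'
      have h8 : d ∣ q + 1 := hqm ▸ hd'.mul_left _
      have := hd.two_le
      exact hcon ⟨d, hd, h8.trans hsq, key d (by omega) h8, Or.inl (by omega)⟩
    refine h1 ⟨rfl, _, t, ?_, by rw [hqm, mul_comm, ← h5]⟩
    by_contra h6
    have h7 : 3 ^ 2 ∣ q + 1 := hqm ▸ (pow_dvd_pow 3 (by omega)).mul_right _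
    exact hcon ⟨3, Nat.prime_three, (Dvd.intro 3 rfl).trans (h7.trans hsq), key 3 (by norm_num)
      ((Dvd.intro 3 rfl).trans h7), Or.inr (h7.trans hsq)⟩
  · exact CfsgLib.Spec.exists_large_zsig hq (by omega) h2 h3 h4

end Cfsg.Agent.S3430
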