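import Cfsg.Statements.S3493
import Cfsg.Agent.Lib.Perm.MultiTransDiag
import Cfsg.Agent.Lib.Perm.MultiTransBurnside
import Cfsg.Agent.Lib.Recog.ExtPrim
import Cfsg.Agent.S0707

set_option autoImplicit false
open Cfsg

namespace Cfsg.Agent.S3493

open MulAction Subgroup CfsgLib CfsgLib.Perm

variable {G : Type*} [Group G] {Ω : Type*} [MulAction G Ω]

theorem pow_smul_eq {x y : G} {a : Ω} (hc : Commute y x) (h : y • a = x • a) (i : ℕ) :
    y ^ i • a = x ^ i • a := by
  induction i with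
  | zero => simp
  | succ i ih =>
    rw [pow_succ, mul_smul, h, ← mul_smul, (hc.pow_left i).eq, mul_smul, ih, pow_succ', mul_smul]

theorem isCoatom_stab [Finite G] [FaithfulSMul G Ω] [IsPreprimitive G Ω] {a : Ω}
    (hep : ∀ ω : Ω, IsPreprimitive (stabilizer G a) (orbit (stabilizer G a) ω))
    (hH : stabilizer G a ≠ ⊥) {b : Ω} (hb : b ≠ a) :
    IsCoatom (stabilizer (stabilizer G a) b) := by
  obtain ⟨h, hh, hhb⟩ := SetLike.not_le_iff_exists.1 fun h => hb (Recog.eq_of_stabilizer_le hH h)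
  have : Nontrivial (orbit (stabilizer G a) b) :=
    ⟨⟨_, mem_orbit b (⟨h, hh⟩ : stabilizer G a)⟩, ⟨b, mem_orbit_self b⟩,
      fun e => hhb (congrArg Subtype.val e)⟩
  have h1 := hep b
  have h2 := IsPreprimitive.isCoatom_stabilizer_of_isPreprimitive (stabilizer G a)
    (⟨b, mem_orbit_self b⟩ : orbit (stabilizer G a) b)
  convert h2 using 1
  ext g
  simp [Subtype.ext_iff]

theorem false_of_two_regular [Finite G] [FaithfulSMul G Ω] [IsPreprimitive G Ω] {a : Ω}
    (hep : ∀ ω : Ω, IsPreprimitive (stabilizer G a) (orbit (stabilizer G a) ω))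
    (T L : Subgroup G) [hL : L.Normal] [IsSimpleGroup T] (hT : ¬ IsMulCommutative T)
    (hTL : T ≤ L) (hLT : L ≤ T ⊔ centralizer (T : Set G)) (hTt : ∀ b, ∃ t ∈ T, t • a = b)
    (hCt : ∀ b, ∃ c ∈ L, c ∈ centralizer (T : Set G) ∧ c • a = b)
    (hconj : ∀ g : G, ∀ t ∈ T, g * t * g⁻¹ ∈ T ∨ g * t * g⁻¹ ∈ centralizer (T : Set G)) :
    False := by
  have hTreg : ∀ t ∈ T, t • a = a → t = 1 := fun t ht => eq_one_of_commute_of_fix fun b => by
    obtain ⟨c, -, hc, h⟩ := hCt b
    exact ⟨c, mem_centralizer_iff.1 hc t ht, h⟩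
  have hTinj : ∀ t ∈ T, ∀ s ∈ T, t • a = s • a → t = s := fun t ht s hs h =>
    (inv_mul_eq_one.1 (hTreg _ (mul_mem (inv_mem hs) ht) (by
      rw [mul_smul, h, inv_smul_smul]))).symm
  have hCreg : ∀ c ∈ centralizer (T : Set G), c • a = a → c = 1 := fun c hc =>
    eq_one_of_commute_of_fix fun b => by
      obtain ⟨t, ht, h⟩ := hTt b
      exact ⟨t, (mem_centralizer_iff.1 hc t ht).symm, h⟩
  have hZ : ∀ t ∈ T, t ∈ centralizer (T : Set G) → t = 1 := by
    intro t ht htc
    rcases (inferInstance : (center T).Normal).eq_bot_or_eq_top with h1 | h1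
    · have : (⟨t, ht⟩ : T) ∈ center T :=
        mem_center_iff.2 fun s => Subtype.ext (mem_centralizer_iff.1 htc s s.2)
      rw [h1, mem_bot] at this
      exact congrArg Subtype.val this
    · exact absurd ⟨⟨fun a b => mem_center_iff.1 (h1 ▸ mem_top b : b ∈ center T) a⟩⟩ hT
  have hdec : ∀ d : L.subgroupOf (stabilizer G a), ∃ t : T,
      (t : G)⁻¹ * d.1 ∈ centralizer (T : Set G) := by
    intro d
    have h1 : (d.1 : G) ∈ ((T ⊔ centralizer (T : Set G) : Subgroup G) : Set G) := hLT d.2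
    rw [coe_mul_of_left_le_normalizer_right _ _ (le_normalizer.trans
      (Core.normalizer_le_normalizer_centralizer (T : Set G)))] at h1
    obtain ⟨t, ht, c, hc, h⟩ := h1
    exact ⟨⟨t, ht⟩, by rw [← h]; simpa using hc⟩
  choose π hπ using hdec
  have huniq : ∀ d (t : T), (t : G)⁻¹ * d.1 ∈ centralizer (T : Set G) → π d = t := by
    intro d t h
    have := hZ _ (mul_mem (inv_mem t.2) (π d).2) (by
      simpa [mul_assoc] using mul_mem h (inv_mem (hπ d)))
    exact Subtype.ext (inv_mul_eq_one.1 this).symm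
  let φ : L.subgroupOf (stabilizer G a) →* T := MonoidHom.mk' π fun d e => huniq _ _ (by
    have h1 := mul_mem (hπ d) (hπ e)
    rw [← mul_assoc, ← mem_centralizer_iff.1 (hπ d) _ (inv_mem (π e).2)] at h1
    simpa [mul_assoc] using h1)
  have hφ : ∀ d, φ d = π d := fun _ => rfl
  have hinj : Function.Injective φ := (injective_iff_map_eq_one φ).2 fun d hd => by
    have := hπ d
    rw [← hφ, hd] at this
    exact Subtype.ext (Subtype.ext (hCreg _ (by simpa using this) d.1.2))
  have hsurj : Function.Surjective φ := fun t => by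
    obtain ⟨c, hcL, hc, h⟩ := hCt ((t : G)⁻¹ • a)
    exact ⟨⟨⟨t * c, by rw [mem_stabilizer_iff, mul_smul, h, smul_inv_smul]⟩,
      mul_mem (hTL t.2) hcL⟩, huniq _ _ (by simpa using hc)⟩
  let e := MulEquiv.ofBijective φ ⟨hinj, hsurj⟩
  have hs : IsSimpleGroup (L.subgroupOf (stabilizer G a)) := e.isSimpleGroup
  have hH : stabilizer G a ≠ ⊥ := fun h => by
    obtain ⟨d, hd⟩ := exists_ne (1 : L.subgroupOf (stabilizer G a))
    exact hd (Subtype.ext (Subtype.ext (mem_bot.1 (h ▸ d.1.2))))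
  have hact : ∀ (d : L.subgroupOf (stabilizer G a)) (t : T),
      (d.1 : G) • (t : G) • a = ((φ d * t * (φ d)⁻¹ : T) : G) • a := by
    intro d t
    have h1 := mem_centralizer_iff.1 (hπ d) t t.2
    have h2 : (d.1 : G) * t = (φ d * t * (φ d)⁻¹ : T) * d.1 := by
      rw [coe_mul, coe_mul, mul_assoc, mul_assoc, hφ, coe_inv, h1]; group
    rw [← mul_smul, h2, mul_smul, show (d.1 : G) • a = a from d.1.2]
  refine false_of_diag (L.subgroupOf (stabilizer G a))
    (fun h => hT ⟨⟨fun x y => ?_⟩⟩) (fun x => stabilizer (stabilizer G a) ((φ x : G) • a))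
    (fun x hx => isCoatom_stab hep hH fun h => hx (hinj ?_)) (fun x k h hh => ?_)
    (fun x d => ?_) fun d x h => ?_
  · obtain ⟨x, rfl⟩ := hsurj x
    obtain ⟨y, rfl⟩ := hsurj y
    rw [← map_mul, ← map_mul, mul_comm']
  · rw [map_one]
    exact Subtype.ext (hTreg _ (φ x).2 h)
  · have hha : (h : G)⁻¹ • a = a := inv_mem h.2
    have h1 : ((h : G) * φ x * (h : G)⁻¹) • a = (φ x : G) • a := by
      rw [mul_smul, mul_smul, hha]; exact hh
    have h2 : Commute ((h : G) * φ x * (h : G)⁻¹) (φ x) := by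
      rcases hconj h _ (φ x).2 with h3 | h3
      · rw [hTinj _ h3 _ (φ x).2 h1]
      · exact (mem_centralizer_iff.1 h3 _ (φ x).2).symm
    have h3 := pow_smul_eq h2 h1 k
    rw [conj_pow, mul_smul, mul_smul, hha] at h3
    rw [map_pow]
    exact h3
  · rw [mem_stabilizer_iff, Subgroup.smul_def, hact]
    constructor
    · intro h
      have := Subtype.ext (hTinj _ (SetLike.coe_mem _) _ (φ x).2 h)
      rw [mul_inv_eq_iff_eq_mul, ← map_mul, ← map_mul] at this
      exact hinj this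
    · intro h
      rw [(h.map φ).eq, mul_inv_cancel_right]
  · rw [mem_stabilizer_iff, mem_stabilizer_iff, map_mul, map_mul, map_inv, ← hact, mul_smul,
      mul_smul, inv_smul_eq_iff]
    rfl

theorem eq_top_of_forall_orderOf {T : Type*} [Group T] [Finite T] [IsSimpleGroup T] {r : ℕ}
    (hr : r.Prime) (hd : r ∣ Nat.card T) (K : Subgroup T) (h : ∀ x, orderOf x = r → x ∈ K) :
    K = ⊤ := by
  have := Fact.mk hr
  obtain ⟨x, hx⟩ := exists_prime_orderOf_dvd_card' r hd
  rcases K.normalCore_normal.eq_bot_or_eq_top with h1 | h1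
  · have : x ∈ K.normalCore := fun g => h _ (by
      rw [← hx]; exact (MulAut.conj g).orderOf_eq x)
    rw [h1, mem_bot] at this
    rw [this, orderOf_one] at hx
    exact absurd hx hr.one_lt.ne
  · exact eq_top_iff.2 (h1 ▸ K.normalCore_le)

theorem false_of_regular [Finite G] [FaithfulSMul G Ω] [IsPreprimitive G Ω] {a : Ω}
    (hep : ∀ ω : Ω, IsPreprimitive (stabilizer G a) (orbit (stabilizer G a) ω))
    (hH : stabilizer G a ≠ ⊥) (N T : Subgroup G) [hN : N.Normal] (hNs : ¬ Group.IsNilpotent N)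
    [IsSimpleGroup T] (hT : ¬ IsMulCommutative T) (hTN : T ≤ N)
    (hNt : ∀ b, ∃ n ∈ N, n • a = b) (hreg : ∀ n ∈ N, n • a = a → n = 1)
    (h2 : ∀ g : G, T.map (MulAut.conj g).toMonoidHom = T ∨
      T.map (MulAut.conj g).toMonoidHom ≤ centralizer (T : Set G))
    (h3 : ∀ K : Subgroup G, (∀ g : G, T.map (MulAut.conj g).toMonoidHom ≤ K) → N ≤ K)
    (g₀ : G) (hg₀ : T.map (MulAut.conj g₀).toMonoidHom ≤ centralizer (T : Set G)) : False := by
  set M : G → Subgroup (stabilizer G a) := fun x => stabilizer (stabilizer G a) (x • a) with hM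
  have hmem : ∀ x ∈ N, ∀ h : stabilizer G a, h ∈ M x ↔ Commute (h : G) x := by
    intro x hx h
    have hha : (h : G) • a = a := h.2
    constructor
    · intro hh
      have := hreg _ (mul_mem (inv_mem hx) (hN.conj_mem x hx h)) (by
        rw [mul_smul, mul_smul, mul_smul, inv_smul_eq_iff.2 hha.symm, inv_smul_eq_iff]
        exact hh)
      exact mul_inv_eq_iff_eq_mul.1 (inv_mul_eq_one.1 this).symm
    · intro hh
      change (h : G) • x • a = x • a
      rw [← mul_smul, hh.eq, mul_smul, hha]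
  have hco : ∀ x ∈ N, x ≠ 1 → IsCoatom (M x) := fun x hx hx1 =>
    isCoatom_stab hep hH fun h => hx1 (hreg x hx h)
  have hcop : ∀ u ∈ N, ∀ v ∈ N, ∀ p q : ℕ, p.Prime → q.Prime → p ≠ q → orderOf u = p →
      orderOf v = q → Commute u v → M u = M v := fun u hu v hv p q hp hq hpq hup hvq hc =>
    eq_of_commute_of_coprime N M hco (fun x hx k => ⟨pow_mem hx k, fun h hh =>
      (hmem _ (pow_mem hx k) h).2 (((hmem x hx h).1 hh).pow_right k)⟩) hu hv (mul_mem hu hv)
      (by rintro rfl; exact hp.one_lt.ne (by rw [← hup, orderOf_one]))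
      (by rintro rfl; exact hq.one_lt.ne (by rw [← hvq, orderOf_one])) hc
      (by rw [hup, hvq]; exact (Nat.coprime_primes hp hq).2 hpq)
  obtain ⟨p, hp, -, hpd⟩ := exists_prime_ne_dvd_card
    (@not_isPGroup_of_isSimpleGroup T _ _ _ hT 2 ⟨Nat.prime_two⟩)
  obtain ⟨q, hq, hqp, hqd⟩ := exists_prime_ne_dvd_card
    (@not_isPGroup_of_isSimpleGroup T _ _ _ hT p ⟨hp⟩)
  obtain ⟨x₀, hx₀, hx₀p⟩ := Core.exists_mem_orderOf_eq_of_dvd_card hp hpd
  obtain ⟨y₀, hy₀, hy₀q⟩ := Core.exists_mem_orderOf_eq_of_dvd_card hq hqd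
  have hord : ∀ g t : G, orderOf (g * t * g⁻¹) = orderOf t := fun g t =>
    (MulAut.conj g).orderOf_eq t
  have hA : ∀ x ∈ T, orderOf x = p → ∀ g : G,
      T.map (MulAut.conj g).toMonoidHom ≤ centralizer (T : Set G) → ∀ y ∈ T, orderOf y = q →
        M x = M (g * y * g⁻¹) := fun x hx hxp g hg y hy hyq =>
    hcop x (hTN hx) _ (hN.conj_mem y (hTN hy) g) p q hp hq hqp.symm hxp (by rw [hord, hyq])
      (mem_centralizer_iff.1 (hg ⟨y, hy, rfl⟩) x hx)
  have hbot : M x₀ = ⊥ := by
    rw [eq_bot_iff]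
    intro m hm
    have hle : N ≤ centralizer {(m : G)} := h3 _ fun g => by
      have key : ∀ r : ℕ, r.Prime → r ∣ Nat.card T → (∀ t ∈ T, orderOf t = r →
          M (g * t * g⁻¹) = M x₀) → T.map (MulAut.conj g).toMonoidHom ≤ centralizer {(m : G)} := by
        rintro r hr hrd h _ ⟨t, ht, rfl⟩
        have := eq_top_of_forall_orderOf hr hrd ((centralizer {(m : G)}).comap
          ((MulAut.conj g).toMonoidHom.comp T.subtype)) fun x hx =>
            mem_centralizer_singleton_iff.2 ((hmem _ (hN.conj_mem _ (hTN x.2) g) m).1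
              (h x x.2 (by rw [orderOf_coe, hx]) ▸ hm)).symm
        exact (this ▸ mem_top (⟨t, ht⟩ : T) : (⟨t, ht⟩ : T) ∈ comap _ _)
      rcases h2 g with h | h
      · refine key p hp hpd fun t ht htp => ?_
        rw [hA x₀ hx₀ hx₀p g₀ hg₀ y₀ hy₀ hy₀q,
          hA _ (h ▸ ⟨t, ht, rfl⟩ : g * t * g⁻¹ ∈ T) (by rw [hord, htp]) g₀ hg₀ y₀ hy₀ hy₀q]
      · exact key q hq hqd fun t ht htq => (hA x₀ hx₀ hx₀p g h t ht htq).symm
    refine Subtype.ext (eq_one_of_commute_of_fix (fun b => ?_) m.2)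
    obtain ⟨n, hn, h⟩ := hNt b
    exact ⟨n, (mem_centralizer_singleton_iff.1 (hle hn)).symm, h⟩
  have hc := hco x₀ (hTN hx₀) (by rintro rfl; exact hp.one_lt.ne (by rw [← hx₀p, orderOf_one]))
  rw [hbot] at hc
  have hnt := (nontrivial_iff_ne_bot _).2 hH
  obtain ⟨h, hh⟩ := exists_ne (1 : stabilizer G a)
  refine hNs (Frob.isNilpotent_of_fpf (a := h) (le_normalizer_of_normal (mem_top _)) ?_
    (Cfsg.Agent.S0707.prime_card_of_isCoatom_bot hc) ?_)
  · rw [eq_bot_iff]
    rintro x ⟨hx, hxc⟩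
    by_contra hx1
    have h1 := (hmem x hx h).2 (mem_centralizer_singleton_iff.1 hxc).symm
    exact (hco x hx hx1).1 (hc.2 _ (bot_lt_iff_ne_bot.2 fun e => hh (mem_bot.1 (e ▸ h1))))
  · rw [← coe_pow, pow_card_eq_one']
    exact one_mem _


/-- An extremely primitive permutation group is of affine type or almost simple. Let a finite group G act faithfully and primitively on a finite set Ω with at least two points, in such a way that every point stabilizer acts primitively on each of its own orbits in Ω (an orbit of size one counts as primitive). Then either G has a non-trivial abelian normal subgroup whose elements other than the identity fix no point (affine type), or G has a non-abelian simple normal subgroup with trivial centralizer (almost simple). -/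
theorem result {G : Type*} [Group G] [Finite G] {Ω : Type*} [Fintype Ω] [MulAction G Ω] [FaithfulSMul G Ω] (hΩ : 2 ≤ Fintype.card Ω) (hprim : MulAction.IsPreprimitive G Ω) (hep : ∀ (α : Ω) (ω : Ω), MulAction.IsPreprimitive (MulAction.stabilizer G α) (MulAction.orbit (MulAction.stabilizer G α) ω)) :
    (∃ N : Subgroup G, N.Normal ∧ N ≠ ⊥ ∧ IsMulCommutative N ∧ ∀ ω : Ω, MulAction.stabilizer N ω = ⊥) ∨ (∃ T : Subgroup G, T.Normal ∧ IsSimpleGroup T ∧ ¬ IsMulCommutative T ∧ Subgroup.centralizer (T : Set G) = ⊥) := by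
  classical
  by_contra hcon
  push Not at hcon
  obtain ⟨hc1, hc2⟩ := hcon
  have hntΩ : Nontrivial Ω := Fintype.one_lt_card_iff_nontrivial.1 hΩ
  obtain ⟨a, b₀, hab⟩ := exists_pair_ne Ω
  have hnt : Nontrivial G := by
    obtain ⟨g, hg⟩ := exists_smul_eq G a b₀
    exact ⟨g, 1, fun h => hab (by rw [← hg, h, one_smul])⟩
  have htr : ∀ K : Subgroup G, K.Normal → K ≠ ⊥ → ∀ x y : Ω, ∃ k ∈ K, k • x = y := by
    intro K hK hK0 x y
    have : IsPretransitive K Ω := by
      apply IsQuasiPreprimitive.isPretransitive_of_normal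
      intro h
      have hx : x ∈ fixedPoints K Ω := by rw [h]; trivial
      exact hK0 (Recog.eq_bot_of_normal_le_stabilizer (α := x) fun k hk => hx ⟨k, hk⟩)
    obtain ⟨k, hk⟩ := exists_smul_eq K x y
    exact ⟨k, k.2, hk⟩
  obtain ⟨N, hN, hN0, -, hmin⟩ := Core.exists_minimal_normal_le (K := (⊤ : Subgroup G)) top_ne_bot
  have hna : ¬ IsMulCommutative N := fun hc => by
    obtain ⟨ω, hω⟩ := hc1 N hN hN0 hc
    refine hω (eq_bot_iff.2 fun n hn => Subtype.ext (eq_one_of_commute_of_fix (fun b => ?_) hn))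
    obtain ⟨m, hm, h⟩ := htr N hN hN0 ω b
    exact ⟨m, congrArg Subtype.val (mul_comm' n ⟨m, hm⟩), h⟩
  obtain ⟨T, hTN, hNT, hTs, hTc, h2, h3⟩ := exists_simple_factor N hN0 hmin hna
  have hT0 : T ≠ ⊥ := (nontrivial_iff_ne_bot T).1 inferInstance
  have hconj : ∀ g : G, ∀ t ∈ T, g * t * g⁻¹ ∈ T ∨ g * t * g⁻¹ ∈ centralizer (T : Set G) :=
    fun g t ht => (h2 g).imp (fun h => h.le ⟨t, ht, rfl⟩) fun h => h ⟨t, ht, rfl⟩
  by_cases hTn : T.Normal
  · refine false_of_two_regular (hep a) T (T ⊔ centralizer (T : Set G)) hTc le_sup_left le_rfl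
      (htr T hTn hT0 a) (fun b => ?_) hconj
    obtain ⟨c, hc, h⟩ := htr _ inferInstance (hc2 T hTn hTs hTc) a b
    exact ⟨c, mem_sup_right hc, hc, h⟩
  obtain ⟨g₀, hg₀⟩ : ∃ g₀ : G, T.map (MulAut.conj g₀).toMonoidHom ≤ centralizer (T : Set G) := by
    by_contra hall
    push Not at hall
    exact hTn ⟨fun t ht g => ((h2 g).resolve_right (hall g)).le ⟨t, ht, rfl⟩⟩
  have hco := IsPreprimitive.isCoatom_stabilizer_of_isPreprimitive G a
  by_cases hK : N ⊓ stabilizer G a = ⊥
  · refine false_of_regular (hep a) (fun h => hTn ⟨fun t ht g => ?_⟩) N T (fun h => hna ?_) hTc hTN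
      (htr N hN hN0 a) (fun n hn h => mem_bot.1 (hK ▸ ⟨hn, h⟩)) h2 h3 g₀ hg₀
    · obtain ⟨n, hn, h1⟩ := htr N hN hN0 a (g • a)
      have : n⁻¹ * g ∈ stabilizer G a := by
        rw [mem_stabilizer_iff, mul_smul, ← h1, inv_smul_smul]
      rw [h, mem_bot, inv_mul_eq_one] at this
      exact (mem_normalizer_iff.1 (hNT (this ▸ hn)) t).1 ht
    · obtain ⟨p, -, h⟩ := Core.isElementaryAbelian_of_minimal_normal hN0 hmin
      exact h.1
  have horb := Recog.manning_orbit_eq (hep a) hK inf_le_right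
    ((le_inf le_normalizer_of_normal le_normalizer).trans inf_normalizer_le_normalizer_inf)
  have hTH : ¬ T ≤ stabilizer G a := fun h => by
    refine hN0 (Recog.eq_bot_of_normal_le_stabilizer (α := a) (h3 _ fun g => ?_))
    rintro _ ⟨t, ht, rfl⟩
    obtain ⟨n, hn, h1⟩ := htr N hN hN0 (g⁻¹ • a) a
    have h4 := h ((mem_normalizer_iff.1 (hNT hn) t).1 ht)
    rw [mem_stabilizer_iff, ← h1, mul_smul, inv_smul_smul, mul_smul, smul_left_cancel_iff] at h4
    change (g * t * g⁻¹) • a = a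
    rw [mul_smul, mul_smul, h4, smul_inv_smul]
  have hTt : ∀ b, ∃ t ∈ T, t • a = b := by
    have h4 : T ⊔ stabilizer G a = ⊤ := hco.2 _ (right_lt_sup.2 hTH)
    have h5 : ∀ g : G, ∀ t ∈ T, ∃ s ∈ T, s • a = g • t • a := by
      intro g
      have hg : g ∈ Subgroup.closure ((T : Set G) ∪ stabilizer G a) := by
        rw [Subgroup.closure_union, closure_eq, closure_eq, h4]; exact mem_top g
      have key : ∀ x ∈ (T : Set G) ∪ stabilizer G a, ∀ t ∈ T, ∃ s ∈ T, s • a = x • t • a := by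
        rintro x (hx | hx) t ht
        · exact ⟨x * t, mul_mem hx ht, mul_smul _ _ _⟩
        · have h6 : x • t • a ∈ orbit (N ⊓ stabilizer G a : Subgroup G) (t • a) := by
            rw [horb]; exact mem_orbit _ (⟨x, hx⟩ : stabilizer G a)
          obtain ⟨⟨k, hk⟩, h7⟩ := h6
          refine ⟨k * t * k⁻¹, (mem_normalizer_iff.1 (hNT hk.1) t).1 ht, ?_⟩
          rw [mul_smul, mul_smul, show k⁻¹ • a = a from (stabilizer G a).inv_mem hk.2]
          exact h7
      induction hg using closure_induction_left with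
      | one => exact fun t ht => ⟨t, ht, (one_smul _ _).symm⟩
      | mul_left x hx y _ ih =>
        intro t ht
        obtain ⟨s, hs, h6⟩ := ih t ht
        rw [mul_smul, ← h6]
        exact key x hx s hs
      | inv_mul_cancel x hx y _ ih =>
        intro t ht
        obtain ⟨s, hs, h6⟩ := ih t ht
        rw [mul_smul, ← h6]
        exact key x⁻¹ (hx.imp (fun h => inv_mem h) fun h => inv_mem h) s hs
    intro b
    obtain ⟨g, rfl⟩ := exists_smul_eq G a b
    simpa using h5 g 1 (one_mem _)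
  refine false_of_two_regular (hep a) T N hTc hTN (h3 _ fun g => ?_) hTt (fun b => ?_) hconj
  · exact (h2 g).elim (fun h => h.le.trans le_sup_left) fun h => h.trans le_sup_right
  · obtain ⟨t, ht, h⟩ := hTt (g₀⁻¹ • b)
    obtain ⟨s, hs, h'⟩ := hTt (g₀⁻¹ • a)
    refine ⟨g₀ * (t * s⁻¹) * g₀⁻¹, hN.conj_mem _ (hTN (mul_mem ht (inv_mem hs))) _,
      hg₀ ⟨_, mul_mem ht (inv_mem hs), rfl⟩, ?_⟩
    rw [mul_smul, mul_smul, ← h', mul_smul, inv_smul_smul, h, smul_inv_smul]

end Cfsg.Agent.S3493
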