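import Cfsg.Statements.S3496
import Cfsg.Agent.Lib.XPrim.Base

set_option autoImplicit false
open Cfsg

namespace Cfsg.Agent.S3496

open CfsgLib CfsgLib.XPrim MulAction Subgroup

/-- The soluble extremely primitive groups. Let a finite solvable group G act faithfully and primitively on a finite set Ω with p ^ d points (p prime), with non-trivial point stabilizers each acting primitively on every one of its orbits. Then there is a prime q such that every orbit of a point stabilizer G_α other than {α} has exactly q points, q divides p ^ d − 1 but no p ^ i − 1 with 0 < i < d, and G_α has a normal subgroup T of order q with G_α generated by T and one further element and the order of G_α dividing q·d (so G_α is cyclic of order q, or an extension of T by a cyclic group of order dividing d). -/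
theorem result {G : Type*} [Group G] [Finite G] {Ω : Type*} [Fintype Ω] [MulAction G Ω] [FaithfulSMul G Ω] [Group.IsSolvable G] (p d : ℕ) (hp : p.Prime) (hcard : Fintype.card Ω = p ^ d)
    (hprim : MulAction.IsPreprimitive G Ω) (hH : ∀ α : Ω, MulAction.stabilizer G α ≠ ⊥) (hep : ∀ (α : Ω) (ω : Ω), MulAction.IsPreprimitive (MulAction.stabilizer G α) (MulAction.orbit (MulAction.stabilizer G α) ω)) (α : Ω) :
    ∃ q : ℕ, q.Prime ∧ (∀ ω : Ω, ω ≠ α → Nat.card (MulAction.orbit (MulAction.stabilizer G α) ω) = q) ∧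
      q ∣ p ^ d - 1 ∧ (∀ i : ℕ, 0 < i → i < d → ¬ q ∣ p ^ i - 1) ∧
      ∃ T : Subgroup G, T ≤ MulAction.stabilizer G α ∧ MulAction.stabilizer G α ≤ Subgroup.normalizer (T : Set G) ∧ Nat.card T = q ∧
        (∃ h : G, MulAction.stabilizer G α = T ⊔ Subgroup.zpowers h) ∧ Nat.card (MulAction.stabilizer G α) ∣ q * d := by
  classical
  have := Recog.nontrivial_of_stabilizer_ne_bot (Ω := Ω) (hH α)
  obtain ⟨N, hN⟩ : ∃ N : Subgroup G, DerCls.Aff Ω N := by
    rcases DerCls.trichotomy (G := G) (Ω := Ω) (by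
      rintro ⟨T, -, _, hT, -⟩
      exact hT ⟨⟨IsSimpleGroup.comm_iff_isSolvable.2 inferInstance⟩⟩) with h | ⟨T, _, hT, -⟩
    · exact h
    · exact absurd ⟨⟨IsSimpleGroup.comm_iff_isSolvable.2 inferInstance⟩⟩ hT
  have := hN.normal
  have := hN.comm
  obtain ⟨V, _, _, e, _, he0, he, x⟩ := exists_XP hN.ne hN.reg (hH α) (hep α)
  have : Finite V := Finite.of_equiv _ e.symm
  have := (nontrivial_iff_ne_bot _).2 (hH α)
  obtain ⟨A, hA, hA0, -, hmin⟩ :=
    Core.exists_minimal_normal_le (K := (⊤ : Subgroup (stabilizer G α))) top_ne_bot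
  obtain ⟨q, hq, hc, hAq⟩ := Core.isElementaryAbelian_of_minimal_normal hA0 hmin
  obtain ⟨K, _, _, σ, ι, hι, hσ, hK, hS⟩ := x.exists_field A hA0
  rw [Nat.card_congr e, Nat.card_eq_fintype_card (α := Ω), hcard] at hK
  have := Fact.mk hq
  have := Fact.mk hp
  have hAc : Nat.card A = q := by
    have := isCyclic_of_injective ι hι
    obtain ⟨g, hg⟩ := IsCyclic.exists_generator (α := A)
    rw [← orderOf_eq_card_of_forall_mem_zpowers hg]
    refine orderOf_eq_prime (Subtype.ext (hAq g g.2)) fun h => hA0 (eq_bot_iff.2 fun a ha => ?_)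
    have := hg ⟨a, ha⟩
    rw [h, zpowers_one_eq_bot, mem_bot] at this
    exact congrArg Subtype.val this
  obtain ⟨hcyc, hd⟩ := exists_ringAut_inj hp hK
  have hfin : Finite (RingAut K) := Finite.of_injective (fun f : RingAut K => (f : K → K))
    DFunLike.coe_injective
  refine ⟨q, hq, fun ω hω => ?_, ?_, fun i hi hid hqi => ?_, A.map (stabilizer G α).subtype,
    map_subtype_le _, ?_, ?_, ?_, ?_⟩
  · obtain ⟨v, rfl⟩ := e.surjective ω
    have hv : v ≠ 0 := by rintro rfl; exact hω he0
    rw [← hAc]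
    refine (Nat.card_eq_of_bijective (fun a : A => (⟨_, mem_orbit (e v) (a : stabilizer G α)⟩ :
      orbit (stabilizer G α) (e v))) ⟨fun a b h => ?_, ?_⟩).symm
    · have h1 : (a : stabilizer G α) • v = (b : stabilizer G α) • v :=
        e.injective (by rw [he, he]; exact congrArg Subtype.val h)
      have := x.eq_one_of_fix A hA0 (le_centralizer A (b⁻¹ * a).2) hv (by
        rw [coe_mul, mul_smul, h1, coe_inv, inv_smul_smul])
      exact (inv_mul_eq_one.1 (Subtype.ext this)).symm
    · rintro ⟨_, g, rfl⟩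
      obtain ⟨m, hm, h⟩ := x.exists_mem A hA0 v g
      exact ⟨⟨m, hm⟩, Subtype.ext ((he m v).symm.trans ((congrArg e h).trans (he g v)))⟩
  · rw [← hK, ← Nat.card_units, ← hAc]
    exact card_dvd_of_injective ι hι
  · obtain ⟨r, _, ⟨n, hn⟩, hr, hKr⟩ := FiniteField.card' K
    rw [PNat.mk_coe, ← Nat.card_eq_fintype_card, hK] at hKr
    obtain rfl : r = p := (Nat.prime_dvd_prime_iff_eq hr hp).1
      (hr.dvd_of_dvd_pow (hKr ▸ dvd_pow_self r hn.ne'))
    have hpos : 1 ≤ r ^ i := Nat.one_le_pow _ _ hp.pos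
    have h1 := hS ((iterateFrobenius K r i).eqLocus (RingHom.id K)) fun a => by
      change (ι a : K) ^ r ^ i = ι a
      have : a ^ (r ^ i - 1) = 1 := by
        obtain ⟨k, hk⟩ := hqi
        rw [hk, pow_mul, show a ^ q = 1 from Subtype.ext (hAq a a.2), one_pow]
      rw [← Nat.sub_add_cancel hpos, pow_succ, ← Units.val_pow_eq_pow_val, ← map_pow, this, map_one]
      simp
    have h2 := (FiniteField.forall_pow_eq_one_iff K (r ^ i - 1)).1 fun u => by
      have h3 : (u : K) ^ r ^ i = u := (h1 ▸ Subring.mem_top (u : K) :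
        (u : K) ∈ (iterateFrobenius K r i).eqLocus (RingHom.id K))
      rw [← Nat.sub_add_cancel hpos, pow_succ, ← Units.val_pow_eq_pow_val] at h3
      exact Units.ext ((mul_eq_right₀ u.ne_zero).1 h3)
    rw [← Nat.card_eq_fintype_card, hK] at h2
    have h3 : r ^ i < r ^ d := Nat.pow_lt_pow_right hp.one_lt hid
    have h4 : 1 < r ^ i := Nat.one_lt_pow hi.ne' hp.one_lt
    have := Nat.le_of_dvd (by omega) h2
    omega
  · rw [le_normalizer_iff]
    rintro g hg _ ⟨m, hm, rfl⟩
    exact ⟨_, hA.conj_mem m hm ⟨g, hg⟩, rfl⟩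
  · rw [card_map_of_injective (subtype_injective _), hAc]
  · obtain ⟨⟨_, h, rfl⟩, hg⟩ := IsCyclic.exists_generator (α := σ.range)
    refine ⟨h, le_antisymm (fun g hg' => ?_) (sup_le (map_subtype_le _) (zpowers_le.2 h.2))⟩
    obtain ⟨k, hk⟩ := hg ⟨_, ⟨g, hg'⟩, rfl⟩
    have h1 : σ h ^ k = σ ⟨g, hg'⟩ := congrArg Subtype.val hk
    have h2 : ⟨g, hg'⟩ * (h ^ k)⁻¹ ∈ A := by
      rw [← hσ, MonoidHom.mem_ker, map_mul, map_inv, map_zpow, h1, mul_inv_cancel]
    have := mul_mem_sup (mem_map_of_mem (stabilizer G α).subtype h2) (zpow_mem_zpowers (h : G) k)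
    simpa using this
  · rw [← A.card_mul_index, hAc, ← hσ, index_ker]
    exact mul_dvd_mul_left _ ((card_subgroup_dvd_card _).trans hd)

end Cfsg.Agent.S3496
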