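import Cfsg.Statements.S3497
import Cfsg.Agent.Lib.XPrim.Base
import Cfsg.Agent.Lib.InvChar.AutElem

set_option autoImplicit false
open Cfsg

namespace Cfsg.Agent.S3497

open CfsgLib CfsgLib.XPrim MulAction

/-- Restrictions on the point stabilizer of an extremely primitive group. Let a finite group G act faithfully and primitively on a finite set Ω with point stabilizers H = G_α whose order is neither 1 nor a prime, each acting primitively on every one of its orbits. Then H has trivial center, the Fitting subgroup F(H) is an elementary abelian p-group for some prime p, and if F(H) ≠ 1 has order p ^ e then p ^ e divides the number of points minus one and H / F(H) embeds in GL_e(p) (there is a homomorphism from H to GL_e(p) with kernel exactly F(H)). -/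
theorem result {G : Type*} [Group G] [Finite G] {Ω : Type*} [Fintype Ω] [MulAction G Ω] [FaithfulSMul G Ω] (hprim : MulAction.IsPreprimitive G Ω) (hep : ∀ (α : Ω) (ω : Ω), MulAction.IsPreprimitive (MulAction.stabilizer G α) (MulAction.orbit (MulAction.stabilizer G α) ω)) (α : Ω)
    (hH1 : MulAction.stabilizer G α ≠ ⊥) (hHp : ¬ (Nat.card (MulAction.stabilizer G α)).Prime) :
    Subgroup.center (MulAction.stabilizer G α) = ⊥ ∧
    IsMulCommutative (Cfsg.fittingSubgroup (MulAction.stabilizer G α)) ∧
    ∃ p e : ℕ, p.Prime ∧ Nat.card (Cfsg.fittingSubgroup (MulAction.stabilizer G α)) = p ^ e ∧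
      (∀ x ∈ Cfsg.fittingSubgroup (MulAction.stabilizer G α), x ^ p = 1) ∧
      (Cfsg.fittingSubgroup (MulAction.stabilizer G α) ≠ ⊥ →
        p ^ e ∣ Fintype.card Ω - 1 ∧
        ∃ φ : MulAction.stabilizer G α →* GL (Fin e) (ZMod p), φ.ker = Cfsg.fittingSubgroup (MulAction.stabilizer G α)) := by
  classical
  have := Recog.nontrivial_of_stabilizer_ne_bot (Ω := Ω) hH1
  have hf : ∀ ω : Ω, ω ≠ α → FaithfulSMul (stabilizer G α) (orbit (stabilizer G α) ω) :=
    fun ω hω => ⟨fun {a b} h => by
      have := Recog.manning_faithful (hep α) hω (b⁻¹ * a).2 fun y hy => by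
        have : (a : G) • y = (b : G) • y := congrArg Subtype.val (h ⟨y, hy⟩)
        rw [Subgroup.coe_mul, mul_smul, this, Subgroup.coe_inv, inv_smul_smul]
      exact (inv_mul_eq_one.1 (Subtype.ext this)).symm⟩
  obtain ⟨ω₀, hω₀⟩ := exists_ne α
  have := hf ω₀ hω₀
  have := hep α ω₀
  refine ⟨?_, ?_⟩
  · by_contra h
    exact hHp (prime_of_center (Δ := orbit (stabilizer G α) ω₀) h)
  by_cases hF : fittingSubgroup (stabilizer G α) = ⊥
  · rw [hF]
    exact ⟨inferInstance, 2, 0, Nat.prime_two, by simp, by simp, fun h => absurd rfl h⟩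
  obtain ⟨⟨p, hp, hc, he⟩, hC⟩ := fitting (Δ := orbit (stabilizer G α) ω₀) hF
  have := Fact.mk hp
  have := Core.fittingSubgroup_normal (stabilizer G α)
  generalize fittingSubgroup (stabilizer G α) = F at *
  have he' : ∀ x : F, x ^ p = 1 := fun x => Subtype.ext (he x x.2)
  obtain ⟨n, hn⟩ := IsPGroup.iff_card.1 (fun x => ⟨1, by rw [pow_one, he']⟩ : IsPGroup p F)
  refine ⟨hc, p, n, hp, hn, he, fun _ => ⟨?_, ?_⟩⟩
  · have h1 : ∀ ω : SubMulAction.ofStabilizer G α, stabilizer F ω = ⊥ := fun ω => by
      have := hf ω ω.2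
      have := hep α ω
      refine eq_bot_iff.2 fun a ha => Subgroup.mem_bot.2 (Subtype.ext ?_)
      refine Perm.eq_one_of_commute_of_fix
        (a := (⟨_, mem_orbit_self _⟩ : orbit (stabilizer G α) (ω : Ω))) (fun b => ?_)
        (Subtype.ext (congrArg Subtype.val (mem_stabilizer_iff.1 ha) :))
      obtain ⟨m, hm, h⟩ := DerCls.transitive_of_normal F hF ⟨_, mem_orbit_self _⟩ b
      exact ⟨m, setLike_mul_comm (s := F) a.2 hm, h⟩
    have h2 := Nat.card_congr (selfEquivOrbitsQuotientProd h1)
    rw [Nat.card_prod, hn] at h2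
    have h3 := SubMulAction.nat_card_ofStabilizer_add_one_eq G α
    rw [← Nat.card_eq_fintype_card, ← h3, Nat.add_sub_cancel, h2]
    exact dvd_mul_left _ _
  · obtain ⟨f, hf⟩ := InvChar.exists_mulAut_hom_GL he' hn.le
    refine ⟨f.comp (MulAut.conjNormal (H := F)), le_antisymm (fun g hg => hC fun a ha => ?_) fun g hg => ?_⟩
    · have h1 : MulAut.conjNormal (H := F) g = 1 := hf (hg.trans (map_one f).symm)
      have h2 : g * a * g⁻¹ = a := (congrArg Subtype.val (DFunLike.congr_fun h1 ⟨a, ha⟩) :)
      exact (mul_inv_eq_iff_eq_mul.1 h2).symm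
    · have : MulAut.conjNormal (H := F) g = 1 := MulEquiv.ext fun a => Subtype.ext (by
        change g * a * g⁻¹ = a
        rw [setLike_mul_comm (s := F) hg a.2, mul_inv_cancel_right])
      rw [MonoidHom.mem_ker, MonoidHom.comp_apply, this, map_one]

end Cfsg.Agent.S3497
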