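import Cfsg.Statements.S3498

set_option autoImplicit false
open Cfsg

namespace Cfsg.Agent.S3498

/-- A maximal subgroup of a finite almost simple group does not have prime order. Here G is almost simple in the sense that it has a non-abelian simple normal subgroup T with trivial centralizer. -/
theorem result {G : Type*} [Group G] [Finite G] (T : Subgroup G) [T.Normal] (hT : IsSimpleGroup T) (hTc : ¬ IsMulCommutative T)
    (hC : Subgroup.centralizer (T : Set G) = ⊥) (H : Subgroup G) (hmax : IsCoatom H) : ¬ (Nat.card H).Prime := by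
  classical
  intro hp
  set p := Nat.card H with hpdef
  have := Fact.mk hp
  have hcyc : IsCyclic H := isCyclic_of_prime_card hpdef.symm
  have hHne : H ≠ ⊥ := by
    intro h
    rw [h, Subgroup.card_bot] at hpdef
    exact hp.one_lt.ne' hpdef
  have hTH : ¬ T ≤ H := by
    intro h
    apply hTc
    have := Subgroup.isCyclic_of_le h
    exact IsCyclic.isMulCommutative
  have hnorm : Subgroup.normalizer (H : Set G) = H := by
    by_contra hne
    have h1 : Subgroup.normalizer (H : Set G) = ⊤ :=
      hmax.2 _ (lt_of_le_of_ne Subgroup.le_normalizer (Ne.symm hne))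
    have hHn : H.Normal := Subgroup.normalizer_eq_top_iff.1 h1
    rcases hT.eq_bot_or_eq_top_of_normal (H.subgroupOf T) inferInstance with h | h
    · apply hHne
      rw [eq_bot_iff, ← hC]
      intro x hx
      rw [Subgroup.mem_centralizer_iff]
      intro t ht
      have hd : Disjoint H T := Subgroup.subgroupOf_eq_bot.1 h
      exact (Subgroup.commute_of_normal_of_disjoint H T hHn inferInstance hd x t hx ht).symm
    · exact hTH (Subgroup.subgroupOf_eq_top.1 h)
  have hHp : IsPGroup p H := IsPGroup.of_card (n := 1) (by rw [pow_one])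
  obtain ⟨P, hP⟩ := hHp.exists_le_sylow
  have hPH : (P : Subgroup G) = H := by
    by_contra hne
    have h1 : (P : Subgroup G) = ⊤ := hmax.2 _ (lt_of_le_of_ne hP (Ne.symm hne))
    have h2 : IsPGroup p T := P.isPGroup'.to_le (by rw [h1]; exact le_top)
    have h3 : Group.IsNilpotent T := h2.isNilpotent
    apply hTc
    exact ⟨⟨IsSimpleGroup.comm_iff_isSolvable.2 inferInstance⟩⟩
  have hNC : Subgroup.normalizer ((P : Subgroup G) : Set G) ≤
      Subgroup.centralizer ((P : Subgroup G) : Set G) := by
    rw [hPH, hnorm]
    have : IsMulCommutative H := IsCyclic.isMulCommutative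
    exact Subgroup.le_centralizer H
  have hc := MonoidHom.ker_transferSylow_isComplement' P hNC
  set K := (MonoidHom.transferSylow P hNC).ker with hKdef
  have hTK : T ≤ K := by
    rcases hT.eq_bot_or_eq_top_of_normal (K.subgroupOf T) inferInstance with h | h
    · exfalso
      apply hTc
      have hinj : Function.Injective ((MonoidHom.transferSylow P hNC).comp T.subtype) := by
        rw [← MonoidHom.ker_eq_bot_iff, ← MonoidHom.comap_ker]
        exact h
      have hPc : IsCyclic (P : Subgroup G) := by rw [hPH]; exact hcyc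
      have := isCyclic_of_injective _ hinj
      exact IsCyclic.isMulCommutative
    · exact Subgroup.subgroupOf_eq_top.1 h
  have hpT : ¬ p ∣ Nat.card T := by
    intro h
    apply P.not_dvd_index
    rw [hc.index_eq_card]
    exact h.trans (Subgroup.card_dvd_of_le hTK)
  have hT1 : Nat.card T ≠ 1 := by
    have := hT.toNontrivial
    exact Finite.one_lt_card.ne'
  obtain ⟨q, hq, hqT⟩ := Nat.exists_prime_and_dvd hT1
  have := Fact.mk hq
  let _ : MulAction H (Sylow q T) :=
    MulAction.compHom _ ((MulAut.conjNormal : G →* MulAut T).comp H.subtype)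
  obtain ⟨Q, hQ⟩ := hHp.nonempty_fixed_point_of_prime_not_dvd_card (Sylow q T) (by
    intro h
    obtain ⟨Q⟩ : Nonempty (Sylow q T) := inferInstance
    exact hpT (h.trans (Q.card_dvd_index.trans (Subgroup.index_dvd_card _))))
  have hQne : (Q : Subgroup T) ≠ ⊥ := Q.ne_bot_of_dvd_card hqT
  set Q' : Subgroup G := (Q : Subgroup T).map T.subtype with hQ'
  have hHN : H ≤ Subgroup.normalizer (Q' : Set G) := by
    rw [Subgroup.le_normalizer_iff]
    rintro h hh _ ⟨x, hx, rfl⟩
    have h1 : (MulAut.conjNormal h : MulAut T) • Q = Q := hQ ⟨h, hh⟩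
    refine ⟨(MulAut.conjNormal h : MulAut T) x, ?_, rfl⟩
    rw [← h1]
    exact Subgroup.smul_mem_pointwise_smul x _ _ hx
  by_cases hN : Subgroup.normalizer (Q' : Set G) = ⊤
  · have hQn : Q'.Normal := Subgroup.normalizer_eq_top_iff.1 hN
    have h1 : Q'.subgroupOf T = Q := Subgroup.comap_map_eq_self_of_injective T.subtype_injective _
    rcases hT.eq_bot_or_eq_top_of_normal (Q'.subgroupOf T) inferInstance with h | h
    · exact hQne (h1 ▸ h)
    · rw [h1] at h
      have h2 : IsPGroup q T := by
        have := Q.isPGroup'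
        rw [h] at this
        exact this.of_equiv Subgroup.topEquiv
      have h3 : Group.IsNilpotent T := h2.isNilpotent
      apply hTc
      exact ⟨⟨IsSimpleGroup.comm_iff_isSolvable.2 inferInstance⟩⟩
  · have h1 : Subgroup.normalizer (Q' : Set G) = H := by
      by_contra hne
      exact hN (hmax.2 _ (lt_of_le_of_ne hHN (Ne.symm hne)))
    have h2 : Q' ≤ H := h1 ▸ Subgroup.le_normalizer
    have h3 : Nat.card Q' ∣ p := Subgroup.card_dvd_of_le h2
    have h4 : Nat.card Q' ∣ Nat.card T := Subgroup.card_dvd_of_le (Subgroup.map_subtype_le _)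
    rcases (Nat.dvd_prime hp).1 h3 with h | h
    · rw [Subgroup.card_eq_one, hQ', Subgroup.map_eq_bot_iff_of_injective _ T.subtype_injective] at h
      exact hQne h
    · exact hpT (h ▸ h4)

end Cfsg.Agent.S3498
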