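import Cfsg.Statements.S3504

set_option autoImplicit false
open Cfsg

namespace Cfsg.Agent.S3504

/-- For n ≥ 5, the fixed-point-free permutations of prime order in the symmetric group of degree n form a single conjugacy class if and only if n is a prime power. -/
theorem result (n : ℕ) (hn : 5 ≤ n) :
    Nat.card {c : ConjClasses (Equiv.Perm (Fin n)) // ∃ g : Equiv.Perm (Fin n), ConjClasses.mk g = c ∧ (orderOf g).Prime ∧ ∀ i : Fin n, g i ≠ i} = 1 ↔ IsPrimePow n := by
  classical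
  have hA : ∀ g : Equiv.Perm (Fin n), (orderOf g).Prime → (∀ i, g i ≠ i) →
      orderOf g ∣ n ∧ g.cycleType = Multiset.replicate (n / orderOf g) (orderOf g) := by
    intro g hg hfix
    obtain ⟨k, hk⟩ := Equiv.Perm.cycleType_prime_order hg
    have hs : g.support = Finset.univ := by
      ext i; simpa using hfix i
    have h1 := g.sum_cycleType
    rw [hs, Finset.card_univ, Fintype.card_fin, hk, Multiset.sum_replicate, smul_eq_mul] at h1
    refine ⟨Dvd.intro_left _ h1, ?_⟩
    have : n / orderOf g = k + 1 := by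
      apply Nat.div_eq_of_eq_mul_left hg.pos h1.symm
    rw [this]; exact hk
  have hB : ∀ p : ℕ, p.Prime → p ∣ n →
      ∃ g : Equiv.Perm (Fin n), orderOf g = p ∧ ∀ i, g i ≠ i := by
    intro p hp hpn
    obtain ⟨k, hk⟩ := hpn
    obtain ⟨g, hg⟩ := (Equiv.Perm.exists_with_cycleType_iff (α := Fin n)
      (m := Multiset.replicate k p)).2 ⟨by
        rw [Multiset.sum_replicate, smul_eq_mul, Fintype.card_fin, hk, mul_comm], by
        intro a ha
        rw [Multiset.eq_of_mem_replicate ha]; exact hp.two_le⟩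
    have hk0 : k ≠ 0 := by rintro rfl; omega
    refine ⟨g, ?_, ?_⟩
    · rw [← Equiv.Perm.lcm_cycleType, hg]
      apply Nat.dvd_antisymm
      · rw [Multiset.lcm_dvd]
        intro a ha
        rw [Multiset.eq_of_mem_replicate ha]
      · exact Multiset.dvd_lcm (Multiset.mem_replicate.2 ⟨hk0, rfl⟩)
    · have h1 := g.sum_cycleType
      rw [hg, Multiset.sum_replicate, smul_eq_mul, mul_comm, ← hk] at h1
      have h2 : g.support = Finset.univ := by
        apply Finset.eq_univ_of_card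
        rw [← h1, Fintype.card_fin]
      intro i
      have : i ∈ g.support := by rw [h2]; exact Finset.mem_univ i
      simpa using this
  rw [isPrimePow_iff_unique_prime_dvd, Nat.card_eq_one_iff_unique]
  constructor
  · rintro ⟨hsub, ⟨⟨c, g, rfl, hg, hfix⟩⟩⟩
    refine ⟨orderOf g, ⟨hg, (hA g hg hfix).1⟩, ?_⟩
    rintro q ⟨hq, hqn⟩
    obtain ⟨g', hg', hfix'⟩ := hB q hq hqn
    have h1 := congrArg Subtype.val (hsub.elim ⟨ConjClasses.mk g, g, rfl, hg, hfix⟩
      ⟨ConjClasses.mk g', g', rfl, hg' ▸ hq, hfix'⟩)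
    have h2 : IsConj g g' := ConjClasses.mk_eq_mk_iff_isConj.1 h1
    rw [← hg', ← Equiv.Perm.lcm_cycleType, ← Equiv.Perm.lcm_cycleType,
      Equiv.Perm.isConj_iff_cycleType_eq.1 h2]
  · rintro ⟨p, ⟨hp, hpn⟩, huniq⟩
    obtain ⟨g, hg, hfix⟩ := hB p hp hpn
    refine ⟨⟨?_⟩, ⟨⟨ConjClasses.mk g, g, rfl, hg ▸ hp, hfix⟩⟩⟩
    rintro ⟨_, a, rfl, ha, hafix⟩ ⟨_, b, rfl, hb, hbfix⟩
    apply Subtype.ext
    apply ConjClasses.mk_eq_mk_iff_isConj.2
    rw [Equiv.Perm.isConj_iff_cycleType_eq, (hA a ha hafix).2, (hA b hb hbfix).2,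
      huniq _ ⟨ha, (hA a ha hafix).1⟩, huniq _ ⟨hb, (hA b hb hbfix).1⟩]

end Cfsg.Agent.S3504
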