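import Cfsg.Statements.S3508

set_option autoImplicit false
open Cfsg

namespace Cfsg.Agent.S3508

open Polynomial in
theorem lin_aux {p : ℕ} [hp : Fact p.Prime] {V : Type*} [AddCommGroup V] [Module (ZMod p) V]
    [Module.Finite (ZMod p) V] (T : Module.End (ZMod p) V) (r s : ℕ) (hT : T ^ p ^ r = 1)
    (hs : Module.finrank (ZMod p) V < p ^ s) :
    ∑ i ∈ Finset.range (p ^ s), T ^ i = 0 := by
  have hpoly : ∀ k : ℕ, (X - 1 : (ZMod p)[X]) ^ p ^ k = X ^ p ^ k - 1 := by
    intro k
    rw [sub_pow_char_pow, one_pow]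
  have h1 : (T - 1) ^ p ^ r = 0 := by
    have := congrArg (aeval T) (hpoly r)
    simpa [hT] using this
  have h2 : (T - 1) ^ Module.finrank (ZMod p) V = 0 := by
    rw [← LinearMap.ker_eq_top, eq_top_iff]
    have := Module.End.ker_pow_le_ker_pow_finrank (T - 1) (p ^ r)
    rwa [h1, LinearMap.ker_zero] at this
  have hpos : 0 < p ^ s := pow_pos hp.out.pos s
  have h3 : (∑ i ∈ Finset.range (p ^ s), X ^ i : (ZMod p)[X]) = (X - 1) ^ (p ^ s - 1) := by
    have hne : (X - 1 : (ZMod p)[X]) ≠ 0 := by
      rw [← C_1]; exact X_sub_C_ne_zero 1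
    apply mul_right_cancel₀ hne
    rw [geom_sum_mul, ← pow_succ, Nat.sub_add_cancel hpos, hpoly]
  have h4 := congrArg (aeval T) h3
  simp only [map_sum, map_pow, aeval_X, map_sub, map_one] at h4
  rw [h4]
  exact pow_eq_zero_of_le (by omega) h2


theorem grp_aux {p m : ℕ} [hp : Fact p.Prime] {A : Type*} [CommGroup A] [Finite A]
    (hexp : ∀ a : A, a ^ p = 1) (hcard : Nat.card A = p ^ m) (φ : MulAut A) (r s : ℕ)
    (hφ : φ ^ p ^ r = 1) (hs : m < p ^ s) (a : A) :
    ∏ i ∈ Finset.range (p ^ s), (φ ^ i) a = 1 := by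
  have hz : ∀ x : Additive A, p • x = 0 := fun x =>
    congrArg Additive.ofMul (hexp (Additive.toMul x))
  have inst : Module (ZMod p) (Additive A) := AddCommGroup.zmodModule hz
  have hfin : Module.Finite (ZMod p) (Additive A) := Module.Finite.of_finite
  have hfr : Module.finrank (ZMod p) (Additive A) = m := by
    have h1 := Module.natCard_eq_pow_finrank (K := ZMod p) (V := Additive A)
    rw [Nat.card_zmod, Nat.card_congr Additive.toMul, hcard] at h1
    exact (Nat.pow_right_injective hp.out.two_le h1).symm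
  let T : Module.End (ZMod p) (Additive A) :=
    (MonoidHom.toAdditive φ.toMonoidHom).toZModLinearMap p
  have hT1 : ∀ x : Additive A, Additive.toMul (T x) = φ (Additive.toMul x) := fun x => rfl
  have hTk : ∀ (k : ℕ) (x : Additive A), Additive.toMul ((T ^ k) x) =
      (φ ^ k) (Additive.toMul x) := by
    intro k x
    induction k with
    | zero => simp
    | succ k ih => rw [pow_succ', Module.End.mul_apply, hT1, ih, pow_succ', MulAut.mul_apply]
  have hT : T ^ p ^ r = 1 := by
    ext x
    apply Additive.toMul.injective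
    rw [hTk, hφ]
    simp
  have hsum := lin_aux T r s hT (by rw [hfr]; exact hs)
  have h1 := congrArg (fun f : Module.End (ZMod p) (Additive A) =>
    Additive.toMul (f (Additive.ofMul a))) hsum
  simp only [LinearMap.coe_sum, Finset.sum_apply, toMul_sum, hTk, toMul_ofMul] at h1
  simpa using h1

/-- Let a finite group G act faithfully on a set Ω with p ^ m points (p prime) and have an elementary abelian normal p-subgroup N acting regularly on Ω (so G is a group of affine transformations of an m-dimensional space over the field with p elements). If G contains an element of order p ^ r with r ≥ 1, then p ^ (r − 1) ≤ m. In particular an element of order p ^ m forces m ≤ 2, and m ≤ 1 when p is odd. -/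
theorem result {G : Type*} [Group G] [Finite G] {Ω : Type*} [Fintype Ω] [MulAction G Ω] [FaithfulSMul G Ω] (p m : ℕ) (hp : p.Prime) (hcard : Fintype.card Ω = p ^ m)
    (N : Subgroup G) [N.Normal] (hNc : IsMulCommutative N) (hNp : ∀ n ∈ N, n ^ p = 1)
    (hNtr : MulAction.IsPretransitive N Ω) (hNreg : ∀ ω : Ω, MulAction.stabilizer N ω = ⊥)
    (g : G) (r : ℕ) (hr : 1 ≤ r) (hg : orderOf g = p ^ r) :
    p ^ (r - 1) ≤ m ∧ (r = m → m ≤ 2 ∧ (2 < p → m ≤ 1)) := by
  classical
  have := Fact.mk hp
  have hmain : p ^ (r - 1) ≤ m := by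
    by_contra hlt
    push Not at hlt
    have hne : Nonempty Ω := by
      rw [← Fintype.card_pos_iff, hcard]; exact pow_pos hp.pos m
    obtain ⟨ω0⟩ := hne
    have hcardN : Nat.card N = p ^ m := by
      have h1 := MulAction.index_stabilizer_of_transitive N ω0
      rw [hNreg, Subgroup.index_bot] at h1
      rw [h1, Nat.card_eq_fintype_card, hcard]
    let _ : CommGroup N := { (inferInstance : Group N) with mul_comm := mul_comm' }
    have hT : (MulAut.conjNormal g : MulAut N) ^ p ^ r = 1 := by
      rw [← map_pow, ← hg, pow_orderOf_eq_one, map_one]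
    have hsum := grp_aux (fun x : N => Subtype.ext (hNp x x.2)) hcardN _ r (r - 1) hT hlt
    have hact : ∀ (ω : Ω) (n : N), g • ω = (n : G) • ω → ∀ k : ℕ, g ^ k • ω =
        ((∏ i ∈ Finset.range k, ((MulAut.conjNormal g : MulAut N) ^ i) n : N) : G) • ω := by
      intro ω n hn k
      induction k with
      | zero => simp
      | succ k ih =>
        rw [Finset.prod_range_succ, mul_comm, Subgroup.coe_mul,
          mul_smul, ← ih, ← map_pow, MulAut.conjNormal_apply, pow_succ, mul_smul, hn, mul_smul,
          mul_smul, inv_smul_smul]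
    have h1 : g ^ p ^ (r - 1) = 1 := by
      apply eq_of_smul_eq_smul (α := Ω)
      intro ω
      obtain ⟨n, hn⟩ := MulAction.exists_smul_eq N ω (g • ω)
      rw [hact ω n hn.symm, hsum]
      simp
    have h2 := orderOf_dvd_of_pow_eq_one h1
    rw [hg, Nat.pow_dvd_pow_iff_le_right hp.one_lt] at h2
    omega
  refine ⟨hmain, ?_⟩
  rintro rfl
  constructor
  · by_contra h
    have h1 : 2 ^ (r - 1) ≤ p ^ (r - 1) := Nat.pow_le_pow_left hp.two_le _
    obtain ⟨k, rfl⟩ : ∃ k, r = k + 3 := ⟨r - 3, by omega⟩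
    have h2 : k < 2 ^ k := Nat.lt_two_pow_self
    have h3 : 2 ^ (k + 3 - 1) = 4 * 2 ^ k := by
      rw [show k + 3 - 1 = k + 2 by omega]; ring
    omega
  · intro hp2
    by_contra h
    have h1 : 3 ^ (r - 1) ≤ p ^ (r - 1) := Nat.pow_le_pow_left hp2 _
    obtain ⟨k, rfl⟩ : ∃ k, r = k + 2 := ⟨r - 2, by omega⟩
    have h2 : k < 3 ^ k := Nat.lt_pow_self (by norm_num)
    have h3 : 3 ^ (k + 2 - 1) = 3 * 3 ^ k := by
      rw [show k + 2 - 1 = k + 1 by omega]; ring
    omega

end Cfsg.Agent.S3508
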