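import Cfsg.Statements.S3511
-- import your own Cfsg.Agent.* helpers here

set_option autoImplicit false
open Cfsg

namespace Cfsg.Agent.S3511

/-- Let a finite group G act faithfully on a set Ω. If every element of G of square-free order has a regular cycle (an orbit of the cyclic group it generates with trivial stabilizer), then every element of G has a regular cycle. -/
theorem result {G : Type*} [Group G] [Finite G] {Ω : Type*} [MulAction G Ω] [FaithfulSMul G Ω]
    (h : ∀ g : G, Squarefree (orderOf g) → ∃ ω : Ω, MulAction.stabilizer (Subgroup.zpowers g) ω = ⊥) (g : G) :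
    ∃ ω : Ω, MulAction.stabilizer (Subgroup.zpowers g) ω = ⊥ := by
  classical
  induction hn : orderOf g using Nat.strong_induction_on generalizing g with
  | _ n ih =>
    by_cases hs : Squarefree (orderOf g)
    · exact h g hs
    · have hpos : 0 < orderOf g := orderOf_pos g
      rw [Nat.squarefree_iff_prime_squarefree] at hs
      push Not at hs
      obtain ⟨p, hp, hpd⟩ := hs
      have hpd1 : p ∣ orderOf g := (Dvd.intro p rfl).trans hpd
      have hlt : orderOf (g ^ p) < n := by
        rw [orderOf_pow_of_dvd hp.ne_zero hpd1, ← hn]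
        exact Nat.div_lt_self hpos hp.one_lt
      obtain ⟨ω, hω⟩ := ih _ hlt (g ^ p) rfl
      refine ⟨ω, ?_⟩
      rw [Subgroup.eq_bot_iff_forall]
      intro x hx
      by_contra hne
      have hx1 : (x : G) ≠ 1 := fun h => hne (Subtype.ext h)
      have ho : orderOf (x : G) ≠ 1 := by simpa using hx1
      obtain ⟨r, hr, hrd⟩ := Nat.exists_prime_and_dvd ho
      have hxpos : 0 < orderOf (x : G) := orderOf_pos _
      set y : G := (x : G) ^ (orderOf (x : G) / r) with hy
      have hyo : orderOf y = r := by
        rw [hy]
        exact orderOf_pow_orderOf_div hxpos.ne' hrd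
      have hyg : y ∈ Subgroup.zpowers g := Subgroup.pow_mem _ x.2 _
      obtain ⟨j, hj⟩ := (mem_powers_iff_mem_zpowers.2 hyg)
      simp only at hj
      have h1 : g ^ (j * r) = 1 := by rw [pow_mul, hj, ← hyo, pow_orderOf_eq_one]
      have h2 : p * p ∣ j * r := hpd.trans (orderOf_dvd_of_pow_eq_one h1)
      have h3 : p ∣ j := by
        by_cases hpr : p = r
        · subst hpr
          exact Nat.dvd_of_mul_dvd_mul_right hp.pos h2
        · have : p ∣ j * r := (Dvd.intro p rfl).trans h2
          rcases (Nat.Prime.dvd_mul hp).1 this with h | h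
          · exact h
          · exact absurd ((Nat.prime_dvd_prime_iff_eq hp hr).1 h) hpr
      obtain ⟨t, rfl⟩ := h3
      have hyp : y ∈ Subgroup.zpowers (g ^ p) := by
        rw [← hj, pow_mul]
        exact Subgroup.pow_mem _ (Subgroup.mem_zpowers _) _
      have hxω : (x : G) • ω = ω := hx
      have hyω : y • ω = ω := by
        have : (x : G) ∈ MulAction.stabilizer G ω := hxω
        exact (MulAction.stabilizer G ω).pow_mem this _
      have hmem : (⟨y, hyp⟩ : Subgroup.zpowers (g ^ p)) ∈
          MulAction.stabilizer (Subgroup.zpowers (g ^ p)) ω := hyω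
      rw [hω, Subgroup.mem_bot] at hmem
      have hy1 : y = 1 := congrArg Subtype.val hmem
      rw [hy1, orderOf_one] at hyo
      exact hr.one_lt.ne hyo

end Cfsg.Agent.S3511
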