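import Cfsg.Statements.S3514

set_option autoImplicit false
open Cfsg

namespace Cfsg.Agent.S3514

theorem relIndex_sup_of_normal {G : Type*} [Group G] [Finite G] (K S : Subgroup G) [K.Normal] :
    S.relIndex (K ⊔ S) = S.relIndex K := by
  have h1 := Subgroup.relIndex_mul_relIndex (K ⊓ S) K (K ⊔ S) inf_le_left le_sup_left
  have h2 := Subgroup.relIndex_mul_relIndex (K ⊓ S) S (K ⊔ S) inf_le_right le_sup_right
  rw [Subgroup.relIndex_sup_left, Subgroup.inf_relIndex_left] at h1
  rw [Subgroup.inf_relIndex_right, ← h1, mul_comm] at h2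
  exact Nat.eq_of_mul_eq_mul_right (Nat.pos_of_ne_zero Subgroup.index_ne_zero_of_finite) h2


/-- Let p be a prime, V a finite vector space over the field with p elements, and H a group of linear transformations of V all of whose orbits on V have size coprime to p. (i) Every normal subgroup K of H has all its orbits on V of size coprime to p. (ii) If N is a group of linear transformations of V of order coprime to p that is normalized by H, then the group generated by N and H has all its orbits on V of size coprime to p. -/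
theorem result (p : ℕ) [Fact p.Prime] {V : Type*} [AddCommGroup V] [Module (ZMod p) V] [Finite V]
    (H : Subgroup (V ≃ₗ[ZMod p] V)) (hH : ∀ v : V, ¬ p ∣ Nat.card {u : V | ∃ h ∈ H, h v = u}) :
    (∀ K : Subgroup (V ≃ₗ[ZMod p] V), K ≤ H → H ≤ Subgroup.normalizer (K : Set (V ≃ₗ[ZMod p] V)) →
        ∀ v : V, ¬ p ∣ Nat.card {u : V | ∃ k ∈ K, k v = u}) ∧
    (∀ N : Subgroup (V ≃ₗ[ZMod p] V), ¬ p ∣ Nat.card N → H ≤ Subgroup.normalizer (N : Set (V ≃ₗ[ZMod p] V)) →
        ∀ v : V, ¬ p ∣ Nat.card {u : V | ∃ x ∈ N ⊔ H, x v = u}) := by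
  classical
  have hp : p.Prime := Fact.out
  have hfin : Finite (V ≃ₗ[ZMod p] V) :=
    Finite.of_injective (fun f : V ≃ₗ[ZMod p] V => (f : V → V)) DFunLike.coe_injective
  have key : ∀ (K : Subgroup (V ≃ₗ[ZMod p] V)) (v : V),
      Nat.card {u : V | ∃ k ∈ K, k v = u} =
        (MulAction.stabilizer (V ≃ₗ[ZMod p] V) v).relIndex K := by
    intro K v
    have h1 : (MulAction.stabilizer (V ≃ₗ[ZMod p] V) v).subgroupOf K = MulAction.stabilizer K v := by
      ext x; rfl
    rw [Subgroup.relIndex, h1, MulAction.index_stabilizer]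
    have h2 : {u : V | ∃ k ∈ K, k v = u} = MulAction.orbit K v := by
      ext u
      constructor
      · rintro ⟨k, hk, rfl⟩
        exact ⟨⟨k, hk⟩, rfl⟩
      · rintro ⟨k, rfl⟩
        exact ⟨k, k.2, rfl⟩
    rw [h2]; rfl
  refine ⟨fun K hKH hn v hd => ?_, fun N hN hn v hd => ?_⟩
  · apply hH v
    rw [key] at hd ⊢
    refine hd.trans ?_
    have : (K.subgroupOf H).Normal := (Subgroup.normal_subgroupOf_iff_le_normalizer hKH).2 hn
    rw [← Subgroup.relIndex_subgroupOf hKH, ← relIndex_sup_of_normal]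
    exact Subgroup.relIndex_dvd_index_of_le le_sup_right
  · have h0 := hH v
    rw [key] at hd h0
    set S := MulAction.stabilizer (V ≃ₗ[ZMod p] V) v
    have : (N.subgroupOf (N ⊔ H)).Normal :=
      (Subgroup.normal_subgroupOf_iff_le_normalizer le_sup_left).2
        (sup_le Subgroup.le_normalizer hn)
    have h1 : H.relIndex (N ⊔ H) ∣ Nat.card N := by
      have h2 := relIndex_sup_of_normal (N.subgroupOf (N ⊔ H)) (H.subgroupOf (N ⊔ H))
      rw [← Subgroup.subgroupOf_sup le_sup_left le_sup_right, Subgroup.relIndex_subgroupOf le_rfl,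
        Subgroup.relIndex_subgroupOf le_sup_left] at h2
      rw [h2]
      exact Subgroup.relIndex_dvd_card _ _
    have h3 : S.relIndex (N ⊔ H) ∣ (S ⊓ H).relIndex (N ⊔ H) :=
      Subgroup.relIndex_dvd_of_le_left _ inf_le_left
    rw [← Subgroup.relIndex_inf_mul_relIndex, inf_eq_left.2 le_sup_right] at h3
    rcases (Nat.Prime.dvd_mul hp).1 (hd.trans h3) with h | h
    · exact h0 h
    · exact hN (h.trans h1)

end Cfsg.Agent.S3514
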