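import Cfsg.Statements.S3516
import Cfsg.Agent.Lib.Recog.AffClosure

set_option autoImplicit false
open Cfsg

namespace Cfsg.Agent.S3516

/-- Let p be an odd prime, d ≥ 3, and G a group of affine permutations x ↦ Ax + b of V = F_p^d containing all translations and all maps x ↦ Ax with A of determinant 1. Then the 3-closure of G is the full affine group: a permutation σ of V agrees on every triple of points with some element of G if and only if σ is an affine map. -/
theorem result (p : ℕ) [Fact p.Prime] (hp : p ≠ 2) (d : ℕ) (hd : 3 ≤ d) (G : Subgroup (Equiv.Perm (Fin d → ZMod p)))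
    (haff : (G : Set (Equiv.Perm (Fin d → ZMod p))) ⊆ {τ : Equiv.Perm (Fin d → ZMod p) | ∃ (A : (Fin d → ZMod p) ≃ₗ[ZMod p] (Fin d → ZMod p)) (b : Fin d → ZMod p), ∀ x, τ x = A x + b})
    (htrans : ∀ b : Fin d → ZMod p, ∃ g ∈ G, ∀ x, g x = x + b)
    (hsl : ∀ A : (Fin d → ZMod p) ≃ₗ[ZMod p] (Fin d → ZMod p), LinearMap.det (A : (Fin d → ZMod p) →ₗ[ZMod p] (Fin d → ZMod p)) = 1 → ∃ g ∈ G, ∀ x, g x = A x)
    (σ : Equiv.Perm (Fin d → ZMod p)) :
    (∀ t : Fin 3 → (Fin d → ZMod p), ∃ g ∈ G, ∀ i, σ (t i) = g (t i)) ↔ σ ∈ {τ : Equiv.Perm (Fin d → ZMod p) | ∃ (A : (Fin d → ZMod p) ≃ₗ[ZMod p] (Fin d → ZMod p)) (b : Fin d → ZMod p), ∀ x, τ x = A x + b} := by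
  have h2 : (2 : ZMod p) ≠ 0 := by
    intro h
    have h' : ((2 : ℕ) : ZMod p) = 0 := by exact_mod_cast h
    rw [ZMod.natCast_eq_zero_iff] at h'
    exact hp ((Nat.prime_dvd_prime_iff_eq Fact.out Nat.prime_two).1 h')
  constructor
  · intro h
    apply CfsgLib.Recog.affine_of_agree_triples h2
    intro x y z
    obtain ⟨g, hg, h'⟩ := h ![x, y, z]
    obtain ⟨A, b, hA⟩ := haff hg
    exact ⟨A, b, (h' 0).trans (hA _), (h' 1).trans (hA _), (h' 2).trans (hA _)⟩
  · rintro ⟨A, b, hA⟩ t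
    obtain ⟨B, hB, h1, h2⟩ := CfsgLib.Recog.exists_det_one_agree (K := ZMod p) (by simpa using hd) A
      (t 1 - t 0) (t 2 - t 0)
    obtain ⟨g, hg, hg'⟩ := hsl B hB
    obtain ⟨τ, hτ, hτ'⟩ := htrans (A (t 0) + b - B (t 0))
    refine ⟨τ * g, G.mul_mem hτ hg, ?_⟩
    simp only [map_sub] at h1 h2
    intro i
    rw [Equiv.Perm.mul_apply, hτ', hg', hA]
    fin_cases i
    · simp
    · change A (t 1) + b = B (t 1) + _
      linear_combination -h1
    · change A (t 2) + b = B (t 2) + _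
      linear_combination -h2

end Cfsg.Agent.S3516
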