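import Cfsg.Statements.S3517
import Cfsg.Agent.Lib.Recog.AffClosure

set_option autoImplicit false
open Cfsg

namespace Cfsg.Agent.S3517

/-- For d ≥ 3, the 3-closure of the affine group AGL_d(2) acting on F_2^d is the full symmetric group: every permutation of F_2^d agrees on every ordered triple of points with some affine map (AGL_d(2) is 3-transitive). -/
theorem result (d : ℕ) (hd : 3 ≤ d) (σ : Equiv.Perm (Fin d → ZMod 2)) (t : Fin 3 → (Fin d → ZMod 2)) :
    ∃ (A : (Fin d → ZMod 2) ≃ₗ[ZMod 2] (Fin d → ZMod 2)) (b : Fin d → ZMod 2), ∀ i, σ (t i) = A (t i) + b := by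
  obtain ⟨A, hA⟩ := CfsgLib.Recog.exists_linearEquiv_of_same_relations (K := ZMod 2)
    ![t 1 - t 0, t 2 - t 0] ![σ (t 1) - σ (t 0), σ (t 2) - σ (t 0)] (by
      intro c
      have hc : ∀ a : ZMod 2, a = 0 ∨ a = 1 := by decide
      have hneg : ∀ a b e : Fin d → ZMod 2, a - e + (b - e) = 0 ↔ a = b := by
        intro a b e
        have h2 : ∀ x : Fin d → ZMod 2, -x = x := fun x => by
          ext i; exact ZMod.neg_eq_self_mod_two _
        rw [add_eq_zero_iff_eq_neg, h2, sub_left_inj]
      simp only [Fin.sum_univ_two, Matrix.cons_val_zero, Matrix.cons_val_one]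
      rcases hc (c 0) with h0 | h0 <;> rcases hc (c 1) with h1 | h1 <;>
        simp [h0, h1, hneg, sub_eq_zero])
  refine ⟨A, σ (t 0) - A (t 0), ?_⟩
  have h1 := hA 0
  have h2 := hA 1
  simp only [Matrix.cons_val_zero, Matrix.cons_val_one, map_sub] at h1 h2
  intro i
  fin_cases i
  · simp
  · change σ (t 1) = A (t 1) + _
    linear_combination -h1
  · change σ (t 2) = A (t 2) + _
    linear_combination -h2

end Cfsg.Agent.S3517
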