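import Cfsg.Statements.S3518
import Cfsg.Agent.Lib.Perm.PrimeDegree

set_option autoImplicit false
open Cfsg

namespace Cfsg.Agent.S3518

/-- Closures of subgroups of the one-dimensional affine group. Let p be a prime and G a group of permutations of F_p lying in the affine group AGL₁(p) = {x ↦ ax + b, a ≠ 0} and containing all translations. (1) If G is a proper subgroup of AGL₁(p), then G is 2-closed: a permutation of F_p agreeing on every ordered pair of points with some element of G lies in G. (2) Every permutation of F_p agrees on every ordered pair with some element of AGL₁(p) (the 2-closure of AGL₁(p) is the symmetric group). (3) AGL₁(p) is 3-closed: a permutation agreeing on every ordered triple with some affine map is affine. -/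
theorem result (p : ℕ) [Fact p.Prime] (G : Subgroup (Equiv.Perm (ZMod p))) (hG : G ≤ Cfsg.affineGroup (ZMod p))
    (htrans : ∀ b : ZMod p, ∃ g ∈ G, ∀ x, g x = x + b) :
    (G ≠ Cfsg.affineGroup (ZMod p) → ∀ σ : Equiv.Perm (ZMod p), (∀ t : Fin 2 → ZMod p, ∃ g ∈ G, ∀ i, σ (t i) = g (t i)) → σ ∈ G) ∧
    (∀ σ : Equiv.Perm (ZMod p), (∀ t : Fin 2 → ZMod p, ∃ g ∈ Cfsg.affineGroup (ZMod p), ∀ i, σ (t i) = g (t i))) ∧
    (∀ σ : Equiv.Perm (ZMod p), (∀ t : Fin 3 → ZMod p, ∃ g ∈ Cfsg.affineGroup (ZMod p), ∀ i, σ (t i) = g (t i)) → σ ∈ Cfsg.affineGroup (ZMod p)) := by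
  have hcl3 : ∀ σ : Equiv.Perm (ZMod p), (∀ x : ZMod p, ∃ g ∈ Cfsg.affineGroup (ZMod p),
      σ 0 = g 0 ∧ σ 1 = g 1 ∧ σ x = g x) → σ ∈ Cfsg.affineGroup (ZMod p) := by
    intro σ h
    have hne : σ 1 - σ 0 ≠ 0 := sub_ne_zero.2 (fun h => one_ne_zero (σ.injective h))
    refine ⟨Units.mk0 _ hne, σ 0, fun x => ?_⟩
    obtain ⟨g, ⟨a, b, hg⟩, h0, h1, hx⟩ := h x
    rw [Units.val_mk0, hx, h0, h1, hg, hg, hg]
    ring
  refine ⟨fun hne σ hσ => ?_, fun σ t => ?_, fun σ hσ => hcl3 σ (fun x => ?_)⟩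
  · let X : Subgroup (Equiv.Perm (ZMod p)) :=
      { carrier := {σ | ∀ x y : ZMod p, ∃ g ∈ G, σ x = g x ∧ σ y = g y}
        one_mem' := fun x y => ⟨1, G.one_mem, rfl, rfl⟩
        mul_mem' := by
          intro a b ha hb x y
          obtain ⟨g, hg, h1, h2⟩ := hb x y
          obtain ⟨g', hg', h3, h4⟩ := ha (b x) (b y)
          refine ⟨g' * g, G.mul_mem hg' hg, ?_, ?_⟩
          · rw [Equiv.Perm.mul_apply, Equiv.Perm.mul_apply, h3, h1]
          · rw [Equiv.Perm.mul_apply, Equiv.Perm.mul_apply, h4, h2]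
        inv_mem' := by
          intro a ha x y
          obtain ⟨g, hg, h1, h2⟩ := ha (a⁻¹ x) (a⁻¹ y)
          refine ⟨g⁻¹, G.inv_mem hg, ?_, ?_⟩
          · rw [Equiv.Perm.eq_inv_iff_eq, ← h1]; simp
          · rw [Equiv.Perm.eq_inv_iff_eq, ← h2]; simp }
    have hGX : G ≤ X := fun g hg x y => ⟨g, hg, rfl, rfl⟩
    have hσX : σ ∈ X := by
      intro x y
      obtain ⟨g, hg, h⟩ := hσ ![x, y]
      exact ⟨g, hg, h 0, h 1⟩
    have hmem : ∀ τ ∈ X, (∃ a b : ZMod p, ∀ j, τ j = a * j + b) → τ ∈ G := by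
      rintro τ hτ ⟨a, b, h⟩
      obtain ⟨g, hg, h0, h1⟩ := hτ 0 1
      obtain ⟨a', b', h'⟩ := hG hg
      have : τ = g := by
        ext x
        rw [h, h'] at h0 h1 ⊢
        linear_combination x * h1 + (1 - x) * h0
      rw [this]; exact hg
    have htr : MulAction.IsPretransitive X (ZMod p) := ⟨fun x y => by
      obtain ⟨g, hg, h⟩ := htrans (y - x)
      refine ⟨⟨g, hGX hg⟩, ?_⟩
      change g x = y
      rw [h]; ring⟩
    obtain ⟨T, hT, hT'⟩ := htrans 1
    by_cases haff : ∀ g : X, ∃ a b : ZMod p, ∀ j,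
        g • (Equiv.refl (ZMod p)) j = (Equiv.refl (ZMod p)) (a * j + b)
    · exact hmem σ hσX (haff ⟨σ, hσX⟩)
    · exfalso
      have h2 := CfsgLib.Perm.two_transitive_of_not_affine (T := (⟨T, hGX hT⟩ : X))
        (e := Equiv.refl (ZMod p)) (fun j => hT' j) haff
      apply hne
      refine le_antisymm hG ?_
      rintro τ ⟨a, b, hτ⟩
      rw [MulAction.is_two_pretransitive_iff] at h2
      obtain ⟨x, hx0, hx1⟩ := h2 (a := 0) (b := 1) (c := τ 0) (d := τ 1) zero_ne_one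
        (fun h => zero_ne_one (τ.injective h))
      obtain ⟨g, hg, h0, h1⟩ := x.2 0 1
      obtain ⟨a', b', h'⟩ := hG hg
      have hx0' : (x : Equiv.Perm (ZMod p)) 0 = τ 0 := hx0
      have hx1' : (x : Equiv.Perm (ZMod p)) 1 = τ 1 := hx1
      have : τ = g := by
        ext y
        rw [hx0', hτ, h'] at h0
        rw [hx1', hτ, h'] at h1
        rw [hτ, h']
        linear_combination y * h1 + (1 - y) * h0
      rw [this]; exact hg
  · have key : ∀ (a : (ZMod p)ˣ) (b : ZMod p), ∃ g ∈ Cfsg.affineGroup (ZMod p),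
        ∀ x, g x = a * x + b := fun a b =>
      ⟨(Units.mulLeft a).trans (Equiv.addRight b), ⟨a, b, fun x => rfl⟩, fun x => rfl⟩
    by_cases h : t 0 = t 1
    · obtain ⟨g, hg, h'⟩ := key 1 (σ (t 0) - t 0)
      refine ⟨g, hg, ?_⟩
      rw [Fin.forall_fin_two, ← h, h']
      simp
    · have h1 : t 1 - t 0 ≠ 0 := sub_ne_zero.2 (Ne.symm h)
      have h2 : σ (t 1) - σ (t 0) ≠ 0 := sub_ne_zero.2 (fun h' => h (σ.injective h').symm)
      obtain ⟨g, hg, h'⟩ := key (Units.mk0 _ (div_ne_zero h2 h1))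
        (σ (t 0) - (σ (t 1) - σ (t 0)) / (t 1 - t 0) * t 0)
      refine ⟨g, hg, ?_⟩
      rw [Fin.forall_fin_two, h', h', Units.val_mk0]
      constructor
      · ring
      · field_simp
        ring
  · obtain ⟨g, hg, h⟩ := hσ ![0, 1, x]
    exact ⟨g, hg, h 0, h 1, h 2⟩

end Cfsg.Agent.S3518
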