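import Cfsg.Statements.S3521
import Cfsg.Agent.Lib.XPrim.AS

set_option autoImplicit false
open Cfsg

namespace Cfsg.Agent.S3521

open CfsgLib CfsgLib.XPrim MulAction

/-- Let a finite group G that is not solvable act faithfully and primitively on a finite set with p ^ d points (p prime), with a non-trivial abelian normal subgroup acting regularly (affine type) and with non-trivial point stabilizers each acting primitively on every one of its orbits (an insoluble extremely primitive group of affine type). Then p = 2; and if moreover G is not 2-transitive, then a point stabilizer is almost simple (it has a non-abelian simple normal subgroup with trivial centralizer). -/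
theorem result {G : Type*} [Group G] [Finite G] {Ω : Type*} [Fintype Ω] [MulAction G Ω] [FaithfulSMul G Ω] (p d : ℕ) (hp : p.Prime) (hcard : Fintype.card Ω = p ^ d) (hsol : ¬ Group.IsSolvable G)
    (N : Subgroup G) [N.Normal] (hN : N ≠ ⊥) (hNc : IsMulCommutative N) (hNreg : ∀ ω : Ω, MulAction.stabilizer N ω = ⊥)
    (hprim : MulAction.IsPreprimitive G Ω) (hH : ∀ α : Ω, MulAction.stabilizer G α ≠ ⊥) (hep : ∀ (α : Ω) (ω : Ω), MulAction.IsPreprimitive (MulAction.stabilizer G α) (MulAction.orbit (MulAction.stabilizer G α) ω)) (α : Ω) :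
    p = 2 ∧ (¬ MulAction.IsMultiplyPretransitive G Ω 2 → ∃ T : Subgroup (MulAction.stabilizer G α), T.Normal ∧ IsSimpleGroup T ∧ ¬ IsMulCommutative T ∧ Subgroup.centralizer (T : Set (MulAction.stabilizer G α)) = ⊥) := by
  obtain ⟨V, _, _, e, _, -, -, x⟩ := exists_XP hN (fun n hn ω h => by
    have : (⟨n, hn⟩ : N) ∈ stabilizer N ω := h
    rw [hNreg, Subgroup.mem_bot] at this
    exact congrArg Subtype.val this) (hH α) (hep α)
  have : Finite V := Finite.of_equiv _ e.symm
  have hns : ¬ Group.IsSolvable (stabilizer G α) := fun h => by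
    have : Group.IsSolvable N := Group.isSolvable_of_comm fun a b => mul_comm' a b
    have : Group.IsSolvable (G ⧸ N) := Group.isSolvable_of_surjective
      (f := (QuotientGroup.mk' N).comp (stabilizer G α).subtype) fun y => by
        obtain ⟨g, rfl⟩ := QuotientGroup.mk_surjective y
        obtain ⟨n, hn, h⟩ := DerCls.transitive_of_normal N hN α (g⁻¹ • α)
        refine ⟨⟨g * n, show (g * n) • α = α by rw [mul_smul, h, smul_inv_smul]⟩, ?_⟩
        exact QuotientGroup.mk_mul_of_mem g hn
    exact hsol ((Group.isSolvable_iff_subgroup_quotient N).2 ⟨inferInstance, inferInstance⟩)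
  refine ⟨?_, fun _ => x.almost_simple hns⟩
  have := XP.nontriv (V := V) (hM := (Subgroup.nontrivial_iff_ne_bot (⊤ : Subgroup (stabilizer G α))).1
    (by have := (Subgroup.nontrivial_iff_ne_bot _).2 (hH α); infer_instance))
  obtain ⟨v, hv⟩ := exists_ne (0 : V)
  have h2 : addOrderOf v = 2 := addOrderOf_eq_prime ((two_nsmul v).trans (x.char_two hns v)) hv
  have h3 := addOrderOf_dvd_natCard v
  rw [h2, Nat.card_congr e, Nat.card_eq_fintype_card, hcard] at h3
  exact ((Nat.prime_dvd_prime_iff_eq Nat.prime_two hp).1 (Nat.prime_two.dvd_of_dvd_pow h3)).symm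

end Cfsg.Agent.S3521
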