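import Cfsg.Statements.S3547
import Cfsg.Agent.Lib.Recog.Derang

set_option autoImplicit false
open Cfsg

namespace Cfsg.Agent.S3547

open MulAction CfsgLib.Recog

theorem card_fixedBy_prod {G Ω : Type*} [Group G] [MulAction G Ω] (g : G) :
    Nat.card (fixedBy (Ω × Ω) g) = Nat.card (fixedBy Ω g) * Nat.card (fixedBy Ω g) := by
  rw [← Nat.card_prod]
  refine Nat.card_congr
    { toFun := fun x => (⟨x.1.1, congrArg Prod.fst x.2⟩, ⟨x.1.2, congrArg Prod.snd x.2⟩)
      invFun := fun y => ⟨(y.1.1, y.2.1), Prod.ext y.1.2 y.2.2⟩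
      left_inv := fun x => rfl
      right_inv := fun y => rfl }


/-- Let G act faithfully and transitively on a finite set Ω, let D be the subgroup generated by the derangements, and let r_G and r_D be the numbers of orbits of G and of D on ordered pairs of points (the permutation ranks). Then r_D − 1 = (r_G − 1)·[G : D]. -/
theorem result {G Ω : Type*} [Group G] [Finite G] [MulAction G Ω] [FaithfulSMul G Ω] [Finite Ω]
    (htrans : MulAction.IsPretransitive G Ω) :
    Nat.card (MulAction.orbitRel.Quotient ↥(Subgroup.closure {g : G | ∀ ω : Ω, g • ω ≠ ω}) (Ω × Ω)) - 1 =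
      (Nat.card (MulAction.orbitRel.Quotient G (Ω × Ω)) - 1) * (Subgroup.closure {g : G | ∀ ω : Ω, g • ω ≠ ω}).index := by
  classical
  rcases isEmpty_or_nonempty Ω with hΩ | hΩ
  · have h1 : ∀ (H : Type _) [Group H] [MulAction H Ω],
        Nat.card (orbitRel.Quotient H (Ω × Ω)) = 0 := by
      intro H _ _
      rw [Nat.card_eq_zero]
      left
      exact ⟨fun q => by
        induction q using Quotient.inductionOn' with
        | h x => exact isEmptyElim x.1⟩
    rw [h1, h1]; simp
  haveI := Fintype.ofFinite G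
  change Nat.card (orbitRel.Quotient (derSub G Ω) (Ω × Ω)) - 1 = _ * (derSub G Ω).index
  set D := derSub G Ω with hD
  have h1 := burnside_nat G (Ω × Ω)
  rw [sum_split_subgroup D] at h1
  have h2 : ∑ d : D, Nat.card (fixedBy (Ω × Ω) (d : G)) =
      Nat.card (orbitRel.Quotient D (Ω × Ω)) * Nat.card D := burnside_nat D (Ω × Ω)
  have h3 : ∑ g ∈ Finset.univ.filter (fun g => g ∉ D), Nat.card (fixedBy (Ω × Ω) g) =
      (Finset.univ.filter (fun g => g ∉ D)).card := by
    rw [Finset.card_eq_sum_ones]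
    apply Finset.sum_congr rfl
    intro g hg
    rw [card_fixedBy_prod, (derSub_key G Ω).2 g (by simpa using hg)]
  have h4 := card_filter_not_mem D
  rw [h2, h3] at h1
  have h5 := D.index_mul_card
  have hDpos : 0 < Nat.card D := Nat.card_pos
  haveI : Nonempty (orbitRel.Quotient D (Ω × Ω)) := ⟨Quotient.mk'' (Classical.arbitrary _)⟩
  haveI : Nonempty (orbitRel.Quotient G (Ω × Ω)) := ⟨Quotient.mk'' (Classical.arbitrary _)⟩
  have hr : 0 < Nat.card (orbitRel.Quotient D (Ω × Ω)) := Nat.card_pos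
  have hr' : 0 < Nat.card (orbitRel.Quotient G (Ω × Ω)) := Nat.card_pos
  obtain ⟨a, ha⟩ := Nat.exists_eq_add_one_of_ne_zero hr.ne'
  obtain ⟨b, hb⟩ := Nat.exists_eq_add_one_of_ne_zero hr'.ne'
  rw [ha, hb] at h1 ⊢
  simp only [Nat.add_sub_cancel]
  apply Nat.eq_of_mul_eq_mul_right hDpos
  rw [mul_assoc, h5]
  nlinarith

end Cfsg.Agent.S3547
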