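import Cfsg.Statements.S3548
import Cfsg.Agent.Lib.Recog.Derang

set_option autoImplicit false
open Cfsg

namespace Cfsg.Agent.S3548

open MulAction CfsgLib.Recog


/-- Let G act faithfully and transitively on a finite set with n ≥ 2 points and let D be the subgroup generated by the derangements. Then the index of D in G divides n − 1, and if it equals n − 1 then n is a prime power. -/
theorem result {G Ω : Type*} [Group G] [Finite G] [MulAction G Ω] [FaithfulSMul G Ω] [Finite Ω]
    (htrans : MulAction.IsPretransitive G Ω) (hΩ : 2 ≤ Nat.card Ω) :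
    (Subgroup.closure {g : G | ∀ ω : Ω, g • ω ≠ ω}).index ∣ Nat.card Ω - 1 ∧
    ((Subgroup.closure {g : G | ∀ ω : Ω, g • ω ≠ ω}).index = Nat.card Ω - 1 → IsPrimePow (Nat.card Ω)) := by
  classical
  haveI : Nontrivial Ω := Finite.one_lt_card_iff_nontrivial.1 hΩ
  refine ⟨index_derSub_dvd_card_sub_one G Ω, fun hidx => ?_⟩
  change (derSub G Ω).index = _ at hidx
  set D := derSub G Ω with hD
  haveI : D.Normal := derSub_normal G Ω
  haveI : IsPretransitive D Ω := (derSub_key G Ω).1
  obtain ⟨a, b₀, hab₀⟩ := exists_pair_ne Ω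
  -- every non-trivial suborbit is everything
  have horb : ∀ b : Ω, a ≠ b → Nat.card (orbit (stabilizer G a) b) = Nat.card Ω - 1 ∧
      orbit (stabilizer G a) b = {a}ᶜ := by
    intro b hab
    have h1 := index_derSub_dvd_subdegree (G := G) hab
    rw [← hD, hidx] at h1
    have hsub : orbit (stabilizer G a) b ⊆ {a}ᶜ := by
      rintro _ ⟨h, rfl⟩ h'
      have h2 : (h : G) • b = (h : G) • a := by rw [h.2]; exact h'
      exact hab (smul_left_cancel _ h2).symm
    have hc : ({a}ᶜ : Set Ω).ncard = Nat.card Ω - 1 := by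
      rw [Set.ncard_compl, Set.ncard_singleton]
    have h3 : (orbit (stabilizer G a) b).ncard ≤ Nat.card Ω - 1 := hc ▸ Set.ncard_le_ncard hsub
    haveI : Nonempty (orbit (stabilizer G a) b) := ⟨⟨b, mem_orbit_self b⟩⟩
    have h4 : Nat.card Ω - 1 ≤ Nat.card (orbit (stabilizer G a) b) :=
      Nat.le_of_dvd Nat.card_pos h1
    have h5 : Nat.card (orbit (stabilizer G a) b) = Nat.card Ω - 1 := le_antisymm h3 h4
    exact ⟨h5, Set.eq_of_subset_of_ncard_le hsub (by rw [hc]; exact h4)⟩
  -- the stabilizer of `a` in `D` is trivial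
  have hDa : ∀ d ∈ D, d • a = a → d = 1 := by
    intro d hd hda
    apply FaithfulSMul.eq_of_smul_eq_smul (α := Ω)
    intro b
    rw [one_smul]
    by_cases hab : a = b
    · rw [← hab]; exact hda
    have hle : stabilizer (stabilizer G a) b ≤ D.subgroupOf (stabilizer G a) := by
      intro g hg
      exact mem_derSub_of_fix_two hab g.2 hg
    have hi1 : (stabilizer (stabilizer G a) b).index = Nat.card Ω - 1 := by
      rw [← (horb b hab).1, Nat.card_congr (orbitEquivQuotientStabilizer (stabilizer G a) b)]
      rfl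
    have hi2 : (D.subgroupOf (stabilizer G a)).index = Nat.card Ω - 1 := by
      rw [← hidx, ← relIndex_stabilizer_eq_index D a]; rfl
    have heq : stabilizer (stabilizer G a) b = D.subgroupOf (stabilizer G a) := by
      apply Subgroup.eq_of_le_of_card_ge hle
      have e1 := (stabilizer (stabilizer G a) b).index_mul_card
      have e2 := (D.subgroupOf (stabilizer G a)).index_mul_card
      rw [hi1] at e1
      rw [hi2, ← e1] at e2
      have : 0 < Nat.card Ω - 1 := by omega
      exact (Nat.eq_of_mul_eq_mul_left this e2).le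
    have : (⟨d, hda⟩ : stabilizer G a) ∈ stabilizer (stabilizer G a) b := by
      rw [heq]; exact hd
    exact this
  have hcardD : Nat.card D = Nat.card Ω := by
    refine Nat.card_congr (Equiv.ofBijective (fun d : D => (d : G) • a) ⟨?_, ?_⟩)
    · intro d e hde
      have : (e : G)⁻¹ * d = 1 := by
        apply hDa _ (D.mul_mem (D.inv_mem e.2) d.2)
        change (d : G) • a = (e : G) • a at hde
        rw [mul_smul, hde, inv_smul_smul]
      rw [inv_mul_eq_one] at this
      exact Subtype.ext this.symm
    · intro b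
      exact exists_smul_eq D a b
  -- all non-identity elements of `D` have the same order
  have hconj : ∀ d e : D, d ≠ 1 → e ≠ 1 → orderOf d = orderOf e := by
    intro d e hd he
    have hd' : a ≠ (d : G) • a := fun h => hd (Subtype.ext (hDa _ d.2 h.symm))
    have he' : a ≠ (e : G) • a := fun h => he (Subtype.ext (hDa _ e.2 h.symm))
    have : (e : G) • a ∈ orbit (stabilizer G a) ((d : G) • a) := by
      rw [(horb _ hd').2]; exact fun h => he' h.symm
    obtain ⟨h, hh⟩ := this
    change (h : G) • (d : G) • a = (e : G) • a at hh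
    have h1 : (e : G)⁻¹ * (h * d * (h : G)⁻¹) = 1 := by
      apply hDa _ (D.mul_mem (D.inv_mem e.2) (Subgroup.Normal.conj_mem inferInstance _ d.2 _))
      have : (h : G)⁻¹ • a = a := (stabilizer G a).inv_mem h.2
      rw [mul_smul, mul_smul, mul_smul, this, hh, inv_smul_smul]
    rw [inv_mul_eq_one] at h1
    rw [← Subgroup.orderOf_coe, ← Subgroup.orderOf_coe, h1]
    exact ((MulAut.conj (h : G)).orderOf_eq (d : G)).symm
  have hne : Nat.card D ≠ 1 := by omega
  obtain ⟨p, hp, hpd⟩ := Nat.exists_prime_and_dvd hne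
  haveI := Fact.mk hp
  obtain ⟨c, hc⟩ := exists_prime_orderOf_dvd_card' p hpd
  have hc1 : c ≠ 1 := by
    rintro rfl
    rw [orderOf_one] at hc
    exact hp.one_lt.ne hc
  have hP : IsPGroup p D := by
    intro d
    by_cases hd : d = 1
    · exact ⟨0, by simp [hd]⟩
    · exact ⟨1, by rw [pow_one, ← hc, ← hconj d c hd hc1, pow_orderOf_eq_one]⟩
  obtain ⟨k, hk⟩ := IsPGroup.iff_card.1 hP
  rw [← hcardD, hk]
  refine ⟨p, k, hp.prime, ?_, rfl⟩
  rcases k with _ | k
  · rw [hk] at hne; simp at hne
  · omega

end Cfsg.Agent.S3548
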