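import Cfsg.Statements.S3550
import Cfsg.Agent.Lib.DIX.Main

set_option autoImplicit false
open Cfsg

namespace Cfsg.Agent.S3550

/-- Let G act faithfully and primitively on a finite set with n ≥ 2 points and suppose G has no non-trivial abelian normal subgroup (G is not of affine type). Let D be the subgroup generated by the derangements. Then the index of D in G is at most √n − 1. -/
theorem result {G Ω : Type*} [Group G] [Finite G] [MulAction G Ω] [FaithfulSMul G Ω] [Finite Ω]
    (hprim : MulAction.IsPreprimitive G Ω) (hΩ : 2 ≤ Nat.card Ω) (hna : ∀ N : Subgroup G, N.Normal → IsMulCommutative ↥N → N = ⊥) :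
    ((Subgroup.closure {g : G | ∀ ω : Ω, g • ω ≠ ω}).index : ℝ) ≤ Real.sqrt (Nat.card Ω) - 1 := by
  haveI := hprim.toIsPretransitive
  apply CfsgLib.DIX.real_bound
  by_contra hn
  obtain ⟨S, h1, h2, h3⟩ :=
    (CfsgLib.DIX.dat_derSub (G := G) (Ω := Ω)).exists_normal hΩ (not_le.1 hn)
  exact h3 (hna S h1 h2)

end Cfsg.Agent.S3550
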