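import Mathlib
import Cfsg.Statements.S3560


set_option autoImplicit false
open Cfsg

namespace Cfsg.Agent.S3560

section Aux

variable {X ι M : Type*} (c : X ≃ (ι → M))

/-- At most one coordinate differs. -/
def Adj (x y : X) : Prop := ∃ i, ∀ k, k ≠ i → c x k = c y k

/-- The automorphism group of the Hamming graph. -/
def ham : Subgroup (Equiv.Perm X) where
  carrier := {σ | ∀ x y, Adj c (σ x) (σ y) ↔ Adj c x y}
  one_mem' := fun _ _ => Iff.rfl
  mul_mem' := fun ha hb x y => (ha _ _).trans (hb x y)
  inv_mem' := fun {a} ha x y => by simpa using (ha (a⁻¹ x) (a⁻¹ y)).symm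

theorem exists_ham (π : Equiv.Perm ι) (τ : ι → Equiv.Perm M) :
    ∃ g : ham c, ∀ x k, c (g • x) k = τ k (c x (π k)) := by
  let e : (ι → M) ≃ (ι → M) := (Equiv.arrowCongr π.symm (Equiv.refl M)).trans (Equiv.piCongrRight τ)
  have he : ∀ x k, c ((c.trans (e.trans c.symm)) x) k = τ k (c x (π k)) := fun x k => by simp [e]
  refine ⟨⟨c.trans (e.trans c.symm), fun x y => ⟨?_, ?_⟩⟩, he⟩
  · rintro ⟨i, hi⟩
    refine ⟨π i, fun k hk => ?_⟩
    have := hi (π.symm k) fun h => hk (by rw [← h]; simp)
    rw [he, he] at this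
    simpa using this
  · rintro ⟨i, hi⟩
    refine ⟨π.symm i, fun k hk => ?_⟩
    rw [he, he, hi _ fun h => hk (by rw [← h]; simp)]

theorem ham_prim [Fintype ι] [Fintype M] (hM : 3 ≤ Fintype.card M) :
    MulAction.IsPreprimitive (ham c) X := by
  classical
  have htr : ∀ x y : X, ∃ g : ham c, g • x = y := fun x y => by
    obtain ⟨g, hg⟩ := exists_ham c 1 fun k => Equiv.swap (c x k) (c y k)
    exact ⟨g, c.injective (funext fun k => by simp [hg])⟩
  refine @MulAction.IsPreprimitive.mk _ _ _ ⟨htr⟩ fun {B} hB => ?_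
  rw [MulAction.isBlock_iff_smul_eq_of_mem] at hB
  have hB' : ∀ (g : ham c) {x y : X}, x ∈ B → g • x ∈ B → y ∈ B → g • y ∈ B := fun g x y hx hg hy => by
    rw [← hB hx hg]; exact Set.smul_mem_smul_set hy
  rw [MulAction.IsTrivialBlock, or_iff_not_imp_left, Set.not_subsingleton_iff]
  rintro ⟨x, hx, y, hy, hxy⟩
  obtain ⟨i, hi⟩ := Function.ne_iff.mp (c.injective.ne hxy)
  obtain ⟨a, ha1, ha2⟩ : ∃ a : M, a ≠ c x i ∧ a ≠ c y i := by
    by_contra h
    push Not at h
    have : (Finset.univ : Finset M) ⊆ {c x i, c y i} := fun a _ => by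
      by_cases h1 : a = c x i
      · simp [h1]
      · simp [h a h1]
    have h2 := (Finset.card_le_card this).trans Finset.card_le_two
    rw [Finset.card_univ] at h2
    omega
  have h1 : c.symm (Function.update (c y) i a) ∈ B := by
    obtain ⟨g, hg⟩ := exists_ham c 1 (Function.update (fun _ => 1) i (Equiv.swap (c y i) a))
    have e1 : g • x = x := c.injective (funext fun k => by
      by_cases hk : k = i
      · subst hk; simp [hg, Equiv.swap_apply_of_ne_of_ne hi ha1.symm]
      · simp [hg, hk])
    have e2 : g • y = c.symm (Function.update (c y) i a) := c.injective (funext fun k => by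
      by_cases hk : k = i
      · subst hk; simp [hg]
      · simp [hg, hk])
    exact e2 ▸ hB' g hx (e1.symm ▸ hx) hy
  have h2 : ∀ z ∈ B, ∀ j b, c.symm (Function.update (c z) j b) ∈ B := by
    intro z hz j b
    by_cases hb : b = c z j
    · simpa [hb] using hz
    obtain ⟨t, ht1, ht2⟩ := MulAction.is_two_pretransitive_iff.mp
      (Equiv.Perm.isMultiplyPretransitive M 2) ha2.symm (Ne.symm hb)
    obtain ⟨g, hg⟩ := exists_ham c (Equiv.swap i j)
      (Function.update (fun k => Equiv.swap (c y (Equiv.swap i j k)) (c z k)) j t)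
    have e1 : g • y = z := c.injective (funext fun k => by
      by_cases hk : k = j
      · subst hk; simpa [hg] using ht1
      · simp [hg, hk])
    have e2 : g • c.symm (Function.update (c y) i a) = c.symm (Function.update (c z) j b) :=
      c.injective (funext fun k => by
        by_cases hk : k = j
        · subst hk; simpa [hg] using ht2
        · have : Equiv.swap i j k ≠ i := fun h => hk ((Equiv.swap i j).injective (by simpa using h))
          simp [hg, hk, this])
    exact e2 ▸ hB' g hy (e1.symm ▸ hz) h1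
  refine Set.eq_univ_of_forall fun w => ?_
  have h3 : ∀ s : Finset ι, c.symm (s.piecewise (c w) (c y)) ∈ B := fun s => by
    induction s using Finset.induction_on with
    | empty => simpa using hy
    | insert j s _ ih => simpa [Finset.piecewise_insert] using h2 _ ih j (c w j)
  simpa using h3 Finset.univ

theorem ham_not_two [Nontrivial ι] [Nontrivial M] : ¬ MulAction.IsMultiplyPretransitive (ham c) X 2 := by
  classical
  intro h
  obtain ⟨a, b, hab⟩ := exists_pair_ne M
  obtain ⟨i⟩ : Nonempty ι := inferInstance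
  have h' : ∀ {a b c' d : X} (_ : a ≠ b) (_ : c' ≠ d), ∃ g : ham c, g • a = c' ∧ g • b = d :=
    MulAction.is_two_pretransitive_iff.mp h
  obtain ⟨g, h1, h2⟩ := h' (a := c.symm fun _ => a)
    (b := c.symm (Function.update (fun _ => a) i b)) (c' := c.symm fun _ => a) (d := c.symm fun _ => b)
    (c.symm.injective.ne fun H => hab (by simpa using congrFun H i))
    (c.symm.injective.ne fun H => hab (congrFun H i))
  have h3 := (g.2 (c.symm fun _ => a) (c.symm (Function.update (fun _ => a) i b))).mpr
    ⟨i, fun k hk => by simp [hk]⟩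
  rw [show g.1 _ = _ from h1, show g.1 _ = _ from h2] at h3
  obtain ⟨j, hj⟩ := h3
  obtain ⟨k, hk⟩ := exists_ne j
  exact hab (by simpa using hj k hk)

end Aux

/-- Let K be a finite group isomorphic to a direct product of r ≥ 2 groups all of the same order m ≥ 3. Then K is not a B-group: there is a primitive but not doubly transitive permutation group (on some finite set) containing a regular subgroup isomorphic to K. -/
theorem result {K : Type*} [Group K] [Finite K] {ι : Type*} [Fintype ι] (F : ι → Type*) [∀ i, Group (F i)]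
    (hr : 2 ≤ Fintype.card ι) (m : ℕ) (hm : 3 ≤ m) (hcard : ∀ i, Nat.card (F i) = m) (e : K ≃* (∀ i, F i)) :
    ∃ (n : ℕ) (G R : Subgroup (Equiv.Perm (Fin n))), R ≤ G ∧ Nonempty (↥R ≃* K) ∧
      MulAction.IsPretransitive ↥R (Fin n) ∧ (∀ a : Fin n, MulAction.stabilizer ↥R a = ⊥) ∧
      MulAction.IsPreprimitive ↥G (Fin n) ∧ ¬ MulAction.IsMultiplyPretransitive ↥G (Fin n) 2 := by
  classical
  have hfin : ∀ i, Finite (F i) := fun i => Nat.finite_of_card_ne_zero (by rw [hcard]; omega)
  let b : ∀ i, F i ≃ Fin m := fun i => Finite.equivFinOfCardEq (hcard i)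
  let ε : K ≃ Fin (Nat.card K) := Finite.equivFin K
  let c : Fin (Nat.card K) ≃ (ι → Fin m) := ε.symm.trans (e.toEquiv.trans (Equiv.piCongrRight b))
  let φ : K →* Equiv.Perm (Fin (Nat.card K)) :=
    ε.permCongrHom.toMonoidHom.comp (MulAction.toPermHom K K)
  have hφ : ∀ k x, φ k x = ε (k * ε.symm x) := fun _ _ => rfl
  have hinj : Function.Injective φ := ε.permCongrHom.injective.comp MulAction.toPerm_injective
  have : Nontrivial ι := Fintype.one_lt_card_iff_nontrivial.mp hr
  have : Nontrivial (Fin m) := Fin.nontrivial_iff_two_le.mpr (by omega)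
  refine ⟨Nat.card K, ham c, φ.range, ?_, ⟨(MonoidHom.ofInjective hinj).symm⟩, ⟨fun x y => ?_⟩,
    fun a => ?_, ham_prim c (by simpa using hm), ham_not_two c⟩
  · rintro _ ⟨k, rfl⟩
    obtain ⟨g, hg⟩ := exists_ham c 1 fun i => (b i).permCongr (Equiv.mulLeft (e k i))
    have : φ k = g.1 := Equiv.ext fun x => c.injective (funext fun i => by
      rw [show g.1 x = g • x from rfl, hg]
      simp [c, hφ])
    exact this ▸ g.2
  · exact ⟨⟨φ (ε.symm y * (ε.symm x)⁻¹), _, rfl⟩, show φ _ x = y by rw [hφ]; simp⟩
  · rw [eq_bot_iff]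
    rintro ⟨_, k, rfl⟩ hk
    have h1 : ε (k * ε.symm a) = a := hk
    have h2 : k = 1 := by
      have := congrArg ε.symm h1
      simpa using this
    subst h2
    exact Subtype.ext (map_one φ)

end Cfsg.Agent.S3560
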