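import Cfsg.Statements.S3571
import Cfsg.Agent.Lib.AltAut.Basic
import Cfsg.Agent.Lib.Perm.JordanPrime
import Cfsg.Agent.Lib.Perm.PermModule
import Cfsg.Agent.Lib.FgsH2.PlusTwo
import Cfsg.Agent.Lib.Core.Basic

set_option autoImplicit false
open Cfsg

namespace Cfsg.Agent.S3571

open Subgroup MulAction Equiv Equiv.Perm CfsgLib
open scoped Pointwise

set_option linter.unusedSectionVars false
set_option linter.style.haveILetI false

theorem not_dvd_choose {r a b : ℕ} (hr : r.Prime) (ha : a < r) (hb : b ≤ a) : ¬ r ∣ a.choose b :=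
  fun h => by
    have : a.choose b ∣ a.factorial := by
      rw [← Nat.choose_mul_factorial_mul_factorial hb, mul_assoc]; exact dvd_mul_right _ _
    exact absurd (hr.dvd_factorial.1 (h.trans this)) (by omega)

theorem choose_mono {m r k : ℕ} (h1 : r ≤ k) (h2 : k ≤ m / 2) : m.choose r ≤ m.choose k := by
  induction k, h1 using Nat.le_induction with
  | base => exact le_rfl
  | succ k _ ih => exact (ih (by omega)).trans (Nat.choose_le_succ_of_lt_half_left (by omega))

theorem pow_le_choose {m r : ℕ} (h : r ≤ m) : m ^ r ≤ r ^ r * m.choose r := by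
  refine Nat.le_of_mul_le_mul_left (c := r.factorial) ?_ r.factorial_pos
  rw [mul_left_comm, ← Nat.descFactorial_eq_factorial_mul_choose, ← Nat.descFactorial_self,
    Nat.descFactorial_eq_prod_range, Nat.descFactorial_eq_prod_range,
    ← Finset.card_range r, ← Finset.prod_const, ← Finset.prod_const, Finset.card_range,
    ← Finset.prod_mul_distrib, ← Finset.prod_mul_distrib]
  refine Finset.prod_le_prod' fun i _ => ?_
  rw [Nat.sub_mul, Nat.mul_sub, mul_comm r i]
  exact Nat.sub_le_sub_left (Nat.mul_le_mul_left i h) _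

theorem choose_le {m k r c : ℕ} (hm : 0 < m) (hk : k ≤ m)
    (hmax : ∀ s : ℕ, s.Prime → s ∣ m.choose k → s ≤ r)
    (hc : ∀ T : Finset ℕ, (∀ p ∈ T, p.Prime ∧ p ≤ r) → T.card ≤ c) : m.choose k ≤ m ^ c := by
  have h0 := (Nat.choose_pos hk).ne'
  rw [← Nat.prod_factorization_pow_eq_self h0, Finsupp.prod]
  refine (Finset.prod_le_pow_card _ _ m fun p _ => Nat.pow_factorization_choose_le hm).trans
    (Nat.pow_le_pow_right hm (hc _ fun p hp => ?_))
  have := Nat.mem_primeFactors.1 hp
  exact ⟨this.1, hmax p this.1 this.2.1⟩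

theorem card_primes {r : ℕ} {T : Finset ℕ} (h : ∀ p ∈ T, p.Prime ∧ p ≤ r) :
    T.card ≤ ((Finset.range ((r - 1) / 2 + 1)).erase 4).card := by
  refine Finset.card_le_card_of_injOn (fun p => (p - 1) / 2) (fun p hp => ?_) fun p hp q hq e => ?_
  · have := h p hp
    simp only [Finset.coe_erase, Finset.coe_range, Set.mem_diff, Set.mem_Iio, Set.mem_singleton_iff]
    refine ⟨by omega, fun e => ?_⟩
    obtain rfl | rfl : p = 9 ∨ p = 10 := by omega
    all_goals exact absurd this.1 (by norm_num)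
  · have h1 := (h p hp).1
    have h2 := (h q hq).1
    have := h1.two_le
    have := h2.two_le
    simp only at e
    rcases h1.eq_two_or_odd with a | a <;> rcases h2.eq_two_or_odd with b | b <;> omega

theorem sp3 (t : ℕ) : (t + 9) ^ 2 < (t + 9).choose 3 := by
  have hd : (t + 7) * ((t + 8) * ((t + 9) * 1)) = 6 * (t + 9).choose 3 :=
    Nat.descFactorial_eq_factorial_mul_choose (t + 9) 3
  nlinarith [Nat.zero_le (t ^ 3), Nat.zero_le (t ^ 2)]

theorem sp5 (t : ℕ) : (t + 25) ^ 3 < (t + 25).choose 5 := by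
  have a1 : 11 * (t + 25) ≤ (t + 21) * (t + 22) := by nlinarith
  have a2 : 11 * (t + 25) ≤ (t + 23) * (t + 24) := by nlinarith
  have a3 := Nat.mul_le_mul_left (t + 25) (Nat.mul_le_mul a1 a2)
  have a4 : 0 < (t + 25) ^ 3 := by positivity
  have hd : (t + 21) * ((t + 22) * ((t + 23) * ((t + 24) * ((t + 25) * 1)))) =
      120 * (t + 25).choose 5 := Nat.descFactorial_eq_factorial_mul_choose (t + 25) 5
  linarith

theorem sp7 (t : ℕ) : (t + 49) ^ 4 < (t + 49).choose 7 := by
  have a1 : 18 * (t + 49) ≤ (t + 43) * (t + 44) := by nlinarith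
  have a2 : 18 * (t + 49) ≤ (t + 45) * (t + 46) := by nlinarith
  have a5 : 18 * (t + 49) ≤ (t + 47) * (t + 48) := by nlinarith
  have a3 := Nat.mul_le_mul_left (t + 49) (Nat.mul_le_mul a5 (Nat.mul_le_mul a1 a2))
  have a4 : 0 < (t + 49) ^ 4 := by positivity
  have hd : (t + 43) * ((t + 44) * ((t + 45) * ((t + 46) * ((t + 47) * ((t + 48) *
      ((t + 49) * 1)))))) = 5040 * (t + 49).choose 7 :=
    Nat.descFactorial_eq_factorial_mul_choose (t + 49) 7
  linarith

theorem nt_aux {m k r : ℕ} (hr : r.Prime) (h3 : 3 ≤ r) (h1 : r ≤ k) (h2 : k ≤ m / 2)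
    (hm : r * r ≤ m) (hmax : ∀ s : ℕ, s.Prime → s ∣ m.choose k → s ≤ r) : False := by
  have hm0 : 0 < m := by nlinarith
  have key := (choose_mono h1 h2).trans (choose_le hm0 (by omega) hmax fun T hT => card_primes hT)
  by_cases h9 : 9 ≤ r
  · rw [Finset.card_erase_of_mem (Finset.mem_range.2 (by omega)), Finset.card_range,
      Nat.add_sub_cancel] at key
    have a1 := (pow_le_choose (m := m) (r := r) (by omega)).trans (Nat.mul_le_mul_left _ key)
    have a2 : m ^ r * m ^ r ≤ m ^ r * m ^ (r - 1) :=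
      calc m ^ r * m ^ r ≤ (r ^ r * m ^ ((r - 1) / 2)) * (r ^ r * m ^ ((r - 1) / 2)) :=
            Nat.mul_le_mul a1 a1
        _ = (r * r) ^ r * m ^ ((r - 1) / 2 + (r - 1) / 2) := by rw [mul_pow, pow_add]; ring
        _ ≤ _ := Nat.mul_le_mul (Nat.pow_le_pow_left hm _) (Nat.pow_le_pow_right hm0 (by omega))
    have a3 := Nat.le_of_mul_le_mul_left a2 (by positivity)
    have := (Nat.pow_le_pow_iff_right (by nlinarith : 1 < m)).1 a3
    omega
  obtain rfl | rfl | rfl : r = 3 ∨ r = 5 ∨ r = 7 := by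
    have := hr.eq_two_or_odd; omega
  · obtain ⟨t, rfl⟩ : ∃ t, m = t + 9 := Nat.exists_eq_add_of_le' hm
    exact absurd key (not_le.2 (sp3 t))
  · obtain ⟨t, rfl⟩ : ∃ t, m = t + 25 := Nat.exists_eq_add_of_le' hm
    exact absurd key (not_le.2 (sp5 t))
  · obtain ⟨t, rfl⟩ : ∃ t, m = t + 49 := Nat.exists_eq_add_of_le' hm
    exact absurd key (not_le.2 (sp7 t))

theorem nt {m k r : ℕ} (hr : r.Prime) (h3 : 3 ≤ r) (hk : k ≤ m) (hd : r ∣ m.choose k)
    (hmax : ∀ s : ℕ, s.Prime → s ∣ m.choose k → s ≤ r) : m % r < k % r := by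
  haveI := Fact.mk hr
  by_contra hn
  rw [not_lt] at hn
  have h0 : 0 < r := by omega
  have h1 := (Nat.modEq_zero_iff_dvd.1
    ((Choose.choose_modEq_choose_mod_mul_choose_div_nat (n := m) (k := k) (p := r)).symm.trans
      (Nat.modEq_zero_iff_dvd.2 hd)))
  have h2 := (hr.dvd_mul.1 h1).resolve_left (not_dvd_choose hr (Nat.mod_lt _ h0) hn)
  have h4 : k / r ≤ m / r := Nat.div_le_div_right hk
  have h5 : r ≤ m / r := by_contra fun h => not_dvd_choose hr (not_le.1 h) h4 h2
  have h6 : k / r ≠ 0 := fun e => by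
    rw [e, Nat.choose_zero_right, Nat.dvd_one] at h2; omega
  have h7 : k / r ≠ m / r := fun e => by
    rw [e, Nat.choose_self, Nat.dvd_one] at h2; omega
  have h8 := Nat.div_add_mod k r
  have h9 := Nat.div_add_mod m r
  have a1 : r * 1 ≤ r * (k / r) := Nat.mul_le_mul_left r (Nat.pos_of_ne_zero h6)
  have a2 : r * (k / r + 1) ≤ r * (m / r) := Nat.mul_le_mul_left r (by omega)
  have a3 : r * r ≤ m := (Nat.le_div_iff_mul_le h0).1 h5
  rw [mul_add] at a2
  by_cases h : k ≤ m / 2
  · exact nt_aux hr h3 (by omega) h a3 hmax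
  · exact nt_aux (k := m - k) hr h3 (by omega) (by omega) a3 (by rwa [Nat.choose_symm hk])

section Perms

variable {α : Type*} [Fintype α] [DecidableEq α] {r : ℕ}

theorem ord_of_type (hr : r.Prime) {c : ℕ} (hc : 1 ≤ c) {σ : Perm α}
    (h : σ.cycleType = Multiset.replicate c r) : orderOf σ = r := by
  haveI := Fact.mk hr
  refine orderOf_eq_prime (pow_prime_eq_one_iff.2 fun d hd => ?_) fun e => ?_
  · rw [h] at hd; exact Multiset.eq_of_mem_replicate hd
  · have := congrArg Multiset.card h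
    rw [e, cycleType_one, Multiset.card_zero, Multiset.card_replicate] at this
    omega

theorem ex (hr : r.Prime) (h2 : r ≠ 2) {c : ℕ} (hc : 1 ≤ c) (h : c * r ≤ Fintype.card α) :
    ∃ σ : alternatingGroup α, (σ : Perm α).cycleType = Multiset.replicate c r := by
  obtain ⟨σ, hσ⟩ := (exists_with_cycleType_iff α (m := Multiset.replicate c r)).2
    ⟨by simpa using h, fun a ha => Multiset.eq_of_mem_replicate ha ▸ hr.two_le⟩
  refine ⟨⟨σ, mem_alternatingGroup.2 ?_⟩, hσ⟩
  have h1 : Perm.sign σ ^ r = 1 := by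
    rw [← map_pow, ← ord_of_type hr hc hσ, pow_orderOf_eq_one, map_one]
  rcases Int.units_eq_one_or (Perm.sign σ) with e | e
  · exact e
  · rw [e, (hr.odd_of_ne_two h2).neg_one_pow] at h1
    exact absurd h1 (by decide)

theorem supp_of_type {c : ℕ} {σ : Perm α} (h : σ.cycleType = Multiset.replicate c r) :
    σ.support.card = c * r := by
  rw [← sum_cycleType, h]; simp

theorem fix_set (hr : r.Prime) {σ : Perm α}
    (h : σ.cycleType = Multiset.replicate (Fintype.card α / r) r) {Δ : Finset α}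
    (hΔ : ∀ x, σ x ∈ Δ ↔ x ∈ Δ) : Δ.card % r ≤ Fintype.card α % r := by
  haveI := Fact.mk hr
  have h1 : σ ^ r = 1 := pow_prime_eq_one_iff.2 fun d hd => by
    rw [h] at hd; exact Multiset.eq_of_mem_replicate hd
  have h2 := card_compl_support_modEq (p := r) (n := 1) (σ := σ.subtypePerm hΔ) (by
    ext x
    simp only [pow_one, subtypePerm_pow, subtypePerm_apply, h1, one_apply])
  rw [Fintype.card_coe] at h2
  have h3 : (σ.subtypePerm hΔ).supportᶜ.card ≤ σ.supportᶜ.card :=
    Finset.card_le_card_of_injOn Subtype.val (fun x hx => by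
      simpa [Subtype.ext_iff] using hx) Subtype.val_injective.injOn
  rw [Finset.card_compl σ.support, supp_of_type h] at h3
  have h4 := Nat.div_add_mod' (Fintype.card α) r
  rw [← h2]
  exact (Nat.mod_le _ _).trans (by omega)

end Perms

theorem two_case {G Ω : Type*} [Group G] [Finite G] [MulAction G Ω] [FaithfulSMul G Ω] [Finite Ω]
    [IsPretransitive G Ω] {r a : ℕ} (hr : r.Prime) (h : Nat.card Ω = r ^ a) (h2 : 2 ≤ Nat.card Ω) :
    ∃ g : G, orderOf g = r ∧ ∀ ω : Ω, g • ω ≠ ω := by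
  haveI := Fact.mk hr
  obtain ⟨P⟩ : Nonempty (Sylow r G) := inferInstance
  haveI := Perm.sylow_isPretransitive h P
  haveI : Nontrivial Ω := Finite.one_lt_card_iff_nontrivial.1 h2
  haveI : Nontrivial (P : Subgroup G) := by
    obtain ⟨x, y, hxy⟩ := exists_pair_ne Ω
    obtain ⟨g, rfl⟩ := exists_smul_eq (P : Subgroup G) x y
    exact ⟨1, g, fun e => hxy (by rw [← e, one_smul])⟩
  haveI := P.2.center_nontrivial
  obtain ⟨k, hk, e⟩ := (P.2.to_subgroup (center _)).nontrivial_iff_card.1 inferInstance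
  obtain ⟨z, hz⟩ := exists_prime_orderOf_dvd_card' (G := center (P : Subgroup G)) r
    (e ▸ dvd_pow_self r hk.ne')
  refine ⟨z, by rw [orderOf_coe, orderOf_coe, hz], fun ω hω => hr.ne_one ?_⟩
  have : ((z : (P : Subgroup G)) : G) = 1 := eq_of_smul_eq_smul (α := Ω) fun ω' => by
    obtain ⟨x, rfl⟩ := exists_smul_eq (P : Subgroup G) ω ω'
    have := congrArg Subtype.val (mem_center_iff.1 z.2 x)
    simp only [Subgroup.coe_mul] at this
    rw [one_smul, Subgroup.smul_def, smul_smul, ← this, mul_smul, hω]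
  rw [← hz, ← orderOf_coe, ← orderOf_coe, this, orderOf_one]

theorem six_case {A : Type*} [Group A] [Finite A] {H : Subgroup A} (h9 : ¬ 9 ∣ Nat.card H)
    {a b : A} (ha : a ∈ H) (hb : b ∈ H) (h1 : orderOf a = 3) (h2 : orderOf b = 3) :
    ∃ (x : A) (k : ℤ), b = x * a ^ k * x⁻¹ := by
  haveI : Fact (Nat.Prime 3) := ⟨Nat.prime_three⟩
  have key : ∀ c : H, orderOf (c : A) = 3 → ∃ P : Sylow 3 H, (P : Subgroup H) = zpowers c :=
    fun c hc => by
      have e : Nat.card (zpowers c) = 3 := by rw [Nat.card_zpowers, ← orderOf_coe, hc]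
      refine ⟨(IsPGroup.of_card (n := 1) e).toSylow fun h => h9 ?_, rfl⟩
      rw [← (zpowers c).card_mul_index, e]
      exact Nat.mul_dvd_mul_left 3 h
  obtain ⟨P, hP⟩ := key ⟨a, ha⟩ h1
  obtain ⟨Q, hQ⟩ := key ⟨b, hb⟩ h2
  obtain ⟨x, hx⟩ := exists_smul_eq H P Q
  have : (⟨b, hb⟩ : H) ∈ ((x • P : Sylow 3 H) : Subgroup H) := by
    rw [hx, hQ]; exact mem_zpowers _
  obtain ⟨y, hy, e⟩ := (Subgroup.mem_smul_pointwise_iff_exists _ _ _).1 this
  rw [hP] at hy
  obtain ⟨k, rfl⟩ := mem_zpowers_iff.1 hy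
  exact ⟨x, k, (congrArg Subtype.val e).symm⟩

/-- Let G be an almost simple group whose socle is an alternating group of degree m ≥ 5 (G has a normal subgroup T isomorphic to that alternating group with trivial centralizer), acting faithfully and primitively on a finite set Ω with at least two points, and let r be the largest prime divisor of the number of points. Then G contains an element of order r fixing no point. -/
theorem result {G Ω : Type*} [Group G] [Finite G] [MulAction G Ω] [FaithfulSMul G Ω] [Finite Ω]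
    (T : Subgroup G) (hT : T.Normal) (hTc : Subgroup.centralizer (T : Set G) = ⊥) (m : ℕ) (hm : 5 ≤ m)
    (eT : ↥T ≃* ↥(alternatingGroup (Fin m))) (hprim : MulAction.IsPreprimitive G Ω) (hΩ : 2 ≤ Nat.card Ω)
    (r : ℕ) (hr : r.Prime) (hrd : r ∣ Nat.card Ω) (hmax : ∀ s : ℕ, s.Prime → s ∣ Nat.card Ω → s ≤ r) :
    ∃ g : G, orderOf g = r ∧ ∀ ω : Ω, g • ω ≠ ω := by
  classical
  by_cases h2 : r = 2
  · exact two_case hr (Nat.eq_prime_pow_of_unique_prime_dvd (by omega) fun {d} hd h =>
      le_antisymm (hmax d hd h) (h2 ▸ hd.two_le)) hΩ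
  have h3 : 3 ≤ r := by have := hr.two_le; omega
  haveI : Nontrivial Ω := Finite.one_lt_card_iff_nontrivial.1 hΩ
  haveI : Nontrivial (Fin m) := Fin.nontrivial_iff_two_le.2 (by omega)
  obtain ⟨ω₀⟩ : Nonempty Ω := inferInstance
  have hcT : 2 * Nat.card T = m.factorial := by
    rw [Nat.card_congr eT.toEquiv, two_mul_nat_card_alternatingGroup, Nat.card_perm, Nat.card_fin]
  haveI htr : IsPretransitive T Ω := IsQuasiPreprimitive.isPretransitive_of_normal fun h => by
    have : T = ⊥ := (eq_bot_iff_forall _).2 fun t ht => eq_of_smul_eq_smul (α := Ω) fun ω => by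
      rw [one_smul]; exact (h.ge (Set.mem_univ ω) : ω ∈ fixedPoints T Ω) ⟨t, ht⟩
    rw [this, card_bot] at hcT
    have := Nat.factorial_le hm
    rw [← hcT] at this
    exact absurd this (by decide)
  have hi := (stabilizer T ω₀).card_mul_index
  rw [index_stabilizer_of_transitive] at hi
  have hTd : Nat.card T ∣ m.factorial := Dvd.intro_left _ hcT
  have hrm : r ≤ m := hr.dvd_factorial.1 (hrd.trans ((Dvd.intro_left _ hi).trans hTd))
  have hord : ∀ t : T, orderOf ((eT t : alternatingGroup (Fin m)) : Perm (Fin m)) = orderOf t :=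
    fun t => by rw [orderOf_coe, eT.orderOf_eq]
  have red : ∀ c : ℕ, 1 ≤ c → c * r ≤ m → (∀ t ∈ stabilizer T ω₀,
      ((eT t : alternatingGroup (Fin m)) : Perm (Fin m)).cycleType ≠ Multiset.replicate c r) →
      ∃ g : G, orderOf g = r ∧ ∀ ω : Ω, g • ω ≠ ω := fun c h1 hc h => by
    obtain ⟨σ, hσ⟩ := ex (α := Fin m) hr h2 h1 (by rwa [Fintype.card_fin])
    obtain ⟨g, rfl⟩ := eT.surjective σ
    refine ⟨g, by rw [orderOf_coe, ← hord, ord_of_type hr h1 hσ], fun ω hω => ?_⟩
    obtain ⟨t, rfl⟩ := exists_smul_eq T ω₀ ω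
    refine h (t⁻¹ * g * t⁻¹⁻¹) ?_ ?_
    · rw [mem_stabilizer_iff, inv_inv, mul_smul, mul_smul, inv_smul_eq_iff]; exact hω
    · rw [map_mul, map_mul, map_inv _ t⁻¹, Subgroup.coe_mul, Subgroup.coe_mul, Subgroup.coe_inv,
        cycleType_conj, hσ]
  by_cases hbig : m < 2 * r
  · refine red 1 le_rfl (by omega) fun t ht h => ?_
    have h1 : r ∣ Nat.card (stabilizer T ω₀) := by
      rw [← ord_of_type hr le_rfl h, hord]; exact orderOf_dvd_natCard _ ht
    have h4 := (Nat.mul_dvd_mul h1 hrd).trans (hi ▸ hTd)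
    rw [← pow_two, hr.pow_dvd_factorial_iff (b := 2) (Nat.log_lt_of_lt_pow (by omega) (by nlinarith))]
      at h4
    simp only [Nat.Ico_succ_singleton, Finset.sum_singleton, pow_one] at h4
    have := (Nat.le_div_iff_mul_le hr.pos).1 h4
    omega
  by_cases h6 : m = 6
  · subst h6
    obtain rfl : r = 3 := by omega
    by_contra hn
    have h1 := mt (red 1 le_rfl (by norm_num)) hn
    have h4 := mt (red 2 (by norm_num) (by norm_num)) hn
    push Not at h1 h4
    obtain ⟨a, ha, ha'⟩ := h1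
    obtain ⟨b, hb, hb'⟩ := h4
    obtain ⟨x, k, e⟩ := six_case (fun h => by
      have := Nat.mul_dvd_mul h hrd
      rw [hi, show Nat.card T = 360 by simp only [Nat.factorial] at hcT; omega] at this
      exact absurd this (by norm_num)) ha hb (by rw [← hord, ord_of_type hr le_rfl ha'])
      (by rw [← hord, ord_of_type hr (by norm_num) hb'])
    have h5 := supp_of_type hb'
    rw [e, map_mul, map_mul, map_inv, map_zpow, Subgroup.coe_mul, Subgroup.coe_mul, Subgroup.coe_inv,
      card_support_conj, Subgroup.coe_zpow] at h5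
    have h7 := Finset.card_le_card (support_zpow_le ((eT a : alternatingGroup (Fin 6)) : Perm (Fin 6)) k)
    rw [h5, supp_of_type ha'] at h7
    omega
  obtain ⟨f, hf, hfe, -⟩ := AltAut.exists_hom_perm_of_ne_six (α := Fin m)
    (by rw [Nat.card_fin]; omega) (by rwa [Nat.card_fin]) eT hTc
  have hK := IsPreprimitive.isCoatom_stabilizer_of_isPreprimitive G ω₀
  have hmem : ∀ t ∈ stabilizer T ω₀, ((eT t : alternatingGroup (Fin m)) : Perm (Fin m)) ∈
      (stabilizer G ω₀).map f := fun t ht => ⟨t, ht, hfe t⟩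
  by_cases htr : IsPretransitive ((stabilizer G ω₀).map f) (Fin m)
  · by_cases hp : IsPreprimitive ((stabilizer G ω₀).map f) (Fin m)
    · refine red 1 le_rfl (by omega) fun t ht h => ?_
      have h1 := Perm.alternatingGroup_le_of_isPreprimitive_of_prime_cycle _ hp hr
        (by rw [Fintype.card_fin]; omega) (card_cycleType_eq_one.1 (by rw [h]; rfl))
        (by rw [supp_of_type h, one_mul]) (hmem t ht)
      obtain ⟨ω, hω⟩ := exists_ne ω₀
      obtain ⟨s, rfl⟩ := exists_smul_eq T ω₀ ω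
      obtain ⟨k, hk, e⟩ := h1 (eT s).2
      rw [← hfe, hf.eq_iff] at e
      exact hω (e ▸ hk :)
    · exfalso
      obtain ⟨p, hp1, hp2, hp3⟩ := Nat.exists_prime_lt_and_le_two_mul (m / 2) (by omega)
      haveI := Fact.mk hp1
      have h1 : p ∣ Nat.card T := ((Nat.coprime_primes hp1 Nat.prime_two).2 (by omega)).dvd_of_dvd_mul_left
        (hcT ▸ hp1.dvd_factorial.2 (by omega))
      rw [← hi] at h1
      rcases hp1.dvd_mul.1 h1 with h | h
      · obtain ⟨t, ht⟩ := exists_prime_orderOf_dvd_card' p h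
        rw [← orderOf_coe, ← hord] at ht
        have hc := isCycle_of_prime_order' (ht ▸ hp1) (by rw [ht, Fintype.card_fin]; omega)
        exact hp (FgsH2.isPreprimitive_of_prime_cycle hp1 hc (by rw [← hc.orderOf, ht])
          (hmem _ t.2) (by rw [Fintype.card_fin]; omega))
      · have := hmax p hp1 h
        omega
  obtain ⟨x, y, hxy⟩ : ∃ x y : Fin m, ¬ ∃ k ∈ stabilizer G ω₀, f k x = y := by
    by_contra hn
    push Not at hn
    exact htr ⟨fun x y => by
      obtain ⟨k, hk, e⟩ := hn x y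
      exact ⟨⟨f k, k, hk, rfl⟩, e⟩⟩
  let Δ : Finset (Fin m) := Finset.univ.filter fun z => ∃ k ∈ stabilizer G ω₀, f k x = z
  have hΔ : ∀ z, z ∈ Δ ↔ ∃ k ∈ stabilizer G ω₀, f k x = z := fun z => by simp [Δ]
  have hst : ∀ σ : Perm (Fin m), σ ∈ stabilizer (Perm (Fin m)) Δ ↔ ∀ z, σ z ∈ Δ ↔ z ∈ Δ :=
    fun σ => mem_stabilizer_finset
  have hL : (stabilizer (Perm (Fin m)) Δ).comap f = stabilizer G ω₀ := by
    refine (hK.le_iff.1 fun k hk => (hst _).2 fun z => ?_).resolve_left fun e => ?_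
    · rw [hΔ, hΔ]
      refine ⟨fun ⟨l, hl, e⟩ => ⟨k⁻¹ * l, mul_mem (inv_mem hk) hl, ?_⟩,
        fun ⟨l, hl, e⟩ => ⟨k * l, mul_mem hk hl, ?_⟩⟩
      · rw [map_mul, map_inv, mul_apply, e]; simp
      · rw [map_mul, mul_apply, e]
    · haveI := alternatingGroup.isPretransitive_of_three_le_card (Fin m) (by rw [Nat.card_fin]; omega)
      obtain ⟨σ, hσ⟩ := exists_smul_eq (alternatingGroup (Fin m)) x y
      obtain ⟨t, rfl⟩ := eT.surjective σ
      have := ((hst _).1 (e.ge (mem_top (t : G))) x).2 ((hΔ x).2 ⟨1, one_mem _, by simp⟩)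
      rw [hfe] at this
      exact hxy ((hΔ y).1 (hσ ▸ this))
  have hS : ∀ t : T, t ∈ stabilizer T ω₀ ↔
      ((eT t : alternatingGroup (Fin m)) : Perm (Fin m)) ∈ stabilizer (Perm (Fin m)) Δ := fun t => by
    rw [← hfe, ← mem_comap, hL]; rfl
  have hn : Nat.card Ω = m.choose Δ.card := by
    haveI := Set.powersetCard.isPretransitive_alternatingGroup (α := Fin m) (n := Δ.card)
      (by rw [Nat.card_fin]; omega)
    have h1 := index_stabilizer_of_transitive (alternatingGroup (Fin m))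
      (Set.powersetCard.ofCard (s := Δ) rfl)
    rw [Set.powersetCard.card, Nat.card_fin, 
      ← index_comap_of_surjective _ (f := eT.toMonoidHom) eT.surjective] at h1
    rw [← h1, ← index_stabilizer_of_transitive T ω₀]
    congr 1
    ext t
    rw [hS, mem_comap, mem_stabilizer_iff, mem_stabilizer_iff, Subtype.ext_iff]
    rfl
  rw [hn] at hrd hmax
  have h1 := nt hr h3 (by simpa using Finset.card_le_univ Δ) hrd hmax
  refine red (m / r) ((Nat.le_div_iff_mul_le hr.pos).2 (by omega)) (Nat.div_mul_le_self _ _)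
    fun t ht h => ?_
  have := fix_set hr (by rwa [Fintype.card_fin]) ((hst _).1 ((hS t).1 ht))
  rw [Fintype.card_fin] at this
  omega

end Cfsg.Agent.S3571
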