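import Cfsg.Statements.S3573
import Cfsg.Agent.Lib.Recog.PrimePerm

set_option autoImplicit false
open Cfsg

namespace Cfsg.Agent.S3573

open CfsgLib.Recog Equiv

theorem key (n k : ℕ) (hkn : k ≤ n) (r : ℕ) (hr : r.Prime) (hrn : r ≤ n) :
    (∀ σ : Equiv.Perm (Fin n), orderOf σ = r → ∃ s : Finset (Fin n), s.card = k ∧ s.image σ = s) ↔
      k % r ≤ n % r := by
  classical
  constructor
  · intro h
    obtain ⟨σ, hσ, hfix⟩ := exists_perm_orderOf_eq_prime (α := Fin n) hr (n / r)
      ((Nat.one_le_div_iff hr.pos).2 hrn) (by simpa using Nat.mul_div_le n r)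
    obtain ⟨s, hs, hs'⟩ := h σ hσ
    have hmod := card_modEq_card_fix_of_invariant hr σ (by rw [← hσ, pow_orderOf_eq_one]) s
      (fun x hx => by rw [← hs']; exact Finset.mem_image_of_mem _ hx)
    rw [Fintype.card_fin] at hfix
    have h1 : Nat.card {x // σ x = x} = n % r := by
      have := Nat.mod_add_div n r
      omega
    have h2 : (s.filter fun x => σ x = x).card ≤ n % r := by
      rw [← h1, Nat.card_eq_fintype_card, Fintype.card_subtype]
      exact Finset.card_le_card (Finset.filter_subset_filter _ (Finset.subset_univ _))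
    rw [hs] at hmod
    rw [hmod]
    exact (Nat.mod_le _ _).trans h2
  · intro h σ hσ
    obtain ⟨c, hc, hfix⟩ := exists_card_fix_of_orderOf_eq_prime hr σ hσ
    rw [Fintype.card_fin] at hfix
    set f := Nat.card {x // σ x = x} with hf
    have hfr : n % r ≤ f := by
      rw [← hfix, Nat.add_mul_mod_self_left]
      exact Nat.mod_le _ _
    obtain ⟨i, j, hi, hj, hij⟩ : ∃ i j, i ≤ c ∧ j ≤ f ∧ r * i + j = k := by
      by_cases hck : k / r ≤ c
      · exact ⟨k / r, k % r, hck, h.trans hfr, Nat.div_add_mod k r⟩
      · have : r * c ≤ k := by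
          have := Nat.mul_div_le k r
          have := Nat.mul_le_mul_left r (show c ≤ k / r by omega)
          omega
        exact ⟨c, k - r * c, le_rfl, by omega, by omega⟩
    haveI : NeZero r := ⟨hr.ne_zero⟩
    let τ := Perm.sumCongr (modelPerm r i j) (modelPerm r (c - i) (f - j))
    obtain ⟨e, he⟩ := exists_equiv_conj_of_pow_prime hr σ τ (by rw [← hσ, pow_orderOf_eq_one])
      (by simp only [τ]; rw [sumCongr_pow, modelPerm_pow, modelPerm_pow, Perm.sumCongr_one])
      (by
        rw [Nat.card_sum, card_model hr.one_lt, card_model hr.one_lt, Nat.card_eq_fintype_card,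
          Fintype.card_fin, Nat.mul_sub]
        have := Nat.mul_le_mul_left r hi
        omega)
      (by
        simp only [τ]
        rw [card_fix_sumCongr, card_fix_modelPerm hr.one_lt, card_fix_modelPerm hr.one_lt]
        omega)
    refine ⟨Finset.univ.filter fun x => (e x).isLeft, ?_, ?_⟩
    · rw [← Fintype.card_subtype, ← hij, ← card_model hr.one_lt, ← Nat.card_eq_fintype_card]
      exact Nat.card_congr ((e.subtypeEquiv fun x => Iff.rfl).trans
        (Equiv.sumIsLeft (α := (Fin i × ZMod r) ⊕ Fin j)
          (β := (Fin (c - i) × ZMod r) ⊕ Fin (f - j))))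
    · apply Finset.eq_of_subset_of_card_le
      · intro y hy
        obtain ⟨x, hx, rfl⟩ := Finset.mem_image.1 hy
        simp only [Finset.mem_filter, Finset.mem_univ, true_and] at hx ⊢
        rw [he]
        rcases hex : e x with z | z
        · simp [τ]
        · rw [hex] at hx; simp at hx
      · rw [Finset.card_image_of_injective _ σ.injective]


/-- Let 1 ≤ k with 2k < n and consider the symmetric group of degree n acting on the k-subsets of an n-set. Let r be a prime dividing the number C(n,k) of k-subsets. If r is odd, then every permutation of order r fixes some k-subset if and only if r ≤ k and the remainder of k modulo r is at most the remainder of n modulo r. If r = 2, then every involution fixes some k-subset if and only if k is even or n is odd. -/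
theorem result (n k : ℕ) (hk : 1 ≤ k) (hkn : 2 * k < n) (r : ℕ) (hr : r.Prime) (hrd : r ∣ Nat.choose n k) :
    (r ≠ 2 → ((∀ σ : Equiv.Perm (Fin n), orderOf σ = r → ∃ s : Finset (Fin n), s.card = k ∧ s.image σ = s) ↔
      (r ≤ k ∧ k % r ≤ n % r))) ∧
    (r = 2 → ((∀ σ : Equiv.Perm (Fin n), orderOf σ = 2 → ∃ s : Finset (Fin n), s.card = k ∧ s.image σ = s) ↔
      (Even k ∨ Odd n))) := by
  have hkn' : k ≤ n := by omega
  have hrn : r ≤ n := by
    have h1 : r ∣ n.factorial := by
      rw [← Nat.choose_mul_factorial_mul_factorial hkn', mul_assoc]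
      exact Dvd.dvd.mul_right hrd _
    exact (hr.dvd_factorial).1 h1
  haveI := Fact.mk hr
  refine ⟨fun _ => ?_, fun h2 => ?_⟩
  · rw [key n k hkn' r hr hrn]
    refine ⟨fun h => ⟨?_, h⟩, fun h => h.2⟩
    by_contra hlt
    push Not at hlt
    have hL := Choose.choose_modEq_choose_mod_mul_choose_div_nat (n := n) (k := k) (p := r)
    rw [Nat.div_eq_of_lt hlt, Nat.choose_zero_right, mul_one] at hL
    have h1 : r ∣ (n % r).choose (k % r) := (hL.dvd_iff dvd_rfl).1 hrd
    have h2 : r ∣ (n % r).factorial := by
      rw [← Nat.choose_mul_factorial_mul_factorial h, mul_assoc]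
      exact Dvd.dvd.mul_right h1 _
    have := (hr.dvd_factorial).1 h2
    have := Nat.mod_lt n hr.pos
    omega
  · subst h2
    rw [key n k hkn' 2 hr hrn, Nat.even_iff, Nat.odd_iff]
    omega

end Cfsg.Agent.S3573
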