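import Cfsg.Statements.S3575
import Cfsg.Agent.Lib.Recog.PrimePerm

set_option autoImplicit false
open Cfsg

namespace Cfsg.Agent.S3575

open CfsgLib.Recog Equiv

/-- Distribute `t ≤ m * u` into `m` parts of size at most `u`. -/
theorem exists_parts (m u t : ℕ) (h : t ≤ m * u) :
    ∃ x : Fin m → ℕ, (∀ j, x j ≤ u) ∧ ∑ j, x j = t := by
  induction m generalizing t with
  | zero => exact ⟨fun j => j.elim0, fun j => j.elim0, by simp at h; simp [h]⟩
  | succ m ih =>
    by_cases htu : t ≤ u
    · obtain ⟨x, hx, hs⟩ := ih 0 (Nat.zero_le _)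
      refine ⟨Fin.cons t x, fun j => ?_, by rw [Fin.sum_cons, hs]; simp⟩
      refine Fin.cases ?_ (fun j => ?_) j
      · simpa using htu
      · simpa using hx j
    · obtain ⟨x, hx, hs⟩ := ih (t - u) (by rw [Nat.succ_mul] at h; omega)
      refine ⟨Fin.cons u x, fun j => ?_, by rw [Fin.sum_cons, hs]; omega⟩
      refine Fin.cases ?_ (fun j => ?_) j
      · simp
      · simpa using hx j

theorem forward (a b r c : ℕ) (ha : 1 ≤ a) (hr : r.Prime) (σ : Perm (Fin (a * b)))
    (hσ : σ ^ r = 1) (hc : Nat.card {x // σ x = x} + r * c = a * b)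
    (f : Fin (a * b) → Fin b) (hf : ∀ j : Fin b, Nat.card {x : Fin (a * b) // f x = j} = a)
    (π : Perm (Fin b)) (hπ : ∀ x, f (σ x) = π (f x)) :
    ∃ s, r * s ≤ b ∧ s * a ≤ c ∧ c ≤ b * (a / r) + s * (a % r) := by
  classical
  have hsurj : Function.Surjective f := by
    intro j
    have : Nonempty {x : Fin (a * b) // f x = j} := by
      apply (Nat.card_pos_iff.1 (by rw [hf]; omega)).1
    obtain ⟨x, hx⟩ := this
    exact ⟨x, hx⟩
  have hπr : π ^ r = 1 := by
    have : ∀ k x, f ((σ ^ k) x) = (π ^ k) (f x) := by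
      intro k
      induction k with
      | zero => intro x; rfl
      | succ k ih => intro x; rw [pow_succ', pow_succ', Perm.mul_apply, Perm.mul_apply, hπ, ih]
    ext j : 1
    obtain ⟨x, rfl⟩ := hsurj j
    rw [← this, hσ]; rfl
  set J := Finset.univ.filter fun j => π j = j with hJ
  have hJ1 := card_modEq_card_fix_of_invariant hr π hπr Finset.univ (fun _ _ => Finset.mem_univ _)
  rw [Finset.card_univ, Fintype.card_fin, ← hJ] at hJ1
  have hJ2 : J.card ≤ b := by simpa using Finset.card_le_univ J
  obtain ⟨s, hs⟩ := (Nat.modEq_iff_dvd' hJ2).1 hJ1.symm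
  set F := Finset.univ.filter fun x => σ x = x with hF
  have hFc : Nat.card {x // σ x = x} = F.card := by
    rw [Nat.card_eq_fintype_card, Fintype.card_subtype]
  have hsum : F.card = ∑ j ∈ J, (F.filter fun x => f x = j).card := by
    apply Finset.card_eq_sum_card_fiberwise
    intro x hx
    simp only [hF, hJ, Finset.coe_filter, Finset.mem_univ, true_and, Set.mem_ofPred_eq] at hx ⊢
    rw [← hπ, hx]
  have hfib : ∀ j ∈ J, a % r ≤ (F.filter fun x => f x = j).card ∧
      (F.filter fun x => f x = j).card ≤ a := by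
    intro j hj
    simp only [hJ, Finset.mem_filter, Finset.mem_univ, true_and] at hj
    have hcard : (Finset.univ.filter fun x => f x = j).card = a := by
      have := hf j
      rwa [Nat.card_eq_fintype_card, Fintype.card_subtype] at this
    have hm := card_modEq_card_fix_of_invariant hr σ hσ (Finset.univ.filter fun x => f x = j)
      (fun x hx => by
        simp only [Finset.mem_filter, Finset.mem_univ, true_and] at hx ⊢
        rw [hπ, hx, hj])
    rw [hcard, Finset.filter_comm, ← hF] at hm
    constructor
    · rw [hm]; exact Nat.mod_le _ _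
    · refine le_trans ?_ hcard.le
      exact Finset.card_le_card (Finset.filter_subset_filter _ (Finset.subset_univ _))
  have h1 : J.card * (a % r) ≤ F.card := by
    rw [hsum, ← smul_eq_mul, ← Finset.sum_const]
    exact Finset.sum_le_sum fun j hj => (hfib j hj).1
  have h2 : F.card ≤ J.card * a := by
    refine hsum.le.trans ((Finset.sum_le_sum fun j hj => (hfib j hj).2).trans ?_)
    rw [Finset.sum_const, smul_eq_mul]
  rw [hFc] at hc
  have hb : b = J.card + r * s := by omega
  have hdiv := Nat.div_add_mod a r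
  generalize a / r = u at *
  generalize a % r = l at *
  generalize J.card = m at *
  generalize F.card = t at *
  refine ⟨s, by omega, ?_, ?_⟩
  · apply Nat.le_of_mul_le_mul_left _ hr.pos
    subst hb
    nlinarith
  · apply Nat.le_of_mul_le_mul_left _ hr.pos
    subst hb
    subst hdiv
    nlinarith

theorem sigma_pow_apply {ι : Type*} {β : ι → Type*} (F : ∀ i, Perm (β i)) (k : ℕ) (i : ι)
    (y : β i) : (Perm.sigmaCongrRight F ^ k) ⟨i, y⟩ = ⟨i, (F i ^ k) y⟩ := by
  induction k with
  | zero => rfl
  | succ k ih => rw [pow_succ', pow_succ', Perm.mul_apply, Perm.mul_apply, ih]; rfl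

theorem backward (a b r c : ℕ) (hr : r.Prime) (σ : Perm (Fin (a * b)))
    (hσ : σ ^ r = 1) (hc : Nat.card {x // σ x = x} + r * c = a * b) (s : ℕ)
    (h1 : r * s ≤ b) (h2 : s * a ≤ c) (h3 : c ≤ b * (a / r) + s * (a % r)) :
    ∃ f : Fin (a * b) → Fin b, (∀ j : Fin b, Nat.card {x : Fin (a * b) // f x = j} = a) ∧
      ∃ π : Equiv.Perm (Fin b), ∀ x : Fin (a * b), f (σ x) = π (f x) := by
  classical
  haveI : NeZero r := ⟨hr.ne_zero⟩
  obtain ⟨m, hm⟩ := Nat.exists_eq_add_of_le h1
  have hdiv := Nat.div_add_mod a r
  obtain ⟨x, hx, hxs⟩ := exists_parts m (a / r) (c - s * a) (by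
    generalize a / r = u at *
    generalize a % r = l at *
    subst hm; subst hdiv
    have : c ≤ s * (r * u + l) + m * u := by nlinarith
    omega)
  have hx' : ∀ j, r * x j ≤ a := fun j =>
    (Nat.mul_le_mul_left r (hx j)).trans (Nat.mul_div_le a r)
  let β : Fin m → Type := fun j => (Fin (x j) × ZMod r) ⊕ Fin (a - r * x j)
  have hβ : ∀ j, Nat.card (β j) = a := fun j => by
    simp only [β]
    rw [card_model hr.one_lt]
    have := hx' j
    omega
  let P := ((Fin s × Fin a) × ZMod r) ⊕ (Σ j : Fin m, β j)
  let B := (Fin s × ZMod r) ⊕ Fin m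
  let τ₂ : Perm (Σ j : Fin m, β j) :=
    Perm.sigmaCongrRight fun j => modelPerm r (x j) (a - r * x j)
  let τ : Perm P := Perm.sumCongr (shiftPerm (Fin s × Fin a) r) τ₂
  let φ : P → B := Sum.map (fun y => (y.1.1, y.2)) Sigma.fst
  have hτ₂ : τ₂ ^ r = 1 := by
    ext1 ⟨j, y⟩
    simp only [τ₂]
    rw [sigma_pow_apply, modelPerm_pow]
    rfl
  have hfix₂ : Nat.card {y // τ₂ y = y} = ∑ j, (a - r * x j) := by
    have : Nat.card {y // τ₂ y = y} =
        Nat.card (Σ j : Fin m, {y : β j // modelPerm r (x j) (a - r * x j) y = y}) := by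
      refine Nat.card_congr
        { toFun := fun y => ⟨y.1.1, ⟨y.1.2, ?_⟩⟩
          invFun := fun y => ⟨⟨y.1, y.2.1⟩, ?_⟩
          left_inv := fun y => rfl
          right_inv := fun y => rfl }
      · obtain ⟨⟨j, y⟩, hy⟩ := y
        exact eq_of_heq (Sigma.mk.inj hy).2
      · obtain ⟨j, y, hy⟩ := y
        exact congrArg (Sigma.mk j) hy
    rw [this, Nat.card_sigma]
    exact Finset.sum_congr rfl fun j _ => card_fix_modelPerm hr.one_lt _ _
  have hsum : ∑ j, (a - r * x j) + r * (c - s * a) = m * a := by
    rw [← hxs, Finset.mul_sum, ← Finset.sum_add_distrib]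
    rw [Finset.sum_congr rfl fun j _ => Nat.sub_add_cancel (hx' j)]
    simp
  obtain ⟨e, he⟩ := exists_equiv_conj_of_pow_prime hr σ τ hσ
    (by simp only [τ]; rw [sumCongr_pow, shiftPerm_pow_self, hτ₂, Perm.sumCongr_one])
    (by
      simp only [P]
      rw [Nat.card_sum, Nat.card_sigma, Finset.sum_congr rfl fun j _ => hβ j]
      simp [hm]
      ring)
    (by
      simp only [τ]
      rw [card_fix_sumCongr, card_fix_shiftPerm _ hr.one_lt, hfix₂, zero_add]
      obtain ⟨d, rfl⟩ := Nat.exists_eq_add_of_le h2
      rw [Nat.add_sub_cancel_left] at hsum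
      subst hm
      nlinarith)
  have hB : Nat.card B = Nat.card (Fin b) := by
    simp only [B]
    rw [card_model hr.one_lt]
    simp [hm]
  obtain ⟨eB⟩ := Finite.card_eq.1 hB
  refine ⟨fun y => eB (φ (e y)), fun j => ?_, eB.permCongr (modelPerm r s m), fun y => ?_⟩
  · obtain ⟨z, rfl⟩ := eB.surjective j
    have : Nat.card {y : Fin (a * b) // eB (φ (e y)) = eB z} = Nat.card {y : P // φ y = z} :=
      Nat.card_congr (e.subtypeEquiv fun y => by simp)
    rw [this]
    rcases z with z | j
    · have : Nat.card {y : P // φ y = Sum.inl z} = Nat.card (Fin a) := by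
        refine (Nat.card_congr (Equiv.ofBijective
          (fun i : Fin a => (⟨Sum.inl ((z.1, i), z.2), rfl⟩ : {y : P // φ y = Sum.inl z}))
          ⟨?_, ?_⟩)).symm
        · intro i i' h
          exact congrArg (fun y => y.1.2) (Sum.inl.inj (congrArg Subtype.val h))
        · rintro ⟨y | y, hy⟩
          · refine ⟨y.1.2, Subtype.ext ?_⟩
            have : (y.1.1, y.2) = z := Sum.inl.inj hy
            subst this
            rfl
          · exact absurd hy (by simp [φ])
      rw [this]; simp
    · have : Nat.card {y : P // φ y = Sum.inr j} = Nat.card (β j) := by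
        refine (Nat.card_congr (Equiv.ofBijective
          (fun i : β j => (⟨Sum.inr ⟨j, i⟩, rfl⟩ : {y : P // φ y = Sum.inr j}))
          ⟨?_, ?_⟩)).symm
        · intro i i' h
          exact eq_of_heq (Sigma.mk.inj (Sum.inr.inj (congrArg Subtype.val h))).2
        · rintro ⟨y | ⟨j', y⟩, hy⟩
          · exact absurd hy (by simp [φ])
          · have : j' = j := Sum.inr.inj hy
            subst this
            exact ⟨y, rfl⟩
      rw [this, hβ]
  · simp only [Equiv.permCongr_apply, Equiv.symm_apply_apply]
    rw [he]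
    congr 1
    rcases e y with z | ⟨j, z⟩
    · rfl
    · rfl

theorem arith (r u l v k : ℕ) (hr : 2 ≤ r) (hl : l < r) (hk : k < r) (ha : 2 ≤ r * u + l)
    (hrab : r ≤ (r * u + l) * (r * v + k)) :
    (∀ c, 1 ≤ c → r * c ≤ (r * u + l) * (r * v + k) →
      ∃ s, r * s ≤ r * v + k ∧ s * (r * u + l) ≤ c ∧ c ≤ (r * v + k) * u + s * l) ↔
    (r ≤ r * u + l ∧ (l = 0 ∨ (k = 0 ∧ l = 1) ∨ (l ≠ 0 ∧ k ≠ 0 ∧ k * l < r ∧
      (r * v + k < r ∨ (k + r) * l ≤ k * (r * u + l) + r)))) := by
  have hsv : ∀ s, r * s ≤ r * v + k ↔ s ≤ v := by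
    intro s
    constructor
    · intro h
      by_contra h'
      have : r * (v + 1) ≤ r * s := Nat.mul_le_mul_left r (by omega)
      nlinarith
    · intro h
      have := Nat.mul_le_mul_left r h
      omega
  have hexp : (r * u + l) * (r * v + k) = r * ((r * v + k) * u + v * l) + k * l := by ring
  constructor
  · intro h
    have hkl : k * l < r := by
      by_contra h'
      obtain ⟨s, hs1, -, hs3⟩ := h ((r * v + k) * u + v * l + 1) (by omega) (by
        rw [hexp]; nlinarith)
      rw [hsv] at hs1
      have := Nat.mul_le_mul_right l hs1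
      omega
    have hgap : l = 0 ∨ v = 0 ∨ l ≤ k * u + 1 := by
      by_cases hl0 : l = 0
      · exact Or.inl hl0
      rcases v with _ | v
      · exact Or.inr (Or.inl rfl)
      right; right
      obtain ⟨s, hs1, hs2, hs3⟩ := h ((r * (v + 1) + k) * u + v * l + 1) (by omega) (by
        rw [hexp]
        have : 1 ≤ l := by omega
        nlinarith)
      rw [hsv] at hs1
      have : s = v + 1 := by
        by_contra h'
        have := Nat.mul_le_mul_right l (show s ≤ v by omega)
        omega
      subst this
      nlinarith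
    have hu : 1 ≤ u := by
      by_contra h'
      have hu0 : u = 0 := by omega
      subst hu0
      rcases hgap with h1 | h1 | h1
      · omega
      · subst h1
        simp only [mul_zero, zero_add] at hrab
        nlinarith
      · omega
    refine ⟨by nlinarith, ?_⟩
    by_cases hl0 : l = 0
    · exact Or.inl hl0
    right
    by_cases hk0 : k = 0
    · left
      refine ⟨hk0, ?_⟩
      subst hk0
      rcases hgap with h1 | h1 | h1
      · omega
      · subst h1; simp at hrab; omega
      · omega
    · right
      refine ⟨hl0, hk0, hkl, ?_⟩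
      rcases hgap with h1 | h1 | h1
      · omega
      · left; subst h1; omega
      · right; nlinarith
  · rintro ⟨-, h⟩ c hc1 hc2
    have hkl : k * l < r := by
      rcases h with h | h | h
      · subst h; omega
      · rw [h.1]; omega
      · exact h.2.2.1
    have hc3 : c ≤ (r * v + k) * u + v * l := by
      by_contra h'
      rw [hexp] at hc2
      have := Nat.mul_le_mul_left r (show (r * v + k) * u + v * l + 1 ≤ c by omega)
      nlinarith
    have hgap : l = 0 ∨ v = 0 ∨ l ≤ k * u + 1 := by
      rcases h with h | h | ⟨-, -, -, h | h⟩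
      · exact Or.inl h
      · right; right; omega
      · right; left
        by_contra h'
        have := Nat.mul_le_mul_left r (show 1 ≤ v by omega)
        omega
      · right; right
        apply Nat.le_of_mul_le_mul_left _ (show 0 < r by omega)
        nlinarith
    rcases hgap with h1 | h1 | h1
    · subst h1
      exact ⟨0, by omega, by omega, by omega⟩
    · subst h1
      exact ⟨0, by omega, by omega, by omega⟩
    · set a := r * u + l with ha'
      by_cases hcv : v ≤ c / a
      · refine ⟨v, by omega, ?_, hc3⟩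
        exact (Nat.mul_le_mul_right a hcv).trans (Nat.div_mul_le_self c a)
      · refine ⟨c / a, (hsv _).2 (by omega), Nat.div_mul_le_self c a, ?_⟩
        have h2 : c < (c / a + 1) * a := by
          have := Nat.div_add_mod c a
          have := Nat.mod_lt c (show 0 < a by omega)
          nlinarith
        generalize c / a = s at *
        have h3 : (s + 1) * (r * u) ≤ v * (r * u) := Nat.mul_le_mul_right _ (by omega)
        rw [ha'] at h2
        nlinarith


/-- Let a, b ≥ 2 and consider the symmetric group of degree a·b acting on the partitions of an (a·b)-set into b parts of size a (encoded as maps onto a b-element set all of whose fibres have a elements; a permutation fixes such a partition when it permutes the fibres). Let r be a prime dividing the number (ab)!/((a!)^b·b!) of such partitions, and let ℓ and k be the remainders of a and b modulo r. Then every permutation of order r fixes some such partition if and only if r ≤ a and one of the following holds: ℓ = 0; or k = 0 and ℓ = 1; or ℓ and k are non-zero, k·ℓ <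 r, and either b < r or (k + r)·ℓ ≤ k·a + r. -/
theorem result (a b : ℕ) (ha : 2 ≤ a) (hb : 2 ≤ b) (r : ℕ) (hr : r.Prime)
    (hrd : r ∣ (a * b).factorial / (a.factorial ^ b * b.factorial)) :
    (∀ σ : Equiv.Perm (Fin (a * b)), orderOf σ = r →
        ∃ f : Fin (a * b) → Fin b, (∀ j : Fin b, Nat.card {x : Fin (a * b) // f x = j} = a) ∧
          ∃ π : Equiv.Perm (Fin b), ∀ x : Fin (a * b), f (σ x) = π (f x)) ↔
      (r ≤ a ∧ (a % r = 0 ∨ (b % r = 0 ∧ a % r = 1) ∨
        (a % r ≠ 0 ∧ b % r ≠ 0 ∧ (b % r) * (a % r) < r ∧ (b < r ∨ (b % r + r) * (a % r) ≤ (b % r) * a + r)))) := by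
  classical
  have hrab : r ≤ a * b := by
    have h1 : a.factorial ^ b * b.factorial ∣ (a * b).factorial := by
      rw [mul_comm a b, ← Nat.uniformBell_mul_eq b (show a ≠ 0 by omega), mul_assoc]
      exact Dvd.intro_left _ rfl
    exact (hr.dvd_factorial).1 (hrd.trans (Nat.div_dvd_of_dvd h1))
  have h1 := arith r (a / r) (a % r) (b / r) (b % r) hr.two_le (Nat.mod_lt _ hr.pos)
    (Nat.mod_lt _ hr.pos) (by rw [Nat.div_add_mod]; exact ha)
    (by rw [Nat.div_add_mod, Nat.div_add_mod]; exact hrab)
  rw [Nat.div_add_mod, Nat.div_add_mod] at h1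
  rw [← h1]
  constructor
  · intro h c hc1 hc2
    obtain ⟨σ, hσ, hfix⟩ := exists_perm_orderOf_eq_prime (α := Fin (a * b)) hr c hc1
      (by simpa using hc2)
    obtain ⟨f, hf, π, hπ⟩ := h σ hσ
    exact forward a b r c (by omega) hr σ (by rw [← hσ, pow_orderOf_eq_one])
      (by simpa using hfix) f hf π hπ
  · intro h σ hσ
    obtain ⟨c, hc1, hfix⟩ := exists_card_fix_of_orderOf_eq_prime hr σ hσ
    rw [Fintype.card_fin] at hfix
    obtain ⟨s, hs1, hs2, hs3⟩ := h c hc1 (by omega)
    exact backward a b r c hr σ (by rw [← hσ, pow_orderOf_eq_one]) hfix s hs1 hs2 hs3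

end Cfsg.Agent.S3575
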