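import Cfsg.Statements.S3590
import Cfsg.Agent.Lib.Recog.AffOUpper

set_option autoImplicit false
open Cfsg

namespace Cfsg.Agent.S3590

/-- Let F be a finite field of characteristic 2. Then PSp(8,F) is not determined by its set of element orders, not even up to finitely many groups: for every bound there is a finite group of larger order with exactly the same set of element orders as PSp(8,F). -/
theorem result {F : Type*} [Field F] [Fintype F]
    [CharP F 2] (M : ℕ) :
    ∃ (H : Type) (_ : Group H) (_ : Fintype H), M < Fintype.card H ∧ Set.range (orderOf : H → ℕ) = Set.range (orderOf : Cfsg.PSp 4 F → ℕ) := by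
  obtain ⟨a, b, hab⟩ := CfsgLib.OrthE.exists_anisotropic F
  rw [← CfsgLib.Recog.spectrum_affO8 hab]
  have : Finite (CfsgLib.OrthE.O (CfsgLib.OrthE.qMinus F 3 a b)) :=
    Finite.of_injective (fun g : CfsgLib.OrthE.O (CfsgLib.OrthE.qMinus F 3 a b) =>
      (g.1 : _ → _)) fun g h H => CfsgLib.OrthE.O_ext (congrFun H)
  have : Finite (CfsgLib.Recog.AffO (CfsgLib.Recog.omega8 hab)) :=
    Finite.of_equiv _ (SemidirectProduct.equivProd).symm
  refine CfsgLib.Recog.exists_large_isospectral_of_solvable_normal
    (SemidirectProduct.rightHom.ker) ?_ ?_ M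
  · rw [← SemidirectProduct.range_inl_eq_ker_rightHom]
    intro h
    have h1 := SemidirectProduct.inl_injective.eq_iff' (map_one _) |>.1
      (Subgroup.mem_bot.1 (h.le ⟨Multiplicative.ofAdd 1, rfl⟩))
    exact one_ne_zero (congrFun (congrArg Multiplicative.toAdd h1) (.inr 0))
  · rw [← SemidirectProduct.range_inl_eq_ker_rightHom]
    exact Group.isSolvable_of_surjective (MonoidHom.rangeRestrict_surjective _)

end Cfsg.Agent.S3590
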