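import Cfsg.Statements.S3598
import Cfsg.Agent.Lib.CCZ.Basic
import Cfsg.Agent.Lib.SL2.PSL
import Cfsg.Agent.Lib.Char.DefectZero

set_option autoImplicit false
open Cfsg

namespace Cfsg.Agent.S3598

open CfsgLib.SL2 CfsgLib.Char CfsgLib.CCZ CfsgLib.BSW CfsgLib.Dickson CfsgLib.Perm.SpecPSL
open scoped MatrixGroups

theorem deg {F : Type*} [Field F] [Fintype F] (h : Fintype.card F % 4 ≠ 3) {ψ : PSL(2, F) → ℂ}
    (hψ : IsIrrCharacter _ ψ) {n : ℕ} (hn : ψ 1 = n) : ψ = (fun _ => 1) ∨ n = Fintype.card F ∨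
      n = Fintype.card F - 1 ∨ (Fintype.card F + 1) / Nat.gcd 2 (Fintype.card F - 1) ∣ n := by
  classical
  obtain ⟨d, hd⟩ := exists_noEig (F := F)
  obtain ⟨i, hi⟩ := exists_kind hd (isIrr_comp_of_surjective pm pm_surjective hψ)
  have h2 := (hi.deg hd).trans (kindDeg_eq Fintype.card_pos i)
  simp only [map_one, hn, Nat.cast_inj] at h2
  have h0 := Fintype.card_pos (α := F)
  fin_cases i
  · exact .inl (funext fun x => (pm_surjective x).elim fun y e => e ▸ congrFun hi y)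
  · exact .inr (.inl h2)
  · refine .inr (.inr (.inr (h2 ▸ Nat.div_dvd_of_dvd ?_)))
    rw [show Fintype.card F + 1 = 2 + (Fintype.card F - 1) by omega]
    exact dvd_add (Nat.gcd_dvd_left _ _) (Nat.gcd_dvd_right _ _)
  · exact .inr (.inr (.inl h2))
  · have := Nat.odd_iff.1 (hi.odd hd (.inl rfl))
    rw [Nat.gcd_eq_left (by omega)]
    exact .inr (.inr (.inr h2.symm.dvd))
  have ho := Nat.odd_iff.1 (hi.odd hd (.inr rfl))
  obtain ⟨θ, h3, h4, -, h5⟩ := hi
  have := hd.isCyclic_centralizer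
  have h6 := lin_involution_of_sq_eq_one h3 h4 (k := (Fintype.card F + 1) / 2) (by rw [hd.card_centralizer]; omega)
    (negT_mul_self d) fun e => Ring.neg_one_ne_one_of_char_ne_two (R := F)
      (by rw [Ne, FiniteField.even_card_iff_char_two]; omega) (congrArg (fun g : Tor d => g.1 0 0) e)
  let c : Tor d := ⟨d, Subgroup.mem_centralizer_singleton_iff.2 rfl⟩
  have h7 := congrFun h5 (negT d * c)
  rw [lin_mul, h6, ← h5, cr_of_not_scal (c := c) _ hd.not_isScal, cr_of_not_scal _ fun e => hd.not_isScal (by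
    simpa [negT, c] using isScal_neg e), Odd.neg_one_pow (Nat.odd_iff.2 (by omega))] at h7
  have h8 := lin_sq_of_sq h3 c
  rw [← h5, cr_of_not_scal _ hd.not_isScal] at h8
  simp only [negT, c, Subgroup.coe_mul, neg_one_mul, pm_neg] at h7 h8
  exact absurd (show (2 : ℂ) = 0 by linear_combination -ψ (pm d) * h7 - 2 * h8) two_ne_zero

/-- Let p be a prime and F a field with p² elements. If a finite group G has, for every d, the same number of irreducible complex characters of degree d as PSL(2,F) (the same first column of the character table, with multiplicities), then G is isomorphic to PSL(2,F). -/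
theorem result {F : Type*} [Field F] [Fintype F] (p : ℕ) (hp : p.Prime)
    (hF : Fintype.card F = p ^ 2) {G : Type*} [Group G] [Finite G]
    (h : ∀ d : ℕ, Nat.card {χ : Cfsg.IrrCharacter G // (χ : G → ℂ) 1 = (d : ℂ)} =
      Nat.card {χ : Cfsg.IrrCharacter (Matrix.ProjectiveSpecialLinearGroup (Fin 2) F) // (χ : Matrix.ProjectiveSpecialLinearGroup (Fin 2) F → ℂ) 1 = (d : ℂ)}) :
    Nonempty (G ≃* Matrix.ProjectiveSpecialLinearGroup (Fin 2) F) := by
  classical
  have := Fact.mk hp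
  obtain ⟨e, he⟩ : ∃ e : IrrCharacter G ≃ IrrCharacter PSL(2, F), ∀ χ, (e χ : PSL(2, F) → ℂ) 1 = (χ : G → ℂ) 1 := by
    have : ∀ c : ℂ, Nonempty ({χ : IrrCharacter G // (χ : G → ℂ) 1 = c} ≃
        {χ : IrrCharacter PSL(2, F) // (χ : PSL(2, F) → ℂ) 1 = c}) := fun c => by
      by_cases hc : ∃ d : ℕ, c = d
      · obtain ⟨d, rfl⟩ := hc
        exact Finite.card_eq.1 (h d)
      · exact ⟨@Equiv.equivOfIsEmpty _ _ ⟨fun χ => hc (χ.2 ▸ exists_char_one_eq_nat (irr_isCharacter χ.1))⟩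
          ⟨fun χ => hc (χ.2 ▸ exists_char_one_eq_nat (irr_isCharacter χ.1))⟩⟩
    exact ⟨Equiv.ofFiberEquiv fun c => (this c).some, Equiv.ofFiberEquiv_map fun c => (this c).some⟩
  have hc : Nat.card G = Nat.card PSL(2, F) := by
    have := sum_irr_one_sq (G := G)
    rw [← Finset.sum_congr rfl fun χ _ => congrArg (· ^ 2) (he χ), e.sum_comp fun χ => (χ : PSL(2, F) → ℂ) 1 ^ 2,
      sum_irr_one_sq] at this
    exact_mod_cast this.symm
  have h1 := card_psl (K := F)
  rw [← hc, Nat.card_eq_fintype_card (α := F)] at h1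
  have h2 := hp.two_le
  have h3 : 4 ≤ Fintype.card F := by nlinarith
  have h4 : Fintype.card F % 4 = 1 ∨ Fintype.card F = 4 := by
    rcases hp.eq_two_or_odd' with rfl | ⟨k, rfl⟩
    · exact .inr hF
    · exact .inl (by rw [hF, show (2 * k + 1) ^ 2 = 1 + 4 * (k * k + k) by ring, Nat.add_mul_mod_self_left])
  obtain ⟨b, hb⟩ : ∃ b, Fintype.card F + 1 = Nat.gcd 2 (Fintype.card F - 1) * b ∧ 1 < b ∧ Odd b := by
    rcases h4 with h4 | h4
    · exact ⟨(Fintype.card F + 1) / 2, by rw [Nat.gcd_eq_left (by omega)]; omega, by omega, Nat.odd_iff.2 (by omega)⟩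
    · exact ⟨5, by rw [h4]; rfl, by omega, by decide⟩
  have h5 : Nat.card G = p ^ 2 * ((Fintype.card F - 1) * b) := by
    refine Nat.eq_of_mul_eq_mul_left (Nat.gcd_pos_of_pos_left (Fintype.card F - 1) two_pos) ?_
    rw [h1, show Fintype.card F ^ 2 - 1 = (Fintype.card F + 1) * (Fintype.card F - 1) by
      simpa using Nat.sq_sub_sq (Fintype.card F) 1, hb.1, ← hF]
    ring
  have h6 : ∀ {χ : G → ℂ} {n : ℕ}, IsIrrCharacter G χ → χ ≠ (fun _ => 1) → χ 1 = n →
      n = p ^ 2 ∨ n = Fintype.card F - 1 ∨ b ∣ n := fun {χ n} hχ h0 hn => by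
    have k : ∀ χ : IrrCharacter G, (χ : G → ℂ) 1 = (1 : ℕ) → e χ = irrOne _ := fun χ hχ => by
      rcases deg (by omega) (e χ).2 ((he χ).trans hχ) with k | k | k | k
      · exact Subtype.ext k
      · omega
      · omega
      · rw [hb.1, Nat.mul_div_cancel_left _ (Nat.gcd_pos_of_pos_left _ two_pos), Nat.dvd_one] at k
        omega
    rcases deg (by omega) (e ⟨χ, hχ⟩).2 ((he _).trans hn) with k' | k'
    · exact absurd (congrArg Subtype.val (e.injective ((Subtype.ext k').trans (k (irrOne G) (by simp [irrOne])).symm))) h0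
    · rwa [hb.1, Nat.mul_div_cancel_left _ (Nat.gcd_pos_of_pos_left _ two_pos), ← hF] at *
  have c1 : (p ^ 2).Coprime (Fintype.card F - 1) := hF ▸ (Nat.coprime_self_sub_right (by omega)).2 (by simp)
  have c2 : (p ^ 2).Coprime b := Nat.Coprime.coprime_dvd_right (Dvd.intro_left _ hb.1.symm) (by simp [hF])
  have c3 : (Fintype.card F - 1).Coprime b := Nat.coprime_of_dvd fun r hr k1 k2 => by
    have k3 := (Nat.dvd_sub (k2.trans (Dvd.intro_left _ hb.1.symm)) k1)
    rw [show Fintype.card F + 1 - (Fintype.card F - 1) = 2 by omega, Nat.prime_dvd_prime_iff_eq hr Nat.prime_two] at k3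
    exact hb.2.2.not_two_dvd_nat (k3 ▸ k2)
  have h7 : ∀ {χ : G → ℂ} {n a m r : ℕ} {x : G}, IsIrrCharacter G χ → χ 1 = n → Nat.card G = a * m → a.Coprime m → a ∣ n →
      r.Prime → r ∣ a → r ∣ orderOf x → χ x = 0 := fun {χ n a m r x} hχ hn k1 k2 k3 hr k4 k5 => by
    have k0 : Nat.card G ≠ 0 := Nat.card_pos.ne'
    refine irr_eq_zero_of_defect_zero hχ hr (Nat.ordProj_dvd _ _) (Nat.pow_succ_factorization_not_dvd k0 hr) hn
      (Dvd.dvd.trans ?_ k3) k5
    exact ((k2.coprime_dvd_left k4).pow_left _).dvd_of_dvd_mul_right (k1 ▸ Nat.ordProj_dvd _ _)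
  obtain ⟨P, hP⟩ := Sylow.exists_subgroup_card_pow_prime (G := G) p (n := 2) (h5 ▸ dvd_mul_right _ _)
  have hS : SelfCent P := selfCent_of_card_dvd (IsPGroup.isMulCommutative_of_card_eq_prime_sq hP) fun y hy hy1 => by
    refine hP ▸ Nat.Coprime.dvd_of_dvd_mul_right (Nat.coprime_of_dvd fun r hr k1 k2 => ?_)
      (h5 ▸ Subgroup.card_subgroup_dvd_card _)
    have := Fact.mk hr
    obtain ⟨w, hw⟩ := exists_prime_orderOf_dvd_card' r k1
    rw [← Subgroup.orderOf_coe] at hw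
    have k3 : orderOf y ∣ p ^ 2 := hP ▸ P.orderOf_dvd_natCard hy
    have k4 := Commute.orderOf_mul_eq_mul_orderOf_of_coprime (Subgroup.mem_centralizer_singleton_iff.1 w.2)
      (hw ▸ (((c1.mul_right c2).coprime_dvd_left k3).coprime_dvd_right k2).symm)
    have k5 : r ∣ orderOf (w * y) := k4 ▸ hw ▸ dvd_mul_right _ _
    have k6 : p ∣ orderOf (w * y) := k4 ▸ Dvd.dvd.mul_left (by
      obtain ⟨j, -, e⟩ := (Nat.dvd_prime_pow hp).1 k3
      exact e ▸ dvd_pow_self _ fun e' => hy1 (by simpa [e'] using e)) _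
    have k7 : w * y ≠ 1 := fun e => hp.one_lt.ne' (by simpa [e] using k6)
    have k8 : ∀ {χ : G → ℂ}, IsIrrCharacter G χ → χ 1 = (p ^ 2 : ℕ) → χ (w * y) = 0 := fun hχ hn =>
      h7 hχ hn h5 (c1.mul_right c2) dvd_rfl hp (dvd_pow_self _ two_ne_zero) k6
    rcases hr.dvd_mul.1 k2 with k | k
    · obtain ⟨χ, n, hχ, h0, hn, l1, l2⟩ := exists_irr_ne_zero_not_dvd k7 (Nat.minFac_prime hb.2.1.ne')
      rcases h6 hχ h0 hn with rfl | rfl | l
      exacts [l2 (k8 hχ hn), l2 (h7 hχ hn (m := p ^ 2 * b) (by rw [h5]; ring) (c1.symm.mul_right c3) dvd_rfl hr k k5),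
        l1 ((Nat.minFac_dvd _).trans l)]
    · obtain ⟨χ, n, hχ, h0, hn, l1, l2⟩ := exists_irr_ne_zero_not_dvd k7
        (Nat.minFac_prime (show Fintype.card F - 1 ≠ 1 by omega))
      rcases h6 hχ h0 hn with rfl | rfl | l
      exacts [l2 (k8 hχ hn), l1 (Nat.minFac_dvd _),
        l2 (h7 hχ hn (m := p ^ 2 * (Fintype.card F - 1)) (by rw [h5]; ring) (c2.symm.mul_right c3.symm) l hr k k5)]
  rcases h4 with h4 | h4
  · exact psl hS (hP.trans hF.symm) (by omega) (by rwa [Nat.gcd_eq_left (by omega)] at h1)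
  have he : Even (Fintype.card F) := by rw [h4]; decide
  obtain ⟨φ⟩ := pgl hS (hP.trans hF.symm) (by simpa [h4] using h1) (.inl he)
  have hi := index_psl_even (F := F) (by rwa [Nat.card_eq_fintype_card])
  rw [Subgroup.index_eq_one, MonoidHom.range_eq_top] at hi
  exact ⟨φ.trans (MulEquiv.ofBijective (pslPGL F) ⟨pslPGL_injective, hi⟩).symm⟩

end Cfsg.Agent.S3598
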