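import Cfsg.Statements.S3599
import Mathlib

set_option autoImplicit false
open Cfsg

namespace Cfsg.Agent.S3599

/-- the solutions of `x ^ p = 1` form a subgroup -/
def Cl (p : ℕ) (H : Type) [Group H] : Prop := ∀ x y : H, x ^ p = 1 → y ^ p = 1 → (x * y) ^ p = 1

/-- the element orders are `1, p, q` and the elements of order `p` generate a `p`-group -/
def Sp (p q : ℕ) (H : Type) [Group H] : Prop :=
  (∀ x : H, x ^ p = 1 ∨ x ^ q = 1) ∧ p ∣ Nat.card H ∧ q ∣ Nat.card H ∧ Cl p H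

theorem eq_one {H : Type*} [Group H] {a b : ℕ} (h : a.Coprime b) {x : H} (h1 : x ^ a = 1) (h2 : x ^ b = 1) : x = 1 :=
  orderOf_eq_one_iff.1 (Nat.eq_one_of_dvd_coprimes h (orderOf_dvd_of_pow_eq_one h1) (orderOf_dvd_of_pow_eq_one h2))

theorem exists_sp {p q : ℕ} (hp : p.Prime) (hq : q.Prime) (h : p ≠ q) :
    ∃ (H : Type) (_ : Group H) (_ : Finite H), Sp p q H := by
  have := Fact.mk hp
  have hc := (Nat.coprime_primes hp hq).2 h
  let R := CyclotomicField q (ZMod p)
  have : NeZero (q : ZMod p) := ⟨fun e => hp.coprime_iff_not_dvd.1 hc ((ZMod.natCast_eq_zero_iff _ _).1 e)⟩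
  have : NeZero q := ⟨hq.ne_zero⟩
  have : FiniteDimensional (ZMod p) R := IsCyclotomicExtension.finiteDimensional {q} (ZMod p) R
  have : Finite R := Module.finite_of_finite (ZMod p)
  have : CharP R p := charP_of_injective_algebraMap (algebraMap (ZMod p) R).injective p
  have hz := IsCyclotomicExtension.zeta_spec q (ZMod p) R
  let u : Rˣ := (hz.isUnit hq.ne_zero).unit
  have hu : orderOf u = q := by rw [← orderOf_units, IsUnit.unit_spec, ← hz.eq_orderOf]
  let φ : Subgroup.zpowers u →* MulAut (Multiplicative R) :=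
    { toFun := fun g => AddEquiv.toMultiplicative (DistribMulAction.toAddEquiv R (g : Rˣ))
      map_one' := by ext; simp
      map_mul' := fun g h => by ext; simp [mul_smul] }
  have hφ : ∀ (g : Subgroup.zpowers u) (r : Multiplicative R),
      φ g r = Multiplicative.ofAdd (((g : Rˣ) : R) * r.toAdd) := fun _ _ => rfl
  have hg : ∀ g : Subgroup.zpowers u, g ^ q = 1 := fun g =>
    orderOf_dvd_iff_pow_eq_one.1 ((orderOf_dvd_natCard g).trans ((Nat.card_zpowers u).trans hu).dvd)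
  have h1 : ∀ x : Multiplicative R ⋊[φ] Subgroup.zpowers u, x ^ p = 1 ↔ x.right = 1 := fun x =>
    ⟨fun e => eq_one hc ((map_pow SemidirectProduct.rightHom x p).symm.trans (congrArg SemidirectProduct.rightHom e)) (hg _), fun e => by
      rw [← SemidirectProduct.inl_left_mul_inr_right x, e, map_one, mul_one, ← map_pow,
        show x.left ^ p = 1 from Multiplicative.toAdd.injective (by
          rw [toAdd_pow, nsmul_eq_mul, CharP.cast_eq_zero, zero_mul, toAdd_one]), map_one]⟩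
  have hcard : Nat.card (Multiplicative R ⋊[φ] Subgroup.zpowers u) = Nat.card R * q := by
    rw [Nat.card_congr SemidirectProduct.equivProd, Nat.card_prod, Nat.card_zpowers, hu]; rfl
  refine ⟨Multiplicative R ⋊[φ] Subgroup.zpowers u, inferInstance,
    Finite.of_equiv _ SemidirectProduct.equivProd.symm, fun x => ?_, ?_, hcard ▸ Dvd.intro_left _ rfl,
    fun x y hx hy => (h1 _).2 (by rw [SemidirectProduct.mul_right, (h1 x).1 hx, (h1 y).1 hy, mul_one])⟩
  · refine (em (x.right = 1)).imp (h1 x).2 fun h => ?_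
    have hv : ((x.right : Rˣ) : R) - 1 ≠ 0 := fun e => h (Subtype.ext (Units.ext (sub_eq_zero.1 e)))
    let y : Multiplicative R ⋊[φ] Subgroup.zpowers u :=
      SemidirectProduct.inl (Multiplicative.ofAdd (x.left.toAdd / (((x.right : Rˣ) : R) - 1)))
    have : y * x * y⁻¹ = SemidirectProduct.inr x.right := by
      rw [mul_inv_eq_iff_eq_mul]
      ext : 1
      · refine Multiplicative.toAdd.injective ?_
        simp only [y, SemidirectProduct.mul_left, SemidirectProduct.left_inl, SemidirectProduct.right_inl,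
          SemidirectProduct.left_inr, SemidirectProduct.right_inr, hφ, toAdd_mul, toAdd_ofAdd,
          OneMemClass.coe_one, Units.val_one, one_mul]
        rw [eq_add_of_sub_eq (rfl : ((x.right : Rˣ) : R) - 1 = _), add_mul, add_sub_cancel_right,
          mul_div_cancel₀ _ hv, one_mul, add_comm]
      · simp [y]
    rw [← conj_eq_one_iff (a := y), ← conj_pow, this, ← map_pow, hg, map_one]
  · rw [hcard]
    exact ((CharP.eq R ‹_› (CharP.addOrderOf_one R)).dvd.trans (addOrderOf_dvd_natCard (1 : R))).mul_right _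

/-- a minimal group with `Sp` -/
structure Crit (p q : ℕ) (F : Type) [Group F] : Prop where
  sp : Sp p q F
  sub : ∀ H : Subgroup F, p ∣ Nat.card H → q ∣ Nat.card H → H = ⊤
  quo : ∀ (N : Subgroup F) [N.Normal], p ∣ Nat.card (F ⧸ N) → q ∣ Nat.card (F ⧸ N) → N = ⊥

theorem exists_crit {p q : ℕ} (hp : p.Prime) (hq : q.Prime) (h : p ≠ q) :
    ∃ (F : Type) (_ : Group F) (_ : Finite F), Crit p q F := by
  classical
  have hc := (Nat.coprime_primes hp hq).2 h
  have h0 : ∃ n, ∃ (H : Type) (_ : Group H) (_ : Finite H), Sp p q H ∧ Nat.card H = n :=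
    let ⟨H, a, b, c⟩ := exists_sp hp hq h; ⟨_, H, a, b, c, rfl⟩
  obtain ⟨F, _, _, hF, hn⟩ := Nat.find_spec h0
  have hm : ∀ (H : Type) [Group H] [Finite H], Sp p q H → Nat.card F ≤ Nat.card H := fun H a b c =>
    hn ▸ Nat.find_min' h0 ⟨H, a, b, c, rfl⟩
  refine ⟨F, _, ‹_›, hF, fun H h1 h2 => Subgroup.eq_top_of_le_card H (hm H
    ⟨fun x => (hF.1 x).imp (Subtype.ext ·) (Subtype.ext ·), h1, h2, fun x y hx hy =>
      Subtype.ext (hF.2.2.2 x y (congrArg Subtype.val hx) (congrArg Subtype.val hy))⟩), fun N _ h1 h2 => ?_⟩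
  have h3 : ∀ x : F ⧸ N, x ^ p = 1 → ∃ y : F, y ^ p = 1 ∧ (y : F ⧸ N) = x := fun x hx => by
    obtain ⟨y, rfl⟩ := QuotientGroup.mk_surjective x
    exact (hF.1 y).elim (⟨y, ·, rfl⟩) fun e => ⟨1, one_pow _, (eq_one hc hx (congrArg QuotientGroup.mk e)).symm⟩
  have h4 := hm (F ⧸ N) ⟨fun x => by
    obtain ⟨y, rfl⟩ := QuotientGroup.mk_surjective x
    exact (hF.1 y).imp (congrArg QuotientGroup.mk) (congrArg QuotientGroup.mk), h1, h2, fun x y hx hy => by
      obtain ⟨x, a, rfl⟩ := h3 x hx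
      obtain ⟨y, b, rfl⟩ := h3 y hy
      exact congrArg QuotientGroup.mk (hF.2.2.2 x y a b)⟩
  rw [N.card_eq_card_quotient_mul_card_subgroup] at h4
  have h5 : 0 < Nat.card (F ⧸ N) := Nat.card_pos
  exact Subgroup.eq_bot_of_card_le N (Nat.le_of_mul_le_mul_left (h4.trans_eq (mul_one _).symm) h5)

theorem Sp.not_cl {p q : ℕ} (hp : p.Prime) (hq : q.Prime) (h : p ≠ q) {F : Type} [Group F] [Finite F]
    (hF : Sp p q F) : ¬ Cl q F := fun h1 => by
  have hc := (Nat.coprime_primes hp hq).2 h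
  have := Fact.mk hp
  have := Fact.mk hq
  obtain ⟨x, hx⟩ := exists_prime_orderOf_dvd_card' p hF.2.1
  obtain ⟨y, hy⟩ := exists_prime_orderOf_dvd_card' q hF.2.2.1
  have h2 := hx ▸ pow_orderOf_eq_one x
  have h3 := hy ▸ pow_orderOf_eq_one y
  rcases hF.1 (x * y) with e | e
  · have := hF.2.2.2 _ _ (show x⁻¹ ^ p = 1 by rw [inv_pow, h2, inv_one]) e
    rw [inv_mul_cancel_left] at this
    exact hq.one_lt.ne' (hy ▸ orderOf_eq_one_iff.2 (eq_one hc this h3))
  · have := h1 _ _ e (show y⁻¹ ^ q = 1 by rw [inv_pow, h3, inv_one])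
    rw [mul_inv_cancel_right] at this
    exact hp.one_lt.ne' (hx ▸ orderOf_eq_one_iff.2 (eq_one hc h2 this))

section
variable {ι : Type} [Fintype ι] [DecidableEq ι] {P Q : ι → ℕ} (hP : ∀ j, (P j).Prime) (hQ : ∀ j, (Q j).Prime)
  (hPQ : ∀ j, P j ≠ Q j) (hc : ∀ j k, j ≠ k → (P j * Q j).Coprime (P k * Q k))
  {F : ι → Type} [∀ j, Group (F j)] [∀ j, Finite (F j)] (hF : ∀ j, Crit (P j) (Q j) (F j))
include hF

omit [Fintype ι] [DecidableEq ι] [∀ j, Finite (F j)] in
theorem pow_PQ {j : ι} (x : F j) : x ^ (P j * Q j) = 1 :=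
  ((hF j).sp.1 x).elim (fun e => by rw [pow_mul, e, one_pow]) fun e => by rw [mul_comm, pow_mul, e, one_pow]

omit [∀ j, Finite (F j)] in
theorem pow_single (j : ι) (x : ∀ j, F j) : x ^ (∏ k ∈ Finset.univ.erase j, P k * Q k) =
    Pi.mulSingle j (x j ^ (∏ k ∈ Finset.univ.erase j, P k * Q k)) := funext fun k => by
  rcases eq_or_ne k j with rfl | h
  · simp
  · obtain ⟨c, hc⟩ := Finset.dvd_prod_of_mem (fun k => P k * Q k) (Finset.mem_erase.2 ⟨h, Finset.mem_univ k⟩)
    rw [Pi.mulSingle_eq_of_ne h, Pi.pow_apply, hc, pow_mul, pow_PQ hF, one_pow]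

include hP hQ hc

theorem range_pi : Set.range (orderOf : (∀ j, F j) → ℕ) =
    {m : ℕ | ∃ c : ι → ℕ, (∀ j, c j = 1 ∨ c j = P j ∨ c j = Q j) ∧ m = ∏ j, c j} := by
  have h1 : ∀ x : ∀ j, F j, orderOf x = ∏ j, orderOf (x j) := fun x =>
    Nat.dvd_antisymm (orderOf_dvd_of_pow_eq_one (funext fun j =>
      orderOf_dvd_iff_pow_eq_one.1 (Finset.dvd_prod_of_mem _ (Finset.mem_univ j))))
      (Finset.prod_dvd_of_isRelPrime (fun j _ k _ h => Nat.coprime_iff_isRelPrime.1
        ((hc j k h).coprime_dvd_left (orderOf_dvd_of_pow_eq_one (pow_PQ hF _)) |>.coprime_dvd_right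
          (orderOf_dvd_of_pow_eq_one (pow_PQ hF _)))) fun j _ => orderOf_apply_dvd_orderOf j)
  ext m
  constructor
  · rintro ⟨x, rfl⟩
    refine ⟨fun j => orderOf (x j), fun j => ?_, h1 x⟩
    rcases (hF j).sp.1 (x j) with e | e
    · exact ((Nat.dvd_prime (hP j)).1 (orderOf_dvd_of_pow_eq_one e)).imp_right Or.inl
    · exact ((Nat.dvd_prime (hQ j)).1 (orderOf_dvd_of_pow_eq_one e)).imp_right Or.inr
  · rintro ⟨c, h2, rfl⟩
    have h3 : ∀ j, ∃ x : F j, orderOf x = c j := fun j => by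
      have := Fact.mk (hP j)
      have := Fact.mk (hQ j)
      rcases h2 j with e | e | e <;> rw [e]
      · exact ⟨1, orderOf_one⟩
      · exact exists_prime_orderOf_dvd_card' _ (hF j).sp.2.1
      · exact exists_prime_orderOf_dvd_card' _ (hF j).sp.2.2.1
    choose x hx using h3
    exact ⟨x, by simp only [h1, hx]⟩

include hPQ

theorem crit_pi (H : Subgroup (∀ j, F j)) (N : Subgroup H) [N.Normal]
    (h : ∀ j, (∃ x : H ⧸ N, orderOf x = P j) ∧ ∃ x : H ⧸ N, orderOf x = Q j) : H = ⊤ ∧ N = ⊥ := by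
  have hM : ∀ j, (P j * Q j).Coprime (∏ k ∈ Finset.univ.erase j, P k * Q k) := fun j =>
    Nat.Coprime.prod_right fun k hk => hc j k (Finset.ne_of_mem_erase hk).symm
  have key : ∀ j r t, r.Prime → r.Coprime t → r * t = P j * Q j → (∃ x : H ⧸ N, orderOf x = r) →
      ∃ y : F j, y ^ r = 1 ∧ Pi.mulSingle j y ∈ H ∧ Pi.mulSingle j y ∉ N.map H.subtype := by
    rintro j r t hr ht e ⟨x, hx⟩
    obtain ⟨x, rfl⟩ := QuotientGroup.mk_surjective x
    have h1 : ((x ^ t) ^ (∏ k ∈ Finset.univ.erase j, P k * Q k) : H).1 = _ := pow_single hF j (x.1 ^ t)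
    refine ⟨_, ?_, h1 ▸ SetLike.coe_mem _, h1 ▸ fun h2 => ?_⟩
    · rw [← pow_mul, mul_comm, pow_mul, Pi.pow_apply, ← pow_mul _ t, mul_comm t, e, pow_PQ hF, one_pow]
    · have h3 := (QuotientGroup.eq_one_iff _).2 ((Subgroup.mem_map_iff_mem (x := (x ^ t) ^ _) H.subtype_injective).1 h2)
      rw [← pow_mul, QuotientGroup.mk_pow, ← orderOf_dvd_iff_pow_eq_one, hx] at h3
      exact hr.one_lt.ne' (Nat.Coprime.eq_one_of_dvd (ht.mul_right
        ((hM j).coprime_dvd_left (Dvd.intro _ e))) h3)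
  have k1 := fun j => key j _ _ (hP j) ((Nat.coprime_primes (hP j) (hQ j)).2 (hPQ j)) rfl (h j).1
  have k2 := fun j => key j _ _ (hQ j) ((Nat.coprime_primes (hQ j) (hP j)).2 (hPQ j).symm) (mul_comm _ _) (h j).2
  have o : ∀ {A : Type} [Group A] {r : ℕ}, r.Prime → ∀ y : A, y ^ r = 1 → y ≠ 1 → r ∣ Nat.card A :=
    fun hr y a b => by
      have := Fact.mk hr
      exact orderOf_eq_prime a b ▸ orderOf_dvd_natCard y
  have s : ∀ j r, r.Prime → (∃ y : F j, y ^ r = 1 ∧ Pi.mulSingle j y ∈ H ∧ Pi.mulSingle j y ∉ N.map H.subtype) →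
      r ∣ Nat.card (H.comap (MonoidHom.mulSingle F j)) := fun j r hr ⟨y, a, b, c⟩ =>
    o hr ⟨y, b⟩ (Subtype.ext a) fun e => c (by rw [show y = 1 from congrArg Subtype.val e]; simp)
  obtain rfl : H = ⊤ := eq_top_iff.2 fun x _ => Subgroup.pi_mem_of_mulSingle_mem x fun j =>
    (((hF j).sub _ (s j _ (hP j) (k1 j)) (s j _ (hQ j) (k2 j))).ge (Subgroup.mem_top _) :)
  have : (N.map (⊤ : Subgroup (∀ j, F j)).subtype).Normal := Subgroup.Normal.map ‹_› _ fun x => ⟨⟨x, trivial⟩, rfl⟩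
  have s' : ∀ j r, r.Prime → (∃ y : F j, y ^ r = 1 ∧ Pi.mulSingle j y ∈ (⊤ : Subgroup (∀ j, F j)) ∧
      Pi.mulSingle j y ∉ N.map (Subgroup.subtype ⊤)) →
      r ∣ Nat.card (F j ⧸ (N.map (Subgroup.subtype ⊤)).comap (MonoidHom.mulSingle F j)) := fun j r hr ⟨y, a, _, c⟩ =>
    o hr (y : F j ⧸ _) (congrArg QuotientGroup.mk a) fun e => c ((QuotientGroup.eq_one_iff y).1 e)
  refine ⟨rfl, eq_bot_iff.2 fun x hx => Subtype.ext (funext fun j => eq_one (hM j) (pow_PQ hF _) ?_)⟩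
  refine ((hF j).quo _ (s' j _ (hP j) (k1 j)) (s' j _ (hQ j) (k2 j))).le ?_
  have h4 : x.1 ∈ N.map (Subgroup.subtype ⊤) := Subgroup.mem_map_of_mem _ hx
  exact (pow_single hF j x.1 ▸ pow_mem h4 _ : Pi.mulSingle j _ ∈ N.map (Subgroup.subtype ⊤))

end

theorem cl_pi {ι : Type} [DecidableEq ι] {F : ι → Type} [∀ j, Group (F j)] {r : ℕ} (h : Cl r (∀ j, F j)) (j : ι) :
    Cl r (F j) := fun x y hx hy => by
  have := congrFun (h (Pi.mulSingle j x) (Pi.mulSingle j y) (by rw [← Pi.mulSingle_pow, hx, Pi.mulSingle_one])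
    (by rw [← Pi.mulSingle_pow, hy, Pi.mulSingle_one])) j
  simpa using this


/-- A finite group is critical with respect to a set Ω of natural numbers when its set of element orders is Ω while no proper section H/N (H a subgroup, N normal in H, (H, N) ≠ (whole group, 1)) has Ω as its set of element orders. Let s ≥ 1 and let p(j,0), p(j,1) (j < s) be 2s pairwise distinct primes, and let Ω be the set of all products c(0)·…·c(s−1) with each c(j) ∈ {1, p(j,0), p(j,1)}. Then there are 2^s pairwise non-isomorphic finite groups critical with respect to Ω. -/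
theorem result (s : ℕ) (hs : 1 ≤ s) (p : Fin s → Fin 2 → ℕ)
    (hp : ∀ j i, (p j i).Prime) (hinj : ∀ j i j' i', p j i = p j' i' → j = j' ∧ i = i') :
    ∃ (G : Fin (2 ^ s) → Type) (_ : ∀ a, Group (G a)) (_ : ∀ a, Fintype (G a)),
      (∀ a b, a ≠ b → ¬ Nonempty (G a ≃* G b)) ∧
      ∀ a, Set.range (orderOf : (G a) → ℕ) = {m : ℕ | ∃ c : Fin s → ℕ, (∀ j, c j = 1 ∨ c j = p j 0 ∨ c j = p j 1) ∧ m = ∏ j, c j} ∧
      ∀ (H : Subgroup (G a)) (N : Subgroup ↥H) [N.Normal], (H ≠ ⊤ ∨ N ≠ ⊥) → Set.range (orderOf : (↥H ⧸ N) → ℕ) ≠ {m : ℕ | ∃ c : Fin s → ℕ, (∀ j, c j = 1 ∨ c j = p j 0 ∨ c j = p j 1) ∧ m = ∏ j, c j} := by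
  classical
  have hne : ∀ j (i : Fin 2), p j i ≠ p j (i + 1) := fun j i e => absurd (hinj _ _ _ _ e).2 (by clear e; revert i; decide)
  choose F gF fF hF using fun j i => exists_crit (hp j i) (hp j (i + 1)) (hne j i)
  let e : Fin (2 ^ s) ≃ (Fin s → Fin 2) := finFunctionFinEquiv.symm
  have hc : ∀ (a : Fin s → Fin 2) j k, j ≠ k → (p j (a j) * p j (a j + 1)).Coprime (p k (a k) * p k (a k + 1)) :=
    fun a j k h => by
      have : ∀ i i', (p j i).Coprime (p k i') := fun i i' =>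
        (Nat.coprime_primes (hp _ _) (hp _ _)).2 fun e => h (hinj _ _ _ _ e).1
      exact Nat.Coprime.mul_left (Nat.Coprime.mul_right (this _ _) (this _ _))
        (Nat.Coprime.mul_right (this _ _) (this _ _))
  have hor : ∀ j (i : Fin 2) c, (c = 1 ∨ c = p j i ∨ c = p j (i + 1)) ↔ c = 1 ∨ c = p j 0 ∨ c = p j 1 := fun j i c => by
    fin_cases i
    · rfl
    · exact or_congr_right or_comm
  refine ⟨fun a => ∀ j, F j (e a j), inferInstance, fun a => Fintype.ofFinite _, fun a b hab ⟨φ⟩ => ?_, fun a =>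
    ⟨by simpa only [hor] using range_pi (fun j => hp _ _) (fun j => hp _ _) (hc (e a)) fun j => hF j (e a j),
      fun H N _ h1 h2 => ?_⟩⟩
  · obtain ⟨j, hj⟩ := Function.ne_iff.1 (e.injective.ne hab)
    have h1 : e a j = e b j + 1 := by revert hj; generalize e a j = x; generalize e b j = y; revert x y; decide
    refine (hF j (e b j)).sp.not_cl (hp _ _) (hp _ _) (hne _ _) (cl_pi (F := fun j => F j (e b j)) (fun x y hx hy => ?_) j)
    obtain ⟨x, rfl⟩ := φ.surjective x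
    obtain ⟨y, rfl⟩ := φ.surjective y
    rw [← map_pow, map_eq_one_iff φ φ.injective, ← h1] at hx hy
    rw [← map_mul, ← map_pow, map_eq_one_iff φ φ.injective, ← h1]
    funext k
    rcases eq_or_ne k j with rfl | h
    · exact (hF k (e a k)).sp.2.2.2 _ _ (congrFun hx k) (congrFun hy k)
    · have h2 := (hc (e a) j k h.symm).coprime_dvd_left (Dvd.intro _ rfl)
      rw [Pi.pow_apply, Pi.mul_apply, eq_one h2 (congrFun hx k) (pow_PQ (fun j => hF j (e a j)) _),
        eq_one h2 (congrFun hy k) (pow_PQ (fun j => hF j (e a j)) _), mul_one, one_pow, Pi.one_apply]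
  · have h3 : ∀ j i, ∃ x : H ⧸ N, orderOf x = p j i := fun j i => h2.ge ⟨Pi.mulSingle j (p j i), fun k => by
      rcases eq_or_ne k j with rfl | h
      · exact (hor k i _).1 (Or.inr (Or.inl (by simp)))
      · exact Or.inl (Pi.mulSingle_eq_of_ne h _), by simp⟩
    have := crit_pi (fun j => hp _ _) (fun j => hp _ _) (fun j => hne _ _) (hc (e a)) (fun j => hF j (e a j)) H N
      fun j => ⟨h3 _ _, h3 _ _⟩
    exact h1.elim (· this.1) (· this.2)

end Cfsg.Agent.S3599
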