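import Cfsg.Statements.S3619
import Cfsg.Agent.Lib.Perm2.Quasi

set_option autoImplicit false
open Cfsg

namespace Cfsg.Agent.S3619

/-- Let G act faithfully on a finite set in such a way that every non-trivial normal subgroup of G is transitive (G is quasiprimitive). Let Γ be a subset with more than one point and not the whole set, such that the pointwise stabilizer of the complement of Γ acts transitively on Γ (a Jordan set). If that pointwise stabilizer acts primitively on Γ, then G is k-fold transitive where k is one more than the number of points outside Γ (the Jordan set is a trivial one). -/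
theorem result {G Ω : Type*} [Group G] [Finite G] [MulAction G Ω] [FaithfulSMul G Ω] [Finite Ω]
    (hqp : ∀ N : Subgroup G, N.Normal → N ≠ ⊥ → MulAction.IsPretransitive ↥N Ω)
    (Γ : Set Ω) (hΓ1 : 1 < Γ.ncard) (hΓ2 : Γ.ncard < Nat.card Ω)
    (hJ : MulAction.IsPretransitive ↥(fixingSubgroup G Γᶜ) ↥(SubMulAction.ofFixingSubgroup G Γᶜ))
    (hJp : MulAction.IsPreprimitive ↥(fixingSubgroup G Γᶜ) ↥(SubMulAction.ofFixingSubgroup G Γᶜ)) :
    MulAction.IsMultiplyPretransitive G Ω (Nat.card Ω - Γ.ncard + 1) := by
  classical
  have := Fintype.ofFinite Ω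
  have hΓ : CfsgLib.Perm2.IsJordan G Γ.toFinset := by
    rw [CfsgLib.Perm2.isJordan_iff, Set.coe_toFinset]; exact hJ
  have hp := hΓ.isPreprimitive_of_quasi hqp (by rwa [← Set.ncard_eq_toFinset_card'])
    (by rw [Set.coe_toFinset]; exact hJp)
  have h := hp.isMultiplyPreprimitive (s := Γᶜ) (n := Nat.card Ω - Γ.ncard - 1)
    (by rw [Set.ncard_compl]; omega) (by omega) hJp
  rw [show Nat.card Ω - Γ.ncard + 1 = Nat.card Ω - Γ.ncard - 1 + 2 by omega]
  exact h.isMultiplyPretransitive

end Cfsg.Agent.S3619
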