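import Cfsg.Statements.S3626
import Cfsg.Agent.Lib.Ree.Torus
import Cfsg.Agent.Lib.Ree.Twisted

set_option autoImplicit false
open Cfsg

namespace Cfsg.Agent.S3626

open CfsgLib.Ree CfsgLib CfsgLib.Chev Matrix MatrixGroups

section
variable {K : Type*} [Field K] [CharP K 3]

local instance : Fact (Nat.Prime 3) := ⟨Nat.prime_three⟩

/-- the underlying matrix -/
def mt : SL(2, K) →* Matrix (Fin 2) (Fin 2) K := ⟨⟨fun g => g, rfl⟩, fun _ _ => rfl⟩

theorem mt_neg_one : mt (-1 : SL(2, K)) = -1 := rfl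

theorem mt_inj {g h : SL(2, K)} (e : mt g = mt h) : g = h := Subtype.ext e

/-- the action on the twisted tensor square -/
def actM (p : SL(2, K) × ℤˣ) (m : Matrix (Fin 2) (Fin 2) K) : Matrix (Fin 2) (Fin 2) K :=
  p.2 • (mt p.1 * m * mt (SpecialLinearGroup.map (frobenius K 3) p.1⁻¹))

theorem actM_mul (p q : SL(2, K) × ℤˣ) (m : Matrix (Fin 2) (Fin 2) K) : actM (p * q) m = actM p (actM q m) := by
  simp only [actM, Prod.fst_mul, Prod.snd_mul, _root_.mul_inv_rev, map_mul, mul_smul,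
    Matrix.mul_smul, Matrix.smul_mul, Matrix.mul_assoc]

theorem actM_one (m : Matrix (Fin 2) (Fin 2) K) : actM 1 m = m := by simp [actM]

theorem actM_add (p : SL(2, K) × ℤˣ) (m n : Matrix (Fin 2) (Fin 2) K) : actM p (m + n) = actM p m + actM p n := by
  simp only [actM, Matrix.mul_add, Matrix.add_mul, smul_add]

theorem actM_neg_one (m : Matrix (Fin 2) (Fin 2) K) : actM (-1, 1) m = m := by
  have : SpecialLinearGroup.map (frobenius K 3) (-1 : SL(2, K))⁻¹ = -1 := by
    rw [inv_neg, inv_one]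
    apply SL2.ext2 <;> simp
  simp only [actM, this, mt_neg_one]
  simp

/-- the action on a direct sum of copies -/
def act (k : ℕ) : SL(2, K) × ℤˣ →* MulAut (Multiplicative (Fin k → Matrix (Fin 2) (Fin 2) K)) where
  toFun p :=
    { toFun := fun w => .ofAdd fun i => actM p (w.toAdd i)
      invFun := fun w => .ofAdd fun i => actM p⁻¹ (w.toAdd i)
      left_inv := fun w => by simp [← actM_mul, actM_one]
      right_inv := fun w => by simp [← actM_mul, actM_one]
      map_mul' := fun v w => by simp [actM_add, ← ofAdd_add, Pi.add_def] }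
  map_one' := by ext w : 1; simp [actM_one]
  map_mul' p q := by ext w : 1; simp [actM_mul]

theorem ch (g : SL(2, K)) : mt g * mt g = SL2.tr g • mt g - 1 := by
  ext i j
  exact SL2.mul_self_ap g i j

theorem fixed (hs : ¬ IsSquare (-1 : K)) {p : SL(2, K) × ℤˣ} {m : Matrix (Fin 2) (Fin 2) K} (h0 : m ≠ 0)
    (h : actM p m = m) : p ^ 2 = (-1, 1) ∨ p ^ 3 = 1 ∨ p ^ 3 = (-1, 1) := by
  obtain ⟨g, e⟩ := p
  have h3 := three_eq_zero K
  set B := SpecialLinearGroup.map (frobenius K 3) g with hB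
  have hi : mt B⁻¹ * mt B = 1 := by rw [← map_mul, inv_mul_cancel, map_one]
  have hi' : mt B * mt B⁻¹ = 1 := by rw [← map_mul, mul_inv_cancel, map_one]
  have ht : SL2.tr B = SL2.tr g ^ 3 := by
    rw [SL2.tr, SL2.tr, add_pow_char]; rfl
  have h1 : m * mt B = e • (mt g * m) := by
    conv_lhs => rw [← h]
    rw [actM, map_inv, ← hB, Matrix.smul_mul, Matrix.mul_assoc, hi, Matrix.mul_one]
  have h2 : m * (mt B * mt B) = mt g * mt g * m := by
    rw [← Matrix.mul_assoc, h1, Matrix.smul_mul, Matrix.mul_assoc, h1, Matrix.mul_smul, smul_smul, Int.units_mul_self,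
      one_smul, Matrix.mul_assoc]
  rw [ch, ch, Matrix.mul_sub, Matrix.sub_mul, Matrix.mul_one, Matrix.one_mul, sub_left_inj, Matrix.mul_smul,
    Matrix.smul_mul, ht] at h2
  have key : ∀ c : K, c • (m * mt B) = 0 → c = 0 := fun c hc => by
    have := congrArg (· * mt B⁻¹) hc
    simp only [Matrix.smul_mul, Matrix.mul_assoc, hi', Matrix.mul_one, Matrix.zero_mul] at this
    exact (smul_eq_zero.1 this).resolve_right h0
  have z : SL2.tr g = 0 → (g, e) ^ 2 = (-1, 1) := fun h => by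
    refine Prod.ext (mt_inj ?_) (by simp)
    show mt (g ^ 2) = _
    rw [pow_two, map_mul, ch, h]; simp [mt_neg_one]
  have cube : mt (g ^ 3) = (SL2.tr g ^ 2 - 1) • mt g - SL2.tr g • 1 := by
    rw [pow_succ, pow_two, map_mul, map_mul, ch, Matrix.sub_mul,
      Matrix.smul_mul, ch, Matrix.one_mul]
    module
  rcases Int.units_eq_one_or e with rfl | rfl
  · rw [one_smul] at h1
    have h4 := key (SL2.tr g ^ 3 - SL2.tr g) (by rw [sub_smul, h2, h1, sub_self])
    have h5 : SL2.tr g * ((SL2.tr g + 1) * (SL2.tr g - 1)) = 0 := by linear_combination h4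
    rcases mul_eq_zero.1 h5 with h | h
    · exact Or.inl (z h)
    rcases mul_eq_zero.1 h with h | h
    · refine Or.inr (Or.inl (Prod.ext (mt_inj ?_) (by simp)))
      show mt (g ^ 3) = _
      rw [cube, eq_neg_of_add_eq_zero_left h]; simp
    · refine Or.inr (Or.inr (Prod.ext (mt_inj ?_) (by simp)))
      show mt (g ^ 3) = _
      rw [cube, sub_eq_zero.1 h]; simp [mt_neg_one]
  · have h4 := key (SL2.tr g ^ 3 + SL2.tr g) (by rw [add_smul, h2, h1]; simp)
    refine Or.inl (z (by_contra fun h => hs ⟨SL2.tr g, mul_left_cancel₀ h ?_⟩))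
    linear_combination -h4

variable {φ : K →+* K} {G : Type*} [Group G] (M : Model G K φ) (hφ : IsTits φ)

/-- the parametrisation of the centraliser of an involution -/
noncomputable def par : SL(2, K) × ℤˣ →* G :=
  MonoidHom.noncommCoprod (M.ψ hφ) (M.hHom.comp (Units.map (Int.castRingHom K : ℤ →* K))) fun g e => by
    rcases Int.units_eq_one_or e with rfl | rfl
    · simp
    · have : (M.hHom.comp (Units.map (Int.castRingHom K : ℤ →* K))) (-1) = M.z := congrArg M.h (Units.ext (by simp))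
      rw [this]; exact (M.z_mul_ψ hφ g).symm

theorem par_one (g : SL(2, K)) : par M hφ (g, 1) = M.ψ hφ g := by simp [par]

theorem par_neg (g : SL(2, K)) : par M hφ (g, -1) = M.z * M.ψ hφ g := by
  rw [M.z_mul_ψ]
  exact congrArg (M.ψ hφ g * M.h ·) (Units.ext (by simp))

theorem ker_le (k : ℕ) : (par M hφ).rangeRestrict.ker ≤ (act (K := K) k).ker := by
  rintro ⟨g, e⟩ h
  have h : par M hφ (g, e) = 1 := congrArg Subtype.val h
  rcases Int.units_eq_one_or e with rfl | rfl
  · rw [par_one, M.ψ_eq_one_iff] at h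
    rcases h with rfl | rfl
    · exact map_one (act k)
    · exact MulEquiv.ext fun w => by simp [act, actM_neg_one]
  · rw [par_neg, ← map_one (M.ψ hφ)] at h
    exact absurd h.symm (M.ψ_ne_z_mul hφ _ _)

/-- the induced action -/
noncomputable def act' (k : ℕ) :
    (par M hφ).range →* MulAut (Multiplicative (Fin k → Matrix (Fin 2) (Fin 2) K)) :=
  MonoidHom.liftOfSurjective _ (par M hφ).rangeRestrict_surjective ⟨act k, ker_le M hφ k⟩

theorem act'_par (k : ℕ) (p : SL(2, K) × ℤˣ) : act' M hφ k ((par M hφ).rangeRestrict p) = act k p :=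
  MonoidHom.liftOfRightInverse_comp_apply _ _ _ _ _

/-- the group replacing the third factor -/
abbrev X (k : ℕ) := Multiplicative (Fin k → Matrix (Fin 2) (Fin 2) K) ⋊[act' M hφ k] (par M hφ).range

theorem cube_eq_one {k : ℕ} (v : Multiplicative (Fin k → Matrix (Fin 2) (Fin 2) K)) : v ^ 3 = 1 := by
  apply Multiplicative.toAdd.injective
  ext i a b
  simp [three_eq_zero K]

theorem pow_eq_inl {k : ℕ} (x : X M hφ k) {n : ℕ} (h : x.right ^ n = 1) :
    x ^ n = SemidirectProduct.inl (x ^ n).left := by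
  conv_lhs => rw [← SemidirectProduct.inl_left_mul_inr_right (x ^ n)]
  rw [← SemidirectProduct.rightHom_eq_right, map_pow, SemidirectProduct.rightHom_eq_right, h, map_one, mul_one]

theorem pow_three_mul {k : ℕ} (x : X M hφ k) {n : ℕ} (h : x.right ^ n = 1) : x ^ (n * 3) = 1 := by
  rw [pow_mul, pow_eq_inl M hφ x h, ← map_pow, cube_eq_one, map_one]

theorem orderOf_X {k : ℕ} (x : X M hφ k) :
    orderOf x = orderOf (x.right : G) ∨ orderOf x ∣ 6 ∨ orderOf x ∣ 9 := by
  have h1 := pow_eq_inl M hφ x (pow_orderOf_eq_one x.right)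
  by_cases h : (x ^ orderOf x.right).left = 1
  · rw [h, map_one] at h1
    rw [Subgroup.orderOf_coe]
    exact Or.inl (Nat.dvd_antisymm (orderOf_dvd_of_pow_eq_one h1) (orderOf_map_dvd SemidirectProduct.rightHom x))
  right
  have h2 : x * x ^ orderOf x.right = x ^ orderOf x.right * x := (Commute.self_pow x _)
  generalize (x ^ orderOf x.right).left = v at h1 h
  rw [h1] at h2
  have h3 : act' M hφ k x.right v = v := by
    have := congrArg SemidirectProduct.left h2
    simp only [SemidirectProduct.mul_left, SemidirectProduct.left_inl, SemidirectProduct.right_inl, map_one,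
      MulAut.one_apply] at this
    rwa [mul_comm v, mul_right_inj] at this
  obtain ⟨p, hp⟩ := (par M hφ).rangeRestrict_surjective x.right
  rw [← hp, act'_par] at h3
  obtain ⟨i, hi⟩ := Function.ne_iff.1 (show v.toAdd ≠ 0 from h)
  have h4 : (par M hφ).rangeRestrict (-1, 1) = 1 := Subtype.ext ((par_one M hφ _).trans (M.ψ_neg_one hφ))
  rcases fixed hφ.not_isSquare_neg_one hi (p := p) (congrFun (congrArg Multiplicative.toAdd h3) i) with e | e | e
  · exact Or.inl (orderOf_dvd_of_pow_eq_one (pow_three_mul M hφ x (n := 2) (by rw [← hp, ← map_pow, e, h4])))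
  · exact Or.inr (orderOf_dvd_of_pow_eq_one (pow_three_mul M hφ x (n := 3) (by rw [← hp, ← map_pow, e, map_one])))
  · exact Or.inr (orderOf_dvd_of_pow_eq_one (pow_three_mul M hφ x (n := 3) (by rw [← hp, ← map_pow, e, h4])))

theorem exists_nine (k : ℕ) : ∃ x : X M hφ (k + 1), orderOf x = 9 := by
  let x : X M hφ (k + 1) := ⟨.ofAdd fun _ => !![0, 0; 1, 0], (par M hφ).rangeRestrict (slX 1, 1)⟩
  have h1 : x.right ^ 3 = 1 := Subtype.ext (by
    show par M hφ (slX 1, 1) ^ 3 = 1
    rw [par_one, M.ψ_slX, M.u_pow_three hφ]; simp [M.u_zero])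
  refine ⟨x, orderOf_eq_prime_pow (p := 3) (n := 1) (fun h => ?_) (pow_three_mul M hφ x h1)⟩
  have h2 := congrArg (fun y : X M hφ (k + 1) => y.left.toAdd 0 0 1) h
  have e : ((slX 1, 1) * (slX 1, 1) : SL(2, K) × ℤˣ) = (slX 2, 1) :=
    Prod.ext (by apply SL2.ext2 <;> simp [SL2.mul_ap, slX_val, one_add_one_eq_two]) (by simp)
  simp only [pow_succ, pow_zero, one_mul, SemidirectProduct.mul_left, SemidirectProduct.mul_right, x, ← map_mul,
    act'_par, e] at h2
  simp [act, actM, mt, slX, Matrix.mul_apply, Fin.sum_univ_two, Matrix.adjugate_fin_two, frobenius_def] at h2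
  have h3 := three_eq_zero K
  grind

theorem exists_X [Finite K] {m : ℕ} (hK : Nat.card K = 3 ^ (2 * m + 1)) (k : ℕ) {d : ℕ}
    (h : d ∣ 6 ∨ d ∣ 9 ∨ d ∣ 3 ^ (2 * m + 1) - 1 ∨ d ∣ (3 ^ (2 * m + 1) + 1) / 2) :
    ∃ x : X M hφ (k + 1), orderOf x = d := by
  have := M.finite
  have key : ∀ g ∈ (par M hφ).range, d ∣ orderOf g → ∃ x : X M hφ (k + 1), orderOf x = d := fun g hg h =>
    ⟨SemidirectProduct.inr (⟨g, hg⟩ ^ (orderOf g / d)), by
      rw [orderOf_injective _ SemidirectProduct.inr_injective, ← Subgroup.orderOf_coe]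
      exact exists_prime_pow h⟩
  rcases h with h | h | h | h
  · refine key _ ⟨(slX 1, -1), rfl⟩ ?_
    rwa [par_neg, M.ψ_slX, M.z_mul_x hφ, M.orderOf_u_z hφ (by simp)]
  · obtain ⟨x, hx⟩ := exists_nine M hφ k
    exact ⟨_, orderOf_pow_orderOf_div (by omega) (hx ▸ h)⟩
  · obtain ⟨x, hx, ho⟩ := exists_le_card_eq M.isCyclic_H (d := d) (by rwa [M.card_H, hK])
    obtain ⟨l, rfl⟩ := M.mem_H.1 hx
    obtain ⟨s, e | e⟩ := M.exists_h_eq hφ hφ.sq l
    · exact key _ ⟨(s, 1), (par_one M hφ s).trans e.symm⟩ (ho ▸ dvd_rfl)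
    · exact key _ ⟨(s, -1), (par_neg M hφ s).trans e.symm⟩ (ho ▸ dvd_rfl)
  · obtain ⟨x, hx, ho⟩ := exists_le_card_eq (M.isCyclic_T0 hφ) (d := d)
      (by rwa [show Nat.card (M.T0 hφ) = (3 ^ (2 * m + 1) + 1) / 2 by have := M.card_T0 hφ; omega])
    obtain ⟨s, -, e⟩ := (M.mem_T0 hφ).1 hx
    exact key _ ⟨(s, 1), (par_one M hφ s).trans e⟩ (ho ▸ dvd_rfl)

theorem lt_card_X [Finite K] (k : ℕ) : k < Nat.card (X M hφ k) := by
  have := M.finite
  have : Finite (X M hφ k) := Finite.of_equiv _ SemidirectProduct.equivProd.symm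
  refine lt_of_lt_of_le ?_ (Nat.card_le_card_of_injective _ SemidirectProduct.inl_injective)
  show k < Nat.card (Fin k → Matrix (Fin 2) (Fin 2) K)
  rw [Nat.card_fun, Nat.card_fin]
  exact Nat.lt_pow_self Finite.one_lt_card

theorem range_eq [Finite K] {m : ℕ} (hm : 1 ≤ m) (hK : Nat.card K = 3 ^ (2 * m + 1)) (k : ℕ) :
    Set.range (orderOf : G × G × X M hφ (k + 1) → ℕ) = Set.range (orderOf : G × G × G → ℕ) := by
  have sp := M.exists_orderOf_iff hφ hm hK
  apply Set.Subset.antisymm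
  · rintro _ ⟨⟨a, b, x⟩, rfl⟩
    obtain ⟨c, hc⟩ : ∃ c : G, orderOf c = orderOf x := by
      rcases orderOf_X M hφ x with h | h | h
      · exact ⟨_, h.symm⟩
      · exact (sp _).2 (Or.inl h)
      · exact (sp _).2 (Or.inr (Or.inl h))
    exact ⟨(a, b, c), by simp only [Prod.orderOf_mk, hc]⟩
  · rintro _ ⟨⟨a, b, c⟩, rfl⟩
    have key : ∀ a b c : G, (∃ x : X M hφ (k + 1), orderOf x = orderOf c) →
        (orderOf a).lcm ((orderOf b).lcm (orderOf c)) ∈ Set.range (orderOf : G × G × X M hφ (k + 1) → ℕ) :=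
      fun a b c ⟨x, hx⟩ => ⟨(a, b, x), by simp only [Prod.orderOf_mk, hx]⟩
    have key' : ∀ a b c : G, (∃ d : G, orderOf d = (orderOf b).lcm (orderOf c)) →
        (orderOf a).lcm ((orderOf b).lcm (orderOf c)) ∈ Set.range (orderOf : G × G × X M hφ (k + 1) → ℕ) :=
      fun a b c ⟨d, hd⟩ => ⟨(a, d, 1), by simp [Prod.orderOf_mk, hd]⟩
    have cs : ∀ c : G, (∃ x : X M hφ (k + 1), orderOf x = orderOf c) ∨
        orderOf c ∣ 3 ^ (2 * m + 1) - 3 ^ (m + 1) + 1 ∨ orderOf c ∣ 3 ^ (2 * m + 1) + 3 ^ (m + 1) + 1 := fun c => by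
      have := (sp _).1 ⟨c, rfl⟩
      have := exists_X M hφ hK k (d := orderOf c)
      tauto
    have l1 : ∀ b c : G, orderOf b ∣ 3 ^ (2 * m + 1) - 3 ^ (m + 1) + 1 →
        orderOf c ∣ 3 ^ (2 * m + 1) - 3 ^ (m + 1) + 1 → ∃ d : G, orderOf d = (orderOf b).lcm (orderOf c) :=
      fun b c h h' => (sp _).2 (by have := Nat.lcm_dvd h h'; tauto)
    have l2 : ∀ b c : G, orderOf b ∣ 3 ^ (2 * m + 1) + 3 ^ (m + 1) + 1 →
        orderOf c ∣ 3 ^ (2 * m + 1) + 3 ^ (m + 1) + 1 → ∃ d : G, orderOf d = (orderOf b).lcm (orderOf c) :=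
      fun b c h h' => (sp _).2 (by have := Nat.lcm_dvd h h'; tauto)
    have p1 : (orderOf a).lcm ((orderOf b).lcm (orderOf c)) = (orderOf b).lcm ((orderOf c).lcm (orderOf a)) := by
      rw [Nat.lcm_comm, Nat.lcm_assoc]
    have p2 : (orderOf a).lcm ((orderOf b).lcm (orderOf c)) = (orderOf c).lcm ((orderOf a).lcm (orderOf b)) := by
      rw [← Nat.lcm_assoc, Nat.lcm_comm]
    simp only [Prod.orderOf_mk]
    rcases cs a with ha | ha | ha
    · exact p1 ▸ key b c a ha
    all_goals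
      rcases cs b with hb | hb | hb
      · exact p2 ▸ key c a b hb
      all_goals
        rcases cs c with hc | hc | hc
        · exact key a b c hc
        all_goals first
          | exact key' a b c (l1 _ _ hb hc)
          | exact key' a b c (l2 _ _ hb hc)
          | exact p1 ▸ key' b c a (l1 _ _ hc ha)
          | exact p1 ▸ key' b c a (l2 _ _ hc ha)
          | exact p2 ▸ key' c a b (l1 _ _ ha hb)
          | exact p2 ▸ key' c a b (l2 _ _ ha hb)

end

/-- Let R be the small Ree group over the field with q = 3^(2m+1) ≥ 27 elements. Then there are finite groups of arbitrarily large order with exactly the same set of element orders as R × R × R. -/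
theorem result {K : Type*} [Field K] [Fintype K] {m : ℕ} (hm : 1 ≤ m) (hK : Fintype.card K = 3 ^ (2 * m + 1)) (N : ℕ) :
    ∃ (H : Type) (_ : Group H) (_ : Fintype H), N < Fintype.card H ∧
      Set.range (orderOf : H → ℕ) = Set.range (orderOf : ↥(Cfsg.Lie.twistedG2 K (3 ^ m)) × ↥(Cfsg.Lie.twistedG2 K (3 ^ m)) × ↥(Cfsg.Lie.twistedG2 K (3 ^ m)) → ℕ) := by
  have := charP_three hK
  have hφ := isTits_tits hK
  let M := reeModel hK
  have := M.finite
  have : Finite (X M hφ (N + 1)) := Finite.of_equiv _ SemidirectProduct.equivProd.symm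
  let H := ↥(Cfsg.Lie.twistedG2 K (3 ^ m)) × ↥(Cfsg.Lie.twistedG2 K (3 ^ m)) × X M hφ (N + 1)
  have : Small.{0} H := small_of_injective (Finite.equivFin H).injective
  have : Finite (Shrink.{0} H) := Finite.of_equiv _ (equivShrink.{0} H)
  refine ⟨Shrink.{0} H, inferInstance, Fintype.ofFinite _, ?_, ?_⟩
  · rw [Fintype.card_eq_nat_card, Nat.card_congr (equivShrink.{0} H).symm]
    exact ((Nat.lt_succ_self N).trans (lt_card_X M hφ (N + 1))).trans_le
      (Nat.card_le_card_of_surjective (fun x : H => x.2.2) fun x => ⟨(1, 1, x), rfl⟩)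
  · rw [← range_eq M hφ hm (natCard_eq hK) N]
    ext d
    exact ⟨fun ⟨x, hx⟩ => ⟨Shrink.mulEquiv x, by rw [MulEquiv.orderOf_eq, hx]⟩,
      fun ⟨x, hx⟩ => ⟨Shrink.mulEquiv.symm x, by rw [MulEquiv.orderOf_eq, hx]⟩⟩

end Cfsg.Agent.S3626
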