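import Cfsg.Statements.S3639
import Cfsg.Agent.Lib.Recog.PrimeGraphCover

set_option autoImplicit false
open Cfsg

namespace Cfsg.Agent.S3639

open Cfsg.Lie CfsgLib.Recog
open scoped Matrix

set_option linter.unusedSectionVars false

section
variable {F : Type*} [Field F] [CharP F 2]

/-- column relations of a symplectic matrix -/
theorem col_rel {g : GL (Fin 4) F} (hg : g ∈ Sp4 F) (i j : Fin 4) :
    g 0 i * g 3 j + g 1 i * g 2 j + g 2 i * g 1 j + g 3 i * g 0 j =
      altForm4 (Pi.single i (1 : F)) (Pi.single j 1) := by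
  have := hg (Pi.single i 1) (Pi.single j 1)
  rw [← this]
  simp [altForm4]

def Jm (F : Type*) [Field F] : Matrix (Fin 4) (Fin 4) F :=
  !![0, 0, 0, 1; 0, 0, 1, 0; 0, 1, 0, 0; 1, 0, 0, 0]

omit [CharP F 2] in
theorem Jm_mul_Jm : Jm F * Jm F = 1 := by
  ext i j
  fin_cases i <;> fin_cases j <;> simp [Jm, Matrix.mul_apply, Fin.sum_univ_four]

theorem adj_mul {g : GL (Fin 4) F} (hg : g ∈ Sp4 F) :
    (Jm F * (g : Matrix (Fin 4) (Fin 4) F)ᵀ * Jm F) * g = 1 := by
  have h : (g : Matrix (Fin 4) (Fin 4) F)ᵀ * Jm F * g = Jm F := by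
    ext i j
    have := col_rel hg i j
    have h2 : altForm4 (Pi.single i (1 : F)) (Pi.single j 1) = Jm F i j := by
      fin_cases i <;> fin_cases j <;> simp [altForm4, Jm]
    rw [← h2, ← this]
    simp [Jm, Matrix.mul_apply, Fin.sum_univ_four]
    ring
  rw [Matrix.mul_assoc, Matrix.mul_assoc, ← Matrix.mul_assoc _ (Jm F) _, h, Jm_mul_Jm]

theorem row_rel {g : GL (Fin 4) F} (hg : g ∈ Sp4 F) (i j : Fin 4) :
    g i 0 * g j 3 + g i 1 * g j 2 + g i 2 * g j 1 + g i 3 * g j 0 = Jm F i j := by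
  have h := mul_eq_one_comm.1 (adj_mul hg)
  have h2 : (g : Matrix (Fin 4) (Fin 4) F) * Jm F * (g : Matrix (Fin 4) (Fin 4) F)ᵀ = Jm F := by
    have := congrArg (· * Jm F) h
    simp only [Matrix.mul_assoc, Jm_mul_Jm, Matrix.mul_one, Matrix.one_mul] at this
    rw [Matrix.mul_assoc]; exact this
  rw [← congrFun (congrFun h2 i) j]
  simp [Jm, Matrix.mul_apply, Fin.sum_univ_four]
  ring

theorem col_rel' {g : GL (Fin 4) F} (hg : g ∈ Sp4 F) (i j : Fin 4) :
    g 0 i * g 3 j + g 1 i * g 2 j + g 2 i * g 1 j + g 3 i * g 0 j = Jm F i j := by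
  rw [col_rel hg]
  fin_cases i <;> fin_cases j <;> simp [altForm4, Jm]

theorem star4_mul {g h : GL (Fin 4) F} (hg : g ∈ Sp4 F) (hh : h ∈ Sp4 F) :
    star4 (g.val * h.val) = star4 g.val * star4 h.val := by
  have h2 : (2 : F) = 0 := CharTwo.two_eq_zero
  ext p r
  have hJ : ∀ q : Fin 4, Jm F (pairOf q).1 (pairOf q).2 = 0 := by
    intro q; fin_cases q <;> simp [Jm, pairOf]
  have e1 := row_rel hg (pairOf p).1 (pairOf p).2
  have e2 := col_rel' hh (pairOf r).1 (pairOf r).2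
  rw [hJ] at e1 e2
  simp only [star4, Matrix.of_apply, Matrix.mul_apply, Fin.sum_univ_four]
  generalize (pairOf p).1 = k at *
  generalize (pairOf p).2 = l at *
  generalize (pairOf r).1 = i at *
  generalize (pairOf r).2 = j at *
  simp only [pairOf, Matrix.cons_val_zero, Matrix.cons_val_one, Matrix.cons_val]
  linear_combination (h 0 i * h 3 j - h 3 i * h 0 j) * e1 +
    (g k 1 * g l 2 - g l 1 * g k 2) * e2 +
    (- (h 0 i * h 3 j - h 3 i * h 0 j) * (g k 3 * g l 0 + g k 1 * g l 2)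
      - (g k 1 * g l 2 - g l 1 * g k 2) * (h 2 i * h 1 j + h 3 i * h 0 j)) * h2

theorem mem_Sz {m : ℕ} {g : GL (Fin 4) F} (hg : g ∈ Sz F (2 ^ m)) [Finite F] :
    g ∈ Sp4 F ∧ star4 (g : Matrix (Fin 4) (Fin 4) F) =
      (g : Matrix (Fin 4) (Fin 4) F).map (fun x => x ^ 2 ^ m) := by
  haveI : Fact (Nat.Prime 2) := ⟨Nat.prime_two⟩
  have hmap : ∀ a b : Matrix (Fin 4) (Fin 4) F, (a * b).map (fun x => x ^ 2 ^ m) =
      a.map (fun x => x ^ 2 ^ m) * b.map (fun x => x ^ 2 ^ m) := fun a b =>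
    Matrix.map_mul (f := iterateFrobenius F 2 m)
  have hone : star4 (1 : Matrix (Fin 4) (Fin 4) F) = (1 : Matrix (Fin 4) (Fin 4) F).map
      (fun x => x ^ 2 ^ m) := by
    ext p r
    fin_cases p <;> fin_cases r <;> simp [star4, pairOf, Matrix.one_apply]
  induction hg using Subgroup.closure_induction with
  | mem x hx => exact hx
  | one => exact ⟨(Sp4 F).one_mem, hone⟩
  | mul x y _ _ hx hy =>
    refine ⟨(Sp4 F).mul_mem hx.1 hy.1, ?_⟩
    rw [Units.val_mul, star4_mul hx.1 hy.1, hmap, hx.2, hy.2]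
  | inv x _ hx =>
    have hi := (Sp4 F).inv_mem hx.1
    refine ⟨hi, ?_⟩
    have e1 := star4_mul hi hx.1
    rw [Units.inv_mul, hone, hx.2] at e1
    have e2 := hmap (x⁻¹).val x.val
    rw [Units.inv_mul] at e2
    have e3 := hmap x.val (x⁻¹).val
    rw [Units.mul_inv] at e3
    have e4 : (1 : Matrix (Fin 4) (Fin 4) F).map (fun x => x ^ 2 ^ m) = 1 :=
      Matrix.map_one _ (by simp) (by simp)
    rw [e4] at e1 e2 e3
    rw [← Matrix.mul_one (star4 _), e3, ← Matrix.mul_assoc, ← e1, Matrix.one_mul]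

theorem pow_four_of_fixed {m : ℕ} {g : GL (Fin 4) F} (hg : g ∈ Sz F (2 ^ m)) [Finite F]
    {v : Fin 4 → F} (hv : v ≠ 0) (hgv : (g : Matrix (Fin 4) (Fin 4) F) *ᵥ v = v) : g ^ 4 = 1 := by
  haveI : Fact (Nat.Prime 2) := ⟨Nat.prime_two⟩
  have h2 : (2 : F) = 0 := CharTwo.two_eq_zero
  obtain ⟨hsp, hst⟩ := mem_Sz hg
  set G : Matrix (Fin 4) (Fin 4) F := g.val with hG
  set G' : Matrix (Fin 4) (Fin 4) F := Jm F * Gᵀ * Jm F with hG'
  have hinv : G' * G = 1 := adj_mul hsp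
  have hinv' : G * G' = 1 := mul_eq_one_comm.1 hinv
  set t : F := G 0 0 + G 1 1 + G 2 2 + G 3 3 with ht
  set p : F := (G 0 0 + G 3 3) * (G 1 1 + G 2 2) + (G 0 1 + G 2 3) * (G 1 0 + G 3 2) +
    (G 0 2 + G 1 3) * (G 2 0 + G 3 1) with hp
  have hH : G + G' = !![G 0 0 + G 3 3, G 0 1 + G 2 3, G 0 2 + G 1 3, 0;
      G 1 0 + G 3 2, G 1 1 + G 2 2, 0, G 0 2 + G 1 3;
      G 2 0 + G 3 1, 0, G 1 1 + G 2 2, G 0 1 + G 2 3;
      0, G 2 0 + G 3 1, G 1 0 + G 3 2, G 0 0 + G 3 3] := by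
    have hG'' : ∀ i j, G' i j = G j.rev i.rev := by
      intro i j
      rw [hG', Matrix.mul_apply, Fin.sum_univ_four]
      simp only [Matrix.mul_apply, Fin.sum_univ_four, Matrix.transpose_apply]
      fin_cases i <;> fin_cases j <;> simp [Jm] <;> rfl
    ext i j
    rw [Matrix.add_apply, hG'']
    fin_cases i <;> fin_cases j <;>
      simp [Fin.rev, CharTwo.add_self_eq_zero] <;> exact add_comm _ _
  have hq : (G + G') * (G + G') = t • (G + G') + p • (1 : Matrix (Fin 4) (Fin 4) F) := by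
    rw [hH, ht, hp]
    generalize G 0 1 + G 2 3 = c
    generalize G 0 2 + G 1 3 = d
    generalize G 1 0 + G 3 2 = e
    generalize G 2 0 + G 3 1 = f
    have : G 0 0 + G 1 1 + G 2 2 + G 3 3 = (G 0 0 + G 3 3) + (G 1 1 + G 2 2) := by ring
    rw [this]
    generalize G 0 0 + G 3 3 = a
    generalize G 1 1 + G 2 2 = b
    ext i j
    fin_cases i <;> fin_cases j <;>
      simp [Matrix.mul_apply, Fin.sum_univ_four, Matrix.one_apply] <;> grind
  have hv' : G' *ᵥ v = v := by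
    conv_lhs => rw [← hgv, Matrix.mulVec_mulVec, hinv, Matrix.one_mulVec]
  have hHv : (G + G') *ᵥ v = 0 := by
    rw [Matrix.add_mulVec, hgv, hv']
    ext i
    exact CharTwo.add_self_eq_zero _
  have hp0 : p = 0 := by
    have := congrArg (· *ᵥ v) hq
    simp only [← Matrix.mulVec_mulVec, hHv, Matrix.mulVec_zero, Matrix.add_mulVec (t • _),
      Matrix.smul_mulVec, Matrix.one_mulVec, smul_zero, zero_add] at this
    exact (smul_eq_zero.1 this.symm).resolve_right hv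
  have ht0 : t = 0 := by
    have e0 := congrFun (congrFun hst 0) 0
    have e1 := congrFun (congrFun hst 1) 1
    have e2 := congrFun (congrFun hst 2) 2
    have e3 := congrFun (congrFun hst 3) 3
    simp only [star4, pairOf, Matrix.of_apply, Matrix.map_apply, Matrix.cons_val_zero,
      Matrix.cons_val_one, Matrix.cons_val] at e0 e1 e2 e3
    have c := col_rel' hsp 1 2
    have r := row_rel hsp 1 2
    rw [← hG] at c r
    have : t ^ 2 ^ m = 0 := by
      rw [ht, add_pow_char_pow, add_pow_char_pow, add_pow_char_pow, ← e0, ← e1, ← e2, ← e3]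
      rw [hp] at hp0
      linear_combination hp0 - c + r -
        (G 0 1 * G 1 0 + G 2 3 * G 1 0 + G 2 3 * G 3 2 + G 0 2 * G 2 0 + G 1 3 * G 2 0 +
          G 1 3 * G 3 1) * h2
    exact pow_eq_zero_iff (by positivity) |>.1 this
  rw [hp0, ht0, zero_smul, zero_smul, add_zero] at hq
  apply Units.ext
  rw [Units.val_pow_eq_pow_val, ← hG, Units.val_one]
  have h3 : (G * G + 1) * (G * G + 1) = 0 := by
    have e : G * G + 1 = G * (G + G') := by rw [Matrix.mul_add, hinv']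
    have e' : G * G + 1 = (G + G') * G := by rw [Matrix.add_mul, hinv]
    conv_lhs => arg 1; rw [e]
    conv_lhs => arg 2; rw [e']
    rw [Matrix.mul_assoc, ← Matrix.mul_assoc (G + G'), hq]
    simp
  have h4 : (G * G + 1) * (G * G + 1) = G ^ 4 - 1 + (2 : F) • (G * G + 1) := by
    rw [two_smul]; noncomm_ring
  rw [h4, h2, zero_smul, add_zero] at h3
  exact sub_eq_zero.1 h3

theorem J_mem (m : ℕ) : ∃ g ∈ Sz F (2 ^ m), orderOf g = 2 := by
  haveI : Fact (Nat.Prime 2) := ⟨Nat.prime_two⟩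
  let J : GL (Fin 4) F := ⟨Jm F, Jm F, Jm_mul_Jm, Jm_mul_Jm⟩
  refine ⟨J, Subgroup.subset_closure ⟨?_, ?_⟩, ?_⟩
  · intro u v
    simp [J, Jm, altForm4, Matrix.mulVec, dotProduct, Fin.sum_univ_four]
    ring
  · ext p r
    fin_cases p <;> fin_cases r <;> simp [star4, pairOf, J, Jm, CharTwo.neg_eq]
  · apply orderOf_eq_prime
    · apply Units.ext
      rw [sq]
      exact Jm_mul_Jm
    · intro h
      have h' : Jm F = 1 := congrArg Units.val h
      have := congrFun (congrFun h' 0) 0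
      simp [Jm] at this

end


/-- Let S be the Suzuki group over the field with q = 2^(2m+1) ≥ 8 elements. Then there are finite groups of arbitrarily large order with the same prime graph as S. -/
theorem result {F : Type*} [Field F] [Fintype F] {m : ℕ} (hm : 1 ≤ m) (hF : Fintype.card F = 2 ^ (2 * m + 1)) (N : ℕ) :
    ∃ (H : Type) (_ : Group H) (_ : Fintype H), N < Fintype.card H ∧ ((∀ r : ℕ, r.Prime → (r ∣ Nat.card ↥(Cfsg.Lie.Sz F (2 ^ (m + 1))) ↔ r ∣ Nat.card H)) ∧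
      (∀ r s : ℕ, r.Prime → s.Prime → r ≠ s → ((∃ x : ↥(Cfsg.Lie.Sz F (2 ^ (m + 1))), orderOf x = r * s) ↔ (∃ y : H, orderOf y = r * s)))) := by
  haveI : Fact (Nat.Prime 2) := ⟨Nat.prime_two⟩
  haveI : CharP F 2 := by
    obtain ⟨p, hp⟩ := CharP.exists F
    obtain ⟨n, hp', hn⟩ := FiniteField.card F p
    have : p ∣ 2 ^ (2 * m + 1) := by
      rw [← hF, hn]; exact dvd_pow_self _ n.ne_zero
    rwa [(Nat.prime_dvd_prime_iff_eq hp' Nat.prime_two).1 (hp'.dvd_of_dvd_pow this)] at hp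
  let ρ : Representation F (Sz F (2 ^ (m + 1))) (Fin 4 → F) :=
    (Matrix.toLinAlgEquiv' (R := F) (n := Fin 4)).toMonoidHom.comp
      ((Units.coeHom _).comp (Sz F (2 ^ (m + 1))).subtype)
  refine exists_large_samePG_of_rep ρ 2 Nat.prime_two (fun v => ?_) ?_ ?_ N
  · ext i
    simp [CharTwo.two_eq_zero]
  · obtain ⟨g, hg, hg2⟩ := J_mem (F := F) (m + 1)
    have := orderOf_dvd_natCard (⟨g, hg⟩ : Sz F (2 ^ (m + 1)))
    rwa [← Subgroup.orderOf_coe, hg2] at this
  · intro g v h1 h2 hv hgv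
    exfalso
    have h4 : g ^ 4 = 1 := Subtype.ext (pow_four_of_fixed g.2 hv hgv)
    have : orderOf g ∣ 2 ^ 2 := orderOf_dvd_of_pow_eq_one h4
    exact h2 ((Nat.prime_dvd_prime_iff_eq h1 Nat.prime_two).1 (h1.dvd_of_dvd_pow this))

end Cfsg.Agent.S3639
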