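import Cfsg.Statements.S3648
import Cfsg.Agent.Lib.CCZ.Basic
import Cfsg.Agent.Lib.Count.Frobenius
import Cfsg.Agent.Lib.Sz.SelfCent
import Cfsg.Agent.Lib.Fgs.ClassSize

set_option autoImplicit false
open Cfsg

namespace Cfsg.Agent.S3648


open CfsgLib CfsgLib.CCZ CfsgLib.BG CfsgLib.BSW CfsgLib.Dickson CfsgLib.Perm.SpecPSL CfsgLib.Count CfsgLib.Dickson.P1 Subgroup
open scoped MatrixGroups

theorem dvd_succ {G : Type*} [Group G] [Finite G] {p : ℕ} (hp : p.Prime) (h : p ∣ Nat.card G) :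
    p ∣ {x : G | orderOf x = p}.ncard + 1 := by
  have := Fact.mk hp
  rw [← Set.ncard_insert_of_notMem (a := 1) (by simpa using hp.one_lt.ne)]
  convert frobenius_one h using 2
  ext x
  simp only [Set.mem_insert_iff, Set.mem_ofPred_eq, orderOf_eq_prime_iff]
  exact ⟨fun h => h.elim (fun e => by rw [e, one_pow]) (·.1), by tauto⟩

theorem even_of {G : Type*} [Group G] [Finite G] {k : ℕ} (h1 : k ≠ 1) (h2 : k ≠ 2) :
    2 ∣ {x : G | orderOf x = k}.ncard :=
  dvd_ncard_of_fibers _ (fun x => ({x, x⁻¹} : Set G)) _ fun x hx => by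
    have h : x ≠ x⁻¹ := fun e => by
      rcases (Nat.dvd_prime Nat.prime_two).1 (orderOf_dvd_of_pow_eq_one (show x ^ 2 = 1 by
        rw [sq, mul_eq_one_iff_eq_inv, ← e])) with e | e
      exacts [h1 (hx ▸ e), h2 (hx ▸ e)]
    rw [← Set.ncard_pair h]
    refine (congrArg _ (Set.ext fun y => ⟨?_, fun e => e.2 ▸ Set.mem_insert _ _⟩)).dvd
    rintro (rfl | rfl)
    exacts [⟨hx, rfl⟩, ⟨by simpa using hx, by rw [inv_inv, Set.pair_comm]⟩]

theorem model {F : Type*} [Field F] [Fintype F] {p : ℕ} [CharP F p] (hp : p.Prime) :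
    {x : PGL(2, F) | orderOf x = p}.ncard = Fintype.card F ^ 2 - 1 ∧
      ∀ k, k ≠ 1 → k ≠ p → Fintype.card F ∣ {x : PGL(2, F) | orderOf x = k}.ncard := by
  have := Fact.mk hp
  have hU : ∀ {g : PGL(2, F)}, g ∈ unip (emb inf) ↔ ∃ b, g = aff 1 b one_ne_zero := by
    simp [mem_unip, isUnip_emb_iff, isUnip_inf_iff]
  have hc := (card_unip_emb (F := F) inf).trans Nat.card_eq_fintype_card
  have ho : ∀ y ∈ unip (emb (inf : P1 F)), y ≠ 1 → orderOf y = p := fun y hy h1 => by
    obtain ⟨b, rfl⟩ := hU.1 hy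
    exact orderOf_eq_prime (by rw [aff_one_pow, aff_eq_one_iff]; simp) h1
  have hS : SelfCent (unip (emb (inf : P1 F))) := fun y hy h1 => by
    obtain ⟨b, rfl⟩ := hU.1 hy
    have hb : b ≠ 0 := fun e => h1 (aff_eq_one_iff.2 ⟨rfl, e⟩)
    ext g
    rw [mem_centralizer_singleton_iff, hU]
    refine ⟨fun e => ?_, by rintro ⟨c, rfl⟩; simp [aff_mul, add_comm]⟩
    obtain ⟨a, b', c, d, h, rfl⟩ := exists_pm g
    simp only [aff, pm_mul, pm_eq_pm_iff] at e ⊢
    obtain ⟨u, e1, e2, e3, e4⟩ := e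
    have h1 : c = 0 := by
      by_contra hc
      have : u = 1 := mul_right_cancel₀ hc (by linear_combination -e3)
      exact hc (mul_left_cancel₀ hb (by subst this; linear_combination e1))
    subst h1
    have ha : a ≠ 0 := by rintro rfl; simp at h
    have : u = 1 := mul_right_cancel₀ ha (by linear_combination -e1)
    subst this
    have : d = a := mul_left_cancel₀ hb (by linear_combination e2)
    exact ⟨b' / a, a⁻¹, by field_simp, by field_simp, by simp, by subst this; field_simp⟩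
  have h1 : aff (1 : F) 1 one_ne_zero ≠ 1 := by simp [aff_eq_one_iff]
  refine ⟨?_, fun k k1 k2 => hc ▸ Frob.card_dvd_ncard_of_free_conj (fun h _ s hs => (orderOf_conj ..).trans hs)
    fun h hh s hs e => by_contra fun h0 => k2 (hs ▸ ho s (hS h hh h0 ▸ mem_cent1.2 e) fun e => k1 (hs ▸ by simp [e]))⟩
  rw [show {x : PGL(2, F) | orderOf x = p} = {y | IsConj (aff 1 1 one_ne_zero) y} from Set.ext fun y => ⟨fun hy => ?_,
    fun hy => (isConj_iff.1 hy).elim fun g e => e ▸ (orderOf_conj ..).trans (ho _ (hU.2 ⟨_, rfl⟩) h1)⟩,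
    Fgs.ncard_isConj_eq_index, hS _ (hU.2 ⟨_, rfl⟩) h1]
  · refine Nat.eq_of_mul_eq_mul_left (Fintype.card_pos (α := F)) ?_
    rw [← hc, card_mul_index, card_pgl, hc, Nat.card_eq_fintype_card]
  obtain ⟨g, hg⟩ := Sz.SelfCent.exists_conj_mem ⟨fun e => h1 (mem_bot.1 (e ▸ hU.2 ⟨_, rfl⟩)), hS⟩ (x := y) (by
    rw [hy, hp.coprime_iff_not_dvd, not_not, ← ho _ (hU.2 ⟨_, rfl⟩) h1]
    exact orderOf_dvd_natCard _ (hU.2 ⟨_, rfl⟩))
  obtain ⟨b, e⟩ := hU.1 hg
  have hb : b ≠ 0 := fun e' => hp.one_lt.ne' (by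
    rw [← hy, ← orderOf_conj g, e, aff_eq_one_iff.2 ⟨rfl, e'⟩, orderOf_one])
  refine (isConj_iff.2 ⟨aff b 0 hb, ?_⟩).trans (isConj_iff.2 ⟨g, e⟩).symm
  simp [mul_inv_eq_iff_eq_mul, aff_mul]

theorem invol {F : Type*} [Field F] [Fintype F] (h2 : (2 : F) ≠ 0) :
    Fintype.card F ^ 2 ≤ {x : PGL(2, F) | orderOf x = 2}.ncard := by
  classical
  rw [sq, ← Fintype.card_prod, ← Nat.card_eq_fintype_card, ← Set.ncard_univ]
  refine Set.ncard_le_ncard_of_injOn (fun x => if h : x.2 = 0 then pm 1 x.1 0 (-1) (by simp) else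
    pm x.1 (x.2 - x.1 ^ 2) 1 (-x.1) (fun e => h (by linear_combination -e))) (fun x _ => ?_) fun x _ y _ e => ?_
  · split_ifs with h
    · exact orderOf_eq_prime (by simp [sq, pm_mul, pm_eq_one_iff]) fun e =>
        h2 (by linear_combination (pm_eq_one_iff.1 e).2.2)
    · exact orderOf_eq_prime (by simp [sq, pm_mul, pm_eq_one_iff]; ring_nf) (by simp [pm_eq_one_iff])
  · dsimp only at e
    split_ifs at e with h h' h' <;> obtain ⟨u, e1, e2, e3, e4⟩ := pm_eq_pm_iff.1 e
    · exact Prod.ext (by linear_combination -e2 + x.1 * e1) (h.trans h'.symm)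
    · simp at e3
    · have : u = 0 := by linear_combination -e3
      simp [this] at e1
    · have : u = 1 := by linear_combination -e3
      subst this
      exact Prod.ext (by linear_combination -e1) (by linear_combination -e2 - (x.1 + y.1) * e1)

set_option maxHeartbeats 800000 in
/-- For a finite group X let nse(X) be the set of values of the function 'number of elements of order k' over the element orders k that occur. Let F be a finite field of odd order q > 3 and P = PGL(2, F) = GL(2, F) modulo its centre. If G is a finite group with the same order as P and nse(G) = nse(P), then G is isomorphic to P. -/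
theorem result {F : Type*} [Field F] [Fintype F] (hodd : Odd (Fintype.card F)) (h3 : 3 < Fintype.card F)
    {G : Type*} [Group G] [Finite G] (hcard : Nat.card G = Nat.card (GL (Fin 2) F ⧸ Subgroup.center (GL (Fin 2) F)))
    (hnse : {c : ℕ | 0 < c ∧ ∃ n : ℕ, c = Nat.card {g : G // orderOf g = n}} = {c : ℕ | 0 < c ∧ ∃ n : ℕ, c = Nat.card {g : (GL (Fin 2) F ⧸ Subgroup.center (GL (Fin 2) F)) // orderOf g = n}}) :
    Nonempty (G ≃* (GL (Fin 2) F ⧸ Subgroup.center (GL (Fin 2) F))) := by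
  obtain ⟨p, _, n, hp, hn⟩ := FiniteField.card' F
  have := Fact.mk hp
  obtain ⟨m1, m2⟩ := model (F := F) hp
  have m3 := invol (F := F) (Ring.two_ne_zero (by
    simp [FiniteField.even_card_iff_char_two, Nat.odd_iff.1 hodd]))
  have hL : Nat.card PGL(2, F) = Fintype.card F * (Fintype.card F ^ 2 - 1) := by
    rw [card_pgl, Nat.card_eq_fintype_card]
  have hG : Nat.card G = _ := hcard.trans hL
  have tr : ∀ {x : G}, ∃ k, {y : G | orderOf y = orderOf x}.ncard = {y : PGL(2, F) | orderOf y = k}.ncard := fun {x} =>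
    (hnse.le ⟨(Set.ncard_pos (s := {y : G | orderOf y = orderOf x})).2 ⟨x, rfl⟩, _, rfl⟩).2
  suffices ∃ P : Subgroup G, SelfCent P ∧ Nat.card P = Fintype.card F ∧
      Fintype.card F ^ 2 ≤ {x : G | orderOf x = 2}.ncard from this.elim fun P h => pgl h.1 h.2.1 hG (.inr h.2.2)
  generalize Fintype.card F = q at *
  have hq : p ∣ q := hn ▸ dvd_pow_self _ n.ne_zero
  have hp2 : p ≠ 2 := by rintro rfl; exact hodd.not_two_dvd_nat hq
  obtain ⟨r, hr⟩ : ∃ r, q ^ 2 = r + 1 := ⟨q ^ 2 - 1, by have := Nat.one_le_pow 2 q (by omega); omega⟩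
  have hr2 : 2 ∣ r := by have := Nat.odd_iff.1 (hodd.pow (n := 2)); omega
  have hr3 : q ≤ r := by nlinarith
  rw [hr, Nat.add_sub_cancel] at m1 hL hG
  have a2 : q ^ 2 ≤ {x : G | orderOf x = 2}.ncard := by
    have k1 := dvd_succ Nat.prime_two (hL ▸ hr2.mul_left q)
    obtain ⟨-, k, hk⟩ := hnse.ge ⟨(by positivity : 0 < q ^ 2).trans_le m3, 2, rfl⟩
    change _ = {x : G | orderOf x = k}.ncard at hk
    by_cases e : k = 1
    · simp [hk, e, hr] at m3
      omega
    by_cases e' : k = 2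
    · rwa [hk, e'] at m3
    have := even_of (G := G) e e'
    omega
  have a1 : ∀ x : G, x ≠ 1 → {y : G | orderOf y = orderOf x}.ncard = r ∨ q ∣ {y : G | orderOf y = orderOf x}.ncard :=
    fun x hx => by
    obtain ⟨k, hk⟩ := @tr x
    by_cases e : k = 1
    · simp only [e, orderOf_eq_one_iff, Set.ofPred_eq_eq_singleton, Set.ncard_singleton] at hk
      by_cases e' : orderOf x = 2
      · rw [e'] at hk
        omega
      have := even_of (G := G) (mt orderOf_eq_one_iff.1 hx) e'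
      omega
    by_cases e' : k = p
    · exact .inl (by rw [hk, e', m1])
    · exact .inr (hk ▸ m2 k e e')
  obtain ⟨z, hz⟩ := exists_prime_orderOf_dvd_card' (G := G) p (hG ▸ hq.mul_right r)
  have hz1 : z ≠ 1 := fun e => hp.one_lt.ne (by simpa [e] using hz)
  have a3 : {y : G | orderOf y = p}.ncard = r := hz ▸ (a1 z hz1).resolve_right fun e => hp.one_lt.ne'
    (Nat.dvd_one.1 ((Nat.dvd_add_right (hq.trans e)).1 (hz.symm ▸ dvd_succ hp (hG.symm ▸ hq.mul_right r))))
  have a4 : ∀ x : G, x ≠ 1 → orderOf x ≠ p → q ∣ {y : G | orderOf y = orderOf x}.ncard := fun x h1 h2 => by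
    refine (a1 x h1).resolve_left fun e => ?_
    let B := {x : G | {y : G | orderOf y = orderOf x}.ncard = r}
    have b1 : (1 : G) ∉ B := by simp [B]; omega
    obtain ⟨j, hj⟩ := dvd_ncard_of_fibers B orderOf r fun y hy =>
      (hy.symm.trans (congrArg _ (Set.ext fun w => by simp +contextual [B, hy.out, iff_def]))).dvd
    obtain ⟨l, hl⟩ := dvd_ncard_of_fibers (insert 1 B)ᶜ orderOf q fun y hy => by
      simp only [Set.mem_compl_iff, Set.mem_insert_iff, not_or] at hy
      convert (a1 y hy.1).resolve_left hy.2 using 2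
      ext w
      refine ⟨fun h => h.2, fun h => ⟨?_, h⟩⟩
      rintro (rfl | h')
      exacts [hy.1 (by simpa using h.out.symm), hy.2 (by simpa [B, h.out] using h')]
    have b2 := Set.ncard_add_ncard_compl (insert 1 B)
    rw [Set.ncard_insert_of_notMem b1, hj, hl, hG] at b2
    have b3 := Set.ncard_le_ncard (s := {y : G | orderOf y = p} ∪ {y : G | orderOf y = orderOf x}) (t := B)
      (by rintro y (h | h) <;> simp [B, h.out, a3, e])
    rw [Set.ncard_union_eq (Set.disjoint_left.2 fun y h h' => h2 (h'.symm.trans h)), a3, e, hj] at b3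
    have b4 : q ∣ j - 1 := (Nat.modEq_iff_dvd' (by nlinarith)).1 ((Nat.modEq_iff_dvd).2 ⟨q * j - r + l, by
      have b5 : (q : ℤ) ^ 2 = r + 1 := by exact_mod_cast hr
      have b6 : (r : ℤ) * j + 1 + q * l = q * r := by exact_mod_cast b2
      push_cast; linear_combination -j * b5 - b6⟩)
    have := Nat.le_of_dvd (by rcases j with _ | _ | j <;> simp at b3 ⊢ <;> omega) b4
    nlinarith [show q + 1 ≤ j by omega]
  have c : p.Coprime r := Nat.coprime_of_dvd fun s hs k1 k2 =>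
    hs.one_lt.ne' (Nat.dvd_one.1 ((Nat.dvd_add_right k2).1 (hr ▸ (k1.trans hq).pow two_ne_zero)))
  have a5 : Tri G p r 1 := ⟨c, by simp, by simp, fun g => by
    obtain ⟨i, hi⟩ := frobenius_one (G := G) (hG ▸ dvd_mul_left r q)
    obtain ⟨l, hl⟩ := dvd_ncard_of_fibers ({x : G | x ^ r = 1} \ {1}) orderOf q fun y hy => by
      convert a4 y hy.2 fun e => hp.one_lt.ne' (Nat.eq_one_of_dvd_coprimes c dvd_rfl
        (e ▸ orderOf_dvd_of_pow_eq_one hy.1)) using 2
      ext w
      exact ⟨fun h => h.2, fun h => ⟨⟨orderOf_dvd_iff_pow_eq_one.1 (h ▸ orderOf_dvd_of_pow_eq_one hy.1),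
        fun e => hy.2 (by simpa [show w = 1 from e] using h.out.symm)⟩, h⟩⟩
    have b1 := Set.ncard_sdiff_singleton_add_one (s := {x : G | x ^ r = 1}) (a := 1) (by simp)
    rw [hl, hi] at b1
    have b4 : q ∣ i + 1 := Int.natCast_dvd_natCast.1 ⟨q * i - l, by
      have b5 : (q : ℤ) ^ 2 = r + 1 := by exact_mod_cast hr
      have b6 : (q : ℤ) * l + 1 = r * i := by exact_mod_cast b1
      push_cast; linear_combination -i * b5 + b6⟩
    have b2 := Set.eq_of_subset_of_ncard_le (Set.subset_univ ({y : G | orderOf y = p} ∪ {x : G | x ^ r = 1})) (by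
      rw [Set.ncard_union_eq ?_, a3, hi, Set.ncard_univ, hG]
      swap
      · exact Set.disjoint_left.2 fun y h h' => hp.one_lt.ne' (Nat.eq_one_of_dvd_coprimes c dvd_rfl
          (h.out ▸ orderOf_dvd_of_pow_eq_one h'))
      nlinarith [Nat.le_of_dvd i.succ_pos b4])
    exact (b2.ge trivial).imp (·.out.dvd) fun h => .inl (orderOf_dvd_of_pow_eq_one h)⟩
  have a6 : ∀ x : G, x ≠ 1 → orderOf x ∣ p → Nat.card 𝒞[x] ∣ q := fun x h1 h2 => a5.card_cent_dvd h1 h2 hG c
  have s1 : {y | IsConj z y} ⊆ {y : G | orderOf y = p} := fun y hy =>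
    (isConj_iff.1 hy).elim fun g e => e ▸ (orderOf_conj ..).trans hz
  have s2 := Set.ncard_le_ncard s1
  have s3 := card_mul_index 𝒞[z]
  have s4 := Nat.le_of_dvd (by omega) (a6 z hz1 hz.dvd)
  rw [Fgs.ncard_isConj_eq_index, a3] at s2
  rw [hG] at s3
  have s5 : Nat.card 𝒞[z] = q := by nlinarith
  obtain ⟨g, hg⟩ := isConj_iff.1 ((Set.eq_of_subset_of_ncard_le s1 (by
    rw [Fgs.ncard_isConj_eq_index, a3]; nlinarith)).ge (show orderOf z⁻¹ = p by simpa))
  have ho : ∀ y ∈ 𝒞[z], y ≠ 1 → Nat.card 𝒞[y] ∣ q := fun y hy h1 => a6 y h1 (a5.key hz1 hz.dvd hy)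
  obtain ⟨v, hv, hv'⟩ := Out.sr_of_conj (hodd.of_dvd_nat s5.dvd) hz1 hg
  refine ⟨_, selfCent_of_card_dvd (comm_of_inverts fun y => inverts_of_fpf (Invol.mul_self_of_orderOf_two hv) ?_
    fun y hy e => by_contra fun h1 => out_iff.1 (hodd.of_dvd_nat (ho y hy h1)) v hv
      (mem_cent1.2 (mul_inv_eq_iff_eq_mul.1 e))) (s5 ▸ ho), s5, a2⟩
  rw [mem_norm_iff, cj_cent1, hv']
  ext w
  exact ⟨fun h => mem_cent1.2 (Commute.inv_right_iff.1 (mem_cent1.1 h)),
    fun h => mem_cent1.2 (Commute.inv_right_iff.2 (mem_cent1.1 h))⟩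

end Cfsg.Agent.S3648
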