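import Cfsg.Statements.S3662
import Cfsg.Agent.Lib.Semi.G2
import Cfsg.Agent.Lib.Recog.PGSpec
import Cfsg.Agent.Lib.Recog.CoverPG
import Cfsg.Agent.Lib.RepChk.Zorn
import Cfsg.Agent.Lib.Cov2.Even
import Cfsg.Agent.Lib.Classical.SmallIso
import Cfsg.Agent.Lib.Stein.FieldMap

set_option autoImplicit false
open Cfsg

namespace Cfsg.Agent.S3662

section

open CfsgLib.Classical CfsgLib.RepChk CfsgLib.Recog CfsgLib.Syl2EA Cfsg.Lie Matrix

abbrev M8 := Matrix (Fin 8) (Fin 8) GF4

def el (n : ℕ) : GF4 := ⟨(n : ZMod 2), ((n / 2 : ℕ) : ZMod 2)⟩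

def dec (n : ℕ) : M8 := Matrix.of fun i j => el (n >>> (2 * (8 * i.1 + j.1)))

def rho : G2 GF4 →* M8 := (Units.coeHom _).comp (G2 GF4).subtype

theorem rho_inj : Function.Injective rho := Units.val_injective.comp Subtype.val_injective

theorem rho_zY {r : ℕ} (hr : r < 12) (t : GF4) : rho (zY GF4 r t) = 1 + ev1 t (zX r) := by
  rw [zY, dif_pos hr]; rfl

def ff (x : G2 GF4) : GF4 := (rho x *ᵥ Pi.single 1 1) 1

theorem key {g : G2 GF4} {p a l r : ℕ} [Fact p.Prime] (hg : rho g = dec a) (h1 : dec a ^ p = 1) (h2 : dec a ≠ 1)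
    (h3 : dec l * (dec a - 1) + vecMulVec (dec r 0) ![1, 0, 0, 0, 0, 0, 0, 1] = diagonal ![0, 1, 1, 1, 1, 1, 1, 0]) :
    orderOf g = p ∧ ∀ x y, ∑ j ∈ Finset.range p, ff (x * g ^ j * y) = 0 := by
  have hp : g ^ p = 1 := rho_inj (by rw [map_pow, hg, h1, map_one])
  refine ⟨orderOf_eq_prime hp fun h => h2 (by rw [← hg, h, map_one]), fun x y => ?_⟩
  have ht : ∀ (g : G2 GF4) (v : Fin 8 → GF4), (rho g *ᵥ v) 0 + (rho g *ᵥ v) 7 = v 0 + v 7 := fun g v =>
    (CfsgLib.Cov2.zAut_tr_norm ⟨CfsgLib.Forms.glEquiv g.1, g.2⟩ v).1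
  obtain ⟨u, hu⟩ : ∃ u, u = ∑ j ∈ Finset.range p, rho (g ^ j * y) *ᵥ Pi.single 1 1 := ⟨_, rfl⟩
  have h4 : u 0 + u 7 = 0 := by
    rw [hu, Finset.sum_apply, Finset.sum_apply, ← Finset.sum_add_distrib]
    exact Finset.sum_eq_zero fun j _ => by rw [ht]; simp
  have h5 : (dec a - 1) *ᵥ u = 0 := by
    rw [sub_mulVec, one_mulVec, hu, mulVec_sum, ← Finset.sum_sub_distrib, ← hg]
    simp only [mulVec_mulVec, ← map_mul, ← mul_assoc, ← pow_succ']
    rw [Finset.sum_range_sub (fun j => rho (g ^ j * y) *ᵥ Pi.single 1 1), hp, pow_zero, sub_self]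
  have h6 := congrArg (· *ᵥ u) h3
  simp only [add_mulVec, ← mulVec_mulVec, h5, mulVec_zero, zero_add, vecMulVec_mulVec] at h6
  rw [show ![1, 0, 0, 0, 0, 0, 0, 1] ⬝ᵥ u = 0 by simpa [dotProduct, Fin.sum_univ_eight] using h4, MulOpposite.op_zero,
    zero_smul] at h6
  have h7 : u = u 0 • zOne GF4 := by
    have h8 := fun i => congrFun h6 i
    simp only [mulVec_diagonal, Pi.zero_apply] at h8
    have h9 : u 7 = u 0 := by
      have : (2 : GF4) = 0 := by decide +kernel
      linear_combination h4 - u 0 * this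
    apply ext8 <;> simp [zOne, h9]
    exacts [by simpa using (h8 1).symm, by simpa using (h8 2).symm, by simpa using (h8 3).symm,
      by simpa using (h8 4).symm, by simpa using (h8 5).symm, by simpa using (h8 6).symm]
  have h10 : rho x *ᵥ zOne GF4 = zOne GF4 := zAut_one ⟨CfsgLib.Forms.glEquiv x.1, x.2⟩
  calc _ = (rho x *ᵥ u) 1 := by
        rw [hu, mulVec_sum, Finset.sum_apply]
        simp only [ff, mulVec_mulVec, ← map_mul, mul_assoc]
    _ = 0 := by rw [h7, mulVec_smul, h10]; simp [zOne]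

theorem two_smul' : ∀ a : GF4, 2 • a = 0 := by decide +kernel

theorem pow7 {a b c d : M8} (h2 : a * a = b) (h3 : b * a = c) (h6 : c * c = d) : a ^ 7 = d * a ∧ a ^ 13 = d * d * a := by
  subst h2 h3 h6
  simp only [pow_succ, pow_zero, one_mul, mul_assoc, and_self]

theorem key7 : ∃ g : G2 GF4, orderOf g = 7 ∧ ∀ x y, ∑ j ∈ Finset.range 7, ff (x * g ^ j * y) = 0 := by
  have : Fact (Nat.Prime 7) := ⟨by norm_num⟩
  refine ⟨zY GF4 0 1 * zY GF4 4 1 * zY GF4 9 1, key (a := 0x41505041451151415505011054450151)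
    (l := 0x501010400100401041000540000) (r := 0x50) ?_ ?_ (by decide +kernel) (by decide +kernel)⟩
  · rw [map_mul, map_mul, rho_zY (by norm_num), rho_zY (by norm_num), rho_zY (by norm_num),
      show (1 + ev1 1 (zX 0)) * (1 + ev1 1 (zX 4)) = dec 0x40101000441111001144001010040011 by decide +kernel]
    decide +kernel
  · rw [(pow7 (b := dec 0x44044545554114045055505154110405) (c := dec 0x50045511511541151010445554411005)
      (d := dec 0x51544145441111001144111054151155) (by decide +kernel) (by decide +kernel) (by decide +kernel)).1]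
    decide +kernel

theorem key13 : ∃ g : G2 GF4, orderOf g = 13 ∧ ∀ x y, ∑ j ∈ Finset.range 13, ff (x * g ^ j * y) = 0 := by
  have : Fact (Nat.Prime 13) := ⟨by norm_num⟩
  refine ⟨zY GF4 0 1 * zY GF4 2 1 * zY GF4 4 (el 2) * zY GF4 9 (el 2), key (a := 0xd36290c26d7593d23ac40210e8479363)
    (l := 0x3020efc003006530fe00ea40000) (r := 0x28ec) ?_ ?_ (by decide +kernel) (by decide +kernel)⟩
  · rw [map_mul, map_mul, map_mul, rho_zY (by norm_num), rho_zY (by norm_num), rho_zY (by norm_num),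
      rho_zY (by norm_num),
      show (1 + ev1 1 (zX 0)) * (1 + ev1 1 (zX 2)) = dec 0x50001000040411105045001000041001 by decide +kernel,
      show dec 0x50001000040411105045001000041001 * (1 + ev1 (el 2) (zX 4)) = dec 0x50201000a43611107245001020041021 by
        decide +kernel]
    decide +kernel
  · rw [(pow7 (b := dec 0x88f7354c3bcc45edeab3e3734459c8f6) (c := dec 0x6900202c05e80cc469c1690569292901)
      (d := dec 0x5f8c5929de9bb13ea10e1fa476b91f8d) (by decide +kernel) (by decide +kernel) (by decide +kernel)).2,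
      show dec 0x5f8c5929de9bb13ea10e1fa476b91f8d * dec 0x5f8c5929de9bb13ea10e1fa476b91f8d =
        dec 0xc39a71dd8436111072652230e81f839b by decide +kernel]
    decide +kernel

end

/-- The prime graph of a finite group has the prime divisors of its order as vertices, two distinct primes p, q being joined when the group has an element of order pq; two groups have the same prime graph when they have the same prime divisors and the same joined pairs. Let F be the field with 4 elements and L the Chevalley group of type G₂ over F. There are finite groups of arbitrarily large order with the same prime graph as L. -/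
theorem result {F : Type*} [Field F] [Fintype F] (hF : Fintype.card F = 4) (N : ℕ) :
    ∃ (H : Type) (_ : Group H) (_ : Finite H), N < Nat.card H ∧
      ((∀ p : ℕ, p.Prime → (p ∣ Nat.card ↥(Cfsg.Lie.chevG2.group F) ↔ p ∣ Nat.card H)) ∧
      (∀ p q : ℕ, p.Prime → q.Prime → p ≠ q → ((∃ g : ↥(Cfsg.Lie.chevG2.group F), orderOf g = p * q) ↔ (∃ g : H, orderOf g = p * q)))) := by
  obtain ⟨φ, -⟩ := CfsgLib.RepChk.exists_zornEquiv (F := CfsgLib.Classical.GF4) ⟨el 2, by decide +kernel⟩
  let e := (CfsgLib.Stein.groupEquiv _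
    (FiniteField.ringEquivOfCardEq (hF.trans CfsgLib.Classical.card_GF4.symm))).trans φ
  have hc : Nat.card (Lie.G2 CfsgLib.Classical.GF4) = 251596800 := by
    rw [← Nat.card_congr e.toEquiv, CfsgLib.RGD.card_G2 F hF]; norm_num
  have : Finite (Lie.G2 CfsgLib.Classical.GF4) := Nat.finite_of_card_ne_zero (by rw [hc]; norm_num)
  have : Fact (Nat.Prime 2) := ⟨by norm_num⟩
  have : Fact (Nat.Prime 7) := ⟨by norm_num⟩
  have : Fact (Nat.Prime 13) := ⟨by norm_num⟩
  have : CharP F 2 := charP_of_card_eq_prime_pow (f := 2) hF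
  obtain ⟨⟨a, h1⟩, ⟨b, h2⟩, -⟩ := CfsgLib.Semi.G2_exists 2 hF
  obtain ⟨X, _, _, h3, h4⟩ := CfsgLib.Recog.exists_large_samePG_of_cosetSum 2 Nat.prime_two two_smul'
    (by rw [hc]; norm_num) (fun n => n = 7 ∨ n = 13) (fun g hg h5 h6 => by
      have h7 := orderOf_dvd_natCard g
      rw [hc, show 251596800 = 2 ^ 12 * (3 ^ 3 * (5 ^ 2 * (7 * 13))) by norm_num] at h7
      simp only [hg.dvd_mul, hg.prime.dvd_pow_iff_dvd (show 12 ≠ 0 by norm_num),
        hg.prime.dvd_pow_iff_dvd (show 3 ≠ 0 by norm_num), hg.prime.dvd_pow_iff_dvd (show 2 ≠ 0 by norm_num),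
        Nat.prime_dvd_prime_iff_eq hg Nat.prime_two, Nat.prime_dvd_prime_iff_eq hg Nat.prime_three,
        Nat.prime_dvd_prime_iff_eq hg Nat.prime_five, Nat.prime_dvd_prime_iff_eq hg (show Nat.Prime 7 by norm_num),
        Nat.prime_dvd_prime_iff_eq hg (show Nat.Prime 13 by norm_num)] at h7
      rcases h7 with h | h | h | h
      exacts [absurd h h5, ⟨e b, by rw [e.orderOf_eq, h2, h]⟩, ⟨e a, by rw [e.orderOf_eq, h1, h]⟩, absurd h h6]) ff
    (fun h => by simpa [ff] using congrFun h 1) (fun h hh x => by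
      obtain ⟨g, h5, h6⟩ := key7
      obtain ⟨g', h7, h8⟩ := key13
      rcases hh with hh | hh
      · exact CfsgLib.Recog.cosetSum_eq_zero_of_conj ff (by rw [hc]; decide +kernel) h5 h6 h hh x
      · exact CfsgLib.Recog.cosetSum_eq_zero_of_conj ff (by rw [hc]; decide +kernel) h7 h8 h hh x) N
  exact ⟨X, inferInstance, inferInstance, by rwa [Nat.card_eq_fintype_card],
    (CfsgLib.Recog.samePG_of_mulEquiv e).trans h4⟩

end Cfsg.Agent.S3662
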