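import Cfsg.Statements.S3664
import Cfsg.Agent.Lib.Recog.F8
import Cfsg.Agent.Lib.Recog.PGSpec
import Cfsg.Agent.Lib.Spec.Adj
import Cfsg.Agent.Lib.Spec.AbsorbLU
import Cfsg.Agent.Lib.Sz.Aut
set_option autoImplicit false
open Cfsg

namespace Cfsg.Agent.S3664

open CfsgLib.Recog CfsgLib.Recog.F8 CfsgLib.Sz CfsgLib.Spec Matrix Finset

def V (r : ℕ) : Prop := r = 2 ∨ r = 3 ∨ r = 5 ∨ r = 7 ∨ r = 13

def E (n : ℕ) : Prop := n = 6 ∨ n = 10 ∨ n = 14 ∨ n = 15

theorem hasPG_of {G : Type*} [Group G] [Finite G]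
    (h1 : ∀ r : ℕ, r.Prime → r ∈ Set.range (orderOf : G → ℕ) → V r)
    (h2 : ∀ n ∈ Set.range (orderOf : G → ℕ), n ≠ 21 ∧ n ≠ 26 ∧ n ≠ 35 ∧ n ≠ 39 ∧ n ≠ 65 ∧ n ≠ 91)
    (h3 : ∀ n, (E n ∨ n = 13) → n ∈ Set.range (orderOf : G → ℕ)) : HasPG G V E := by
  refine ⟨fun r hr => ⟨h1 r hr, fun h => ?_⟩, fun r s _ _ hrs hr hs =>
    ⟨fun h => ?_, fun h => h3 _ (Or.inl h)⟩⟩
  · have k : ∀ n, (E n ∨ n = 13) → r ∣ n → r ∈ Set.range (orderOf : G → ℕ) := fun n hn hrn => by
      obtain ⟨g, hg⟩ := h3 n hn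
      exact mem_range_orderOf_of_dvd g (hg ▸ hrn)
    rcases h with rfl | rfl | rfl | rfl | rfl
    · exact k 6 (by simp [E]) (by norm_num)
    · exact k 6 (by simp [E]) (by norm_num)
    · exact k 10 (by simp [E]) (by norm_num)
    · exact k 14 (by simp [E]) (by norm_num)
    · exact k 13 (by simp [E]) (by norm_num)
  · have := h2 _ h
    rw [E]
    rcases hr with rfl | rfl | rfl | rfl | rfl <;> rcases hs with rfl | rfl | rfl | rfl | rfl <;> omega

theorem hasPG_psp {F : Type*} [Field F] [Fintype F] (hF : Fintype.card F = 3) :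
    HasPG (PSp 3 F) V E := by
  classical
  have : CharP F 3 := charP_of_card_eq_pow (a := 1) Nat.prime_three (by rw [hF]; norm_num)
  let K := AlgebraicClosure F
  have : CharP K 3 := charP_of_injective_algebraMap (algebraMap F K).injective 3
  have hφ : Function.Injective fun x : K => x ^ Fintype.card F := frob_injective
  have hs := spectrum_psp_eq K (F := F) 3 3
  rw [hF] at hs hφ
  have p5 : Nat.Prime 5 := by norm_num
  have p7 : Nat.Prime 7 := by norm_num
  have p13 : Nat.Prime 13 := by norm_num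
  have hdvd : ∀ n N, N ∈ omegaSp K 3 3 3 → n ∣ N → n ∈ Set.range (orderOf : PSp 3 F → ℕ) := by
    intro n N hN h
    rw [← hs] at hN
    obtain ⟨g, rfl⟩ := hN
    exact mem_range_orderOf_of_dvd g h
  apply hasPG_of
  · intro r hr h
    rw [hs] at h
    by_cases h2 : r = 2
    · exact Or.inl h2
    by_cases h3 : r = 3
    · exact Or.inr (Or.inl h3)
    obtain ⟨d, h4, h5, h6⟩ := omegaSp_prime Nat.prime_three (by norm_num) hφ h hr h2 h3 dvd_rfl
    have h7 : r ∣ 2 ^ 3 * (5 * (7 * 13)) := by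
      interval_cases d <;> rcases h6 with h | h <;> exact h.trans (by norm_num)
    rw [hr.dvd_mul, hr.dvd_mul, hr.dvd_mul, Nat.prime_dvd_prime_iff_eq hr p5,
      Nat.prime_dvd_prime_iff_eq hr p7, Nat.prime_dvd_prime_iff_eq hr p13] at h7
    rcases h7 with h | h
    · exact absurd ((Nat.prime_dvd_prime_iff_eq hr Nat.prime_two).1 (hr.dvd_of_dvd_pow h)) h2
    · exact Or.inr (Or.inr h)
  · intro n h
    rw [hs] at h
    have k1 : ∀ r : ℕ, r.Prime → r = 7 ∨ r = 13 → n ≠ 3 * r := by
      rintro r hr h1 rfl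
      obtain ⟨d, h4, h5, h6⟩ := omegaSp_prime_char (by norm_num) hφ h (by omega) hr (by omega)
        (by omega) (dvd_mul_left _ _) (dvd_mul_right _ _)
      interval_cases d <;> rcases h1 with rfl | rfl <;> omega
    have k2 : ∀ r s : ℕ, r.Prime → s.Prime → (r = 5 ∧ s = 7) ∨ (r = 5 ∧ s = 13) ∨ (r = 7 ∧ s = 13) →
        n ≠ r * s := by
      rintro r s hr hs h1 rfl
      rcases omegaSp_two_primes Nat.prime_three (by norm_num) hφ h hr (by omega) (by omega)
        (dvd_mul_right _ _) hs (by omega) (by omega) (dvd_mul_left _ _) with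
        ⟨d, d', h2, h3, h4, h5, h6⟩ | ⟨d, h2, h3, h4⟩
      · have h7 : d' < 3 := by omega
        rcases h1 with ⟨rfl, rfl⟩ | ⟨rfl, rfl⟩ | ⟨rfl, rfl⟩ <;> interval_cases d' <;> omega
      · rcases h1 with ⟨rfl, rfl⟩ | ⟨rfl, rfl⟩ | ⟨rfl, rfl⟩ <;> interval_cases d <;> omega
    refine ⟨k1 7 p7 (by simp), ?_, k2 5 7 p5 p7 (by simp), k1 13 p13 (by simp),
      k2 5 13 p5 p13 (by simp), k2 7 13 p7 p13 (by simp)⟩
    rintro rfl
    obtain ⟨S, h1, h2⟩ := h
    obtain ⟨a, ha, hra⟩ := h2.exists_prime_dvd Nat.prime_three p13 (by norm_num) (by norm_num)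
    obtain ⟨d, hd⟩ := exists_isEta hφ a
    have ha' := inv_ne_self_of_dvd_orderOf (h1.ne_zero ha) p13 (by norm_num) hra
    have h3 := hd.pos hφ h1.2.1 ha
    have h4 := h1.eta_le hφ ha ha' hd
    have h5 := dvd_of_eta (by norm_num) (h1.ne_zero ha) hd.self
    have h6 := h5.imp hra.trans hra.trans
    have h7 : d = 3 := by interval_cases d <;> omega
    subst h7
    have h8 : a ^ (2 * 13) = 1 := orderOf_dvd_iff_pow_eq_one.1 (h5.resolve_right fun h => by
      have := hra.trans h
      omega)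
    obtain ⟨R, m, e1, e2, e3, -⟩ := h1.split hφ ha ha' hd
    have h9 := Multiset.count_pos.2 ha
    have h10 : R = 0 := Multiset.card_eq_zero.1 (by rw [e2.1]; omega)
    obtain ⟨j, -, hj⟩ := h2
    have h11 : j = 0 := by
      by_contra h
      have := (dvd_pow_self 3 h).trans ((hj 26).1 dvd_rfl).1
      omega
    have h12 := (hj 13).2 ⟨by simp [h11], (powEq_ocyc (q := 3) (by decide) 3 h8).mono fun x hx => by
      rw [e1, h10, add_zero] at hx
      exact Multiset.mem_of_mem_nsmul hx⟩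
    omega
  · have k : ∃ N ∈ omegaSp K 3 3 3, 30 ∣ N := by
      obtain ⟨a, ha, h1⟩ := exists_sp_block (K := K) 3 dvd_rfl (by norm_num) hφ (x := 10) (d := 2)
        (by norm_num) (by norm_num)
      obtain ⟨N, hN, h2⟩ := exists_mem_omegaSp (p := 3) ((spSet_one hφ 1).add h1) (j := 1)
        (Or.inr ⟨1, by simp⟩)
      obtain ⟨h3, h4⟩ := (h2 N).1 dvd_rfl
      have h5 := h4 a (Multiset.mem_add.2 (Or.inr (self_mem_ocyc two_pos))) 1 (by simp)
      rw [one_pow, ← orderOf_dvd_iff_pow_eq_one, ha] at h5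
      exact ⟨N, hN, by omega⟩
    obtain ⟨N, hN, h1⟩ := k
    obtain ⟨M, hM, h2⟩ := exists_torus_omegaSp (K := K) 3 dvd_rfl (by norm_num) hφ (n := 3) (T := 28)
      (by norm_num) (by norm_num)
    obtain ⟨L, hL, h3⟩ := exists_torus_omegaSp (K := K) 3 dvd_rfl (by norm_num) hφ (n := 3) (T := 26)
      (by norm_num) (by norm_num)
    rintro n ((rfl | rfl | rfl | rfl) | rfl)
    · exact hdvd _ N hN (by omega)
    · exact hdvd _ N hN (by omega)
    · exact hdvd _ M hM (by omega)
    · exact hdvd _ N hN (by omega)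
    · exact hdvd _ L hL (by omega)

theorem hF8 : Fintype.card F8 = 2 ^ (2 * 1 + 1) := rfl

theorem hN8 : Nat.card F8 = 2 ^ (2 * 1 + 1) := Nat.card_eq_fintype_card.trans hF8

noncomputable def τ : Tits F8 := tits hF8

theorem omega_sz (g : τ.grp) : orderOf g ∣ 4 ∨ orderOf g ∣ 5 ∨ orderOf g = 7 ∨ orderOf g = 13 := by
  by_cases h1 : g = 1
  · simp [h1]
  rcases Tits.mem_Upt_or_isTorus (Tits.exists_ne_zero_one' le_rfl hN8) h1 with ⟨_, h⟩ | h
  · exact Or.inl (orderOf_dvd_of_pow_eq_one h.2)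
  · have h2 := Subgroup.orderOf_dvd_natCard _
      (Subgroup.mem_centralizer_singleton_iff.2 rfl : g ∈ Subgroup.centralizer {g})
    have h3 : orderOf g ≠ 1 := by simpa using h1
    rcases h.card_eq le_rfl hN8 with h4 | h4 | h4 <;> rw [h4] at h2
    · exact Or.inr (Or.inr (Or.inl (((Nat.dvd_prime (by norm_num)).1 h2).resolve_left h3)))
    · exact Or.inr (Or.inr (Or.inr (((Nat.dvd_prime (by norm_num)).1 h2).resolve_left h3)))
    · exact Or.inr (Or.inl h2)

theorem card_sz : Nat.card τ.grp = 29120 := by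
  rw [Tits.card_grp, hN8]
  norm_num

theorem card_gal : Nat.card (F8 ≃+* F8) = 3 := card_ringEquiv hN8

def A (b : F8) : Matrix (Fin 4) (Fin 4) F8 := !![b ^ 4, b, 0, 1; b, 0, 1, 0; 0, 1, 0, 0; 1, 0, 0, 0]

noncomputable def s (b : F8) : τ.grp := τ.S 0 b * τ.T

theorem mat_s (b : F8) : τ.mat (s b) = A b := by
  have h : τ.θ b = b ^ 4 := rfl
  rw [s, Tits.mat_mul, Tits.mat_S, Tits.mat_T, A]
  ext i j
  fin_cases i <;> fin_cases j <;> simp [Matrix.mul_apply, Fin.sum_univ_four, Tits.N, h]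

theorem orderOf_s {b : F8} {p : ℕ} (hp : p.Prime) (h1 : A b ^ p = 1) (h2 : A b ≠ 1) :
    orderOf (s b) = p := by
  have := Fact.mk hp
  apply orderOf_eq_prime
  · apply Tits.mat_inj
    rw [Tits.mat_pow, mat_s, h1, Tits.mat_one]
  · intro h
    rw [← mat_s, h, Tits.mat_one] at h2
    exact h2 rfl

theorem o5 : orderOf (s 1) = 5 := orderOf_s (by norm_num) (by decide +kernel) (by decide +kernel)

theorem o7 : orderOf (s (ofN 2)) = 7 :=
  orderOf_s (by norm_num) (by decide +kernel) (by decide +kernel)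

theorem o13 : orderOf (s (ofN 3)) = 13 :=
  orderOf_s (by norm_num) (by decide +kernel) (by decide +kernel)

theorem trace_ne (g : τ.grp) (hg : orderOf g = 7 ∨ orderOf g = 13) :
    (τ.mat g).trace ≠ 0 ∧ (τ.mat g).trace ≠ 1 := by
  classical
  have key : ∀ (p : ℕ) (b : F8), p.Prime → (Nat.card τ.grp).factorization p = 1 → orderOf g = p →
      orderOf (s b) = p → (∀ k < p, k ≠ 0 → (A b ^ k).trace ≠ 0 ∧ (A b ^ k).trace ≠ 1) →
      (τ.mat g).trace ≠ 0 ∧ (τ.mat g).trace ≠ 1 := by
    intro p b hp h1 h2 h3 h4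
    have := Fact.mk hp
    obtain ⟨c, hc⟩ := exists_conj_mem_zpowers h1 h2 h3
    rw [mem_zpowers_iff_mem_range_orderOf, h3, Finset.mem_image] at hc
    obtain ⟨k, hk, e⟩ := hc
    have h5 : (τ.mat g).trace = (A b ^ k).trace := by
      rw [← mat_s, ← Tits.mat_pow, e, Tits.mat_mul, trace_mul_comm, ← Tits.mat_mul,
        inv_mul_cancel_left]
    rw [h5]
    apply h4 k (Finset.mem_range.1 hk)
    rintro rfl
    rw [pow_zero, eq_comm, mul_inv_eq_one, mul_eq_left] at e
    rw [e, orderOf_one] at h2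
    exact hp.one_lt.ne h2
  rcases hg with h | h
  · refine key 7 _ (by norm_num) ?_ h o7 (by decide +kernel)
    rw [card_sz, show 29120 = 7 * 4160 by norm_num, Nat.factorization_eq_of_coprime_left (by norm_num)
      (by simp [Nat.primeFactorsList_prime (show Nat.Prime 7 by norm_num)]),
      (show Nat.Prime 7 by norm_num).factorization_self]
  · refine key 13 _ (by norm_num) ?_ h o13 (by decide +kernel)
    rw [card_sz, show 29120 = 13 * 2240 by norm_num, Nat.factorization_eq_of_coprime_left (by norm_num)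
      (by simp [Nat.primeFactorsList_prime (show Nat.Prime 13 by norm_num)]),
      (show Nat.Prime 13 by norm_num).factorization_self]

theorem gen8 : ∀ a : F8, a ≠ 0 → a ≠ 1 → ∀ x : F8, x = 0 ∨ ∃ k < 7, x = a ^ k := by decide +kernel

/-- The Suzuki group extended by the field automorphisms. -/
abbrev G : Type := τ.grp ⋊[τ.fieldAut] (F8 ≃+* F8)

instance instFiniteGal : Finite (F8 ≃+* F8) := Nat.finite_of_card_ne_zero (by rw [card_gal]; norm_num)

instance instFiniteG : Finite G := Finite.of_equiv _ SemidirectProduct.equivProd.symm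

theorem mat_aut (σ : F8 ≃+* F8) (g : τ.grp) : τ.mat (τ.fieldAut σ g) = (τ.mat g).map σ := rfl

theorem orderOf_inl (g : τ.grp) : orderOf (SemidirectProduct.inl g : G) = orderOf g :=
  orderOf_injective _ SemidirectProduct.inl_injective g

theorem omega_G (x : G) : orderOf x ∣ 12 ∨ orderOf x ∣ 15 ∨ orderOf x = 7 ∨ orderOf x = 13 := by
  by_cases h : x.right = 1
  · have h1 : x = SemidirectProduct.inl x.left := by ext <;> simp [h]
    rw [h1, orderOf_inl]
    rcases omega_sz x.left with h | h | h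
    · exact Or.inl (h.trans (by norm_num))
    · exact Or.inr (Or.inl (h.trans (by norm_num)))
    · exact Or.inr (Or.inr h)
  obtain ⟨z, hz⟩ : x ^ 3 ∈ (SemidirectProduct.inl : τ.grp →* G).range := by
    rw [SemidirectProduct.range_inl_eq_ker_rightHom, MonoidHom.mem_ker, map_pow, ← card_gal]
    exact pow_card_eq_one'
  have h1 : orderOf x ∣ 3 * orderOf z :=
    orderOf_dvd_of_pow_eq_one (by rw [pow_mul, ← hz, ← map_pow, pow_orderOf_eq_one, map_one])
  rcases omega_sz z with h2 | h2 | h2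
  · exact Or.inl (h1.trans (Nat.mul_dvd_mul_left 3 h2))
  · exact Or.inr (Or.inl (h1.trans (Nat.mul_dvd_mul_left 3 h2)))
  exfalso
  have h3 : x * SemidirectProduct.inl z = SemidirectProduct.inl z * x := by
    rw [hz]; exact (Commute.self_pow x 3).eq
  have h4 := congrArg SemidirectProduct.left h3
  simp only [SemidirectProduct.mul_left, SemidirectProduct.left_inl, SemidirectProduct.right_inl,
    map_one, MulAut.one_apply] at h4
  have h5 : x.right (τ.mat z).trace = (τ.mat z).trace := by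
    have h6 : τ.fieldAut x.right z = x.left⁻¹ * (z * x.left) := by rw [← h4, inv_mul_cancel_left]
    have h7 := congrArg (fun g => (τ.mat g).trace) h6
    rw [mat_aut, Tits.mat_mul, trace_mul_comm, ← Tits.mat_mul, mul_inv_cancel_right] at h7
    refine Eq.trans ?_ h7
    simp [Matrix.trace]
  obtain ⟨h6, h7⟩ := trace_ne z h2
  apply h
  ext y
  rcases gen8 _ h6 h7 y with rfl | ⟨k, -, rfl⟩
  · simp
  · simp [h5]

def fM (M : Matrix (Fin 4) (Fin 4) F8) : F8 := M 0 0 * M 3 3 ^ 2

noncomputable def f (x : G) : F8 := fM (τ.mat x.left)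

theorem D : ∀ a b c d : Fin 4, ∑ j ∈ range 13, (A (ofN 3) ^ j) a b * (A (ofN 3) ^ j) c d ^ 2 = 0 := by
  decide +kernel

theorem expand {F : Type*} [CommRing F] [CharP F 2] (P Q : Matrix (Fin 4) (Fin 4) F)
    (B : ℕ → Matrix (Fin 4) (Fin 4) F) (n : ℕ)
    (h : ∀ a b c d, ∑ j ∈ range n, B j a b * B j c d ^ 2 = 0) :
    ∑ j ∈ range n, (P * B j * Q) 0 0 * (P * B j * Q) 3 3 ^ 2 = 0 := by
  have : ∀ j, (P * B j * Q) 0 0 * (P * B j * Q) 3 3 ^ 2 = ∑ d, ∑ c, ∑ b, ∑ a,
      P 0 a * Q b 0 * P 3 c ^ 2 * Q d 3 ^ 2 * (B j a b * B j c d ^ 2) := by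
    intro j
    simp only [Matrix.mul_apply, sum_pow_char, sum_mul, mul_sum]
    refine sum_congr rfl fun _ _ => sum_congr rfl fun _ _ => sum_congr rfl fun _ _ =>
      sum_congr rfl fun _ _ => by ring
  simp only [this]
  rw [sum_comm]
  refine sum_eq_zero fun b _ => ?_
  rw [sum_comm]
  refine sum_eq_zero fun a _ => ?_
  rw [sum_comm]
  refine sum_eq_zero fun d _ => ?_
  rw [sum_comm]
  refine sum_eq_zero fun c _ => ?_
  rw [← mul_sum, h, mul_zero]

theorem key (h : G) (hh : orderOf h = 13) (x : G) : cosetSum f h x = 0 := by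
  have : Fact (Nat.Prime 13) := ⟨by norm_num⟩
  have := τ.charP
  refine cosetSum_eq_zero_of_conj f ?_ ((orderOf_inl _).trans o13) (fun x y => ?_) h hh x
  · rw [SemidirectProduct.card, card_sz, card_gal, show 29120 * 3 = 13 * 6720 by norm_num,
      Nat.factorization_eq_of_coprime_left (by norm_num)
      (by simp [Nat.primeFactorsList_prime (show Nat.Prime 13 by norm_num)]),
      (show Nat.Prime 13 by norm_num).factorization_self]
  · have h1 := expand (τ.mat x.left) ((τ.mat y.left).map x.right)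
      (fun j => (A (ofN 3) ^ j).map x.right) 13 fun a b c d => by
        simp only [map_apply, ← map_pow, ← map_mul, ← map_sum, D, map_zero]
    rw [← h1]
    apply sum_congr rfl
    intro j _
    rw [← map_pow, f, SemidirectProduct.mul_left, SemidirectProduct.mul_left,
      SemidirectProduct.mul_right, SemidirectProduct.left_inl, SemidirectProduct.right_inl, mul_one,
      Tits.mat_mul, Tits.mat_mul, mat_aut, mat_aut, Tits.mat_pow, mat_s, fM]

def m (n : ℕ) : ℕ := if n = 13 then 1 else 2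

theorem f_mem : f ∈ coverSub G F8 m := by
  intro h x
  by_cases hh : orderOf h = 13
  · rw [key h hh, smul_zero]
  · rw [m, if_neg hh, two_smul, τ.add_self]

theorem two_mul_mem {b : F8} {p : ℕ} (h1 : orderOf (s b) = p)
    (h2 : ∑ j ∈ range p, fM (A b ^ j) = 1) : 2 * p ∈ Set.range (orderOf : Cover G F8 m → ℕ) := by
  have := τ.charP
  apply cover_mem_range f_mem (SemidirectProduct.inl (s b)) 1
  have h3 := (orderOf_inl _).trans h1
  have h4 : cosetSum f (SemidirectProduct.inl (s b)) 1 = 1 := by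
    rw [cosetSum_eq _ _ h3, ← h2]
    apply sum_congr rfl
    intro j _
    rw [one_mul, ← map_pow, f, SemidirectProduct.left_inl, Tits.mat_pow, mat_s]
  rw [h3, h4, CharP.eq F8 (CharP.addOrderOf_one _) this, mul_comm]

theorem three_mul_mem {g : τ.grp} (hg : ∀ σ, τ.fieldAut σ g = g) (h3 : (orderOf g).Coprime 3) :
    orderOf g * 3 ∈ Set.range (orderOf : Cover G F8 m → ℕ) := by
  obtain ⟨σ, hσ⟩ := exists_prime_orderOf_dvd_card' (G := F8 ≃+* F8) 3 (by rw [card_gal])
  have h1 : orderOf (SemidirectProduct.inr σ : G) = 3 :=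
    (orderOf_injective _ SemidirectProduct.inr_injective σ).trans hσ
  have h2 : Commute (SemidirectProduct.inl g : G) (SemidirectProduct.inr σ) := by
    ext <;> simp [hg]
  apply cover_mem_range_of_dvd m (SemidirectProduct.inl g * SemidirectProduct.inr σ)
  rw [h2.orderOf_mul_eq_mul_orderOf_of_coprime (by rwa [orderOf_inl, h1]), orderOf_inl, h1]

theorem hasPG_cover : HasPG (Cover G F8 m) V E := by
  have := cover_finite G F8 m
  have h1 : ∀ n ∈ Set.range (orderOf : Cover G F8 m → ℕ), n ∣ 24 ∨ n ∣ 30 ∨ n ∣ 14 ∨ n ∣ 13 := by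
    rintro _ ⟨y, rfl⟩
    have h2 := cover_orderOf_dvd y
    rcases omega_G y.right with h | h | h | h
    · rw [m, if_neg (fun e => by rw [e] at h; omega)] at h2
      exact Or.inl (h2.trans (Nat.mul_dvd_mul_right h 2))
    · rw [m, if_neg (fun e => by rw [e] at h; omega)] at h2
      exact Or.inr (Or.inl (h2.trans (Nat.mul_dvd_mul_right h 2)))
    · rw [h] at h2
      exact Or.inr (Or.inr (Or.inl h2))
    · rw [h] at h2
      exact Or.inr (Or.inr (Or.inr h2))
  apply hasPG_of
  · intro r hr h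
    have h2 := h1 r h
    have h3 : r ≤ 30 := by
      rcases h2 with h | h | h | h <;> exact (Nat.le_of_dvd (by norm_num) h).trans (by norm_num)
    rw [V]
    interval_cases r <;> first | omega | (revert hr; norm_num)
  · intro n h
    have := h1 n h
    refine ⟨?_, ?_, ?_, ?_, ?_, ?_⟩ <;> rintro rfl <;> omega
  · have h2 : orderOf (τ.S 0 1) = 2 := Tits.orderOf_S_zero one_ne_zero
    rintro n ((rfl | rfl | rfl | rfl) | rfl)
    · have := three_mul_mem (g := τ.S 0 1) (fun σ => by simp [Tits.fieldAut_S]) (by rw [h2]; norm_num)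
      rwa [h2] at this
    · exact two_mul_mem o5 (by decide +kernel)
    · exact two_mul_mem o7 (by decide +kernel)
    · have := three_mul_mem (g := s 1) (fun σ => by simp [s, Tits.fieldAut_S, Tits.fieldAut_T])
        (by rw [o5]; norm_num)
      rwa [o5] at this
    · exact cover_mem_range_of_dvd m (SemidirectProduct.inl (s (ofN 3))) (by rw [orderOf_inl, o13])


/-- The prime graph of a finite group has the prime divisors of its order as vertices, two distinct primes p, q being joined when the group has an element of order pq; two groups have the same prime graph when they have the same prime divisors and the same joined pairs. Let F be the field with 3 elements and L = PSp(6,F). There are finite groups of arbitrarily large order with the same prime graph as L (a prime graph shared by the orthogonal groups Ω₇(3) and PΩ⁺₈(3)). -/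
theorem result {F : Type*} [Field F] [Fintype F] (hF : Fintype.card F = 3) (N : ℕ) :
    ∃ (H : Type) (_ : Group H) (_ : Finite H), N < Nat.card H ∧
      ((∀ p : ℕ, p.Prime → (p ∣ Nat.card (Cfsg.PSp 3 F) ↔ p ∣ Nat.card H)) ∧
      (∀ p q : ℕ, p.Prime → q.Prime → p ≠ q → ((∃ g : (Cfsg.PSp 3 F), orderOf g = p * q) ↔ (∃ g : H, orderOf g = p * q)))) := by
  obtain ⟨L, _, _, h1, h2⟩ := cover_large f_mem (fun h => by
    have h1 : fM 1 = 0 := congrFun h 1
    revert h1
    decide +kernel) N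
  exact ⟨L, inferInstance, inferInstance, by rwa [Nat.card_eq_fintype_card],
    (hasPG_psp hF).samePG (hasPG_cover.of_range_eq h2)⟩
end Cfsg.Agent.S3664
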