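import Cfsg.Statements.S3678
import Cfsg.Agent.Lib.Recog.SL2EvenPG
import Cfsg.Agent.Lib.SL2.Torus
import Cfsg.Agent.Lib.Classical.SLCard

set_option autoImplicit false
open Cfsg

namespace Cfsg.Agent.S3678

open CfsgLib.SL2 CfsgLib.Recog MatrixGroups

theorem pow_mem_center {G : Type*} [Group G] [Finite G] (g : G) (k : ℕ)
    (h : Nat.card (Subgroup.centralizer ({g} : Set G)) = Nat.card (Subgroup.center G) * k) :
    g ^ k ∈ Subgroup.center G := by
  set C := Subgroup.centralizer ({g} : Set G) with hC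
  have hle : Subgroup.center G ≤ C := Subgroup.center_le_centralizer _
  have hg : g ∈ C := Subgroup.mem_centralizer_singleton_iff.2 rfl
  have h1 := ((Subgroup.center G).subgroupOf C).card_mul_index
  rw [Nat.card_congr (Subgroup.subgroupOfEquivOfLe hle).toEquiv, h] at h1
  have h2 : ((Subgroup.center G).subgroupOf C).index = k :=
    Nat.eq_of_mul_eq_mul_left Nat.card_pos h1
  have := ((Subgroup.center G).subgroupOf C).pow_index_mem ⟨g, hg⟩
  rw [h2] at this
  exact this

theorem not_dvd_pp {r s p k : ℕ} (hr : r.Prime) (hs : s.Prime) (hrs : r ≠ s) (hp : p.Prime)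
    (h : r * s ∣ p ^ k) : False := by
  have h1 := (Nat.prime_dvd_prime_iff_eq hr hp).1 (hr.dvd_of_dvd_pow ((dvd_mul_right _ _).trans h))
  have h2 := (Nat.prime_dvd_prime_iff_eq hs hp).1 (hs.dvd_of_dvd_pow ((dvd_mul_left _ _).trans h))
  exact hrs (h1.trans h2.symm)

theorem no_edge_seven {F : Type*} [Field F] [Fintype F] (hF : Fintype.card F = 7) {r s : ℕ}
    (hr : r.Prime) (hs : s.Prime) (hrs : r ≠ s)
    (x : Matrix.ProjectiveSpecialLinearGroup (Fin 2) F) : orderOf x ≠ r * s := by
  intro hx
  obtain ⟨g, rfl⟩ := QuotientGroup.mk_surjective x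
  have hZ : Nat.card (Subgroup.center SL(2, F)) = 2 :=
    card_center_odd (two_ne_zero_of_odd (by rw [hF]; decide))
  have key : ∀ p k : ℕ, p.Prime → g ^ p ^ k ∈ Subgroup.center SL(2, F) → False := by
    intro p k hp h
    refine not_dvd_pp hr hs hrs hp (k := k) ?_
    rw [← hx, orderOf_dvd_iff_pow_eq_one, ← QuotientGroup.mk_pow, QuotientGroup.eq_one_iff]
    exact h
  rcases types g with h | ⟨z, b, hz, hb, e⟩ | ⟨a, ha, e⟩ | h
  · exact key 2 0 Nat.prime_two (by simpa using (mem_center_iff_isScal g).2 h)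
  · exact key 7 1 (by norm_num) (pow_mem_center g _ (by rw [card_centralizer_unip hz hb e, hF]; rfl))
  · exact key 3 1 (by norm_num)
      (pow_mem_center g _ (by rw [card_centralizer_split ha e, hF, hZ]; rfl))
  · exact key 2 2 (by norm_num) (pow_mem_center g _ (by rw [h.card_centralizer, hF, hZ]; rfl))

theorem no_edge_eight {F : Type*} [Field F] [Fintype F] (hF : Fintype.card F = 8) {r s : ℕ}
    (hr : r.Prime) (hs : s.Prime) (hrs : r ≠ s) (g : SL(2, F)) : orderOf g ≠ r * s := by
  intro hx
  have hZ : Subgroup.center SL(2, F) = ⊥ :=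
    center_eq_bot_of_two (two_eq_zero_of_even (by rw [hF]; decide))
  have hZ' : Nat.card (Subgroup.center SL(2, F)) = 1 := by rw [hZ]; simp
  have key : ∀ p k : ℕ, p.Prime → g ^ p ^ k ∈ Subgroup.center SL(2, F) → False := by
    intro p k hp h
    refine not_dvd_pp hr hs hrs hp (k := k) ?_
    rw [← hx, orderOf_dvd_iff_pow_eq_one]
    rwa [hZ, Subgroup.mem_bot] at h
  rcases types g with h | ⟨z, b, hz, hb, e⟩ | ⟨a, ha, e⟩ | h
  · exact key 2 0 Nat.prime_two (by simpa using (mem_center_iff_isScal g).2 h)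
  · exact key 2 3 (by norm_num) (pow_mem_center g _ (by rw [card_centralizer_unip hz hb e, hF]; rfl))
  · exact key 7 1 (by norm_num)
      (pow_mem_center g _ (by rw [card_centralizer_split ha e, hF, hZ']; rfl))
  · exact key 3 2 (by norm_num) (pow_mem_center g _ (by rw [h.card_centralizer, hF, hZ']; rfl))


/-- The prime graph of a finite group has the prime divisors of its order as vertices, two distinct primes p, q being joined when the group has an element of order pq; two groups have the same prime graph when they have the same prime divisors and the same joined pairs. Let F be the field with 7 elements. There are finite groups of arbitrarily large order with the same prime graph as PSL(2,F) (the graph on {2, 3, 7} with no edges, which is also the prime graph of PSL(2,8)). -/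
theorem result {F : Type*} [Field F] [Fintype F] (hF : Fintype.card F = 7) (N : ℕ) :
    ∃ (H : Type) (_ : Group H) (_ : Finite H), N < Nat.card H ∧
      ((∀ p : ℕ, p.Prime → (p ∣ Nat.card (Matrix.ProjectiveSpecialLinearGroup (Fin 2) F) ↔ p ∣ Nat.card H)) ∧
      (∀ p q : ℕ, p.Prime → q.Prime → p ≠ q → ((∃ g : (Matrix.ProjectiveSpecialLinearGroup (Fin 2) F), orderOf g = p * q) ↔ (∃ g : H, orderOf g = p * q)))) := by
  haveI : Fact (Nat.Prime 2) := ⟨Nat.prime_two⟩
  letI : Fintype (GaloisField 2 3) := Fintype.ofFinite _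
  have h8 : Fintype.card (GaloisField 2 3) = 8 := by
    rw [← Nat.card_eq_fintype_card, GaloisField.card 2 3 (by norm_num)]; rfl
  obtain ⟨X, _, _, h1, h2⟩ := exists_large_samePG_sl2_even (GaloisField 2 3) N
  refine ⟨X, inferInstance, inferInstance, by rwa [Nat.card_eq_fintype_card], ?_⟩
  refine SamePG.trans (H := SL(2, GaloisField 2 3)) ⟨fun r hr => ?_, fun r s hr hs hrs => ?_⟩ h2
  · have c1 := CfsgLib.Classical.psl2_card_mul (F := F)
    rw [hF] at c1
    have c2 : Nat.card (Matrix.ProjectiveSpecialLinearGroup (Fin 2) F) = 168 := by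
      norm_num at c1 ⊢; omega
    rw [c2, card_SL2, h8]
    have e1 : (168 : ℕ) ∣ 8 * (8 ^ 2 - 1) := by norm_num
    have e2 : 8 * (8 ^ 2 - 1) ∣ (168 : ℕ) ^ 2 := by norm_num
    exact ⟨fun h => h.trans e1, fun h => hr.dvd_of_dvd_pow (h.trans e2)⟩
  · exact ⟨fun ⟨x, hx⟩ => (no_edge_seven hF hr hs hrs x hx).elim,
      fun ⟨x, hx⟩ => (no_edge_eight h8 hr hs hrs x hx).elim⟩

end Cfsg.Agent.S3678
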