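import Cfsg.Statements.S3682
import Cfsg.Agent.Lib.PermS.TW

set_option autoImplicit false
open Cfsg

namespace Cfsg.Agent.S3682

/-- Wielandt's bound toward the Sims conjecture. Let a finite group G act faithfully and primitively on a set Ω, let a and b be points, and suppose the orbit of b under the stabilizer of a has length d ≥ 2. Then there are a prime p and a normal p-subgroup P of the stabilizer of a, all of whose elements fix b, such that the index of P in the stabilizer of a divides d! · ((d - 1)!)^d. -/
theorem result {G Ω : Type*} [Group G] [Finite G] [MulAction G Ω] [FaithfulSMul G Ω] [Finite Ω]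
    (hprim : MulAction.IsPreprimitive G Ω) (a b : Ω) (d : ℕ) (hd : Nat.card (MulAction.orbit (MulAction.stabilizer G a) b) = d) (h2 : 2 ≤ d) :
    ∃ p : ℕ, p.Prime ∧ ∃ P : Subgroup (MulAction.stabilizer G a), P.Normal ∧ IsPGroup p P ∧ (∀ g : P, ((g : MulAction.stabilizer G a) : G) • b = b) ∧
      P.index ∣ Nat.factorial d * (Nat.factorial (d - 1)) ^ d := by
  rcases CfsgLib.PermS.thompson_wielandt_perm hprim a b d hd h2 with h | ⟨p, hp, -, h⟩
  · exact ⟨2, Nat.prime_two, ⊥, inferInstance, IsPGroup.of_bot, fun g => by
      rw [Subgroup.mem_bot.1 g.2]; exact one_smul _ _, by rwa [Subgroup.index_bot]⟩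
  · exact ⟨p, hp, h⟩

end Cfsg.Agent.S3682
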