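import Cfsg.Statements.S3683
-- import your own Cfsg.Agent.* helpers here

set_option autoImplicit false
open Cfsg

namespace Cfsg.Agent.S3683

open MulAction


/-- Let a finite group G act faithfully and primitively on a set Ω, and suppose the stabilizer of a point a fixes a second point b ≠ a (a suborbit of length 1 other than {a}). Then the stabilizer of a is trivial and G is cyclic of prime order. -/
theorem result {G Ω : Type*} [Group G] [Finite G] [MulAction G Ω] [FaithfulSMul G Ω] [Finite Ω]
    (hprim : MulAction.IsPreprimitive G Ω) (a b : Ω) (hab : a ≠ b) (hfix : ∀ g : G, g • a = a → g • b = b) :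
    MulAction.stabilizer G a = ⊥ ∧ IsCyclic G ∧ (Nat.card G).Prime := by
  classical
  haveI : Nontrivial Ω := ⟨⟨a, b, hab⟩⟩
  have hco := IsPreprimitive.isCoatom_stabilizer_of_isPreprimitive G a
  obtain ⟨g, hg⟩ := exists_smul_eq G a b
  have hle : stabilizer G a ≤ stabilizer G b := fun x hx => hfix x hx
  have heq : stabilizer G a = stabilizer G b := by
    apply Subgroup.eq_of_le_of_card_ge hle
    have e1 := (stabilizer G a).index_mul_card
    have e2 := (stabilizer G b).index_mul_card
    rw [index_stabilizer_of_transitive] at e1 e2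
    rw [← e1] at e2
    exact (Nat.eq_of_mul_eq_mul_left Nat.card_pos e2).le
  have hgN : g ∈ Subgroup.normalizer (stabilizer G a : Set G) := by
    rw [Subgroup.mem_normalizer_iff]
    intro h
    conv_rhs => rw [heq]
    rw [mem_stabilizer_iff, mem_stabilizer_iff, ← hg, mul_smul, mul_smul, inv_smul_smul,
      smul_left_cancel_iff]
  have hN : Subgroup.normalizer (stabilizer G a : Set G) = ⊤ := by
    apply hco.2
    refine lt_of_le_of_ne Subgroup.le_normalizer (fun h => ?_)
    rw [← h, mem_stabilizer_iff, hg] at hgN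
    exact hab hgN.symm
  have hnorm : (stabilizer G a).Normal := Subgroup.normalizer_eq_top_iff.1 hN
  have hbot : stabilizer G a = ⊥ := by
    rw [eq_bot_iff]
    intro x hx
    rw [Subgroup.mem_bot]
    apply FaithfulSMul.eq_of_smul_eq_smul (α := Ω)
    intro c
    obtain ⟨h, rfl⟩ := exists_smul_eq G a c
    have := hnorm.conj_mem x hx h⁻¹
    rw [mem_stabilizer_iff, inv_inv, mul_smul, mul_smul, inv_smul_eq_iff] at this
    rw [this, one_smul]
  rw [hbot] at hco
  have hg1 : g ≠ 1 := by
    rintro rfl
    exact hab (by simpa using hg)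
  haveI : Nontrivial G := ⟨⟨g, 1, hg1⟩⟩
  obtain ⟨p, hp, hpd⟩ := Nat.exists_prime_and_dvd (Finite.one_lt_card (α := G)).ne'
  haveI := Fact.mk hp
  obtain ⟨c, hc⟩ := exists_prime_orderOf_dvd_card' p hpd
  have hc1 : c ≠ 1 := by
    rintro rfl
    rw [orderOf_one] at hc
    exact hp.one_lt.ne hc
  have htop : Subgroup.zpowers c = ⊤ := by
    apply hco.2
    rw [bot_lt_iff_ne_bot]
    simpa using hc1
  have hcard : Nat.card G = p := by
    rw [← hc, ← Nat.card_zpowers, htop, Subgroup.card_top]
  exact ⟨hbot, isCyclic_of_prime_card hcard, hcard ▸ hp⟩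

end Cfsg.Agent.S3683
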