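import Cfsg.Statements.S3684
import Cfsg.Agent.S0206

set_option autoImplicit false
open Cfsg

namespace Cfsg.Agent.S3684

open MulAction

theorem eq_bot_of_normal_le {G Ω : Type*} [Group G] [MulAction G Ω] [FaithfulSMul G Ω]
    [IsPretransitive G Ω] (N : Subgroup G) (hN : N.Normal) (a : Ω) (h : N ≤ stabilizer G a) :
    N = ⊥ := by
  rw [eq_bot_iff]
  intro x hx
  rw [Subgroup.mem_bot]
  apply FaithfulSMul.eq_of_smul_eq_smul (α := Ω)
  intro c
  obtain ⟨g, rfl⟩ := exists_smul_eq G a c
  have := h (hN.conj_mem x hx g⁻¹)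
  rw [mem_stabilizer_iff, inv_inv, mul_smul, mul_smul, inv_smul_eq_iff] at this
  rw [this, one_smul]

theorem exists_gen_of_card_two {G : Type*} [Group G] (H : Subgroup G) (h : Nat.card H = 2) :
    ∃ s : G, orderOf s = 2 ∧ Subgroup.zpowers s = H := by
  haveI : Finite H := Nat.finite_of_card_ne_zero (by omega)
  haveI : Fact (Nat.Prime 2) := ⟨Nat.prime_two⟩
  obtain ⟨c, hc⟩ := exists_prime_orderOf_dvd_card' (G := H) 2 (by rw [h])
  refine ⟨c, by rw [Subgroup.orderOf_coe, hc], ?_⟩
  apply Subgroup.eq_of_le_of_card_ge (by simp)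
  rw [Nat.card_zpowers, Subgroup.orderOf_coe, hc, h]

theorem prime_of_isCoatom_dihedral (m : ℕ) (hm : m ≠ 0) (H : Subgroup (DihedralGroup m))
    (hH : IsCoatom H) (i : ZMod m) (h : H = Subgroup.zpowers (DihedralGroup.sr i)) (hm1 : m ≠ 1) :
    m.Prime := by
  by_contra hp
  obtain ⟨d, hd, hd1, hd2⟩ := Nat.exists_dvd_of_not_prime2 (by omega) hp
  haveI : NeZero m := ⟨hm⟩
  haveI : Fact (1 < d) := ⟨by omega⟩
  let φ : ZMod m →+* ZMod d := ZMod.castHom hd (ZMod d)
  let K : Subgroup (DihedralGroup m) :=
    { carrier := {x | match x with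
        | DihedralGroup.r j => φ j = 0
        | DihedralGroup.sr j => φ j = φ i}
      mul_mem' := by
        rintro (a | a) (b | b) ha hb <;>
          simp only [Set.mem_ofPred_eq, DihedralGroup.r_mul_r, DihedralGroup.r_mul_sr,
            DihedralGroup.sr_mul_r, DihedralGroup.sr_mul_sr, map_add, map_sub] at ha hb ⊢ <;>
          simp [ha, hb]
      one_mem' := by
        change φ 0 = 0
        simp
      inv_mem' := by
        rintro (a | a) ha
        · change φ (-a) = 0
          change φ a = 0 at ha
          simp [ha]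
        · exact ha }
  have hHK : H ≤ K := by
    rw [h, Subgroup.zpowers_le]
    change φ i = φ i
    rfl
  have hK : K ≠ ⊤ := by
    intro hK
    have : DihedralGroup.r (1 : ZMod m) ∈ K := hK ▸ Subgroup.mem_top _
    change φ 1 = 0 at this
    simp at this
  have hlt : H < K := by
    refine lt_of_le_of_ne hHK (fun hh => ?_)
    have : DihedralGroup.r (d : ZMod m) ∈ K := by
      change φ d = 0
      simp
    rw [← hh, h, mem_zpowers_iff_mem_range_orderOf, DihedralGroup.orderOf_sr] at this
    simp only [Finset.mem_image, Finset.mem_range] at this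
    obtain ⟨k, hk, hk'⟩ := this
    interval_cases k
    · rw [pow_zero, DihedralGroup.one_def, DihedralGroup.r.injEq, eq_comm,
        ZMod.natCast_eq_zero_iff] at hk'
      exact absurd (Nat.le_of_dvd (by omega) hk') (by omega)
    · simp at hk'
  exact hK (hH.2 K hlt)


/-- Let a finite group G act faithfully and primitively on a set Ω, and suppose the stabilizer of a point a has an orbit of length 2. Then the stabilizer of a has order 2 and G is isomorphic to the dihedral group of order 2p for some prime p. -/
theorem result {G Ω : Type*} [Group G] [Finite G] [MulAction G Ω] [FaithfulSMul G Ω] [Finite Ω]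
    (hprim : MulAction.IsPreprimitive G Ω) (a b : Ω) (h2 : Nat.card (MulAction.orbit (MulAction.stabilizer G a) b) = 2) :
    Nat.card (MulAction.stabilizer G a) = 2 ∧ ∃ p : ℕ, p.Prime ∧ Nonempty (G ≃* DihedralGroup p) := by
  classical
  have hab : a ≠ b := by
    rintro rfl
    have : orbit (stabilizer G a) a = {a} := by
      ext x
      constructor
      · rintro ⟨h, rfl⟩; exact h.2
      · rintro rfl; exact mem_orbit_self _
    rw [this] at h2
    simp at h2
  haveI : Nontrivial Ω := ⟨⟨a, b, hab⟩⟩
  have hcoa := IsPreprimitive.isCoatom_stabilizer_of_isPreprimitive G a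
  have hcob := IsPreprimitive.isCoatom_stabilizer_of_isPreprimitive G b
  have hcard : Nat.card (stabilizer G a) = Nat.card (stabilizer G b) := by
    have e1 := (stabilizer G a).index_mul_card
    have e2 := (stabilizer G b).index_mul_card
    rw [index_stabilizer_of_transitive] at e1 e2
    rw [← e1] at e2
    exact (Nat.eq_of_mul_eq_mul_left Nat.card_pos e2).symm
  set K := stabilizer G a ⊓ stabilizer G b with hK
  have hia : K.relIndex (stabilizer G a) = 2 := by
    rw [hK, Subgroup.inf_relIndex_left, ← h2,
      Nat.card_congr (orbitEquivQuotientStabilizer (stabilizer G a) b)]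
    rfl
  have hcK : ∀ H : Subgroup G, K ≤ H → K.relIndex H * Nat.card K = Nat.card H := by
    intro H hH
    rw [← (K.subgroupOf H).index_mul_card, Nat.card_congr (Subgroup.subgroupOfEquivOfLe hH).toEquiv]
    rfl
  have hib : K.relIndex (stabilizer G b) = 2 := by
    have e1 := hcK _ (inf_le_left : K ≤ stabilizer G a)
    have e2 := hcK _ (inf_le_right : K ≤ stabilizer G b)
    rw [← hcard, ← e1, hia] at e2
    exact Nat.eq_of_mul_eq_mul_right Nat.card_pos e2
  have hna : stabilizer G a ≤ Subgroup.normalizer (K : Set G) :=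
    (Subgroup.normal_subgroupOf_iff_le_normalizer inf_le_left).1
      (Subgroup.normal_of_index_eq_two hia)
  have hnb : stabilizer G b ≤ Subgroup.normalizer (K : Set G) :=
    (Subgroup.normal_subgroupOf_iff_le_normalizer inf_le_right).1
      (Subgroup.normal_of_index_eq_two hib)
  have hne : stabilizer G a ≠ stabilizer G b := by
    intro h
    rw [hK, ← h, inf_idem, Subgroup.relIndex_self] at hia
    omega
  have hsup : stabilizer G a ⊔ stabilizer G b = ⊤ := hcoa.sup_eq_top_of_ne hcob hne
  have hN : Subgroup.normalizer (K : Set G) = ⊤ := by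
    rw [eq_top_iff, ← hsup]
    exact sup_le hna hnb
  have hKbot : K = ⊥ :=
    eq_bot_of_normal_le K (Subgroup.normalizer_eq_top_iff.1 hN) a inf_le_left
  have hca : Nat.card (stabilizer G a) = 2 := by
    rw [← hcK _ (inf_le_left : K ≤ stabilizer G a), hia, hKbot]; simp
  refine ⟨hca, ?_⟩
  obtain ⟨s, hs, hsa⟩ := exists_gen_of_card_two _ hca
  obtain ⟨t, ht, htb⟩ := exists_gen_of_card_two _ (hcard ▸ hca)
  have hst : s ≠ t := by
    rintro rfl
    exact hne (hsa.symm.trans htb)
  have hcl : Subgroup.closure ({s, t} : Set G) = ⊤ := by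
    rw [← hsup, ← hsa, ← htb, Subgroup.zpowers_eq_closure, Subgroup.zpowers_eq_closure,
      ← Subgroup.closure_union]
    rfl
  obtain ⟨e⟩ := Cfsg.Agent.S0206.result s t hs ht hst
  let e' : G ≃* DihedralGroup (orderOf (s * t)) :=
    (Subgroup.topEquiv.symm.trans (MulEquiv.subgroupCongr hcl.symm)).trans e
  refine ⟨orderOf (s * t), ?_, ⟨e'⟩⟩
  have hm0 : orderOf (s * t) ≠ 0 := (orderOf_pos _).ne'
  have hm1 : orderOf (s * t) ≠ 1 := by
    rw [Ne, orderOf_eq_one_iff]
    intro h
    apply hst
    have : t * t = 1 := by rw [← sq, ← ht, pow_orderOf_eq_one]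
    exact mul_right_cancel (h.trans this.symm)
  have hco' : IsCoatom ((stabilizer G a).map e'.toMonoidHom) :=
    (OrderIso.isCoatom_iff (MulEquiv.mapSubgroup e') _).2 hcoa
  have hmap : (stabilizer G a).map e'.toMonoidHom = Subgroup.zpowers (e' s) := by
    rw [← hsa, MonoidHom.map_zpowers]; rfl
  rcases hes : e' s with i | i
  · -- a rotation generates a normal subgroup, impossible
    exfalso
    have hnorm : ((stabilizer G a).map e'.toMonoidHom).Normal := by
      rw [hmap, hes]
      refine ⟨fun n hn g => ?_⟩
      obtain ⟨k, rfl⟩ := Subgroup.mem_zpowers_iff.1 hn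
      rw [← conj_zpow]
      apply Subgroup.zpow_mem
      rcases g with j | j
      · have : DihedralGroup.r j * DihedralGroup.r i * (DihedralGroup.r j)⁻¹ = DihedralGroup.r i := by
          simp
        rw [this]; exact Subgroup.mem_zpowers _
      · have : DihedralGroup.sr j * DihedralGroup.r i * (DihedralGroup.sr j)⁻¹ =
            (DihedralGroup.r i)⁻¹ := by
          simp
        rw [this]; exact Subgroup.inv_mem _ (Subgroup.mem_zpowers _)
    have hnorm' : (stabilizer G a).Normal := by
      have := hnorm.comap e'.toMonoidHom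
      rwa [Subgroup.comap_map_eq_self_of_injective e'.injective] at this
    have := eq_bot_of_normal_le _ hnorm' a le_rfl
    rw [this] at hca
    simp at hca
  · exact prime_of_isCoatom_dihedral _ hm0 _ hco' i (by rw [hmap, hes]) hm1

end Cfsg.Agent.S3684
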