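import Mathlib
import Cfsg.Statements.S3685
import Cfsg.Agent.Lib.Sims.Prim

set_option autoImplicit false
open Cfsg

namespace Cfsg.Agent.S3685

open CfsgLib.BG CfsgLib.Sims

/-- Let a finite group G act faithfully and primitively on a set Ω, and suppose the stabilizer of a point a has an orbit of length 3. Then the stabilizer of a is isomorphic to one of: the cyclic group of order 3, the symmetric group of degree 3, the dihedral group of order 12, the symmetric group of degree 4, or the direct product of the symmetric group of degree 4 with a group of order 2. -/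
theorem result {G Ω : Type*} [Group G] [Finite G] [MulAction G Ω] [FaithfulSMul G Ω] [Finite Ω]
    (hprim : MulAction.IsPreprimitive G Ω) (a b : Ω) (h3 : Nat.card (MulAction.orbit (MulAction.stabilizer G a) b) = 3) :
    Nonempty (MulAction.stabilizer G a ≃* Multiplicative (ZMod 3)) ∨ Nonempty (MulAction.stabilizer G a ≃* Equiv.Perm (Fin 3)) ∨
      Nonempty (MulAction.stabilizer G a ≃* DihedralGroup 6) ∨ Nonempty (MulAction.stabilizer G a ≃* Equiv.Perm (Fin 4)) ∨
      Nonempty (MulAction.stabilizer G a ≃* Equiv.Perm (Fin 4) × Multiplicative (ZMod 2)) := by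
  have key : ∀ {K : Type} [Group K], Nonempty (MulAction.stabilizer G a ⧸ oddCore (MulAction.stabilizer G a) ≃* K) →
      Nat.card (MulAction.stabilizer G a) = Nat.card K → Nonempty (MulAction.stabilizer G a ≃* K) := fun ⟨e⟩ h =>
    ⟨(MulEquiv.ofBijective (QuotientGroup.mk' _) ((Nat.bijective_iff_surjective_and_card _).2
      ⟨QuotientGroup.mk'_surjective _, h.trans (Nat.card_congr e.toEquiv).symm⟩)).trans e⟩
  rcases sims_perm hprim a b h3 with h | ⟨K, h, ⟨h1, x, r, h2, h4, h5⟩ | ⟨h1, h2⟩ | ⟨h1, h2⟩⟩
  · have : Fact (Nat.Prime 3) := ⟨Nat.prime_three⟩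
    exact Or.inl ⟨mulEquivOfPrimeCardEq h (by simp)⟩
  · rcases h1 with h1 | ⟨h1, -⟩
    · obtain ⟨e⟩ := equiv_dihedral (n := 3) h2 h4 h5 (by omega) (by omega)
      obtain ⟨e'⟩ := dihedral_three
      exact Or.inr (Or.inl ⟨e.trans e'⟩)
    · exact Or.inr (Or.inr (Or.inl (equiv_dihedral h2 h4 h5 (by omega) (by omega))))
  · exact Or.inr (Or.inr (Or.inr (Or.inl (key h2 (by rw [h, h1, Nat.card_perm, Nat.card_fin]; rfl)))))
  · exact Or.inr (Or.inr (Or.inr (Or.inr (key h2 (by
      rw [h, h1, Nat.card_prod, Nat.card_perm, Nat.card_fin]; simp [Nat.factorial])))))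

end Cfsg.Agent.S3685
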