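import Cfsg.Statements.S3693
import Cfsg.Agent.Lib.PermS.TW

set_option autoImplicit false
open Cfsg

namespace Cfsg.Agent.S3693

open MulAction Subgroup CfsgLib.PermS CfsgLib.LAE CfsgLib.Core in

/-- Let a finite group G act faithfully and primitively on a set Ω, let a and b be points such that the orbit Δ of b under the stabilizer H of a has length d ≥ 2, and consider the permutation group induced on Δ by the elements of H fixing b. If that induced group has trivial Fitting subgroup (no non-trivial nilpotent normal subgroup), then the two-point stabilizer of a and b has trivial Fitting subgroup and the order of H divides d! · ((d - 1)!)^d. -/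
theorem result {G Ω : Type*} [Group G] [Finite G] [MulAction G Ω] [FaithfulSMul G Ω] [Finite Ω]
    (hprim : MulAction.IsPreprimitive G Ω) (a b : Ω) (d : ℕ) (hd : Nat.card (MulAction.orbit (MulAction.stabilizer G a) b) = d) (h2 : 2 ≤ d)
    (hF : Cfsg.fittingSubgroup ↥(((MulAction.stabilizer G b).subgroupOf (MulAction.stabilizer G a)).map (MulAction.toPermHom (MulAction.stabilizer G a) (MulAction.orbit (MulAction.stabilizer G a) b))) = ⊥) :
    Cfsg.fittingSubgroup ↥(MulAction.stabilizer G a ⊓ MulAction.stabilizer G b) = ⊥ ∧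
      Nat.card (MulAction.stabilizer G a) ∣ Nat.factorial d * (Nat.factorial (d - 1)) ^ d := by
  set M := stabilizer G a with hMd
  set N := stabilizer G b with hNd
  have hM : N.relIndex M = d := by
    rw [← hd, Nat.card_coe_set_eq, ← index_stabilizer]; rfl
  have hne : M ≠ N := fun e => by rw [e, relIndex_self] at hM; omega
  have : Nontrivial Ω := ⟨a, b, fun e => hne (by rw [hMd, hNd, e])⟩
  obtain ⟨g, hg⟩ := exists_smul_eq G a b
  have hconj : N = conjS g M := by
    rw [hNd, ← hg, stabilizer_smul_eq_stabilizer_map_conj]; rfl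
  have hprimIn : ∀ c : Ω, PrimIn (stabilizer G c) := by
    intro c
    refine primIn_of_isCoatom ((isCoatom_stabilizer_iff_preprimitive G c).2 hprim) ?_
    rw [eq_bot_iff]
    intro x hx
    refine eq_of_smul_eq_smul (α := Ω) fun e => ?_
    obtain ⟨k, rfl⟩ := exists_smul_eq G c e
    have : (k⁻¹ * x * k⁻¹⁻¹) • c = c := hx k⁻¹
    rw [inv_inv, mul_smul, mul_smul, inv_smul_eq_iff] at this
    rw [this, one_smul]
  have hcore : ∀ p : ℕ, p.Prime → pCoreOf p (M ⊓ N) = ⊥ := by
    intro p hp
    have := Fact.mk hp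
    by_contra h0
    set Q := pCoreOf p (M ⊓ N) with hQ
    have hQA : Q ≤ coreIn M (M ⊓ N) := by
      let φ := toPermHom M (orbit M b)
      let ψ : ↥(M ⊓ N) →* ↥((N.subgroupOf M).map φ) :=
        (φ.comp (inclusion inf_le_left)).codRestrict _ fun x => ⟨⟨x, x.2.1⟩, x.2.2, rfl⟩
      have hψ : Function.Surjective ψ := by
        rintro ⟨_, x, hx, rfl⟩
        exact ⟨⟨x, x.2, hx⟩, rfl⟩
      have h1 := CfsgLib.Comp.fit_map_le_of_surjective ψ hψ
      rw [hF] at h1
      rintro _ ⟨x, hx, rfl⟩
      have h2 : ψ x = 1 := h1 ⟨x, CfsgLib.Comp.pCore_le_fit p hx, rfl⟩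
      refine mem_coreIn.2 ⟨x.2.1, fun m hm => ⟨M.mul_mem (M.mul_mem hm x.2.1) (M.inv_mem hm), ?_⟩⟩
      have h3 : (x : G) • m⁻¹ • b = m⁻¹ • b :=
        congrArg (fun s : ↥((N.subgroupOf M).map φ) =>
          ((s : Equiv.Perm (orbit M b)) ⟨m⁻¹ • b, ⟨⟨m⁻¹, M.inv_mem hm⟩, rfl⟩⟩ : Ω)) h2
      change (m * x * m⁻¹) • b = b
      rw [mul_smul, mul_smul, h3, smul_inv_smul]
    have hQeq : Q = pCoreOf p (coreIn M (M ⊓ N)) :=
      le_antisymm (pCoreOf_le_pCoreOf_of_le (coreIn_le_right _ _) hQA)
        (pCoreOf_mono_of_normal (coreIn_le_right _ _) (inf_le_left.trans (le_normalizer_coreIn _ _)))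
    have hQM : Q ≤ M := (pCoreOf_le _).trans inf_le_left
    have hnQ : M ≤ normalizer (Q : Set G) :=
      hQeq ▸ le_normalizer_pCoreOf_of_le (le_normalizer_coreIn _ _)
    have hnM := hprimIn a Q h0 hQM hnQ
    have hn : Q ≤ normalizer (pCoreOf p N : Set G) :=
      ((pCoreOf_le _).trans inf_le_right).trans (le_normalizer_pCoreOf N)
    have h3 : pCoreOf p N ≤ Q := by
      by_contra hlt
      have h4 := lt_inf_normalizer_of_isPGroup
        ((isPGroup_pCoreOf (M ⊓ N)).to_sup_of_normal_right' (isPGroup_pCoreOf N) hn)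
        (left_lt_sup.2 hlt)
      refine h4.not_ge ((inf_le_inf_left _ hnM).trans ?_)
      rw [sup_inf_assoc_of_le_normalizer hQM hn]
      refine sup_le le_rfl ((le_inf (le_inf inf_le_right (inf_le_left.trans (pCoreOf_le N)))
        inf_le_left).trans (inf_pCoreOf_le inf_le_right))
    have h4 : pCoreOf p N = pCoreOf p M :=
      eq_of_le_of_card_le (h3.trans (le_pCoreOf (isPGroup_pCoreOf _) hQM hnQ))
        (by rw [hconj, ← conjS_pCoreOf, card_conjS])
    have h5 : pCoreOf p M ≠ ⊥ := fun e =>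
      h0 (le_bot_iff.1 (e ▸ le_pCoreOf (isPGroup_pCoreOf _) hQM hnQ))
    refine hne (le_antisymm ?_ ?_)
    · exact (le_normalizer_pCoreOf M).trans
        (h4 ▸ hprimIn b _ (h4 ▸ h5) (pCoreOf_le N) (le_normalizer_pCoreOf N))
    · exact (le_normalizer_pCoreOf N).trans
        (h4 ▸ hprimIn a _ h5 (pCoreOf_le M) (le_normalizer_pCoreOf M))
  constructor
  · rw [← map_eq_bot_iff_of_injective _ (M ⊓ N).subtype_injective, eq_bot_iff]
    exact fitOf_le_of_forall' fun p hp h => absurd (hcore p hp) h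
  · rcases thompson_wielandt_perm hprim a b d hd h2 with h | ⟨p, hp, -, P, hP1, hP2, hP3, hP4⟩
    · exact h
    have h1 : P.map M.subtype ≤ pCoreOf p (M ⊓ N) := by
      refine le_pCoreOf (hP2.map _) (le_inf (map_subtype_le _) ?_)
        (inf_le_left.trans (le_normalizer_map_subtype_of_normal _))
      rintro _ ⟨x, hx, rfl⟩
      exact hP3 ⟨x, hx⟩
    rw [hcore p hp, le_bot_iff, map_eq_bot_iff_of_injective _ M.subtype_injective] at h1
    rwa [h1, index_bot] at hP4

end Cfsg.Agent.S3693
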