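import Cfsg.Statements.S3687
import Cfsg.Agent.S3693
import Cfsg.Agent.Lib.Comp.Bender
import Cfsg.Agent.Lib.AltAut.Basic

set_option autoImplicit false
open Cfsg

namespace Cfsg.Agent.S3687

set_option linter.unusedSectionVars false
set_option linter.style.haveILetI false

open MulAction Subgroup Equiv Equiv.Perm CfsgLib CfsgLib.Core CfsgLib.Comp

section
variable {G : Type*} [Group G]

/-- kernel of a homomorphism defined on a subgroup, in the ambient group -/
def kerS {L : Subgroup G} {S : Type*} [Group S] (φ : L →* S) : Subgroup G := φ.ker.map L.subtype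

/-- image of an ambient subgroup under a homomorphism defined on a subgroup -/
def imS {L : Subgroup G} {S : Type*} [Group S] (φ : L →* S) (H : Subgroup G) : Subgroup S :=
  (H.subgroupOf L).map φ

variable {L : Subgroup G} {S : Type*} [Group S]

theorem mem_kerS (φ : L →* S) {x : G} : x ∈ kerS φ ↔ ∃ h : x ∈ L, φ ⟨x, h⟩ = 1 := by
  constructor
  · rintro ⟨y, hy, rfl⟩
    exact ⟨y.2, hy⟩
  · rintro ⟨h, hx⟩
    exact ⟨⟨x, h⟩, hx, rfl⟩

theorem mem_imS (φ : L →* S) {H : Subgroup G} {s : S} :
    s ∈ imS φ H ↔ ∃ x, ∃ h : x ∈ L, x ∈ H ∧ φ ⟨x, h⟩ = s := by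
  constructor
  · rintro ⟨y, hy, rfl⟩
    exact ⟨y, y.2, hy, rfl⟩
  · rintro ⟨x, h, hx, rfl⟩
    exact ⟨⟨x, h⟩, hx, rfl⟩

theorem kerS_le (φ : L →* S) : kerS φ ≤ L := map_subtype_le _

theorem le_normalizer_kerS (φ : L →* S) : L ≤ normalizer (kerS φ : Set G) :=
  le_normalizer_map_subtype_of_normal _

theorem imS_self (φ : L →* S) : imS φ L = φ.range := by
  rw [imS, subgroupOf_self, ← MonoidHom.range_eq_map]

theorem imS_le_range (φ : L →* S) (H : Subgroup G) : imS φ H ≤ φ.range := map_le_range _ _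

theorem relIndex_kerS (φ : L →* S) {Z : Subgroup G} (hZ : Z ≤ L) :
    (kerS φ).relIndex Z = Nat.card (imS φ Z) := by
  rw [← relIndex_subgroupOf hZ, imS, ← relIndex_ker]
  congr 1
  exact comap_map_eq_self_of_injective L.subtype_injective _

theorem card_eq_kerS (φ : L →* S) : Nat.card L = Nat.card (kerS φ) * Nat.card φ.range := by
  rw [← imS_self, ← relIndex_kerS φ le_rfl, relIndex, ← card_mul_index ((kerS φ).subgroupOf L),
    Nat.card_congr (subgroupOfEquivOfLe (kerS_le φ)).toEquiv]

theorem imS_le_normalizer [Finite G] (φ : L →* S) {T H : Subgroup G}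
    (hn : T ≤ normalizer (H : Set G)) : imS φ T ≤ normalizer (imS φ H : Set S) := by
  intro s hs
  obtain ⟨t, htL, ht, rfl⟩ := (mem_imS φ).1 hs
  have : Finite (imS φ H) := by
    refine Finite.of_surjective (fun x : H.subgroupOf L => (⟨φ x, ⟨x, x.2, rfl⟩⟩ : imS φ H)) ?_
    rintro ⟨_, x, hx, rfl⟩
    exact ⟨⟨x, hx⟩, rfl⟩
  refine mem_normalizer_fintype ?_
  intro y hy
  obtain ⟨x, hxL, hx, rfl⟩ := (mem_imS φ).1 hy
  refine (mem_imS φ).2 ⟨t * x * t⁻¹, L.mul_mem (L.mul_mem htL hxL) (L.inv_mem htL),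
    ((mem_normalizer_iff.1 (hn ht)) x).1 hx, ?_⟩
  rw [← map_inv, ← map_mul, ← map_mul]
  rfl

theorem alt_le_of_normalized {X : Type*} [Fintype X] [DecidableEq X] (h5 : 5 ≤ Nat.card X)
    {Y : Subgroup (Perm X)} (hn : alternatingGroup X ≤ normalizer (Y : Set (Perm X)))
    (hY : Y ≠ ⊥) : alternatingGroup X ≤ Y := by
  have := alternatingGroup.isSimpleGroup h5
  have hN : (Y.subgroupOf (alternatingGroup X)).Normal := normal_subgroupOf_of_le_normalizer hn
  rcases hN.eq_bot_or_eq_top with h | h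
  · exfalso
    refine hY (eq_bot_iff.2 fun y hy => ?_)
    refine CfsgLib.AltAut.eq_one_of_commute (by omega) fun s hs => ?_
    have h1 : s * y⁻¹ * s⁻¹ ∈ Y := ((mem_normalizer_iff.1 (hn hs)) _).1 (Y.inv_mem hy)
    have h2 : y * (s * y⁻¹ * s⁻¹) ∈ alternatingGroup X := by
      rw [mem_alternatingGroup] at hs ⊢
      simp only [map_mul, map_inv, hs]
      simp
    have h3 : (⟨_, h2⟩ : alternatingGroup X) ∈ Y.subgroupOf (alternatingGroup X) :=
      Y.mul_mem hy h1
    rw [h, mem_bot] at h3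
    have h4 : y * (s * y⁻¹ * s⁻¹) = 1 := congrArg Subtype.val h3
    calc y * s = y * (s * y⁻¹ * s⁻¹) * (s * y) := by group
      _ = s * y := by rw [h4, one_mul]
  · exact subgroupOf_eq_top.1 h

theorem alt_le_imS [Finite G] {X : Type*} [Fintype X] [DecidableEq X] (h5 : 5 ≤ Nat.card X)
    (φ : L →* Perm X) {T H : Subgroup G} (hT : alternatingGroup X ≤ imS φ T)
    (hn : T ≤ normalizer (H : Set G)) (hH : H ≤ L) (hk : ¬ H ≤ kerS φ) :
    alternatingGroup X ≤ imS φ H := by
  refine alt_le_of_normalized h5 (hT.trans (imS_le_normalizer φ hn)) fun h => hk fun x hx => ?_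
  have : φ ⟨x, hH hx⟩ ∈ imS φ H := (mem_imS φ).2 ⟨x, hH hx, hx, rfl⟩
  rw [h, mem_bot] at this
  exact (mem_kerS φ).2 ⟨hH hx, this⟩

/-- no proper normal subgroup of index at most `n` -/
def Perf (n : ℕ) (Z : Subgroup G) : Prop :=
  ∀ Y : Subgroup G, Z ≤ normalizer (Y : Set G) → Y.relIndex Z ≤ n → Z ≤ Y

theorem Perf.map {n : ℕ} {Z : Subgroup G} (h : Perf n Z) (e : G ≃* G) :
    Perf n (Z.map e.toMonoidHom) := by
  intro Y h1 h2
  rw [map_le_iff_le_comap]
  refine h _ ?_ ?_
  · intro z hz
    rw [mem_normalizer_iff]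
    intro y
    have := mem_normalizer_iff.1 (h1 ⟨z, hz, rfl⟩) (e y)
    simpa [mem_comap] using this
  · rwa [relIndex_comap]

theorem perf_eq_bot [Finite G] {M N D A B : Subgroup G} {n : ℕ}
    (hprim : ∀ R : Subgroup G, R ≤ D → M ≤ normalizer (R : Set G) →
      N ≤ normalizer (R : Set G) → R = ⊥)
    (hDM : D ≤ M) (hDN : D ≤ N) (hAD : A ≤ D) (hBD : B ≤ D)
    (hA : M ≤ normalizer (A : Set G)) (hB : N ≤ normalizer (B : Set G))
    (hAn : A.relIndex D ≤ n) (hBn : B.relIndex D ≤ n) {Z : Subgroup G} (hZ : Z ≤ D)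
    (hp : Perf n Z) : Z = ⊥ := by
  set R := sSup {Z : Subgroup G | Z ≤ D ∧ Perf n Z} with hR
  have key : ∀ {M A : Subgroup G}, D ≤ M → A ≤ D → M ≤ normalizer (A : Set G) →
      A.relIndex D ≤ n → M ≤ normalizer (R : Set G) := by
    intro M A hDM hAD hA hAn m hm
    refine mem_normalizer_fintype ?_
    have : R ≤ R.comap (MulAut.conj m).toMonoidHom := by
      rw [hR]
      refine sSup_le fun Z hZ => ?_
      rw [← map_le_iff_le_comap]
      refine le_sSup ⟨?_, hZ.2.map _⟩
      have hZA : Z ≤ A := hZ.2 A (hZ.1.trans (hDM.trans hA))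
        ((relIndex_le_of_le_right hZ.1 (index_ne_zero_of_finite)).trans hAn)
      rintro _ ⟨z, hz, rfl⟩
      exact hAD ((mem_normalizer_iff.1 (hA hm) z).1 (hZA hz))
    exact fun y hy => this hy
  have := hprim R (sSup_le fun Z hZ => hZ.1) (key hDM hAD hA hAn) (key hDN hBD hB hBn)
  exact le_bot_iff.1 (this ▸ le_sSup ⟨hZ, hp⟩)

theorem not_alt_le [Finite G] {X : Type*} [Fintype X] [DecidableEq X] (h5 : 5 ≤ Nat.card X)
    (φ : L →* Perm X) {H : Subgroup G} (hH : H ≤ L) {n : ℕ}
    (hp : ∀ Z : Subgroup G, Z ≤ H → Perf n Z → Z = ⊥)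
    (hn : n < Nat.card (alternatingGroup X)) : ¬ alternatingGroup X ≤ imS φ H := by
  intro h
  obtain ⟨Z, ⟨hZH, hZ⟩, hmin⟩ := (wellFounded_lt (α := Subgroup G)).has_min
    {Z | Z ≤ H ∧ alternatingGroup X ≤ imS φ Z} ⟨H, le_rfl, h⟩
  have hcard : Nat.card (alternatingGroup X) ≤ (kerS φ).relIndex Z := by
    rw [relIndex_kerS φ (hZH.trans hH)]
    exact card_le_of_le hZ
  have hZ0 : Z = ⊥ := by
    refine hp Z hZH fun Y h1 h2 => ?_
    by_contra hne
    have hlt : Y ⊓ Z < Z := inf_lt_right.2 hne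
    refine hmin (Y ⊓ Z) ⟨inf_le_right.trans hZH, ?_⟩ hlt
    refine alt_le_imS h5 φ hZ ?_ (inf_le_right.trans (hZH.trans hH)) fun hk => ?_
    · exact (le_inf h1 le_normalizer).trans (inf_normalizer_le_normalizer_inf)
    · have := relIndex_le_of_le_left (L := Z) hk index_ne_zero_of_finite
      rw [inf_relIndex_right] at this
      omega
  rw [hZ0, relIndex_bot_right] at hcard
  have := alternatingGroup.isSimpleGroup h5
  have : 1 < Nat.card (alternatingGroup X) := Finite.one_lt_card
  omega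

theorem exists_restrict {X : Type*} [Fintype X] [DecidableEq X] {k : ℕ}
    (hk : Fintype.card X = k + 1) (φ : L →* Perm X) (x₀ : X) {D : Subgroup G} (hD : D ≤ L)
    (hx : ∀ x (h : x ∈ D), φ ⟨x, hD h⟩ x₀ = x₀) :
    ∃ ρ : D →* Perm (Fin k), kerS ρ = kerS φ ⊓ D := by
  have hc : Fintype.card {x // x ≠ x₀} = k := by
    rw [Fintype.card_subtype_compl, Fintype.card_subtype_eq, hk]; rfl
  let e := Fintype.equivFinOfCardEq hc
  have hpres : ∀ x : D, ∀ y, φ ⟨x, hD x.2⟩ y ≠ x₀ ↔ y ≠ x₀ := by
    intro x y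
    conv_lhs => rw [← hx x x.2]
    exact (φ ⟨x, hD x.2⟩).injective.ne_iff
  let r : D →* Perm {x // x ≠ x₀} := MonoidHom.mk'
    (fun x => (φ ⟨x, hD x.2⟩).subtypePerm (hpres x)) (by
      intro x y
      ext z
      have : (⟨(x * y : D), hD (x * y).2⟩ : L) = ⟨x, hD x.2⟩ * ⟨y, hD y.2⟩ := rfl
      simp only [subtypePerm_apply, Perm.coe_mul, Function.comp_apply, this, map_mul])
  refine ⟨e.permCongrHom.toMonoidHom.comp r, ?_⟩
  ext x
  rw [mem_inf, mem_kerS, mem_kerS]
  constructor
  · rintro ⟨h, h1⟩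
    refine ⟨⟨hD h, ?_⟩, h⟩
    have h2 : r ⟨x, h⟩ = 1 := e.permCongrHom.injective (by rw [map_one]; exact h1)
    ext y
    by_cases hy : y = x₀
    · rw [hy, hx x h]; rfl
    · exact congrArg Subtype.val (Equiv.congr_fun h2 ⟨y, hy⟩)
  · rintro ⟨⟨h, h1⟩, h2⟩
    refine ⟨h2, ?_⟩
    have : r ⟨x, h2⟩ = 1 := by
      ext y
      change φ ⟨x, h⟩ y = y
      rw [h1]; rfl
    change e.permCongrHom (r ⟨x, h2⟩) = 1
    rw [this, map_one]

theorem alt_le_of_card {n : ℕ} {H : Subgroup (Perm (Fin n))}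
    (h : n.factorial ≤ 2 * Nat.card H) : alternatingGroup (Fin n) ≤ H := by
  refine alternatingGroup_le_of_index_le_two ?_
  have h1 := H.card_mul_index
  rw [Nat.card_perm, Nat.card_fin] at h1
  have h2 : 0 < Nat.card H := Nat.card_pos
  nlinarith

theorem card_alt {n : ℕ} (h : 2 ≤ n) : 2 * Nat.card (alternatingGroup (Fin n)) = n.factorial := by
  have : Nontrivial (Fin n) := Fin.nontrivial_iff_two_le.2 h
  rw [two_mul_nat_card_alternatingGroup, Nat.card_perm, Nat.card_fin]

theorem card_le_fact {n : ℕ} (H : Subgroup (Perm (Fin n))) : Nat.card H ≤ n.factorial := by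
  have := card_le_card_group H
  rwa [Nat.card_perm, Nat.card_fin] at this

end

section
variable {G : Type*} [Group G] [Finite G]

theorem trans_of_alt {L D C : Subgroup G} {d : ℕ} (h3 : 3 ≤ d) (φ : L →* Perm (Fin d))
    (x₀ : Fin d) (hφ : ∀ m : L, φ m x₀ = x₀ → (m : G) ∈ D)
    (hC : alternatingGroup (Fin d) ≤ imS φ C) {l : G} (hl : l ∈ L) :
    ∃ c ∈ C, c⁻¹ * l ∈ D := by
  have := alternatingGroup.isPretransitive_of_three_le_card (Fin d) (by simpa using h3)
  obtain ⟨s, hs⟩ := exists_smul_eq (alternatingGroup (Fin d)) x₀ (φ ⟨l, hl⟩ x₀)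
  obtain ⟨c, hcL, hc, h⟩ := (mem_imS φ).1 (hC s.2)
  refine ⟨c, hc, hφ (⟨c, hcL⟩⁻¹ * ⟨l, hl⟩) ?_⟩
  rw [map_mul, map_inv, h, Perm.mul_apply, ← hs]
  exact (s : Perm (Fin d)).symm_apply_apply x₀

theorem cent_facts {L D : Subgroup G} {d : ℕ} (h5 : 5 ≤ d) (φ : L →* Perm (Fin d))
    (halt : alternatingGroup (Fin d) ≤ φ.range) (hD : D ≤ L) (hA : kerS φ ≤ D)
    (hF : fitOf D = ⊥) (hC : L ⊓ centralizer (kerS φ : Set G) ≠ ⊥) :
    alternatingGroup (Fin d) ≤ imS φ (L ⊓ centralizer (kerS φ : Set G)) := by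
  have hn : L ≤ normalizer ((L ⊓ centralizer (kerS φ : Set G) : Subgroup G) : Set G) :=
    (le_inf le_normalizer ((le_normalizer_kerS φ).trans
      (normalizer_le_normalizer_centralizer _))).trans inf_normalizer_le_normalizer_inf
  refine alt_le_imS (by simpa using h5) φ (imS_self φ ▸ halt) hn inf_le_left fun h => hC ?_
  have hnil : Group.IsNilpotent (L ⊓ centralizer (kerS φ : Set G) : Subgroup G) := by
    refine isNilpotent_of_commutator_le_centralizer ?_
    rw [commutator_eq_bot_iff_le_centralizer.2 (inf_le_right.trans (centralizer_le h))]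
    exact bot_le
  exact le_bot_iff.1 (hF ▸ le_map_fit (h.trans hA) (hD.trans hn) hnil)

theorem layer_eq {D A : Subgroup G} (hA : A ≤ D) (hn : D ≤ normalizer (A : Set G))
    (hF : fitOf D = ⊥) (hC : D ⊓ centralizer (A : Set G) = ⊥) : layerOf A = layerOf D := by
  have h1 : ∀ K : Subgroup G, K ≤ D → IsComponent (K.subgroupOf D) → K ≤ A := by
    intro K hK hc
    rcases comp_rel_le_or_commutator hK hc hA (hK.trans hn) with h | h
    · exact h
    · exact (le_inf hK (commutator_eq_bot_iff_le_centralizer.1 h)).trans (hC ▸ bot_le)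
  refine le_antisymm (layerOf_le_layerOf_of_fstarOf_le ?_ ((map_subtype_le _).trans hA)) ?_
  · rw [fstarOf_eq, hF, sup_bot_eq]
    exact map_layer_subtype_le_iff.2 h1
  · exact map_layer_subtype_le_iff.2 fun K hK hc =>
      le_map_layer_subtype (h1 K hK hc) (comp_subgroupOf_of_le (h1 K hK hc) hA hc)

theorem main (M N : Subgroup G) (g : G) (hg : ∀ x, x ∈ N ↔ g⁻¹ * x * g ∈ M)
    (hprim : ∀ R : Subgroup G, R ≤ M ⊓ N → M ≤ normalizer (R : Set G) →
      N ≤ normalizer (R : Set G) → R = ⊥)
    {d k : ℕ} (hk : d = k + 1) (h5 : 5 ≤ k)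
    (φ : M →* Perm (Fin d)) (x₀ : Fin d) (hφ : ∀ m : M, φ m x₀ = x₀ ↔ (m : G) ∈ N)
    (ψ : N →* Perm (Fin d)) (y₀ : Fin d) (hψ : ∀ n : N, ψ n y₀ = y₀ ↔ (n : G) ∈ M)
    (hd : N.relIndex M = d) (halt : alternatingGroup (Fin d) ≤ φ.range)
    (hF : fitOf (M ⊓ N) = ⊥) (hunf : kerS φ ≠ ⊥) :
    ∃ χ : M →* Perm (Fin k), Function.Injective (φ.prod χ) ∧
      (alternatingGroup (Fin d)).prod (alternatingGroup (Fin k)) ≤ (φ.prod χ).range ∧
      d * Nat.card (kerS φ) ≤ Nat.card φ.range := by
  set D := M ⊓ N with hD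
  set A := kerS φ with hA
  set B := kerS ψ with hB
  have hAD : A ≤ D := fun x hx => by
    obtain ⟨h, h1⟩ := (mem_kerS φ).1 hx
    exact ⟨h, (hφ ⟨x, h⟩).1 (by rw [h1]; rfl)⟩
  have hBD : B ≤ D := fun x hx => by
    obtain ⟨h, h1⟩ := (mem_kerS ψ).1 hx
    exact ⟨(hψ ⟨x, h⟩).1 (by rw [h1]; rfl), h⟩
  have hnA : M ≤ normalizer (A : Set G) := le_normalizer_kerS φ
  have hnB : N ≤ normalizer (B : Set G) := le_normalizer_kerS ψ
  obtain ⟨ρ, hρ⟩ := exists_restrict (k := k) (by simp [hk]) φ x₀ (D := D) inf_le_left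
    fun x h => (hφ _).2 h.2
  obtain ⟨σ, hσ⟩ := exists_restrict (k := k) (by simp [hk]) ψ y₀ (D := D) inf_le_right
    fun x h => (hψ _).2 h.1
  rw [inf_eq_left.2 hAD] at hρ
  rw [inf_eq_left.2 hBD] at hσ
  have hfd : d.factorial = d * k.factorial := by rw [hk, Nat.factorial_succ]
  have had := card_alt (n := d) (by omega)
  have hak := card_alt (n := k) (by omega)
  have hkpos := k.factorial_pos
  have cM := card_eq_kerS φ
  have cN := card_eq_kerS ψ
  have cρ := card_eq_kerS ρ
  have cσ := card_eq_kerS σ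
  rw [hρ] at cρ
  rw [hσ] at cσ
  rw [← hA] at cM
  rw [← hB] at cN
  have cMD : Nat.card M = d * Nat.card D := by
    rw [← hd, ← inf_relIndex_left, relIndex, mul_comm, ← card_mul_index (D.subgroupOf M),
      Nat.card_congr (subgroupOfEquivOfLe (inf_le_left : D ≤ M)).toEquiv]
  have hApos : 0 < Nat.card A := Nat.card_pos
  have hBpos : 0 < Nat.card B := Nat.card_pos
  have cφρ : Nat.card φ.range = d * Nat.card ρ.range := by
    refine Nat.eq_of_mul_eq_mul_left hApos ?_
    rw [← cM, cMD, cρ]; ring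
  have hφge : d.factorial ≤ 2 * Nat.card φ.range := by
    have := card_le_of_le halt
    omega
  have hρge : k.factorial ≤ 2 * Nat.card ρ.range := by
    rw [hfd, cφρ] at hφge
    refine Nat.le_of_mul_le_mul_left (c := d) ?_ (by omega)
    linarith
  -- the conjugate action of `N`
  let cj : N →* M := MonoidHom.mk' (fun n => ⟨g⁻¹ * n * g, (hg _).1 n.2⟩) (by
    intro x y
    ext
    simp only [Subgroup.coe_mul]
    group)
  have hcjs : Function.Surjective cj := by
    intro m
    refine ⟨⟨g * m * g⁻¹, (hg _).2 (by simpa [mul_assoc] using m.2)⟩, ?_⟩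
    ext
    change g⁻¹ * (g * m * g⁻¹) * g = m
    group
  have hcji : Function.Injective cj := by
    intro x y h
    have : g⁻¹ * x * g = g⁻¹ * y * g := congrArg Subtype.val h
    ext
    simpa using this
  have cMN : Nat.card N = Nat.card M := Nat.card_congr (Equiv.ofBijective cj ⟨hcji, hcjs⟩)
  set φ' := φ.comp cj with hφ'
  have hr' : φ'.range = φ.range := by
    rw [hφ', MonoidHom.range_comp, MonoidHom.range_eq_top.2 hcjs, ← MonoidHom.range_eq_map]
  have hk' : ∀ x, x ∈ kerS φ' ↔ g⁻¹ * x * g ∈ A := by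
    intro x
    rw [mem_kerS, mem_kerS]
    exact ⟨fun ⟨h, h1⟩ => ⟨(hg _).1 h, h1⟩, fun ⟨h, h1⟩ => ⟨(hg _).2 h, h1⟩⟩
  have cN' := card_eq_kerS φ'
  rw [hr'] at cN'
  have cA' : Nat.card (kerS φ') = Nat.card A :=
    Nat.eq_of_mul_eq_mul_right (Nat.card_pos (α := φ.range)) (by rw [← cN', ← cM, cMN])
  -- step 1
  have hperf : ∀ Z : Subgroup G, Z ≤ D → Perf k.factorial Z → Z = ⊥ := fun Z hZ hp =>
    perf_eq_bot hprim inf_le_left inf_le_right hAD hBD hnA hnB
      (by rw [← hρ, relIndex_kerS ρ le_rfl]; exact card_le_fact _)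
      (by rw [← hσ, relIndex_kerS σ le_rfl]; exact card_le_fact _) hZ hp
  have hBA' : B ≤ kerS φ' := by
    by_contra h
    refine not_alt_le (by simp; omega) φ' (kerS_le ψ) (fun Z hZ => hperf Z (hZ.trans hBD)) ?_
      (alt_le_imS (by simp; omega) φ' (by rw [imS_self, hr']; exact halt) hnB (kerS_le ψ) h)
    nlinarith
  -- step 2
  have hψle := card_le_fact ψ.range
  have hψge : Nat.card φ.range ≤ Nat.card ψ.range := by
    have h1 := card_le_of_le hBA'
    by_contra h2
    have : Nat.card B * Nat.card ψ.range < Nat.card (kerS φ') * Nat.card φ.range :=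
      Nat.mul_lt_mul_of_le_of_lt h1 (by omega) Nat.card_pos
    omega
  have haltψ : alternatingGroup (Fin d) ≤ ψ.range := alt_le_of_card (by omega)
  have hA'B : kerS φ' ≤ B := by
    by_contra h
    have h1 := card_le_of_le (alt_le_imS (by simp; omega) ψ (by rw [imS_self]; exact haltψ)
      (le_normalizer_kerS φ') (kerS_le φ') h)
    rw [← relIndex_kerS ψ (kerS_le φ'), ← hB] at h1
    have h2 : Nat.card B * B.relIndex (kerS φ') = Nat.card (kerS φ') := by
      rw [relIndex, ← card_mul_index (B.subgroupOf (kerS φ')),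
        Nat.card_congr (subgroupOfEquivOfLe hBA').toEquiv]
    have h3 : B.relIndex (kerS φ') * Nat.card φ.range = Nat.card ψ.range := by
      refine Nat.eq_of_mul_eq_mul_left hBpos ?_
      rw [← mul_assoc, h2, ← cN', cN]
    have h4 : 3 ≤ B.relIndex (kerS φ') := by nlinarith
    have h5 := d.factorial_pos
    nlinarith
  have hBeq : B = kerS φ' := le_antisymm hBA' hA'B
  have hBg : ∀ x, x ∈ B ↔ g⁻¹ * x * g ∈ A := fun x => hBeq ▸ hk' x
  have cAB : Nat.card B = Nat.card A := hBeq ▸ cA'
  have haltσ : alternatingGroup (Fin k) ≤ σ.range := by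
    refine alt_le_of_card ?_
    have : Nat.card σ.range = Nat.card ρ.range :=
      Nat.eq_of_mul_eq_mul_left hApos (by rw [← cρ, cσ, cAB])
    omega
  -- step 3
  set C := M ⊓ centralizer (A : Set G) with hC
  set C' := N ⊓ centralizer (B : Set G) with hC'
  have hCC' : ∀ x, x ∈ C' ↔ g⁻¹ * x * g ∈ C := by
    intro x
    rw [mem_inf, mem_inf, hg, mem_centralizer_iff, mem_centralizer_iff]
    refine and_congr_right fun _ => ⟨fun h y hy => ?_, fun h y hy => ?_⟩
    · have := h (g * y * g⁻¹) ((hBg _).2 (by simpa [mul_assoc] using hy))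
      calc y * (g⁻¹ * x * g) = g⁻¹ * (g * y * g⁻¹ * x) * g := by group
        _ = _ := by rw [this]; group
    · have := h _ ((hBg y).1 hy)
      calc y * x = g * (g⁻¹ * y * g * (g⁻¹ * x * g)) * g⁻¹ := by group
        _ = _ := by rw [this]; group
  have hC0 : C ≠ ⊥ := by
    intro h0
    have h0' : C' = ⊥ := eq_bot_iff.2 fun x hx => by
      have := (hCC' x).1 hx
      rw [h0, mem_bot] at this
      rw [mem_bot]
      calc x = g * (g⁻¹ * x * g) * g⁻¹ := by group
        _ = 1 := by rw [this]; group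
    have e1 := layer_eq hAD (inf_le_left.trans hnA) hF
      (le_bot_iff.1 (h0 ▸ inf_le_inf_right _ inf_le_left))
    have e2 := layer_eq hBD (inf_le_right.trans hnB) hF
      (le_bot_iff.1 (h0' ▸ inf_le_inf_right _ inf_le_right))
    have e3 : layerOf D = ⊥ := hprim _ (map_subtype_le _)
      (e1 ▸ hnA.trans (normalizer_le_normalizer_layerOf A))
      (e2 ▸ hnB.trans (normalizer_le_normalizer_layerOf B))
    have e4 := inf_centralizer_fstarOf_le D
    rw [fstarOf_eq, e3, hF, sup_bot_eq] at e4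
    refine hunf (le_bot_iff.1 (le_trans (le_inf hAD ?_) e4))
    intro x _ y hy
    rw [mem_bot.1 hy, one_mul, mul_one]
  have hC0' : C' ≠ ⊥ := by
    intro h0
    refine hC0 (eq_bot_iff.2 fun x hx => ?_)
    have := (hCC' (g * x * g⁻¹)).2 (by simpa [mul_assoc] using hx)
    rw [h0, mem_bot] at this
    rw [mem_bot]
    calc x = g⁻¹ * (g * x * g⁻¹) * g := by group
      _ = 1 := by rw [this]; group
  have hCalt := cent_facts (by omega) φ halt inf_le_left hAD hF hC0
  have hCalt' := cent_facts (by omega) ψ haltψ inf_le_right hBD hF hC0'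
  have hM : ∀ m ∈ M, ∃ c ∈ C, c⁻¹ * m ∈ D := fun m hm =>
    trans_of_alt (D := D) (by omega) φ x₀ (fun x h => ⟨x.2, (hφ x).1 h⟩) hCalt hm
  have hN : ∀ m ∈ N, ∃ c ∈ C', c⁻¹ * m ∈ D := fun m hm =>
    trans_of_alt (D := D) (by omega) ψ y₀ (fun x h => ⟨(hψ x).1 h, x.2⟩) hCalt' hm
  have hDE : D ≤ normalizer ((A ⊓ B : Subgroup G) : Set G) :=
    (le_inf (inf_le_left.trans hnA) (inf_le_right.trans hnB)).trans
      inf_normalizer_le_normalizer_inf
  have hE : A ⊓ B = ⊥ := by
    refine hprim _ (inf_le_left.trans hAD) (fun m hm => ?_) (fun m hm => ?_)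
    · obtain ⟨c, hc, h⟩ := hM m hm
      rw [← mul_inv_cancel_left c m]
      exact mul_mem (centralizer_le_normalizer _ (centralizer_le inf_le_left hc.2)) (hDE h)
    · obtain ⟨c, hc, h⟩ := hN m hm
      rw [← mul_inv_cancel_left c m]
      exact mul_mem (centralizer_le_normalizer _ (centralizer_le inf_le_right hc.2)) (hDE h)
  -- step 4
  have hAalt : alternatingGroup (Fin k) ≤ imS σ A :=
    alt_le_imS (by simpa using h5) σ (imS_self σ ▸ haltσ) (inf_le_left.trans hnA) hAD
      fun h => hunf (le_bot_iff.1 (hE ▸ le_inf le_rfl (hσ ▸ h)))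
  have hBC : B ≤ C := le_inf (hBD.trans inf_le_left)
    (le_centralizer_of_le_normalizer_of_disjoint (hBD.trans (inf_le_left.trans hnA))
      (hAD.trans (inf_le_right.trans hnB)) (inf_comm A B ▸ hE))
  have hDC : ∀ x : D, (x : G) ∈ C → σ x = 1 := by
    intro x hx
    refine CfsgLib.AltAut.eq_one_of_commute (by simp; omega) fun s hs => ?_
    obtain ⟨y, hyD, hy, rfl⟩ := (mem_imS σ).1 (hAalt hs)
    rw [← map_mul, ← map_mul]
    congr 1
    exact Subtype.ext (hx.2 y hy).symm
  have hnC : M ≤ normalizer (C : Set G) :=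
    (le_inf le_normalizer (hnA.trans
      (normalizer_le_normalizer_centralizer _))).trans inf_normalizer_le_normalizer_inf
  haveI : (C.subgroupOf M).Normal := normal_subgroupOf_of_le_normalizer hnC
  let π : D →* M ⧸ C.subgroupOf M := (QuotientGroup.mk' _).comp (inclusion inf_le_left)
  have hπ : Function.Surjective π := by
    intro q
    obtain ⟨m, rfl⟩ := QuotientGroup.mk'_surjective _ q
    obtain ⟨c, hc, h⟩ := hM m m.2
    refine ⟨⟨_, h⟩, ?_⟩
    have h1 : QuotientGroup.mk' (C.subgroupOf M) ⟨c, hc.1⟩ = 1 := (QuotientGroup.eq_one_iff _).2 hc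
    have h2 : inclusion (inf_le_left : D ≤ M) ⟨_, h⟩ = (⟨c, hc.1⟩ : M)⁻¹ * m := rfl
    change QuotientGroup.mk' _ (inclusion (inf_le_left : D ≤ M) ⟨_, h⟩) = _
    rw [h2, map_mul, map_inv, h1, inv_one, one_mul]
  have hker : π.ker ≤ σ.ker := fun x hx => hDC x
    ((QuotientGroup.eq_one_iff (N := C.subgroupOf M) (inclusion inf_le_left x)).1 hx)
  let χ : M →* Perm (Fin k) := (π.liftOfSurjective hπ ⟨σ, hker⟩).comp (QuotientGroup.mk' _)
  have hχD : ∀ (x : G) (h : x ∈ D), χ ⟨x, h.1⟩ = σ ⟨x, h⟩ := fun x h =>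
    π.liftOfRightInverse_comp_apply _ (Function.rightInverse_surjInv hπ) ⟨σ, hker⟩ ⟨x, h⟩
  have hχC : ∀ (x : G) (h : x ∈ C), χ ⟨x, h.1⟩ = 1 := fun x h => by
    have h1 : QuotientGroup.mk' (C.subgroupOf M) ⟨x, h.1⟩ = 1 := (QuotientGroup.eq_one_iff _).2 h
    change π.liftOfSurjective hπ ⟨σ, hker⟩ (QuotientGroup.mk' _ ⟨x, h.1⟩) = 1
    rw [h1, map_one]
  refine ⟨χ, ?_, ?_, ?_⟩
  · rw [injective_iff_map_eq_one]
    intro m hm
    have h1 : φ m = 1 := congrArg Prod.fst hm
    have h2 : χ m = 1 := congrArg Prod.snd hm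
    have h3 : (m : G) ∈ A := (mem_kerS φ).2 ⟨m.2, h1⟩
    have h4 : (m : G) ∈ B := hσ ▸ (mem_kerS σ).2 ⟨hAD h3, (hχD m (hAD h3)).symm.trans h2⟩
    have h5 : (m : G) ∈ A ⊓ B := ⟨h3, h4⟩
    rw [hE, mem_bot] at h5
    exact Subtype.ext h5
  · rintro ⟨s, t⟩ ⟨hs, ht⟩
    obtain ⟨c, hcM, hc, h1⟩ := (mem_imS φ).1 (hCalt hs)
    obtain ⟨x, hxD, hx, h2⟩ := (mem_imS σ).1 (hAalt ht)
    obtain ⟨hxM, h3⟩ := (mem_kerS φ).1 hx
    refine ⟨⟨c, hcM⟩ * ⟨x, hxM⟩, ?_⟩
    rw [map_mul]
    ext1
    · change φ _ * φ _ = s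
      rw [h1, h3, mul_one]
    · change χ _ * χ _ = t
      rw [hχC c hc, hχD x hxD, h2, one_mul]
  · have h1 := card_le_of_le (imS_le_range ρ B)
    rw [← relIndex_kerS ρ hBD, hρ, ← inf_relIndex_right, hE, relIndex_bot_left, cAB] at h1
    rw [cφρ]
    exact Nat.mul_le_mul_left _ h1

end

theorem classify {H : Type*} [Group H] [Finite H] {d k : ℕ} (hk : d = k + 1) (h5 : 5 ≤ k)
    (φ : H →* Perm (Fin d)) (χ : H →* Perm (Fin k)) (hi : Function.Injective (φ.prod χ))
    (hr : (alternatingGroup (Fin d)).prod (alternatingGroup (Fin k)) ≤ (φ.prod χ).range)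
    (hc : d * Nat.card φ.ker ≤ Nat.card φ.range) :
    (φ.range.index = 2 ∧ Nonempty (H ≃* alternatingGroup (Fin d) × alternatingGroup (Fin k))) ∨
    (φ.range = ⊤ ∧ (Nonempty (H ≃* Perm (Fin d) × Perm (Fin k)) ∨
      Nonempty (H ≃* Perm (Fin d) × alternatingGroup (Fin k)) ∨
      Nonempty (H ≃* ((sign.comp (MonoidHom.fst (Perm (Fin d)) (Perm (Fin k)))) *
         (sign.comp (MonoidHom.snd (Perm (Fin d)) (Perm (Fin k))))).ker))) := by
  set R := (φ.prod χ).range with hR
  have e : H ≃* R := MonoidHom.ofInjective hi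
  have : Nontrivial (Fin d) := Fin.nontrivial_iff_two_le.2 (by omega)
  have key : ∀ (h : H) (p : Perm (Fin d) × Perm (Fin k)), sign p.1 = sign (φ h) →
      sign p.2 = sign (χ h) → p ∈ R := by
    intro h p h1 h2
    have h3 : p * ((φ.prod χ) h)⁻¹ ∈ R := hr ⟨by
      change p.1 * (φ h)⁻¹ ∈ alternatingGroup _
      rw [mem_alternatingGroup, map_mul, map_inv, h1, mul_inv_cancel], by
      change p.2 * (χ h)⁻¹ ∈ alternatingGroup _
      rw [mem_alternatingGroup, map_mul, map_inv, h2, mul_inv_cancel]⟩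
    have h4 := R.mul_mem h3 ⟨h, rfl⟩
    rwa [inv_mul_cancel_right] at h4
  have htop : (∃ h, sign (φ h) = -1) → φ.range = ⊤ := by
    rintro ⟨h, hh⟩
    rw [eq_top_iff]
    intro s _
    rcases Int.units_eq_one_or (sign s) with h1 | h1
    · obtain ⟨x, hx⟩ := key 1 (s, 1) (by simpa using h1) (by simp)
      exact ⟨x, congrArg Prod.fst hx⟩
    · obtain ⟨x, hx⟩ := key h (s, χ h) (by rw [hh]; exact h1) rfl
      exact ⟨x, congrArg Prod.fst hx⟩
  by_cases hu : ∃ h, sign (φ h) = -1
  · refine Or.inr ⟨htop hu, ?_⟩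
    by_cases hv : ∃ h, sign (χ h) = -1
    · by_cases hw : ∃ h, sign (φ h) * sign (χ h) = -1
      · left
        have hall : ∀ a b : ℤˣ, ∃ h, sign (φ h) = a ∧ sign (χ h) = b := by
          obtain ⟨u, hu⟩ := hu
          obtain ⟨v, hv⟩ := hv
          obtain ⟨w, hw⟩ := hw
          intro a b
          have h1 : ∃ h, sign (φ h) = 1 ∧ sign (χ h) = 1 := ⟨1, by simp⟩
          have hm : ∀ x y, sign (φ (x * y)) = sign (φ x) * sign (φ y) ∧
              sign (χ (x * y)) = sign (χ x) * sign (χ y) := fun x y => by simp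
          have huv := hm u v
          have huw := hm u w
          have hvw := hm v w
          by_contra hcon
          push Not at hcon
          have c0 := hcon 1
          have c1 := hcon u
          have c2 := hcon v
          have c3 := hcon w
          have c4 := hcon (u * v)
          have c5 := hcon (u * w)
          have c6 := hcon (v * w)
          rw [huv.1, huv.2] at c4
          rw [huw.1, huw.2] at c5
          rw [hvw.1, hvw.2] at c6
          simp only [map_one] at c0
          rw [hu] at c1 c4 c5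
          rw [hv] at c2 c4 c6
          generalize sign (χ u) = p at *
          generalize sign (φ v) = q at *
          generalize sign (φ w) = r at *
          generalize sign (χ w) = t at *
          revert c0 c1 c2 c3 c4 c5 c6 hw
          clear * -
          rcases Int.units_eq_one_or a with rfl | rfl <;>
          rcases Int.units_eq_one_or b with rfl | rfl <;>
          rcases Int.units_eq_one_or p with rfl | rfl <;>
          rcases Int.units_eq_one_or q with rfl | rfl <;>
          rcases Int.units_eq_one_or r with rfl | rfl <;>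
          rcases Int.units_eq_one_or t with rfl | rfl <;>
          simp
        have : R = ⊤ := eq_top_iff.2 fun p _ => by
          obtain ⟨h, h1, h2⟩ := hall (sign p.1) (sign p.2)
          exact key h p h1.symm h2.symm
        exact ⟨e.trans ((MulEquiv.subgroupCongr this).trans topEquiv)⟩
      · right; right
        refine ⟨e.trans (MulEquiv.subgroupCongr (le_antisymm ?_ ?_))⟩
        · rintro _ ⟨h, rfl⟩
          rw [MonoidHom.mem_ker]
          exact (Int.units_eq_one_or _).resolve_right fun h1 => hw ⟨h, h1⟩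
        · intro p hp
          have hp' : sign p.1 * sign p.2 = 1 := hp
          obtain ⟨u, hu⟩ := hu
          have hu' : sign (φ u) * sign (χ u) = 1 :=
            (Int.units_eq_one_or _).resolve_right fun h1 => hw ⟨u, h1⟩
          rcases Int.units_eq_one_or (sign p.1) with h1 | h1
          · exact key 1 p (by simpa using h1) (by simpa [h1] using hp')
          · refine key u p (h1.trans hu.symm) ?_
            rw [hu] at hu'
            rw [h1] at hp'
            exact mul_left_cancel (hp'.trans hu'.symm)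
    · right; left
      have : R = (⊤ : Subgroup (Perm (Fin d))).prod (alternatingGroup (Fin k)) := by
        refine le_antisymm ?_ ?_
        · rintro _ ⟨h, rfl⟩
          exact ⟨trivial, (Int.units_eq_one_or _).resolve_right fun h1 => hv ⟨h, h1⟩⟩
        · rintro p ⟨-, hp⟩
          have hp' : sign p.2 = 1 := hp
          obtain ⟨u, hu⟩ := hu
          have hu' : sign (χ u) = 1 := (Int.units_eq_one_or _).resolve_right fun h1 => hv ⟨u, h1⟩
          rcases Int.units_eq_one_or (sign p.1) with h1 | h1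
          · exact key 1 p (by simpa using h1) (by simpa using hp')
          · exact key u p (h1.trans hu.symm) (hp'.trans hu'.symm)
      exact ⟨e.trans ((MulEquiv.subgroupCongr this).trans
        ((Subgroup.prodEquiv _ _).trans (MulEquiv.prodCongr topEquiv (MulEquiv.refl _))))⟩
  · have hφ : ∀ h, sign (φ h) = 1 := fun h =>
      (Int.units_eq_one_or _).resolve_right fun h1 => hu ⟨h, h1⟩
    have hrange : φ.range = alternatingGroup (Fin d) := by
      refine le_antisymm ?_ fun s hs => ?_
      · rintro _ ⟨h, rfl⟩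
        exact hφ h
      · obtain ⟨x, hx⟩ := hr (show (s, 1) ∈ _ from ⟨hs, one_mem _⟩)
        exact ⟨x, congrArg Prod.fst hx⟩
    have hv : ∀ h, sign (χ h) = 1 := by
      intro h
      by_contra h0
      have h1 := (Int.units_eq_one_or _).resolve_left h0
      have h2 : (⊤ : Subgroup (Perm (Fin k))) ≤ φ.ker.map χ := by
        intro t _
        have : ((1 : Perm (Fin d)), t) ∈ R := by
          rcases Int.units_eq_one_or (sign t) with h3 | h3
          · exact key 1 _ (by simp) (by simpa using h3)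
          · exact key h _ (by simp [hφ h]) (h3.trans h1.symm)
        obtain ⟨x, hx⟩ := this
        exact ⟨x, congrArg Prod.fst hx, congrArg Prod.snd hx⟩
      have h3 := (card_le_of_le h2).trans (Nat.le_of_dvd Nat.card_pos (card_map_dvd φ.ker χ))
      rw [card_top, Nat.card_perm, Nat.card_fin] at h3
      have h4 := card_alt (n := d) (by omega)
      rw [hrange] at hc
      have h5 : d.factorial = d * k.factorial := by rw [hk, Nat.factorial_succ]
      have h6 := d.factorial_pos
      have h7 := Nat.mul_le_mul_left d h3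
      omega
    refine Or.inl ⟨by rw [hrange, alternatingGroup.index_eq_two], ?_⟩
    have : R = (alternatingGroup (Fin d)).prod (alternatingGroup (Fin k)) := by
      refine le_antisymm ?_ hr
      rintro _ ⟨h, rfl⟩
      exact ⟨hφ h, hv h⟩
    exact ⟨e.trans ((MulEquiv.subgroupCongr this).trans (Subgroup.prodEquiv _ _))⟩

theorem fit_eq_bot {Q : Type*} [Group Q] [Finite Q] {k : ℕ} (h5 : 5 ≤ k) (r : Q →* Perm (Fin k))
    (hi : Function.Injective r) (hr : alternatingGroup (Fin k) ≤ r.range) :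
    Cfsg.fittingSubgroup Q = ⊥ := by
  by_contra h0
  have hn : r.range ≤ normalizer (((Cfsg.fittingSubgroup Q).map r : Subgroup _) : Set _) := by
    rw [MonoidHom.range_eq_map]
    refine le_trans (map_mono ?_) (le_normalizer_map r)
    haveI := fit_normal (G := Q)
    exact normalizer_eq_top _ |>.ge
  have h1 := alt_le_of_normalized (by simpa using h5) (hr.trans hn)
    (fun h => h0 ((map_eq_bot_iff_of_injective _ hi).1 h))
  have := fit_solvable (G := Q)
  have h2 : Group.IsSolvable ((Cfsg.fittingSubgroup Q).map r) :=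
    solvable_of_surjective (f := r.subgroupMap _) (r.subgroupMap_surjective _)
  have h3 : Group.IsSolvable (alternatingGroup (Fin k)) :=
    solvable_of_solvable_injective (f := inclusion h1) (inclusion_injective h1)
  have := alternatingGroup.isSimpleGroup (α := Fin k) (by simpa using h5)
  have h4 := IsSimpleGroup.comm_iff_isSolvable.2 h3
  have h6 : alternatingGroup (Fin k) ≤ ⊥ := fun s hs =>
    CfsgLib.AltAut.eq_one_of_commute (by simp; omega) fun t ht =>
      congrArg Subtype.val (h4 ⟨s, hs⟩ ⟨t, ht⟩)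
  have h7 := card_le_of_le h6
  have h8 : 1 < Nat.card (alternatingGroup (Fin k)) := Finite.one_lt_card
  rw [card_bot] at h7
  omega

/-- Let a finite group G act faithfully and primitively on a set Ω, let a and b be points such that the orbit Δ of b under the stabilizer H of a has d ≥ 6 elements, and suppose that the permutation group induced by H on Δ contains the alternating group of Δ (the image of H in the symmetric group of Δ has index at most 2) while H does not act faithfully on Δ. Then either H induces exactly the alternating group of Δ and H is isomorphic to the direct product of the alternating groups of degrees d and d - 1; or H induces the full symmetric group of Δ and H is isomorphic to one of: the direct product of the symmetric groups of degrees d and d - 1, the direct product of the symmetric group of degree d with the alternating group of degree d - 1, or the subgroup of the direct product of the symmetric groups of degrees d and d - 1 consisting of the pairs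 of permutations with equal signs. -/
theorem result {G Ω : Type*} [Group G] [Finite G] [MulAction G Ω] [FaithfulSMul G Ω] [Finite Ω]
    (hprim : MulAction.IsPreprimitive G Ω) (a b : Ω) (d : ℕ) (hd : Nat.card (MulAction.orbit (MulAction.stabilizer G a) b) = d) (h6 : 6 ≤ d)
    (halt : (MulAction.toPermHom (MulAction.stabilizer G a) (MulAction.orbit (MulAction.stabilizer G a) b)).range.index ≤ 2)
    (hunf : ¬ Function.Injective (MulAction.toPermHom (MulAction.stabilizer G a) (MulAction.orbit (MulAction.stabilizer G a) b))) :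
    ((MulAction.toPermHom (MulAction.stabilizer G a) (MulAction.orbit (MulAction.stabilizer G a) b)).range.index = 2 ∧
      Nonempty (MulAction.stabilizer G a ≃* alternatingGroup (Fin d) × alternatingGroup (Fin (d - 1)))) ∨
    ((MulAction.toPermHom (MulAction.stabilizer G a) (MulAction.orbit (MulAction.stabilizer G a) b)).range = ⊤ ∧
      (Nonempty (MulAction.stabilizer G a ≃* Equiv.Perm (Fin d) × Equiv.Perm (Fin (d - 1))) ∨
       Nonempty (MulAction.stabilizer G a ≃* Equiv.Perm (Fin d) × alternatingGroup (Fin (d - 1))) ∨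
       Nonempty (MulAction.stabilizer G a ≃* ((Equiv.Perm.sign.comp (MonoidHom.fst (Equiv.Perm (Fin d)) (Equiv.Perm (Fin (d - 1))))) *
         (Equiv.Perm.sign.comp (MonoidHom.snd (Equiv.Perm (Fin d)) (Equiv.Perm (Fin (d - 1)))))).ker))) := by
  classical
  set M := stabilizer G a with hMd
  set N := stabilizer G b with hNd
  have hM : N.relIndex M = d := by
    rw [← hd, Nat.card_coe_set_eq, ← index_stabilizer]; rfl
  have hne : M ≠ N := fun e => by rw [e, relIndex_self] at hM; omega
  have : Nontrivial Ω := ⟨a, b, fun e => hne (by rw [hMd, hNd, e])⟩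
  obtain ⟨g, hg⟩ := exists_smul_eq G a b
  have hconj : ∀ x, x ∈ N ↔ g⁻¹ * x * g ∈ M := by
    intro x
    rw [hNd, hMd, mem_stabilizer_iff, mem_stabilizer_iff, mul_smul, mul_smul, hg, inv_smul_eq_iff,
      hg]
  have hprim' : ∀ R : Subgroup G, R ≤ M ⊓ N → M ≤ normalizer (R : Set G) →
      N ≤ normalizer (R : Set G) → R = ⊥ := by
    intro R hR h1 h2
    have hc : IsCoatom M := (isCoatom_stabilizer_iff_preprimitive G a).2 hprim
    have hc' : IsCoatom N := (isCoatom_stabilizer_iff_preprimitive G b).2 hprim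
    have h3 : normalizer (R : Set G) = ⊤ := by
      rw [eq_top_iff, ← hc.sup_eq_top_of_ne hc' hne]
      exact sup_le h1 h2
    rw [eq_bot_iff]
    intro x hx
    refine eq_of_smul_eq_smul (α := Ω) fun e => ?_
    obtain ⟨k, rfl⟩ := exists_smul_eq G a e
    have h4 : k⁻¹ * x * k⁻¹⁻¹ ∈ R := (mem_normalizer_iff.1 (h3.ge (mem_top k⁻¹)) x).1 hx
    have : (k⁻¹ * x * k⁻¹⁻¹) • a = a := (hR h4).1
    rw [inv_inv, mul_smul, mul_smul, inv_smul_eq_iff] at this
    rw [this, one_smul]
  have hcard : Nat.card N = Nat.card M := by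
    refine Nat.card_congr ⟨fun x => ⟨g⁻¹ * x * g, (hconj _).1 x.2⟩,
      fun x => ⟨g * x * g⁻¹, (hconj _).2 (by simpa [mul_assoc] using x.2)⟩, fun x => ?_, fun x => ?_⟩
    · ext; simp [mul_assoc]
    · ext; simp [mul_assoc]
  have hN : M.relIndex N = d := by
    have h1 := card_mul_index ((M ⊓ N).subgroupOf M)
    have h2 := card_mul_index ((M ⊓ N).subgroupOf N)
    rw [Nat.card_congr (subgroupOfEquivOfLe (inf_le_left : M ⊓ N ≤ M)).toEquiv] at h1
    rw [Nat.card_congr (subgroupOfEquivOfLe (inf_le_right : M ⊓ N ≤ N)).toEquiv] at h2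
    rw [← hM, ← inf_relIndex_left, ← inf_relIndex_left M N, inf_comm N M]
    exact Nat.eq_of_mul_eq_mul_left (Nat.card_pos (α := (M ⊓ N : Subgroup G)))
      (h2.trans (hcard.trans h1.symm))
  have hd' : Nat.card (orbit N a) = d := by
    rw [← hN, Nat.card_coe_set_eq, ← index_stabilizer]; rfl
  let e : orbit M b ≃ Fin d := Finite.equivFinOfCardEq hd
  let e' : orbit N a ≃ Fin d := Finite.equivFinOfCardEq hd'
  set φ₀ := toPermHom M (orbit M b) with hφ₀
  let φ : M →* Perm (Fin d) := e.permCongrHom.toMonoidHom.comp φ₀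
  let ψ : N →* Perm (Fin d) := e'.permCongrHom.toMonoidHom.comp (toPermHom N (orbit N a))
  have hφ : ∀ m : M, φ m (e ⟨b, mem_orbit_self b⟩) = e ⟨b, mem_orbit_self b⟩ ↔ (m : G) ∈ N := by
    intro m
    change e (m • e.symm (e _)) = _ ↔ _
    rw [e.symm_apply_apply, e.apply_eq_iff_eq, Subtype.ext_iff]
    rfl
  have hψ : ∀ m : N, ψ m (e' ⟨a, mem_orbit_self a⟩) = e' ⟨a, mem_orbit_self a⟩ ↔ (m : G) ∈ M := by
    intro m
    change e' (m • e'.symm (e' _)) = _ ↔ _
    rw [e'.symm_apply_apply, e'.apply_eq_iff_eq, Subtype.ext_iff]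
    rfl
  have hrange : φ.range = φ₀.range.map e.permCongrHom.toMonoidHom := MonoidHom.range_comp _ _
  have hidx : φ.range.index = φ₀.range.index := by
    rw [hrange]
    exact index_map_equiv _ e.permCongrHom
  have halt' : alternatingGroup (Fin d) ≤ φ.range :=
    alternatingGroup_le_of_index_le_two (hidx ▸ halt)
  have hk : d = d - 1 + 1 := by omega
  have hunf' : kerS φ ≠ ⊥ := by
    intro h
    refine hunf ((injective_iff_map_eq_one _).2 fun m hm => ?_)
    have : (m : G) ∈ kerS φ := (mem_kerS φ).2 ⟨m.2, by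
      change e.permCongrHom (φ₀ m) = 1
      rw [hm, map_one]⟩
    rw [h, mem_bot] at this
    exact Subtype.ext this
  have hF : fitOf (M ⊓ N) = ⊥ := by
    have hQ : Cfsg.fittingSubgroup ((N.subgroupOf M).map φ₀) = ⊥ := by
      set Q := (N.subgroupOf M).map φ₀ with hQ
      obtain ⟨r, hr⟩ := exists_restrict (L := ⊤) (k := d - 1) (by simpa using hk)
        (e.permCongrHom.toMonoidHom.comp (Subgroup.subtype ⊤)) (e ⟨b, mem_orbit_self b⟩)
        (D := Q) le_top (by
          rintro _ ⟨m, hm, rfl⟩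
          exact (hφ m).2 hm)
      have hri : Function.Injective r := by
        rw [injective_iff_map_eq_one]
        intro x hx
        have h1 : (x : Perm (orbit M b)) ∈ kerS r := (mem_kerS r).2 ⟨x.2, hx⟩
        rw [hr] at h1
        obtain ⟨_, h2⟩ := (mem_kerS _).1 h1.1
        exact Subtype.ext (e.permCongrHom.injective (by rw [OneMemClass.coe_one, map_one]; exact h2))
      refine fit_eq_bot (by omega) r hri (alt_le_of_card ?_)
      rw [← Nat.card_congr (MonoidHom.ofInjective hri).toEquiv]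
      have h1 : Nat.card Q * d = Nat.card φ₀.range := by
        have h2 : φ₀.ker ≤ N.subgroupOf M := fun m hm => (hφ m).1 (by
          change e.permCongrHom (φ₀ m) _ = _
          rw [MonoidHom.mem_ker.1 hm, map_one]; rfl)
        rw [hQ, ← relIndex_ker, ← index_ker, ← hM]
        exact relIndex_mul_index h2
      have h2 : d.factorial ≤ 2 * Nat.card φ₀.range := by
        have h3 := card_le_of_le halt'
        have h4 := card_alt (n := d) (by omega)
        rw [hrange, card_map_of_injective e.permCongrHom.injective] at h3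
        omega
      have h5 : d.factorial = d * (d - 1).factorial := by
        conv_lhs => rw [hk, Nat.factorial_succ, ← hk]
      rw [h5, ← h1] at h2
      refine Nat.le_of_mul_le_mul_left (c := d) ?_ (by omega)
      linarith
    rw [fitOf, (Cfsg.Agent.S3693.result hprim a b d hd (by omega) hQ).1, Subgroup.map_bot]
  obtain ⟨χ, h1, h2, h3⟩ := main M N g hconj hprim' hk (by omega) φ _ hφ ψ _ hψ hM halt' hF hunf'
  rw [kerS, card_map_of_injective M.subtype_injective] at h3
  rcases classify hk (by omega) φ χ h1 h2 h3 with ⟨h4, h5⟩ | ⟨h4, h5⟩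
  · exact Or.inl ⟨hidx ▸ h4, h5⟩
  · refine Or.inr ⟨?_, h5⟩
    rw [← index_eq_one, ← hidx, h4, index_top]

end Cfsg.Agent.S3687
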