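import Cfsg.Statements.S3696
-- import your own Cfsg.Agent.* helpers here

set_option autoImplicit false
open Cfsg

namespace Cfsg.Agent.S3696

open MulAction

theorem amgm2 (a b r j : ℕ) (hr : 1 ≤ r) :
    a ^ r * b ^ j * (r + j) ^ (r + j) ≤ r ^ r * j ^ j * (a + b) ^ (r + j) := by
  rcases Nat.eq_zero_or_pos j with rfl | hj
  · simp only [pow_zero, mul_one, add_zero]
    rw [mul_comm]
    exact Nat.mul_le_mul_left _ (Nat.pow_le_pow_left (by omega) _)
  have hr' : (0 : ℝ) < r := by exact_mod_cast hr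
  have hj' : (0 : ℝ) < j := by exact_mod_cast hj
  have hk : (0 : ℝ) < r + j := by positivity
  have h := Real.geom_mean_le_arith_mean2_weighted (w₁ := r / (r + j)) (w₂ := j / (r + j))
    (p₁ := a / r) (p₂ := b / j) (by positivity) (by positivity) (by positivity) (by positivity)
    (by field_simp)
  have h2 : (r : ℝ) / (r + j) * (a / r) + j / (r + j) * (b / j) = (a + b) / (r + j) := by
    field_simp
  rw [h2] at h
  have h3 := pow_le_pow_left₀ (by positivity) h (r + j)
  rw [mul_pow, ← Real.rpow_natCast, ← Real.rpow_natCast, ← Real.rpow_mul (by positivity),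
    ← Real.rpow_mul (by positivity)] at h3
  push_cast at h3
  rw [div_mul_cancel₀ _ hk.ne', div_mul_cancel₀ _ hk.ne', Real.rpow_natCast, Real.rpow_natCast,
    div_pow, div_pow, div_pow, div_mul_div_comm, div_le_div_iff₀ (by positivity) (by positivity),
    mul_comm (((a : ℝ) + b) ^ (r + j))] at h3
  exact_mod_cast h3

theorem step (n m N r j : ℕ) (hr : 1 ≤ r) (hn : 2 ^ r ≤ n) (hN : N * j ^ j ≤ m ^ j) :
    n * N * (r + j) ^ (r + j) ≤ (n + m) ^ (r + j) := by
  have h1 : n * r ^ r ≤ n ^ r := by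
    obtain ⟨s, rfl⟩ := Nat.exists_eq_add_of_le' hr
    rw [pow_succ' n]
    apply Nat.mul_le_mul_left
    calc (s + 1) ^ (s + 1) ≤ (2 ^ s) ^ (s + 1) := Nat.pow_le_pow_left Nat.lt_two_pow_self _
      _ = (2 ^ (s + 1)) ^ s := by rw [← pow_mul, ← pow_mul, mul_comm]
      _ ≤ n ^ s := Nat.pow_le_pow_left hn _
  have hpos : 0 < r ^ r * j ^ j := by
    apply Nat.mul_pos (pow_pos hr _)
    rcases Nat.eq_zero_or_pos j with rfl | hj
    · simp
    · exact pow_pos hj _
  apply Nat.le_of_mul_le_mul_left _ hpos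
  calc r ^ r * j ^ j * (n * N * (r + j) ^ (r + j))
      = (n * r ^ r) * (N * j ^ j) * (r + j) ^ (r + j) := by ring
    _ ≤ n ^ r * m ^ j * (r + j) ^ (r + j) :=
      Nat.mul_le_mul_right _ (Nat.mul_le_mul h1 hN)
    _ ≤ _ := amgm2 n m r j hr

theorem card_eq_orbit_mul {A Ω : Type*} [Group A] [MulAction A Ω] (B : Subgroup A) (ω : Ω) :
    Nat.card B = (orbit B ω).ncard * Nat.card ↥(B ⊓ stabilizer A ω) := by
  rw [← index_stabilizer, ← (stabilizer B ω).index_mul_card]
  congr 1
  have : stabilizer B ω = (B ⊓ stabilizer A ω).subgroupOf B := by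
    rw [Subgroup.inf_subgroupOf_left]; rfl
  rw [this]
  exact Nat.card_congr (Subgroup.subgroupOfEquivOfLe inf_le_left).toEquiv

theorem aux {Ω A : Type*} [Finite Ω] [CommGroup A] [Finite A] [MulAction A Ω] (p : ℕ)
    (hp : p.Prime) (hA : IsPGroup p A) (n : ℕ) :
    ∀ (S : Set Ω) (B : Subgroup A) (k : ℕ), S.ncard = n → (∀ b ∈ B, ∀ x ∈ S, b • x ∈ S) →
      (∀ b ∈ B, (∀ x ∈ S, b • x = x) → b = 1) →
      Nat.card ↥(B ⊓ (powMonoidHom p : A →* A).ker) = p ^ k → Nat.card B * k ^ k ≤ n ^ k := by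
  haveI := Fact.mk hp
  set W := (powMonoidHom p : A →* A).ker with hW
  induction n using Nat.strong_induction_on with
  | _ n ih =>
  intro S B k hn hinv hfaith hk
  rcases S.eq_empty_or_nonempty with rfl | ⟨ω, hω⟩
  · have hB : B = ⊥ := by
      rw [eq_bot_iff]
      intro b hb
      exact hfaith b hb (by simp)
    subst hB
    rw [bot_inf_eq, Subgroup.card_bot] at hk
    have : k = 0 := by
      rcases Nat.pow_eq_one.1 hk.symm with h | h
      · exact absurd h hp.one_lt.ne'
      · exact h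
    subst this
    simp
  have hsub : orbit B ω ⊆ S := by
    rintro _ ⟨h, rfl⟩
    exact hinv h h.2 ω hω
  have hpos : 0 < (orbit B ω).ncard := by
    rw [Set.ncard_pos]
    exact ⟨ω, mem_orbit_self ω⟩
  have hsum := Set.ncard_sdiff_add_ncard_of_subset hsub
  have hinv' : ∀ b ∈ B, ∀ x ∈ S \ orbit B ω, b • x ∈ S \ orbit B ω := by
    rintro b hb y ⟨hy, hy'⟩
    refine ⟨hinv b hb y hy, fun h' => hy' ?_⟩
    obtain ⟨h2, hh2⟩ := h'
    refine ⟨⟨b, hb⟩⁻¹ * h2, ?_⟩
    change (b⁻¹ * (h2 : A)) • ω = y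
    change (h2 : A) • ω = b • y at hh2
    rw [mul_smul, hh2, inv_smul_smul]
  have hfaith' : ∀ b ∈ B, b • ω = ω → (∀ x ∈ S \ orbit B ω, b • x = x) → b = 1 := by
    intro b hb hbω h
    apply hfaith b hb
    intro x hx
    by_cases hx' : x ∈ orbit B ω
    · obtain ⟨c, rfl⟩ := hx'
      change b • (c : A) • ω = (c : A) • ω
      rw [← mul_smul, mul_comm, mul_smul, hbω]
    · exact h x ⟨hx, hx'⟩
  by_cases hle : B ⊓ W ≤ stabilizer A ω
  · have := ih (S \ orbit B ω).ncard (by omega) (S \ orbit B ω) B k rfl hinv' (by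
      intro b hb h
      by_contra hb1
      obtain ⟨e, he⟩ := (IsPGroup.iff_orderOf.1 hA) b
      rcases e with _ | e
      · exact hb1 (orderOf_eq_one_iff.1 (by simpa using he))
      have hc1 : b ^ p ^ e ≠ 1 := by
        apply pow_ne_one_of_lt_orderOf (pow_pos hp.pos _).ne'
        rw [he]
        exact Nat.pow_lt_pow_right hp.one_lt (by omega)
      apply hc1
      apply hfaith' _ (B.pow_mem hb _)
      · apply hle
        refine ⟨B.pow_mem hb _, ?_⟩
        change (b ^ p ^ e) ^ p = 1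
        rw [← pow_mul, ← pow_succ, ← he, pow_orderOf_eq_one]
      · intro x hx
        exact (stabilizer A x).pow_mem (h x hx) _) hk
    exact this.trans (Nat.pow_le_pow_left (by omega) _)
  · obtain ⟨j, hj⟩ := IsPGroup.iff_card.1 (hA.to_subgroup (B ⊓ stabilizer A ω ⊓ W))
    have h1 := card_eq_orbit_mul (B ⊓ W) ω
    rw [inf_right_comm, hj, hk] at h1
    have h2 : (orbit ↥(B ⊓ W) ω).ncard ≤ (orbit B ω).ncard := by
      apply Set.ncard_le_ncard _ (Set.toFinite _)
      rintro _ ⟨c, rfl⟩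
      exact ⟨⟨c, c.2.1⟩, rfl⟩
    have hjk : j < k := by
      by_contra h
      apply hle
      have : B ⊓ stabilizer A ω ⊓ W = B ⊓ W := by
        apply Subgroup.eq_of_le_of_card_ge (inf_le_inf_right _ inf_le_left)
        rw [hj, hk]
        exact Nat.pow_le_pow_right hp.pos (by omega)
      rw [← this]
      exact inf_le_left.trans inf_le_right
    obtain ⟨r, rfl⟩ := Nat.exists_eq_add_of_le' hjk.le
    have h3 : (orbit ↥(B ⊓ W) ω).ncard = p ^ r := by
      rw [pow_add] at h1
      exact (Nat.eq_of_mul_eq_mul_right (pow_pos hp.pos j) h1).symm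
    have h4 := ih (S \ orbit B ω).ncard (by omega) (S \ orbit B ω) (B ⊓ stabilizer A ω) j rfl
      (fun b hb => hinv' b hb.1) (fun b hb => hfaith' b hb.1 hb.2) hj
    rw [card_eq_orbit_mul B ω, ← hn, ← hsum, add_comm (S \ orbit B ω).ncard]
    apply step _ _ _ _ _ (by omega) _ h4
    exact (Nat.pow_le_pow_left hp.two_le _).trans (h3 ▸ h2)


/-- Let p be a prime, Ω a finite set with n ≥ p elements, and A an abelian p-subgroup of the symmetric group on Ω whose elements of order dividing p number p^k (so k is the rank of A). Then |A| · k^k ≤ n^k, that is, |A| ≤ (n/k)^k. -/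
theorem result {Ω : Type*} [Fintype Ω] [DecidableEq Ω]
    (p : ℕ) (hp : p.Prime) (hn : p ≤ Fintype.card Ω) (A : Subgroup (Equiv.Perm Ω)) (hA : IsPGroup p A) (hab : IsMulCommutative A)
    (k : ℕ) (hk : Nat.card {x : A // x ^ p = 1} = p ^ k) :
    Nat.card A * k ^ k ≤ Fintype.card Ω ^ k := by
  letI : CommGroup A := { mul_comm := fun a b => hab.is_comm.comm a b }
  have := aux (Ω := Ω) (A := A) p hp hA _ Set.univ ⊤ k rfl (fun _ _ _ _ => Set.mem_univ _)
    (fun b _ h => Subtype.ext (Equiv.ext fun x => h x (Set.mem_univ x))) (by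
      rw [top_inf_eq, ← hk]
      rfl)
  rwa [Subgroup.card_top, Set.ncard_univ, Nat.card_eq_fintype_card (α := Ω)] at this

end Cfsg.Agent.S3696
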