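import Cfsg.Statements.S3701
import Cfsg.Agent.Lib.Exc.E27

set_option autoImplicit false
open Cfsg

namespace Cfsg.Agent.S3701

open CfsgLib.Exc CfsgLib.Exc.E27 Subgroup

/-- The three 3-cycles. -/
def c3 : Fin 3 → Equiv.Perm (Fin 9) :=
  ![Equiv.swap 0 1 * Equiv.swap 1 2, Equiv.swap 3 4 * Equiv.swap 4 5, Equiv.swap 6 7 * Equiv.swap 7 8]

/-- The two involutions. -/
def c2 : Fin 2 → Equiv.Perm (Fin 9) :=
  ![Equiv.swap 0 1 * Equiv.swap 3 4, Equiv.swap 0 1 * Equiv.swap 6 7]

/-- The elementary abelian group of order 27 inside the symmetric group. -/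
def f3 : V27 →* Equiv.Perm (Fin 9) :=
  MonoidHom.mk' (fun v => c3 0 ^ v.1.toAdd.val * c3 1 ^ v.2.1.toAdd.val * c3 2 ^ v.2.2.toAdd.val)
    (by decide +kernel)

/-- The four-group inside the symmetric group. -/
def f2 : K4 →* Equiv.Perm (Fin 9) :=
  MonoidHom.mk' (fun k => c2 0 ^ k.1.toAdd.val * c2 1 ^ k.2.toAdd.val) (by decide +kernel)

theorem f_compat : ∀ k v, f3 (actF k v) = f2 k * f3 v * (f2 k)⁻¹ := by decide +kernel

/-- The model inside the symmetric group. -/
def fW : W →* Equiv.Perm (Fin 9) :=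
  SemidirectProduct.lift f3 f2 fun k => MonoidHom.ext fun v => f_compat k v

theorem fW_inj : Function.Injective fW :=
  (injective_iff_map_eq_one fW).2 (by decide +kernel)

theorem fW_range : fW.range = closure {c3 0, c3 1, c3 2, c2 0, c2 1} := by
  refine le_antisymm ?_ ((closure_le _).2 ?_)
  · rintro _ ⟨w, rfl⟩
    exact mul_mem (mul_mem (mul_mem (pow_mem (subset_closure (by simp)) _)
      (pow_mem (subset_closure (by simp)) _)) (pow_mem (subset_closure (by simp)) _))
      (mul_mem (pow_mem (subset_closure (by simp)) _) (pow_mem (subset_closure (by simp)) _))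
  · rintro _ (rfl | rfl | rfl | rfl | rfl)
    exacts [⟨x 0, by decide +kernel⟩, ⟨x 1, by decide +kernel⟩, ⟨x 2, by decide +kernel⟩,
      ⟨⟨1, (.ofAdd 1, 1)⟩, by decide +kernel⟩, ⟨⟨1, (1, .ofAdd 1)⟩, by decide +kernel⟩]

theorem right_eq_one {w : W} {k : ℕ} (h : w ^ 3 ^ k = 1) : w.right = 1 := by
  have h1 : w.right ^ 3 ^ k = 1 := by
    have := congrArg SemidirectProduct.rightHom h
    rwa [map_pow, map_one] at this
  have h2 := orderOf_dvd_of_pow_eq_one h1
  have h3 := orderOf_dvd_of_pow_eq_one ((by decide : ∀ k : K4, k ^ 2 = 1) w.right)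
  exact orderOf_eq_one_iff.1 (Nat.eq_one_of_dvd_coprimes
    (Nat.Coprime.pow_left k (by norm_num)) h2 h3)

/-- Let H₀ ≤ Sym(9) be generated by the 3-cycles (1 2 3), (4 5 6), (7 8 9) and the involutions (1 2)(4 5), (1 2)(7 8) (a group of order 108, elementary abelian of order 27 extended by a four-group). Let G be a finite group with a subgroup H ≅ H₀, and T ≤ H of order 27 (a Sylow 3-subgroup of H) with N_G(T) = H and C_G(t) ≤ H for every t ≠ 1 in T. Then G = H. -/
theorem result {G : Type*} [Group G] [Finite G] (H : Subgroup G)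
    (hH : Nonempty (↥H ≃* ↥(Subgroup.closure ({Equiv.swap (0 : Fin 9) 1 * Equiv.swap 1 2, Equiv.swap (3 : Fin 9) 4 * Equiv.swap 4 5, Equiv.swap (6 : Fin 9) 7 * Equiv.swap 7 8,
        Equiv.swap (0 : Fin 9) 1 * Equiv.swap 3 4, Equiv.swap (0 : Fin 9) 1 * Equiv.swap 6 7} : Set (Equiv.Perm (Fin 9))))))
    (T : Subgroup G) (hTH : T ≤ H) (hT : Nat.card T = 27) (hN : Subgroup.normalizer (T : Set G) = H)
    (hC : ∀ t ∈ T, t ≠ 1 → Subgroup.centralizer ({t} : Set G) ≤ H) : H = ⊤ := by
  obtain ⟨e⟩ := hH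
  have := Fact.mk Nat.prime_three
  let e' : W ≃* H := ((MonoidHom.ofInjective fW_inj).trans (MulEquiv.subgroupCongr fW_range)).trans
    e.symm
  let φ : W →* G := H.subtype.comp e'.toMonoidHom
  have hinj : Function.Injective φ := H.subtype_injective.comp e'.injective
  have hr : φ.range = H := by
    rw [MonoidHom.range_comp, MonoidHom.range_eq_top.2 e'.surjective, ← MonoidHom.range_eq_map,
      range_subtype]
  have hV : Nat.card ((SemidirectProduct.inl : V27 →* W).range.map φ) = 27 := by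
    rw [card_map_of_injective hinj,
      ← Nat.card_congr (MonoidHom.ofInjective SemidirectProduct.inl_injective).toEquiv]
    simp
  have hle : ∀ g ∈ H, ∀ k, g ^ 3 ^ k = 1 → g ∈ (SemidirectProduct.inl : V27 →* W).range.map φ := by
    intro g hg k hk
    obtain ⟨w, rfl⟩ : g ∈ φ.range := hr ▸ hg
    have := right_eq_one (hinj ((map_pow φ w _).trans (hk.trans φ.map_one.symm)))
    exact ⟨w, ⟨w.left, by ext1 <;> simp [this]⟩, rfl⟩
  have hTV : T = (SemidirectProduct.inl : V27 →* W).range.map φ :=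
    eq_of_le_of_card_ge (fun t ht => hle t (hTH ht) 3
      (orderOf_dvd_iff_pow_eq_one.1 (hT ▸ T.orderOf_dvd_natCard ht :))) (by rw [hV, hT])
  obtain ⟨P, hP⟩ := (IsPGroup.of_card (p := 3) (n := 3) hT).exists_le_sylow
  have hPT : (P : Subgroup G) = T := by
    refine le_antisymm ?_ hP
    have := P.isPGroup'.isNilpotent
    rw [← subgroupOf_eq_top]
    refine (normalizerCondition_iff_only_full_group_self_normalizing.1
      Group.normalizerCondition_of_isNilpotent) _ (le_antisymm (fun g hg => ?_) le_normalizer)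
    rw [← subgroupOf_normalizer_eq hP, hN, mem_subgroupOf] at hg
    obtain ⟨k, hk⟩ := P.isPGroup' g
    rw [mem_subgroupOf, hTV]
    exact hle g hg k (congrArg Subtype.val hk)
  subst hPT
  rw [← hr]
  refine Data.range_eq_top (P := P) ⟨hinj, hr.trans hN.symm, fun w => ?_, hN ▸ hC⟩
  rw [hTV]
  constructor
  · rintro ⟨_, ⟨v, rfl⟩, e⟩
    rw [← hinj e]; rfl
  · exact fun e => ⟨w, ⟨w.left, by ext1 <;> simp [e]⟩, rfl⟩

end Cfsg.Agent.S3701
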