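import Cfsg.Statements.S3702
import Cfsg.Agent.Lib.Exc.S4Main

set_option autoImplicit false
set_option Elab.async false
open Cfsg

namespace Cfsg.Agent.S3702

open CfsgLib.Exc CfsgLib.Exc.S4 Subgroup DihedralGroup

/-- The generators. -/
def gen : Fin 4 → Equiv.Perm (Fin 9) :=
  ![Equiv.swap 0 1 * Equiv.swap 1 2,
    Equiv.swap 0 3 * Equiv.swap 3 6 * (Equiv.swap 1 4 * Equiv.swap 4 7) * (Equiv.swap 2 5 * Equiv.swap 5 8),
    Equiv.swap 0 1 * Equiv.swap 3 4, Equiv.swap 0 3 * Equiv.swap 1 4 * Equiv.swap 2 5 * Equiv.swap 6 7]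

/-- The elementary abelian group of order 27 inside the symmetric group. -/
def f3 : E27.V27 →* Equiv.Perm (Fin 9) :=
  (hom3 (u := gen 0) (by decide +kernel)).noncommCoprod
    ((hom3 (u := gen 1 * gen 0 * (gen 1)⁻¹) (by decide +kernel)).noncommCoprod
      (hom3 (u := (gen 1)⁻¹ * gen 0 * gen 1) (by decide +kernel))
      fun _ _ => Commute.pow_pow ((commute_iff_eq _ _).2 (by decide +kernel)) _ _)
    fun _ _ => (Commute.pow_pow ((commute_iff_eq _ _).2 (by decide +kernel)) _ _).mul_right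
      (Commute.pow_pow ((commute_iff_eq _ _).2 (by decide +kernel)) _ _)

/-- The four-group inside the symmetric group. -/
def f2 : E27.K4 →* Equiv.Perm (Fin 9) :=
  MonoidHom.mk' (fun k => gen 2 ^ k.1.toAdd.val * ((gen 1)⁻¹ * gen 2 * gen 1) ^ k.2.toAdd.val)
    (by decide +kernel)

/-- The group `S₃` inside the symmetric group. -/
def fD : DihedralGroup 3 →* Equiv.Perm (Fin 9) :=
  MonoidHom.mk' (fun d => match d with
    | r i => gen 1 ^ i.val
    | sr i => gen 3 * gen 2 * gen 1 ^ i.val) (by decide +kernel)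

/-- The group `S₄` inside the symmetric group. -/
def fQ : Q →* Equiv.Perm (Fin 9) :=
  SemidirectProduct.lift f2 fD fun d => MonoidHom.ext fun k =>
    (by decide +kernel : ∀ d k, f2 (actKF d k) = fD d * f2 k * (fD d)⁻¹) d k

/-- The model inside the symmetric group. -/
def fW : W →* Equiv.Perm (Fin 9) :=
  SemidirectProduct.lift f3 fQ fun q => MonoidHom.ext fun v => by
    have h1 := (by decide +kernel : ∀ k v, f3 (E27.actF k v) = f2 k * f3 v * (f2 k)⁻¹)
    have h2 := (by decide +kernel : ∀ d v, f3 (actD d v) = fD d * f3 v * (fD d)⁻¹)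
    show f3 (E27.actF q.left (actD q.right v)) =
      f2 q.left * fD q.right * f3 v * (f2 q.left * fD q.right)⁻¹
    rw [h1, h2]; group

theorem fW_inj : Function.Injective fW :=
  (injective_iff_map_eq_one fW).2 fun w h =>
    (by decide +kernel : ∀ w : W, fW w 0 = 0 → fW w 1 = 1 → fW w 3 = 3 → fW w 4 = 4 → fW w 6 = 6 → w = 1) w
      (by rw [h]; rfl) (by rw [h]; rfl) (by rw [h]; rfl) (by rw [h]; rfl) (by rw [h]; rfl)

theorem fW_range : fW.range = closure {gen 0, gen 1, gen 2, gen 3} := by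
  refine le_antisymm ?_ ((closure_le _).2 ?_)
  · rintro _ ⟨⟨v, k, d⟩, rfl⟩
    have h : ∀ i, gen i ∈ closure {gen 0, gen 1, gen 2, gen 3} := fun i =>
      subset_closure (by fin_cases i <;> simp)
    refine mul_mem (mul_mem (pow_mem (h 0) _) (mul_mem
      (pow_mem (mul_mem (mul_mem (h 1) (h 0)) (inv_mem (h 1))) _)
      (pow_mem (mul_mem (mul_mem (inv_mem (h 1)) (h 0)) (h 1)) _)))
      (mul_mem (mul_mem (pow_mem (h 2) _)
        (pow_mem (mul_mem (mul_mem (inv_mem (h 1)) (h 2)) (h 1)) _)) ?_)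
    rcases d with i | i
    exacts [pow_mem (h 1) _, mul_mem (mul_mem (h 3) (h 2)) (pow_mem (h 1) _)]
  · rintro _ (rfl | rfl | rfl | rfl)
    exacts [⟨el 1 0 0 0 0 1, by decide +kernel⟩, ⟨el 0 0 0 0 0 (r 1), by decide +kernel⟩,
      ⟨el 0 0 0 1 0 1, by decide +kernel⟩, ⟨el 0 0 0 1 0 (sr 0), by decide +kernel⟩]

theorem right_cube {w : W} {k : ℕ} (h : w ^ 3 ^ k = 1) : w.right ^ 3 = 1 := by
  have h1 : (w.right ^ 3) ^ 3 ^ k = 1 := by
    have := congrArg SemidirectProduct.rightHom h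
    rw [map_pow, map_one] at this
    rw [← pow_mul, mul_comm, pow_mul]
    exact this.symm ▸ one_pow 3
  have := pow_gcd_eq_one.2 ⟨(by decide +kernel : ∀ q : Q, (q ^ 3) ^ 4 = 1) w.right, h1⟩
  rwa [Nat.Coprime.pow_right k (by norm_num : Nat.Coprime 4 3), pow_one] at this

/-- Let K ≤ Sym(9) be generated by (1 2 3), (1 4 7)(2 5 8)(3 6 9), (1 2)(4 5) and (1 4)(2 5)(3 6)(7 8) (the normalizer in Alt(9) of the elementary abelian group generated by (1 2 3), (4 5 6), (7 8 9)). Let G be a finite group with a subgroup H ≅ K and J = O₃(H). If C_G(j) ≤ H for every j ≠ 1 in J and J is strongly closed in H with respect to G (a G-conjugate of an element of J lying in H lies in J), then G = H. -/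
theorem result {G : Type*} [Group G] [Finite G] (H : Subgroup G)
    (hH : Nonempty (↥H ≃* ↥(Subgroup.closure ({Equiv.swap (0 : Fin 9) 1 * Equiv.swap 1 2,
        Equiv.swap (0 : Fin 9) 3 * Equiv.swap 3 6 * (Equiv.swap (1 : Fin 9) 4 * Equiv.swap 4 7) * (Equiv.swap (2 : Fin 9) 5 * Equiv.swap 5 8),
        Equiv.swap (0 : Fin 9) 1 * Equiv.swap 3 4, Equiv.swap (0 : Fin 9) 3 * Equiv.swap 1 4 * Equiv.swap 2 5 * Equiv.swap 6 7} : Set (Equiv.Perm (Fin 9))))))
    (J : Subgroup G) (hJ : J = (Cfsg.pCore 3 ↥H).map H.subtype)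
    (hC : ∀ j ∈ J, j ≠ 1 → Subgroup.centralizer ({j} : Set G) ≤ H) (hsc : Cfsg.IsStronglyClosed J H) : H = ⊤ := by
  obtain ⟨e⟩ := hH
  have := Fact.mk Nat.prime_three
  let e' : W ≃* H := ((MonoidHom.ofInjective fW_inj).trans (MulEquiv.subgroupCongr fW_range)).trans
    e.symm
  let φ : W →* G := H.subtype.comp e'.toMonoidHom
  have hinj : Function.Injective φ := H.subtype_injective.comp e'.injective
  have hr : φ.range = H := by
    rw [MonoidHom.range_comp, MonoidHom.range_eq_top.2 e'.surjective, ← MonoidHom.range_eq_map,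
      range_subtype]
  have hp : IsPGroup 3 (pCore 3 H) := Sylow.sSup_of_normal _ (fun _ h => h.2) fun _ h => h.1
  have hn : (pCore 3 H).Normal := sSup_normal _ fun _ h => h.1
  have hmem : ∀ w, φ w ∈ J ↔ w.right = 1 := fun w => by
    rw [hJ, show φ w = H.subtype (e' w) from rfl, mem_map_iff_mem H.subtype_injective]
    constructor
    · intro hw
      have key : ∀ u, e' u ∈ pCore 3 H → u.right ^ 3 = 1 := fun u hu => by
        obtain ⟨k, hk⟩ := hp ⟨_, hu⟩
        exact right_cube (e'.injective (by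
          rw [map_pow, map_one]; exact congrArg Subtype.val hk))
      refine (by decide +kernel : ∀ q : Q, q ^ 3 = 1 → (∀ g, (q * (g * q * g⁻¹)) ^ 3 = 1) → q = 1) _
        (key w hw) fun g => ?_
      have := key (w * (.inr g * w * (.inr g)⁻¹)) (by
        rw [map_mul, map_mul, map_mul, map_inv]; exact mul_mem hw (hn.conj_mem _ hw _))
      simpa using this
    · intro hw
      refine (le_sSup (s := {N : Subgroup H | N.Normal ∧ IsPGroup 3 N})
        (a := (SemidirectProduct.rightHom : W →* Q).ker.map e'.toMonoidHom)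
        ⟨Normal.map inferInstance _ e'.surjective, IsPGroup.map (fun u => ⟨1, Subtype.ext ?_⟩) _⟩)
        ⟨w, hw, rfl⟩
      exact (by decide +kernel : ∀ u : W, u.right = 1 → u ^ 3 ^ 1 = 1) u u.2
  rw [← hr]
  refine Data.range_eq_top ⟨hinj, fun w hw h1 => hr ▸ hC _ ((hmem w).2 hw) fun e =>
    h1 (hinj (e.trans φ.map_one.symm)), fun w hw g u hu => (hmem u).1 ?_⟩
  exact hu ▸ hsc.2 _ ((hmem w).2 hw) g (hu ▸ hr ▸ ⟨u, rfl⟩)

end Cfsg.Agent.S3702
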