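import Cfsg.Statements.S3716
import Cfsg.Agent.Lib.Exc.D8Main
import Cfsg.Agent.Lib.Transfer.Frobenius

set_option autoImplicit false
open Cfsg

namespace Cfsg.Agent.S3716

open CfsgLib.Exc CfsgLib.Exc.D8 Subgroup

/-- Let G be a finite group with an elementary abelian Sylow 3-subgroup M of order 9 which is self-centralizing (C_G(M) = M), let N = N_G(M), and suppose C_G(g) ≤ N for every nonidentity g ∈ M. If the Sylow 2-subgroups of N are dihedral of order 8, then G is not simple. -/
theorem result {G : Type*} [Group G] [Finite G] (M : Sylow 3 G) (hM9 : Nat.card ↥(M : Subgroup G) = 9)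
    (hMel : ∀ m ∈ (M : Subgroup G), m ^ 3 = 1)
    (hCM : Subgroup.centralizer ((M : Subgroup G) : Set G) = (M : Subgroup G))
    (N : Subgroup G) (hN : N = Subgroup.normalizer ((M : Subgroup G) : Set G))
    (hCg : ∀ g ∈ (M : Subgroup G), g ≠ 1 → Subgroup.centralizer ({g} : Set G) ≤ N)
    (hS : ∀ S : Sylow 2 ↥N, Nonempty (↥(S : Subgroup ↥N) ≃* DihedralGroup 4)) :
    ¬ IsSimpleGroup G := by
  subst hN
  have := Fact.mk Nat.prime_three
  have := Fact.mk Nat.prime_two
  set N := Subgroup.normalizer ((M : Subgroup G) : Set G) with hNdef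
  obtain ⟨S⟩ : Nonempty (Sylow 2 N) := inferInstance
  obtain ⟨e⟩ := hS S
  have hS8 : Nat.card (S : Subgroup N) = 8 := by
    rw [Nat.card_congr e.toEquiv, DihedralGroup.nat_card]
  have hMN : (M : Subgroup G) ≤ N := le_normalizer
  have hN72 : Nat.card N = 72 := by
    have h1 := (S : Subgroup N).card_mul_index
    have h2 : ¬ 2 ∣ (S : Subgroup N).index := S.not_dvd_index
    have h3 := ((M : Subgroup G).subgroupOf N).card_mul_index
    rw [Nat.card_congr (subgroupOfEquivOfLe hMN).toEquiv, hM9] at h3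
    have h4 : ¬ 3 ∣ ((M : Subgroup G).subgroupOf N).index := fun h =>
      M.not_dvd_index (h.trans (relIndex_dvd_index_of_le hMN))
    rw [hS8] at h1
    obtain ⟨k, hk⟩ : 72 ∣ Nat.card N := by omega
    have hk1 : k = 1 := by
      by_contra hne
      obtain ⟨p, hp, hpk⟩ := Nat.exists_prime_and_dvd hne
      have := Fact.mk hp
      have hp2 : p ≠ 2 := by rintro rfl; omega
      have hp3 : p ≠ 3 := by rintro rfl; omega
      obtain ⟨x, hx⟩ := exists_prime_orderOf_dvd_card' (G := N) p (hk ▸ hpk.mul_left _)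
      have hxp : (x : G) ^ p ^ 1 = 1 := by
        rw [pow_one, ← hx, ← orderOf_coe, pow_orderOf_eq_one]
      have h5 := CfsgLib.Transfer.card_modEq_card_inf_centralizer x.2 ⟨1, hxp⟩
      have h6 : Nat.card ↥((M : Subgroup G) ⊓ centralizer {(x : G)}) ∣ 3 ^ 2 :=
        (hM9 ▸ card_dvd_of_le inf_le_left :)
      obtain ⟨j, hj, h7⟩ := (Nat.dvd_prime_pow Nat.prime_three).1 h6
      rw [hM9, h7] at h5
      have h8 := (Nat.modEq_iff_dvd' (Nat.pow_le_pow_right (by norm_num) hj)).1 h5.symm
      interval_cases j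
      · exact hp2 ((Nat.prime_dvd_prime_iff_eq hp Nat.prime_two).1 (hp.dvd_of_dvd_pow (n := 3) h8))
      · rcases (Nat.Prime.dvd_mul hp (m := 2) (n := 3)).1 h8 with h | h
        · exact hp2 ((Nat.prime_dvd_prime_iff_eq hp Nat.prime_two).1 h)
        · exact hp3 ((Nat.prime_dvd_prime_iff_eq hp Nat.prime_three).1 h)
      · have h9 : (M : Subgroup G) ⊓ centralizer {(x : G)} = M :=
          eq_of_le_of_card_ge inf_le_left (by rw [h7, hM9]; rfl)
        have h10 : (x : G) ∈ (M : Subgroup G) := hCM ▸ fun y hy =>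
          mem_centralizer_singleton_iff.1 (h9.symm ▸ hy : y ∈ (M : Subgroup G) ⊓ _).2
        have h11 := orderOf_dvd_of_pow_eq_one (hMel _ h10)
        rw [orderOf_coe, hx] at h11
        exact hp3 ((Nat.prime_dvd_prime_iff_eq hp Nat.prime_three).1 h11)
    rw [hk, hk1]
  obtain ⟨φ, h⟩ := exists_data M hM9 hMel hCM hCg
    ((N.subtype.comp (S : Subgroup N).subtype).comp e.symm.toMonoidHom)
    ((N.subtype_injective.comp (S : Subgroup N).subtype_injective).comp e.symm.injective)
    (fun x => (e.symm x).1.2) hN72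
  obtain ⟨K, hK, hφ⟩ := h.exists_index_two
  intro hs
  rcases hs.eq_bot_or_eq_top_of_normal K (normal_of_index_eq_two hK) with rfl | rfl
  · exact h.ne_one (w := rep 1) (by decide) (mem_bot.1 ((hφ _).2 (by decide)))
  · rw [index_top] at hK; omega

end Cfsg.Agent.S3716
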