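import Mathlib
import Cfsg.Statements.S3738
import Cfsg.Agent.Lib.TwoGrp.Fpf6

set_option autoImplicit false
open Cfsg

namespace Cfsg.Agent.S3738

open Subgroup CfsgLib.TwoGrp

/-- Let d be a non-identity 3-element of a finite group and P a 2-subgroup normalized by d on which ⟨d⟩ acts faithfully (no non-identity power of d centralizes P) and without non-identity fixed points (C_P(d) = 1). If every abelian subgroup of P has 2-rank at most 2, then d has order 3. -/
theorem result {X : Type*} [Group X] [Finite X] (d : X) (n : ℕ) (hn : 1 ≤ n) (hd : orderOf d = 3 ^ n) (P : Subgroup X) (hP : IsPGroup 2 P) (hdP : d ∈ Subgroup.normalizer (P : Set X)) (hfaith : Subgroup.zpowers d ⊓ Subgroup.centralizer (P : Set X) = ⊥) (hfpf : P ⊓ Subgroup.centralizer {d} = ⊥) (hrank : ∀ V : Subgroup X, V ≤ P → IsMulCommutative V → Cfsg.PRankLE 2 2 V) : orderOf d = 3 := by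
  have hd1 : d ≠ 1 := fun e => by
    rw [e, orderOf_one] at hd
    have := Nat.one_lt_pow (a := 3) (n := n) (by omega) (by norm_num)
    omega
  have hnt : Nontrivial P := by
    rw [Subgroup.nontrivial_iff_ne_bot]
    intro e
    apply hd1
    rw [← mem_bot, ← hfaith, e]
    exact ⟨mem_zpowers d, fun x hx => by rw [mem_bot.1 hx]; simp⟩
  let σ : MulAut P := P.normalizerMonoidHom ⟨d, hdP⟩
  have hσ : ∀ u : P, ((σ u : P) : X) = d * u * d⁻¹ := fun u => rfl
  have hr : PRankLE 2 2 P := fun A hA h2 => by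
    have h1 := hrank (A.map P.subtype) (map_subtype_le _) inferInstance ⊤ inferInstance
      (by
        rintro ⟨_, a, ha, rfl⟩ -
        apply Subtype.ext
        change (P.subtype a) ^ 2 = 1
        rw [← map_pow, h2 a ha, map_one])
    rwa [card_top, card_map_of_injective Subtype.val_injective] at h1
  obtain ⟨v, hv⟩ := exists_tri_of_fpf hP hr (σ := σ) fun u _ hu1 e => hu1 (by
    have h1 : (u : X) ∈ P ⊓ centralizer {d} :=
      ⟨u.2, mem_centralizer_singleton_iff.2
        (mul_inv_eq_iff_eq_mul.1 ((hσ u).symm.trans (congrArg Subtype.val e))).symm⟩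
    rw [hfpf, mem_bot] at h1
    exact Subtype.ext h1)
  have h3 : σ ^ 3 = 1 := hv.cube_eq_one (a := n) (by
    rw [← map_pow, show (⟨d, hdP⟩ : normalizer (P : Set X)) ^ 3 ^ n = 1 from
      Subtype.ext (by rw [← hd]; exact pow_orderOf_eq_one d), map_one])
  rw [← map_pow, ← MonoidHom.mem_ker, normalizerMonoidHom_ker, mem_subgroupOf] at h3
  have h4 : d ^ 3 ∈ zpowers d ⊓ centralizer (P : Set X) := ⟨pow_mem (mem_zpowers d) 3, h3⟩
  rw [hfaith, mem_bot] at h4
  have : Fact (Nat.Prime 3) := ⟨Nat.prime_three⟩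
  exact orderOf_eq_prime h4 hd1

end Cfsg.Agent.S3738
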