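import Mathlib
import Cfsg.Statements.S3739
import Cfsg.Agent.Lib.TwoGrp.Fpf6
import Cfsg.Agent.Lib.Core.Cores

set_option autoImplicit false
open Cfsg

namespace Cfsg.Agent.S3739

open Subgroup CfsgLib.TwoGrp

/-- Let G be a finite group with C_G(O₂(G)) ≤ O₂(G) containing an element of order 6, and let d be a non-identity 3-element of G normalizing a nontrivial elementary abelian 2-subgroup W with C_W(d) = 1. Then G has an elementary abelian subgroup of order 8. -/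
theorem result {G : Type*} [Group G] [Finite G] (hchar : Subgroup.centralizer (Cfsg.pCore 2 G : Set G) ≤ Cfsg.pCore 2 G) (hsix : ∃ g : G, orderOf g = 6) (d : G) (hd1 : d ≠ 1) (hd : IsPGroup 3 ↥(Subgroup.zpowers d)) (W : Subgroup G) (hW : Cfsg.IsElementaryAbelian 2 W) (hW1 : W ≠ ⊥) (hdW : d ∈ Subgroup.normalizer (W : Set G)) (hfpf : W ⊓ Subgroup.centralizer {d} = ⊥) : ∃ E : Subgroup G, Cfsg.IsElementaryAbelian 2 E ∧ Nat.card E = 8 := by
  by_contra hno
  have hmem : ∀ {V : Subgroup G}, IsKleinFour V → ∀ {x : G}, x * x = 1 →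
      (∀ a ∈ V, x * a = a * x) → x ∈ V := fun {V} hV {x} hx hc => by
    by_contra hxV
    exact hno (exists_eight_of_not_mem hV hx hc hxV)
  set Q := Cfsg.pCore 2 G with hQ
  have hQ2 : IsPGroup 2 Q := CfsgLib.Core.isPGroup_pCore 2 G
  have hW2 : ∀ w ∈ W, w * w = 1 := fun w hw => (pow_two w).symm.trans (hW.2 w hw)
  have hWc : ∀ a ∈ W, ∀ b ∈ W, a * b = b * a := CfsgLib.PGroup.isMulCommutative_iff.1 hW.1
  have hdW' : ∀ w ∈ W, d * w * d⁻¹ ∈ W := fun w hw => (mem_normalizer_iff.1 hdW w).1 hw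
  have hne : ∀ w ∈ W, w ≠ 1 → w ≠ d * w * d⁻¹ := fun w hw hw1 e => hw1 (by
    rw [← mem_bot, ← hfpf]
    exact ⟨hw, mem_centralizer_singleton_iff.2 (mul_inv_eq_iff_eq_mul.1 e.symm).symm⟩)
  have hne1 : ∀ w : G, w ≠ 1 → d * w * d⁻¹ ≠ 1 := fun w hw e => hw (by simpa using e)
  have hWK : IsKleinFour W := by
    obtain ⟨⟨w, hw⟩, hw1⟩ := ne_bot_iff_exists_ne_one.1 hW1
    have hw1' : w ≠ 1 := fun e => hw1 (Subtype.ext e)
    have hV := isKleinFour_sup_zpowers (hW2 w hw) (hW2 _ (hdW' w hw)) (hWc _ hw _ (hdW' w hw)) hw1'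
      (hne1 w hw1') (hne w hw hw1')
    have hle : zpowers w ⊔ zpowers (d * w * d⁻¹) ≤ W :=
      sup_le (zpowers_le.2 hw) (zpowers_le.2 (hdW' w hw))
    rwa [le_antisymm hle fun x hx => hmem hV (hW2 x hx) fun a ha => hWc x hx a (hle ha)] at hV
  -- `W` lies in the centre of `Q`
  have hWQ : W ≤ centralizer (Q : Set G) := by
    have hR : IsPGroup 2 ↥(W ⊔ Q) :=
      IsPGroup.to_sup_of_normal_right (fun w => ⟨1, Subtype.ext (hW.2 w w.2)⟩) hQ2
    have : Nontrivial ↥(W ⊔ Q) := (nontrivial_iff_ne_bot _).2 fun e =>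
      hW1 (le_bot_iff.1 (e ▸ le_sup_left))
    obtain ⟨z, -, hzc, hz2⟩ := CfsgLib.PGroup.exists_mem_center_orderOf_eq hR ⊤ top_ne_bot
    have hz1 : (z : G) ≠ 1 := fun e => by
      rw [show z = 1 from Subtype.ext e, orderOf_one] at hz2; omega
    have hzz : (z : G) * z = 1 := by
      rw [← pow_two, ← hz2]; exact congrArg Subtype.val (pow_orderOf_eq_one z)
    have hc : ∀ g ∈ W ⊔ Q, g * z = z * g := fun g hg =>
      congrArg Subtype.val (mem_center_iff.1 hzc ⟨g, hg⟩)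
    have hzW : (z : G) ∈ W := hmem hWK hzz fun a ha => (hc a (mem_sup_left ha)).symm
    have hzQ : (z : G) ∈ centralizer (Q : Set G) := fun g hg => hc g (mem_sup_right hg)
    have hN : (centralizer (Q : Set G)).Normal := inferInstance
    have hzQ' := hN.conj_mem _ hzQ d
    intro w hw
    rcases (mem_iff_of_isKleinFour hWK hzW (hdW' _ hzW) hz1 (hne1 _ hz1) (hne _ hzW hz1) w).1 hw
      with rfl | rfl | rfl | rfl
    exacts [one_mem _, hzQ, hzQ', mul_mem hzQ hzQ']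
  have hall : ∀ x ∈ Q, x * x = 1 → x ∈ W := fun x hx hxx =>
    hmem hWK hxx fun a ha => hWQ ha x hx
  have hWQ' : W ≤ Q := hWQ.trans hchar
  let ρ : G →* MulAut Q := MulAut.conjNormal
  have hρ : ∀ g (u : Q), ((ρ g u : Q) : G) = g * u * g⁻¹ := fun g u => rfl
  have hV : IsKleinFour (W.subgroupOf Q) :=
    ⟨(Nat.card_congr (subgroupOfEquivOfLe hWQ').toEquiv).trans hWK.card_four,
      (Monoid.exponent_eq_of_mulEquiv (subgroupOfEquivOfLe hWQ')).trans hWK.exponent_two⟩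
  have hVc : W.subgroupOf Q ≤ center Q := fun x hx =>
    mem_center_iff.2 fun g => Subtype.ext (hWQ hx g g.2)
  have hVall : ∀ x : Q, x * x = 1 → x ∈ W.subgroupOf Q := fun x hx =>
    hall x x.2 (congrArg Subtype.val hx)
  obtain ⟨a, b, ha, hb, ha1, hb1, hab⟩ := exists_gens_of_isKleinFour hV
  have htri : Tri (ρ d) a := tri_of_four hQ2 hV hVc hVall
    (fun u hu hu1 e => hne u (hVall u hu) (fun e => hu1 (Subtype.ext e))
      (congrArg Subtype.val e).symm) (mul_self_of_isKleinFour hV ha) ha1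
  obtain ⟨k, hk⟩ := hd ⟨d, mem_zpowers d⟩
  have hk' : ρ d ^ 3 ^ k = 1 := by
    rw [← map_pow, show d ^ 3 ^ k = 1 from congrArg Subtype.val hk, map_one]
  obtain ⟨g, hg⟩ := hsix
  have hg6 : g ^ 6 = 1 := hg ▸ pow_orderOf_eq_one g
  have hc3 : ρ (g ^ 2) ^ 3 = 1 := by rw [← map_pow, ← pow_mul, hg6, map_one]
  have hc1 : ρ (g ^ 2) ≠ 1 := fun e => by
    have h1 : g ^ 2 ∈ Q := hchar fun x hx => by
      have := congrArg Subtype.val (DFunLike.congr_fun e ⟨x, hx⟩)
      exact (mul_inv_eq_iff_eq_mul.1 this).symm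
    obtain ⟨j, hj⟩ := hQ2 ⟨_, h1⟩
    have h2 : (g ^ 2) ^ 2 ^ j = 1 := congrArg Subtype.val hj
    rw [← pow_mul, ← pow_succ'] at h2
    have h3 := orderOf_dvd_of_pow_eq_one h2
    rw [hg] at h3
    have h4 : 3 ∣ 2 ^ (j + 1) := dvd_trans (by norm_num) h3
    have := Nat.prime_three.dvd_of_dvd_pow h4
    omega
  -- an automorphism of the four-group fixing one involution and of odd order is trivial
  have hinv : ∀ (φ : MulAut Q) (u : Q), u * u = 1 → φ u * φ u = 1 := fun φ u hu => by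
    rw [← map_mul, hu, map_one]
  have hcf : ∀ u : Q, u * u = 1 → u ≠ 1 → ρ (g ^ 2) u ≠ u := by
    intro u hu hu1 e
    apply hc1
    refine htri.eq_one_of_fix hk' hc3 fun x hx => ?_
    by_cases hxu : x = u
    · rw [hxu, e]
    by_cases hx1 : x = 1
    · rw [hx1, map_one]
    rcases (mem_iff_of_isKleinFour hV (hVall u hu) (hVall x hx) hu1 hx1 (Ne.symm hxu) _).1
      (hVall _ (hinv (ρ (g ^ 2)) x hx)) with h | h | h | h
    · exact absurd ((ρ (g ^ 2)).map_eq_one_iff.1 h) hx1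
    · exact absurd ((ρ (g ^ 2)).injective (h.trans e.symm)) hxu
    · exact h
    · have h3 := Tri.sss_all hc3 x
      rw [h, map_mul, e, h, ← mul_assoc, hu, one_mul] at h3
      exact h ▸ h3
  have htc : Tri (ρ (g ^ 2)) a := tri_of_four hQ2 hV hVc hVall hcf
    (mul_self_of_isKleinFour hV ha) ha1
  -- the involution `g ^ 3`
  have ht2 : g ^ 3 * g ^ 3 = 1 := by rw [← pow_add, hg6]
  have ht1 : g ^ 3 ≠ 1 := pow_ne_one_of_lt_orderOf (by norm_num) (by rw [hg]; norm_num)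
  have hcomm : ∀ u, ρ (g ^ 3) (ρ (g ^ 2) u) = ρ (g ^ 2) (ρ (g ^ 3) u) := fun u => by
    rw [← MulAut.mul_apply, ← MulAut.mul_apply, ← map_mul, ← map_mul, ← pow_add, ← pow_add]
  have htt : ∀ u, ρ (g ^ 3) (ρ (g ^ 3) u) = u := fun u => by
    rw [← MulAut.mul_apply, ← map_mul, ht2, map_one, MulAut.one_apply]
  have hfa : ρ (g ^ 3) a = a := by
    rcases htc.all _ (hinv (ρ (g ^ 3)) a htc.sq) with h | h | h | h
    · exact absurd ((ρ (g ^ 3)).map_eq_one_iff.1 h) ha1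
    · exact h
    · have h1 := htt a
      rw [h, hcomm, h, htc.ss] at h1
      exact absurd (mul_eq_left.1 h1) htc.ne_one'
    · have h1 := htt a
      rw [h, map_mul, hcomm, h, map_mul, htc.ss, mul_assoc, ← mul_assoc (ρ (g ^ 2) a),
        htc.sq', one_mul, ← mul_assoc, htc.sq, one_mul] at h1
      exact absurd h1 htc.ne
  have hfw : ∀ u : Q, u * u = 1 → ρ (g ^ 3) u = u := fun u hu => by
    rcases htc.all u hu with rfl | rfl | rfl | rfl
    · exact map_one _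
    · exact hfa
    · rw [hcomm, hfa]
    · rw [map_mul, hcomm, hfa]
  have htW : g ^ 3 ∈ W := hmem hWK ht2 fun w hw =>
    mul_inv_eq_iff_eq_mul.1
      (congrArg Subtype.val (hfw ⟨w, hWQ' hw⟩ (Subtype.ext (hW2 w hw))))
  refine hcf ⟨g ^ 3, hWQ' htW⟩ (Subtype.ext ht2) (fun e => ht1 (congrArg Subtype.val e)) ?_
  apply Subtype.ext
  rw [hρ]
  change g ^ 2 * g ^ 3 * (g ^ 2)⁻¹ = g ^ 3
  group

end Cfsg.Agent.S3739
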