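import Cfsg.Statements.S3802
import Mathlib
import Cfsg.Agent.Lib.SolvStruct.Subnormal

set_option autoImplicit false
open Cfsg

namespace Cfsg.Agent.S3802

/-- Let G be a finite group, M a maximal subgroup of G and N a subnormal subgroup of G contained in M. Then N is contained in every conjugate of M, that is, N lies in the core of M in G. -/
theorem result {G : Type*} [Group G] [Finite G] (M N : Subgroup G) (hM : IsCoatom M) (hN : N.IsSubnormal) (hNM : N ≤ M) :
    N ≤ Subgroup.normalCore M := by
  open CfsgLib.SolvStruct in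
  set S : Set (Subgroup G) := {K | K.IsSubnormal ∧ K ≤ M} with hS
  have hL : (sSup S).IsSubnormal := CfsgLib.SolvStruct.isSubnormal_sSup (fun K hK => hK.1)
  have hLM : sSup S ≤ M := sSup_le fun K hK => hK.2
  have hMN : M ≤ Subgroup.normalizer ((sSup S : Subgroup G) : Set G) :=
    CfsgLib.SolvStruct.le_normalizer_sSup fun U hU g hg =>
      ⟨hU.1.smul _, CfsgLib.SolvStruct.conj_smul_le_of_mem hU.2 hg⟩
  have hne : sSup S ≠ ⊤ := fun h => hM.1 (top_le_iff.1 (h ▸ hLM))
  have hnormal : (sSup S).Normal := by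
    rcases Subgroup.IsSubnormal.iff_eq_top_or_exists.1 hL with h | ⟨K, hK, hKs, hKn⟩
    · exact absurd h hne
    · rw [← Subgroup.normalizer_eq_top_iff]
      have hKN : K ≤ Subgroup.normalizer ((sSup S : Subgroup G) : Set G) :=
        (Subgroup.normal_subgroupOf_iff_le_normalizer hK.le).1 hKn
      apply hM.2
      refine lt_of_le_of_ne hMN fun h => hK.not_ge ?_
      exact le_sSup ⟨hKs, h ▸ hKN⟩
  exact (le_sSup (s := S) ⟨hN, hNM⟩).trans (Subgroup.normal_le_normalCore.2 hLM)

end Cfsg.Agent.S3802
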