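import Cfsg.Statements.S3803
import Cfsg.Agent.Lib.Core.Frattini
import Cfsg.Agent.Lib.Coprime.Sylow
import Cfsg.Agent.Lib.PGroup.Critical

set_option autoImplicit false
open Cfsg

namespace Cfsg.Agent.S3803

open Subgroup CfsgLib.Core
open scoped commutatorElement

theorem cent_of_max {X : Type*} [Group X] [Finite X] {M A : Subgroup X} (hM : IsPGroup 2 M)
    (hA : Odd (Nat.card A)) (hAM : A ≤ normalizer (M : Set X))
    (h : ∀ N : Subgroup X, N ≤ M → N.relIndex M = 2 → A ≤ normalizer (N : Set X)) :
    A ≤ centralizer (M : Set X) := by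
  refine CfsgLib.Coprime.le_centralizer_of_commutator_le_frattini
    (isPGroup_coprime_card (hM.to_subgroup _) (Nat.coprime_two_right.2 hA)).symm ?_
  rw [Subgroup.commutator_le]
  intro m hm a ha
  have h1 : a * m⁻¹ * a⁻¹ ∈ M := (mem_normalizer_iff.1 (hAM ha) _).1 (M.inv_mem hm)
  refine ⟨⟨m, hm⟩ * ⟨_, h1⟩, mem_frattini_iff.2 fun N hN => ?_, by
    simp [commutatorElement_def, mul_assoc]⟩
  have h2 := index_eq_of_isCoatom_of_isPGroup hM hN
  rw [mul_mem_iff_of_index_two h2]
  have h3 := mem_normalizer_iff.1 (h (N.map M.subtype) (map_subtype_le _)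
    (by rwa [CfsgLib.Coprime.relIndex_map_subtype]) ha) m⁻¹
  rw [inv_mem_iff] at h3
  have h4 : ∀ y : M, y ∈ N ↔ (y : X) ∈ N.map M.subtype := fun y =>
    (mem_map_iff_mem M.subtype_injective).symm
  rw [h4, h4]
  exact h3

theorem cent_of_cyclic {X : Type*} [Group X] [Finite X] {M A : Subgroup X} (hM : IsPGroup 2 M)
    (hA : Odd (Nat.card A)) (hAM : A ≤ normalizer (M : Set X)) [IsCyclic M] :
    A ≤ centralizer (M : Set X) := by
  refine cent_of_max hM hA hAM fun N hN _ => ?_
  have : (N.subgroupOf M).Characteristic := by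
    rw [characteristic_iff_le_comap]
    intro φ x hx
    obtain ⟨m, hm⟩ := MonoidHom.map_cyclic φ.toMonoidHom
    rw [mem_comap, hm]
    exact zpow_mem hx m
  have h1 := normalizer_le_normalizer_map_subtype_of_characteristic (N.subgroupOf M)
  rw [map_subgroupOf_eq_of_le hN] at h1
  exact hAM.trans h1

theorem exists_between {X : Type*} [Group X] [Finite X] {p : ℕ} [Fact p.Prime] {P H : Subgroup X}
    (hHP : H ≤ P) {i j : ℕ} (hi : Nat.card H = p ^ i) (hij : i ≤ j) (hj : p ^ j ∣ Nat.card P) :
    ∃ K : Subgroup X, H ≤ K ∧ K ≤ P ∧ Nat.card K = p ^ j := by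
  obtain ⟨K, hK, hHK⟩ := Sylow.exists_subgroup_card_pow_prime_le p hj (H.subgroupOf P)
    (by rwa [card_subgroupOf_of_le hHP]) hij
  refine ⟨K.map P.subtype, ?_, map_subtype_le _, by rwa [card_map_subtype]⟩
  rw [← map_subgroupOf_eq_of_le hHP]
  exact map_mono hHK

/-- Let P be a 2-subgroup and A a subgroup of odd order of a finite group, with A normalizing P. Let D ≤ P with 1 < |D| < |P|. If every subgroup of P of order |D|, and also every subgroup of P of order 4 in case |D| = 2, is normalized by A, then A centralizes P. -/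
theorem result {X : Type*} [Group X] [Finite X] (P A D : Subgroup X) (hP : IsPGroup 2 P) (hA : Odd (Nat.card A))
    (hAP : A ≤ Subgroup.normalizer (P : Set X)) (hDP : D ≤ P) (hD1 : 1 < Nat.card D) (hD2 : Nat.card D < Nat.card P)
    (hinv : ∀ E : Subgroup X, E ≤ P → (Nat.card E = Nat.card D ∨ (Nat.card D = 2 ∧ Nat.card E = 4)) → A ≤ Subgroup.normalizer (E : Set X)) :
    A ≤ Subgroup.centralizer (P : Set X) := by
  obtain ⟨n, hn⟩ := IsPGroup.iff_card.1 hP
  obtain ⟨d, hd⟩ := IsPGroup.iff_card.1 (hP.to_le hDP)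
  rw [hd] at hD1 hinv
  rw [hd, hn, Nat.pow_lt_pow_iff_right (by decide)] at hD2
  have hd0 : d ≠ 0 := by
    rintro rfl
    simp at hD1
  have key : ∀ x ∈ P, x ^ 2 ^ 2 = 1 → A ≤ centralizer ((zpowers x : Subgroup X) : Set X) := by
    intro x hx hx4
    have hxP : zpowers x ≤ P := zpowers_le_of_mem hx
    obtain ⟨i, hi2, hi⟩ := (Nat.dvd_prime_pow Nat.prime_two).1 (orderOf_dvd_of_pow_eq_one hx4)
    rw [← Nat.card_zpowers] at hi
    by_cases hid : i ≤ d
    · obtain ⟨E, hxE, hEP, hE⟩ := exists_between hxP hi hid (hn ▸ pow_dvd_pow 2 hD2.le)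
      obtain ⟨M, hEM, hMP, hM⟩ := exists_between hEP hE (Nat.le_succ d) (hn ▸ pow_dvd_pow 2 hD2)
      refine le_trans ?_ (centralizer_le hxE)
      have hmax : ∀ N : Subgroup X, N ≤ M → N.relIndex M = 2 → Nat.card N = 2 ^ d := by
        intro N hN h2
        have := card_mul_relIndex_of_le hN
        rw [h2, hM, pow_succ] at this
        omega
      by_cases hc : IsCyclic M
      · have := isCyclic_of_le hEM
        exact cent_of_cyclic (hP.to_le hEP) hA (hinv E hEP (Or.inl hE))
      · refine le_trans (cent_of_max (hP.to_le hMP) hA ?_ fun N hN h2 =>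
          hinv N (hN.trans hMP) (Or.inl (hmax N hN h2))) (centralizer_le hEM)
        have hE2 : E.relIndex M = 2 := by
          have := card_mul_relIndex_of_le hEM
          rw [hE, hM, pow_succ] at this
          exact Nat.eq_of_mul_eq_mul_left (by positivity) this
        have h1 : ¬ E.subgroupOf M ≤ frattini M := by
          intro h
          apply hc
          refine isCyclic_of_index_frattini_dvd (p := 2) ?_
          rw [← hE2]
          exact index_dvd_of_le h
        rw [le_frattini_iff] at h1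
        push Not at h1
        obtain ⟨N, hN, hEN⟩ := h1
        have h2 : (N.map M.subtype).relIndex M = 2 := by
          rw [CfsgLib.Coprime.relIndex_map_subtype]
          exact index_eq_of_isCoatom_of_isPGroup (hP.to_le hMP) hN
        have h3 : N.map M.subtype ⊔ E = M := by
          have := hN.2 (N ⊔ E.subgroupOf M) (lt_of_le_of_ne le_sup_left
            fun h => hEN (le_sup_right.trans h.ge))
          have h4 := congrArg (Subgroup.map M.subtype) this
          rwa [Subgroup.map_sup, map_subgroupOf_eq_of_le hEM, ← MonoidHom.range_eq_map,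
            range_subtype] at h4
        rw [← h3]
        exact CfsgLib.Coprime.le_normalizer_sup
          (hinv _ ((map_subtype_le _).trans hMP) (Or.inl (hmax _ (map_subtype_le _) h2)))
          (hinv E hEP (Or.inl hE))
    · obtain rfl : d = 1 := by omega
      obtain rfl : i = 2 := by omega
      exact cent_of_cyclic (hP.to_le hxP) hA (hinv _ hxP (Or.inr ⟨rfl, hi⟩))
  intro a ha x hx
  have h1 := CfsgLib.PGroup.aut_apply_eq_of_fix_pow_eq_one (p := 2) (n := 2) (by decide) (by decide)
    (a := MulAut.conj a) (Nat.Coprime.coprime_dvd_left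
      ((orderOf_map_dvd MulAut.conj a).trans (A.orderOf_dvd_natCard ha))
      (Nat.coprime_two_right.2 hA)) hP (fun y hy => (mem_normalizer_iff.1 (hAP ha) y).1 hy)
    (fun y hy hy4 => by
      rw [MulAut.conj_apply, ← key y hy hy4 ha y (mem_zpowers y), mul_inv_cancel_right]) x hx
  rw [MulAut.conj_apply, mul_inv_eq_iff_eq_mul] at h1
  exact h1.symm

end Cfsg.Agent.S3803
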