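import Cfsg.Statements.S3815
import Mathlib

set_option autoImplicit false
open Cfsg

namespace Cfsg.Agent.S3815

/-- Let G be a finite group, p a prime and d ∈ G an element of order prime to p. If dg has order prime to p for every element g ∈ G of order prime to p, then d ∈ O_{p'}(G). -/
theorem result {G : Type*} [Group G] [Finite G] {p : ℕ} [Fact p.Prime]
    (d : G) (hd : (orderOf d).Coprime p)
    (h : ∀ g : G, (orderOf g).Coprime p → (orderOf (d * g)).Coprime p) :
    d ∈ Cfsg.pPrimeCore p G := by
  let D0 : Submonoid G :=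
    { carrier := {d | ∀ g : G, (orderOf g).Coprime p → (orderOf (d * g)).Coprime p}
      one_mem' := by intro g hg; simpa using hg
      mul_mem' := by
        intro a b ha hb g hg
        rw [mul_assoc]
        exact ha _ (hb g hg) }
  let D : Subgroup G :=
    { D0 with
      inv_mem' := by
        intro a ha
        have h1 : a⁻¹ = a ^ (orderOf a - 1) := by
          have hpos : 0 < orderOf a := orderOf_pos a
          rw [inv_eq_iff_mul_eq_one, ← pow_succ', Nat.sub_add_cancel hpos, pow_orderOf_eq_one]
        show a⁻¹ ∈ D0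
        rw [h1]
        exact D0.pow_mem ha _ }
  have hDn : D.Normal := by
    refine ⟨fun a ha x g hg => ?_⟩
    have e1 : x * a * x⁻¹ * g = x * (a * (x⁻¹ * g * x)) * x⁻¹ := by group
    have e2 : ∀ y z : G, orderOf (z * y * z⁻¹) = orderOf y := fun y z =>
      (MulAut.conj z).orderOf_eq y
    rw [e1, e2]
    apply ha
    have := e2 g x⁻¹
    rw [inv_inv] at this
    rwa [this]
  have hDc : (Nat.card D).Coprime p := by
    rw [Nat.coprime_comm, Nat.Prime.coprime_iff_not_dvd Fact.out]
    intro hdvd
    obtain ⟨x, hx⟩ := exists_prime_orderOf_dvd_card' p hdvd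
    have h1 := x.2 1 (by simp)
    rw [mul_one, Subgroup.orderOf_coe, hx] at h1
    exact (Fact.out : p.Prime).one_lt.ne' (Nat.coprime_self p |>.1 h1)
  exact (le_sSup (s := {N : Subgroup G | N.Normal ∧ (Nat.card N).Coprime p}) ⟨hDn, hDc⟩ : D ≤ _) h

end Cfsg.Agent.S3815
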