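import Cfsg.Statements.S3817
import Cfsg.Agent.Lib.F2C.Abl
import Cfsg.Agent.Lib.F2C.Odd
import Cfsg.Agent.Lib.F2C.Two
import Cfsg.Agent.Lib.F2C.OneA
import Cfsg.Agent.Lib.F2C.One
import Cfsg.Agent.Lib.F2C.Rk1

set_option autoImplicit false
open Cfsg

namespace Cfsg.Agent.S3817

open Subgroup CfsgLib CfsgLib.F2C

universe u

theorem hq {G : Type u} [Group G] [Finite G] {p : ℕ} [Fact p.Prime] {x : G} (h : Hyp p x) :
    HQ p x := by
  by_cases hp : p = 2
  · subst hp
    exact h.even
  · exact h.odd hp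

theorem hyp_false {G : Type u} [Group G] [Finite G] {p : ℕ} [Fact p.Prime] {x : G} (h : Hyp p x) :
    False := by
  by_cases h1 : ∀ b, b * x = x * b → b ^ p = 1 → b ∈ zpowers x
  · exact h.rk1 (fun _ hy => hq hy) h1
  · push Not at h1
    obtain ⟨b, hb, h1, h2⟩ := h1
    obtain ⟨H, hH, hx, hall⟩ := h.all_in (hq h) hb h1 h2
    exact h.one hH hx hall

theorem isPGroup_zpowers_map {G L : Type u} [Group G] [Group L] {p : ℕ} {x : G}
    (h : IsPGroup p (zpowers x)) (f : G →* L) : IsPGroup p (zpowers (f x)) := by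
  rw [← MonoidHom.map_zpowers]
  exact h.map f

theorem isPGroup_zpowers_sub {G : Type u} [Group G] {p : ℕ} {x : G} {H : Subgroup G} (hx : x ∈ H)
    (h : IsPGroup p (zpowers x)) : IsPGroup p (zpowers (⟨x, hx⟩ : H)) := by
  refine (h.comap_of_injective H.subtype H.subtype_injective).to_le (zpowers_le.2 ?_)
  exact mem_zpowers x

theorem main (p : ℕ) [Fact p.Prime] (m : ℕ) : ∀ (G : Type u) [Group G] [Finite G], Nat.card G = m →
    ∀ x : G, IsPGroup p (zpowers x) → Star x → x ∈ F2 G := by
  induction m using Nat.strong_induction_on with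
  | _ m ih =>
  intro G _ _ hm x hx hs
  have key : ∀ y : G, IsPGroup p (zpowers y) → Star y → ∀ H : Subgroup G, H ≠ ⊤ → y ∈ H → In y H := by
    intro y hy hsy H hH hyH
    refine ⟨hyH, ih (Nat.card H) ?_ H rfl _ (isPGroup_zpowers_sub hyH hy) (hsy.sub hyH)⟩
    rw [← hm]
    obtain ⟨g, hg⟩ := not_forall.1 (fun h => hH ((eq_top_iff' H).2 h))
    exact Finite.card_subtype_lt (p := fun g => g ∈ H) hg
  by_cases h2 : ∃ y, closure {x, y} = ⊤
  · obtain ⟨y, hy⟩ := h2
    have := hs y
    rw [hy] at this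
    exact in_top.1 this
  push Not at h2
  haveI := Core.fittingSubgroup_normal G
  by_cases hF : fittingSubgroup G = ⊥
  · by_contra hne
    have hx1 : zpowers x ≠ ⊥ := by
      intro h
      apply hne
      rw [zpowers_eq_bot.1 h]
      exact one_mem _
    obtain ⟨y, hy, ho⟩ := Core.exists_mem_orderOf_eq_of_isPGroup hx hx1
    obtain ⟨k, rfl⟩ := mem_powers_iff_mem_zpowers.2 hy
    have hy' : IsPGroup p (zpowers (x ^ k)) := hx.to_le (zpowers_le.2 hy)
    have hsy : Star (x ^ k) := hs.pow k
    have hne' : x ^ k ∉ F2 G := by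
      rw [F2_eq_bot hF, mem_bot]
      intro h
      simp only [h, orderOf_one] at ho
      exact (Fact.out : p.Prime).one_lt.ne ho
    refine hyp_false (p := p) (x := x ^ k) ⟨ho, ?_, ?_, ?_, ?_⟩
    · intro q hq I hI h0 hN
      haveI := Fact.mk hq
      haveI : I.Normal := normalizer_eq_top_iff.1 hN
      apply h0
      rw [eq_bot_iff, ← hF]
      exact Core.le_fittingSubgroup hI.isNilpotent
    · intro N hN hn
      by_contra hN'
      exact hne' ((key _ hy' hsy N hN' hN).normal (normalizer_eq_top_iff.1 hn))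
    · intro y hy
      have := hsy y
      rw [hy] at this
      exact hne' (in_top.1 this)
    · intro H hH hxH
      exact (key _ hy' hsy H hH hxH).gd hy'
  · haveI := Core.isSolvable_fittingSubgroup G
    obtain ⟨r, V, hr, hV, h0, -, hel, hmin⟩ := Core.exists_elementaryAbelian_minimal_normal_le hF
    refine abl (p := p) hr (Core.isElementaryAbelian_isPGroup hel) ?_ (fun W h1 h2 => hmin W h2 h1) hx
      (ih (Nat.card (G ⧸ V)) ?_ _ rfl _ (isPGroup_zpowers_map hx _)
        (hs.map _ (QuotientGroup.mk'_surjective V))) (key x hx hs) h2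
    · intro a ha b hb
      haveI := hel.1
      exact congrArg Subtype.val (mul_comm' (⟨a, ha⟩ : V) ⟨b, hb⟩)
    · rw [← hm, card_eq_card_quotient_mul_card_subgroup V]
      exact lt_mul_of_one_lt_right Nat.card_pos ((one_lt_card_iff_ne_bot V).2 h0)

/-- Let G be a finite group and write F₂(X) for the second term of the upper Fitting chain of a finite group X: the preimage in X of the Fitting subgroup of X/F(X). Then an element x of G lies in F₂(G) if and only if x lies in F₂(⟨x, y⟩) for every y ∈ G. -/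
theorem result {G : Type*} [Group G] [Finite G]
    [hF : (Cfsg.fittingSubgroup G).Normal]
    (hK : ∀ K : Subgroup G, (Cfsg.fittingSubgroup ↥K).Normal) (x : G) :
    x ∈ (Cfsg.fittingSubgroup (G ⧸ Cfsg.fittingSubgroup G)).comap (QuotientGroup.mk' (Cfsg.fittingSubgroup G)) ↔
      ∀ y : G, ∀ hx : x ∈ Subgroup.closure ({x, y} : Set G),
        haveI := hK (Subgroup.closure ({x, y} : Set G));
        (⟨x, hx⟩ : ↥(Subgroup.closure ({x, y} : Set G))) ∈
          (Cfsg.fittingSubgroup (↥(Subgroup.closure ({x, y} : Set G)) ⧸ Cfsg.fittingSubgroup ↥(Subgroup.closure ({x, y} : Set G)))).comap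
            (QuotientGroup.mk' (Cfsg.fittingSubgroup ↥(Subgroup.closure ({x, y} : Set G)))) := by
  constructor
  · intro h y hx
    have h1 : In x ⊤ := in_top.2 h
    obtain ⟨_, h2⟩ := h1.mono hx le_top
    exact h2
  · intro h
    have hs : Star x := fun y => ⟨subset_closure (by simp), h y _⟩
    show x ∈ F2 G
    refine mem_of_primary fun q hq k hk => ?_
    haveI := Fact.mk hq
    exact main q _ G rfl _ hk (hs.pow k)

end Cfsg.Agent.S3817
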