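import Cfsg.Statements.S3818
import Cfsg.Agent.Lib.FlavD.Dim
import Cfsg.Agent.Lib.Perm.PermModule

set_option autoImplicit false
open Cfsg

namespace Cfsg.Agent.S3818

/-- Let G be a finite solvable group and P a subgroup of G of prime order p > 3 whose conjugates generate G. Let V be a faithful irreducible representation of G over a field of positive characteristic, finite-dimensional. Then the subspace of V fixed by P has dimension less than half the dimension of V. -/
theorem result {G : Type*} [Group G] [Finite G] [Group.IsSolvable G]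
    {p : ℕ} [Fact p.Prime] (hp : 3 < p) (P : Subgroup G) (hP : Nat.card P = p) (hgen : Subgroup.normalClosure (P : Set G) = ⊤)
    {k : Type*} [Field k] (ℓ : ℕ) [Fact ℓ.Prime] [CharP k ℓ]
    {V : Type*} [AddCommGroup V] [Module k V] [FiniteDimensional k V]
    (ρ : Representation k G V) [ρ.IsIrreducible] (hfaith : Function.Injective ρ) :
    2 * Module.finrank k ↥(⨅ g : ↥P, LinearMap.ker (ρ (g : G) - LinearMap.id)) < Module.finrank k V := by
  have hp' : p.Prime := Fact.out
  obtain ⟨x, rfl, hx⟩ := CfsgLib.HH.exists_zpowers_eq_of_prime_card hp' hP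
  have hirr : ∀ U : Submodule k V, (∀ g, ∀ v ∈ U, ρ g v ∈ U) → U = ⊥ ∨ U = ⊤ := fun U hU =>
    (eq_bot_or_eq_top (⟨U, hU⟩ : Subrepresentation ρ)).imp
      (fun e => congrArg Subrepresentation.toSubmodule e)
      (fun e => congrArg Subrepresentation.toSubmodule e)
  haveI : Nontrivial V := by
    by_contra h
    rw [not_nontrivial_iff_subsingleton] at h
    exact (bot_ne_top (α := Subrepresentation ρ))
      (Subrepresentation.toSubmodule_injective (Subsingleton.elim _ _))
  haveI : Nontrivial G := ⟨x, 1, fun e => by rw [e, orderOf_one] at hx; omega⟩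
  obtain ⟨r, N, hr, hN, h0, hE, -⟩ := CfsgLib.Core.exists_elementaryAbelian_minimal_normal G
  haveI : Fact r.Prime := ⟨hr⟩
  have h1 : CfsgLib.HH.fixSp ρ N = ⊥ := by
    refine (hirr _ fun g v hv => CfsgLib.HH.apply_mem_fixSp
      (Subgroup.le_normalizer_of_normal (Subgroup.mem_top g)) hv).resolve_right fun e => h0 ?_
    refine eq_bot_iff.2 fun g hg => hfaith (LinearMap.ext fun v => ?_)
    rw [map_one]
    exact CfsgLib.HH.mem_fixSp.1 (e.ge Submodule.mem_top) g hg
  have hNr := CfsgLib.PLocal.elemAb_isPGroup hE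
  have h2 : r ≠ ℓ := by
    rintro rfl
    obtain ⟨v, -, hv, hv'⟩ := CfsgLib.Perm.exists_fixed_of_isPGroup hNr (ρ.comp N.subtype) ⊤
      (fun _ _ _ => Submodule.mem_top) top_ne_bot
    exact hv (h1.le (CfsgLib.HH.mem_fixSp.2 fun g hg => hv' ⟨g, hg⟩))
  obtain ⟨a, ha⟩ := hNr.exists_card_eq
  have h3 := CfsgLib.FlavD.half ρ hp' (by
    have : p ≠ 4 := by rintro rfl; norm_num at hp'
    omega) hx (top_le_iff.1 (hgen.ge.trans (Subgroup.normalClosure_le_normal
      (Subgroup.zpowers_le.2 (Subgroup.subset_normalClosure (Set.mem_singleton x)))))) N (by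
    rw [ha, Nat.cast_pow]
    exact pow_ne_zero _ fun e => h2 ((Nat.prime_dvd_prime_iff_eq Fact.out hr).1
      ((CharP.cast_eq_zero_iff k ℓ r).1 e)).symm) h1
  have h4 : (⨅ g : ↥(Subgroup.zpowers x), LinearMap.ker (ρ (g : G) - LinearMap.id)) =
      LinearMap.ker (ρ x - 1) := by
    rw [← CfsgLib.FlavD.fixSp_zpowers]
    ext v
    simp only [CfsgLib.HH.mem_fixSp, Submodule.mem_iInf, LinearMap.mem_ker, LinearMap.sub_apply,
      sub_eq_zero, Subtype.forall, LinearMap.id_apply]
  rwa [h4]

end Cfsg.Agent.S3818
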