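import Cfsg.Statements.S3819
import Cfsg.Agent.Lib.Core.Fitting
import Cfsg.Agent.Lib.Core.Commutator
import Cfsg.Agent.Lib.Coprime.Action
import Cfsg.Agent.Lib.PLocal.Constrained

set_option autoImplicit false
open Cfsg

namespace Cfsg.Agent.S3819

open Subgroup CfsgLib.Core

/-- In a `q`-solvable subgroup `Y`, a `q'`-subgroup normal in the centralizer of a `q`-element lies
in `O_{q'}(Y)`. -/
theorem le_core {G : Type*} [Group G] [Finite G] {q : ℕ} [Fact q.Prime] {Y X : Subgroup G}
    (hY : Cfsg.IsPSolvable q Y) {z : G} (hzY : z ∈ Y) (hz : ∃ k : ℕ, z ^ q ^ k = 1)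
    (hXY : X ≤ Y ⊓ centralizer {z}) (hn : Y ⊓ centralizer {z} ≤ normalizer (X : Set G))
    (hX : (Nat.card X).Coprime q) : X ≤ (Cfsg.pPrimeCore q Y).map Y.subtype := by
  have hP : IsPGroup q (zpowers (⟨z, hzY⟩ : Y)) := by
    obtain ⟨k, hk⟩ := hz
    exact isPGroup_zpowers_iff.2 ⟨k, Subtype.ext hk⟩
  have h1 := (CfsgLib.PLocal.Constr.centralizer_of_isPConstrained
    (CfsgLib.PLocal.Constr.isPConstrained_of_isPSolvable hY) hP).2
  have hC : ∀ y : Y, y ∈ centralizer ((zpowers (⟨z, hzY⟩ : Y) : Subgroup Y) : Set Y) ↔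
      (y : G) ∈ centralizer {z} := by
    intro y
    rw [centralizer_zpowers, mem_centralizer_singleton_iff, mem_centralizer_singleton_iff,
      Subtype.ext_iff]
    rfl
  have h2 : X.subgroupOf Y ≤ Cfsg.pPrimeCore q Y := by
    refine le_trans (le_map_pPrimeCore (fun y hy => (hC y).2 (hXY hy).2) (fun y hy => ?_) ?_)
      (h1.le.trans inf_le_left)
    · rw [mem_normalizer_iff]
      intro x
      exact mem_normalizer_iff.1 (hn ⟨y.2, (hC y).1 hy⟩) x
    · rwa [card_subgroupOf_of_le (hXY.trans inf_le_left)]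
  intro x hx
  exact ⟨⟨x, (hXY hx).1⟩, h2 hx, rfl⟩

/-- Let G be a finite group with Sylow p-subgroup P and H = O_{p'}(G), and suppose G = PH and the commutator subgroup [H, P] is solvable. Let q be a prime and z an element of q-power order of C_H(P). Then (O_{q'}(C_H(z)) ∩ O_{q'}(C_H(P))) · [O_{q'}(C_H(z)), P] ≤ O_{q'}(H). -/
theorem result {G : Type*} [Group G] [Finite G] {p : ℕ} [Fact p.Prime]
    (P : Sylow p G) (hPH : Cfsg.pPrimeCore p G ⊔ (P : Subgroup G) = ⊤)
    (hsol : Group.IsSolvable ↥⁅Cfsg.pPrimeCore p G, (P : Subgroup G)⁆)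
    {q : ℕ} [Fact q.Prime] (z : G) (hzH : z ∈ Cfsg.pPrimeCore p G) (hzP : z ∈ Subgroup.centralizer ((P : Subgroup G) : Set G))
    (hz : ∃ k : ℕ, orderOf z = q ^ k) :
    ((Cfsg.pPrimeCore q ↥(Cfsg.pPrimeCore p G ⊓ Subgroup.centralizer ({z} : Set G))).map
        (Cfsg.pPrimeCore p G ⊓ Subgroup.centralizer ({z} : Set G)).subtype ⊓
      (Cfsg.pPrimeCore q ↥(Cfsg.pPrimeCore p G ⊓ Subgroup.centralizer ((P : Subgroup G) : Set G))).map
        (Cfsg.pPrimeCore p G ⊓ Subgroup.centralizer ((P : Subgroup G) : Set G)).subtype) ⊔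
    ⁅(Cfsg.pPrimeCore q ↥(Cfsg.pPrimeCore p G ⊓ Subgroup.centralizer ({z} : Set G))).map
        (Cfsg.pPrimeCore p G ⊓ Subgroup.centralizer ({z} : Set G)).subtype, (P : Subgroup G)⁆ ≤
    (Cfsg.pPrimeCore q ↥(Cfsg.pPrimeCore p G)).map (Cfsg.pPrimeCore p G).subtype := by
  set H := Cfsg.pPrimeCore p G with hH
  set D := (Cfsg.pPrimeCore q ↥(H ⊓ centralizer ({z} : Set G))).map
    (H ⊓ centralizer ({z} : Set G)).subtype with hD
  set R := (Cfsg.pPrimeCore q ↥(H ⊓ centralizer ((P : Subgroup G) : Set G))).map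
    (H ⊓ centralizer ((P : Subgroup G) : Set G)).subtype with hR
  set K := ⁅H, (P : Subgroup G)⁆ with hK
  have hPH' : (P : Subgroup G) ≤ normalizer (H : Set G) := le_normalizer_of_normal
  have hKH : K ≤ H := CfsgLib.Coprime.commutator_le_of_le_normalizer hPH'
  have hHK : H ≤ normalizer (K : Set G) := normalizer_commutator_ge_left _ _
  have hRC : R ≤ H ⊓ centralizer ((P : Subgroup G) : Set G) := map_subtype_le _
  have hCR : H ⊓ centralizer ((P : Subgroup G) : Set G) ≤ normalizer (R : Set G) :=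
    le_normalizer.trans (normalizer_le_normalizer_map_pPrimeCore _)
  have hDC : D ≤ H ⊓ centralizer {z} := map_subtype_le _
  have hND : normalizer ((H ⊓ centralizer {z} : Subgroup G) : Set G) ≤ normalizer (D : Set G) :=
    normalizer_le_normalizer_map_pPrimeCore _
  have hdec : K ⊔ (H ⊓ centralizer ((P : Subgroup G) : Set G)) = H :=
    CfsgLib.Coprime.commutator_sup_centralizer hPH'
      (isPGroup_coprime_card P.isPGroup' (coprime_card_pPrimeCore p G))
      (Or.inl (CfsgLib.Coprime.isSolvable_of_isPGroup P.isPGroup'))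
  set L := K ⊔ R with hL
  have hLH : L ≤ H := sup_le hKH (hRC.trans inf_le_left)
  have hHL : H ≤ normalizer (L : Set G) := by
    rw [← hdec]
    exact sup_le (le_sup_left.trans le_normalizer)
      (CfsgLib.Coprime.le_normalizer_sup (inf_le_left.trans hHK) hCR)
  set Y := L ⊔ zpowers z with hY
  have hYH : Y ≤ H := sup_le hLH (zpowers_le_of_mem hzH)
  obtain ⟨k, hk⟩ := hz
  have hzq : IsPGroup q (zpowers z) := isPGroup_zpowers_iff.2 ⟨k, by rw [← hk, pow_orderOf_eq_one]⟩
  have hzL : zpowers z ≤ normalizer (L : Set G) := (zpowers_le_of_mem hzH).trans hHL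
  have hLs : Cfsg.IsPSolvable q L := by
    have : (K.subgroupOf L).Normal :=
      (normal_subgroupOf_iff_le_normalizer le_sup_left).2 (hLH.trans hHK)
    refine CfsgLib.PLocal.PSolv.of_normal_of_quotient (K.subgroupOf L) ?_ ?_
    · have := isSolvable_of_mulEquiv (subgroupOfEquivOfLe (le_sup_left : K ≤ L)).symm
      exact CfsgLib.PLocal.PSolv.of_isSolvable
    · apply CfsgLib.PLocal.PSolv.of_coprime
      exact Nat.Coprime.coprime_dvd_left (CfsgLib.Coprime.relIndex_dvd_of_le_sup
        ((hRC.trans inf_le_left).trans hHK) le_rfl) (coprime_card_map_pPrimeCore _)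
  have hidx : L.relIndex Y ∣ q ^ k := by
    rw [← hk, ← Nat.card_zpowers]
    exact CfsgLib.Coprime.relIndex_dvd_of_le_sup hzL le_rfl
  have hYs : Cfsg.IsPSolvable q Y := by
    have : (L.subgroupOf Y).Normal :=
      (normal_subgroupOf_iff_le_normalizer le_sup_left).2 (hYH.trans hHL)
    refine CfsgLib.PLocal.PSolv.of_normal_of_quotient (L.subgroupOf Y) ?_ ?_
    · exact CfsgLib.PLocal.PSolv.of_equiv hLs (subgroupOfEquivOfLe (le_sup_left : L ≤ Y)).symm
    · apply CfsgLib.PLocal.PSolv.of_card_good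
      obtain ⟨j, -, hj⟩ := (Nat.dvd_prime_pow Fact.out).1 hidx
      exact Or.inl ⟨j, hj⟩
  have hmain : D ⊓ L ≤ (Cfsg.pPrimeCore q H).map H.subtype := by
    have h1 : D ⊓ L ≤ (Cfsg.pPrimeCore q Y).map Y.subtype := by
      refine le_core hYs (mem_sup_right (mem_zpowers z)) ⟨k, by rw [← hk, pow_orderOf_eq_one]⟩
        (le_inf (inf_le_right.trans le_sup_left) (inf_le_left.trans (hDC.trans inf_le_right)))
        (CfsgLib.Coprime.le_normalizer_inf ?_ (inf_le_left.trans (hYH.trans hHL))) ?_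
      · exact ((inf_le_inf_right _ hYH).trans le_normalizer).trans hND
      · exact Nat.Coprime.coprime_dvd_left (card_dvd_of_le inf_le_left)
          (coprime_card_map_pPrimeCore _)
    exact ((le_inf h1 inf_le_right).trans (map_pPrimeCore_inf_le le_sup_left)).trans
      (map_pPrimeCore_le_map_pPrimeCore hLH hHL)
  refine le_trans (sup_le (inf_le_inf_left _ le_sup_right) (le_inf ?_ ?_)) hmain
  · apply CfsgLib.Coprime.commutator_le_of_le_normalizer
    refine le_trans (CfsgLib.Coprime.le_normalizer_inf hPH' ?_) hND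
    refine le_trans ?_ le_normalizer
    intro x hx
    rw [mem_centralizer_singleton_iff]
    exact hzP x hx
  · exact (commutator_mono (hDC.trans inf_le_left) le_rfl).trans le_sup_left

end Cfsg.Agent.S3819
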