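import Cfsg.Statements.S3821
import Mathlib

set_option autoImplicit false
open Cfsg

namespace Cfsg.Agent.S3821

theorem map_conj_mul {G : Type*} [Group G] (H : Subgroup G) (a b : G) :
    H.map (MulAut.conj (a * b)).toMonoidHom =
      (H.map (MulAut.conj b).toMonoidHom).map (MulAut.conj a).toMonoidHom := by
  rw [Subgroup.map_map]; congr 1; ext x; simp [mul_assoc]

theorem map_sub {G : Type*} [Group G] (A H : Subgroup G) (hHA : H ≤ A) (a : A) :
    ((H.subgroupOf A).map (MulAut.conj a).toMonoidHom).map A.subtype =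
      H.map (MulAut.conj (a : G)).toMonoidHom := by
  ext y
  constructor
  · rintro ⟨_, ⟨x, hx, rfl⟩, rfl⟩
    exact ⟨x, hx, by simp⟩
  · rintro ⟨x, hx, rfl⟩
    exact ⟨_, ⟨⟨x, hHA hx⟩, hx, rfl⟩, by simp⟩

/-- Let A be a normal subgroup of the finite group G and H a subgroup of A. Then H is pronormal in G (H and gHg⁻¹ conjugate inside ⟨H, gHg⁻¹⟩ for every g ∈ G) if and only if H is pronormal in A and G = A · N_G(H). -/
theorem result {G : Type*} [Group G] [Finite G] (A H : Subgroup G) [A.Normal] (hHA : H ≤ A) :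
    Cfsg.IsPronormal H ↔ (Cfsg.IsPronormal (H.subgroupOf A) ∧ A ⊔ Subgroup.normalizer (H : Set G) = ⊤) := by
  have hinj : Function.Injective (Subgroup.map A.subtype) :=
    Subgroup.map_injective A.subtype_injective
  have hconjA : ∀ g : G, H.map (MulAut.conj g).toMonoidHom ≤ A := by
    rintro g _ ⟨x, hx, rfl⟩
    exact Subgroup.Normal.conj_mem inferInstance x (hHA hx) g
  constructor
  · intro h
    refine ⟨fun a => ?_, ?_⟩
    · obtain ⟨x, hx, hxe⟩ := h a
      have hxA : x ∈ A := (sup_le hHA (hconjA a)) hx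
      refine ⟨⟨x, hxA⟩, ?_, ?_⟩
      · have : x ∈ (H.subgroupOf A ⊔ (H.subgroupOf A).map (MulAut.conj a).toMonoidHom).map A.subtype := by
          rw [Subgroup.map_sup, map_sub A H hHA, Subgroup.subgroupOf_map_subtype, inf_eq_left.2 hHA]
          exact hx
        obtain ⟨y, hy, rfl⟩ := this
        exact hy
      · apply hinj
        rw [map_sub A H hHA, map_sub A H hHA]
        exact hxe
    · rw [eq_top_iff]
      intro g _
      obtain ⟨x, hx, hxe⟩ := h g
      have hxA : x ∈ A := (sup_le hHA (hconjA g)) hx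
      have hn : x⁻¹ * g ∈ Subgroup.normalizer (H : Set G) := by
        rw [Subgroup.mem_normalizer_iff_map_conj_eq]
        have := map_conj_mul H x⁻¹ g
        have h2 := map_conj_mul H x⁻¹ x
        rw [← hxe, ← this] at h2
        rw [inv_mul_cancel] at h2
        have h3 : H.map (MulAut.conj (1:G)).toMonoidHom = H := by
          ext y; simp
        rw [h3] at h2
        exact h2.symm
      have : g = x * (x⁻¹ * g) := by group
      rw [this]
      exact Subgroup.mul_mem_sup hxA hn
  · rintro ⟨h1, h2⟩ g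
    have hg : g ∈ A ⊔ Subgroup.normalizer (H : Set G) := h2 ▸ Subgroup.mem_top g
    rw [← SetLike.mem_coe, Subgroup.normal_mul] at hg
    obtain ⟨a, ha, n, hn, rfl⟩ := hg
    have hn' : H.map (MulAut.conj n).toMonoidHom = H :=
      Subgroup.mem_normalizer_iff_map_conj_eq.1 hn
    simp only
    rw [map_conj_mul, hn']
    obtain ⟨x, hx, hxe⟩ := h1 ⟨a, ha⟩
    refine ⟨x, ?_, ?_⟩
    · have := Subgroup.mem_map_of_mem A.subtype hx
      rw [Subgroup.map_sup, map_sub A H hHA, Subgroup.subgroupOf_map_subtype, inf_eq_left.2 hHA] at this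
      exact this
    · have := congrArg (Subgroup.map A.subtype) hxe
      rw [map_sub A H hHA, map_sub A H hHA] at this
      exact this

end Cfsg.Agent.S3821
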