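import Cfsg.Statements.S3822
import Cfsg.Agent.Lib.FlavD.Max

set_option autoImplicit false
open Cfsg

namespace Cfsg.Agent.S3822

/-- Let G be a finite group and P a subgroup of prime order p > 3. Consider the solvable subgroups A of G of the form A = ⟨P, aPa⁻¹⟩ for some a ∈ A, and let A be maximal under inclusion among them. Then for every nilpotent subgroup V of G normalized by A, the subgroup F(A)V generated by the Fitting subgroup of A and V is nilpotent. -/
theorem result {G : Type*} [Group G] [Finite G]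
    {p : ℕ} [Fact p.Prime] (hp : 3 < p) (P : Subgroup G) (hP : Nat.card P = p) (A : Subgroup G)
    (hA : Group.IsSolvable ↥A ∧ ∃ a ∈ A, A = P ⊔ P.map (MulAut.conj a).toMonoidHom)
    (hmax : ∀ B : Subgroup G, A ≤ B → Group.IsSolvable ↥B → (∃ b ∈ B, B = P ⊔ P.map (MulAut.conj b).toMonoidHom) → B = A)
    (V : Subgroup G) (hV : Group.IsNilpotent ↥V) (hAV : A ≤ Subgroup.normalizer (V : Set G)) :
    Group.IsNilpotent ↥((Cfsg.fittingSubgroup ↥A).map A.subtype ⊔ V) := by
  have hp' : p.Prime := Fact.out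
  obtain ⟨x, rfl, hx⟩ := CfsgLib.HH.exists_zpowers_eq_of_prime_card hp' hP
  have hg : ∀ b, Subgroup.zpowers x ⊔ (Subgroup.zpowers x).map (MulAut.conj b).toMonoidHom =
      CfsgLib.FlavD.gen x b := fun b => by
    rw [MonoidHom.map_zpowers]; rfl
  simp only [hg] at hA hmax
  obtain ⟨hs, a, ha, rfl⟩ := hA
  have h5 : 5 ≤ p := by
    have : p ≠ 4 := by rintro rfl; norm_num at hp'
    omega
  set A := CfsgLib.FlavD.gen x a
  set F := (Cfsg.fittingSubgroup ↥A).map A.subtype with hF
  have hFA : F ≤ A := Subgroup.map_subtype_le _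
  have e1 : F = ⨆ q : Nat.Primes, pCoreOf q A := by
    rw [hF, CfsgLib.Core.fittingSubgroup_eq_iSup_pCore, Subgroup.map_iSup]; rfl
  have e2 : V = ⨆ q : Nat.Primes, pCoreOf q V := by
    have := congrArg (Subgroup.map V.subtype) (CfsgLib.Core.iSup_pCore_eq_top_of_isNilpotent (G := V))
    rw [Subgroup.map_iSup, ← MonoidHom.range_eq_map, Subgroup.range_subtype] at this
    exact this.symm
  have h1 : F ⊔ V ≤ (Cfsg.fittingSubgroup ↥(F ⊔ V)).map (F ⊔ V).subtype := by
    refine sup_le (e1.le.trans (iSup_le fun q => ?_)) (CfsgLib.Core.le_map_fittingSubgroup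
      le_sup_right (sup_le (hFA.trans hAV) Subgroup.le_normalizer) hV)
    haveI : Fact (q : ℕ).Prime := ⟨q.2⟩
    have hq := CfsgLib.LAE.isPGroup_sup (CfsgLib.LAE.isPGroup_pCoreOf (p := q) A)
      (CfsgLib.LAE.isPGroup_pCoreOf (p := q) V)
      (CfsgLib.LAE.le_normalizer_pCoreOf_of_le ((CfsgLib.LAE.pCoreOf_le A).trans hAV))
    refine le_sup_left.trans (CfsgLib.Core.le_map_fittingSubgroup
      (sup_le_sup ((le_iSup (fun q : Nat.Primes => pCoreOf q A) q).trans e1.ge)
        (CfsgLib.LAE.pCoreOf_le V)) (sup_le (hFA.trans (CfsgLib.LAE.le_normalizer_sup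
          (CfsgLib.LAE.le_normalizer_pCoreOf A) (CfsgLib.LAE.le_normalizer_pCoreOf_of_le hAV)))
          (e2.le.trans (iSup_le fun r => ?_))) hq.isNilpotent)
    by_cases e : q = r
    · subst e
      exact le_sup_right.trans Subgroup.le_normalizer
    haveI : Fact (r : ℕ).Prime := ⟨r.2⟩
    refine CfsgLib.LAE.le_normalizer_sup (le_trans ?_ (Subgroup.centralizer_le_normalizer _))
      ((CfsgLib.LAE.pCoreOf_le V).trans (CfsgLib.LAE.le_normalizer_pCoreOf V))
    exact CfsgLib.FlavD.le_centralizer hp' h5 (hx ▸ pow_orderOf_eq_one x) ha hs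
      (fun b h1 h2 h3 => hmax _ h1 h3 ⟨b, h2, rfl⟩) (CfsgLib.LAE.isPGroup_pCoreOf A)
      (fun e' => e (Subtype.ext e')) (CfsgLib.LAE.pCoreOf_le A) (CfsgLib.LAE.le_normalizer_pCoreOf A)
      (CfsgLib.LAE.isPGroup_pCoreOf V) (CfsgLib.LAE.le_normalizer_pCoreOf_of_le hAV)
  rw [← le_antisymm (Subgroup.map_subtype_le _) h1]
  exact CfsgLib.Core.isNilpotent_map_fittingSubgroup _

end Cfsg.Agent.S3822
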