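import Cfsg.Statements.S3825
import Mathlib
import Cfsg.Agent.Lib.Core.Basic

set_option autoImplicit false
open Cfsg

namespace Cfsg.Agent.S3825

open scoped commutatorElement

/-- Let U be a subgroup of a finite group H and w an involution of H normalizing U and commuting with exactly two elements of U, the identity and y. If V is a non-cyclic elementary abelian 2-subgroup of U containing y which is normal in U and invariant under w, then V is a Sylow 2-subgroup of U, V has order 4, and U/V is abelian. -/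
theorem result {H : Type*} [Group H] [Finite H] (U : Subgroup H) (w : H) (hw : orderOf w = 2)
    (hwU : w ∈ Subgroup.normalizer (U : Set H)) (y : H) (hy : y ≠ 1) (hyU : y ∈ U)
    (hfix : ∀ u ∈ U, w * u * w⁻¹ = u ↔ (u = 1 ∨ u = y))
    (V : Subgroup H) (hVU : V ≤ U) (hVn : (V.subgroupOf U).Normal) (hVw : ∀ v ∈ V, w * v * w⁻¹ ∈ V)
    (hVe : Cfsg.IsElementaryAbelian 2 V) (hVc : ¬ IsCyclic ↥V) (hyV : y ∈ V) :
    ¬ 2 ∣ V.relIndex U ∧ Nat.card ↥V = 4 ∧ ⁅U, U⁆ ≤ V := by
  have hw2 : w * w = 1 := by rw [← pow_two, ← hw, pow_orderOf_eq_one]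
  have hwi : w⁻¹ = w := inv_eq_of_mul_eq_one_right hw2
  have hUw : ∀ u ∈ U, w * u * w⁻¹ ∈ U := fun u hu => (Subgroup.mem_normalizer_iff.1 hwU u).1 hu
  have hcomm : ∀ a ∈ V, ∀ b ∈ V, a * b = b * a := CfsgLib.Core.isMulCommutative_iff_forall.1 hVe.1
  have hinv : ∀ a ∈ V, a⁻¹ = a := fun a ha =>
    inv_eq_of_mul_eq_one_right (by rw [← pow_two]; exact hVe.2 a ha)
  have hww : ∀ x : H, w * (w * x * w⁻¹) * w⁻¹ = x := by
    intro x
    calc w * (w * x * w⁻¹) * w⁻¹ = (w * w) * x * (w * w)⁻¹ := by group
      _ = x := by rw [hw2]; group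
  have hyw : w * y * w⁻¹ = y := (hfix y hyU).2 (Or.inr rfl)
  -- an element of `V` moved by `w`
  obtain ⟨a, haV, ha1, hay⟩ : ∃ a ∈ V, a ≠ 1 ∧ a ≠ y := by
    by_contra hcon
    push Not at hcon
    apply hVc
    have : V = Subgroup.zpowers y := by
      refine le_antisymm (fun v hv => ?_) (Subgroup.zpowers_le.2 hyV)
      by_cases h1 : v = 1
      · rw [h1]; exact Subgroup.one_mem _
      · rw [hcon v hv h1]; exact Subgroup.mem_zpowers y
    rw [this]
    infer_instance
  have hdich : ∀ v ∈ V, w * v * w⁻¹ = v ∨ w * v * w⁻¹ = v * y := by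
    intro v hv
    have h1 : v * (w * v * w⁻¹) ∈ V := V.mul_mem hv (hVw v hv)
    have h2 : w * (v * (w * v * w⁻¹)) * w⁻¹ = v * (w * v * w⁻¹) := by
      calc w * (v * (w * v * w⁻¹)) * w⁻¹ = (w * v * w⁻¹) * (w * (w * v * w⁻¹) * w⁻¹) := by group
        _ = _ := by rw [hww, hcomm _ (hVw v hv) _ hv]
    rcases (hfix _ (hVU h1)).1 h2 with h | h
    · left
      rw [← hinv v hv, eq_comm, inv_eq_iff_mul_eq_one, hinv v hv]
      exact h
    · right
      rw [← h, ← mul_assoc, ← pow_two, hVe.2 v hv, one_mul]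
  have haw : w * a * w⁻¹ = a * y := by
    rcases hdich a haV with h | h
    · rcases (hfix a (hVU haV)).1 h with h | h
      · exact absurd h ha1
      · exact absurd h hay
    · exact h
  -- elements of `U` moved by `y` lie in `V`
  have hmv : ∀ u ∈ U, w * u * w⁻¹ = u * y → u = a ∨ u = y * a := by
    intro u hu h
    have h1 : w * (u * a⁻¹) * w⁻¹ = u * a⁻¹ := by
      calc w * (u * a⁻¹) * w⁻¹ = (w * u * w⁻¹) * (w * a * w⁻¹)⁻¹ := by group
        _ = _ := by rw [h, haw]; group
    rcases (hfix _ (U.mul_mem hu (U.inv_mem (hVU haV)))).1 h1 with h2 | h2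
    · left; exact mul_inv_eq_one.1 h2
    · right; exact mul_inv_eq_iff_eq_mul.1 h2
  have hcard : Nat.card V = 4 := by
    have hset : (V : Set H) = {1, y, a, y * a} := by
      ext v
      simp only [SetLike.mem_coe, Set.mem_insert_iff, Set.mem_singleton_iff]
      constructor
      · intro hv
        rcases hdich v hv with h | h
        · have := (hfix v (hVU hv)).1 h
          tauto
        · have := hmv v (hVU hv) h
          tauto
      · rintro (rfl | rfl | rfl | rfl)
        · exact V.one_mem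
        · exact hyV
        · exact haV
        · exact V.mul_mem hyV haV
    have h1 : y * a ≠ 1 := by
      intro h
      apply hay
      rw [← hinv y hyV]
      exact (eq_inv_of_mul_eq_one_right h)
    have h2 : y * a ≠ y := by simpa using ha1
    have h3 : y * a ≠ a := by simpa using hy
    change Nat.card (V : Set H) = 4
    rw [hset, Nat.card_coe_set_eq, Set.ncard_insert_of_notMem, Set.ncard_insert_of_notMem,
      Set.ncard_pair h3.symm]
    · simp only [Set.mem_insert_iff, Set.mem_singleton_iff, not_or]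
      exact ⟨hay.symm, h2.symm⟩
    · simp only [Set.mem_insert_iff, Set.mem_singleton_iff, not_or]
      exact ⟨hy.symm, ha1.symm, h1.symm⟩
  let σ : U →* U :=
    { toFun := fun u => ⟨w * u * w⁻¹, hUw u u.2⟩
      map_one' := Subtype.ext (by simp)
      map_mul' := fun a b => Subtype.ext (by simp [mul_assoc]) }
  let τ := QuotientGroup.map (V.subgroupOf U) (V.subgroupOf U) σ (fun x hx => hVw x hx)
  have hτ : MonoidHom.FixedPointFree τ := by
    intro q hq
    induction q using QuotientGroup.induction_on with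
    | H u =>
      rw [QuotientGroup.eq_one_iff]
      have h1 : (u : H)⁻¹ * (w * u * w⁻¹) ∈ V := by
        have := QuotientGroup.eq.1 hq.symm
        exact this
      have h2 : w * ((u : H)⁻¹ * (w * u * w⁻¹)) * w⁻¹ = (u : H)⁻¹ * (w * u * w⁻¹) := by
        calc w * ((u : H)⁻¹ * (w * u * w⁻¹)) * w⁻¹
            = (w * u * w⁻¹)⁻¹ * (w * (w * u * w⁻¹) * w⁻¹) := by
              simp only [mul_inv_rev, inv_inv, mul_assoc, inv_mul_cancel_left]
          _ = ((u : H)⁻¹ * (w * u * w⁻¹))⁻¹ := by rw [hww, mul_inv_rev (u : H)⁻¹, inv_inv]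
          _ = _ := hinv _ h1
      rw [Subgroup.mem_subgroupOf]
      rcases (hfix _ (hVU h1)).1 h2 with h | h
      · rw [inv_mul_eq_one] at h
        rcases (hfix u u.2).1 h.symm with h | h
        · rw [h]; exact V.one_mem
        · rw [h]; exact hyV
      · rw [inv_mul_eq_iff_eq_mul] at h
        rcases hmv u u.2 h with h | h
        · rw [h]; exact haV
        · rw [h]; exact V.mul_mem hyV haV
  have hτ2 : Function.Involutive τ := by
    intro q
    induction q using QuotientGroup.induction_on with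
    | H u => exact congrArg QuotientGroup.mk (Subtype.ext (hww u))
  refine ⟨?_, hcard, ?_⟩
  · have := hτ.odd_card_of_involutive hτ2
    exact this.not_two_dvd_nat
  · rw [Subgroup.commutator_le]
    intro g hg h hh
    have := (hτ.commute_all_of_involutive hτ2 (QuotientGroup.mk ⟨g, hg⟩) (QuotientGroup.mk ⟨h, hh⟩))
    rw [← commutatorElement_eq_one_iff_commute] at this
    have h2 : (QuotientGroup.mk ⁅(⟨g, hg⟩ : U), ⟨h, hh⟩⁆ : U ⧸ V.subgroupOf U) = 1 := this
    rw [QuotientGroup.eq_one_iff] at h2
    exact h2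

end Cfsg.Agent.S3825
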