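import Cfsg.Statements.S3835
import Cfsg.Agent.Lib.ZJ.QdModel

set_option autoImplicit false
open Cfsg

namespace Cfsg.Agent.S3835

open Subgroup CfsgLib CfsgLib.ZJ CfsgLib.PLocal Matrix
open scoped MatrixGroups

theorem comm_of_small {p : ℕ} [hp : Fact p.Prime] {Ω : Type*} [Finite Ω] (h : Nat.card Ω < p ^ 2)
    {P : Type*} [Group P] [MulAction P Ω] [FaithfulSMul P Ω] (hP : IsPGroup p P) (x y : P) :
    x * y = y * x := by
  refine eq_of_smul_eq_smul fun a : Ω => ?_
  obtain ⟨k, hk⟩ := hP.card_orbit a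
  have h1 : Nat.card (MulAction.orbit P a) ≤ p := by
    have h2 : p ^ k < p ^ 2 := hk ▸ (Finite.card_subtype_le _).trans_lt h
    have h3 := (Nat.pow_lt_pow_iff_right hp.out.one_lt).1 h2
    rw [hk]
    calc p ^ k ≤ p ^ 1 := Nat.pow_le_pow_right hp.out.pos (by omega)
      _ = p := pow_one p
  let φ := MulAction.toPermHom P (MulAction.orbit P a)
  obtain ⟨m, hm⟩ := IsPGroup.iff_card.1 (hP.of_surjective _ φ.rangeRestrict_surjective)
  have h2 : p ^ m ∣ p.factorial := by
    rw [← hm]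
    refine (card_subgroup_dvd_card φ.range).trans ?_
    rw [Nat.card_perm]
    exact Nat.factorial_dvd_factorial h1
  have h3 : Nat.card φ.range ∣ p := by
    rw [hm]
    rcases m with _ | _ | m
    · simp
    · simp
    · exfalso
      rw [← Nat.mul_factorial_pred hp.out.ne_zero, pow_succ', pow_succ'] at h2
      have h4 := (dvd_mul_right p _).trans (Nat.dvd_of_mul_dvd_mul_left hp.out.pos h2)
      have := hp.out.dvd_factorial.1 h4
      have := hp.out.pos
      omega
  have := isCyclic_of_card_dvd_prime h3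
  have h4 : φ.rangeRestrict x * φ.rangeRestrict y = φ.rangeRestrict y * φ.rangeRestrict x :=
    IsCyclic.isMulCommutative.1.1 _ _
  rw [← map_mul, ← map_mul] at h4
  have h5 : φ (x * y) = φ (y * x) := congrArg Subtype.val h4
  exact congrArg Subtype.val (DFunLike.congr_fun h5 ⟨a, MulAction.mem_orbit_self a⟩)

theorem not_involves {p : ℕ} [hp : Fact p.Prime] {n : ℕ} (h : n < p ^ 2) :
    ¬ Involves (qd p) (alternatingGroup (Fin n)) := by
  intro hi
  have hT : IsPGroup p ((zpowers (upperSL (1 : ZMod p))).comap (qdLin p)) := by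
    refine IsPGroup.comap_of_ker_isPGroup ?_ _ isPGroup_ker_qdLin
    rintro ⟨_, k, rfl⟩
    refine ⟨1, Subtype.ext ?_⟩
    change (upperSL (1 : ZMod p) ^ k) ^ p ^ 1 = 1
    rw [pow_one, ← _root_.zpow_natCast, ← _root_.zpow_mul, mul_comm, _root_.zpow_mul, _root_.zpow_natCast, upperSL_pow]
    simp [upperSL_zero]
  obtain ⟨S, hS⟩ := hT.exists_le_sylow
  have hc := sylow_comm_of_involves hi (fun T => ⟨⟨comm_of_small (Ω := Fin n) (by simpa using h)
    T.isPGroup'⟩⟩) S
  have h1 : qdMk (upperSL (1 : ZMod p)) 0 ∈ S := hS (by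
    rw [mem_comap, qdLin_qdMk]; exact mem_zpowers _)
  have h2 : qdMk 1 ![0, 1] ∈ S := hS (by rw [mem_comap, qdLin_qdMk]; exact one_mem _)
  have h3 := congrArg Subtype.val (hc.1.1 ⟨_, h1⟩ ⟨_, h2⟩)
  simp only [coe_mul, qdMk_mul] at h3
  have h4 := congrFun (qdMk_inj h3).2 0
  simp [coe_upperSL] at h4

/-- the affine action of `Qd(p)` on the plane -/
@[reducible] noncomputable def act (p : ℕ) : MulAction (qd p) (Fin 2 → ZMod p) where
  smul M v := (fun i => M.1.1 (Fin.castSucc i) 2) + (qdLin p M).1 *ᵥ v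
  one_smul v := by
    change (fun i => (1 : qd p).1.1 (Fin.castSucc i) 2) + (qdLin p 1).1 *ᵥ v = v
    rw [map_one]
    ext i; fin_cases i <;> simp
  mul_smul M N v := by
    obtain ⟨A, e, rfl⟩ := exists_qdMk M
    obtain ⟨B, f, rfl⟩ := exists_qdMk N
    have h : ∀ (A : SL(2, ZMod p)) e, (fun i => (qdMk A e).1.1 (Fin.castSucc i) 2) = e := by
      intro A e; ext i; fin_cases i <;> simp [coe_qdMk]
    change (fun i => (qdMk A e * qdMk B f).1.1 (Fin.castSucc i) 2) + (qdLin p _).1 *ᵥ v =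
      (fun i => (qdMk A e).1.1 (Fin.castSucc i) 2) + (qdLin p _).1 *ᵥ
        ((fun i => (qdMk B f).1.1 (Fin.castSucc i) 2) + (qdLin p _).1 *ᵥ v)
    rw [qdMk_mul, h, h, h, qdLin_qdMk, qdLin_qdMk, qdLin_qdMk, mulVec_add, mulVec_mulVec, add_assoc]
    rfl

theorem exists_hom (p : ℕ) : ∃ φ : qd p →* Equiv.Perm (Fin 2 → ZMod p), Function.Injective φ := by
  let _ := act p
  refine ⟨MulAction.toPermHom (qd p) _, (injective_iff_map_eq_one _).2 fun M hM => ?_⟩
  obtain ⟨A, e, rfl⟩ := exists_qdMk M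
  have h : (fun i => (qdMk A e).1.1 (Fin.castSucc i) 2) = e := by
    ext i; fin_cases i <;> simp [coe_qdMk]
  have h1 : ∀ v, e + A.1 *ᵥ v = v := fun v => by
    have : (fun i => (qdMk A e).1.1 (Fin.castSucc i) 2) + (qdLin p (qdMk A e)).1 *ᵥ v = v :=
      DFunLike.congr_fun hM v
    rwa [h, qdLin_qdMk] at this
  have he : e = 0 := by simpa using h1 0
  subst he
  have hA : A = 1 := by
    refine Subtype.ext (Matrix.toLin'.injective (LinearMap.ext fun v => ?_))
    simpa using h1 v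
  rw [hA, qdMk_one]

theorem hom_eq_one {p : ℕ} [hp : Fact p.Prime] (hp2 : p ≠ 2) (χ : qd p →* ℤˣ) (M : qd p) :
    χ M = 1 := by
  have hodd : ∀ x : qd p, x ^ p = 1 → χ x = 1 := fun x hx => by
    have h1 : χ x ^ p = 1 := by rw [← map_pow, hx, map_one]
    rcases Int.units_eq_one_or (χ x) with e | e
    · exact e
    · rw [e, (hp.out.odd_of_ne_two hp2).neg_one_pow] at h1; exact absurd h1 (by decide)
  let ι : SL(2, ZMod p) →* qd p :=
    { toFun := fun A => qdMk A 0
      map_one' := qdMk_one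
      map_mul' := fun A B => by rw [qdMk_mul]; simp }
  have h1 : (χ.comp ι).ker = ⊤ := by
    refine eq_top_of_upperSL_lowerSL_mem _ (fun e => hodd _ ?_) (fun e => hodd _ ?_)
    · rw [← map_pow, upperSL_pow]; simp [upperSL_zero]
    · rw [← map_pow, lowerSL_pow]; simp [lowerSL_zero]
  obtain ⟨A, e, rfl⟩ := exists_qdMk M
  have h2 : qdMk A e = qdMk 1 e * ι A := by
    change _ = _ * qdMk A 0
    rw [qdMk_mul]; simp
  have h3 : χ (ι A) = 1 := (h1 ▸ mem_top A : A ∈ (χ.comp ι).ker)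
  rw [h2, map_mul, h3, hodd, one_mul]
  rw [qdMk_one_pow, ← qdMk_one]
  congr 1
  ext i; simp

/-- Let p be an odd prime and n a natural number. The alternating group of degree n has a subgroup isomorphic to Qd(p) (the natural semidirect product of an elementary abelian group of order p² by SL₂(p)) if and only if n ≥ p²; and if n < p² then Qd(p) is not even involved in it. -/
theorem result {p : ℕ} [Fact p.Prime] (hp : p ≠ 2) (n : ℕ) : ((∃ H : Subgroup (alternatingGroup (Fin n)), Nonempty (↥H ≃* ↥(Cfsg.qd p))) ↔ p ^ 2 ≤ n) ∧ (n < p ^ 2 → ¬ Cfsg.Involves ↥(Cfsg.qd p) ↥(alternatingGroup (Fin n))) := by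
  refine ⟨⟨fun ⟨H, ⟨e⟩⟩ => ?_, fun h => ?_⟩, not_involves⟩
  · by_contra hn
    exact not_involves (not_le.1 hn) (involves_of_injective (H.subtype.comp e.symm.toMonoidHom)
      (H.subtype_injective.comp e.symm.injective))
  · obtain ⟨φ, hφ⟩ := exists_hom p
    obtain ⟨ι⟩ : Nonempty ((Fin 2 → ZMod p) ↪ Fin n) :=
      Function.Embedding.nonempty_of_card_le (by simpa [ZMod.card] using h)
    let ψ := (Equiv.Perm.viaEmbeddingHom ι).comp φ
    have hψ : Function.Injective ψ := (Equiv.Perm.viaEmbeddingHom_injective ι).comp hφ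
    let θ : qd p →* alternatingGroup (Fin n) := ψ.codRestrict _ fun M =>
      Equiv.Perm.mem_alternatingGroup.2 (hom_eq_one hp (Equiv.Perm.sign.comp ψ) M)
    have hθ : Function.Injective θ := fun a b hab => hψ (congrArg Subtype.val hab)
    exact ⟨θ.range, ⟨(MonoidHom.ofInjective hθ).symm⟩⟩

end Cfsg.Agent.S3835
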