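import Cfsg.Statements.S3838
import Cfsg.Agent.Lib.Transfer.Tate
import Cfsg.Agent.Lib.Transfer.NormalComplement

set_option autoImplicit false
open Cfsg

namespace Cfsg.Agent.S3838

open scoped commutatorElement
open CfsgLib.Transfer

theorem core {G : Type*} [Group G] [Finite G] {p : ℕ} [Fact p.Prime] (P : Sylow p G)
    (Q : Subgroup G) [Q.Normal] (h1 : ∀ x ∈ (P : Subgroup G), ∀ y ∈ (P : Subgroup G), ⁅x, y⁆ ∈ Q)
    (h2 : Q ≤ (frattini ↥(P : Subgroup G)).map (P : Subgroup G).subtype)
    (hN : Cfsg.HasNormalPComplement p ↥(Subgroup.normalizer ((P : Subgroup G) : Set G))) :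
    Cfsg.HasNormalPComplement p G := by
  have hQP : Q ≤ P := h2.trans (Subgroup.map_subtype_le _)
  set f := QuotientGroup.mk' Q with hf
  have hfs : Function.Surjective f := QuotientGroup.mk'_surjective Q
  let Pb : Sylow p (G ⧸ Q) := P.mapSurjective hfs
  have hPb : (Pb : Subgroup (G ⧸ Q)) = (P : Subgroup G).map f := rfl
  have hcomap : ((P : Subgroup G).map f).comap f = P := by
    rw [Subgroup.comap_map_eq, hf, QuotientGroup.ker_mk', sup_eq_left.2 hQP]
  have hB : Cfsg.HasNormalPComplement p (G ⧸ Q) := by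
    apply burnside_normal_complement Pb
    intro nb hnb
    obtain ⟨n, rfl⟩ := hfs nb
    have hn : n ∈ Subgroup.normalizer ((P : Subgroup G) : Set G) := by
      rw [Subgroup.mem_normalizer_iff] at hnb ⊢
      intro x
      have := hnb (f x)
      rw [hPb] at this
      constructor
      · intro hx
        have h3 := this.1 (Subgroup.mem_map_of_mem f hx)
        rw [← hcomap, Subgroup.mem_comap]
        simpa using h3
      · intro hx
        have h3 : f n * f x * (f n)⁻¹ ∈ (P : Subgroup G).map f := by
          simpa using Subgroup.mem_map_of_mem f hx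
        rw [← hcomap, Subgroup.mem_comap]
        exact this.2 h3
    obtain ⟨a, b, ha, hb, ⟨k, hk⟩, hbc, hab⟩ := exists_p_part (p := p) n
    have haN : a ∈ Subgroup.normalizer ((P : Subgroup G) : Set G) :=
      (Subgroup.zpowers_le.2 hn) ha
    have hbN : b ∈ Subgroup.normalizer ((P : Subgroup G) : Set G) :=
      (Subgroup.zpowers_le.2 hn) hb
    have hbC : b ∈ Subgroup.centralizer ((P : Subgroup G) : Set G) :=
      mem_centralizer_of_hasNormalPComplement hN P.2 Subgroup.le_normalizer hbN hbN hbc
    have haP : a ∈ (P : Subgroup G) := by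
      have hz : IsPGroup p (Subgroup.zpowers a) := by
        apply IsPGroup.of_card (n := (Nat.factorization (orderOf a) p))
        rw [Nat.card_zpowers]
        obtain ⟨j, -, hj⟩ := (Nat.dvd_prime_pow (Fact.out : p.Prime)).1 (orderOf_dvd_of_pow_eq_one hk)
        rw [hj]
        simp [(Fact.out : p.Prime).factorization_pow]
      have := hz.inf_normalizer_sylow P
      have h4 : a ∈ Subgroup.zpowers a ⊓ Subgroup.normalizer ((P : Subgroup G) : Set G) :=
        Subgroup.mem_inf.2 ⟨Subgroup.mem_zpowers a, haN⟩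
      have h5 : Subgroup.zpowers a ⊓ Subgroup.normalizer ((P : Subgroup G) : Set G) =
        Subgroup.zpowers a ⊓ (P : Subgroup G) := this
      rw [h5] at h4
      exact (Subgroup.mem_inf.1 h4).2
    rw [Subgroup.mem_centralizer_iff]
    rintro yb hyb
    obtain ⟨y, hy, rfl⟩ : yb ∈ (P : Subgroup G).map f := hyb
    have e1 : y * b = b * y := Subgroup.mem_centralizer_iff.1 hbC y hy
    have e2 : f ⁅y, a⁆ = 1 := by
      rw [hf]; exact (QuotientGroup.eq_one_iff _).2 (h1 y hy a haP)
    rw [map_commutatorElement, commutatorElement_eq_one_iff_mul_comm] at e2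
    rw [hab, map_mul, ← mul_assoc, e2, mul_assoc, ← map_mul, e1, map_mul, mul_assoc]
  obtain ⟨K, hKn, hKc, hKq⟩ := hasNormalPComplement_iff_exists_normal.1 hB
  have hKP : K.comap f ⊓ P ≤ Q := by
    intro x hx
    obtain ⟨hx1, hx2⟩ := Subgroup.mem_inf.1 hx
    rw [Subgroup.mem_comap] at hx1
    have hd : orderOf (f x) ∣ Nat.card K := by
      have := orderOf_dvd_natCard (⟨f x, hx1⟩ : K)
      rwa [Subgroup.orderOf_mk] at this
    obtain ⟨k, hk⟩ := P.2 ⟨x, hx2⟩
    have hk' : x ^ p ^ k = 1 := congrArg Subtype.val hk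
    have hd2 : orderOf (f x) ∣ p ^ k := orderOf_dvd_of_pow_eq_one (by rw [← map_pow, hk', map_one])
    have : orderOf (f x) = 1 := Nat.eq_one_of_dvd_coprimes (hKc.pow_right k) hd hd2
    rw [orderOf_eq_one_iff] at this
    exact (QuotientGroup.eq_one_iff _).1 this
  have hK := hasNormalPComplement_of_inf_le_frattini P (K.comap f) (hKP.trans h2)
  refine hasNormalPComplement_of_isPGroup_quotient ?_ hK
  intro xb
  obtain ⟨x, rfl⟩ := QuotientGroup.mk_surjective xb
  obtain ⟨k, hk⟩ := hKq ((f x : G ⧸ Q) : (G ⧸ Q) ⧸ K)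
  refine ⟨k, ?_⟩
  rw [← QuotientGroup.mk_pow, QuotientGroup.eq_one_iff] at hk ⊢
  rw [Subgroup.mem_comap, map_pow]
  exact hk

/-- Let G be a finite group with Sylow p-subgroup P such that N_G(P) has a normal p-complement. Then N_G(Q) has a normal p-complement for every subgroup Q with [P, P] ≤ Q ≤ Φ(P). -/
theorem result {G : Type*} [Group G] [Finite G] {p : ℕ} [Fact p.Prime] (P : Sylow p G) (hN : Cfsg.HasNormalPComplement p ↥(Subgroup.normalizer ((P : Subgroup G) : Set G))) (Q : Subgroup G) (h1 : (commutator ↥(P : Subgroup G)).map (P : Subgroup G).subtype ≤ Q) (h2 : Q ≤ (frattini ↥(P : Subgroup G)).map (P : Subgroup G).subtype) : Cfsg.HasNormalPComplement p ↥(Subgroup.normalizer (Q : Set G)) := by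
  have hQP : Q ≤ P := h2.trans (Subgroup.map_subtype_le _)
  have h1' : ∀ x ∈ (P : Subgroup G), ∀ y ∈ (P : Subgroup G), ⁅x, y⁆ ∈ Q := by
    intro x hx y hy
    apply h1
    refine ⟨⁅(⟨x, hx⟩ : (P : Subgroup G)), ⟨y, hy⟩⁆, ?_, rfl⟩
    exact Subgroup.commutator_mem_commutator (Subgroup.mem_top _) (Subgroup.mem_top _)
  have hPH : (P : Subgroup G) ≤ Subgroup.normalizer (Q : Set G) := by
    intro x hx
    rw [Subgroup.mem_normalizer_iff]
    intro y
    constructor
    · intro hy
      have := Q.mul_mem (h1' x hx y (hQP hy)) hy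
      rw [commutatorElement_def] at this
      simpa using this
    · intro hy
      have := Q.mul_mem (h1' x⁻¹ (inv_mem hx) _ (hQP hy)) hy
      rw [commutatorElement_def] at this
      simpa [mul_assoc] using this
  set H := Subgroup.normalizer (Q : Set G) with hH
  haveI : (Q.subgroupOf H).Normal := Subgroup.normal_in_normalizer
  refine core (P.subtype hPH) (Q.subgroupOf H) ?_ ?_ ?_
  · intro x hx y hy
    exact h1' x.1 hx y.1 hy
  · intro x hx
    obtain ⟨y, hy, hyx⟩ := h2 hx
    let e : (P : Subgroup G).subgroupOf H ≃* (P : Subgroup G) := Subgroup.subgroupOfEquivOfLe hPH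
    have := frattini_le_comap_frattini_of_surjective (φ := e.symm.toMonoidHom) e.symm.surjective hy
    refine ⟨e.symm y, this, ?_⟩
    apply Subtype.ext
    exact hyx
  · let g : ↥(Subgroup.normalizer (((P.subtype hPH : Sylow p H) : Subgroup H) : Set H)) →*
        ↥(Subgroup.normalizer ((P : Subgroup G) : Set G)) :=
      (H.subtype.comp (Subgroup.subtype _)).codRestrict _ (by
        intro x
        have hx := x.2
        rw [Subgroup.mem_normalizer_iff] at hx ⊢
        intro y
        constructor
        · intro hy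
          exact (hx ⟨y, hPH hy⟩).1 hy
        · intro hy
          have hyH : y ∈ H := by
            have h5 := hPH hy
            have h6 : y = (x.1.1)⁻¹ * (x.1.1 * y * (x.1.1)⁻¹) * x.1.1 := by group
            rw [h6]
            exact H.mul_mem (H.mul_mem (H.inv_mem x.1.2) h5) x.1.2
          exact (hx ⟨y, hyH⟩).2 hy)
    refine hasNormalPComplement_of_injective hN g ?_
    intro a b hab
    have h7 : (g a).1 = (g b).1 := congrArg Subtype.val hab
    exact Subtype.ext (Subtype.ext h7)

end Cfsg.Agent.S3838
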