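import Mathlib
-- Template for statement S3839 (row 3839; see /opt/grader/pristine/manifest.json for weights).
-- Copy to Cfsg/Agent/S3839.lean and replace the sorry. The statement below is byte-identical to the frozen
-- statement Cfsg.CfsgFrozen.S3839 (Cfsg/Statements/S3839.lean; the theorem Cfsg.fg3_p_nilpotent_iff_local_at_strongly_closed_self_centralizing);
-- the grader kernel-checks Cfsg.Agent.S3839.result against that frozen type. Keep the theorem IN THIS FILE
-- (a `result` declared elsewhere and merely imported here is not credited); helpers may live anywhere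
-- under Cfsg/Agent/.
import Cfsg.Statements.S3839
import Cfsg.Agent.Lib.Transfer.Frobenius
import Cfsg.Agent.Lib.Core.Commutator
-- import your own Cfsg.Agent.* helpers here

set_option autoImplicit false
open Cfsg

namespace Cfsg.Agent.S3839

open Subgroup CfsgLib CfsgLib.Tech

section
variable {G : Type*} [Group G]

theorem pow_mul_eq {K : Subgroup G} {n g : G} (hn : n ∈ K) (hg : g ∈ normalizer (K : Set G)) (m : ℕ) :
    ∃ n' ∈ K, (n * g) ^ m = n' * g ^ m := by
  induction m with
  | zero => exact ⟨1, K.one_mem, by simp⟩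
  | succ m ih =>
    obtain ⟨n', hn', e⟩ := ih
    refine ⟨n' * (g ^ m * n * (g ^ m)⁻¹), K.mul_mem hn'
      (conj_mem_of_mem_normalizer (Subgroup.pow_mem _ hg m) hn), ?_⟩
    rw [pow_succ, e, pow_succ]; group

/-- stabiliser of the chain `1 ≤ U ≤ E` -/
def KK (U E : Subgroup G) (hUE : U ≤ E) (hU : normalizer (E : Set G) ≤ normalizer (U : Set G)) :
    Subgroup G where
  carrier := {x | x ∈ normalizer (E : Set G) ∧ (∀ u ∈ U, x * u * x⁻¹ = u) ∧
    ∀ e ∈ E, x * e * x⁻¹ * e⁻¹ ∈ U}
  one_mem' := ⟨Subgroup.one_mem _, by simp, by simp [U.one_mem]⟩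
  mul_mem' := by
    rintro a b ⟨ha, ha1, ha2⟩ ⟨hb, hb1, hb2⟩
    refine ⟨Subgroup.mul_mem _ ha hb, fun u hu => ?_, fun e he => ?_⟩
    · have : a * b * u * (a * b)⁻¹ = a * (b * u * b⁻¹) * a⁻¹ := by group
      rw [this, hb1 u hu, ha1 u hu]
    · have : a * b * e * (a * b)⁻¹ * e⁻¹ =
          (a * (b * e * b⁻¹ * e⁻¹) * a⁻¹) * (a * e * a⁻¹ * e⁻¹) := by group
      rw [this, ha1 _ (hb2 e he)]
      exact U.mul_mem (hb2 e he) (ha2 e he)
  inv_mem' := by
    rintro a ⟨ha, ha1, ha2⟩
    have h1 : ∀ u ∈ U, a⁻¹ * u * a⁻¹⁻¹ = u := fun u hu => by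
      conv_lhs => rw [← ha1 u hu]
      group
    refine ⟨Subgroup.inv_mem _ ha, h1, fun e he => ?_⟩
    have : a⁻¹ * e * a⁻¹⁻¹ * e⁻¹ = a⁻¹ * (a * e * a⁻¹ * e⁻¹)⁻¹ * a⁻¹⁻¹ := by group
    rw [this, h1 _ (U.inv_mem (ha2 e he))]
    exact U.inv_mem (ha2 e he)

theorem KK_norm [Finite G] {U E : Subgroup G} (hUE : U ≤ E)
    (hU : normalizer (E : Set G) ≤ normalizer (U : Set G)) :
    normalizer (E : Set G) ≤ normalizer (KK U E hUE hU : Set G) := by
  intro h hh
  apply mem_normalizer_of_forall
  rintro x ⟨hx, hx1, hx2⟩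
  refine ⟨Subgroup.mul_mem _ (Subgroup.mul_mem _ hh hx) (Subgroup.inv_mem _ hh),
    fun u hu => ?_, fun e he => ?_⟩
  · have : h * x * h⁻¹ * u * (h * x * h⁻¹)⁻¹ = h * (x * (h⁻¹ * u * h) * x⁻¹) * h⁻¹ := by group
    rw [this, hx1 _ (conj_mem_of_mem_normalizer' (hU hh) hu)]; group
  · have : h * x * h⁻¹ * e * (h * x * h⁻¹)⁻¹ * e⁻¹ =
        h * (x * (h⁻¹ * e * h) * x⁻¹ * (h⁻¹ * e * h)⁻¹) * h⁻¹ := by group
    rw [this]
    exact conj_mem_of_mem_normalizer (hU hh) (hx2 _ (conj_mem_of_mem_normalizer' hh he))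

theorem KK_cent {p : ℕ} {U E : Subgroup G} (hUE : U ≤ E)
    (hU : normalizer (E : Set G) ≤ normalizer (U : Set G)) (hE : IsPGroup p E) {g : G}
    (hg : g ∈ KK U E hUE hU) (hc : Nat.Coprime (orderOf g) p) :
    g ∈ centralizer (E : Set G) := by
  obtain ⟨_, h1, h2⟩ := hg
  rw [mem_centralizer_iff]
  intro e he
  set u := g * e * g⁻¹ * e⁻¹ with hu
  have huU : u ∈ U := h2 e he
  have key : ∀ m : ℕ, g ^ m * e * (g ^ m)⁻¹ = u ^ m * e := by
    intro m
    induction m with
    | zero => simp
    | succ m ih =>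
      have : g ^ (m + 1) * e * (g ^ (m + 1))⁻¹ = g * (g ^ m * e * (g ^ m)⁻¹) * g⁻¹ := by
        rw [pow_succ']; group
      rw [this, ih]
      have h3 := h1 _ (U.pow_mem huU m)
      have : g * (u ^ m * e) * g⁻¹ = (g * u ^ m * g⁻¹) * (u * e) := by rw [hu]; group
      rw [this, h3, pow_succ u m, mul_assoc (u ^ m) u e]
  have h4 : u ^ orderOf g = 1 := by
    have := key (orderOf g)
    rw [pow_orderOf_eq_one] at this
    simpa using this
  obtain ⟨k, hk⟩ := (isPGroup_iff_mem.1 hE) u (hUE huU)
  have h5 : orderOf u = 1 := Nat.eq_one_of_dvd_coprimes (Nat.Coprime.pow_right k hc)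
    (orderOf_dvd_of_pow_eq_one h4) (orderOf_dvd_of_pow_eq_one hk)
  have h6 : u = 1 := orderOf_eq_one_iff.1 h5
  have : g * e = u * e * g := by rw [hu]; group
  rw [this, h6, one_mul]

theorem main [Finite G] {p : ℕ} [hp : Fact p.Prime] (S : Sylow p G) (D : Subgroup G)
    (hD : Cfsg.IsStronglyClosed D (S : Subgroup G))
    (h : ∀ U : Subgroup G, U ≤ D → D ⊓ centralizer (U : Set G) ≤ U →
      Cfsg.HasNormalPComplement p ↥(normalizer (U : Set G))) (n : ℕ) :
    ∀ E : Subgroup G, Nat.card G - Nat.card E = n → IsPGroup p E →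
      ∀ g ∈ normalizer (E : Set G), Nat.Coprime (orderOf g) p → g ∈ centralizer (E : Set G) := by
  induction n using Nat.strong_induction_on with
  | _ n ih =>
  have hDS : (S : Subgroup G) ≤ normalizer (D : Set G) := fun s hs =>
    mem_normalizer_of_forall fun x hx => hD.2 x hx s
      (Subgroup.mul_mem _ (Subgroup.mul_mem _ hs (hD.1 hx)) (Subgroup.inv_mem _ hs))
  have core : ∀ E : Subgroup G, Nat.card G - Nat.card E = n → E ≤ S →
      IsSylowIn p ((S : Subgroup G) ⊓ normalizer (E : Set G)) (normalizer (E : Set G)) →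
      ∀ g ∈ normalizer (E : Set G), Nat.Coprime (orderOf g) p → g ∈ centralizer (E : Set G) := by
    intro E hn hES hT g hg hc
    have hE : IsPGroup p E := S.isPGroup'.to_le hES
    set U := E ⊓ D with hUdef
    have hUE : U ≤ E := inf_le_left
    have hU : normalizer (E : Set G) ≤ normalizer (U : Set G) := fun x hx =>
      mem_normalizer_of_forall fun u hu => mem_inf.2
        ⟨conj_mem_of_mem_normalizer hx (mem_inf.1 hu).1,
          hD.2 u (mem_inf.1 hu).2 x (hES (conj_mem_of_mem_normalizer hx (mem_inf.1 hu).1))⟩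
    set K := KK U E hUE hU with hK
    have hKN : K ≤ normalizer (E : Set G) := fun x hx => hx.1
    have hKn : normalizer (E : Set G) ≤ normalizer (K : Set G) := KK_norm hUE hU
    by_cases hTK : (S : Subgroup G) ⊓ K ≤ E
    · have hCU : D ⊓ centralizer (U : Set G) ≤ U := by
        by_contra hne
        set C := D ⊓ centralizer (U : Set G) with hC
        have hEC : E ≤ normalizer (C : Set G) := fun e he =>
          mem_normalizer_of_forall fun c hc => mem_inf.2
            ⟨conj_mem_of_mem_normalizer (hDS (hES he)) (mem_inf.1 hc).1, by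
              rw [mem_centralizer_iff]
              intro u hu
              have h1 := conj_mem_of_mem_normalizer' (hU (le_normalizer he)) hu
              have h2 := mem_centralizer_iff.1 (mem_inf.1 hc).2 _ h1
              calc u * (e * c * e⁻¹) = e * (e⁻¹ * u * e * c) * e⁻¹ := by group
                _ = e * (c * (e⁻¹ * u * e)) * e⁻¹ := by rw [h2]
                _ = e * c * e⁻¹ * u := by group⟩
        have hX : IsPGroup p ↥(C ⊔ E) :=
          S.isPGroup'.to_le (sup_le (inf_le_left.trans hD.1) hES)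
        have hlt : E < C ⊔ E := by
          refine lt_of_le_of_ne le_sup_right fun he => hne fun c hc => mem_inf.2 ⟨?_, (mem_inf.1 hc).1⟩
          rw [he]; exact mem_sup_left hc
        obtain ⟨x, hx, hxE, hxN⟩ := exists_mem_normalizer_of_lt hX hlt
        obtain ⟨c, hc, e, he, rfl⟩ := (Core.mem_sup_of_le_normalizer_left hEC).1 hx
        have hcN : c ∈ normalizer (E : Set G) := by
          have := Subgroup.mul_mem _ hxN (Subgroup.inv_mem _ (le_normalizer he))
          simpa using this
        have hcK : c ∈ K := by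
          refine ⟨hcN, fun u hu => ?_, fun e' he' => mem_inf.2 ⟨?_, ?_⟩⟩
          · have h2 := mem_centralizer_iff.1 (mem_inf.1 hc).2 _ hu
            rw [← h2]; group
          · exact E.mul_mem (conj_mem_of_mem_normalizer hcN he') (E.inv_mem he')
          · have : c * e' * c⁻¹ * e'⁻¹ = c * (e' * c⁻¹ * e'⁻¹) := by group
            rw [this]
            exact D.mul_mem (mem_inf.1 hc).1
              (conj_mem_of_mem_normalizer (hDS (hES he')) (D.inv_mem (mem_inf.1 hc).1))
        exact hxE (E.mul_mem (hTK (mem_inf.2 ⟨hD.1 (mem_inf.1 hc).1, hcK⟩)) he)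
      exact Transfer.mem_centralizer_of_hasNormalPComplement (h U inf_le_right hCU) hE
        (le_normalizer.trans hU) (hU hg) hg hc
    · have hT2 : IsSylowIn p ((S : Subgroup G) ⊓ K) K := by
        have := hT.inf_of_le_normalizer hKn
        rwa [inf_assoc, inf_eq_right.2 hKN] at this
      obtain ⟨m, hm, hmg⟩ := hT2.frattini (hKn hg)
      set R := ((S : Subgroup G) ⊓ K) ⊔ E with hR
      have hRp : IsPGroup p R := S.isPGroup'.to_le (sup_le inf_le_left hES)
      have hlt : E < R := lt_of_le_of_ne le_sup_right fun he => hTK (by rw [he]; exact le_sup_left)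
      have hcard : Nat.card E < Nat.card R := by
        have h1 := Subgroup.card_le_of_le hlt.le
        rcases h1.lt_or_eq with h2 | h2
        · exact h2
        · exact absurd (Subgroup.eq_of_le_of_card_ge hlt.le h2.ge) hlt.ne
      have hRG : Nat.card R ≤ Nat.card G := Subgroup.card_le_card_group R
      have hyE : m * g ∈ normalizer (E : Set G) := Subgroup.mul_mem _ (hKN hm) hg
      have hyR : m * g ∈ normalizer (R : Set G) := by
        rw [mem_normalizer_iff_cj] at hmg hyE ⊢
        rw [hR, cj_sup, hmg, hyE]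
      set y := m * g with hy
      set k := (orderOf y).factorization p with hk
      have hpos : orderOf y ≠ 0 := (orderOf_pos y).ne'
      have hco : Nat.Coprime (orderOf (y ^ p ^ k)) p := by
        rw [orderOf_pow_of_dvd (pow_ne_zero _ hp.out.ne_zero) (Nat.ordProj_dvd _ _)]
        exact (Nat.coprime_ordCompl hp.out hpos).symm
      have h1 := ih _ (by omega) R rfl hRp _ (Subgroup.pow_mem _ hyR (p ^ k)) hco
      have h2 : y ^ p ^ k ∈ K := by
        have h3 : ∀ e ∈ E, y ^ p ^ k * e * (y ^ p ^ k)⁻¹ = e := fun e he => by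
          have h2 := mem_centralizer_iff.1 h1 _ (hlt.le he)
          rw [← h2]; group
        refine ⟨Subgroup.pow_mem _ hyE _, fun u hu => h3 u (hUE hu), fun e he => ?_⟩
        rw [h3 e he, mul_inv_cancel]; exact U.one_mem
      obtain ⟨m', hm', e⟩ := pow_mul_eq hm (hKn hg) (p ^ k)
      have h4 : g ^ p ^ k ∈ K := by
        rw [e] at h2
        exact (K.mul_mem_cancel_left hm').1 h2
      obtain ⟨j, hj⟩ := exists_pow_eq_self_of_coprime (Nat.Coprime.pow_left k hc.symm)
      have h5 : g ∈ K := by rw [← hj]; exact K.pow_mem h4 j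
      exact KK_cent hUE hU hE h5 hc
  intro E hn hE g hg hc
  obtain ⟨T, hT, hET⟩ := exists_isSylowIn_ge hE (le_normalizer (H := E))
  obtain ⟨a, -, ha⟩ := (IsSylowIn.of_sylow_top S).exists_cj_le hT.pgroup le_top
  have hT' := hT.cj a
  rw [cj_normalizer] at hT'
  have hT'' : IsSylowIn p ((S : Subgroup G) ⊓ normalizer (cj a E : Set G))
      (normalizer (cj a E : Set G)) := by
    have := hT'.eq_of_le (Q := (S : Subgroup G) ⊓ normalizer (cj a E : Set G))
      (S.isPGroup'.to_le inf_le_left) (le_inf ha hT'.le) inf_le_right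
    rwa [this]
  have h1 := core (cj a E) (by rw [card_cj]; exact hn) ((cj_mono a hET).trans ha) hT''
    (a * g * a⁻¹) (by rw [← cj_normalizer]; exact conj_mem_cj.2 hg)
    (by rw [← MulAut.conj_apply, MulEquiv.orderOf_eq]; exact hc)
  rw [← cj_centralizer] at h1
  exact conj_mem_cj.1 h1

end

/-- A Frobenius normal p-complement criterion relative to a strongly closed subgroup. Let G be a finite group, S a Sylow p-subgroup and D a subgroup of S strongly closed in S with respect to G. Then G has a normal p-complement if and only if N_G(U) has a normal p-complement for every subgroup U of D with C_D(U) ≤ U. -/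
theorem result {G : Type*} [Group G] [Finite G] {p : ℕ} [Fact p.Prime] (S : Sylow p G) (D : Subgroup G) (hD : Cfsg.IsStronglyClosed D (S : Subgroup G)) : Cfsg.HasNormalPComplement p G ↔ ∀ U : Subgroup G, U ≤ D → D ⊓ Subgroup.centralizer (U : Set G) ≤ U → Cfsg.HasNormalPComplement p ↥(Subgroup.normalizer (U : Set G)) := by
  refine ⟨fun h U _ _ => Transfer.hasNormalPComplement_subgroup h _, fun h => ?_⟩
  exact Transfer.frobenius_of_forall_centralizer S fun Q hQ _ g hg hc =>
    main S D hD h _ Q rfl (S.isPGroup'.to_le hQ) g hg hc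

end Cfsg.Agent.S3839
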