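import Cfsg.Statements.S3857
import Cfsg.Agent.Lib.FG3.A

set_option autoImplicit false
open Cfsg

namespace Cfsg.Agent.S3857

open CfsgLib CfsgLib.FG3 CfsgLib.CIT.App Subgroup in
/-- A finite solvable group whose prime graph (prime divisors of the order, two distinct primes joined when there is an element of order their product) is disconnected is a Frobenius group or a 2-Frobenius group (it has normal subgroups H < K with K a Frobenius group with kernel H and G/H a Frobenius group with kernel K/H). -/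
theorem result {G : Type*} [Group G] [Finite G] (hsol : Group.IsSolvable G)
    (hdisc : (∃ A : Set ℕ, (∃ a ∈ A, a.Prime ∧ a ∣ Nat.card G) ∧ (∃ b ∉ A, b.Prime ∧ b ∣ Nat.card G) ∧
      ∀ a ∈ A, ∀ b ∉ A, a.Prime → b.Prime → a ∣ Nat.card G → b ∣ Nat.card G → ¬ ∃ g : G, orderOf g = a * b)) :
    (∃ C : Subgroup G, Cfsg.IsFrobeniusComplement C) ∨
    (∃ (H K : Subgroup G) (_ : H.Normal), K.Normal ∧ H < K ∧
      (∃ C : Subgroup ↥K, Cfsg.IsFrobeniusComplement C ∧ Cfsg.frobeniusKernel C = (H.subgroupOf K : Set ↥K)) ∧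
      (∃ C : Subgroup (G ⧸ H), Cfsg.IsFrobeniusComplement C ∧ Cfsg.frobeniusKernel C = (K.map (QuotientGroup.mk' H) : Set (G ⧸ H)))) := by
  obtain ⟨A, ⟨a, ha, hap, had⟩, ⟨b, hb, hbp, hbd⟩, h⟩ := hdisc
  have hD : Disc G A := fun a ha b hb h1 h2 e => h a ha b hb h1 h2 ((dvd_mul_right a b).trans e.dvd_card)
    ((dvd_mul_left b a).trans e.dvd_card) e
  haveI : Nontrivial G := Finite.one_lt_card_iff_nontrivial.1 (hap.one_lt.trans_le (Nat.le_of_dvd Nat.card_pos had))
  obtain ⟨r, N, hr, _, hN, hE, -⟩ := Core.exists_elementaryAbelian_minimal_normal G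
  haveI := Fact.mk hr
  obtain ⟨n, hn⟩ := (Core.isElementaryAbelian_isPGroup hE).exists_card_eq
  have key : ∀ B : Set ℕ, r ∈ B → Core.ordCore (PN B) G ≠ ⊥ := fun B hB e => hN (le_bot_iff.1 (e ▸ Core.le_ordCore
    fun q hq e => (Nat.prime_dvd_prime_iff_eq hq hr).1 (hq.dvd_of_dvd_pow (hn ▸ e)) ▸ hB))
  by_cases e : r ∈ A
  · exact hD.two_frob (key A e) hb hbp hbd
  · exact hD.compl.two_frob (key _ e) (not_not.2 ha) hap had

end Cfsg.Agent.S3857
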