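import Cfsg.Statements.S3859
import Mathlib

set_option autoImplicit false
open Cfsg

namespace Cfsg.Agent.S3859

open scoped Pointwise

theorem normalizer_ne_top {G : Type*} [Group G] [Finite G] (T : Subgroup G) [T.Normal]
    (hT : IsSimpleGroup T) (hna : ¬ IsMulCommutative T) {r : ℕ} [Fact r.Prime] (R : Sylow r G)
    (hR0 : (R : Subgroup G) ⊓ T ≠ ⊥) :
    Subgroup.normalizer (((R : Subgroup G) ⊓ T : Subgroup G) : Set G) ≠ ⊤ := by
  intro h
  rw [Subgroup.normalizer_eq_top_iff] at h
  have h1 : (((R : Subgroup G) ⊓ T).subgroupOf T).Normal := inferInstance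
  rcases h1.eq_bot_or_eq_top with h2 | h2
  · rw [Subgroup.subgroupOf_eq_bot, disjoint_iff, inf_assoc, inf_idem] at h2
    exact hR0 h2
  · rw [Subgroup.subgroupOf_eq_top] at h2
    have h3 : IsPGroup r T := R.isPGroup'.to_le (h2.trans inf_le_left)
    have := h3.center_nontrivial
    rcases (inferInstance : (Subgroup.center T).Normal).eq_bot_or_eq_top with h4 | h4
    · rw [h4] at this
      exact not_subsingleton _ (inferInstance : Subsingleton (⊥ : Subgroup T))
    · apply hna
      refine ⟨⟨fun a b => ?_⟩⟩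
      exact Subgroup.mem_center_iff.1 (h4 ▸ Subgroup.mem_top b) a

theorem normalizer_le {G : Type*} [Group G] (T R : Subgroup G) [T.Normal] :
    Subgroup.normalizer (R : Set G) ≤ Subgroup.normalizer ((R ⊓ T : Subgroup G) : Set G) :=
  (le_inf le_rfl Subgroup.le_normalizer_of_normal).trans Subgroup.inf_normalizer_le_normalizer_inf

theorem frattini_inf {G : Type*} [Group G] [Finite G] (T : Subgroup G) [T.Normal]
    {r : ℕ} [Fact r.Prime] (R : Sylow r G) :
    Subgroup.normalizer (((R : Subgroup G) ⊓ T : Subgroup G) : Set G) ⊔ T = ⊤ := by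
  obtain ⟨Q, hQ⟩ := (R.isPGroup'.comap_subtype (K := T)).exists_le_sylow
  have h1 := Sylow.normalizer_sup_eq_top Q
  have h2 : (Q : Subgroup T).map T.subtype = (R : Subgroup G) ⊓ T := by
    obtain ⟨S, hS⟩ := (Q.isPGroup'.map T.subtype).exists_le_sylow
    obtain ⟨g, rfl⟩ := MulAction.exists_smul_eq G R S
    symm
    apply Subgroup.eq_of_le_of_card_ge
    · rw [← Subgroup.subgroupOf_map_subtype]
      exact Subgroup.map_mono hQ
    · have h3 : (Q : Subgroup T).map T.subtype ≤ MulAut.conj g • ((R : Subgroup G) ⊓ T) := by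
        rw [Subgroup.smul_inf, Subgroup.Normal.conj_smul_eq_self g T]
        exact le_inf hS (Subgroup.map_subtype_le _)
      refine (Subgroup.card_le_of_le h3).trans (le_of_eq ?_)
      exact (Nat.card_congr (Subgroup.equivSMul (MulAut.conj g) _).toEquiv).symm
  rwa [h2] at h1

/-- Let G be a finite group with a normal non-abelian simple subgroup T whose centralizer is trivial (G almost simple with socle T), r a prime and R a Sylow r-subgroup of G meeting T nontrivially. If R lies in exactly one maximal subgroup of G, then G/T is an r-group. -/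
theorem result {G : Type*} [Group G] [Finite G] (T : Subgroup G) [T.Normal] (hT : IsSimpleGroup T) (hna : ¬ IsMulCommutative T)
    (hC : Subgroup.centralizer (T : Set G) = ⊥) {r : ℕ} [Fact r.Prime] (R : Sylow r G) (hR0 : (R : Subgroup G) ⊓ T ≠ ⊥)
    (huniq : ∃! M : Subgroup G, IsCoatom M ∧ (R : Subgroup G) ≤ M) : IsPGroup r (G ⧸ T) := by
  obtain ⟨M, ⟨hM, hRM⟩, huq⟩ := huniq
  have hle : ∀ K : Subgroup G, (R : Subgroup G) ≤ K → K ≠ ⊤ → K ≤ M := by
    intro K hK hK1
    obtain ⟨M', hM', hKM⟩ := (eq_top_or_exists_le_coatom K).resolve_left hK1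
    rwa [← huq M' ⟨hM', hK.trans hKM⟩]
  have h1 := hle _ (Subgroup.le_normalizer.trans (normalizer_le T R)) (normalizer_ne_top T hT hna R hR0)
  have h2 : (R : Subgroup G) ⊔ T = ⊤ := by
    by_contra h
    have h3 := hle _ le_sup_left h
    apply hM.1
    rw [eq_top_iff, ← frattini_inf T R]
    exact sup_le h1 (le_sup_right.trans h3)
  have h3 : (R : Subgroup G).map (QuotientGroup.mk' T) = ⊤ := by
    have := congrArg (Subgroup.map (QuotientGroup.mk' T)) h2
    rwa [Subgroup.map_sup, QuotientGroup.map_mk'_self, sup_bot_eq,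
      Subgroup.map_top_of_surjective _ (QuotientGroup.mk'_surjective T)] at this
  have h4 := R.isPGroup'.map (QuotientGroup.mk' T)
  rw [h3] at h4
  exact h4.of_equiv Subgroup.topEquiv

end Cfsg.Agent.S3859
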