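import Cfsg.Statements.S3858
import Mathlib
import Cfsg.Agent.S3859

set_option autoImplicit false
open Cfsg

namespace Cfsg.Agent.S3858

open scoped Pointwise

theorem exists_conj_le {G : Type*} [Group G] [Finite G] {r : ℕ} [Fact r.Prime] (R : Sylow r G)
    (M : Subgroup G) (hM : ¬ r ∣ M.index) : ∃ g : G, ((g • R : Sylow r G) : Subgroup G) ≤ M := by
  let Q : Sylow r M := default
  have h1 : ¬ r ∣ ((Q : Subgroup M).map M.subtype).index := by
    rw [Subgroup.index_map_subtype]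
    exact Nat.Prime.not_dvd_mul Fact.out Q.not_dvd_index hM
  let S := (Q.isPGroup'.map M.subtype).toSylow h1
  obtain ⟨g, hg⟩ := MulAction.exists_smul_eq G R S
  exact ⟨g, hg ▸ Subgroup.map_subtype_le _⟩

theorem exists_normalizer {G : Type*} [Group G] [Finite G] {r : ℕ} [Fact r.Prime] (R : Sylow r G)
    (M : Subgroup G) (g : G) (h1 : (R : Subgroup G) ≤ M) (h2 : (R : Subgroup G) ≤ MulAut.conj g • M) :
    ∃ n ∈ Subgroup.normalizer ((R : Subgroup G) : Set G), MulAut.conj g • M = MulAut.conj n • M := by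
  have h3 : ((g⁻¹ • R : Sylow r G) : Subgroup G) ≤ M := by
    rw [Sylow.coe_subgroup_smul, map_inv, Subgroup.pointwise_smul_subset_iff, inv_inv]
    exact h2
  obtain ⟨m, hm⟩ := MulAction.exists_smul_eq M (R.subtype h1) ((g⁻¹ • R).subtype h3)
  rw [Sylow.smul_subtype] at hm
  have h4 := Sylow.subtype_injective hm
  refine ⟨g * m, ?_, ?_⟩
  · apply Sylow.smul_eq_iff_mem_normalizer.1
    rw [mul_smul]
    have : (m : G) • R = g⁻¹ • R := h4
    rw [this, smul_inv_smul]
  · rw [map_mul, mul_smul]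
    congr 1
    exact (Subgroup.mem_normalizer_iff_map_conj_eq.1 (Subgroup.le_normalizer m.2)).symm

/-- Let G be a finite group with a normal non-abelian simple subgroup T whose centralizer is trivial (G almost simple with socle T), r a prime and R a Sylow r-subgroup of G meeting T nontrivially. Then R lies in exactly one maximal subgroup of G if and only if G has exactly one conjugacy class of maximal subgroups whose index is prime to r. -/
theorem result {G : Type*} [Group G] [Finite G] (T : Subgroup G) [T.Normal] (hT : IsSimpleGroup T) (hna : ¬ IsMulCommutative T)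
    (hC : Subgroup.centralizer (T : Set G) = ⊥) {r : ℕ} [Fact r.Prime] (R : Sylow r G) (hR0 : (R : Subgroup G) ⊓ T ≠ ⊥) :
    (∃! M : Subgroup G, IsCoatom M ∧ (R : Subgroup G) ≤ M) ↔
      ((∃ M : Subgroup G, IsCoatom M ∧ ¬ r ∣ M.index) ∧
        ∀ M₁ M₂ : Subgroup G, IsCoatom M₁ → ¬ r ∣ M₁.index → IsCoatom M₂ → ¬ r ∣ M₂.index → ∃ g : G, M₂ = M₁.map (MulAut.conj g).toMonoidHom) := by
  have hidx : ∀ M : Subgroup G, (R : Subgroup G) ≤ M → ¬ r ∣ M.index := fun M hM h =>
    R.not_dvd_index (h.trans (Subgroup.index_dvd_of_le hM))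
  have hco : ∀ (M : Subgroup G) (g : G), IsCoatom M → IsCoatom (MulAut.conj g • M) := fun M g hM =>
    ((MulAut.conj g).mapSubgroup.isCoatom_iff M).2 hM
  constructor
  · rintro ⟨M, ⟨hM, hRM⟩, huq⟩
    refine ⟨⟨M, hM, hidx M hRM⟩, fun M₁ M₂ h1 h1' h2 h2' => ?_⟩
    have key : ∀ K : Subgroup G, IsCoatom K → ¬ r ∣ K.index → ∃ g : G, K = MulAut.conj g • M := by
      intro K hK hK'
      obtain ⟨g, hg⟩ := exists_conj_le R K hK'
      rw [Sylow.coe_subgroup_smul, Subgroup.pointwise_smul_subset_iff, ← map_inv] at hg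
      refine ⟨g, ?_⟩
      rw [← huq _ ⟨hco K g⁻¹ hK, hg⟩, map_inv, smul_inv_smul]
    obtain ⟨g₁, rfl⟩ := key M₁ h1 h1'
    obtain ⟨g₂, rfl⟩ := key M₂ h2 h2'
    refine ⟨g₂ * g₁⁻¹, ?_⟩
    show _ = MulAut.conj (g₂ * g₁⁻¹) • MulAut.conj g₁ • M
    rw [← mul_smul, ← map_mul, inv_mul_cancel_right]
  · rintro ⟨-, hconj⟩
    obtain ⟨M, hM, hNM⟩ := (eq_top_or_exists_le_coatom _).resolve_left
      (Cfsg.Agent.S3859.normalizer_ne_top T hT hna R hR0)
    have hNM' := (Cfsg.Agent.S3859.normalizer_le T R).trans hNM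
    have hRM : (R : Subgroup G) ≤ M := Subgroup.le_normalizer.trans hNM'
    refine ⟨M, ⟨hM, hRM⟩, fun K hK => ?_⟩
    obtain ⟨g, hg⟩ := hconj M K hM (hidx M hRM) hK.1 (hidx K hK.2)
    change K = MulAut.conj g • M at hg
    obtain ⟨n, hn, hn'⟩ := exists_normalizer R M g hRM (hg ▸ hK.2)
    rw [hg, hn']
    exact Subgroup.mem_normalizer_iff_map_conj_eq.1 (Subgroup.le_normalizer (hNM' hn))

end Cfsg.Agent.S3858
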