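import Cfsg.Statements.S3862
import Cfsg.Agent.Lib.Core.Frattini
import Cfsg.Agent.Lib.Transfer.Frobenius
import Cfsg.Agent.Lib.BGI.Stable

set_option autoImplicit false
open Cfsg

namespace Cfsg.Agent.S3862

open Subgroup CfsgLib.Core
open scoped commutatorElement

/-- If every 2-element of the finite group G that is conjugate to its inverse lies in the centre of G, then G has a normal 2-complement. -/
theorem result {G : Type*} [Group G] [Finite G] (h : ∀ x : G, (∃ j : ℕ, orderOf x = 2 ^ j) → IsConj x x⁻¹ → x ∈ Subgroup.center G) : Cfsg.HasNormalPComplement 2 G := by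
  obtain ⟨P⟩ : Nonempty (Sylow 2 G) := inferInstance
  refine CfsgLib.Transfer.frobenius_of_forall_centralizer P fun Q hQP _ a ha hodd => ?_
  have hQ : IsPGroup 2 Q := P.isPGroup'.to_le hQP
  clear hQP
  rename_i hQ1
  clear hQ1
  induction Q using WellFoundedLT.induction with
  | ind Q ih =>
  by_cases hQ1 : Q = ⊥
  · intro y hy
    rw [hQ1] at hy
    rw [mem_bot.1 hy, one_mul, mul_one]
  have h1 := ih _ (map_frattini_lt hQ1) (normalizer_le_normalizer_map_frattini Q ha)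
    (hQ.to_le (map_subtype_le _))
  intro x hx
  have h2 : x ^ 2 * a = a * x ^ 2 := h1 _ (pow_mem_map_frattini hQ hx)
  have hw : ⁅a, x⁆ ∈ Q := by
    rw [commutatorElement_def]
    exact Q.mul_mem ((mem_normalizer_iff.1 ha x).1 hx) (Q.inv_mem hx)
  obtain ⟨k, hk⟩ := isPGroup_subgroup_iff.1 hQ _ hw
  obtain ⟨j, -, hj⟩ := (Nat.dvd_prime_pow Nat.prime_two).1 (orderOf_dvd_of_pow_eq_one hk)
  have h3 : ⁅a, x⁆ ∈ center G := by
    refine h _ ⟨j, hj⟩ (isConj_iff.2 ⟨x⁻¹, ?_⟩)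
    rw [commutatorElement_def]
    calc x⁻¹ * (a * x * a⁻¹ * x⁻¹) * x⁻¹⁻¹ = x⁻¹ * (a * x ^ 2) * x⁻¹ * a⁻¹ := by group
      _ = (a * x * a⁻¹ * x⁻¹)⁻¹ := by rw [← h2]; group
  refine (CfsgLib.BGI.commute_of_commute_commutator (mem_center_iff.1 h3 a) ?_).symm.eq
  rw [hj]
  exact hodd.pow_right j

end Cfsg.Agent.S3862
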