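import Cfsg.Statements.S3864
import Cfsg.Agent.Lib.DihSyl.Fusion
import Cfsg.Agent.Lib.TwoGrp.Classes
import Cfsg.Agent.Lib.Transfer.Focal

set_option autoImplicit false
open Cfsg

namespace Cfsg.Agent.S3864

open Subgroup CfsgLib CfsgLib.DihSyl

theorem card_conv {G : Type*} [Group G] :
    Nat.card {C : ConjClasses G // ∃ g : G, ConjClasses.mk g = C ∧ orderOf g = 2} =
    Nat.card {C : ConjClasses G // ∃ t : G, orderOf t = 2 ∧ ConjClasses.mk t = C} := by
  simp only [and_comm]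

theorem no4 {G : Type*} [Group G] [Finite G] {S : Sylow 2 G} {m : ℕ} {r s : G}
    (h : IsDih (S : Subgroup G) (4 * m) r s) (i : ℤ) (hc : IsConj (r ^ (2 * m : ℤ)) (r ^ i * s))
    (N : Subgroup G) (hN : N.Normal) : N.index ≠ 4 := by
  intro h4
  have hcomm : IsMulCommutative (G ⧸ N) :=
    IsPGroup.isMulCommutative_of_card_eq_prime_sq (p := 2) (by rw [← index_eq_card, h4]; rfl)
  have hr2 : r * r ∈ N := by
    rw [← QuotientGroup.eq_one_iff]
    have e : r * r = r * s * r⁻¹ * s⁻¹ := by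
      calc r * r = r * (s * r * s⁻¹)⁻¹ := by rw [h.conj, inv_inv]
        _ = _ := by group
    rw [e]
    simp only [QuotientGroup.mk_mul, QuotientGroup.mk_inv]
    rw [hcomm.is_comm.comm (r : G ⧸ N) s]
    group
  have hz : r ^ (2 * m : ℤ) ∈ N := by
    rw [zpow_mul, zpow_two]; exact zpow_mem hr2 _
  have ht : r ^ i * s ∈ N := by
    obtain ⟨g, hg⟩ := isConj_iff.1 hc
    rw [← hg]; exact hN.conj_mem _ hz g
  have hS : (S : Subgroup G) ≤ N ⊔ zpowers r := by
    intro g hg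
    have hr : r ∈ N ⊔ zpowers r := mem_sup_right (mem_zpowers r)
    have hs : s ∈ N ⊔ zpowers r :=
      (mul_mem_cancel_left (zpow_mem hr i)).1 (mem_sup_left ht)
    obtain ⟨j, rfl | rfl⟩ := (h.mem g).1 hg
    · exact zpow_mem hr j
    · exact mul_mem (zpow_mem hr j) hs
  have h1 : (N ⊔ zpowers r).index ∣ 2 ^ 2 := by
    rw [show 2 ^ 2 = N.index from h4.symm]; exact index_dvd_of_le le_sup_left
  have h2 : ¬ 2 ∣ (N ⊔ zpowers r).index := fun h' => S.not_dvd_index (h'.trans (index_dvd_of_le hS))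
  have h3 : N ⊔ zpowers r = ⊤ := by
    rw [← index_eq_one]
    exact (((Nat.Prime.coprime_iff_not_dvd Nat.prime_two).2 h2).symm.pow_right 2).eq_one_of_dvd h1
  by_cases hr : r ∈ N
  · rw [sup_eq_left.2 (zpowers_le.2 hr)] at h3
    rw [h3, index_top] at h4
    omega
  · have := TwoGrp.relIndex_sup_zpowers (le_normalizer_of_normal (mem_top r)) hr2 hr
    rw [h3, relIndex_top_right] at this
    omega

/-- Let G be a finite group whose Sylow 2-subgroups are dihedral of order 2 ^ n with n ≥ 3, and count the conjugacy classes of involutions of G. Then exactly one of the following holds: there is one class of involutions and no normal subgroup of index 2; there are two classes of involutions, a normal subgroup of index 2 and none of index 4; there are three classes of involutions and G has a normal 2-complement. -/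
theorem result {G : Type*} [Group G] [Finite G] (P : Sylow 2 G) (n : ℕ) (hn : 3 ≤ n) (hdih : Nonempty (↥(P : Subgroup G) ≃* DihedralGroup (2 ^ (n - 1)))) : (Nat.card {C : ConjClasses G // ∃ g : G, ConjClasses.mk g = C ∧ orderOf g = 2} = 1 ∧ ∀ N : Subgroup G, N.Normal → N.index ≠ 2) ∨ (Nat.card {C : ConjClasses G // ∃ g : G, ConjClasses.mk g = C ∧ orderOf g = 2} = 2 ∧ (∃ N : Subgroup G, N.Normal ∧ N.index = 2) ∧ ∀ N : Subgroup G, N.Normal → N.index ≠ 4) ∨ (Nat.card {C : ConjClasses G // ∃ g : G, ConjClasses.mk g = C ∧ orderOf g = 2} = 3 ∧ Cfsg.HasNormalPComplement 2 G) := by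
  obtain ⟨e⟩ := hdih
  obtain ⟨m, hm⟩ : ∃ m, 2 ^ (n - 1) = 4 * m :=
    ⟨2 ^ (n - 3), by rw [show n - 1 = 2 + (n - 3) by omega, pow_add]; rfl⟩
  have hm0 : 0 < m := by
    have : 0 < 2 ^ (n - 1) := by positivity
    omega
  obtain ⟨r, s, h⟩ := exists_isDih e
  rw [hm] at h
  obtain ⟨hz2, hz1⟩ := h.half (m := 2 * m) (by ring) (by omega)
  push_cast at hz2 hz1
  set z := r ^ (2 * m : ℤ) with hz
  have hzo : orderOf z = 2 := orderOf_eq_prime (by rw [pow_two, hz2]) hz1
  have hzr : z ∈ zpowers r := ⟨_, rfl⟩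
  have hinS : ∀ t ∈ (P : Subgroup G), t * t = 1 → t ≠ 1 →
      t = z ∨ IsConj (r ^ (0 : ℤ) * s) t ∨ IsConj (r ^ (1 : ℤ) * s) t := by
    intro t ht h2 h1
    obtain ⟨j, rfl | rfl⟩ := (h.mem t).1 ht
    · exact Or.inl (h.eq_of_sq ⟨_, rfl⟩ hzr h2 hz2 h1 hz1)
    · right
      rcases Int.even_or_odd' j with ⟨k, rfl | rfl⟩
      · left
        exact isConj_iff.2 ⟨r ^ k, by rw [h.rpow_conj_rpows, zero_add]⟩
      · right
        exact isConj_iff.2 ⟨r ^ k, by rw [h.rpow_conj_rpows, add_comm]⟩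
  have hall : ∀ t : G, orderOf t = 2 →
      IsConj z t ∨ IsConj (r ^ (0 : ℤ) * s) t ∨ IsConj (r ^ (1 : ℤ) * s) t := by
    intro t ht
    obtain ⟨u, hu, hut, ho⟩ := TwoGrp.exists_isConj_mem_sylow P (j := 1) (t := t) (by simpa using ht)
    rw [ht] at ho
    rcases hinS u hu (by rw [← sq, ← ho, pow_orderOf_eq_one]) (by rintro rfl; simp at ho) with h1 | h1 | h1
    · exact Or.inl (h1 ▸ hut)
    · exact Or.inr (Or.inl (h1.trans hut))
    · exact Or.inr (Or.inr (h1.trans hut))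
  rw [card_conv]
  by_cases hG : ∀ M : Subgroup G, M.index ≠ 2
  · left
    exact ⟨TwoGrp.card_classes_eq_one hzo fun t ht => h.isConj_of_no_index_two hG hzo ht,
      fun N _ => hG N⟩
  right
  push Not at hG
  obtain ⟨M, hM⟩ := hG
  have hnot : ¬ ∀ t : G, orderOf t = 2 → IsConj z t := fun hc =>
    h.index_ne_two_of_isConj (by omega) (fun a b ha hb => (hc a ha).symm.trans (hc b hb)) M hM
  have hMn : ∃ N : Subgroup G, N.Normal ∧ N.index = 2 := ⟨M, M.normal_of_index_eq_two hM, hM⟩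
  by_cases ha : IsConj z (r ^ (0 : ℤ) * s)
  · left
    refine ⟨TwoGrp.card_classes_eq_two hzo (h.orderOf_rpows 1) (fun hb => hnot fun t ht => ?_)
      fun t ht => ?_, hMn, no4 h 0 ha⟩
    · rcases hall t ht with h1 | h1 | h1
      exacts [h1, ha.trans h1, hb.trans h1]
    · rcases hall t ht with h1 | h1 | h1
      exacts [Or.inl h1, Or.inl (ha.trans h1), Or.inr h1]
  by_cases hb : IsConj z (r ^ (1 : ℤ) * s)
  · left
    refine ⟨TwoGrp.card_classes_eq_two hzo (h.orderOf_rpows 0) ha fun t ht => ?_, hMn, no4 h 1 hb⟩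
    rcases hall t ht with h1 | h1 | h1
    exacts [Or.inl h1, Or.inr h1, Or.inl (hb.trans h1)]
  right
  have hnpc : HasNormalPComplement 2 G := by
    apply Transfer.frobenius_of_forall_centralizer P
    intro Q hQ _ g hg hodd
    by_cases hQ4 : IsKleinFour Q
    swap
    · exact h.mem_centralizer_of_odd hm.symm hQ (Nat.coprime_two_right.1 hodd) hg (Or.inl hQ4)
    refine h.mem_centralizer_of_odd hm.symm hQ (Nat.coprime_two_right.1 hodd) hg (Or.inr ?_)
    intro w hw hw2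
    by_cases hw1 : w = 1
    · simp [hw1]
    rw [h.eq_of_sq hw hzr hw2 hz2 hw1 hz1]
    obtain ⟨z', hz'r, hz'2, hz'1, i, hQm⟩ := h.exists_of_isKleinFour hQ hQ4
    have hzQ : z ∈ Q := by
      rw [← h.eq_of_sq hz'r hzr hz'2 hz2 hz'1 hz1]
      exact (hQm _).2 (Or.inr (Or.inl rfl))
    have hc : IsConj z (g * z * g⁻¹) := isConj_iff.2 ⟨g, rfl⟩
    rcases hinS (g * z * g⁻¹) (hQ ((mem_normalizer_iff.1 hg z).1 hzQ))
      (by rw [conj_mul, hz2]; group) (by rwa [Ne, conj_eq_one_iff]) with h1 | h1 | h1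
    · exact h1
    · exact absurd (hc.trans h1.symm) ha
    · exact absurd (hc.trans h1.symm) hb
  refine ⟨TwoGrp.card_classes_eq_three hzo (h.orderOf_rpows 0) (h.orderOf_rpows 1) ha hb
    (fun hab => ?_) hall, hnpc⟩
  obtain ⟨g, hg⟩ := isConj_iff.1 hab
  obtain ⟨u, hu, hu'⟩ := (Transfer.hasNormalPComplement_iff_control P).1 hnpc _ (h.rpows_mem 0) g
    (hg ▸ h.rpows_mem 1)
  obtain ⟨j, hj⟩ := h.conj_rpows hu 0
  rw [hg, hj, mul_left_inj, h.eq_iff] at hu'
  push_cast at hu'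
  have : (2 : ℤ) ∣ 1 - (0 + 2 * j) := Dvd.dvd.trans ⟨2 * m, by ring⟩ hu'
  omega

end Cfsg.Agent.S3864
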