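import Cfsg.Statements.S3865
import Mathlib
import Cfsg.Agent.Lib.MaxCl.Dich

set_option autoImplicit false
open Cfsg

namespace Cfsg.Agent.S3865

open CfsgLib.MaxCl CfsgLib.Tech in

/-- Let G be a finite group whose Sylow p-subgroup P has order p ^ n with n ≥ 2 and nilpotency class n - 1 (maximal class), whose largest normal subgroup of order prime to p is trivial, and which has no proper normal subgroup of index prime to p. Then either some x ∈ P has a centralizer in G whose order has p-part p ^ 2, or G is quasisimple with centre of order at most p. -/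
theorem result {G : Type*} [Group G] [Finite G] (p : ℕ) [Fact p.Prime] (P : Sylow p G) (n : ℕ) (hP : Nat.card P = p ^ n) (hn : 2 ≤ n) (hmax : Group.nilpotencyClass ↥(P : Subgroup G) = n - 1) (hcore : Cfsg.pPrimeCore p G = ⊥) (hres : ∀ N : Subgroup G, N.Normal → (N.index).Coprime p → N = ⊤) : (∃ x ∈ (P : Subgroup G), (Nat.card (Subgroup.centralizer ({x} : Set G))).factorization p = 2) ∨ (Cfsg.IsQuasisimple G ∧ Nat.card (Subgroup.center G) ≤ p) := by
  rcases hn.eq_or_lt with rfl | hn
  · refine Or.inl ⟨1, one_mem _, ?_⟩
    have h1 : Subgroup.centralizer ({1} : Set G) = ⊤ :=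
      Subgroup.centralizer_eq_top_iff_subset.2 (by simp)
    rw [h1, Subgroup.card_top]
    exact (Nat.pow_right_injective (Fact.out : p.Prime).two_le
      (hP.symm.trans P.card_eq_multiplicity)).symm
  · exact dichotomy (IsSylowIn.of_sylow_top P) ⟨hn, hP, hmax⟩ hcore hres
end Cfsg.Agent.S3865
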