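import Cfsg.Statements.S3880
import Mathlib
import Cfsg.Agent.Lib.Metacyc.Classes

set_option autoImplicit false
open Cfsg

namespace Cfsg.Agent.S3880

/-- Let p be an odd prime and G a finite metacyclic p-group (G has a cyclic normal subgroup with cyclic quotient). Then a subgroup L of G is abelian if and only if |L| ≤ |G : G'|, and L is a maximal abelian subgroup of G if and only if |L| = |G : G'|. -/
theorem result {G : Type*} [Group G] [Finite G] {p : ℕ} [Fact p.Prime] (hp : p ≠ 2) (hG : IsPGroup p G) (hmc : Cfsg.IsMetacyclic G) (L : Subgroup G) :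
    (IsMulCommutative ↥L ↔ Nat.card ↥L ≤ (commutator G).index) ∧
      (Maximal (fun K : Subgroup G => IsMulCommutative ↥K) L ↔ Nat.card ↥L = (commutator G).index) := by
  obtain ⟨a, b, h⟩ := CfsgLib.Metacyc.exists_mc Fact.out hp hG hmc
  refine ⟨h.isMulCommutative_iff_card_le L, ?_, fun hL => ?_⟩
  · intro hmax
    have h1 := (h.isMulCommutative_iff_card_le L).1 hmax.1
    by_contra hne
    have hlt := lt_of_le_of_ne h1 hne
    obtain ⟨k, hk⟩ := (hG.to_subgroup L).exists_card_eq
    obtain ⟨m, hm⟩ := hG.index (commutator G)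
    rw [hk, hm, Nat.pow_lt_pow_iff_right h.prime.one_lt] at hlt
    have hdvd : p ^ (k + 1) ∣ Nat.card G :=
      (pow_dvd_pow p hlt).trans (hm ▸ Subgroup.index_dvd_card _)
    obtain ⟨K, hK, hLK⟩ := Sylow.exists_subgroup_card_pow_succ hdvd hk
    have h2 : IsMulCommutative K := by
      rw [h.isMulCommutative_iff_card_le, hK, hm]
      exact Nat.pow_le_pow_right h.prime.pos hlt
    have h3 := Subgroup.card_le_of_le (hmax.2 h2 hLK)
    rw [hK, hk, Nat.pow_le_pow_iff_right h.prime.one_lt] at h3
    omega
  · refine ⟨(h.isMulCommutative_iff_card_le L).2 hL.le, fun K hK hLK => ?_⟩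
    exact (Subgroup.eq_of_le_of_card_ge hLK
      (((h.isMulCommutative_iff_card_le K).1 hK).trans hL.ge)).ge

end Cfsg.Agent.S3880
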