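import Cfsg.Statements.S3881
import Mathlib
import Cfsg.Agent.Lib.Metacyc.Classes

set_option autoImplicit false
open Cfsg

namespace Cfsg.Agent.S3881

open scoped commutatorElement

/-- Let p be an odd prime and G a finite metacyclic p-group (G has a cyclic normal subgroup with cyclic quotient). Suppose G is non-abelian with |G'| = p^n. Then for 1 ≤ i ≤ n the number of elements of G whose conjugacy class has exactly p^i elements is |Z(G)| · (p^(2i) − p^(2i−2)). -/
theorem result {G : Type*} [Group G] [Finite G] {p : ℕ} [Fact p.Prime] (hp : p ≠ 2) (hG : IsPGroup p G) (hmc : Cfsg.IsMetacyclic G) (n : ℕ) (hn : n ≠ 0) (hGn : Nat.card ↥(commutator G) = p ^ n) (i : ℕ) (hi : 1 ≤ i) (hin : i ≤ n) :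
    Nat.card {g : G // (Subgroup.centralizer ({g} : Set G)).index = p ^ i} =
      Nat.card ↥(Subgroup.center G) * (p ^ (2 * i) - p ^ (2 * i - 2)) := by
  obtain ⟨a, b, h⟩ := CfsgLib.Metacyc.exists_mc Fact.out hp hG hmc
  have hc : orderOf ⁅a, b⁆ = p ^ n := h.card_commutator ▸ hGn
  have hZ := (Subgroup.center G).index_mul_card
  rw [h.index_center, hGn] at hZ
  have key : ∀ j ≤ n, Nat.card ↥(Subgroup.zpowers (a ^ p ^ (n - j)) ⊔ Subgroup.zpowers (b ^ p ^ (n - j))) =
      Nat.card (Subgroup.center G) * p ^ (2 * j) := by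
    intro j hj
    have e := (Subgroup.zpowers (a ^ p ^ (n - j)) ⊔ Subgroup.zpowers (b ^ p ^ (n - j))).index_mul_card
    rw [h.index_sup (hc ▸ pow_dvd_pow p (Nat.sub_le n j)), ← hZ] at e
    apply Nat.eq_of_mul_eq_mul_left (Nat.pow_pos (n := 2) (Nat.pow_pos (n := n - j) h.prime.pos))
    rw [e]
    obtain ⟨d, rfl⟩ := Nat.exists_eq_add_of_le hj
    rw [Nat.add_sub_cancel_left]
    ring
  have mem : ∀ j ≤ n, ∀ g : G,
      g ∈ Subgroup.zpowers (a ^ p ^ (n - j)) ⊔ Subgroup.zpowers (b ^ p ^ (n - j)) ↔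
        (Subgroup.centralizer ({g} : Set G)).index ≤ p ^ j := by
    intro j hj g
    rw [h.mem_sup_iff_index_le hc (Nat.sub_le n j), Nat.sub_sub_self hj]
  obtain ⟨j, rfl⟩ := Nat.exists_eq_add_of_le' hi
  set U := Subgroup.zpowers (a ^ p ^ (n - (j + 1))) ⊔ Subgroup.zpowers (b ^ p ^ (n - (j + 1)))
  set V := Subgroup.zpowers (a ^ p ^ (n - j)) ⊔ Subgroup.zpowers (b ^ p ^ (n - j))
  have hset : {g : G | (Subgroup.centralizer ({g} : Set G)).index = p ^ (j + 1)} =
      (U : Set G) \ (V : Set G) := by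
    ext g
    simp only [Set.mem_setOf_eq, Set.mem_diff, SetLike.mem_coe]
    rw [mem _ hin, mem j (by omega)]
    obtain ⟨m, hm⟩ := hG.index (Subgroup.centralizer ({g} : Set G))
    rw [hm, Nat.pow_le_pow_iff_right h.prime.one_lt, Nat.pow_le_pow_iff_right h.prime.one_lt,
      Nat.pow_right_inj h.prime.one_lt]
    omega
  have hVU : (V : Set G) ⊆ U := by
    intro g hg
    rw [SetLike.mem_coe, mem j (by omega)] at hg
    rw [SetLike.mem_coe, mem _ hin]
    exact hg.trans (Nat.pow_le_pow_right h.prime.pos (Nat.le_succ j))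
  change Nat.card {g : G | (Subgroup.centralizer ({g} : Set G)).index = p ^ (j + 1)} = _
  rw [hset, Nat.card_coe_set_eq, Set.ncard_diff hVU, ← Nat.card_coe_set_eq, ← Nat.card_coe_set_eq]
  change Nat.card U - Nat.card V = _
  rw [key _ hin, key j (by omega), Nat.mul_sub]
  rfl

end Cfsg.Agent.S3881
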