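import Cfsg.Statements.S3883
import Mathlib
import Cfsg.Agent.Lib.Metacyc.Classes

set_option autoImplicit false
open Cfsg

namespace Cfsg.Agent.S3883

open scoped commutatorElement

/-- Let p be an odd prime and G a finite metacyclic p-group (G has a cyclic normal subgroup with cyclic quotient). Suppose G is non-abelian. Then an element g of G lies outside the Frattini subgroup if and only if its centralizer C_G(g) is abelian. -/
theorem result {G : Type*} [Group G] [Finite G] {p : ℕ} [Fact p.Prime] (hp : p ≠ 2) (hG : IsPGroup p G) (hmc : Cfsg.IsMetacyclic G) (hna : ¬ IsMulCommutative G) (g : G) :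
    g ∉ frattini G ↔ IsMulCommutative ↥(Subgroup.centralizer ({g} : Set G)) := by
  obtain ⟨a, b, h⟩ := CfsgLib.Metacyc.exists_mc Fact.out hp hG hmc
  obtain ⟨n, hn⟩ := h.cyc.exists_orderOf ⁅a, b⁆
  have hn0 : n ≠ 0 := by
    rintro rfl
    have := h.card_commutator
    rw [hn, pow_zero, Subgroup.card_eq_one, commutator_eq_bot_iff_center_eq_top] at this
    exact hna ⟨⟨fun a b => Subgroup.mem_center_iff.1 (this ▸ Subgroup.mem_top b) a⟩⟩
  have e := h.mem_sup_iff_index_le hn (Nat.one_le_iff_ne_zero.2 hn0) g
  rw [pow_one] at e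
  obtain ⟨m, hm⟩ := hG.index (Subgroup.centralizer ({g} : Set G))
  rw [h.frattini_eq, e, h.isMulCommutative_iff, h.card_commutator, hn, hm,
    Nat.pow_le_pow_iff_right h.prime.one_lt, Nat.pow_dvd_pow_iff_le_right h.prime.one_lt]
  omega

end Cfsg.Agent.S3883
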