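import Cfsg.Statements.S3886
import Mathlib
import Cfsg.Agent.S3880

set_option autoImplicit false
open Cfsg

namespace Cfsg.Agent.S3886

open scoped commutatorElement

theorem exists_mc_subgroup {G : Type*} [Group G] [Finite G] {p : ℕ} {a b : G}
    (h : CfsgLib.Metacyc.MC p a b) (R : Subgroup G) : ∃ a' b' : R, CfsgLib.Metacyc.MC p a' b' := by
  obtain ⟨i, hi, hL⟩ := h.exists_gen R
  have hau := (CfsgLib.Metacyc.pow_mem_iff_relIndex_dvd R a _).2 dvd_rfl
  refine ⟨⟨_, hau⟩, ⟨_, hi⟩, h.prime, h.ne_two, h.pgroup.to_subgroup R, ?_, fun g => ?_⟩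
  · have := h.normal_zpowers_pow (R.relIndex (Subgroup.zpowers a))
    refine ⟨fun x hx g => ?_⟩
    obtain ⟨k, rfl⟩ := hx
    obtain ⟨m, hm⟩ := this.conj_mem _ (Subgroup.zpow_mem _ (Subgroup.mem_zpowers _) k) (g : G)
    exact ⟨m, Subtype.ext hm⟩
  · obtain ⟨x, y, e⟩ := hL g g.2
    exact ⟨x, y, Subtype.ext e⟩

theorem card_mul_card_center {G : Type*} [Group G] [Finite G] {p : ℕ} {a b : G}
    (h : CfsgLib.Metacyc.MC p a b) (R : Subgroup G) (hR : ¬ IsMulCommutative R) :
    Nat.card R * Nat.card (Subgroup.center R) = (commutator G).index ^ 2 := by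
  have := Fact.mk h.prime
  obtain ⟨a', b', h'⟩ := exists_mc_subgroup h R
  have e1 := (Subgroup.center R).index_mul_card
  rw [h'.index_center] at e1
  have hd : R.index ∣ orderOf ⁅a, b⁆ := by
    rw [h.isMulCommutative_iff, h.card_commutator] at hR
    obtain ⟨n, hn⟩ := h.cyc.exists_orderOf ⁅a, b⁆
    obtain ⟨m, hm⟩ := h.pgroup.index R
    rw [hn, hm, Nat.pow_dvd_pow_iff_le_right h.prime.one_lt] at hR ⊢
    omega
  have e2 : Nat.card (commutator R) * R.index = Nat.card (commutator G) := by
    rw [← CfsgLib.Core.card_map_subtype, Subgroup.map_subtype_commutator, h.commutator_subgroup,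
      Nat.card_zpowers, orderOf_pow_of_dvd Subgroup.index_ne_zero_of_finite hd, h.card_commutator,
      Nat.div_mul_cancel hd]
  have e3 := (commutator G).index_mul_card
  rw [← R.index_mul_card, ← e2, ← mul_assoc, mul_comm R.index] at e3
  have e4 := Nat.eq_of_mul_eq_mul_right
    (Nat.pos_of_ne_zero (Subgroup.index_ne_zero_of_finite (H := R))) e3
  apply Nat.eq_of_mul_eq_mul_left (Nat.pow_pos (n := 2) (Nat.card_pos (α := commutator R)))
  calc _ = Nat.card R * (Nat.card (commutator R) ^ 2 * Nat.card (Subgroup.center R)) := by ring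
    _ = _ := by rw [e1, ← e4]; ring

/-- Let p be an odd prime and G a finite metacyclic p-group (G has a cyclic normal subgroup with cyclic quotient). Then the largest value of |R| · |Z(R)| over subgroups R of G is |G : G'|², and the subgroups attaining it (the centrally large subgroups) are exactly the non-abelian subgroups together with the maximal abelian subgroups of G. -/
theorem result {G : Type*} [Group G] [Finite G] {p : ℕ} [Fact p.Prime] (hp : p ≠ 2) (hG : IsPGroup p G) (hmc : Cfsg.IsMetacyclic G) : Cfsg.maxCentralProduct G = (commutator G).index ^ 2 ∧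
    ∀ R : Subgroup G, Cfsg.IsCentrallyLarge R ↔ (¬ IsMulCommutative ↥R ∨ Maximal (fun K : Subgroup G => IsMulCommutative ↥K) R) := by
  obtain ⟨a, b, h⟩ := CfsgLib.Metacyc.exists_mc Fact.out hp hG hmc
  have hab : ∀ R : Subgroup G, IsMulCommutative R →
      Nat.card R * Nat.card (Subgroup.center R) = Nat.card R ^ 2 := by
    intro R hR
    rw [Subgroup.center_eq_top_iff.2 hR, Subgroup.card_top, pow_two]
  have hmax : Cfsg.maxCentralProduct G = (commutator G).index ^ 2 := by
    apply IsGreatest.csSup_eq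
    constructor
    · obtain ⟨m, hm⟩ := hG.index (commutator G)
      obtain ⟨K, hK⟩ := Sylow.exists_subgroup_card_pow_prime p
        (hm ▸ Subgroup.index_dvd_card (commutator G) : p ^ m ∣ Nat.card G)
      refine ⟨K, ?_⟩
      rw [hab K ((h.isMulCommutative_iff_card_le K).2 (by rw [hK, hm])), hK, hm]
    · rintro _ ⟨K, rfl⟩
      by_cases hK : IsMulCommutative K
      · rw [hab K hK]
        exact Nat.pow_le_pow_left ((h.isMulCommutative_iff_card_le K).1 hK) 2
      · exact (card_mul_card_center h K hK).le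
  refine ⟨hmax, fun R => ?_⟩
  unfold Cfsg.IsCentrallyLarge
  rw [hmax, (Cfsg.Agent.S3880.result hp hG hmc R).2]
  by_cases hR : IsMulCommutative R
  · rw [hab R hR, Nat.pow_left_inj two_ne_zero]
    simp [hR]
  · simp [hR, card_mul_card_center h R hR]

end Cfsg.Agent.S3886
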