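import Cfsg.Statements.S3887
import Mathlib
import Cfsg.Agent.Lib.Metacyc.Classes

set_option autoImplicit false
open Cfsg

namespace Cfsg.Agent.S3887

/-- Let p be an odd prime and G a finite metacyclic p-group (G has a cyclic normal subgroup with cyclic quotient). Then a subgroup R of G maximizes |R| · |C_G(R)| over all subgroups of G if and only if R contains the center of G. -/
theorem result {G : Type*} [Group G] [Finite G] {p : ℕ} [Fact p.Prime] (hp : p ≠ 2) (hG : IsPGroup p G) (hmc : Cfsg.IsMetacyclic G) (R : Subgroup G) : Cfsg.IsCentralizerLarge R ↔ Subgroup.center G ≤ R := by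
  obtain ⟨a, b, h⟩ := CfsgLib.Metacyc.exists_mc Fact.out hp hG hmc
  have hC : ∀ K : Subgroup G, Subgroup.centralizer ((K ⊔ Subgroup.center G : Subgroup G) : Set G) =
      Subgroup.centralizer (K : Set G) := by
    intro K
    rw [CfsgLib.Core.centralizer_sup, Subgroup.centralizer_eq_top_iff_subset.2 subset_rfl, inf_top_eq]
  have key : ∀ K : Subgroup G, Nat.card ↥(K ⊔ Subgroup.center G) *
      Nat.card (Subgroup.centralizer (K : Set G)) = Nat.card G * Nat.card (Subgroup.center G) := by
    intro K
    rw [← hC, h.card_mul_card_centralizer le_sup_right]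
  have hmax : Cfsg.maxCentralizerProduct G = Nat.card G * Nat.card (Subgroup.center G) := by
    apply IsGreatest.csSup_eq
    refine ⟨⟨⊤, h.card_mul_card_centralizer le_top⟩, ?_⟩
    rintro _ ⟨K, rfl⟩
    rw [← key K]
    exact Nat.mul_le_mul_right _ (Subgroup.card_le_of_le le_sup_left)
  unfold Cfsg.IsCentralizerLarge
  rw [hmax]
  refine ⟨fun hR => ?_, fun hR => h.card_mul_card_centralizer hR⟩
  rw [← key R] at hR
  have := Subgroup.eq_of_le_of_card_ge (le_sup_left : R ≤ R ⊔ Subgroup.center G)
    (Nat.eq_of_mul_eq_mul_right Nat.card_pos hR).ge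
  rw [this]
  exact le_sup_right

end Cfsg.Agent.S3887
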