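import Cfsg.Statements.S3900
import Cfsg.Agent.Lib.Core.Frattini
import Cfsg.Agent.Lib.AltSec.Sec
import Cfsg.Agent.Lib.Invol.BaerSuzuki
import Cfsg.Agent.S0071
import Cfsg.Agent.S0205

set_option autoImplicit false
open Cfsg

namespace Cfsg.Agent.S3900

open Subgroup CfsgLib.Core

section Aux

variable {G : Type*} [Group G]

/-- left-normed commutators starting in `Q` with further entries in the normalizer of `Q` -/
def RV (Q : Subgroup G) : ℕ → G → Prop
  | 0, x => x ∈ Q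
  | k + 1, x => ∃ u, RV Q k u ∧ ∃ y ∈ normalizer (Q : Set G), x = u * y * u⁻¹ * y⁻¹

theorem cm_mem {Q : Subgroup G} {u y : G} (hu : u ∈ Q) (hy : y ∈ normalizer (Q : Set G)) :
    u * y * u⁻¹ * y⁻¹ ∈ Q := by
  have := mul_mem hu ((mem_normalizer_iff.1 hy _).1 (inv_mem hu))
  simpa only [mul_assoc] using this

theorem RV.mem {Q : Subgroup G} : ∀ {k : ℕ} {x : G}, RV Q k x → x ∈ Q
  | 0, _, h => h
  | _ + 1, _, ⟨_, hu, _, hy, e⟩ => e ▸ cm_mem hu.mem hy

theorem RV.anti {Q : Subgroup G} : ∀ {k : ℕ} {x : G}, RV Q (k + 1) x → RV Q k x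
  | 0, _, h => h.mem
  | _ + 1, _, ⟨u, hu, y, hy, e⟩ => ⟨u, hu.anti, y, hy, e⟩

theorem mem_norm_top (y : G) : y ∈ normalizer ((⊤ : Subgroup G) : Set G) := le_normalizer (mem_top y)

theorem RV.map {H : Type*} [Group H] (f : G →* H) {Q : Subgroup G} : ∀ {k : ℕ} {x : G}, RV Q k x → RV ⊤ k (f x)
  | 0, _, _ => mem_top _
  | _ + 1, _, ⟨u, hu, y, _, e⟩ => ⟨f u, hu.map f, f y, mem_norm_top _, by simp [e]⟩

theorem RV.top {Q : Subgroup G} {k : ℕ} {x : G} (h : RV Q k x) : RV ⊤ k x := h.map (MonoidHom.id G)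

theorem RV.inv : ∀ {k : ℕ} {x : G}, RV ⊤ k x → RV ⊤ k x⁻¹
  | 0, _, _ => mem_top _
  | k + 1, _, ⟨u, hu, y, hy, e⟩ => by
    have : RV ⊤ (k + 1) (u⁻¹ * y * u⁻¹⁻¹ * y⁻¹) := ⟨u⁻¹, hu.inv, y, hy, rfl⟩
    convert this.map (MulAut.conj u).toMonoidHom using 1
    simp [e, mul_assoc]

theorem RV.lift {H : Type*} [Group H] {f : G →* H} {Q : Subgroup G} {E : Subgroup H} (h1 : Q.map f = E)
    (h2 : ∀ b ∈ normalizer (E : Set H), ∃ g ∈ normalizer (Q : Set G), f g = b) :
    ∀ {k : ℕ} {x : H}, RV E k x → ∃ y, RV Q k y ∧ f y = x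
  | 0, _, h => by
    obtain ⟨y, hy, e⟩ := (h1.ge h : _ ∈ Q.map f)
    exact ⟨y, hy, e⟩
  | _ + 1, _, ⟨u, hu, b, hb, e⟩ => by
    obtain ⟨w, hw, e1⟩ := hu.lift h1 h2
    obtain ⟨g, hg, rfl⟩ := h2 b hb
    exact ⟨_, ⟨w, hw, g, hg, rfl⟩, by simp [e, e1]⟩

theorem RV.exists_fun : ∀ {k : ℕ} {x : G}, RV ⊤ k x → ∃ f : Fin (k + 1) → G,
    x = ((List.ofFn f).tail).foldl (fun a b => a * b * a⁻¹ * b⁻¹) (f 0)
  | 0, x, _ => ⟨fun _ => x, by simp⟩
  | k + 1, _, ⟨u, hu, y, _, e⟩ => by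
    obtain ⟨f, hf⟩ := hu.exists_fun
    refine ⟨Fin.snoc f y, ?_⟩
    rw [List.ofFn_succ_last, List.tail_append_of_ne_nil (by simp), List.foldl_append]
    simp only [Fin.snoc_castSucc, Fin.snoc_last, List.foldl_cons, List.foldl_nil]
    rw [show (0 : Fin (k + 1 + 1)) = Fin.castSucc 0 from rfl, Fin.snoc_castSucc, ← hf, e]

theorem foldl_mem : ∀ (l : List G) (n : ℕ) (a : G), a ∈ (⊤ : Subgroup G).lowerCentralSeries n →
    l.foldl (fun a b => a * b * a⁻¹ * b⁻¹) a ∈ (⊤ : Subgroup G).lowerCentralSeries (n + l.length)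
  | [], _, _, h => h
  | b :: l, n, a, h => by
    rw [List.foldl_cons, List.length_cons, ← add_assoc, add_right_comm]
    exact foldl_mem l (n + 1) _ (commutator_mem_commutator h (mem_top b))

theorem le_ucs {Q : Subgroup G} [Q.Normal] {k : ℕ} (h : ∀ x, RV Q k x → x = 1) :
    Q ≤ Subgroup.upperCentralSeries G k := by
  have key : ∀ j i, i + j = k → ∀ x, RV Q i x → x ∈ Subgroup.upperCentralSeries G j := by
    intro j
    induction j with
    | zero => exact fun i e x hx => h x (by simpa [← e] using hx)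
    | succ j ih =>
      exact fun i e x hx => Subgroup.mem_upperCentralSeries_succ_iff.2 fun y => ih (i + 1) (by omega) _
        ⟨x, hx, y, (normalizer_eq_top Q).ge (mem_top y), rfl⟩
  exact fun x hx => key k 0 (zero_add k) x hx

/-- a solvable group whose Fitting subgroup is hypercentral is nilpotent -/
theorem ucs_eq_top [Finite G] [Group.IsSolvable G] {k : ℕ} (h : fittingSubgroup G ≤ Subgroup.upperCentralSeries G k) :
    Subgroup.upperCentralSeries G k = ⊤ := by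
  have := fittingSubgroup_normal G
  rw [eq_top_iff]
  refine le_trans ?_ h
  by_contra hne
  have : Nontrivial (G ⧸ fittingSubgroup G) :=
    QuotientGroup.nontrivial_iff.2 fun e => hne e.ge
  refine fittingSubgroup_ne_bot (G := G ⧸ fittingSubgroup G) ?_
  have := fittingSubgroup_normal (G ⧸ fittingSubgroup G)
  let N := (fittingSubgroup (G ⧸ fittingSubgroup G)).comap (QuotientGroup.mk' (fittingSubgroup G))
  obtain ⟨n, hn⟩ := (isNilpotent_iff_lowerCentralSeries _).1 (isNilpotent_fittingSubgroup (G ⧸ fittingSubgroup G))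
  have e : N.map (QuotientGroup.mk' _) = _ := map_comap_eq_self_of_surjective (QuotientGroup.mk'_surjective _) _
  have h1 : N.lowerCentralSeries n ≤ Subgroup.upperCentralSeries G k := by
    refine le_trans ?_ h
    rw [← QuotientGroup.ker_mk' (fittingSubgroup G), ← Subgroup.map_eq_bot_iff, map_lowerCentralSeries, e, hn]
  have key : ∀ j i, i + j = k → N.lowerCentralSeries (n + j) ≤ Subgroup.upperCentralSeries G i := by
    intro j
    induction j with
    | zero => exact fun i e => by simpa [← e] using h1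
    | succ j ih =>
      exact fun i e => commutator_le.2 fun x hx y _ =>
        Subgroup.mem_upperCentralSeries_succ_iff.1 (ih (i + 1) (by omega) hx) y
  have h2 : N ≤ fittingSubgroup G :=
    le_fittingSubgroup ((isNilpotent_iff_lowerCentralSeries _).2 ⟨_, le_bot_iff.1 (key k 0 (zero_add k))⟩)
  rw [← e, Subgroup.map_eq_bot_iff, QuotientGroup.ker_mk']
  exact h2

/-- an element of `O_{F,q}` centralising `O_{q'}(F)` lies in `F` -/
theorem mem_fit [Finite G] {q : ℕ} (hq : q.Prime) [(fittingSubgroup G).Normal] {x : G}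
    (h1 : QuotientGroup.mk' (fittingSubgroup G) x ∈ pCore q (G ⧸ fittingSubgroup G))
    (h2 : x ∈ centralizer (pPrimeCore q G : Set G)) : x ∈ fittingSubgroup G := by
  have := Fact.mk hq
  let C := (pCore q (G ⧸ fittingSubgroup G)).comap (QuotientGroup.mk' (fittingSubgroup G)) ⊓
    centralizer (pPrimeCore q G : Set G)
  refine le_fittingSubgroup (N := C) ?_ ⟨h1, h2⟩
  let D := (pPrimeCore q G).subgroupOf C
  have hp : IsPGroup q (C ⧸ D) := by
    intro c
    obtain ⟨c, rfl⟩ := QuotientGroup.mk_surjective c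
    obtain ⟨n, hn⟩ := isPGroup_subgroup_iff.1 (isPGroup_pCore q _) _ c.2.1
    rw [← map_pow, QuotientGroup.mk'_apply, QuotientGroup.eq_one_iff] at hn
    obtain ⟨a, ha, b, hb, e⟩ := (mem_sup_of_normal_right).1 (fittingSubgroup_le_pCore_sup_pPrimeCore hq hn)
    obtain ⟨m, hm⟩ := isPGroup_subgroup_iff.1 (isPGroup_pCore q _) _ ha
    refine ⟨n + m, ?_⟩
    rw [← QuotientGroup.mk_pow, QuotientGroup.eq_one_iff, mem_subgroupOf, coe_pow, pow_add, pow_mul, ← e,
      (show Commute a b from (pCore_le_centralizer_pPrimeCore ha b hb).symm).mul_pow, hm, one_mul]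
    exact pow_mem hb _
  have := hp.isNilpotent
  refine Subgroup.isNilpotent_of_ker_le_center (QuotientGroup.mk' D) ?_
  rw [QuotientGroup.ker_mk']
  exact fun d hd => mem_center_iff.2 fun c => Subtype.ext (c.2.2 d hd).symm

theorem cm_eq_one {p : ℕ} {u a : G} {n : ℕ} (h1 : (u * a * u⁻¹ * a⁻¹) ^ p ^ n = 1) (h2 : (orderOf a).Coprime p)
    (e : u * a * u⁻¹ * a⁻¹ * a * (u * a * u⁻¹ * a⁻¹)⁻¹ * a⁻¹ = 1) : u * a * u⁻¹ * a⁻¹ = 1 := by
  have e1 : (u * a * u⁻¹ * a⁻¹ * a) ^ orderOf a = 1 := by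
    rw [inv_mul_cancel_right, conj_pow, pow_orderOf_eq_one]; group
  generalize u * a * u⁻¹ * a⁻¹ = c at h1 e e1
  have c1 : Commute c a := by
    rw [mul_inv_eq_one, mul_inv_eq_iff_eq_mul] at e
    exact e
  rw [c1.mul_pow, pow_orderOf_eq_one, mul_one] at e1
  exact orderOf_eq_one_iff.1 (Nat.eq_one_of_dvd_coprimes (h2.pow_right n) (orderOf_dvd_of_pow_eq_one e1)
    (orderOf_dvd_of_pow_eq_one h1))

/-- an involution among the commutator values -/
theorem exists_invol [Finite G] (k : ℕ) {a : G} (ho : (orderOf a).Coprime 2) (Q : Subgroup G) :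
    IsPGroup 2 Q → a ∈ normalizer (Q : Set G) → (∃ y ∈ Q, y * a * y⁻¹ * a⁻¹ ≠ 1) →
      ∃ E : Subgroup G, IsPGroup 2 E ∧ ∃ x, RV E k x ∧ x ≠ 1 ∧ x * x = 1 := by
  induction Q using WellFoundedLT.induction with | ind Q ih => ?_
  intro hQ ha hy
  by_cases hm : ∃ Q' < Q, a ∈ normalizer (Q' : Set G) ∧ ∃ y ∈ Q', y * a * y⁻¹ * a⁻¹ ≠ 1
  · obtain ⟨Q', h1, h2, h3⟩ := hm
    exact ih Q' h1 (hQ.to_le h1.le) h2 h3
  push Not at hm
  have step : ∀ y ∈ Q, y * a * y⁻¹ * a⁻¹ ≠ 1 →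
      y * a * y⁻¹ * a⁻¹ * a * (y * a * y⁻¹ * a⁻¹)⁻¹ * a⁻¹ ≠ 1 := fun y hy h e => by
    obtain ⟨n, hn⟩ := isPGroup_subgroup_iff.1 hQ _ (cm_mem hy ha)
    exact h (cm_eq_one hn ho e)
  obtain ⟨y, hy, hy1⟩ := hy
  let Φ := (frattini Q).map Q.subtype
  have hN : normalizer (Q : Set G) ≤ normalizer (Φ : Set G) := normalizer_le_normalizer_map_frattini Q
  have hN' : normalizer (Q : Set G) ≤ normalizer ((centralizer (Φ : Set G) : Subgroup G) : Set G) :=
    hN.trans (normalizer_le_normalizer_centralizer _)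
  have aΦ : a ∈ centralizer (Φ : Set G) := fun z hz => by
    have := hm Φ (map_frattini_lt fun e => hy1 (by simp [mem_bot.1 (e.le hy)])) (hN ha) z hz
    rwa [mul_inv_eq_one, mul_inv_eq_iff_eq_mul] at this
  have hD : Q ≤ centralizer (Φ : Set G) := by
    by_contra hn
    refine step y hy hy1 (hm (Q ⊓ centralizer (Φ : Set G)) (lt_of_le_of_ne inf_le_left fun e => hn ?_) ?_ _
      (mem_inf.2 ⟨cm_mem hy ha, mul_mem ((mem_normalizer_iff.1 (hN' (le_normalizer hy)) _).1 aΦ) (inv_mem aΦ)⟩))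
    · exact e.ge.trans inf_le_right
    · exact mem_normalizer_of_forall_conj_mem fun x hx =>
        ⟨(mem_normalizer_iff.1 ha _).1 hx.1, (mem_normalizer_iff.1 (hN' ha) _).1 hx.2⟩
  obtain ⟨u, hu, hu1⟩ : ∃ u, RV Q k u ∧ u * a * u⁻¹ * a⁻¹ ≠ 1 := by
    clear ih
    induction k with
    | zero => exact ⟨y, hy, hy1⟩
    | succ k ih =>
      obtain ⟨u, hu, hu1⟩ := ih
      exact ⟨_, ⟨u, hu, a, ha, rfl⟩, step u hu.mem hu1⟩
  have u2 : u * u ∈ Φ := pow_two u ▸ pow_mem_map_frattini hQ hu.mem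
  refine ⟨Q, hQ, ?_⟩
  by_cases hc : ∀ v ∈ Q, u * v * u⁻¹ * v⁻¹ = 1
  · refine ⟨_, RV.anti ⟨u, hu, a, ha, rfl⟩, hu1, ?_⟩
    have e1 := hc _ ((mem_normalizer_iff.1 ha _).1 (inv_mem hu.mem))
    rw [mul_inv_eq_one, mul_inv_eq_iff_eq_mul] at e1
    calc _ = u * (a * u⁻¹ * a⁻¹ * u) * (a * u⁻¹ * a⁻¹) := by group
      _ = u * u * a * (u * u)⁻¹ * a⁻¹ := by rw [← e1]; group
      _ = 1 := by rw [aΦ _ u2]; group
  · push Not at hc
    obtain ⟨v, hv, hv1⟩ := hc
    refine ⟨_, RV.anti ⟨u, hu, v, le_normalizer hv, rfl⟩, hv1, ?_⟩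
    have e1 := hD hu.mem _ (commutator_le_map_frattini hQ (commutator_mem_commutator hu.mem hv))
    rw [commutatorElement_def] at e1
    calc _ = u * v * u⁻¹ * v⁻¹ * u * v * u⁻¹ * v⁻¹ := by group
      _ = u * u * v * (u * u)⁻¹ * u * v⁻¹ * v * u⁻¹ * v⁻¹ := by rw [e1]; group
      _ = 1 := by rw [hD hv _ u2]; group

/-- the property extracted from the order condition -/
def PA (k : ℕ) (G : Type*) [Group G] : Prop :=
  ∀ x y : G, RV ⊤ k x → (orderOf x).Coprime (orderOf (x * y * x⁻¹ * y⁻¹)) → x * y * x⁻¹ * y⁻¹ = 1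

theorem PA.sub {k : ℕ} (h : PA k G) (H : Subgroup G) : PA k H := fun x y hx e =>
  Subtype.ext (h x y (hx.map H.subtype) (by simpa only [← orderOf_coe, coe_mul, coe_inv] using e))

theorem PA.cent [Finite G] {k : ℕ} (h : PA k G) {x : G} (hx : RV ⊤ k x) {N : Subgroup G}
    (hn : x ∈ normalizer (N : Set G)) (hc : (orderOf x).Coprime (Nat.card N)) : x ∈ centralizer (N : Set G) :=
  fun y hy => by
    have := h x y hx (hc.coprime_dvd_right (orderOf_dvd_natCard _
      (mul_mem ((mem_normalizer_iff.1 hn _).1 hy) (inv_mem hy))))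
    rw [mul_inv_eq_one, mul_inv_eq_iff_eq_mul] at this
    exact this.symm

theorem coprime_of_pow {q n m : ℕ} {x : G} (h : x ^ q ^ n = 1) (hm : m.Coprime q) : (orderOf x).Coprime m :=
  (hm.pow_right n).symm.coprime_dvd_left (orderOf_dvd_of_pow_eq_one h)

theorem PA.ucs [Finite G] [Group.IsSolvable G] [(fittingSubgroup G).Normal] {k : ℕ} (h : PA k G) :
    Subgroup.upperCentralSeries (G ⧸ fittingSubgroup G) k = ⊤ := by
  refine ucs_eq_top ?_
  rw [fittingSubgroup_eq_iSup_pCore (G ⧸ fittingSubgroup G)]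
  refine iSup_le fun q => le_ucs fun x hx => ?_
  have := Fact.mk q.2
  obtain ⟨Q, hQ, h1, h2⟩ := CfsgLib.AltSec.exists_lift (QuotientGroup.mk' (fittingSubgroup G))
    (QuotientGroup.mk'_surjective _) (isPGroup_pCore q _)
  obtain ⟨y, hy, rfl⟩ := hx.lift h1 h2
  obtain ⟨n, hn⟩ := isPGroup_subgroup_iff.1 hQ _ hy.mem
  exact (QuotientGroup.eq_one_iff _).2 (mem_fit q.2 hx.mem (h.cent hy.top
    ((normalizer_eq_top _).ge (mem_top y)) (coprime_of_pow hn (coprime_card_pPrimeCore _ _))))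

theorem PA.solvable [Finite G] {k : ℕ} (h : PA k G) : Group.IsSolvable G := by
  obtain ⟨R, ⟨hR, hs⟩, hmax⟩ := exists_maximal_of_wellFoundedGT
    (fun R : Subgroup G => R.Normal ∧ Group.IsSolvable R) ⟨⊥, inferInstance, inferInstance⟩
  let π := QuotientGroup.mk' R
  have hπ : Function.Surjective π := QuotientGroup.mk'_surjective R
  have hk : Group.IsSolvable π.ker := by rwa [QuotientGroup.ker_mk']
  have triv : ∀ N : Subgroup (G ⧸ R), N.Normal → Group.IsSolvable N → N = ⊥ := fun N hN hN' => by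
    rw [← map_comap_eq_self_of_surjective hπ N, Subgroup.map_eq_bot_iff, QuotientGroup.ker_mk']
    exact hmax ⟨inferInstance, isSolvable_comap π N⟩
      ((QuotientGroup.ker_mk' R).ge.trans (ker_le_comap π N))
  obtain ⟨P⟩ : Nonempty (Sylow 2 (G ⧸ R)) := inferInstance
  by_cases hc : ∃ N : Subgroup (G ⧸ R), N.Normal ∧ N.IsComplement' (P : Subgroup (G ⧸ R))
  · obtain ⟨N, hN, hc⟩ := hc
    have h1 : N = ⊥ := triv N hN (S0205.result (Nat.coprime_two_right.1 (by
      rw [← hc.index_eq_card]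
      exact ((Nat.Prime.coprime_iff_not_dvd Nat.prime_two).2 P.not_dvd_index).symm)))
    have h2 : (P : Subgroup (G ⧸ R)) = ⊤ := by simpa [h1] using hc.sup_eq_top
    have : Group.IsNilpotent P := P.2.isNilpotent
    have : Group.IsSolvable (⊤ : Subgroup (G ⧸ R)) := h2 ▸ (inferInstance : Group.IsSolvable P)
    have := isSolvable_comap π ⊤
    rw [comap_top] at this
    exact Group.isSolvable_of_surjective (f := (⊤ : Subgroup G).subtype) fun x => ⟨⟨x, mem_top x⟩, rfl⟩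
  exfalso
  rw [S0071.result] at hc
  push Not at hc
  obtain ⟨Q, hQ, a, ha, ho, hn⟩ := hc
  obtain ⟨E, hE, t, ht, t1, tt⟩ := exists_invol k ho Q (P.2.to_le hQ) ha (by
    by_contra! hy
    exact hn fun y hy' => mul_inv_eq_iff_eq_mul.1 (mul_inv_eq_one.1 (hy y hy')))
  obtain ⟨E', hE', h1, h2⟩ := CfsgLib.AltSec.exists_lift π hπ hE
  obtain ⟨x, hx, rfl⟩ := ht.lift h1 h2
  obtain ⟨n, hn⟩ := isPGroup_subgroup_iff.1 hE' _ hx.mem
  have hO : pCore 2 (G ⧸ R) = ⊥ := triv _ inferInstance (by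
    have := (isPGroup_pCore 2 (G ⧸ R)).isNilpotent
    infer_instance)
  obtain ⟨-, y, -, y1, yo, e⟩ := CfsgLib.Invol.exists_inverted_of_not_mem_pCore tt (by rwa [hO, mem_bot])
  obtain ⟨y, rfl⟩ := hπ y
  have : Group.IsSolvable (zpowers (π x) ⊔ zpowers (π y) : Subgroup (G ⧸ R)) :=
    isSolvable_sup_of_le_normalizer (zpowers_le.2 (mem_normalizer_of_forall_conj_mem (by
      rintro _ ⟨i, rfl⟩
      rw [← conj_zpow, e]
      exact zpow_mem (inv_mem (mem_zpowers _)) i)))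
  let H := (zpowers (π x) ⊔ zpowers (π y)).comap π
  have : Group.IsSolvable H := isSolvable_comap π _
  let x' : H := ⟨x, mem_sup_left (mem_zpowers _)⟩
  let y' : H := ⟨y, mem_sup_right (mem_zpowers _)⟩
  have hn' : x' ^ 2 ^ n = 1 := Subtype.ext hn
  have := fittingSubgroup_normal H
  have : Group.IsNilpotent (H ⧸ fittingSubgroup H) := ⟨k, (h.sub H).ucs⟩
  have h3 : x' ∈ fittingSubgroup H := by
    refine mem_fit Nat.prime_two (le_pCore_of_isNilpotent (isPGroup_zpowers_iff.2 ⟨n, ?_⟩) (mem_zpowers _))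
      fun z hz => Subtype.ext ?_
    · rw [← map_pow, hn', map_one]
    · refine h.cent hx.top (N := (pPrimeCore 2 H).map H.subtype)
        (le_normalizer_map_subtype_of_normal _ x'.2) (coprime_of_pow hn ?_) z (mem_map_of_mem _ hz)
      rw [card_map_subtype]
      exact coprime_card_pPrimeCore _ _
  have h4 : x' ∈ pCore 2 H :=
    le_pCore_of_le_fittingSubgroup (zpowers_le.2 h3) (isPGroup_zpowers_iff.2 ⟨n, hn'⟩) (mem_zpowers _)
  obtain ⟨m, hm⟩ := isPGroup_subgroup_iff.1 (isPGroup_pCore 2 H) _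
    (cm_mem h4 ((normalizer_eq_top _).ge (mem_top y')))
  have h5 : (π x * π y * (π x)⁻¹ * (π y)⁻¹) ^ 2 ^ m = 1 := by
    simpa using congrArg (fun z : H => π z) hm
  rw [e, ← pow_two, ← pow_mul, ← pow_succ', inv_pow, inv_eq_one] at h5
  exact y1 (orderOf_eq_one_iff.1 (Nat.Coprime.eq_one_of_dvd (coprime_of_pow h5 (Nat.coprime_two_right.2 yo)) dvd_rfl))

end Aux

/-- A criterion of Baumslag–Wiegold type for a term of the lower central series. -/
theorem result {G : Type*} [Group G] [Finite G] (k : ℕ) :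
    Group.IsNilpotent ↥((⊤ : Subgroup G).lowerCentralSeries k) ↔
      ∀ x y : G, (∃ f : Fin (k + 1) → G, x = ((List.ofFn f).tail).foldl (fun a b => a * b * a⁻¹ * b⁻¹) (f 0)) → (∃ f : Fin (k + 1) → G, y = ((List.ofFn f).tail).foldl (fun a b => a * b * a⁻¹ * b⁻¹) (f 0)) → (orderOf x).Coprime (orderOf y) →
        (∀ r : ℕ, r.Prime → r ∣ orderOf x * orderOf y → r ∣ orderOf (x * y)) ∨ orderOf x * orderOf y ≤ orderOf (x * y) := by
  constructor
  · rintro h x y ⟨f, hf⟩ ⟨g, hg⟩ hc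
    have k1 : ∀ f : Fin (k + 1) → G, ((List.ofFn f).tail).foldl (fun a b => a * b * a⁻¹ * b⁻¹) (f 0) ∈
        (⊤ : Subgroup G).lowerCentralSeries k := fun f => by
      simpa using foldl_mem (List.ofFn f).tail 0 (f 0) (mem_top _)
    have := commute_of_coprime_orderOf_of_isNilpotent (x := (⟨x, hf ▸ k1 f⟩ : (⊤ : Subgroup G).lowerCentralSeries k))
      (y := ⟨y, hg ▸ k1 g⟩) (by simpa only [← orderOf_coe] using hc)
    exact .inr ((show Commute x y from congrArg Subtype.val this).orderOf_mul_eq_mul_orderOf_of_coprime hc).ge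
  intro h
  have hA : PA k G := fun x y hx hc => by
    have e : orderOf (x⁻¹ * (x * y * x⁻¹ * y⁻¹)) = orderOf x := by
      rw [show x⁻¹ * (x * y * x⁻¹ * y⁻¹) = y * x⁻¹ * y⁻¹ by group, CfsgLib.Invol.orderOf_conj, orderOf_inv]
    have := h x⁻¹ _ hx.inv.exists_fun (RV.anti ⟨x, hx, y, mem_norm_top y, rfl⟩).exists_fun (by rwa [orderOf_inv])
    rw [e, orderOf_inv] at this
    refine orderOf_eq_one_iff.1 ?_
    rcases this with h1 | h1
    · by_contra h2
      obtain ⟨r, hr, h3⟩ := Nat.exists_prime_and_dvd h2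
      exact hr.one_lt.ne' (Nat.eq_one_of_dvd_coprimes hc (h1 r hr (h3.mul_left _)) h3)
    · have h2 := orderOf_pos x
      have h3 := orderOf_pos (x * y * x⁻¹ * y⁻¹)
      nlinarith
  have := hA.solvable
  have := fittingSubgroup_normal G
  have h1 := lowerCentralSeries_eq_bot_iff_upperCentralSeries_eq_top.2 hA.ucs
  have h2 : (⊤ : Subgroup G).lowerCentralSeries k ≤ fittingSubgroup G := by
    rw [← QuotientGroup.ker_mk' (fittingSubgroup G), ← Subgroup.map_eq_bot_iff, map_lowerCentralSeries,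
      map_top_of_surjective _ (QuotientGroup.mk'_surjective _), h1]
  have := isNilpotent_fittingSubgroup G
  exact Group.nilpotent_of_mulEquiv (subgroupOfEquivOfLe h2)

end Cfsg.Agent.S3900
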