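import Cfsg.Statements.S3901
import Cfsg.Agent.Lib.BG.S3_10
import Cfsg.Agent.Lib.BG.AmbProd
import Cfsg.Agent.Lib.Core.Basic
import Cfsg.Agent.Lib.Tech.SylowIn
import Cfsg.Agent.Lib.Transfer.Frobenius
import Cfsg.Agent.Lib.Char.Burnside
import Cfsg.Agent.Lib.FT.OddOrder
import Cfsg.Agent.Lib.Coprime.Action

set_option autoImplicit false
open Cfsg

namespace Cfsg.Agent.S3901

open Subgroup

/-- An element outside `N` commutes with no non-trivial element of coprime order. -/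
theorem nc {G : Type*} [Group G] [Finite G] (N : Subgroup G) [N.Normal]
    (h : ∀ x : G, x ∉ N → IsPrimePow (orderOf x)) {x y : G} (hx : x ∉ N) (hc : Commute x y)
    (hcop : (orderOf x).Coprime (orderOf y)) : y = 1 := by
  have hxy : x * y ∉ N := by
    intro hm
    apply hx
    have h1 : (QuotientGroup.mk' N x) * (QuotientGroup.mk' N y) = 1 := by
      rw [← map_mul]; exact (QuotientGroup.eq_one_iff _).2 hm
    have h2 : orderOf (QuotientGroup.mk' N x) ∣ orderOf y := by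
      rw [eq_inv_of_mul_eq_one_left h1, orderOf_inv]
      exact orderOf_map_dvd _ _
    have h3 := Nat.eq_one_of_dvd_coprimes hcop (orderOf_map_dvd (QuotientGroup.mk' N) x) h2
    rw [orderOf_eq_one_iff] at h3
    exact (QuotientGroup.eq_one_iff _).1 h3
  have h1 := h _ hxy
  rw [hc.orderOf_mul_eq_mul_orderOf_of_coprime hcop] at h1
  rcases (hcop.isPrimePow_dvd_mul h1).1 dvd_rfl with h2 | h2
  · exact orderOf_eq_one_iff.1
      (Nat.eq_one_of_dvd_coprimes hcop (dvd_trans (Dvd.intro_left _ rfl) h2) dvd_rfl)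
  · have h3 := Nat.eq_one_of_dvd_coprimes hcop dvd_rfl (dvd_trans (Dvd.intro _ rfl) h2)
    exact absurd h3 (h x hx).ne_one

theorem cop_of_pgroups {G : Type*} [Group G] [Finite G] {p q : ℕ} (hp : p.Prime) (hq : q.Prime)
    (hpq : p ≠ q) {A B : Subgroup G} (hA : IsPGroup p A) (hB : IsPGroup q B) :
    (Nat.card A).Coprime (Nat.card B) := by
  have := Fact.mk hp
  have := Fact.mk hq
  exact IsPGroup.coprime_card_of_ne p q hpq A B hA hB

theorem cop_ord {G : Type*} [Group G] [Finite G] {A B : Subgroup G}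
    (h : (Nat.card A).Coprime (Nat.card B)) {x y : G} (hx : x ∈ A) (hy : y ∈ B) :
    (orderOf x).Coprime (orderOf y) :=
  Nat.Coprime.coprime_dvd_left (A.orderOf_dvd_natCard hx)
    (Nat.Coprime.coprime_dvd_right (B.orderOf_dvd_natCard hy) h)

theorem pow_mul_mem {X : Type*} [Group X] {Q : Subgroup X} {g k : X}
    (hg : g ∈ normalizer (Q : Set X)) (hk : k ∈ Q) (n : ℕ) : (k * g) ^ n * (g ^ n)⁻¹ ∈ Q := by
  induction n with
  | zero => simp
  | succ n ih =>
    have : (k * g) ^ (n + 1) * (g ^ (n + 1))⁻¹ =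
        ((k * g) ^ n * (g ^ n)⁻¹) * (g ^ n * k * (g ^ n)⁻¹) := by
      rw [pow_succ, pow_succ]; group
    rw [this]
    exact mul_mem ih ((mem_normalizer_iff.1 (pow_mem hg n) k).1 hk)

theorem solv_of_normal {G : Type*} [Group G] (N : Subgroup G) [N.Normal] (h1 : Group.IsSolvable N)
    (h2 : Group.IsSolvable (G ⧸ N)) : Group.IsSolvable G :=
  Group.isSolvable_of_ker_le_range N.subtype (QuotientGroup.mk' N) (by simp)

theorem solv_of_npc {X : Type*} [Group X] [Finite X] (h : HasNormalPComplement 2 X) :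
    Group.IsSolvable X := by
  obtain ⟨Q, N, hNn, hNc⟩ := h
  refine solv_of_normal N (CfsgLib.FT.odd_subgroup_solvable ?_) ?_
  · rw [← hNc.index_eq_card, ← Nat.not_even_iff_odd, even_iff_two_dvd]
    exact Q.not_dvd_index
  · obtain ⟨j, hj⟩ := Q.2.exists_card_eq
    have hP : IsPGroup 2 (X ⧸ N) := IsPGroup.of_card (n := j) (by
      rw [← hj, ← hNc.symm.index_eq_card]; rfl)
    have := hP.isNilpotent
    exact IsNilpotent.to_isSolvable

/-- Let N be a non-trivial normal subgroup of the finite group G such that every element of G outside N has prime power order. If N is not solvable, then G/N is solvable. -/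
theorem result {G : Type*} [Group G] [Finite G] (N : Subgroup G) [N.Normal] (hN : N ≠ ⊥) (hns : ¬ Group.IsSolvable ↥N)
    (h : ∀ x : G, x ∉ N → IsPrimePow (orderOf x)) : Group.IsSolvable (G ⧸ N) := by
  by_contra hG
  obtain ⟨P⟩ : Nonempty (Sylow 2 (G ⧸ N)) := inferInstance
  obtain ⟨Q, hQP, hQ1, q, hq, hq2, -, g, hg, ⟨k, hk⟩, hgc⟩ :=
    CfsgLib.Transfer.exists_of_not_hasNormalPComplement P fun hh => hG (solv_of_npc hh)
  have hQ : IsPGroup 2 Q := P.2.to_le hQP
  have hgq : IsPGroup q (zpowers g) := CfsgLib.Core.isPGroup_zpowers_iff.2 ⟨k, hk⟩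
  have hQg : ∀ n : ℕ, g ^ n ∈ Q → g ^ n = 1 := by
    intro n hn
    have := CfsgLib.Core.inf_eq_bot_of_coprime_card (cop_of_pgroups Nat.prime_two hq hq2.symm hQ hgq)
    rw [← mem_bot, ← this]
    exact ⟨hn, npow_mem_zpowers g n⟩
  have hg1 : g ≠ 1 := fun e => hgc (e ▸ one_mem _)
  obtain ⟨r, hr, hrN, hr2, hrq⟩ : ∃ r : ℕ, r.Prime ∧ r ∣ Nat.card N ∧ r ≠ 2 ∧ r ≠ q := by
    by_contra hc
    push Not at hc
    apply hns
    refine CfsgLib.Char.isSolvable_of_prime_dvd_card Nat.prime_two hq fun r hr hd => ?_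
    by_cases e : r = 2
    · exact Or.inl e
    · exact Or.inr (hc r hr hd e)
  have := Fact.mk hr
  have := Fact.mk hq
  obtain ⟨R, hR⟩ := CfsgLib.Tech.exists_isSylowIn r N
  have hR1 : R ≠ ⊥ := by
    rintro rfl
    apply hR.not_dvd
    rwa [relIndex_bot_left]
  set π := QuotientGroup.mk' N with hπ
  have hπN : ∀ x, π x = 1 ↔ x ∈ N := fun x => QuotientGroup.eq_one_iff x
  have hlift : ∀ y : G ⧸ N, ∃ m ∈ normalizer (R : Set G), π m = y := by
    intro y
    obtain ⟨x, rfl⟩ := QuotientGroup.mk'_surjective N y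
    obtain ⟨n, hn, e⟩ := hR.frattini (g := x) (le_normalizer_of_normal (mem_top x))
    exact ⟨n * x, e, by rw [map_mul, (hπN n).2 hn, one_mul]⟩
  set K : Subgroup G := normalizer (R : Set G) ⊓ Q.comap π with hK
  obtain ⟨u', hu'Q, hu'1⟩ : ∃ u' ∈ Q, u' ≠ 1 := by
    by_contra hc
    push Not at hc
    exact hQ1 ((eq_bot_iff_forall _).2 hc)
  obtain ⟨u, huM, rfl⟩ := hlift u'
  have huN : u ∉ N := fun hu => hu'1 ((hπN u).2 hu)
  have hu2 : IsPGroup 2 (zpowers u) := by
    obtain ⟨s, a, hs, -, ho⟩ := (isPrimePow_nat_iff _).1 (h u huN)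
    have hs2 : s = 2 := by
      by_contra hs2
      obtain ⟨b, hb⟩ := CfsgLib.Core.isPGroup_subgroup_iff.1 hQ _ hu'Q
      have h1 : orderOf (π u) ∣ 2 ^ b := orderOf_dvd_of_pow_eq_one hb
      have h2 : orderOf (π u) ∣ s ^ a := ho ▸ orderOf_map_dvd π u
      exact hu'1 (orderOf_eq_one_iff.1 (Nat.eq_one_of_dvd_coprimes
        (Nat.coprime_pow_primes b a Nat.prime_two hs (Ne.symm hs2)) h1 h2))
    subst hs2
    exact CfsgLib.Core.isPGroup_zpowers_iff.2 ⟨a, by rw [ho, pow_orderOf_eq_one]⟩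
  obtain ⟨T, hT, huT⟩ := CfsgLib.Tech.exists_isSylowIn_ge (H := K) hu2
    (zpowers_le.2 ⟨huM, hu'Q⟩)
  replace huT : u ∈ T := huT (mem_zpowers u)
  obtain ⟨m, hmM, rfl⟩ := hlift g
  have hmK : m ∈ normalizer (K : Set G) := by
    apply CfsgLib.Core.mem_normalizer_of_forall_conj_mem
    rintro x ⟨hx1, hx2⟩
    refine ⟨(normalizer (R : Set G)).mul_mem (mul_mem hmM hx1) (inv_mem hmM), ?_⟩
    show π (m * x * m⁻¹) ∈ Q
    rw [map_mul, map_mul, map_inv]
    exact (mem_normalizer_iff.1 hg _).1 hx2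
  obtain ⟨n, hnK, hcT⟩ := hT.frattini hmK
  set c := n * m with hc
  have hcM : c ∈ normalizer (R : Set G) := mul_mem hnK.1 hmM
  have hpow : ∀ j : ℕ, c ^ j ∈ N → (π m) ^ j = 1 := by
    intro j hj
    apply hQg
    have h1 := pow_mul_mem hg (show π n ∈ Q from hnK.2) j
    rw [← map_mul, ← map_pow, ← hc, (hπN _).2 hj, one_mul] at h1
    exact inv_mem_iff.1 h1
  have hcN : c ∉ N := fun hh => hg1 (by simpa using hpow 1 (by simpa using hh))
  have hcq : IsPGroup q (zpowers c) := by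
    obtain ⟨s, a, hs, -, ho⟩ := (isPrimePow_nat_iff _).1 (h c hcN)
    have hs2 : s = q := by
      by_contra hs2
      have h1 : orderOf (π m) ∣ q ^ k := orderOf_dvd_of_pow_eq_one hk
      have h2 : orderOf (π m) ∣ s ^ a := orderOf_dvd_of_pow_eq_one
        (hpow _ (by rw [ho, pow_orderOf_eq_one]; exact one_mem _))
      exact hg1 (orderOf_eq_one_iff.1 (Nat.eq_one_of_dvd_coprimes
        (Nat.coprime_pow_primes k a hq hs (Ne.symm hs2)) h1 h2))
    subst hs2
    exact CfsgLib.Core.isPGroup_zpowers_iff.2 ⟨a, by rw [ho, pow_orderOf_eq_one]⟩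
  have hCT : zpowers c ≤ normalizer (T : Set G) := zpowers_le.2 hcT
  have hcop1 : (Nat.card T).Coprime (Nat.card (zpowers c)) :=
    cop_of_pgroups Nat.prime_two hq hq2.symm hT.pgroup hcq
  have hsT : Group.IsSolvable T := by
    have := hT.pgroup.isNilpotent
    exact IsNilpotent.to_isSolvable
  have hsR : Group.IsSolvable R := by
    have := hR.pgroup.isNilpotent
    exact IsNilpotent.to_isSolvable
  -- `⟨c⟩` meets `N` trivially
  have hzN : ∀ z ∈ zpowers c, z ≠ 1 → z ∉ N := by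
    intro z hz hz1 hzN
    have hle : zpowers z ≤ zpowers c := zpowers_le.2 hz
    have e := CfsgLib.Coprime.commutator_sup_centralizer (K := T) (A := zpowers z) (hle.trans hCT)
      (Nat.Coprime.coprime_dvd_left (card_dvd_of_le hle) hcop1.symm) (Or.inr hsT)
    have h1 : ⁅T, zpowers z⁆ ≤ N :=
      (commutator_mono le_top (zpowers_le.2 hzN)).trans (commutator_le_right ⊤ N)
    have h2 : ¬ T ⊓ centralizer (zpowers z : Set G) ≤ N := fun h2 =>
      huN ((e ▸ sup_le h1 h2 : T ≤ N) huT)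
    obtain ⟨t, ht, htN⟩ := SetLike.not_le_iff_exists.1 h2
    exact hz1 (nc N h htN (ht.2 z (mem_zpowers z)).symm (cop_ord hcop1 ht.1 hz))
  have hT1 : T ≠ ⊥ := fun e => huN (by rw [e, mem_bot] at huT; rw [huT]; exact one_mem _)
  have hC1 : zpowers c ≠ ⊥ := fun e => hcN (by rw [zpowers_eq_bot] at e; rw [e]; exact one_mem _)
  have hF := CfsgLib.BG.frob_intro hCT hT1 hC1 (by
    intro z hz hz1
    rw [eq_bot_iff]
    rintro t ⟨ht, htz⟩
    exact nc N h (hzN z hz hz1) (mem_centralizer_singleton_iff.1 htz).symm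
      (cop_ord hcop1.symm hz ht))
  have hRT : (Nat.card R).Coprime (Nat.card T) :=
    cop_of_pgroups hr Nat.prime_two hr2 hR.pgroup hT.pgroup
  have hRC : (Nat.card R).Coprime (Nat.card (zpowers c)) := cop_of_pgroups hr hq hrq hR.pgroup hcq
  have hW := (CfsgLib.BG.Frobenius_Wielandt_fixpoint (M := R) hF
    (sup_le (hT.le.trans inf_le_left) (zpowers_le.2 hcM))
    (Nat.Coprime.coprime_dvd_right (by
      rw [sup_comm, mul_comm]; exact CfsgLib.Core.card_sup_dvd_of_le_normalizer hCT)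
      (Nat.Coprime.mul_right hRT hRC)) hsR).2.1 (by
    rw [eq_bot_iff]
    rintro y ⟨hy, hyc⟩
    exact nc N h hcN (hyc c (mem_zpowers c)) (cop_ord hRC.symm (mem_zpowers c) hy))
  apply hR1
  rw [eq_bot_iff]
  intro y hy
  exact nc N h huN (hW huT y hy).symm (cop_ord hRT.symm huT hy)

end Cfsg.Agent.S3901
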