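import Cfsg.Statements.S3903
import Cfsg.Agent.Lib.Solv.InvDeskins
import Cfsg.Agent.Lib.Core.Basic

set_option autoImplicit false
open Cfsg

namespace Cfsg.Agent.S3903

theorem card_compl {X : Type*} [Group X] [Finite X] (K : Subgroup X) :
    Nat.card {x : X // x ∉ K} + Nat.card K = Nat.card X := by
  have := Set.ncard_add_ncard_compl (K : Set X)
  rw [← Nat.card_coe_set_eq, ← Nat.card_coe_set_eq] at this
  rw [← this, add_comm]
  rfl

theorem pgroup_cent {G : Type*} [Group G] [Finite G] (N : Subgroup G) [N.Normal]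
    (h : ∀ x : G, x ∉ N → IsPrimePow (orderOf x)) {x : G} (hx : x ∉ N) {q k : ℕ} (hq : q.Prime)
    (ho : q ^ k = orderOf x) : IsPGroup q (Subgroup.centralizer ({x} : Set G)) := by
  have := Fact.mk hq
  rw [IsPGroup.iff_card]
  refine ⟨_, Nat.eq_prime_pow_of_unique_prime_dvd Nat.card_pos.ne' fun {r} hr hd => ?_⟩
  by_contra hrq
  have := Fact.mk hr
  obtain ⟨y, hy⟩ := exists_prime_orderOf_dvd_card' r hd
  rw [← Subgroup.orderOf_coe] at hy
  have hc : Commute x (y : G) := (Subgroup.mem_centralizer_singleton_iff.1 y.2).symm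
  have hcop : (orderOf x).Coprime (orderOf (y : G)) := by
    rw [← ho, hy]
    exact Nat.Coprime.pow_left _ ((Nat.coprime_primes hq hr).2 (Ne.symm hrq))
  have hxy : x * y ∉ N := by
    intro hm
    apply hx
    have h1 : (QuotientGroup.mk' N x) * (QuotientGroup.mk' N y) = 1 := by
      rw [← map_mul]; exact (QuotientGroup.eq_one_iff _).2 hm
    have h2 : orderOf (QuotientGroup.mk' N x) ∣ orderOf (y : G) := by
      rw [eq_inv_of_mul_eq_one_left h1, orderOf_inv]
      exact orderOf_map_dvd _ _
    have h3 := Nat.eq_one_of_dvd_coprimes hcop (orderOf_map_dvd (QuotientGroup.mk' N) x) h2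
    rw [orderOf_eq_one_iff] at h3
    exact (QuotientGroup.eq_one_iff _).1 h3
  have h1 := h _ hxy
  rw [hc.orderOf_mul_eq_mul_orderOf_of_coprime hcop] at h1
  rcases (hcop.isPrimePow_dvd_mul h1).1 dvd_rfl with h2 | h2
  · have h3 := Nat.eq_one_of_dvd_coprimes hcop (dvd_trans (Dvd.intro_left _ rfl) h2) dvd_rfl
    exact hr.ne_one (hy ▸ h3)
  · have h3 := Nat.eq_one_of_dvd_coprimes hcop dvd_rfl (dvd_trans (Dvd.intro _ rfl) h2)
    exact (h x hx).ne_one h3

/-- Let N be a proper normal subgroup of the finite group G such that every element x of G outside N has prime power order and has centralizer C_G(x) a maximal subgroup of G. Then N is solvable. -/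
theorem result {G : Type*} [Group G] [Finite G] (N : Subgroup G) [N.Normal] (hN : N ≠ ⊤)
    (h : ∀ x : G, x ∉ N → IsPrimePow (orderOf x) ∧ IsCoatom (Subgroup.centralizer ({x} : Set G))) : Group.IsSolvable ↥N := by
  classical
  by_cases hs : Group.IsSolvable G
  · infer_instance
  exfalso
  -- every centralizer of an element outside `N` is a Sylow `2`-subgroup
  have h2 : ∀ x : G, x ∉ N → ∃ T : Sylow 2 G, (T : Subgroup G) = Subgroup.centralizer {x} := by
    intro x hx
    obtain ⟨q, k, hq, -, ho⟩ := (isPrimePow_nat_iff _).1 (h x hx).1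
    have hP := pgroup_cent N (fun x hx => (h x hx).1) hx hq ho
    have := Fact.mk hq
    have hq2 : q = 2 := by
      by_contra hq2
      apply hs
      refine CfsgLib.Solv.janko_deskins (h x hx).2 hP.isNilpotent fun S => ?_
      have hS : (S : Subgroup (Subgroup.centralizer ({x} : Set G))) = ⊥ := by
        have := IsPGroup.disjoint_of_ne 2 q (Ne.symm hq2) (S : Subgroup _) ⊤ S.2 (hP.to_subgroup ⊤)
        simpa using this
      have : Subsingleton (S : Subgroup (Subgroup.centralizer ({x} : Set G))) := by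
        rw [hS]; infer_instance
      rw [Group.nilpotencyClass_zero_iff_subsingleton.2 this]
      omega
    subst hq2
    obtain ⟨T, hT⟩ := hP.exists_le_sylow
    rcases hT.eq_or_lt with e | e
    · exact ⟨T, e.symm⟩
    · exfalso
      apply hs
      have hT2 := T.2
      rw [(h x hx).2.2 _ e] at hT2
      have := (hT2.of_equiv Subgroup.topEquiv).isNilpotent
      exact IsNilpotent.to_isSolvable
  obtain ⟨x0, hx0⟩ : ∃ x, x ∉ N := by
    by_contra hc
    push Not at hc
    exact hN (eq_top_iff.2 fun x _ => hc x)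
  obtain ⟨S, hS⟩ := h2 x0 hx0
  set Z : Subgroup G := (S : Subgroup G) ⊓ Subgroup.centralizer (S : Set G) with hZ
  let F : (G ⧸ (S : Subgroup G)) × {z : Z // z ∉ N.subgroupOf Z} → {x : G // x ∉ N} :=
    fun a => ⟨a.1.out * (a.2.1 : G) * a.1.out⁻¹, fun hm => a.2.2 (by
      rw [Subgroup.mem_subgroupOf]
      have := (inferInstance : N.Normal).conj_mem _ hm a.1.out⁻¹
      simpa [mul_assoc] using this)⟩
  have hF : Function.Surjective F := by
    rintro ⟨x, hx⟩
    obtain ⟨T, hT⟩ := h2 x hx
    obtain ⟨g, hg⟩ := MulAction.exists_smul_eq G S T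
    have hmem : ∀ y : G, y ∈ (S : Subgroup G) ↔ g * y * g⁻¹ ∈ Subgroup.centralizer {x} := by
      intro y
      rw [← hT, ← hg, Sylow.coe_subgroup_smul, CfsgLib.Core.mem_conj_smul_iff]
      simp [mul_assoc]
    have hz : g⁻¹ * x * g ∈ Z := by
      refine ⟨(hmem _).2 ?_, fun y hy => ?_⟩
      · simp [Subgroup.mem_centralizer_singleton_iff, mul_assoc]
      · have := Subgroup.mem_centralizer_singleton_iff.1 ((hmem y).1 hy)
        calc y * (g⁻¹ * x * g) = g⁻¹ * (g * y * g⁻¹ * x) * g := by group
          _ = g⁻¹ * (x * (g * y * g⁻¹)) * g := by rw [this]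
          _ = g⁻¹ * x * g * y := by group
    obtain ⟨s, hs'⟩ := QuotientGroup.mk_out_eq_mul (S : Subgroup G) g
    refine ⟨⟨(g : G ⧸ (S : Subgroup G)), ⟨⟨_, hz⟩, fun hm => hx ?_⟩⟩, Subtype.ext ?_⟩
    · rw [Subgroup.mem_subgroupOf] at hm
      have := (inferInstance : N.Normal).conj_mem _ hm g
      simpa [mul_assoc] using this
    · have := hz.2 s s.2
      show (g : G ⧸ (S : Subgroup G)).out * (g⁻¹ * x * g) * (g : G ⧸ (S : Subgroup G)).out⁻¹ = x
      rw [hs']
      calc g * s * (g⁻¹ * x * g) * (g * s)⁻¹ = g * (s * (g⁻¹ * x * g)) * (s : G)⁻¹ * g⁻¹ := by group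
        _ = x := by rw [this]; group
  have hle := Nat.card_le_card_of_surjective F hF
  rw [Nat.card_prod] at hle
  have e1 := card_compl N
  have e2 := card_compl (N.subgroupOf Z)
  have e3 := N.card_mul_index
  have e4 := (N.subgroupOf Z).card_mul_index
  have e5 : (N.subgroupOf Z).index ≤ N.index :=
    Nat.le_of_dvd (Nat.pos_of_ne_zero Subgroup.FiniteIndex.index_ne_zero)
      (Subgroup.relIndex_dvd_index_of_normal N Z)
  have e6 := (S : Subgroup G).card_eq_card_quotient_mul_card_subgroup
  have e7 : 1 < N.index := Subgroup.one_lt_index_of_ne_top hN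
  have e8 : 0 < (N.subgroupOf Z).index := Nat.pos_of_ne_zero Subgroup.FiniteIndex.index_ne_zero
  have hn : 0 < Nat.card N := Nat.card_pos
  have hSZ : Nat.card (S : Subgroup G) ≤ Nat.card Z := by
    generalize Nat.card {x : G // x ∉ N} = a at *
    generalize Nat.card {z : Z // z ∉ N.subgroupOf Z} = b at *
    generalize Nat.card (G ⧸ (S : Subgroup G)) = c at *
    generalize Nat.card (S : Subgroup G) = s at *
    generalize Nat.card (N.subgroupOf Z) = d at *
    generalize Nat.card Z = z at *
    generalize Nat.card N = n at *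
    generalize (N.subgroupOf Z).index = m' at *
    generalize N.index = m at *
    generalize Nat.card G = g at *
    obtain ⟨m, rfl⟩ : ∃ k, m = k + 1 := ⟨m - 1, by omega⟩
    obtain ⟨m', rfl⟩ : ∃ k, m' = k + 1 := ⟨m' - 1, by omega⟩
    have ha : a = n * m := by nlinarith
    have hb : b = d * m' := by nlinarith
    subst ha hb
    have hm : 0 < m := by omega
    have hmm : m' ≤ m := by omega
    -- `n m s ≤ c s d m' = n (m+1) d m' ≤ n m (m'+1) d`
    have h1 : n * m * s ≤ n * (m + 1) * (d * m') := by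
      calc n * m * s ≤ c * (d * m') * s := Nat.mul_le_mul_right _ hle
        _ = c * s * (d * m') := by ring
        _ = n * (m + 1) * (d * m') := by rw [← e6, e3]
    have h3 : n * (m + 1) * (d * m') ≤ n * m * z := by
      rw [← e4]
      have : (m + 1) * m' ≤ m * (m' + 1) := by nlinarith
      calc n * (m + 1) * (d * m') = n * d * ((m + 1) * m') := by ring
        _ ≤ n * d * (m * (m' + 1)) := Nat.mul_le_mul_left _ this
        _ = n * m * (d * (m' + 1)) := by ring
    exact Nat.le_of_mul_le_mul_left (h1.trans h3) (Nat.mul_pos hn hm)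
  have hZS : Z = S := CfsgLib.Core.eq_of_le_of_card_le inf_le_left hSZ
  have hcomm : ∀ a b : (S : Subgroup G), a * b = b * a := by
    intro a b
    have hb : (b : G) ∈ Z := by rw [hZS]; exact b.2
    exact Subtype.ext (hb.2 a a.2)
  apply hs
  refine CfsgLib.Solv.janko_deskins (M := S) (hS ▸ (h x0 hx0).2) S.2.isNilpotent fun T => ?_
  let _ : CommGroup (T : Subgroup (S : Subgroup G)) :=
    { (inferInstance : Group (T : Subgroup (S : Subgroup G))) with
      mul_comm := fun a b => Subtype.ext (hcomm a b) }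
  exact CommGroup.nilpotencyClass_le_one.trans (by norm_num)

end Cfsg.Agent.S3903
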