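import Mathlib
import Cfsg.Statements.S3904
import Cfsg.Agent.Lib.MaxCent.Main

set_option autoImplicit false
open Cfsg

namespace Cfsg.Agent.S3904

open CfsgLib CfsgLib.MaxCent Subgroup in

/-- Let G be a non-abelian finite group in which the centralizer of every non-central element is a maximal subgroup. Then G/Z(G) is either an elementary abelian p-group for some prime p, or a minimal non-abelian group (non-abelian with all proper subgroups abelian) of order p^a · q for distinct primes p, q with a normal Sylow p-subgroup. -/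
theorem result {G : Type*} [Group G] [Finite G] (hna : ¬ IsMulCommutative G)
    (h : ∀ x : G, x ∉ Subgroup.center G → IsCoatom (Subgroup.centralizer ({x} : Set G))) :
    (∃ p : ℕ, p.Prime ∧ Cfsg.IsElementaryAbelian p (⊤ : Subgroup (G ⧸ Subgroup.center G))) ∨
    (¬ IsMulCommutative (G ⧸ Subgroup.center G) ∧ (∀ H : Subgroup (G ⧸ Subgroup.center G), H ≠ ⊤ → IsMulCommutative ↥H) ∧
      ∃ p q a : ℕ, p.Prime ∧ q.Prime ∧ p ≠ q ∧ Nat.card (G ⧸ Subgroup.center G) = p ^ a * q ∧
        ∀ P : Subgroup (G ⧸ Subgroup.center G), Nat.card ↥P = p ^ a → P.Normal) := by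
  let c : Ctx G G :=
    { ι := MonoidHom.id G
      φ := MulAut.conj
      φι := fun n x => rfl
      max := fun x hx => by
        convert h x hx using 1
        ext g
        rw [mem_centralizer_singleton_iff, ← mul_inv_eq_iff_eq_mul]
        rfl }
  rcases c.main with h | ⟨x, hx, K, p, hp, hF, hq, hK, hKF, hE⟩
  · exact .inl h
  right
  have := Fact.mk hp
  have hi : Nat.card K = ((C x).map (π G)).index := by
    rw [← Frob.card_kernel hF, ← hKF]; rfl
  have hco := Frob.frob_coprime_card_index hF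
  have hc := ((C x).map (π G)).card_mul_index
  rw [← hi] at hco hc
  have hKi : K.index = Nat.card ((C x).map (π G)) :=
    Nat.eq_of_mul_eq_mul_left (Nat.card_pos (α := K)) (by rw [K.card_mul_index, ← hc, mul_comm])
  have hmax : IsCoatom ((C x).map (π G)) := ⟨hF.2.1, fun H hH => by
    have h1 : C x < H.comap (π G) := lt_of_le_of_ne (map_le_iff_le_comap.1 hH.le) fun e =>
      hH.not_ge fun a ha => by
        obtain ⟨a, rfl⟩ := π_surj a
        exact π_mem_C.2 (e ▸ ha)
    refine eq_top_iff.2 fun a _ => ?_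
    obtain ⟨a, rfl⟩ := π_surj a
    exact ((h x hx).2 _ h1 ▸ mem_top a : a ∈ H.comap (π G))⟩
  generalize (C x).map (π G) = Q at *
  have hle : ∀ H : Subgroup (G ⧸ center G), ¬ Nat.card Q ∣ Nat.card H → H ≤ K := by
    intro H hH
    rw [← relIndex_eq_one]
    by_contra h1
    have h2 := (Nat.dvd_prime hq).1 (hKi ▸ relIndex_dvd_index_of_normal K H)
    exact hH (h2.resolve_left h1 ▸ relIndex_dvd_card K H)
  obtain ⟨a, ha⟩ := IsPGroup.iff_card.1 (PLocal.elemAb_isPGroup hE)
  have ha0 : a ≠ 0 := by
    rintro rfl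
    exact hF.2.1 (index_eq_one.1 (hi ▸ ha))
  have hpq : p ≠ Nat.card Q := fun e => by
    rw [ha, ← e] at hco
    exact hp.ne_one ((Nat.coprime_self _).1 ((Nat.coprime_pow_right_iff
      (Nat.pos_of_ne_zero ha0) _ _).1 hco))
  refine ⟨fun hcm => hF.1 (eq_bot_iff.2 fun z _ => Frob.frob_center_eq_bot hF ▸
    mem_center_iff.2 fun g => hcm.1.1 g z), fun H hH => ?_, p, _, a, hp, hq, hpq,
    by rw [← hc, ha, mul_comm], fun P hP => ?_⟩
  · by_cases hd : Nat.card Q ∣ Nat.card H
    · have := Fact.mk hq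
      obtain ⟨y, hy⟩ := exists_prime_orderOf_dvd_card' _ hd
      have hy' : orderOf (y : G ⧸ center G) = Nat.card Q := by rw [orderOf_coe, hy]
      obtain ⟨hy1, g, hg⟩ := Frob.notMem_kernel_iff.1 (fun e => by
        have h1 := K.orderOf_dvd_natCard (hKF ▸ e : (y : G ⧸ center G) ∈ (K : Set _))
        rw [hy'] at h1
        exact hq.ne_one (Nat.Coprime.eq_one_of_dvd hco h1) :
          (y : G ⧸ center G) ∉ frobeniusKernel Q)
      have h2 : zpowers (g * y * g⁻¹) = Q := eq_of_le_of_card_ge (zpowers_le.2 hg) (by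
        rw [Nat.card_zpowers, ← MulAut.conj_apply, MulEquiv.orderOf_eq, hy'])
      have h3 : Q ≤ H.map (MulAut.conj g).toMonoidHom :=
        h2 ▸ zpowers_le.2 (SylTools.conj_mem_map_conj y.2)
      have h4 := (hmax.le_iff_eq fun e => hH (eq_top_of_card_eq _ (by
        rw [← SylTools.card_map_conj H g, e, card_top]))).1 h3
      have h5 : Nat.card H = Nat.card Q := by rw [← SylTools.card_map_conj H g, h4]
      have := isCyclic_of_prime_card h5
      exact IsCyclic.isMulCommutative
    · exact ⟨⟨fun u v => Subtype.ext (PLocal.elemAb_comm hE (hle H hd u.2) (hle H hd v.2))⟩⟩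
  · have h1 := hle P fun hd => hpq ((Nat.prime_dvd_prime_iff_eq hq hp).1
      (hq.dvd_of_dvd_pow (hP ▸ hd))).symm
    rwa [eq_of_le_of_card_ge h1 (by rw [ha, hP])]

end Cfsg.Agent.S3904
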