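import Cfsg.Statements.S3908
import Cfsg.Agent.Lib.WCor4.Bg

set_option autoImplicit false
open Cfsg

namespace Cfsg.Agent.S3908

open CfsgLib CfsgLib.WCor4 Subgroup

/-- Let G be a finite group in which any two abelian subgroups of the same order are conjugate. Then a Sylow 2-subgroup of G is cyclic, elementary abelian or generalized quaternion, and for an odd prime p a Sylow p-subgroup of G is cyclic or has exponent dividing p. -/
theorem result {G : Type*} [Group G] [Finite G] (hB : ∀ A B : Subgroup G, IsMulCommutative ↥A → IsMulCommutative ↥B → Nat.card ↥A = Nat.card ↥B → ∃ g : G, B = A.map (MulAut.conj g).toMonoidHom) :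
    (∀ P : Sylow 2 G, IsCyclic ↥(P : Subgroup G) ∨ Cfsg.IsElementaryAbelian 2 (P : Subgroup G) ∨ ∃ k : ℕ, Nonempty (↥(P : Subgroup G) ≃* QuaternionGroup (2 ^ k))) ∧
    ∀ (p : ℕ) [Fact p.Prime], p ≠ 2 → ∀ P : Sylow p G, IsCyclic ↥(P : Subgroup G) ∨ ∀ x ∈ (P : Subgroup G), x ^ p = 1 := by
  refine ⟨fun P => ?_, fun p _ hp P => ?_⟩
  · have := Fact.mk Nat.prime_two
    by_cases hE : ∀ E : Subgroup P, (∀ x ∈ E, x ^ 2 = 1) → Nat.card E ≠ 2 ^ 2
    · exact (Frob.cyclic_or_quaternion_of_rank_one P.isPGroup' hE).imp_right fun ⟨_, n, _, h⟩ => .inr ⟨n, h⟩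
    push Not at hE
    obtain ⟨E, h1, h2⟩ := hE
    have h3 : ∀ x ∈ (P : Subgroup G), x ^ 2 = 1 := fun x hx => BG.exp hB (E := E.map (P : Subgroup G).subtype)
      (by rintro _ ⟨y, hy, rfl⟩; exact congrArg Subtype.val (h1 y hy)) (by rwa [card_subtype]) P.isPGroup' hx
    exact .inr (.inl ⟨comm_of_sq h3, h3⟩)
  · rcases BG.sylow hB P.isPGroup' with h | h | h
    exacts [.inr h, .inl h, absurd h.1 hp]

end Cfsg.Agent.S3908
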