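import Cfsg.Statements.S3915
import Cfsg.Agent.Lib.FT.OddOrder
import Cfsg.Agent.Lib.Comp.Component

set_option autoImplicit false
open Cfsg

namespace Cfsg.Agent.S3915

open CfsgLib.Comp

theorem exists_two_elt {G : Type*} [Group G] [Finite G] {K : Subgroup G} (hK : Cfsg.IsComponent K) :
    ∃ x ∈ K, x ∉ Subgroup.centralizer (K : Set G) ∧ ∃ k : ℕ, orderOf x = 2 ^ k := by
  have hq := comp_qs hK
  haveI := hq.2
  have hev := CfsgLib.FT.even_card_of_simple (qs_quotient_center_not_isMulCommutative hq)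
  obtain ⟨S⟩ : Nonempty (Sylow 2 K) := inferInstance
  have h1 : ¬ (S : Subgroup K) ≤ Subgroup.center K := fun h =>
    S.not_dvd_index (hev.two_dvd.trans (Subgroup.index_dvd_of_le h))
  obtain ⟨x, hxS, hx⟩ := SetLike.not_le_iff_exists.1 h1
  refine ⟨x, x.2, fun h => hx ?_, ?_⟩
  · rw [center_eq_subgroupOf_centralizer]; exact h
  · obtain ⟨k, hk⟩ := IsPGroup.iff_orderOf.1 S.2 ⟨x, hxS⟩
    exact ⟨k, (Subgroup.orderOf_coe x).trans ((Subgroup.orderOf_mk x hxS).symm.trans hk)⟩

theorem aux {G : Type*} [Group G] [Finite G]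
    (hP : ∀ A B : Subgroup G, IsCyclic ↥A → IsCyclic ↥B → IsPGroup 2 ↥A → Nat.card ↥A = Nat.card ↥B →
      ∃ g : G, B = A.map (MulAut.conj g).toMonoidHom) {K L : Subgroup G} (hK : Cfsg.IsComponent K)
    (hL : Cfsg.IsComponent L) (hne : K ≠ L) {x y : G} (hx : x ∈ K)
    (hxc : x ∉ Subgroup.centralizer (K : Set G)) (hy : y ∈ L)
    (hyc : y ∉ Subgroup.centralizer (L : Set G)) {k l : ℕ} (hk : orderOf x = 2 ^ k)
    (hl : orderOf y = 2 ^ l) (hlk : l ≤ k) : False := by
  have hxL := comp_le_centralizer_of_ne hK hL hne hx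
  have hyK := comp_le_centralizer_of_ne hL hK hne.symm hy
  have hc : Commute x y := (hxL y hy).symm
  have h1 : orderOf (x * y) ∣ orderOf x := by
    apply orderOf_dvd_of_pow_eq_one
    rw [hc.mul_pow, pow_orderOf_eq_one, one_mul]
    apply orderOf_dvd_iff_pow_eq_one.1
    rw [hk, hl]
    exact pow_dvd_pow 2 hlk
  have h2 : orderOf (x ^ (orderOf x / orderOf (x * y))) = orderOf (x * y) :=
    orderOf_pow_orderOf_div (orderOf_pos x).ne' h1
  obtain ⟨j, -, hj⟩ := (Nat.dvd_prime_pow Nat.prime_two).1 (hk ▸ h1)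
  obtain ⟨g, hg⟩ := hP (Subgroup.zpowers (x ^ (orderOf x / orderOf (x * y))))
    (Subgroup.zpowers (x * y)) inferInstance inferInstance
    (IsPGroup.of_card (n := j) (by rw [Nat.card_zpowers, h2, hj]))
    (by rw [Nat.card_zpowers, Nat.card_zpowers, h2])
  have h3 : x * y ∈ K.map (MulAut.conj g).toMonoidHom := by
    have : x * y ∈ Subgroup.zpowers (x * y) := Subgroup.mem_zpowers _
    rw [hg] at this
    exact Subgroup.map_mono (Subgroup.zpowers_le.2 (K.pow_mem hx _)) this
  have hM := comp_map_conj hK g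
  by_cases h : K.map (MulAut.conj g).toMonoidHom = K
  · have h4 := comp_le_centralizer_of_ne hM hL (h.symm ▸ hne) h3
    exact hyc (by simpa using mul_mem (inv_mem hxL) h4)
  · have h4 := comp_le_centralizer_of_ne hM hK h h3
    exact hxc (by simpa using mul_mem h4 (inv_mem hyK))

/-- Let G be a finite group in which, for every prime p, any two cyclic p-subgroups of the same order are conjugate. If the layer E(G), the subgroup generated by the components of G, is non-trivial, then E(G)/Z(E(G)) is a non-abelian simple group. -/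
theorem result {G : Type*} [Group G] [Finite G] (hP : ∀ (p : ℕ), p.Prime → ∀ A B : Subgroup G, IsCyclic ↥A → IsCyclic ↥B → IsPGroup p ↥A → Nat.card ↥A = Nat.card ↥B → ∃ g : G, B = A.map (MulAut.conj g).toMonoidHom) (hE : Cfsg.layer G ≠ ⊥) :
    IsSimpleGroup (↥(Cfsg.layer G) ⧸ Subgroup.center ↥(Cfsg.layer G)) ∧ ¬ IsMulCommutative (↥(Cfsg.layer G) ⧸ Subgroup.center ↥(Cfsg.layer G)) := by
  have huniq : ∀ K L : Subgroup G, Cfsg.IsComponent K → Cfsg.IsComponent L → K = L := by
    intro K L hK hL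
    by_contra hne
    obtain ⟨x, hx, hxc, k, hk⟩ := exists_two_elt hK
    obtain ⟨y, hy, hyc, l, hl⟩ := exists_two_elt hL
    rcases le_total l k with h | h
    · exact aux (hP 2 Nat.prime_two) hK hL hne hx hxc hy hyc hk hl h
    · exact aux (hP 2 Nat.prime_two) hL hK (Ne.symm hne) hy hyc hx hxc hl hk h
  obtain ⟨K, hK⟩ : ∃ K : Subgroup G, Cfsg.IsComponent K := by
    by_contra h
    push Not at h
    exact hE (layer_eq_bot_iff.2 h)
  have h1 : Cfsg.layer G = K :=
    le_antisymm (layer_le_iff.2 fun L hL => (huniq L K hL hK).le) (comp_le_layer hK)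
  have hq : Cfsg.IsQuasisimple (Cfsg.layer G) := h1 ▸ comp_qs hK
  exact ⟨hq.2, qs_quotient_center_not_isMulCommutative hq⟩

end Cfsg.Agent.S3915
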