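import Cfsg.Statements.S3917
import Cfsg.Agent.Lib.WCor4.Syl

set_option autoImplicit false
open Cfsg

namespace Cfsg.Agent.S3917

open CfsgLib CfsgLib.WCor4 Subgroup

/-- Say that a group has self-centralizing non-cyclic subgroups when every non-cyclic subgroup H satisfies C_G(H) ≤ H. A finite abelian group with self-centralizing non-cyclic subgroups is cyclic or elementary abelian of order p² for a prime p. -/
theorem result {G : Type*} [CommGroup G] [Finite G] (hX : (∀ H : Subgroup G, ¬ IsCyclic ↥H → Subgroup.centralizer (H : Set G) ≤ H)) :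
    IsCyclic G ∨ ∃ p : ℕ, p.Prime ∧ Nat.card G = p ^ 2 ∧ Monoid.exponent G = p := by
  refine or_iff_not_imp_left.2 fun h => ?_
  obtain ⟨p, hp, x, y, h1, h2, h3⟩ : ∃ p : ℕ, p.Prime ∧ ∃ x y : G, orderOf x = p ∧ orderOf y = p ∧ y ∉ zpowers x := by
    by_contra! h1
    exact h (Frob.isCyclic_of_comm_of_forall_mem_zpowers inferInstance h1)
  have := Fact.mk hp
  have h4 : Nat.card ↥(zpowers y ⊔ zpowers x) = p ^ 2 := by
    rw [card_zp_sup (h2 ▸ pow_orderOf_eq_one y) h3 fun v hv => by rwa [mul_inv_cancel_comm], Nat.card_zpowers, h1, pow_two]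
  have h5 : ∀ a ∈ zpowers y ⊔ zpowers x, a ^ p = 1 := fun a ha => (show _ ≤ (powMonoidHom p : G →* G).ker from
    sup_le (zpowers_le.2 (h2 ▸ pow_orderOf_eq_one y)) (zpowers_le.2 (h1 ▸ pow_orderOf_eq_one x))) ha
  have h6 : zpowers y ⊔ zpowers x = ⊤ := eq_top_iff.2 fun a _ => hX _ (fun e => by
    have := Nat.le_of_dvd hp.pos (e.exponent_eq_card ▸
      Monoid.exponent_dvd_of_forall_pow_eq_one fun x => Subtype.ext (h5 x x.2))
    nlinarith [hp.one_lt]) fun b _ => mul_comm b a
  rw [h6] at h4 h5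
  refine ⟨p, hp, card_top.symm.trans h4, Nat.dvd_antisymm (Monoid.exponent_dvd_of_forall_pow_eq_one fun a => h5 a trivial) ?_⟩
  exact h1 ▸ Monoid.order_dvd_exponent x

end Cfsg.Agent.S3917
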