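import Cfsg.Statements.S3918
import Cfsg.Agent.Lib.PGroup.Omega
import Cfsg.Agent.Lib.PGroup.MaxClass2
import Cfsg.Agent.Lib.Coprime.Abelian

set_option autoImplicit false
open Cfsg

namespace Cfsg.Agent.S3918

open CfsgLib Subgroup

/-- Say that a group has self-centralizing non-cyclic subgroups when every non-cyclic subgroup H satisfies C_G(H) ≤ H. For an odd prime p, a finite non-abelian p-group has self-centralizing non-cyclic subgroups if and only if it has order p³. -/
theorem result {G : Type*} [Group G] [Finite G] {p : ℕ} [Fact p.Prime] (hp : p ≠ 2) (hG : IsPGroup p G) (hna : ¬ IsMulCommutative G) :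
    (∀ H : Subgroup G, ¬ IsCyclic ↥H → Subgroup.centralizer (H : Set G) ≤ H) ↔ Nat.card G = p ^ 3 := by
  have h1 := (Fact.out : p.Prime).one_lt
  refine ⟨fun h => ?_, fun h H hH => ?_⟩
  · obtain ⟨A, _, a1, a2⟩ := PGroup.exists_normal_rank_two hp hG fun e => hna e.isMulCommutative
    have a3 := card_le_of_le (h A fun e => by
      have := Nat.le_of_dvd (by omega) (e.exponent_eq_card ▸
        Monoid.exponent_dvd_of_forall_pow_eq_one fun x => Subtype.ext (a1.2 x x.2))
      nlinarith)
    have a4 := Nat.mul_le_mul a3 (PGroup.index_centralizer_le_of_normal hG 2 A a2)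
    rw [card_mul_index, a2, ← pow_add] at a4
    obtain ⟨k, hk⟩ := IsPGroup.iff_card.1 hG
    rw [hk, Nat.pow_le_pow_iff_right h1] at a4
    rw [hk, le_antisymm a4 (not_lt.1 fun e => hna (PGroup.isMulCommutative_of_card_le_sq hG
      (hk ▸ Nat.pow_le_pow_right (by omega) (Nat.le_of_lt_succ e))))]
    rfl
  obtain ⟨k, h2, h3⟩ := (Nat.dvd_prime_pow Fact.out).1 (h ▸ card_subgroup_dvd_card H)
  interval_cases k
  · exact absurd (isCyclic_of_card_dvd_prime (p := p) (by simp [h3])) hH
  · exact absurd (isCyclic_of_card_dvd_prime (p := p) (by simp [h3])) hH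
  · have := IsPGroup.isMulCommutative_of_card_eq_prime_sq h3
    have h4 : H.relIndex ⊤ = p := by
      rw [relIndex_top_right]
      exact Nat.eq_of_mul_eq_mul_left (by positivity) (h3 ▸ H.card_mul_index.trans (h.trans (pow_succ p 2)))
    by_contra h5
    have h6 := Coprime.eq_of_lt_of_relIndex_prime (h4 ▸ Fact.out) (lt_of_le_not_ge H.le_centralizer h5) le_top
    have := Coprime.isMulCommutative_of_relIndex_prime le_top (le_centralizer_iff.1 h6.ge) (h4 ▸ Fact.out)
    exact hna ⟨⟨fun a b => congrArg Subtype.val (this.is_comm.comm ⟨a, trivial⟩ ⟨b, trivial⟩)⟩⟩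
  · rw [eq_top_of_card_eq H (h3.trans h.symm)]
    exact le_top

end Cfsg.Agent.S3918
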