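import Cfsg.Statements.S3919
import Cfsg.Agent.Lib.PGroup.MaxClass2

set_option autoImplicit false
open Cfsg

namespace Cfsg.Agent.S3919

/-- Say that a group has self-centralizing non-cyclic subgroups when every non-cyclic subgroup H satisfies C_G(H) ≤ H. A finite non-abelian 2-group G of order 2^n has self-centralizing non-cyclic subgroups if and only if G has nilpotency class n − 1 (that is, G is dihedral, semidihedral or generalized quaternion). -/
theorem result {G : Type*} [Group G] [Finite G] (hna : ¬ IsMulCommutative G) (n : ℕ) (hG : Nat.card G = 2 ^ n) :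
    (∀ H : Subgroup G, ¬ IsCyclic ↥H → Subgroup.centralizer (H : Set G) ≤ H) ↔ (⊤ : Subgroup G).lowerCentralSeries (n - 2) ≠ ⊥ := by
  have hP := IsPGroup.of_card hG
  have := hP.isNilpotent
  have hn : 3 ≤ n := by
    by_contra hn
    exact hna (CfsgLib.PGroup.isMulCommutative_of_card_le_sq hP
      (hG ▸ Nat.pow_le_pow_right two_pos (by omega)))
  rw [Ne, Subgroup.lowerCentralSeries_eq_bot_iff_nilpotencyClass_le]
  constructor
  · intro h
    have := CfsgLib.PGroup.maximal_class_of_forall_centralizer_le hG hna fun H hH _ => h H hH
    omega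
  · intro h H hH
    have h1 := CfsgLib.PGroup.nilpotencyClass_le_of_card_le (n - 2) hP
      (by rw [hG, show n - 2 + 2 = n by omega])
    exact CfsgLib.PGroup.centralizer_le_of_index_commutator_eq_four hn hG
      (CfsgLib.PGroup.index_commutator_of_maximal_class hn hG (by omega)) hH

end Cfsg.Agent.S3919
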