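import Cfsg.Statements.S3920


set_option autoImplicit false
open Cfsg

namespace Cfsg.Agent.S3920

open DihedralGroup Subgroup

/-- Say that a group has self-centralizing non-cyclic subgroups when every non-cyclic subgroup H satisfies C_G(H) ≤ H. For n ≥ 3, the dihedral group of order 2n has self-centralizing non-cyclic subgroups if and only if n is odd or a power of 2. -/
theorem result (n : ℕ) (hn : 3 ≤ n) : (∀ H : Subgroup (DihedralGroup n), ¬ IsCyclic ↥H → Subgroup.centralizer (H : Set (DihedralGroup n)) ≤ H) ↔ (Odd n ∨ ∃ k : ℕ, n = 2 ^ k) := by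
  have : NeZero n := ⟨by omega⟩
  have : Fact (Nat.Prime 2) := ⟨Nat.prime_two⟩
  refine ⟨fun h => by_contra fun h1 => ?_, fun h H hH c hc => ?_⟩
  · rw [not_or, Nat.not_odd_iff_even] at h1
    obtain ⟨p, hp, h2, h3⟩ : ∃ p : ℕ, p.Prime ∧ p ∣ n ∧ p ≠ 2 := by
      by_contra! h2
      exact h1.2 ⟨_, Nat.eq_prime_pow_of_unique_prime_dvd (by omega) fun {d} => h2 d⟩
    have := Fact.mk hp
    obtain ⟨a, ha⟩ := exists_prime_addOrderOf_dvd_card' (G := ZMod n) p (by rwa [Nat.card_zmod])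
    obtain ⟨b, hb⟩ := exists_prime_addOrderOf_dvd_card' (G := ZMod n) 2 (by rw [Nat.card_zmod]; exact h1.1.two_dvd)
    let H : Subgroup (DihedralGroup n) :=
      { carrier := {x | ∃ i, p • i = 0 ∧ (x = r i ∨ x = sr i)}
        one_mem' := ⟨0, smul_zero _, .inl rfl⟩
        mul_mem' := by
          rintro _ _ ⟨i, hi, rfl | rfl⟩ ⟨j, hj, rfl | rfl⟩
          exacts [⟨i + j, by rw [smul_add, hi, hj, add_zero], .inl rfl⟩, ⟨j - i, by rw [smul_sub, hi, hj, sub_zero], .inr rfl⟩,
            ⟨i + j, by rw [smul_add, hi, hj, add_zero], .inr rfl⟩, ⟨j - i, by rw [smul_sub, hi, hj, sub_zero], .inl rfl⟩]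
        inv_mem' := by
          rintro _ ⟨i, hi, rfl | rfl⟩
          exacts [⟨-i, by rw [smul_neg, hi, neg_zero], .inl rfl⟩, ⟨i, hi, .inr rfl⟩] }
    have h4 : b + b = 0 := by rw [← two_nsmul, ← hb, addOrderOf_nsmul_eq_zero]
    obtain ⟨i, h5, e | e⟩ := h H (fun e => by
      have := congrArg Subtype.val (e.isMulCommutative.is_comm.comm
        ⟨r a, a, by rw [← ha, addOrderOf_nsmul_eq_zero], .inl rfl⟩ ⟨sr 0, 0, smul_zero _, .inr rfl⟩)
      change sr _ = sr _ at this
      rw [sr.injEq, zero_sub, zero_add, neg_eq_iff_add_eq_zero, ← two_nsmul, ← addOrderOf_dvd_iff_nsmul_eq_zero, ha] at this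
      exact h3 ((Nat.prime_dvd_prime_iff_eq hp Nat.prime_two).1 this)) (show r b ∈ _ by
      rintro _ ⟨i, -, rfl | rfl⟩
      · simp [add_comm]
      · simp [sub_eq_add_neg, neg_eq_of_add_eq_zero_left h4])
    · rw [← r.inj e, ← addOrderOf_dvd_iff_nsmul_eq_zero, hb] at h5
      exact h3 ((Nat.prime_dvd_prime_iff_eq Nat.prime_two hp).1 h5).symm
    · cases e
  obtain ⟨i, hi⟩ : ∃ i, sr i ∈ H := by
    by_contra! h1
    refine hH (isCyclic_of_le (show H ≤ zpowers (r 1) from ?_))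
    rintro (j | j) hj
    exacts [⟨j.val, by simp⟩, absurd hj (h1 j)]
  obtain ⟨j, j1, j2⟩ : ∃ j, j ≠ 0 ∧ r j ∈ H := by
    by_contra! h1
    refine hH (isCyclic_of_le (show H ≤ zpowers (sr i) from ?_))
    rintro (j | j) hj
    · rw [by_contra fun e => h1 j e hj]
      exact one_mem _
    · rw [sub_eq_zero.1 (by_contra fun e => h1 _ e (mul_mem hi hj))]
      exact mem_zpowers _
  have key : ∀ d : ZMod n, -d = d → r d ∈ H := fun d hd => by
    rcases (ZMod.neg_eq_self_iff d).1 hd with rfl | h1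
    · exact one_mem H
    rcases h with h | ⟨k, h⟩
    · exact absurd ⟨_, h1.symm⟩ h.not_two_dvd_nat
    obtain ⟨m, -, hm⟩ := (Nat.dvd_prime_pow Nat.prime_two).1 (show addOrderOf j ∣ 2 ^ k by
      simpa [← h] using addOrderOf_dvd_natCard j)
    obtain ⟨m, rfl⟩ := Nat.exists_eq_add_one_of_ne_zero fun e : m = 0 => j1 (by simpa [e] using hm)
    have h2 : -((2 ^ m : ℕ) • j) = (2 ^ m : ℕ) • j := by
      rw [neg_eq_iff_add_eq_zero, ← two_nsmul, ← mul_nsmul', ← pow_succ', ← hm, addOrderOf_nsmul_eq_zero]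
    rcases (ZMod.neg_eq_self_iff _).1 h2 with h3 | h3
    · rw [← addOrderOf_dvd_iff_nsmul_eq_zero, hm, Nat.pow_dvd_pow_iff_le_right (by norm_num)] at h3
      omega
    · rw [ZMod.val_injective n (show d.val = ((2 ^ m : ℕ) • j).val by omega)]
      simpa [mul_comm] using pow_mem j2 (2 ^ m)
  have h1 := hc _ hi
  rcases c with k | k
  · exact key k (by simpa [sub_eq_add_neg, eq_comm] using h1)
  · simpa using mul_mem hi (key (k - i) (by simpa [eq_comm] using h1))

end Cfsg.Agent.S3920
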