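import Cfsg.Statements.S3928
import Cfsg.Agent.S3927
import Cfsg.Agent.S3949
import Cfsg.Agent.Lib.Invol.Count

set_option autoImplicit false
open Cfsg

namespace Cfsg.Agent.S3928

open CfsgLib Subgroup

/-- the bound of `lemS` -/
def sb (z m N : ℕ) : ℕ := z * (z * N) ^ (z * m)

open scoped IsMulCommutative in
theorem lemS {G : Type} [Group G] [Finite G] {J : Set G} {z m N : ℕ} (h1 : closure J = ⊤) (h2 : Nat.card J ≤ m)
    (h3 : ∀ x ∈ J, x ^ N = 1) (hN : 0 < N) (h4 : (center G).index ≤ z) : Nat.card G ≤ sb z m N := by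
  have h0 : 0 < (center G).index := Nat.pos_of_ne_zero FiniteIndex.index_ne_zero
  have h5 : Group.rank G ≤ m := ((Group.rank_congr topEquiv).symm.trans (rank_congr h1.symm)).trans_le
    ((rank_closure_finite_le_nat_card J).trans h2)
  have h6 : ∀ g, MonoidHom.transferCenterPow G g ^ N = 1 := fun g => by
    induction h1.ge (mem_top g) using closure_induction with
    | mem x hx => rw [← map_pow, h3 x hx, map_one]
    | one => simp
    | mul x y _ _ hx hy => rw [map_mul, (Commute.all _ _).mul_pow, hx, hy, mul_one]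
    | inv x _ hx => rw [map_inv, inv_pow, hx, inv_one]
  have h7 := card_dvd_exponent_pow_rank' (center G) (n := (center G).index * N) fun g =>
    Subtype.ext (by rw [pow_mul]; exact congrArg Subtype.val (h6 g))
  rw [← (center G).index_mul_card]
  refine Nat.mul_le_mul h4 ((Nat.le_of_dvd (by positivity) h7).trans ((Nat.pow_le_pow_left
    (Nat.mul_le_mul_right N h4) _).trans (Nat.pow_le_pow_right (Nat.mul_pos (h0.trans_le h4) hN)
      ((rank_le_index_mul_rank _).trans (Nat.mul_le_mul h4 h5)))))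

theorem index_core_le {G : Type} [Group G] [Finite G] (H : Subgroup G) : H.normalCore.index ≤ H.index.factorial := by
  rw [normalCore_eq_ker, index_ker, index_eq_card, ← Nat.card_perm]
  exact card_le_card_group _

theorem lemN (k r : ℕ) : ∃ b, ∀ (H : Type) [Group H] [Finite H], Group.rank H ≤ r →
    ∃ N : Subgroup H, N.Normal ∧ N.index ≤ b ∧ ∀ K : Subgroup H, K.index ≤ k → N ≤ K := by
  refine ⟨k.factorial ^ k.factorial ^ r, fun H _ _ hr => ?_⟩
  obtain ⟨S, h1, h2⟩ := Group.rank_spec H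
  have c1 : Nat.card (Equiv.Perm (Fin k)) = k.factorial := by rw [Nat.card_perm, Nat.card_fin]
  have i : Function.Injective fun (φ : H →* Equiv.Perm (Fin k)) (s : S) => φ s := fun φ ψ e =>
    MonoidHom.eq_of_eqOn_dense h2 fun x hx => congrFun e ⟨x, hx⟩
  have := Finite.of_injective _ i
  have c2 := Nat.card_le_card_of_injective _ i
  rw [Nat.card_fun, c1, Nat.card_eq_finsetCard, h1] at c2
  refine ⟨(MonoidHom.pi fun φ : H →* Equiv.Perm (Fin k) => φ).ker, inferInstance, ?_, fun K hK x hx => ?_⟩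
  · rw [index_ker]
    refine (card_le_card_group _).trans ?_
    rw [Nat.card_fun, c1]
    exact Nat.pow_le_pow_right k.factorial_pos (c2.trans (Nat.pow_le_pow_right k.factorial_pos hr))
  · obtain ⟨ι⟩ : Nonempty (H ⧸ K ↪ Fin k) := by
      have := Fintype.ofFinite (H ⧸ K)
      exact Function.Embedding.nonempty_of_card_le (by rwa [← Nat.card_eq_fintype_card, Fintype.card_fin])
    refine normalCore_le K (normalCore_eq_ker K ▸ Equiv.Perm.viaEmbeddingHom_injective ι ?_)
    rw [map_one]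
    exact congrFun hx ((Equiv.Perm.viaEmbeddingHom ι).comp (MulAction.toPermHom H (H ⧸ K)))

theorem lemC {H : Type} [Group H] [Finite H] {t : H} (ht : orderOf t = 2) {c : ℕ}
    (hc : Nat.card (centralizer {t}) ≤ c) {F : Subgroup H}
    (hF : ∀ x, (centralizer {x}).index ≤ 2 * c ^ 2 → x ∈ F) : F.index ≤ 2 * c := by
  classical
  have := Fintype.ofFinite H
  have h2 := Invol.index_centralizer_le_card_involutions ht
  have h3 := (centralizer {t}).card_mul_index
  have h4 := Invol.sum_card_pairs (G := H)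
  rw [← Finset.sum_filter_add_sum_filter_not _ (· ∈ F)] at h4
  have h5 := Finset.sum_le_card_nsmul (Finset.univ.filter (· ∉ F)) (fun x => 2 * c ^ 2 *
    Nat.card {p : H × H // orderOf p.1 = 2 ∧ orderOf p.2 = 2 ∧ p.1 * p.2 = x}) (Nat.card H)
    fun x hx => (Nat.mul_le_mul (not_le.1 fun e => (Finset.mem_filter.1 hx).2 (hF x e)).le
      (Invol.card_pairs_le x)).trans (centralizer {x}).index_mul_card.le
  have h6 := Finset.sum_le_card_nsmul (Finset.univ.filter (· ∈ F)) (fun x =>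
    Nat.card {p : H × H // orderOf p.1 = 2 ∧ orderOf p.2 = 2 ∧ p.1 * p.2 = x}) (Nat.card {t : H // orderOf t = 2})
    fun x _ => Nat.card_le_card_of_injective (fun p => (⟨p.1.1, p.2.1⟩ : {t : H // orderOf t = 2})) fun p q e => by
      have e1 : p.1.1 = q.1.1 := congrArg Subtype.val e
      exact Subtype.ext (Prod.ext e1 (mul_left_cancel (a := p.1.1) (by rw [p.2.2.2, e1, q.2.2.2])))
  rw [← Finset.mul_sum, smul_eq_mul] at h5
  rw [← Fintype.card_subtype, ← Nat.card_eq_fintype_card, smul_eq_mul] at h6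
  have h7 : (Finset.univ.filter (· ∉ F)).card ≤ Nat.card H := Nat.card_eq_fintype_card (α := H) ▸ Finset.card_le_univ _
  have h8 := F.card_mul_index
  have h9 : 0 < Nat.card F := Nat.card_pos
  have h10 : 0 < Nat.card {t : H // orderOf t = 2} := Nat.card_pos_iff.2 ⟨⟨⟨t, ht⟩⟩, inferInstance⟩
  have h11 : 0 < c := Nat.card_pos.trans_le hc
  have h12 : Nat.card H ≤ c * Nat.card {t : H // orderOf t = 2} := h3 ▸ Nat.mul_le_mul hc h2
  have h13 := h5.trans ((Nat.mul_le_mul_right _ h7).trans (Nat.mul_le_mul h12 h12))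
  have h14 : Nat.card {t : H // orderOf t = 2} ≤ 2 * Nat.card F := by
    refine Nat.le_of_mul_le_mul_left (Nat.le_of_mul_le_mul_left ?_ (pow_pos h11 2)) h10
    nlinarith [Nat.mul_le_mul_left (c ^ 2) h6]
  refine Nat.le_of_mul_le_mul_left ?_ h9
  nlinarith [Nat.mul_le_mul_left c h14]

theorem lemB (c r : ℕ) : ∃ b, ∀ (H : Type) [Group H] [Finite H] (t : H), orderOf t = 2 →
    Nat.card (centralizer {t}) ≤ c → Group.rank H ≤ r →
    ∃ A : Subgroup H, A.index ≤ b ∧ ∀ a ∈ A, ∀ g, Commute a (g * t * g⁻¹ * t⁻¹) := by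
  obtain ⟨b, hb⟩ := lemN (2 * c ^ 2) r
  refine ⟨(c * (b * (2 * c))).factorial, fun H _ _ t ht hc hr => ?_⟩
  obtain ⟨N, _, h1, h2⟩ := hb H hr
  have h3 := lemC ht hc (F := centralizer N) fun x hx y hy => mem_centralizer_singleton_iff.1 (h2 _ hx hy)
  have tt : t * t = 1 := by rw [← pow_two, ← ht, pow_orderOf_eq_one]
  set A := N ⊓ centralizer (N : Set H)
  have hA : A.Normal := inferInstance
  have cm : ∀ x ∈ A, ∀ y ∈ A, x * y = y * x := fun x hx y hy => hy.2 x hx.1
  let I : Subgroup H :=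
    { carrier := {x | x ∈ A ∧ t * x * t⁻¹ = x⁻¹}
      one_mem' := ⟨one_mem A, by simp⟩
      mul_mem' := fun {x y} hx hy => ⟨mul_mem hx.1 hy.1, by
        rw [cm x hx.1 y hy.1, mul_inv_rev, ← hx.2, ← hy.2, ← cm x hx.1 y hy.1]; group⟩
      inv_mem' := fun {x} hx => ⟨inv_mem hx.1, by
        rw [show t * x⁻¹ * t⁻¹ = (t * x * t⁻¹)⁻¹ by group, hx.2]⟩ }
  let f : A →* H := MonoidHom.mk' (fun x => x * (t * x * t⁻¹)⁻¹) fun x y => by
    rw [mul_assoc (x : H) _ (_ * _), cm _ (inv_mem (hA.conj_mem _ x.2 t)) _ (mul_mem y.2 (inv_mem (hA.conj_mem _ y.2 t)))]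
    simp [mul_assoc]
  have h4 : Nat.card A ≤ c * Nat.card I := by
    rw [← f.ker.card_mul_index, index_ker, ← card_subtype]
    refine Nat.mul_le_mul ((card_le_of_le ?_).trans hc) (card_le_of_le ?_)
    · rintro _ ⟨x, hx, rfl⟩
      exact mem_centralizer_singleton_iff.2 (eq_mul_inv_iff_mul_eq.1 (mul_inv_eq_one.1 hx))
    · rintro _ ⟨x, rfl⟩
      refine ⟨mul_mem x.2 (inv_mem (hA.conj_mem _ x.2 t)), ?_⟩
      show t * (x * (t * x * t⁻¹)⁻¹) * t⁻¹ = (x * (t * x * t⁻¹)⁻¹)⁻¹
      rw [show t * (x * (t * x * t⁻¹)⁻¹) * t⁻¹ = t * x * t⁻¹ * (t * t * (x : H)⁻¹ * (t * t)⁻¹) by group, tt]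
      group
  have h5 : I.index ≤ c * (b * (2 * c)) := by
    refine le_trans (Nat.le_of_mul_le_mul_left ?_ (Nat.card_pos (α := I)))
      (Nat.mul_le_mul_left c (index_inf_le.trans (Nat.mul_le_mul h1 h3)))
    rw [I.card_mul_index, ← A.card_mul_index, mul_left_comm, ← mul_assoc]
    exact Nat.mul_le_mul_right _ h4
  refine ⟨I.normalCore, (index_core_le I).trans (Nat.factorial_le h5), fun a ha g => ?_⟩
  have e1 := (normalCore_le I (inv_mem ha)).2
  have e2 := (ha g⁻¹).2
  refine (mul_inv_eq_iff_eq_mul.1 ?_).symm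
  have e3 : t⁻¹ * a * t = a⁻¹ := by
    rw [inv_inv] at e1
    nth_rw 1 [← e1]; group
  calc _ = g * (t * (g⁻¹ * (t⁻¹ * a * t) * g) * t⁻¹) * g⁻¹ := by group
    _ = g * (t * (g⁻¹ * a * g⁻¹⁻¹) * t⁻¹)⁻¹ * g⁻¹ := by rw [e3]; group
    _ = a := by rw [e2]; group

/-- There is a function f such that for every non-trivial finite group G and every automorphism α of G of order 2 with [G, α] = G (the elements g·α(g)⁻¹ generate G), the order of G is at most f(m), where m is the number of elements of odd order inverted by α. -/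
theorem result : ∃ f : ℕ → ℕ, ∀ (G : Type) [Group G] [Finite G] [Nontrivial G] (α : MulAut G), orderOf α = 2 →
    Subgroup.closure (Set.range (fun c : G => c * (α c)⁻¹)) = ⊤ →
      Nat.card G ≤ f (Nat.card {g : G // Odd (orderOf g) ∧ α g = g⁻¹}) := by
  choose b hb using lemB
  refine ⟨fun m => sb (sb (b m.factorial (m + 1)) m m.factorial) m m.factorial, fun G _ _ _ α hα hG => ?_⟩
  show _ ≤ (fun m => sb (sb (b m.factorial (m + 1)) m m.factorial) m m.factorial)
    (Nat.card {g : G | Odd (orderOf g) ∧ α g = g⁻¹})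
  set J := {g : G | Odd (orderOf g) ∧ α g = g⁻¹} with hJ
  have h1 : closure J = ⊤ := by
    rw [hJ, ← S3949.result α hα hG (Nat.card G) fun g _ e => (Nat.le_of_dvd (orderOf_pos g) e).not_gt
      ((_root_.orderOf_le_card (x := g)).trans_lt Nat.lt_two_pow_self)]
    exact S3927.result α hG _ Nat.card_pos
  have h2 : ∀ x ∈ J, x ^ (Nat.card J).factorial = 1 := fun x hx => orderOf_dvd_iff_pow_eq_one.1
    (Nat.dvd_factorial (orderOf_pos x) (Nat.card_zpowers x ▸ Nat.card_mono (Set.toFinite J) (by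
      rintro _ ⟨n, rfl⟩
      exact ⟨hx.1.of_dvd_nat (orderOf_dvd_of_mem_zpowers ⟨n, rfl⟩), by simp [hx.2]⟩)))
  let H : Subgroup (MulAut G) := closure (insert α (MulAut.conj '' J))
  have ha : α ∈ H := Subgroup.subset_closure (Set.mem_insert _ _)
  let ψ : G →* H := MulAut.conj.codRestrict H fun g => ((closure_le (H.comap MulAut.conj)).2 fun x hx =>
    Subgroup.subset_closure (Set.mem_insert_of_mem _ ⟨x, hx, rfl⟩)) (h1.ge (mem_top g))
  have h3 : Nat.card (centralizer {(⟨α, ha⟩ : H)}) ≤ (Nat.card J).factorial := by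
    rw [← Nat.card_perm]
    have : ∀ β : centralizer {(⟨α, ha⟩ : H)}, ∀ x ∈ J, β.1.1 x ∈ J := fun β x hx =>
      ⟨by rw [MulEquiv.orderOf_eq]; exact hx.1, by
        rw [← MulAut.mul_apply, ← show β.1.1 * α = α * β.1.1 from
          congrArg Subtype.val (mem_centralizer_singleton_iff.1 β.2), MulAut.mul_apply, hx.2, map_inv]⟩
    refine Nat.card_le_card_of_injective (fun β => Equiv.ofBijective (fun x : J => (⟨_, this β x x.2⟩ : J))
      (Finite.injective_iff_bijective.1 fun x y e => Subtype.ext (β.1.1.injective (congrArg Subtype.val e))))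
      fun β γ e => Subtype.ext (Subtype.ext (MulEquiv.toMonoidHom_injective
        (MonoidHom.eq_of_eqOn_dense h1 fun x hx => congrArg (fun f : Equiv.Perm J => (f ⟨x, hx⟩ : G)) e)))
  obtain ⟨A, h4, h5⟩ := hb _ _ H ⟨α, ha⟩ ((orderOf_coe _).symm.trans hα) h3
    ((rank_closure_finite_le_nat_card _).trans ((Set.ncard_insert_le _ _).trans
      (Nat.succ_le_succ (Set.ncard_image_le (Set.toFinite J)))))
  have h6 : ∀ a ∈ A, ∀ g, ψ g * a = a * ψ g := fun a ha g => mem_centralizer_singleton_iff.1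
    (((closure_le ((centralizer {a}).comap ψ)).2 (by
      rintro _ ⟨c, rfl⟩
      refine mem_centralizer_singleton_iff.2 ?_
      have : ψ (c * (α c)⁻¹) = ψ c * ⟨α, ‹α ∈ H›⟩ * (ψ c)⁻¹ * ⟨α, ‹α ∈ H›⟩⁻¹ :=
        Subtype.ext (MulEquiv.ext fun x => by
          show c * (α c)⁻¹ * x * (c * (α c)⁻¹)⁻¹ = c * α (c⁻¹ * α.symm x * c) * c⁻¹
          simp [mul_assoc])
      show ψ (c * (α c)⁻¹) * a = a * ψ (c * (α c)⁻¹)
      rw [this]
      exact (h5 a ha (ψ c)).eq.symm)) (hG.ge (mem_top g)))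
  refine lemS h1 le_rfl h2 (Nat.factorial_pos _) ?_
  have e : ψ.ker = center G := by
    ext g
    rw [MonoidHom.mem_ker, Subtype.ext_iff, mem_center_iff, MulEquiv.ext_iff]
    exact forall_congr' fun x => mul_inv_eq_iff_eq_mul.trans eq_comm
  rw [← e, index_ker]
  refine lemS (J := ψ.rangeRestrict '' J) (by
    rw [← MonoidHom.map_closure, h1, map_top_of_surjective _ ψ.rangeRestrict_surjective])
    (Set.ncard_image_le (Set.toFinite J)) (by rintro _ ⟨x, hx, rfl⟩; rw [← map_pow, h2 x hx, map_one])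
    (Nat.factorial_pos _) (le_trans (index_antitone (H := A.subgroupOf _) ?_)
      ((relIndex_le_of_le_right le_top (by simp [FiniteIndex.index_ne_zero])).trans ((relIndex_top_right A).trans_le h4)))
  rintro x hx
  exact mem_center_iff.2 fun ⟨_, g, rfl⟩ => Subtype.ext (h6 _ hx g)

end Cfsg.Agent.S3928
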