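import Cfsg.Statements.S3933
import Cfsg.Agent.Lib.Char.Burnside
import Cfsg.Agent.Lib.Fgs.OrbitSum

set_option autoImplicit false
open Cfsg

namespace Cfsg.Agent.S3933

open Subgroup

theorem dvd_sub {G : Type*} [Group G] [Finite G] (N : Subgroup G) [N.Normal] (p : ℕ)
    [Fact p.Prime] : Nat.card (Sylow p N) ∣ Nat.card (Sylow p G) := by
  obtain ⟨Q⟩ : Nonempty (Sylow p N) := inferInstance
  obtain ⟨P, hP⟩ := Q.exists_comap_subtype_eq
  have h1 := Sylow.normalizer_sup_eq_top Q
  set H := normalizer (((Q : Subgroup N).map N.subtype : Subgroup G) : Set G) with hH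
  have h2 : H.relIndex N = H.index := by
    have e1 := relIndex_mul_index (inf_le_left : H ⊓ N ≤ H)
    have e2 := relIndex_mul_index (inf_le_right : H ⊓ N ≤ N)
    rw [inf_relIndex_left] at e1
    rw [inf_relIndex_right] at e2
    have e3 : N.relIndex H = N.index := by
      rw [← relIndex_sup_right, h1, relIndex_top_right]
    rw [e3, ← e2, mul_comm] at e1
    exact (Nat.eq_of_mul_eq_mul_right (Nat.pos_of_ne_zero index_ne_zero_of_finite) e1).symm
  have h3 : H.subgroupOf N = normalizer (Q : Set N) := by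
    rw [hH, subgroupOf_normalizer_eq (map_subtype_le _)]
    congr 2
    exact comap_map_eq_self_of_injective N.subtype_injective _
  rw [Q.card_eq_index_normalizer, P.card_eq_index_normalizer, ← h3]
  change H.relIndex N ∣ _
  rw [h2]
  refine index_dvd_of_le ?_
  rw [hH, ← hP, map_comap_eq, range_subtype]
  intro g hg
  exact inf_normalizer_le_normalizer_inf ⟨(normalizer_eq_top N).symm ▸ mem_top g, hg⟩

theorem dvd_quot {G : Type*} [Group G] [Finite G] (N : Subgroup G) [N.Normal] (p : ℕ)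
    [Fact p.Prime] : Nat.card (Sylow p (G ⧸ N)) ∣ Nat.card (Sylow p G) := by
  obtain ⟨P⟩ : Nonempty (Sylow p G) := inferInstance
  have hs := QuotientGroup.mk'_surjective N
  rw [(P.mapSurjective hs).card_eq_index_normalizer, P.card_eq_index_normalizer,
    ← index_comap_of_surjective _ hs]
  refine index_dvd_of_le ?_
  rw [← map_le_iff_le_comap]
  exact le_normalizer_map _

theorem lemK {G : Type*} [Group G] [Finite G] [IsSimpleGroup G] {r s : ℕ} [Fact r.Prime]
    [Fact s.Prime] (hs : s ∣ Nat.card G) (hr : Nat.card (Sylow r G) ≠ 1)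
    (h : (Nat.card (Sylow r G)).Coprime (Nat.card (Sylow s G))) : s ∣ Nat.card (Sylow r G) := by
  by_contra h1
  obtain ⟨S⟩ : Nonempty (Sylow s G) := inferInstance
  obtain ⟨R, hR⟩ := S.isPGroup'.nonempty_fixed_point_of_prime_not_dvd_card (Sylow r G) h1
  have h2 : (S : Subgroup G) ≤ normalizer (R : Set G) := fun x hx =>
    Sylow.smul_eq_iff_mem_normalizer.1 (hR ⟨x, hx⟩)
  rw [R.card_eq_index_normalizer, S.card_eq_index_normalizer] at h
  have h3 : normalClosure (S : Set G) ≤ normalizer (R : Set G) := by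
    rw [normalClosure, closure_le]
    intro y hy
    obtain ⟨x, hx, hxy⟩ := Group.mem_conjugatesOfSet_iff.1 hy
    obtain ⟨g, rfl⟩ := isConj_iff.1 hxy
    obtain ⟨a, ha, b, hb, rfl⟩ := CfsgLib.Fgs.exists_mul_of_coprime_index h.symm g
    have h4 : b * x * b⁻¹ ∈ (S : Subgroup G) := (mem_normalizer_iff.1 hb x).1 hx
    have : a * b * x * (a * b)⁻¹ = a * (b * x * b⁻¹) * a⁻¹ := by group
    rw [this]
    exact mul_mem (mul_mem ha (h2 h4)) (inv_mem ha)
  have h4 : normalClosure (S : Set G) = ⊤ :=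
    (Normal.eq_bot_or_eq_top inferInstance).resolve_left fun e =>
      S.ne_bot_of_dvd_card hs (eq_bot_iff.2 (e ▸ le_normalClosure))
  apply hr
  rw [h4, top_le_iff] at h3
  rw [R.card_eq_index_normalizer, h3, index_top]

theorem pp {m n : ℕ} (hmn : m ∣ n) (h : n = 1 ∨ IsPrimePow n) : m = 1 ∨ IsPrimePow m := by
  rcases h with rfl | h
  · exact Or.inl (Nat.dvd_one.1 hmn)
  · by_cases h1 : m = 1
    · exact Or.inl h1
    · exact Or.inr (h.dvd hmn h1)

/-- If for every prime r the number of Sylow r-subgroups of the finite group G is a prime power or 1, then G is solvable. -/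
theorem result {G : Type*} [Group G] [Finite G] (h : ∀ (r : ℕ) [Fact r.Prime], Nat.card (Sylow r G) = 1 ∨ IsPrimePow (Nat.card (Sylow r G))) :
    Group.IsSolvable G := by
  refine CfsgLib.Char.isSolvable_of_simple_case (fun G _ => ∀ (r : ℕ) [Fact r.Prime],
    Nat.card (Sylow r G) = 1 ∨ IsPrimePow (Nat.card (Sylow r G))) ?_ ?_ ?_ G h
  · intro G _ _ N _ h r _
    exact pp (dvd_sub N r) (h r)
  · intro G _ _ N _ h r _
    exact pp (dvd_quot N r) (h r)
  intro G _ _ _ h
  by_contra hG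
  have h1 : ∀ (r : ℕ) [Fact r.Prime], r ∣ Nat.card G → Nat.card (Sylow r G) ≠ 1 := by
    intro r _ hr e
    obtain ⟨R⟩ : Nonempty (Sylow r G) := inferInstance
    rw [R.card_eq_index_normalizer, index_eq_one] at e
    replace e : (R : Subgroup G).Normal := normalizer_eq_top_iff.1 e
    have h2 := e.eq_bot_or_eq_top.resolve_left (R.ne_bot_of_dvd_card hr)
    have h3 : IsPGroup r G := (h2 ▸ R.isPGroup' : IsPGroup r (⊤ : Subgroup G)).of_equiv topEquiv
    have := h3.isNilpotent
    exact hG inferInstance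
  have h2 : ∀ (r : ℕ) [Fact r.Prime], r ∣ Nat.card G → ∃ u a : ℕ, u.Prime ∧ u ∣ Nat.card G ∧
      u ≠ r ∧ Nat.card (Sylow r G) = u ^ a := by
    intro r _ hr
    obtain ⟨u, a, hu, ha, e⟩ := (isPrimePow_nat_iff _).1 ((h r).resolve_left (h1 r hr))
    obtain ⟨R⟩ : Nonempty (Sylow r G) := inferInstance
    have h3 : u ∣ Nat.card (Sylow r G) := e ▸ dvd_pow_self u ha.ne'
    refine ⟨u, a, hu, h3.trans (R.card_dvd_index.trans (index_dvd_card _)), ?_, e.symm⟩
    rintro rfl
    exact not_dvd_card_sylow u G h3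
  obtain ⟨t, ht, htG⟩ := Nat.exists_prime_and_dvd (Finite.one_lt_card (α := G)).ne'
  have := Fact.mk ht
  obtain ⟨q, a, hq, hqG, hqt, ea⟩ := h2 t htG
  have := Fact.mk hq
  obtain ⟨r, b, hr, -, hrq, eb⟩ := h2 q hqG
  have cop : ∀ {x y : ℕ} (i j : ℕ), x.Prime → y.Prime → x ≠ y → (x ^ i).Coprime (y ^ j) :=
    fun i j hx hy hxy => Nat.Coprime.pow i j ((Nat.coprime_primes hx hy).2 hxy)
  have h3 := lemK htG (h1 q hqG) (by rw [ea, eb]; exact cop _ _ hr hq hrq)
  rw [eb] at h3
  obtain rfl := (Nat.prime_dvd_prime_iff_eq ht hr).1 (ht.dvd_of_dvd_pow h3)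
  refine hG (CfsgLib.Char.isSolvable_of_prime_dvd_card ht hq fun s hs hsG => ?_)
  have := Fact.mk hs
  obtain ⟨u, c, hu, -, -, ec⟩ := h2 s hsG
  by_cases huq : u = q
  · have h4 := lemK hsG (h1 q hqG) (by rw [eb, ec, huq]; exact cop _ _ ht hq hrq)
    rw [eb] at h4
    exact Or.inl ((Nat.prime_dvd_prime_iff_eq hs ht).1 (hs.dvd_of_dvd_pow h4))
  · have h4 := lemK hsG (h1 t htG) (by rw [ea, ec]; exact cop _ _ hq hu (Ne.symm huq))
    rw [ea] at h4
    exact Or.inr ((Nat.prime_dvd_prime_iff_eq hs hq).1 (hs.dvd_of_dvd_pow h4))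

end Cfsg.Agent.S3933
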