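import Cfsg.Statements.S3937
import Cfsg.Agent.Lib.GT.Engel

set_option autoImplicit false
open Cfsg

namespace Cfsg.Agent.S3937

open CfsgLib CfsgLib.GT Subgroup

/-- Baer's characterization of the Fitting subgroup: in a finite group G, an element g lies in the Fitting subgroup if and only if g is a left Engel element, that is, for every x there is n with [x, g, g, …, g] = 1 (n entries g, [a, b] = aba⁻¹b⁻¹). -/
theorem result {G : Type*} [Group G] [Finite G] (g : G) :
    g ∈ Cfsg.fittingSubgroup G ↔ ∀ x : G, ∃ n : ℕ, (List.replicate n g).foldl (fun a b => a * b * a⁻¹ * b⁻¹) x = 1 := by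
  have e : ∀ (n : ℕ) (x : G), (List.replicate n g).foldl (fun a b => a * b * a⁻¹ * b⁻¹) x = (br g)^[n] x :=
    fun n => by
      induction n with
      | zero => exact fun _ => rfl
      | succ n ih => exact fun x => ih _
  simp only [e]
  refine ⟨fun h x => ?_, fun h => ?_⟩
  · have := Core.isNilpotent_fittingSubgroup (G := G)
    obtain ⟨n, hn⟩ := Subgroup.nilpotent_iff_lowerCentralSeries.1 this
    have h1 : br g x ∈ fittingSubgroup G := mul_mem ((Core.fittingSubgroup_normal G).conj_mem _ h x) (inv_mem h)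
    have h2 : ∀ k, (br (⟨g, h⟩ : fittingSubgroup G))^[k] ⟨_, h1⟩ ∈ (⊤ : Subgroup _).lowerCentralSeries k := fun k => by
      induction k with
      | zero => exact mem_top _
      | succ k ih => exact Function.iterate_succ_apply' _ k _ ▸ commutator_mem_commutator ih (mem_top _)
    exact ⟨n + 1, (map_br (fittingSubgroup G).subtype ⟨g, h⟩ ⟨_, h1⟩ n).symm.trans
      (congrArg Subtype.val (mem_bot.1 (hn ▸ h2 n)))⟩
  choose n hn using h
  obtain ⟨k, hk⟩ := (Set.finite_range n).bddAbove
  have h1 : ∀ x, (br g)^[k] x = 1 := fun x => by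
    rw [← Nat.sub_add_cancel (hk ⟨x, rfl⟩), Function.iterate_add_apply, hn]
    exact Function.iterate_fixed (by simp [br]) _
  obtain ⟨W, h2, h3⟩ := exists_full (le_top : zpowers g ≤ ⊤)
  have h4 : W ≤ zpowers g := h2.le k (fun x _ => h1 x ▸ one_mem _) (mem_zpowers g)
  exact Core.le_fittingSubgroup_of_isSubnormal (le_antisymm h4 h2.1 ▸ h3.isSubnormal_of_top)
    (@CommGroup.isNilpotent _ IsCyclic.commGroup)    (mem_zpowers g)

end Cfsg.Agent.S3937
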