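import Cfsg.Statements.S3939
import Cfsg.Agent.Lib.Core.Fitting
import Cfsg.Agent.Lib.Tech.Invol
import Cfsg.Agent.Lib.Transfer.Residual

set_option autoImplicit false
open Cfsg

namespace Cfsg.Agent.S3939

open CfsgLib Subgroup

universe u

theorem map_eq {G H : Type*} [Group G] [Group H] (f : G →* H) (x g : G) :
    (closure ({x, g} : Set G)).map f = closure {f x, f g} := by
  rw [MonoidHom.map_closure, Set.image_pair]

theorem nilp (n : ℕ) {G : Type u} [Group G] {g : G} (h : g ∈ Subgroup.upperCentralSeries G n) (x : G) :
    Group.IsNilpotent (closure ({x, g} : Set G)) := by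
  induction n generalizing G with
  | zero =>
    obtain rfl := mem_bot.1 h
    rw [Set.pair_comm, closure_insert_one, ← zpowers_eq_closure]
    exact @CommGroup.isNilpotent _ IsCyclic.commGroup
  | succ n ih =>
    rw [← Subgroup.comap_upperCentralSeries_quotient_center] at h
    have := ih h (QuotientGroup.mk' _ x)
    rw [← map_eq] at this
    exact Subgroup.isNilpotent_of_ker_le_center ((QuotientGroup.mk' (center G)).subgroupMap _) fun y hy =>
      mem_center_iff.2 fun z => Subtype.ext (mem_center_iff.1
        ((QuotientGroup.eq_one_iff _).1 (congrArg Subtype.val hy)) z)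

theorem mem_of {G : Type u} [Group G] [Finite G] {g : G}
    (h : ∀ x, Group.IsNilpotent (closure ({x, g} : Set G))) : ∃ n, g ∈ Subgroup.upperCentralSeries G n := by
  induction e : Nat.card G using Nat.strong_induction_on generalizing G with
  | _ n ih =>
  subst e
  by_cases e : g = 1
  · exact ⟨0, e ▸ one_mem _⟩
  obtain ⟨p, hp, h1⟩ := Nat.exists_prime_and_dvd (orderOf_eq_one_iff.not.2 e)
  have := Fact.mk hp
  have h2 := orderOf_pow_orderOf_div (orderOf_pos g).ne' h1
  obtain ⟨P, hP⟩ := (Tech.isPGroup_zpowers_iff.2 ⟨1, h2.trans (pow_one p).symm⟩).exists_le_sylow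
  have : (pResidual p G).Normal := Transfer.pResidual_normal p G
  have h3 : g ^ (orderOf g / p) ∈ centralizer (pResidual p G : Set G) :=
    le_centralizer_iff.1 ((closure_le _).2 fun x hx y hy => by
      have := h x
      have h4 := Core.commute_of_coprime_orderOf_of_isNilpotent (G := closure ({x, g} : Set G))
        (x := ⟨g, Subgroup.subset_closure (by simp)⟩ ^ (orderOf g / p)) (y := ⟨x, Subgroup.subset_closure (by simp)⟩)
        (by rw [← orderOf_coe, ← orderOf_coe]; exact h2 ▸ hx.symm)
      obtain ⟨k, rfl⟩ := hy
      exact (Commute.zpow_left (congrArg Subtype.val h4.eq :) k).eq) (mem_zpowers _)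
  obtain ⟨z, z1, z2, z3⟩ := Tech.exists_mem_center_of_normalized P.isPGroup'
    (inf_le_left : _ ⊓ centralizer (pResidual p G : Set G) ≤ _)
    (le_trans (le_inf le_normalizer le_normalizer_of_normal) inf_normalizer_le_normalizer_inf)
    fun e => hp.ne_one (by rw [← h2, orderOf_eq_one_iff]; exact mem_bot.1 (e ▸ ⟨hP (mem_zpowers _), h3⟩))
  have z4 : z ∈ center G := mem_center_iff.2 fun x => mem_centralizer_singleton_iff.1
    ((sup_le (fun y hy => mem_centralizer_singleton_iff.2 (z1.2 y hy))
      fun y hy => mem_centralizer_singleton_iff.2 (z3 y hy) : _ ≤ centralizer {z})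
      ((Transfer.pResidual_sup_sylow P).ge (mem_top x)))
  obtain ⟨n, hn⟩ := ih _ (Core.card_quotient_lt_of_ne_bot (N := center G) fun e =>
      hp.ne_one (by rw [← z2, orderOf_eq_one_iff]; exact mem_bot.1 (e ▸ z4)))
    (g := QuotientGroup.mk' (center G) g) (fun x => by
      obtain ⟨x, rfl⟩ := QuotientGroup.mk'_surjective _ x
      have := h x
      rw [← map_eq]
      exact Group.nilpotent_of_surjective _ ((QuotientGroup.mk' (center G)).subgroupMap_surjective _)) rfl
  exact ⟨n + 1, by rwa [← Subgroup.comap_upperCentralSeries_quotient_center]⟩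

/-- In a finite group G the set of elements g such that the subgroup generated by g and x is nilpotent for every x ∈ G is exactly the hypercenter of G (the last term of the upper central series). -/
theorem result {G : Type*} [Group G] [Finite G] (g : G) :
    (∀ x : G, Group.IsNilpotent ↥(Subgroup.closure ({x, g} : Set G))) ↔ g ∈ ⨆ n : ℕ, Subgroup.upperCentralSeries G n := by
  refine ⟨fun h => ?_, fun h x => ?_⟩
  · obtain ⟨n, hn⟩ := mem_of h
    exact mem_iSup_of_mem n hn
  · obtain ⟨n, hn⟩ := (mem_iSup_of_directed (Subgroup.upperCentralSeries_mono G).directed_le).1 h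
    exact nilp n hn x

end Cfsg.Agent.S3939
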