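import Cfsg.Statements.S3941
import Mathlib

set_option autoImplicit false
open Cfsg

namespace Cfsg.Agent.S3941

/-- Let n ≥ 5 and p an odd prime with p ≤ n, and suppose that every proper subgroup of the alternating group of degree n whose order is divisible by p has a normal Sylow p-subgroup. Then n = p. -/
theorem result (n p : ℕ) (hn : 5 ≤ n) [Fact p.Prime] (hp : p ≠ 2) (hpn : p ≤ n)
    (h : ∀ H : Subgroup ↥(alternatingGroup (Fin n)), H ≠ ⊤ → p ∣ Nat.card ↥H → Cfsg.IsPClosed p ↥H) : n = p := by
    by_contra hne
    let s : Finset (Fin n) := Finset.univ.erase ⟨0, by omega⟩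
    have hs : Nat.card s = n - 1 := by simp [s]
    have : Nontrivial s := Finite.one_lt_card_iff_nontrivial.1 (by omega)
    have hp' : p.Prime := Fact.out
    have hc := two_mul_nat_card_alternatingGroup (α := s)
    rw [Nat.card_perm, hs] at hc
    have h1 : p ∣ Nat.card (alternatingGroup s) :=
      ((Nat.coprime_primes hp' Nat.prime_two).2 hp).dvd_of_dvd_mul_left
        (hc ▸ hp'.dvd_factorial.2 (by omega))
    have h2 : 2 ∣ Nat.card (alternatingGroup s) :=
      Nat.dvd_of_mul_dvd_mul_left two_pos (hc ▸ Nat.dvd_factorial (by omega) (by omega))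
    let e := MonoidHom.ofInjective (alternatingGroup.ofSubtype_injective (s := s))
    have hr : (alternatingGroup.ofSubtype s).range ≠ ⊤ := by
      intro e1
      obtain ⟨a, ha⟩ : ∃ a : Fin n, a = ⟨0, by omega⟩ := ⟨_, rfl⟩
      obtain ⟨b, hb⟩ : ∃ a : Fin n, a = ⟨1, by omega⟩ := ⟨_, rfl⟩
      obtain ⟨c, hc⟩ : ∃ a : Fin n, a = ⟨2, by omega⟩ := ⟨_, rfl⟩
      obtain ⟨d, hd⟩ : ∃ a : Fin n, a = ⟨3, by omega⟩ := ⟨_, rfl⟩
      have hab : a ≠ b := by simp [ha, hb]
      have hcd : c ≠ d := by simp [hc, hd]
      have hac : a ≠ c := by simp [ha, hc]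
      have had : a ≠ d := by simp [ha, hd]
      have h4 := (alternatingGroup.mem_range_ofSubtype_iff s
        ⟨Equiv.swap a b * Equiv.swap c d, by
          simp [Equiv.Perm.mem_alternatingGroup, hab, hcd]⟩).1 (e1 ▸ Subgroup.mem_top _)
      have h5 : a ∈ (Equiv.swap a b * Equiv.swap c d).support := by
        rw [Equiv.Perm.mem_support, Equiv.Perm.mul_apply, Equiv.swap_apply_of_ne_of_ne hac had,
          Equiv.swap_apply_left]
        exact hab.symm
      have := h4 h5
      simp [s, ha] at this
    have h3 := h (alternatingGroup.ofSubtype s).range hr (by rwa [← Nat.card_congr e.toEquiv])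
    obtain ⟨P⟩ : Nonempty (Sylow p (alternatingGroup s)) := inferInstance
    have hP : (P : Subgroup (alternatingGroup s)).Normal := by
      have := (h3 (P.mapSurjective (f := e.toMonoidHom) e.surjective)).comap e.toMonoidHom
      have e2 : ((P.mapSurjective (f := e.toMonoidHom) e.surjective : Sylow p _) : Subgroup _) =
        (P : Subgroup _).map e.toMonoidHom := rfl
      rwa [e2, Subgroup.comap_map_eq_self_of_injective (f := e.toMonoidHom) e.injective] at this
    have h4 : (P : Subgroup (alternatingGroup s)) = ⊤ := by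
      by_cases h5 : 5 ≤ Nat.card s
      · have := alternatingGroup.isSimpleGroup h5
        exact (hP.eq_bot_or_eq_top).resolve_left (P.ne_bot_of_dvd_card h1)
      · have h6 : p = 3 := by
          have := hp'.two_le
          have : p ≠ 4 := by rintro rfl; exact absurd hp' (by decide)
          omega
        subst h6
        rw [eq_top_iff, ← alternatingGroup.closure_isThreeCycles_eq_top, Subgroup.closure_le]
        intro c hc
        obtain ⟨Q, hQ⟩ := (IsPGroup.of_card (p := 3) (G := Subgroup.zpowers c) (n := 1) (by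
          rw [Nat.card_zpowers, ← Subgroup.orderOf_coe, pow_one]
          exact Equiv.Perm.IsThreeCycle.orderOf hc)).exists_le_sylow
        have := Sylow.unique_of_normal P hP
        rw [Subsingleton.elim P Q]
        exact hQ (Subgroup.mem_zpowers c)
    obtain ⟨k, hk⟩ := IsPGroup.iff_card.1 P.isPGroup'
    rw [h4, Subgroup.card_top] at hk
    exact hp ((Nat.prime_dvd_prime_iff_eq Nat.prime_two hp').1
      (Nat.prime_two.dvd_of_dvd_pow (hk ▸ h2))).symm

end Cfsg.Agent.S3941
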