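import Cfsg.Statements.S3946
import Cfsg.Agent.S0108
import Cfsg.Agent.Lib.Fgs.Kegel2

set_option autoImplicit false
open Cfsg

namespace Cfsg.Agent.S3946

/-- Call an automorphism α of order n of a group G splitting when x · α(x) · α²(x) ⋯ α^(n−1)(x) = 1 for every x ∈ G. A finite group admitting a splitting automorphism of prime order is nilpotent (this contains the case of a fixed-point-free automorphism of prime order). -/
theorem result {G : Type*} [Group G] [Finite G] (α : MulAut G) (hp : (orderOf α).Prime)
    (hsplit : ∀ x : G, (((List.range (orderOf α)).map (fun i : ℕ => (α ^ i) x)).prod = 1)) : Group.IsNilpotent G := by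
  exact CfsgLib.Fgs.kegel_aut
    (fun G _ _ q _ hq P h1 h2 => (Cfsg.Agent.S0108.result hq P).mpr ⟨h1, h2⟩) α hp hsplit

end Cfsg.Agent.S3946
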