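import Cfsg.Statements.S3947
import Cfsg.Agent.Lib.GT.Zip

set_option autoImplicit false
open Cfsg

namespace Cfsg.Agent.S3947

/-- Let G be a finite group and A a proper subgroup of G whose normal closure is G. Let Y be the join of all proper subgroups H of G that contain A and are generated by their own conjugates of A (the normal closure of A in H is H). Then either Y = G, or A is contained in exactly one maximal subgroup of G. -/
theorem result {G : Type*} [Group G] [Finite G] (A : Subgroup G) (hA : Subgroup.normalClosure (A : Set G) = ⊤) (hAG : A ≠ ⊤) :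
    sSup {H : Subgroup G | A ≤ H ∧ H ≠ ⊤ ∧ Subgroup.normalClosure ((A.subgroupOf H : Subgroup ↥H) : Set ↥H) = ⊤} = ⊤ ∨
      ∃! M : Subgroup G, IsCoatom M ∧ A ≤ M := by
  refine or_iff_not_imp_left.2 fun e => ?_
  obtain ⟨M, h1, h2⟩ := (eq_top_or_exists_le_coatom _).resolve_left e
  have h3 : ∀ H, H ≠ ⊤ → CfsgLib.GT.Full A H → H ≤ M := fun H a b =>
    (le_sSup (by exact ⟨b.1, a, (CfsgLib.GT.full_iff b.1).1 b⟩)).trans h2
  have z : CfsgLib.GT.Zip A M := ⟨⟨le_top, fun N n1 n2 n3 => by
    have := Subgroup.normalizer_eq_top_iff.1 (top_le_iff.1 n3)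
    exact n2.not_ge (hA.ge.trans (Subgroup.normalClosure_le_normal n1))⟩, h1,
    h3 A hAG ⟨le_rfl, fun N a b => absurd a b.not_ge⟩, h3⟩
  exact ⟨M, ⟨h1, z.le⟩, fun L hL => z.unique hL.1 hL.2⟩

end Cfsg.Agent.S3947
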