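import Cfsg.Statements.S3982
import Cfsg.Agent.Lib.Count.Basic

set_option autoImplicit false
open Cfsg

namespace Cfsg.Agent.S3982


/-- Let p be an odd prime and G a finite group of even order divisible by p in which the centralizer of every non-identity p-element has odd order. If some nontrivial p-subgroup of G has a normalizer of even order, then the normalizer of every Sylow p-subgroup of G has even order. -/
theorem result {G : Type*} [Group G] [Finite G] (p : ℕ) [Fact p.Prime] (hp2 : p ≠ 2) (hpG : p ∣ Nat.card G) (h2G : 2 ∣ Nat.card G) (hC : ∀ g : G, g ≠ 1 → (∃ k : ℕ, orderOf g = p ^ k) → Odd (Nat.card ↥(Subgroup.centralizer ({g} : Set G)))) (Q : Subgroup G) (hQ : IsPGroup p ↥Q) (hQ1 : Q ≠ ⊥) (hev : Even (Nat.card ↥(Subgroup.normalizer (Q : Set G)))) (P : Sylow p G) : Even (Nat.card ↥(Subgroup.normalizer ((P : Subgroup G) : Set G))) := by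
  have hp : p.Prime := Fact.out
  have h2 : Fact (Nat.Prime 2) := ⟨Nat.prime_two⟩
  obtain ⟨⟨y, hyQ⟩, hy0⟩ := exists_prime_orderOf_dvd_card' (G := Subgroup.normalizer (Q : Set G)) 2
    (even_iff_two_dvd.mp hev)
  have hy : orderOf y = 2 := by rw [← hy0, Subgroup.orderOf_mk]
  have hy2 : y ^ 2 = 1 := by rw [← hy, pow_orderOf_eq_one]
  have hyy : y * y = 1 := by rw [← pow_two, hy2]
  have hyinv : y⁻¹ = y := inv_eq_of_mul_eq_one_right hyy
  -- `y` inverts every `y`-invariant `p`-subgroup
  have hinv : ∀ R : Subgroup G, IsPGroup p R → y ∈ Subgroup.normalizer (R : Set G) →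
      ∀ z ∈ R, y * z * y⁻¹ = z⁻¹ := by
    intro R hR hyR z hz
    let φ : MulAut R := R.normalizerMonoidHom ⟨y, hyR⟩
    have hfpf : MonoidHom.FixedPointFree φ := by
      intro g hg
      by_contra hg1
      have hg1' : (g : G) ≠ 1 := fun h => hg1 (Subtype.ext h)
      have hodd := hC g hg1' (CfsgLib.Count.exists_orderOf_eq_of_mem hR g.2)
      have hm : y ∈ Subgroup.centralizer ({(g : G)} : Set G) := by
        rw [Subgroup.mem_centralizer_singleton_iff]
        have : y * g * y⁻¹ = g := congrArg Subtype.val hg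
        rw [mul_inv_eq_iff_eq_mul] at this
        exact this
      have := Subgroup.orderOf_dvd_natCard _ hm
      rw [hy] at this
      exact (Nat.not_even_iff_odd.mpr hodd) (even_iff_two_dvd.mpr this)
    have hinvol : Function.Involutive φ := by
      intro g
      apply Subtype.ext
      change y * (y * g * y⁻¹) * y⁻¹ = g
      calc y * (y * g * y⁻¹) * y⁻¹ = (y * y) * g * (y * y)⁻¹ := by group
        _ = g := by rw [hyy]; group
    have := congrFun (hfpf.coe_eq_inv_of_involutive hinvol) ⟨z, hz⟩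
    exact congrArg Subtype.val this
  -- if `y` inverts a nontrivial `p`-element `z`, it normalises a Sylow subgroup of `C(z)`
  have hsyl : ∀ z : G, z ≠ 1 → (∃ k, orderOf z = p ^ k) → y * z * y⁻¹ = z⁻¹ →
      ∃ S : Sylow p (Subgroup.centralizer ({z} : Set G)), y ∈ Subgroup.normalizer
        (((S : Subgroup _).map (Subgroup.centralizer ({z} : Set G)).subtype : Subgroup G) :
          Set G) := by
    intro z hz1 hz hyz
    apply CfsgLib.Count.exists_sylow_normalized (q := 2) (k := 1)
    · intro hd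
      exact (Nat.not_even_iff_odd.mpr (hC z hz1 hz)) (even_iff_two_dvd.mpr hd)
    · simpa using hy2
    · apply Subgroup.mem_normalizer_fintype
      intro c hc
      rw [SetLike.mem_coe, Subgroup.mem_centralizer_singleton_iff] at hc ⊢
      have h1 : Commute c z := hc
      have h2 : z = y * z⁻¹ * y⁻¹ := by
        calc z = (y * z * y⁻¹)⁻¹ := by rw [hyz, inv_inv]
          _ = _ := by group
      rw [h2]
      have h3 := h1.inv_right.eq
      calc y * c * y⁻¹ * (y * z⁻¹ * y⁻¹) = y * (c * z⁻¹) * y⁻¹ := by group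
        _ = y * (z⁻¹ * c) * y⁻¹ := by rw [h3]
        _ = _ := by group
  obtain ⟨⟨z, hzQ⟩, hz1⟩ := Subgroup.ne_bot_iff_exists_ne_one.mp hQ1
  have hz1' : z ≠ 1 := fun h => hz1 (Subtype.ext h)
  have hzp := CfsgLib.Count.exists_orderOf_eq_of_mem hQ hzQ
  obtain ⟨S, hS⟩ := hsyl z hz1' hzp (hinv Q hQ hyQ z hzQ)
  obtain ⟨T, hT⟩ := S.exists_comap_subtype_eq
  have hTnt : Nontrivial (T : Subgroup G) :=
    (Subgroup.nontrivial_iff_ne_bot _).mpr (T.ne_bot_of_dvd_card hpG)
  have := T.isPGroup'.center_nontrivial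
  obtain ⟨⟨w, hw⟩, hw1⟩ := exists_ne (1 : Subgroup.center (T : Subgroup G))
  have hw1' : (w : G) ≠ 1 := fun h => hw1 (Subtype.ext (Subtype.ext h))
  have hwc : ∀ t ∈ (T : Subgroup G), t * w = w * t := fun t ht =>
    congrArg Subtype.val (Subgroup.mem_center_iff.mp hw ⟨t, ht⟩)
  have hzC : z ∈ Subgroup.centralizer ({z} : Set G) := by
    rw [Subgroup.mem_centralizer_singleton_iff]
  have hzS : (⟨z, hzC⟩ : Subgroup.centralizer ({z} : Set G)) ∈ (S : Subgroup _) := by
    obtain ⟨k, hk⟩ := hzp
    have hzp' : IsPGroup p (Subgroup.zpowers (⟨z, hzC⟩ : Subgroup.centralizer ({z} : Set G))) :=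
      CfsgLib.Count.isPGroup_zpowers_of_orderOf (k := k) (by rw [Subgroup.orderOf_mk, hk])
    have hn : (Subgroup.zpowers (⟨z, hzC⟩ : Subgroup.centralizer ({z} : Set G))).Normal := by
      constructor
      rintro _ ⟨i, rfl⟩ g
      have hg : Commute (g : G) z := Subgroup.mem_centralizer_singleton_iff.mp g.2
      refine ⟨i, Subtype.ext ?_⟩
      simp only [SubgroupClass.coe_zpow, Subgroup.coe_mul, InvMemClass.coe_inv]
      rw [(hg.zpow_right i).eq, mul_inv_cancel_right]
    exact hzp'.le_sylow_of_normal S (Subgroup.mem_zpowers _)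
  have hzT : z ∈ (T : Subgroup G) := by
    rw [← hT] at hzS
    exact hzS
  have hwC : (w : G) ∈ Subgroup.centralizer ({z} : Set G) := by
    rw [Subgroup.mem_centralizer_singleton_iff]
    exact (hwc z hzT).symm
  have hwS : (w : G) ∈ (S : Subgroup _).map (Subgroup.centralizer ({z} : Set G)).subtype := by
    refine ⟨⟨w, hwC⟩, ?_, rfl⟩
    rw [← hT]
    exact w.2
  have hyw := hinv _ (S.isPGroup'.map _) hS w hwS
  obtain ⟨S2, hS2⟩ := hsyl w hw1' (CfsgLib.Count.exists_orderOf_eq_of_mem T.isPGroup' w.2) hyw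
  have hTC : (T : Subgroup G) ≤ Subgroup.centralizer ({(w : G)} : Set G) := by
    intro t ht
    rw [Subgroup.mem_centralizer_singleton_iff]
    exact hwc t ht
  have hcard : Nat.card ((S2 : Subgroup _).map (Subgroup.centralizer ({(w : G)} : Set G)).subtype)
      = p ^ (Nat.card G).factorization p := by
    rw [Subgroup.card_map_of_injective (Subgroup.subtype_injective _),
      Nat.card_congr (Sylow.equiv S2 (T.subtype hTC)).toEquiv, ← T.card_eq_multiplicity,
      Sylow.coe_subtype]
    exact Nat.card_congr (Subgroup.subgroupOfEquivOfLe hTC).toEquiv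
  let U : Sylow p G := Sylow.ofCard _ hcard
  have hU : y ∈ Subgroup.normalizer ((U : Subgroup G) : Set G) := hS2
  have h4 := Subgroup.orderOf_dvd_natCard _ hU
  rw [hy] at h4
  have h5 : Nat.card (Subgroup.normalizer ((U : Subgroup G) : Set G)) =
      Nat.card (Subgroup.normalizer ((P : Subgroup G) : Set G)) := by
    have e1 := Subgroup.card_mul_index (Subgroup.normalizer ((U : Subgroup G) : Set G))
    have e2 := Subgroup.card_mul_index (Subgroup.normalizer ((P : Subgroup G) : Set G))
    rw [Sylow.coe_coe, ← U.card_eq_index_normalizer] at e1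
    rw [Sylow.coe_coe, ← P.card_eq_index_normalizer] at e2
    exact Nat.eq_of_mul_eq_mul_right Nat.card_pos (e1.trans e2.symm)
  rw [← h5]
  exact even_iff_two_dvd.mpr h4

end Cfsg.Agent.S3982
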