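import Cfsg.Statements.S3984
import Cfsg.Agent.Lib.Count.Basic

set_option autoImplicit false
open scoped Pointwise
open Cfsg

namespace Cfsg.Agent.S3984


/-- Let P be a Sylow p-subgroup of the finite group G that meets each conjugate g P g⁻¹ with g outside N_G(P) trivially, and let N be a normal subgroup of G of order prime to p. Then every Sylow p-subgroup Q of G ⧸ N meets each conjugate x Q x⁻¹ with x outside its normalizer trivially. -/
theorem result {G : Type*} [Group G] [Finite G] (p : ℕ) [Fact p.Prime] (P : Sylow p G) (hTI : ∀ g : G, g ∉ Subgroup.normalizer ((P : Subgroup G) : Set G) → (P : Subgroup G) ⊓ (MulAut.conj g • (P : Subgroup G)) = ⊥) (N : Subgroup G) [N.Normal] (hN : (Nat.card ↥N).Coprime p) (Q : Sylow p (G ⧸ N)) : ∀ x : G ⧸ N, x ∉ Subgroup.normalizer ((Q : Subgroup (G ⧸ N)) : Set (G ⧸ N)) → (Q : Subgroup (G ⧸ N)) ⊓ (MulAut.conj x • (Q : Subgroup (G ⧸ N))) = ⊥ := by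
  rw [CfsgLib.Count.sylow_ti_iff] at hTI ⊢
  intro R S hRS
  have hs := QuotientGroup.mk'_surjective N
  obtain ⟨R', rfl⟩ := Sylow.mapSurjective_surjective hs p R
  obtain ⟨S', rfl⟩ := Sylow.mapSurjective_surjective hs p S
  rw [eq_bot_iff]
  rintro x ⟨hxR, hxS⟩
  by_contra hx1
  obtain ⟨r, hr, rfl⟩ := hxR
  set K : Subgroup G := ((S'.mapSurjective hs : Sylow p (G ⧸ N)) : Subgroup (G ⧸ N)).comap
    (QuotientGroup.mk' N) with hK
  have hrK : r ∈ K := hxS
  have hSK : (S' : Subgroup G) ≤ K := fun s hs' => ⟨s, hs', rfl⟩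
  obtain ⟨k, hk⟩ := CfsgLib.Count.exists_orderOf_eq_of_mem R'.isPGroup' hr
  obtain ⟨T, hT⟩ := CfsgLib.Count.exists_sylow_mem (x := (⟨r, hrK⟩ : K)) (p := p) (k := k)
    (by rw [Subgroup.orderOf_mk, hk])
  obtain ⟨c, hc⟩ := MulAction.exists_smul_eq K (S'.subtype hSK) T
  rw [Sylow.smul_subtype] at hc
  have hr2 : r ∈ ((c • S' : Sylow p G) : Subgroup G) := by
    rw [← hc] at hT
    exact hT
  have hr1 : r ≠ 1 := by
    rintro rfl
    exact hx1 (by simp)
  have heq : R' = c • S' := by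
    by_contra hne
    have := hTI R' (c • S') hne
    have h3 : r ∈ (R' : Subgroup G) ⊓ ((c • S' : Sylow p G) : Subgroup G) := ⟨hr, hr2⟩
    rw [this] at h3
    exact hr1 h3
  apply hRS
  apply Sylow.ext
  apply ((R'.mapSurjective hs).is_maximal' (S'.mapSurjective hs).isPGroup' _).symm
  rintro _ ⟨y, hy, rfl⟩
  have : y ∈ K := by
    apply Sylow.smul_le hSK c
    rw [← heq]
    exact hy
  exact this

end Cfsg.Agent.S3984
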