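import Cfsg.Statements.S3985
import Mathlib

set_option autoImplicit false
open scoped Pointwise
open Cfsg

namespace Cfsg.Agent.S3985


/-- Let P be a cyclic Sylow p-subgroup of the finite group G. Then P meets each conjugate g P g⁻¹ with g outside N_G(P) trivially if and only if P is weakly self-centralizing: C_G(x) = C_G(P) for every non-identity x ∈ P. -/
theorem result {G : Type*} [Group G] [Finite G] (p : ℕ) [Fact p.Prime] (P : Sylow p G) (hcyc : IsCyclic ↥(P : Subgroup G)) : (∀ g : G, g ∉ Subgroup.normalizer ((P : Subgroup G) : Set G) → (P : Subgroup G) ⊓ (MulAut.conj g • (P : Subgroup G)) = ⊥) ↔ ∀ x : G, x ∈ (P : Subgroup G) → x ≠ 1 → Subgroup.centralizer ({x} : Set G) = Subgroup.centralizer ((P : Subgroup G) : Set G) := by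
  have hp : p.Prime := Fact.out
  have hcomm : IsMulCommutative (P : Subgroup G) := inferInstance
  constructor
  · intro hTI x hx hx1
    apply le_antisymm _ (Subgroup.centralizer_le (Set.singleton_subset_iff.mpr hx))
    intro g hg
    have hgx : g * x * g⁻¹ = x := by
      rw [Subgroup.mem_centralizer_singleton_iff] at hg
      rw [hg, mul_inv_cancel_right]
    have hgN : g ∈ Subgroup.normalizer ((P : Subgroup G) : Set G) := by
      by_contra hn
      have h1 : x ∈ (P : Subgroup G) ⊓ (MulAut.conj g • (P : Subgroup G)) := by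
        refine ⟨hx, ?_⟩
        have := Subgroup.smul_mem_pointwise_smul x (MulAut.conj g) _ hx
        rw [MulAut.smul_def, MulAut.conj_apply, hgx] at this
        exact this
      rw [hTI g hn] at h1
      exact hx1 h1
    let φ : MulAut (P : Subgroup G) := (P : Subgroup G).normalizerMonoidHom ⟨g, hgN⟩
    have hcop : (Nat.card (P : Subgroup G)).Coprime (Nat.card (Subgroup.zpowers φ)) := by
      have h1 : Nat.card (Subgroup.zpowers φ) ∣
          Nat.card (P : Subgroup G).normalizerMonoidHom.range :=
        Subgroup.card_dvd_of_le (Subgroup.zpowers_le.mpr ⟨_, rfl⟩)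
      rw [← Subgroup.index_ker, Subgroup.normalizerMonoidHom_ker] at h1
      have h2 : (Subgroup.centralizer ((P : Subgroup G) : Set G)).relIndex
          (Subgroup.normalizer ((P : Subgroup G) : Set G)) ∣ (P : Subgroup G).index :=
        (Subgroup.relIndex_dvd_of_le_left _ (P : Subgroup G).le_centralizer).trans
          (Subgroup.relIndex_dvd_index_of_le Subgroup.le_normalizer)
      exact P.card_coprime_index.coprime_dvd_right (h1.trans h2)
    rcases P.isPGroup'.smul_mul_inv_trivial_or_surjective hcop with h | h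
    · intro y hy
      have := congrArg Subtype.val (h ⟨y, hy⟩ ⟨φ, Subgroup.mem_zpowers φ⟩)
      change g * y * g⁻¹ * y⁻¹ = 1 at this
      rw [mul_inv_eq_one, mul_inv_eq_iff_eq_mul] at this
      exact this.symm
    · exfalso
      obtain ⟨a, ha⟩ := IsCyclic.exists_generator (α := (P : Subgroup G))
      obtain ⟨k, q, hkq⟩ := h a
      let ψ : MulAut (P : Subgroup G) := k
      let F : (P : Subgroup G) →* (P : Subgroup G) :=
        { toFun := fun q => ψ q * q⁻¹
          map_one' := by simp
          map_mul' := fun u v => by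
            rw [map_mul, mul_inv_rev, mul_assoc, mul_assoc, mul_comm' v⁻¹ u⁻¹,
              ← mul_assoc (ψ v), mul_comm' (ψ v), mul_assoc] }
      have hFs : Function.Surjective F := by
        rw [← MonoidHom.range_eq_top, eq_top_iff]
        intro b _
        obtain ⟨n, rfl⟩ := ha b
        exact Subgroup.zpow_mem F.range (⟨q, hkq⟩ : a ∈ F.range) n
      have hFi : Function.Injective F := Finite.injective_iff_surjective.mpr hFs
      have hfix : φ ⟨x, hx⟩ = ⟨x, hx⟩ := Subtype.ext hgx
      have hψ : ψ ⟨x, hx⟩ = ⟨x, hx⟩ := by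
        have : Subgroup.zpowers φ ≤ MulAction.stabilizer (MulAut (P : Subgroup G))
          (⟨x, hx⟩ : (P : Subgroup G)) := Subgroup.zpowers_le.mpr hfix
        exact this k.2
      have : F ⟨x, hx⟩ = F 1 := by
        rw [map_one]
        change ψ ⟨x, hx⟩ * (⟨x, hx⟩ : (P : Subgroup G))⁻¹ = 1
        rw [hψ, mul_inv_cancel]
      exact hx1 (congrArg Subtype.val (hFi this))
  · intro h g hg
    rw [eq_bot_iff]
    rintro x ⟨hx, hx2⟩
    by_contra hx1
    apply hg
    have h1 := h x hx hx1
    have h2 : ((g • P : Sylow p G) : Subgroup G) ≤ Subgroup.normalizer ((P : Subgroup G) : Set G) := by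
      refine le_trans ?_ (Subgroup.centralizer_le_normalizer _)
      rw [← h1]
      intro y hy
      rw [Subgroup.mem_centralizer_singleton_iff]
      obtain ⟨y', hy', rfl⟩ := hy
      obtain ⟨x', hx', rfl⟩ := hx2
      have : y' * x' = x' * y' := congrArg Subtype.val
        (mul_comm' (⟨y', hy'⟩ : (P : Subgroup G)) ⟨x', hx'⟩)
      simp only [MulDistribMulAction.toMonoidEnd_apply, MulDistribMulAction.toMonoidHom_apply,
        ← smul_mul', this]
    have h3 := (g • P).isPGroup'.inf_normalizer_sylow P
    rw [Sylow.coe_coe] at h2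
    rw [inf_eq_left.mpr h2] at h3
    have h4 : ((g • P : Sylow p G) : Subgroup G) ≤ P := h3 ▸ inf_le_right
    rw [Sylow.coe_coe, ← Sylow.smul_eq_iff_mem_normalizer]
    exact Sylow.ext ((g • P).is_maximal' P.isPGroup' h4).symm

end Cfsg.Agent.S3985
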