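import Cfsg.Statements.S3987
import Cfsg.Agent.Lib.Count.DirectFactor

set_option autoImplicit false
open Cfsg

namespace Cfsg.Agent.S3987


/-- Let p be a prime and G a finite group. Then some Sylow p-subgroup of G is a direct factor of G (normal with a normal complement) if and only if for every element x of p-power order and every element y whose order is a power of a prime other than p, the conjugacy class of x y has as many elements as the product of the sizes of the classes of x and of y. -/
theorem result {G : Type*} [Group G] [Finite G] (p : ℕ) [Fact p.Prime] : (∃ (P : Sylow p G) (K : Subgroup G), (P : Subgroup G).Normal ∧ K.Normal ∧ (P : Subgroup G) ⊓ K = ⊥ ∧ (P : Subgroup G) ⊔ K = ⊤) ↔ ∀ x y : G, (∃ a : ℕ, orderOf x = p ^ a) → (∃ q b : ℕ, q.Prime ∧ q ≠ p ∧ orderOf y = q ^ b) → (Subgroup.centralizer ({x * y} : Set G)).index = (Subgroup.centralizer ({x} : Set G)).index * (Subgroup.centralizer ({y} : Set G)).index := by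
  rw [CfsgLib.Count.sylow_direct_factor_iff]
  have hp : p.Prime := Fact.out
  constructor
  · intro h x y hx hy
    have hxy := h x y hx hy
    obtain ⟨a, ha⟩ := hx
    obtain ⟨q, b, hq, hqp, hb⟩ := hy
    have hcop : (orderOf x).Coprime (orderOf y) := by
      rw [ha, hb]
      exact Nat.Coprime.pow _ _ ((Nat.coprime_primes hp hq).mpr hqp.symm)
    have hcomm : Commute x y := hxy
    -- `x` and `y` are powers of `x * y`
    have hx' : x ∈ Subgroup.zpowers (x * y) := by
      have h1 : (x * y) ^ orderOf y = x ^ orderOf y := by
        rw [hcomm.mul_pow, pow_orderOf_eq_one, mul_one]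
      have h2 : x ∈ Subgroup.zpowers (x ^ orderOf y) :=
        mem_zpowers_pow_iff.mpr (by rw [Nat.gcd_comm]; exact hcop)
      rw [← h1] at h2
      exact (Subgroup.zpowers_le.mpr (Subgroup.pow_mem _ (Subgroup.mem_zpowers _) _)) h2
    have hy' : y ∈ Subgroup.zpowers (x * y) := by
      have := Subgroup.mul_mem _ (Subgroup.inv_mem _ hx') (Subgroup.mem_zpowers (x * y))
      simpa using this
    have hC : Subgroup.centralizer ({x * y} : Set G) =
        Subgroup.centralizer ({x} : Set G) ⊓ Subgroup.centralizer ({y} : Set G) := by
      ext g
      simp only [Subgroup.mem_inf, Subgroup.mem_centralizer_singleton_iff]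
      constructor
      · intro hg
        have hg' : Commute g (x * y) := hg
        obtain ⟨i, hi⟩ := hx'
        obtain ⟨j, hj⟩ := hy'
        exact ⟨by have := hg'.zpow_right i; simp only at hi; rw [hi] at this; exact this,
          by have := hg'.zpow_right j; simp only at hj; rw [hj] at this; exact this⟩
      · rintro ⟨h1, h2⟩
        exact (Commute.mul_right h1 h2 : Commute g (x * y))
    rw [hC]
    apply le_antisymm Subgroup.index_inf_le
    have hi1 : ∀ r : ℕ, r.Prime → r ∣ (Subgroup.centralizer ({x} : Set G)).index → r = p := by
      intro r hr hd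
      by_contra hrp
      have := Fact.mk hr
      have hle : ((default : Sylow r G) : Subgroup G) ≤ Subgroup.centralizer ({x} : Set G) := by
        intro z hz
        obtain ⟨c, hc⟩ := CfsgLib.Count.exists_orderOf_eq_of_mem (default : Sylow r G).isPGroup' hz
        rw [Subgroup.mem_centralizer_singleton_iff]
        exact (h x z ⟨a, ha⟩ ⟨r, c, hr, hrp, hc⟩).symm
      exact (default : Sylow r G).not_dvd_index (hd.trans (Subgroup.index_dvd_of_le hle))
    have hi2 : ¬ p ∣ (Subgroup.centralizer ({y} : Set G)).index := by
      intro hd
      have hle : ((default : Sylow p G) : Subgroup G) ≤ Subgroup.centralizer ({y} : Set G) := by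
        intro z hz
        rw [Subgroup.mem_centralizer_singleton_iff]
        exact h z y (CfsgLib.Count.exists_orderOf_eq_of_mem (default : Sylow p G).isPGroup' hz)
          ⟨q, b, hq, hqp, hb⟩
      exact (default : Sylow p G).not_dvd_index (hd.trans (Subgroup.index_dvd_of_le hle))
    have hco : (Subgroup.centralizer ({x} : Set G)).index.Coprime
        (Subgroup.centralizer ({y} : Set G)).index := by
      apply Nat.coprime_of_dvd
      intro r hr h1 h2
      rw [hi1 r hr h1] at h2
      exact hi2 h2
    apply Nat.le_of_dvd (Nat.pos_of_ne_zero Subgroup.index_ne_zero_of_finite)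
    exact hco.mul_dvd_of_dvd_of_dvd (Subgroup.index_dvd_of_le inf_le_left)
      (Subgroup.index_dvd_of_le inf_le_right)
  · intro h x y hx hy
    have h1 := h x y hx hy
    have hle : Subgroup.centralizer ({x} : Set G) ⊓ Subgroup.centralizer ({y} : Set G) ≤
        Subgroup.centralizer ({x * y} : Set G) := by
      intro g hg
      simp only [Subgroup.mem_inf, Subgroup.mem_centralizer_singleton_iff] at hg ⊢
      exact (Commute.mul_right hg.1 hg.2 : Commute g (x * y))
    have h2 : (Subgroup.centralizer ({x} : Set G) ⊓ Subgroup.centralizer ({y} : Set G)).index ≤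
        (Subgroup.centralizer ({x * y} : Set G)).index := h1 ▸ Subgroup.index_inf_le
    have h3 : Subgroup.centralizer ({x} : Set G) ⊓ Subgroup.centralizer ({y} : Set G) =
        Subgroup.centralizer ({x * y} : Set G) := by
      by_contra hne
      exact absurd (Subgroup.index_strictAnti (lt_of_le_of_ne hle hne)) (not_lt.mpr h2)
    have h4 : x * y ∈ Subgroup.centralizer ({x * y} : Set G) := by
      rw [Subgroup.mem_centralizer_singleton_iff]
    rw [← h3] at h4
    have h5 := (Subgroup.mem_inf.mp h4).1
    rw [Subgroup.mem_centralizer_singleton_iff, mul_assoc] at h5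
    exact (mul_left_cancel h5).symm

end Cfsg.Agent.S3987
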