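import Cfsg.Statements.S3989
import Cfsg.Agent.Lib.PLocal.PSolvable
import Cfsg.Agent.Lib.Transfer.Frobenius
import Cfsg.Agent.Lib.Core.MinNormal
import Cfsg.Agent.Lib.Fgs.ClassSize

set_option autoImplicit false
open Cfsg

namespace Cfsg.Agent.S3989

open Subgroup CfsgLib in
theorem lift {G : Type*} [Group G] [Finite G] (r : ℕ) [hr : Fact r.Prime] (N : Subgroup G) [N.Normal]
    {x : G ⧸ N} (hx : ∃ k, x ^ r ^ k = 1) : ∃ y : G, (y : G ⧸ N) = x ∧ ∃ a, orderOf y = r ^ a := by
  obtain ⟨k, hk⟩ := hx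
  obtain ⟨x, rfl⟩ := QuotientGroup.mk_surjective x
  obtain ⟨a, b, -, hb, rfl, -, ha, hb'⟩ := Fgs.exists_p_part r x
  have h2 : orderOf (b : G ⧸ N) ∣ r ^ k :=
    (orderOf_dvd_of_mem_zpowers (mem_map_of_mem (QuotientGroup.mk' N) hb |>
      (MonoidHom.map_zpowers (QuotientGroup.mk' N) (a * b)).le)).trans
      (orderOf_dvd_of_pow_eq_one hk)
  have h1 : (b : G ⧸ N) = 1 := orderOf_eq_one_iff.1 (Nat.eq_one_of_dvd_coprimes
    (((Nat.Prime.coprime_iff_not_dvd hr.out).2 hb').pow_left k) h2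
    (orderOf_map_dvd (QuotientGroup.mk' N) b))
  exact ⟨a, by rw [QuotientGroup.mk_mul, h1, mul_one], ha⟩

open Subgroup CfsgLib CfsgLib.PLocal.PSolv in
theorem key {G : Type*} [Group G] [Finite G] [Nontrivial G] (p : ℕ) [hp : Fact p.Prime]
    (h : ∀ x y : G, (∃ k, x ^ p ^ k = 1) → ∀ q : ℕ, q.Prime → q ≠ p → (∃ k, y ^ q ^ k = 1) →
      ∀ a b : G, IsConj (x * y) (a * x * a⁻¹ * (b * y * b⁻¹))) :
    pCore p G ≠ ⊥ ∨ pPrimeCore p G ≠ ⊥ := by
  obtain ⟨M, hM, hM1, -, hmin⟩ := Core.exists_minimal_normal_le (K := (⊤ : Subgroup G)) top_ne_bot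
  by_cases hc : HasNormalPComplement p M
  · obtain ⟨P, K, hK, hc⟩ := hc
    by_cases hK1 : K = ⊥
    · refine Or.inl fun e => hM1 (le_bot_iff.1 (e ▸ le_pCore hM ?_))
      subst hK1
      have : (P : Subgroup M) = ⊤ := by simpa using hc.sup_eq_top
      exact (P.isPGroup'.of_equiv (MulEquiv.subgroupCongr this)).of_equiv topEquiv
    · refine Or.inr fun e => hK1 ?_
      have h1 : K ≤ pPrimeCore p M := le_pPrimeCore hK
        ((Nat.Prime.coprime_iff_not_dvd hp.out).2 (hc.index_eq_card ▸ P.not_dvd_index)).symm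
      have h2 := (map_mono (f := M.subtype) h1).trans (map_pPrimeCore_subtype_le (p := p) M)
      rw [e, le_bot_iff, map_eq_bot_iff_of_injective _ M.subtype_injective] at h2
      exact h2
  · exfalso
    obtain ⟨P⟩ : Nonempty (Sylow p M) := inferInstance
    obtain ⟨Q, hQ, -, q, hq, hqp, -, y, hy, ⟨k, hk⟩, hyc⟩ := Transfer.exists_of_not_hasNormalPComplement P hc
    obtain ⟨u, hu, huy⟩ : ∃ u ∈ Q, u * y ≠ y * u := by
      by_contra h1
      push Not at h1
      exact hyc h1
    set x : M := u⁻¹ * (y * u * y⁻¹) with hx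
    have hxQ : x ∈ Q := mul_mem (inv_mem hu) ((mem_normalizer_iff.1 hy u).1 hu)
    obtain ⟨j, hj⟩ := P.isPGroup' ⟨x, hQ hxQ⟩
    have h1 : ∀ a b : G, IsConj (y : G) (a * x * a⁻¹ * (b * y * b⁻¹)) := fun a b =>
      (isConj_iff.2 ⟨(u : G)⁻¹, by rw [hx]; push_cast; group⟩).trans
        (h x y ⟨j, congrArg (fun z : (P : Subgroup M) => ((z : M) : G)) hj⟩ q hq hqp
          ⟨k, congrArg Subtype.val hk⟩ a b)
    have h2 : ∀ n ∈ normalClosure ({(x : G)} : Set G), ∀ w : G, IsConj (y : G) w → IsConj (y : G) (n * w) := by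
      intro n hn
      have hn' : n ∈ (closure (Group.conjugatesOfSet ({(x : G)} : Set G))).toSubmonoid := hn
      rw [closure_toSubmonoid_of_finite] at hn'
      induction hn' using Submonoid.closure_induction with
      | mem z hz =>
        intro w hw
        obtain ⟨v, hv, hz'⟩ := Group.mem_conjugatesOfSet_iff.1 hz
        rw [Set.mem_singleton_iff.1 hv] at hz'
        obtain ⟨a, rfl⟩ := isConj_iff.1 hz'
        obtain ⟨b, rfl⟩ := isConj_iff.1 hw
        exact h1 a b
      | one => intro w hw; rwa [one_mul]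
      | mul a b ha hb iha ihb =>
        intro w hw
        rw [mul_assoc]
        exact iha (by rwa [← closure_toSubmonoid_of_finite] at ha) _
          (ihb (by rwa [← closure_toSubmonoid_of_finite] at hb) w hw)
    have h3 : normalClosure ({(x : G)} : Set G) = M := by
      refine (hmin _ inferInstance (normalClosure_le_normal (by simp))).resolve_left fun e => huy ?_
      have : (x : G) = 1 := mem_bot.1 (e ▸ subset_normalClosure rfl)
      have h4 : x = 1 := Subtype.ext this
      rw [hx, inv_mul_eq_one, eq_mul_inv_iff_mul_eq] at h4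
      exact h4
    have h4 := h2 _ (h3.ge (inv_mem y.2)) y (IsConj.refl _)
    rw [inv_mul_cancel, isConj_one_left] at h4
    exact huy (by rw [show y = 1 from Subtype.ext h4, mul_one, one_mul])

/-- Let p be a prime and G a finite group such that for every element x of p-power order and every element y whose order is a power of a prime other than p, the conjugacy class of x y is the set of all products of a conjugate of x with a conjugate of y. Then G is p-solvable. -/
theorem result {G : Type*} [Group G] [Finite G] (p : ℕ) [Fact p.Prime] (h : ∀ x y : G, (∃ a : ℕ, orderOf x = p ^ a) → (∃ q b : ℕ, q.Prime ∧ q ≠ p ∧ orderOf y = q ^ b) → ∀ z : G, IsConj (x * y) z ↔ ∃ a b : G, z = a * x * a⁻¹ * (b * y * b⁻¹)) : Cfsg.IsPSolvable p G := by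
  refine CfsgLib.PLocal.PSolv.of_forall_quotient fun N _ hN => ?_
  have : Nontrivial (G ⧸ N) := QuotientGroup.nontrivial_iff.2 hN
  refine key p fun x y hx q hq hqp hy a b => ?_
  have := Fact.mk hq
  obtain ⟨x, rfl, hx'⟩ := lift p N hx
  obtain ⟨y, rfl, c, hy'⟩ := lift q N hy
  obtain ⟨a, rfl⟩ := QuotientGroup.mk_surjective a
  obtain ⟨b, rfl⟩ := QuotientGroup.mk_surjective b
  simpa using (QuotientGroup.mk' N).map_isConj ((h x y hx' ⟨q, c, hq, hqp, hy'⟩ _).2 ⟨a, b, rfl⟩)

end Cfsg.Agent.S3989
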