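import Cfsg.Statements.S3992
import Cfsg.Agent.Lib.CIT.General

set_option autoImplicit false
open Cfsg

namespace Cfsg.Agent.S3992

open CfsgLib CfsgLib.CIT CfsgLib.CIT.App Subgroup in
/-- Let G be a finite non-solvable group in which every element has prime-power order, and let R be its largest solvable normal subgroup. Then R is a p-group for some prime p; G/R has a non-abelian simple normal subgroup contained in every nontrivial normal subgroup of G/R (its unique minimal normal subgroup); and the order of every solvable subgroup of G has at most two prime divisors. -/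
theorem result {G : Type*} [Group G] [Finite G] (hns : ¬ Group.IsSolvable G) (hpp : ∀ g : G, g ≠ 1 → IsPrimePow (orderOf g))
    (R : Subgroup G) [R.Normal] (hRs : Group.IsSolvable ↥R) (hRmax : ∀ N : Subgroup G, N.Normal → Group.IsSolvable ↥N → N ≤ R) :
    (∃ p : ℕ, p.Prime ∧ IsPGroup p ↥R) ∧
      (∃ M : Subgroup (G ⧸ R), M.Normal ∧ IsSimpleGroup ↥M ∧ ¬ IsMulCommutative ↥M ∧
        ∀ N : Subgroup (G ⧸ R), N.Normal → N ≠ ⊥ → M ≤ N) ∧
      ∀ H : Subgroup G, Group.IsSolvable ↥H → (Nat.card ↥H).primeFactors.card ≤ 2 := by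
  have hE : EPPO G := hpp
  refine ⟨⟨2, Nat.prime_two, ?_⟩, ?_, fun H hH => by_contra fun e => EPPO.not_isSolvable (G := H)
    (fun g hg => orderOf_coe g ▸ hpp g fun e => hg (Subtype.ext e)) (by omega) hH⟩
  · rcases cit_general G hns hE.isCIT with ⟨-, ⟨hs, -⟩ | ⟨N, hN, hi, hL, -⟩⟩ | ⟨-, hs, -⟩
    · rcases hs.eq_bot_or_eq_top_of_normal R inferInstance with rfl | rfl
      · exact IsPGroup.of_bot
      · exact (hns (Coprime.isSolvable_of_mulEquiv topEquiv hRs)).elim
    · obtain ⟨e⟩ := l29_alt hL
      haveI := alternatingGroup.isSimpleGroup (α := Fin 6) (by simp)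
      haveI := e.isSimpleGroup
      rcases (inferInstance : IsSimpleGroup N).eq_bot_or_eq_top_of_normal (R.subgroupOf N) inferInstance with h | h
      · have := relIndex_dvd_index_of_normal N R
        rw [hi, ← inf_relIndex_right, inf_comm, disjoint_iff.1 (subgroupOf_eq_bot.1 h), relIndex_bot_left] at this
        exact fun g => ⟨1, orderOf_dvd_iff_pow_eq_one.1 ((_root_.orderOf_dvd_natCard g).trans this)⟩
      · refine (hns (isSolvable_of_normal_of_quotient N (Core.isSolvable_of_le (subgroupOf_eq_top.1 h)) ?_)).elim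
        haveI : Fact (Nat.Prime 2) := ⟨Nat.prime_two⟩
        exact Coprime.isSolvable_of_isPGroup (IsPGroup.of_card (p := 2) (n := 1) hi)
    · rcases hs.eq_bot_or_eq_top_of_normal (R.map (QuotientGroup.mk' _)) inferInstance with h | h
      · exact (Core.isPGroup_pCore 2 G).to_le (by rwa [Subgroup.map_eq_bot_iff, QuotientGroup.ker_mk'] at h)
      · haveI : Fact (Nat.Prime 2) := ⟨Nat.prime_two⟩
        exact (hns (isSolvable_of_normal_of_quotient _ (Coprime.isSolvable_of_isPGroup (Core.isPGroup_pCore 2 G))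
          (Coprime.isSolvable_of_mulEquiv topEquiv (h ▸ Core.isSolvable_map _ R)))).elim
  have hF : ∀ N : Subgroup (G ⧸ R), N.Normal → Group.IsSolvable N → N = ⊥ := fun N _ hN => by
    rw [← map_comap_eq_self_of_surjective (QuotientGroup.mk'_surjective R) N, Subgroup.map_eq_bot_iff, QuotientGroup.ker_mk']
    haveI : Group.IsSolvable (QuotientGroup.mk' R).ker := by rwa [QuotientGroup.ker_mk']
    exact hRmax _ inferInstance (Core.isSolvable_comap _ N)
  have hQ := hE.of_surjective _ (QuotientGroup.mk'_surjective R)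
  have hCN : IsCNGroup (G ⧸ R) := fun g hg => by
    obtain ⟨p, hp, hd⟩ := Nat.exists_prime_and_dvd (orderOf_eq_one_iff.not.2 hg)
    haveI := Fact.mk hp
    refine IsPGroup.isNilpotent (p := p) (IsPGroup.iff_card.2 ⟨_, Nat.eq_prime_pow_of_unique_prime_dvd Nat.card_pos.ne'
      fun {q} hq h => by_contra fun e => ?_⟩)
    obtain ⟨y, hy, hyq⟩ := Core.exists_mem_orderOf_eq_of_dvd_card hq h
    exact hQ.not_hasOrd hq hp e (hasOrd_mul_of_commute (mem_centralizer_singleton_iff.1 hy) hyq.symm.dvd hd
      ((Nat.coprime_primes hq hp).2 e))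
  haveI : Nontrivial (G ⧸ R) := QuotientGroup.nontrivial_iff.2 fun e =>
    hns (Coprime.isSolvable_of_mulEquiv topEquiv (e ▸ hRs))
  obtain ⟨M, hM, h0, -, hmin⟩ := Core.exists_minimal_normal_le (K := (⊤ : Subgroup (G ⧸ R))) top_ne_bot
  refine ⟨M, hM, simple_of_min_normal hCN hF h0 hmin, fun e => h0 (hF M hM Core.isSolvable_of_isMulCommutative), fun N hN h1 => ?_⟩
  refine inf_eq_left.1 ((hmin _ inferInstance inf_le_left).resolve_left fun e => h0 (hF M hM ?_))
  obtain ⟨⟨n, hn⟩, hn1⟩ := ne_bot_iff_exists_ne_one.1 h1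
  haveI := hCN n fun e => hn1 (Subtype.ext e)
  exact Core.isSolvable_of_le (K := centralizer {n}) fun m hm => mem_centralizer_singleton_iff.2
    (commute_of_normal_of_disjoint M N hM hN (disjoint_iff.2 e) m n hm hn)

end Cfsg.Agent.S3992
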