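import Cfsg.Statements.S4009
import Cfsg.Agent.Lib.Core.Commutator

set_option autoImplicit false
open Cfsg

namespace Cfsg.Agent.S4009

open Subgroup CfsgLib.Core
open scoped commutatorElement

section
variable {G : Type*} [Group G]

def it (N : Subgroup G) : ℕ → Subgroup G
  | 0 => N
  | j + 1 => ⁅it N j, ⊤⁆

abbrev ga (G : Type*) [Group G] (i : ℕ) : Subgroup G := (⊤ : Subgroup G).lowerCentralSeries i

instance it_normal (N : Subgroup G) [hN : N.Normal] : ∀ j, (it N j).Normal
  | 0 => hN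
  | j + 1 => commutator_top_normal (it N j)

theorem it_succ_le (N : Subgroup G) [N.Normal] (j : ℕ) : it N (j + 1) ≤ it N j :=
  commutator_le_left _ _

theorem it_anti (N : Subgroup G) [N.Normal] : Antitone (it N) :=
  antitone_nat_of_succ_le (it_succ_le N)

theorem it_comm (N : Subgroup G) [N.Normal] (i j : ℕ) : ⁅it N j, ga G i⁆ ≤ it N (j + i + 1) := by
  induction i generalizing j with
  | zero => exact le_rfl
  | succ i ih =>
    rw [ga, Subgroup.lowerCentralSeries_succ, commutator_comm]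
    refine three_subgroups ?_ ?_
    · rw [commutator_comm ⊤]
      exact (ih (j + 1)).trans_eq (by congr 1; ring)
    · exact commutator_mono (ih j) le_rfl

theorem it_le_ga {N : Subgroup G} {i : ℕ} (h : N ≤ ga G i) (j : ℕ) : it N j ≤ ga G (i + j) := by
  induction j with
  | zero => exact h
  | succ j ih => exact commutator_mono ih le_rfl

theorem comm_lt [Group.IsNilpotent G] (N : Subgroup G) [N.Normal] (h : N ≠ ⊥) : ⁅N, ⊤⁆ < N := by
  refine lt_of_le_of_ne (commutator_le_left _ _) fun he => h ?_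
  obtain ⟨n, hn⟩ := (Subgroup.nilpotent_iff_lowerCentralSeries (G := G)).mp inferInstance
  have h1 : ∀ j, N ≤ ga G j := by
    intro j
    induction j with
    | zero => exact le_top
    | succ j ih => rw [← he]; exact commutator_mono ih le_rfl
  exact le_bot_iff.mp ((h1 n).trans_eq hn)

def Cyc (N : Subgroup G) : Prop := ∃ a ∈ N, N ≤ zpowers a ⊔ ⁅N, ⊤⁆

theorem Cyc.comm_le {N : Subgroup G} [N.Normal] (h : Cyc N) : ⁅N, N⁆ ≤ ⁅it N 1, N⁆ := by
  obtain ⟨a, ha, hle⟩ := h
  refine (commutator_mono hle le_rfl).trans (commutator_sup_left_le le_normalizer_of_normal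
    le_normalizer_of_normal ?_ le_rfl)
  refine (commutator_mono le_rfl hle).trans (commutator_sup_right_le le_normalizer_of_normal
    le_normalizer_of_normal ?_ ?_)
  · rw [commutator_le]
    rintro _ ⟨i, rfl⟩ _ ⟨j, rfl⟩
    have : ⁅a ^ i, a ^ j⁆ = 1 := (Commute.zpow_zpow_self a i j).commutator_eq
    simp only
    rw [this]; exact one_mem _
  · rw [commutator_comm]
    exact commutator_mono le_rfl (zpowers_le.mpr ha)

theorem Cyc.le_ga {N : Subgroup G} [N.Normal] (h : Cyc N) {i : ℕ} (hi : N ≤ ga G i) :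
    ⁅N, N⁆ ≤ ga G (2 * i + 2) :=
  h.comm_le.trans ((commutator_mono (it_le_ga hi 1) hi).trans
    ((commutator_lowerCentralSeries_le ⊤ (i + 1) i).trans_eq (by congr 1; ring)))

variable {l : Subgroup G → ℕ}

theorem it_len [Group.IsNilpotent G] (hl : StrictMono l) (N : Subgroup G) [N.Normal] (s j : ℕ)
    (h : it N (s + j) ≠ ⊥) : l (it N (s + j)) + j ≤ l (it N s) := by
  induction j with
  | zero => exact le_rfl
  | succ j ih =>
    have h1 : it N (s + j) ≠ ⊥ := fun h0 => h (le_bot_iff.mp ((it_succ_le N _).trans_eq h0))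
    have h2 := hl (comm_lt _ h1)
    have h3 := ih h1
    change l ⁅it N (s + j), ⊤⁆ + (j + 1) ≤ _
    omega

theorem gen_of_len (hl : StrictMono l) {A N : Subgroup G} (hA : A ≤ N) (h : l N ≤ l A + 1) :
    ∃ b ∈ N, N ≤ zpowers b ⊔ A := by
  rcases hA.lt_or_eq with h1 | h1
  · obtain ⟨b, hb, hbA⟩ := SetLike.exists_of_lt h1
    refine ⟨b, hb, ?_⟩
    have h2 : A < zpowers b ⊔ A := lt_of_le_of_ne le_sup_right fun he =>
      hbA (by rw [he]; exact mem_sup_left (mem_zpowers b))
    have h3 : zpowers b ⊔ A ≤ N := sup_le (zpowers_le.mpr hb) hA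
    rcases h3.lt_or_eq with h4 | h4
    · have := hl h2; have := hl h4; omega
    · exact h4.ge
  · exact ⟨1, one_mem _, by rw [h1]; exact le_sup_right⟩

theorem hall [Group.IsNilpotent G] (hl : StrictMono l) (N : Subgroup G) [N.Normal] {i : ℕ}
    (hi : N ≤ ga G i) (hne : ⁅N, N⁆ ≠ ⊥) :
    l ⁅N, N⁆ + i + 2 ≤ l N ∧ (l ⁅N, N⁆ + i + 3 ≤ l N ∨ Cyc N ∨ Cyc ⁅N, N⁆) := by
  have h2 : ⁅it N 1, N⁆ ≤ it N (1 + i + 1) := (commutator_mono le_rfl hi).trans (it_comm N i 1)
  by_cases hc : Cyc N
  · refine ⟨?_, Or.inr (Or.inl hc)⟩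
    have h1 : ⁅N, N⁆ ≤ it N (0 + (i + 2)) := (hc.comm_le.trans h2).trans_eq (by congr 1; ring)
    have h3 := it_len hl N 0 (i + 2) (fun h0 => hne (le_bot_iff.mp (h1.trans_eq h0)))
    have h4 := hl.monotone h1
    change _ ≤ l N at h3
    omega
  · have h1 : ⁅N, N⁆ ≤ it N (1 + i) :=
      ((commutator_mono le_rfl hi).trans (it_comm N i 0)).trans_eq (by congr 1; ring)
    have h3 := it_len hl N 1 i (fun h0 => hne (le_bot_iff.mp (h1.trans_eq h0)))
    have h4 := hl.monotone h1
    have h5 : l (it N 1) + 2 ≤ l N := by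
      by_contra h
      exact hc (gen_of_len hl (it_succ_le N 0) (by change l N ≤ l (it N 1) + 1; omega))
    refine ⟨by omega, ?_⟩
    by_cases hs : l ⁅N, N⁆ + i + 3 ≤ l N
    · exact Or.inl hs
    right; right
    have h6 : ⁅N, N⁆ = it N (1 + i) := by
      rcases h1.lt_or_eq with h | h
      · have := hl h; omega
      · exact h
    have hN1 : it N 1 < N := lt_of_le_of_ne (it_succ_le N 0) fun he => by rw [he] at h5; omega
    obtain ⟨a, ha, haN⟩ := SetLike.exists_of_lt hN1
    have hA : it N 1 < zpowers a ⊔ it N 1 := lt_of_le_of_ne le_sup_right fun he =>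
      haN (by rw [he]; exact mem_sup_left (mem_zpowers a))
    obtain ⟨b, hb, hle⟩ := gen_of_len hl
      (sup_le (zpowers_le.mpr ha) hN1.le : zpowers a ⊔ it N 1 ≤ N) (by have := hl hA; omega)
    have hab : ⁅a, b⁆ ∈ ⁅N, N⁆ := commutator_mem_commutator ha hb
    refine ⟨⁅a, b⁆, hab, ?_⟩
    set W := zpowers ⁅a, b⁆ ⊔ ⁅⁅N, N⁆, ⊤⁆ with hW
    have hWN : W ≤ ⁅N, N⁆ := sup_le (zpowers_le.mpr hab) (commutator_le_left _ _)
    have hWn : W.Normal := normalizer_eq_top_iff.mp (top_le_iff.mp
      (le_normalizer_of_commutator_le ((commutator_mono hWN le_rfl).trans le_sup_right)))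
    have h7 : ⁅it N 1, N⁆ ≤ W := by
      refine h2.trans (le_trans ?_ le_sup_right)
      rw [h6]; exact le_rfl
    have h8 : ⁅N, it N 1⁆ ≤ W := by rw [commutator_comm]; exact h7
    have hz : ∀ x : G, ⁅zpowers x, zpowers x⁆ ≤ W := by
      intro x
      rw [commutator_le]
      rintro _ ⟨i, rfl⟩ _ ⟨j, rfl⟩
      have : ⁅x ^ i, x ^ j⁆ = 1 := (Commute.zpow_zpow_self x i j).commutator_eq
      simp only
      rw [this]; exact one_mem _
    have hzz : ⁅zpowers a, zpowers b⁆ ≤ W := by
      rw [zpowers_eq_closure, zpowers_eq_closure]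
      refine commutator_closure_closure_le ?_
      rintro _ rfl _ rfl
      exact mem_sup_left (mem_zpowers _)
    have hzz' : ⁅zpowers b, zpowers a⁆ ≤ W := by rw [commutator_comm]; exact hzz
    have hx : ∀ x ∈ N, ⁅zpowers x, zpowers a⁆ ≤ W → ⁅zpowers x, zpowers b⁆ ≤ W → ⁅zpowers x, N⁆ ≤ W := by
      intro x hx ha' hb'
      refine (commutator_mono le_rfl hle).trans (commutator_sup_right_le le_normalizer_of_normal
        le_normalizer_of_normal hb' (commutator_sup_right_le le_normalizer_of_normal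
        le_normalizer_of_normal ha' ((commutator_mono (zpowers_le.mpr hx) le_rfl).trans h8)))
    exact (commutator_mono hle le_rfl).trans (commutator_sup_left_le le_normalizer_of_normal
      le_normalizer_of_normal (hx b hb hzz' (hz b)) (commutator_sup_left_le le_normalizer_of_normal
      le_normalizer_of_normal (hx a ha (hz a) hzz) h7))

theorem der_le (d : ℕ) : derivedSeries G d ≤ ga G (2 ^ d - 1) := by
  induction d with
  | zero => exact le_top
  | succ d ih =>
    refine (commutator_mono ih ih).trans ((commutator_lowerCentralSeries_le ⊤ _ _).trans_eq ?_)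
    congr 1
    have := Nat.one_le_two_pow (n := d)
    omega

theorem exc_succ {d : ℕ} (h : derivedSeries G d ≤ ga G (2 ^ d)) :
    derivedSeries G (d + 1) ≤ ga G (2 ^ (d + 1)) :=
  (commutator_mono h h).trans ((commutator_lowerCentralSeries_le ⊤ _ _).trans
    (Subgroup.lowerCentralSeries_antitone ⊤ (by omega)))

theorem exc_of_cyc {d : ℕ} (h : Cyc (derivedSeries G d)) :
    derivedSeries G (d + 1) ≤ ga G (2 ^ (d + 1)) := by
  refine (h.le_ga (der_le d)).trans_eq ?_
  congr 1
  have := Nat.one_le_two_pow (n := d)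
  omega

theorem states [Group.IsNilpotent G] (hl : StrictMono l) (d : ℕ) (hd : derivedSeries G d ≠ ⊥) :
    l (derivedSeries G d) + 2 ^ d + 2 * d ≤ l ⊤ + 1 ∨
    (derivedSeries G (d + 1) ≤ ga G (2 ^ (d + 1)) ∧ l (derivedSeries G d) + 2 ^ d + 2 * d ≤ l ⊤ + 2) ∨
    (derivedSeries G d ≤ ga G (2 ^ d) ∧ l (derivedSeries G d) + 2 ^ d + 2 * d ≤ l ⊤ + 3) := by
  induction d with
  | zero => left; simp
  | succ d ih =>
    have hd' : derivedSeries G d ≠ ⊥ := fun h => hd (by rw [derivedSeries_succ, h]; simp)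
    have h1 := Nat.one_le_two_pow (n := d)
    obtain ⟨h2, h3⟩ := hall hl (derivedSeries G d) (der_le d) hd
    rw [← derivedSeries_succ] at h2 h3
    rcases ih hd' with h | ⟨he, h⟩ | ⟨he, h⟩
    · rcases h3 with h3 | h3 | h3
      · left; omega
      · exact Or.inr (Or.inl ⟨exc_succ (exc_of_cyc h3), by omega⟩)
      · exact Or.inr (Or.inl ⟨exc_of_cyc h3, by omega⟩)
    · exact Or.inr (Or.inr ⟨he, by omega⟩)
    · obtain ⟨h4, -⟩ := hall hl (derivedSeries G d) he hd
      rw [← derivedSeries_succ] at h4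
      exact Or.inr (Or.inr ⟨exc_succ he, by omega⟩)

theorem main [Group.IsNilpotent G] (hl : StrictMono l) (d : ℕ) (hd : derivedSeries G d ≠ ⊥) :
    l (derivedSeries G d) + 2 ^ d + 2 * d ≤ l ⊤ + 3 := by
  rcases states hl d hd with h | ⟨-, h⟩ | ⟨-, h⟩ <;> omega

end

/-- Let P be a finite p-group of order p^n whose derived length is exactly k + 1 (the k-th derived subgroup is nontrivial and the (k+1)-st is trivial). Then n ≥ 2^k + 2k − 2. -/
theorem result {P : Type*} [Group P] [Finite P] (p : ℕ) [Fact p.Prime] (n k : ℕ) (hcard : Nat.card P = p ^ n) (hk : derivedSeries P k ≠ ⊥) (hk' : derivedSeries P (k + 1) = ⊥) : 2 ^ k + 2 * k ≤ n + 2 := by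
  have hp : p.Prime := Fact.out
  have hP : IsPGroup p P := IsPGroup.of_card hcard
  have : Group.IsNilpotent P := hP.isNilpotent
  have hl : StrictMono (fun H : Subgroup P => Nat.log p (Nat.card H)) := by
    intro H K hHK
    obtain ⟨a, ha⟩ := (hP.to_subgroup H).exists_card_eq
    obtain ⟨b, hb⟩ := (hP.to_subgroup K).exists_card_eq
    have h1 : Nat.card H < Nat.card K := by
      rcases (Subgroup.card_le_of_le hHK.le).lt_or_eq with h | h
      · exact h
      · exact absurd (Subgroup.eq_of_le_of_card_ge hHK.le h.ge) hHK.ne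
    simp only
    rw [ha, hb] at h1 ⊢
    rw [Nat.log_pow hp.one_lt, Nat.log_pow hp.one_lt]
    exact (Nat.pow_lt_pow_iff_right hp.one_lt).mp h1
  have h1 := main hl k hk
  have h2 := hl (bot_lt_iff_ne_bot.mpr hk)
  simp only [Subgroup.card_top, hcard, Nat.log_pow hp.one_lt] at h1 h2
  omega

end Cfsg.Agent.S4009
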