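import Cfsg.Statements.S4013
import Cfsg.Agent.Lib.Fgs.ClassSize

set_option autoImplicit false
open Cfsg

namespace Cfsg.Agent.S4013


/-- Let G be a finite p-group (p prime) and N < M normal subgroups of G such that for some g ∈ M ∖ N the conjugacy class of g is exactly M ∖ N. Then p = 2 and N has index 2 in M. -/
theorem result {G : Type*} [Group G] [Finite G] (p : ℕ) [Fact p.Prime] (hG : IsPGroup p G) (N M : Subgroup G) [N.Normal] [M.Normal] (hNM : N < M) (g : G) (hgM : g ∈ M) (hgN : g ∉ N) (hcl : {h : G | IsConj g h} = (M : Set G) \ (N : Set G)) : p = 2 ∧ N.relIndex M = 2 := by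
  have hp : p.Prime := Fact.out
  obtain ⟨k, hk⟩ := hG.index (Subgroup.centralizer ({g} : Set G))
  obtain ⟨j, hj⟩ := (hG.to_subgroup M).index (N.subgroupOf M)
  have hj' : N.relIndex M = p ^ j := hj
  have h1 : {h : G | IsConj g h}.ncard = p ^ k := by
    rw [CfsgLib.Fgs.ncard_isConj_eq_index, hk]
  have h2 : Nat.card N * N.relIndex M = Nat.card M := CfsgLib.Core.card_mul_relIndex_of_le hNM.le
  have h3 : ((M : Set G) \ (N : Set G)).ncard = Nat.card M - Nat.card N :=
    Set.ncard_sdiff hNM.le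
  rw [hcl, h3, ← h2, hj'] at h1
  have hj0 : j ≠ 0 := by
    rintro rfl
    rw [pow_zero, Subgroup.relIndex_eq_one] at hj'
    exact hNM.not_ge hj'
  have h4 : p ^ j - 1 ∣ p ^ k := by
    rw [← h1]
    exact ⟨Nat.card N, by rw [Nat.sub_mul, one_mul, mul_comm]⟩
  have hpos : 1 ≤ p ^ j := Nat.one_le_pow _ _ hp.pos
  have h5 : (p ^ j - 1).Coprime (p ^ k) := by
    apply Nat.Coprime.pow_right
    have : (p ^ j - 1).Coprime (p ^ j) := by
      have e : p ^ j = (p ^ j - 1) + 1 := by omega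
      nth_rewrite 2 [e]
      simp
    exact this.coprime_dvd_right (dvd_pow_self p hj0)
  have h6 : p ^ j - 1 = 1 := h5.eq_one_of_dvd h4
  have h7 : p ^ j = 2 := by omega
  refine ⟨?_, by rw [hj', h7]⟩
  have : p ∣ 2 := h7 ▸ dvd_pow_self p hj0
  exact (Nat.prime_dvd_prime_iff_eq hp Nat.prime_two).mp this

end Cfsg.Agent.S4013
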