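import Mathlib
import Cfsg.Statements.S4014
import Cfsg.Agent.Lib.BF.DerLen

set_option autoImplicit false
open Cfsg

namespace Cfsg.Agent.S4014

/-- Let p be a prime, n ≥ 1, and P a Sylow p-subgroup of the symmetric group on n letters. Then the derived length of P is exactly k = ⌊log_p n⌋ (the largest k with p^k ≤ n): the k-th derived subgroup of P is trivial and, when k ≥ 1, the (k−1)-st is not. -/
theorem result (p : ℕ) [Fact p.Prime] (n : ℕ) (hn : 1 ≤ n) (P : Sylow p (Equiv.Perm (Fin n))) : derivedSeries ↥(P : Subgroup (Equiv.Perm (Fin n))) (Nat.log p n) = ⊥ ∧ (1 ≤ Nat.log p n → derivedSeries ↥(P : Subgroup (Equiv.Perm (Fin n))) (Nat.log p n - 1) ≠ ⊥) := by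
  constructor
  · rw [eq_bot_iff]
    intro g hg
    refine Subtype.ext (Equiv.ext fun x => ?_)
    refine CfsgLib.BF.der_le_of_index _ _ P.isPGroup' (MulAction.stabilizer _ x) ?_ hg
    rw [MulAction.index_stabilizer]
    refine lt_of_le_of_lt ?_ (Nat.lt_pow_succ_log_self (Fact.out : p.Prime).one_lt n)
    simpa using Set.ncard_le_card (MulAction.orbit (P : Subgroup (Equiv.Perm (Fin n))) x)
  intro hk
  obtain ⟨k, hk'⟩ := Nat.exists_eq_add_of_le' hk
  have hle := Nat.pow_log_le_self p (show n ≠ 0 by omega)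
  rw [hk'] at hle ⊢
  obtain ⟨ε⟩ : Nonempty ((Fin (k + 1) → Multiplicative (ZMod p)) ↪ Fin n) :=
    Function.Embedding.nonempty_of_card_le (by simpa using hle)
  let f := (Equiv.Perm.viaEmbeddingHom ε).comp (iteratedWreathToPermHom (Multiplicative (ZMod p)) (k + 1))
  have hf : Function.Injective f :=
    (Equiv.Perm.viaEmbeddingHom_injective ε).comp (iteratedWreathToPermHomInj _ _)
  have hD := CfsgLib.BF.isPGroup_iter (p := p) (Multiplicative (ZMod p)) (by simp) (k + 1)
  obtain ⟨Q, hQ⟩ := (hD.of_surjective f.rangeRestrict f.rangeRestrict_surjective).exists_le_sylow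
  exact CfsgLib.BF.der_ne_bot_of_injective (f := (Q.equiv P).toMonoidHom.comp
    ((Subgroup.inclusion hQ).comp f.rangeRestrict)) ((Q.equiv P).injective.comp
      ((Subgroup.inclusion_injective hQ).comp fun a b h => hf (congrArg Subtype.val h)))
    (CfsgLib.BF.der_iter _ k)

end Cfsg.Agent.S4014
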