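import Mathlib
import Cfsg.Statements.S4015
import Cfsg.Agent.Lib.BF.DerLen2

set_option autoImplicit false
open Cfsg

namespace Cfsg.Agent.S4015

/-- Let p be an odd prime, F a finite field with q elements where p does not divide q, and e the multiplicative order of q modulo p. Let n ≥ e and write w = ⌊n/e⌋ and k = ⌊log_p w⌋. Then a Sylow p-subgroup of GL(n, F) has derived length exactly k + 1: its (k+1)-st derived subgroup is trivial and its k-th is not. -/
theorem result (p : ℕ) [Fact p.Prime] (hp : p ≠ 2) (F : Type*) [Field F] [Fintype F] (q : ℕ) (hq : Fintype.card F = q) (hpq : ¬ p ∣ q) (n : ℕ) (hn : orderOf (q : ZMod p) ≤ n) (P : Sylow p (Matrix.GeneralLinearGroup (Fin n) F)) : derivedSeries ↥(P : Subgroup (Matrix.GeneralLinearGroup (Fin n) F)) (Nat.log p (n / orderOf (q : ZMod p)) + 1) = ⊥ ∧ derivedSeries ↥(P : Subgroup (Matrix.GeneralLinearGroup (Fin n) F)) (Nat.log p (n / orderOf (q : ZMod p))) ≠ ⊥ := by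
  subst hq
  constructor
  · rw [eq_bot_iff, ← CfsgLib.BF.glRep_ker (P : Subgroup (GL (Fin n) F)).subtype_injective]
    exact CfsgLib.BF.der_finite_field hpq _ n
      (Nat.lt_pow_succ_log_self (Fact.out : p.Prime).one_lt _) _ P.isPGroup' (by simp)
  have he := CfsgLib.BF.orderOf_card_pos hpq
  obtain ⟨D, _, V, _, _, _, ρ, _, hD, hρ, hV, hk⟩ :=
    CfsgLib.BF.exists_long hpq (Nat.log p (n / orderOf (Fintype.card F : ZMod p)))
  obtain ⟨f, hf⟩ := CfsgLib.BF.exists_gl_of_rep ρ hρ (n := n) (by
    rw [hV]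
    exact (Nat.mul_le_mul_left _ (Nat.pow_log_le_self p (Nat.div_pos hn he).ne')).trans
      (Nat.mul_div_le _ _))
  obtain ⟨Q, hQ⟩ := (hD.of_surjective f.rangeRestrict f.rangeRestrict_surjective).exists_le_sylow
  exact CfsgLib.BF.der_ne_bot_of_injective (f := (Q.equiv P).toMonoidHom.comp
    ((Subgroup.inclusion hQ).comp f.rangeRestrict)) ((Q.equiv P).injective.comp
      ((Subgroup.inclusion_injective hQ).comp fun a b h => hf (congrArg Subtype.val h))) hk

end Cfsg.Agent.S4015
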