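import Cfsg.Statements.S4023
import Cfsg.Agent.Lib.WCor4.Bg2

set_option autoImplicit false
open Cfsg

namespace Cfsg.Agent.S4023

open CfsgLib CfsgLib.WCor4 CfsgLib.Tech Subgroup

theorem cube {G : Type*} [Group G] [Finite G] {p : ℕ} [hp : Fact p.Prime] (hG : IsPGroup p G) (he : ∀ x : G, x ^ p = 1)
    (hn : ¬ IsMulCommutative G)
    (h : ∀ H K : Subgroup G, Nat.card H = Nat.card K → IsMulCommutative H → IsMulCommutative K) :
    Nat.card G = p ^ 3 := by
  have h1 : center G ≠ ⊤ := fun e => hn ⟨⟨fun a b => mem_center_iff.1 (e ▸ mem_top b) a⟩⟩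
  have : Nontrivial (G ⧸ center G) := QuotientGroup.nontrivial_iff.2 h1
  have := (hG.to_quotient (center G)).center_nontrivial
  obtain ⟨⟨c, hc⟩, h2⟩ := exists_ne (1 : center (G ⧸ center G))
  obtain ⟨x, rfl⟩ := QuotientGroup.mk'_surjective _ c
  have h3 : x ∉ center G := fun e => h2 (Subtype.ext ((QuotientGroup.eq_one_iff x).2 e))
  obtain ⟨y, hy⟩ : ∃ y, y * x ≠ x * y := by simpa [mem_center_iff] using h3
  have h4 : ∀ a, x⁻¹ * (a * x * a⁻¹) ∈ center G := fun a => (QuotientGroup.eq_one_iff _).1 (by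
    rw [← QuotientGroup.mk'_apply, map_mul, map_mul, map_mul, mem_center_iff.1 hc, map_inv, map_inv]
    group)
  obtain ⟨z, hz⟩ : ∃ z, z = x⁻¹ * (y * x * y⁻¹) := ⟨_, rfl⟩
  have z1 : zpowers z ≤ center G := zpowers_le.2 (hz ▸ h4 y)
  have z2 : z ≠ 1 := fun e => hy (by rwa [hz, inv_mul_eq_one, eq_mul_inv_iff_mul_eq, eq_comm] at e)
  have := Core.normal_of_le_center z1
  have cent : ∀ c : G, c * x = x * c → zpowers x ⊔ zpowers z ≤ centralizer {c} := fun c e =>
    sup_le (zpowers_le.2 (mem_centralizer_singleton_iff.2 e.symm)) (z1.trans (center_le_centralizer _))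
  have hV : Nat.card ↥(zpowers x ⊔ zpowers z) = p * p := by
    rw [card_zp_sup (he x) (fun e => h3 (z1 e)) fun v hv => this.conj_mem v hv x, Nat.card_zpowers,
      orderOf_eq_prime (he z) z2]
  have xV : x ∈ zpowers x ⊔ zpowers z := mem_sup_left (mem_zpowers x)
  have hE : Nat.card ↥(zpowers y ⊔ (zpowers x ⊔ zpowers z)) = p * (p * p) := by
    rw [card_zp_sup (he y) (fun e => hy (mem_centralizer_singleton_iff.1 (cent x rfl e))) (cj_le_iff.1 ?_), hV]
    rw [cj_sup, cj_zpowers, cj_eq_of_normal, ← mul_inv_cancel_left x (y * x * y⁻¹), ← hz]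
    exact sup_le (zpowers_le.2 (mul_mem xV (mem_sup_right (mem_zpowers z)))) le_sup_right
  have key : ∀ c : G, c * x = x * c → c ∈ zpowers x ⊔ zpowers z := fun c c1 => by_contra fun c2 => by
    have := Core.isMulCommutative_sup (A := zpowers x) (B := zpowers z)
      (le_centralizer_iff.1 (z1.trans (center_le_centralizer _)))
    exact hy (Core.isMulCommutative_iff_forall.1 (h (zpowers c ⊔ (zpowers x ⊔ zpowers z)) _ (by
      rw [card_zp_sup (he c) c2 fun v hv => by
        rwa [← mem_centralizer_singleton_iff.1 (cent c c1 hv), mul_inv_cancel_right], hV, hE])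
      (Core.isMulCommutative_sup (le_centralizer_iff.1 (Core.centralizer_zpowers c ▸ cent c c1)))) _
      (mem_sup_left (mem_zpowers y)) _ (mem_sup_right xV))
  let f : G →* G := .mk' (fun a => x⁻¹ * (a * x * a⁻¹)) fun a b =>
    calc _ = x⁻¹ * (a * x * (x⁻¹ * (b * x * b⁻¹) * a⁻¹)) := by group
      _ = _ := by rw [← mem_center_iff.1 (h4 b)]; group
  have f1 : Nat.card f.ker ≤ p * p := hV ▸ card_le_of_le fun a ha => key a (by
    have : x⁻¹ * (a * x * a⁻¹) = 1 := ha
    rwa [inv_mul_eq_one, eq_mul_inv_iff_mul_eq, eq_comm] at this)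
  have f2 : Nat.card f.range ≤ p := by
    refine (card_le_of_le (show f.range ≤ center G by rintro _ ⟨a, rfl⟩; exact h4 a)).trans ?_
    have k1 : center G ≤ zpowers x ⊔ zpowers z := fun c hc => key c (mem_center_iff.1 hc x).symm
    obtain ⟨k, k2, k3⟩ := (Nat.dvd_prime_pow hp.out).1 (pow_two p ▸ hV ▸ card_dvd_of_le k1)
    rcases k2.lt_or_eq with k2 | rfl
    · exact k3 ▸ (Nat.pow_le_pow_right hp.out.pos (Nat.le_of_lt_succ k2)).trans (pow_one p).le
    · exact absurd (eq_of_le_of_card_ge k1 (by rw [k3, hV, pow_two]) ▸ xV) h3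
  refine le_antisymm ?_ ((show p ^ 3 = _ by rw [hE]; ring).trans_le (card_le_card_group _))
  rw [← f.ker.card_mul_index, index_ker, show p ^ 3 = p * p * p by ring]
  exact Nat.mul_le_mul f1 f2

/-- Let p be a prime and G a finite group in which any two p-subgroups of the same order are conjugate, with Sylow p-subgroup P. Then P is cyclic, or elementary abelian, or p = 2 and P is a quaternion group of order 8, or p is odd and P is non-abelian of order p³ and exponent p. -/
theorem result {G : Type*} [Group G] [Finite G]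
    {p : ℕ} [Fact p.Prime] (hC : ∀ H K : Subgroup G, IsPGroup p H → IsPGroup p K → Nat.card H = Nat.card K →
      ∃ g : G, K = H.map (MulAut.conj g).toMonoidHom) (P : Sylow p G) :
    IsCyclic P ∨ Cfsg.IsElementaryAbelian p (P : Subgroup G) ∨
      (p = 2 ∧ Nonempty ((P : Subgroup G) ≃* QuaternionGroup 2)) ∨
      (p ≠ 2 ∧ ¬ IsMulCommutative P ∧ Nat.card P = p ^ 3 ∧ Monoid.exponent P = p) := by
  rcases DP.exp_or hC P.isPGroup' with h | h | h
  · by_cases h1 : IsMulCommutative P
    · exact .inr (.inl ⟨h1, h⟩)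
    have h2 : ∀ x : P, x ^ p = 1 := fun x => Subtype.ext (h x x.2)
    refine .inr (.inr (.inr ⟨fun e => h1 (comm_of_sq (e ▸ h)), h1, cube P.isPGroup' h2 h1 fun H K e h3 => ?_, ?_⟩))
    · obtain ⟨g, e⟩ := hC (H.map (Subgroup.subtype _)) (K.map (Subgroup.subtype _)) ((P.isPGroup'.to_subgroup H).map _)
        ((P.isPGroup'.to_subgroup K).map _) (by rw [card_subtype, card_subtype, e])
      have : IsMulCommutative (K.map (Subgroup.subtype _)) := e ▸ inferInstance
      exact comap_map_eq_self_of_injective (subtype_injective _) K ▸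
        comap_injective_isMulCommutative _ (subtype_injective _)
    · have : Nontrivial P := not_subsingleton_iff_nontrivial.1 fun _ => h1 ⟨⟨fun _ _ => Subsingleton.elim _ _⟩⟩
      exact (Monoid.exponent_eq_prime_iff Fact.out).2 fun x hx => orderOf_eq_prime (h2 x) hx
  · exact .inl h
  · exact .inr (.inr (.inl h))

end Cfsg.Agent.S4023
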