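import Cfsg.Statements.S4024
import Cfsg.Agent.Lib.WCor4.Bg2
import Cfsg.Agent.Lib.PLocal.PSolvable

set_option autoImplicit false
open Cfsg

namespace Cfsg.Agent.S4024

open CfsgLib CfsgLib.WCor4 CfsgLib.Tech Subgroup

/-- Let p be an odd prime and G a finite group in which any two p-subgroups of the same order are conjugate, with Sylow p-subgroup P. If H is a normal p-solvable subgroup of G whose order is divisible by p, then P is abelian, and either P ≤ H or P is cyclic. -/
theorem result {G : Type*} [Group G] [Finite G]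
    {p : ℕ} [Fact p.Prime] (hp : p ≠ 2) (hC : ∀ H K : Subgroup G, IsPGroup p H → IsPGroup p K → Nat.card H = Nat.card K →
      ∃ g : G, K = H.map (MulAut.conj g).toMonoidHom) (P : Sylow p G)
    (H : Subgroup G) [H.Normal] (hsolv : Cfsg.IsPSolvable p H) (hdiv : p ∣ Nat.card H) :
    IsMulCommutative P ∧ ((P : Subgroup G) ≤ H ∨ IsCyclic P) := by
  rcases DP.exp_or hC P.isPGroup' with h | h | h
  rotate_left
  · exact ⟨h.isMulCommutative, .inr h⟩
  · exact absurd h.1 hp
  refine ⟨?_, .inl fun x hx => DP.mem_normal hC hdiv (h x hx)⟩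
  have hf := QuotientGroup.mk'_surjective (pPrimeCore p G)
  have hd := Core.isPGroup_inf_eq_bot_of_coprime P.isPGroup' (Core.coprime_card_pPrimeCore p G)
  have := Normal.map inferInstance _ hf (H := H)
  have : Nontrivial (H.map (QuotientGroup.mk' (pPrimeCore p G))) := (nontrivial_iff_ne_bot _).2 fun e =>
    Core.not_dvd_card_pPrimeCore Fact.out G (hdiv.trans (card_dvd_of_le (by
      rwa [Subgroup.map_eq_bot_iff, QuotientGroup.ker_mk'] at e)))
  have h1 : pCore p (G ⧸ pPrimeCore p G) ≠ ⊥ := fun e => by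
    rcases PLocal.PSolv.pCore_ne_bot_or (PLocal.PSolv.map hsolv (QuotientGroup.mk' (pPrimeCore p G))) with h1 | h1
    · exact h1 ((map_eq_bot_iff_of_injective _ (subtype_injective _)).1
        (eq_bot_iff.2 ((Core.map_pCore_le_of_normal _).trans e.le)))
    · exact h1 ((map_eq_bot_iff_of_injective _ (subtype_injective _)).1
        (eq_bot_iff.2 ((Core.map_pPrimeCore_le_of_normal _).trans (Core.pPrimeCore_quotient_pPrimeCore p G).le)))
  have h2 := Core.isPGroup_pCore p (G ⧸ pPrimeCore p G)
  have h3 : ∀ x ∈ (P : Subgroup G), QuotientGroup.mk' (pPrimeCore p G) x ∈ _ := fun x hx =>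
    (DP.of_surjective hC hf).mem_normal (Core.dvd_card_of_isPGroup_of_ne_bot (h2.to_le inf_le_left)
      (Core.inf_centralizer_ne_bot_of_isPGroup h2 h2 le_normalizer h1)) (by rw [← map_pow, h x hx, map_one])
  refine Core.isMulCommutative_iff_forall.2 fun a ha b hb => ?_
  have h4 : a * b * a⁻¹ * b⁻¹ ∈ (P : Subgroup G) ⊓ pPrimeCore p G := mem_inf.2
    ⟨mul_mem (mul_mem (mul_mem ha hb) (inv_mem ha)) (inv_mem hb), (QuotientGroup.eq_one_iff _).1 (by
      rw [← QuotientGroup.mk'_apply, map_mul, map_mul, map_mul, mem_centralizer_iff.1 (h3 b hb).2 _ (h3 a ha).1]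
      simp)⟩
  rwa [hd, mem_bot, mul_inv_eq_one, mul_inv_eq_iff_eq_mul] at h4

end Cfsg.Agent.S4024
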