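import Cfsg.Statements.S4027
import Cfsg.Agent.Lib.Solv.MaxCent
import Cfsg.Agent.Lib.Core.Fitting

set_option autoImplicit false
open Cfsg

namespace Cfsg.Agent.S4027

open CfsgLib Subgroup
open scoped ComplexConjugate


/-- Let G be a finite group in which every element x of odd order satisfies N_G(⟨x⟩) = C_G(x). Then the Sylow 2-subgroups of G are normal. -/
theorem result {G : Type*} [Group G] [Finite G]
    (hirr : ∀ x : G, (∀ r : ℕ, r.Prime → r ∣ orderOf x → r ≠ 2) →
      Subgroup.normalizer ((Subgroup.zpowers x : Subgroup G) : Set G) ≤ Subgroup.centralizer {x}) (P : Sylow 2 G) :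
    (P : Subgroup G).Normal := by
  by_cases h : 2 ∣ (Cfsg.pCore 2 G).index
  · obtain ⟨t, x, h1, h2, h3⟩ := Solv.exists_inverted_of_even_index_pCore h
    have h4 := mem_centralizer_singleton_iff.1 (hirr x (fun r _ hr e => h2.not_two_dvd_nat (e ▸ hr))
      (show t ∈ normalizer _ from mem_normalizer_fintype fun y hy => by
        obtain ⟨k, rfl⟩ := mem_zpowers_iff.1 hy
        rw [← conj_zpow, h3]; exact zpow_mem (inv_mem (mem_zpowers x)) k))
    rw [h4, mul_inv_cancel_right, eq_inv_iff_mul_eq_one, ← sq] at h3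
    exact absurd (orderOf_eq_one_iff.1 (Nat.Coprime.eq_one_of_dvd
      (Nat.coprime_two_right.2 h2) (orderOf_dvd_of_pow_eq_one h3))) h1
  · rw [Core.sylow_normal_of_not_dvd_index_pCore h P]; infer_instance

end Cfsg.Agent.S4027
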