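import Cfsg.Statements.S4028
import Cfsg.Agent.Lib.Count.Basic
import Cfsg.Agent.Lib.SylTools.Basic

set_option autoImplicit false
open Cfsg

namespace Cfsg.Agent.S4028


/-- Let G be a finite group with Sylow 2-subgroup P. Then N_G(⟨x⟩) = C_G(x) holds for every 2-element x of G if and only if N_P(⟨y⟩) = C_P(y) holds for every y ∈ P (computed inside P). -/
theorem result {G : Type*} [Group G] [Finite G] (P : Sylow 2 G) :
    (∀ x : G, (∀ r : ℕ, r.Prime → r ∣ orderOf x → r = 2) →
      Subgroup.normalizer ((Subgroup.zpowers x : Subgroup G) : Set G) ≤ Subgroup.centralizer {x}) ↔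
    (∀ y : ↥(P : Subgroup G), Subgroup.normalizer ((Subgroup.zpowers y : Subgroup ↥(P : Subgroup G)) : Set ↥(P : Subgroup G)) ≤
        Subgroup.centralizer {y}) := by
  have h2 : Fact (Nat.Prime 2) := ⟨Nat.prime_two⟩
  have hnorm : ∀ {H : Type _} [Group H] [Finite H] (x g : H),
      g ∈ Subgroup.normalizer ((Subgroup.zpowers x : Subgroup H) : Set H) ↔
        g * x * g⁻¹ ∈ Subgroup.zpowers x := by
    intro H _ _ x g
    constructor
    · intro hg
      exact (Subgroup.mem_normalizer_iff.mp hg x).mp (Subgroup.mem_zpowers x)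
    · intro hg
      apply Subgroup.mem_normalizer_fintype
      rintro _ ⟨k, rfl⟩
      simp only
      rw [← conj_zpow]
      exact Subgroup.zpow_mem _ hg k
  constructor
  · intro h y g hg
    rw [hnorm] at hg
    have hy : ∀ r : ℕ, r.Prime → r ∣ orderOf (y : G) → r = 2 := by
      intro r hr hd
      obtain ⟨k, hk⟩ := CfsgLib.Count.exists_orderOf_eq_of_mem P.isPGroup' y.2
      rw [hk] at hd
      exact (Nat.prime_dvd_prime_iff_eq hr Nat.prime_two).mp (hr.dvd_of_dvd_pow hd)
    have h1 : (g : G) ∈ Subgroup.normalizer ((Subgroup.zpowers (y : G) : Subgroup G) : Set G) := by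
      rw [hnorm]
      obtain ⟨k, hk⟩ := hg
      exact ⟨k, by simpa using congrArg Subtype.val hk⟩
    have h3 := h y hy h1
    rw [Subgroup.mem_centralizer_singleton_iff] at h3 ⊢
    exact Subtype.ext h3
  · intro h x hx
    obtain ⟨a, ha⟩ := CfsgLib.Count.exists_orderOf_eq_pow_of_prime_dvd hx
    apply CfsgLib.Count.le_of_primePow_mem
    intro g hg q k hq hk
    by_cases hq2 : q = 2
    · subst hq2
      have hz := CfsgLib.Count.isPGroup_zpowers_of_orderOf ha
      have hR : IsPGroup 2 ↥(Subgroup.zpowers g ⊔ Subgroup.zpowers x) :=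
        (CfsgLib.Count.isPGroup_zpowers_of_orderOf hk).to_sup_of_normal_right' hz
          (Subgroup.zpowers_le.mpr hg)
      obtain ⟨c, hc⟩ := CfsgLib.SylTools.exists_conj_le_sylow hR P
      have hg' := hc g (Subgroup.mem_sup_left (Subgroup.mem_zpowers g))
      have hx' := hc x (Subgroup.mem_sup_right (Subgroup.mem_zpowers x))
      have h3 : (⟨_, hg'⟩ : (P : Subgroup G)) ∈ Subgroup.normalizer
          ((Subgroup.zpowers (⟨_, hx'⟩ : (P : Subgroup G)) : Subgroup (P : Subgroup G)) :
            Set (P : Subgroup G)) := by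
        rw [hnorm] at hg ⊢
        obtain ⟨n, hn⟩ := hg
        refine ⟨n, Subtype.ext ?_⟩
        simp only [SubgroupClass.coe_zpow, Subgroup.coe_mul, InvMemClass.coe_inv] at hn ⊢
        rw [conj_zpow, hn]
        group
      have h4 := h _ h3
      rw [Subgroup.mem_centralizer_singleton_iff] at h4 ⊢
      have h5 : c * g * c⁻¹ * (c * x * c⁻¹) = c * x * c⁻¹ * (c * g * c⁻¹) := congrArg Subtype.val h4
      have h6 : c * (g * x) * c⁻¹ = c * (x * g) * c⁻¹ := by
        calc c * (g * x) * c⁻¹ = c * g * c⁻¹ * (c * x * c⁻¹) := by group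
          _ = c * x * c⁻¹ * (c * g * c⁻¹) := h5
          _ = _ := by group
      simpa using h6
    · let φ : MulAut (Subgroup.zpowers x) := (Subgroup.zpowers x).normalizerMonoidHom ⟨g, hg⟩
      have h3 : orderOf φ ∣ q ^ k := by
        rw [← hk, ← Subgroup.orderOf_mk g hg]
        exact orderOf_map_dvd _ _
      have h4 : orderOf φ ∣ 2 ^ a := by
        refine (orderOf_dvd_natCard φ).trans ?_
        rw [IsCyclic.card_mulAut, Nat.card_zpowers, ha]
        rcases Nat.eq_zero_or_pos a with rfl | ha0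
        · simp
        · rw [Nat.totient_prime_pow Nat.prime_two ha0]
          simpa using pow_dvd_pow 2 (Nat.sub_le a 1)
      have h5 : φ = 1 := orderOf_eq_one_iff.mp (Nat.eq_one_of_dvd_coprimes
        (Nat.Coprime.pow _ _ ((Nat.coprime_primes hq Nat.prime_two).mpr hq2)) h3 h4)
      have h6 : φ ⟨x, Subgroup.mem_zpowers x⟩ = ⟨x, Subgroup.mem_zpowers x⟩ := by rw [h5]; rfl
      have h7 : g * x * g⁻¹ = x := congrArg Subtype.val h6
      rw [Subgroup.mem_centralizer_singleton_iff]
      exact mul_inv_eq_iff_eq_mul.mp h7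

end Cfsg.Agent.S4028
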