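import Cfsg.Statements.S4029
import Mathlib
import Cfsg.Agent.Lib.Core.Frattini

set_option autoImplicit false
open Cfsg

namespace Cfsg.Agent.S4029

open Subgroup Finset in

/-- Let P be a finite 2-group in which N_P(⟨y⟩) = C_P(y) for every y ∈ P. If s is the number of conjugacy classes of involutions of P, then #(P/Φ(P)) ≤ s + 1; in particular the subgroup generated by the involutions of P has order at least #(P/Φ(P)). -/
theorem result {P : Type*} [Group P] [Finite P] (hP : IsPGroup 2 P)
    (hirr : ∀ y : P, Subgroup.normalizer ((Subgroup.zpowers y : Subgroup P) : Set P) ≤ Subgroup.centralizer {y}) :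
    Nat.card (P ⧸ frattini P) ≤ Nat.card {c : ConjClasses P // ∃ y : P, ConjClasses.mk y = c ∧ orderOf y = 2} + 1 ∧
    Nat.card (P ⧸ frattini P) ≤ Nat.card (Subgroup.closure {y : P | orderOf y = 2}) := by
  classical
  have := Fintype.ofFinite P
  let T := {c : ConjClasses P // ∃ y : P, ConjClasses.mk y = c ∧ y * y = 1}
  have key : Nat.card (P ⧸ frattini P) ≤ Nat.card T := by
    let X := (univ : Finset (P × P)).filter fun x => x.1 ^ 2 = x.2 ^ 2
    have hm : ∀ a : P, a ^ 2 ∈ univ.filter (· ∈ frattini P) := fun a =>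
      mem_filter.2 ⟨mem_univ _, CfsgLib.Core.pow_mem_frattini_of_isPGroup hP a⟩
    have h1 := card_eq_sum_card_fiberwise (s := univ) (f := fun a : P => a ^ 2) fun a _ => hm a
    have h2 := card_eq_sum_card_fiberwise (s := X) (f := fun a => a.1 ^ 2) fun a _ => hm a.1
    have h3 := sq_sum_le_card_mul_sum_sq (s := univ.filter (· ∈ frattini P))
      (f := fun c => #(univ.filter fun a : P => a ^ 2 = c))
    rw [← h1, sum_congr rfl fun c _ => show _ = #(X.filter fun a => a.1 ^ 2 = c) by
      rw [sq, ← card_product]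
      congr 1; ext ⟨a, b⟩
      simp only [X, mem_product, mem_filter, mem_univ, true_and]
      exact ⟨fun h => ⟨h.1.trans h.2.symm, h.1⟩, fun h => ⟨h.2, h.1.symm.trans h.2⟩⟩, ← h2] at h3
    have h4 : ∀ a b : P, a ^ 2 = b ^ 2 → b⁻¹ * a * (b⁻¹ * a) = 1 ∧ b⁻¹ * a * b = b * (b⁻¹ * a) := fun a b h => by
      have e : b * (b⁻¹ * a) * b⁻¹ = (b⁻¹ * a)⁻¹ := by
        calc b * (b⁻¹ * a) * b⁻¹ = a⁻¹ * a ^ 2 * b⁻¹ := by group
          _ = _ := by rw [h]; group
      have h5 := mem_centralizer_singleton_iff.1 (hirr (b⁻¹ * a) (x := b) (mem_normalizer_fintype (by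
        rintro _ ⟨n, rfl⟩
        simp only
        rw [← conj_zpow, e]
        exact zpow_mem (inv_mem (mem_zpowers _)) n)))
      exact ⟨by rwa [h5, mul_inv_cancel_right, eq_inv_iff_mul_eq_one] at e, h5.symm⟩
    have h5 : ∀ x : P, ∃ t, t * (ConjClasses.mk x).exists_rep.choose * t⁻¹ = x := fun x =>
      isConj_iff.1 (ConjClasses.mk_eq_mk_iff_isConj.1 (ConjClasses.mk x).exists_rep.choose_spec)
    choose t ht using h5
    have h6 := Nat.card_le_card_of_injective (fun x : X => ((x.1.2 * t (x.1.2⁻¹ * x.1.1),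
      ⟨_, x.1.2⁻¹ * x.1.1, rfl, (h4 _ _ (mem_filter.1 x.2).2).1⟩) : P × T)) (by
      rintro ⟨⟨a, b⟩, hx⟩ ⟨⟨c, d⟩, hy⟩ e
      obtain ⟨e1, e2⟩ := Prod.ext_iff.1 e
      replace e2 := congrArg Subtype.val e2
      have k : ∀ a b : P, a ^ 2 = b ^ 2 → b * t (b⁻¹ * a) * (ConjClasses.mk (b⁻¹ * a)).exists_rep.choose *
          (b * t (b⁻¹ * a))⁻¹ = b⁻¹ * a := fun a b h => by
        calc _ = b * (t (b⁻¹ * a) * (ConjClasses.mk (b⁻¹ * a)).exists_rep.choose * (t (b⁻¹ * a))⁻¹) * b⁻¹ := by
              group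
          _ = _ := by rw [ht, ← (h4 a b h).2, mul_inv_cancel_right]
      have e3 := k a b (mem_filter.1 hx).2
      simp only at e1 e2
      simp only [e1, e2] at e3
      rw [k c d (mem_filter.1 hy).2] at e3
      rw [e3, mul_left_inj] at e1
      subst e1
      rw [mul_right_inj] at e3
      subst e3
      rfl)
    rw [Nat.card_prod, Nat.card_eq_finsetCard] at h6
    have h7 := card_eq_card_quotient_mul_card_subgroup (frattini P)
    rw [card_univ, ← Nat.card_eq_fintype_card, ← Fintype.card_subtype, ← Nat.card_eq_fintype_card] at h3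
    have h8 := h3.trans (Nat.mul_le_mul_left _ h6)
    rw [sq, mul_left_comm, Nat.cast_id] at h8
    have h9 := Nat.le_of_mul_le_mul_left h8 Nat.card_pos
    rw [h7, mul_comm] at h9
    exact Nat.le_of_mul_le_mul_left h9 Nat.card_pos
  have ho : ∀ y : P, y * y = 1 → y ≠ 1 → orderOf y = 2 := fun y h h1 => orderOf_eq_prime (by rwa [sq]) h1
  refine ⟨key.trans ?_, key.trans (Nat.card_le_card_of_injective (fun c : T => (⟨c.2.choose, ?_⟩ :
    closure {y : P | orderOf y = 2})) fun c d e => Subtype.ext ?_)⟩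
  · rw [← Finite.card_option]
    refine Nat.card_le_card_of_injective (fun c : T => if h : c.2.choose = 1 then none else
      some ⟨c.1, _, c.2.choose_spec.1, ho _ c.2.choose_spec.2 h⟩) fun c d e => Subtype.ext ?_
    simp only at e
    split_ifs at e with h1 h2
    · rw [← c.2.choose_spec.1, ← d.2.choose_spec.1, h1, h2]
    · simpa using e
  · by_cases h : c.2.choose = 1
    exacts [by rw [h]; exact one_mem _, subset_closure (ho _ c.2.choose_spec.2 h)]
  · rw [← c.2.choose_spec.1, ← d.2.choose_spec.1]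
    exact congrArg _ (congrArg Subtype.val e)
end Cfsg.Agent.S4029
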