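import Cfsg.Statements.S4032
import Cfsg.Agent.Lib.Count.Basic
import Cfsg.Agent.Lib.SylTools.Basic
import Cfsg.Agent.Lib.Fgs.ClassSize

set_option autoImplicit false
open Cfsg

namespace Cfsg.Agent.S4032


/-- Let π be a set of primes and G a finite group in which N_G(⟨x⟩) = C_G(x) for every π-element x. If N is a normal subgroup of G whose order is divisible by no prime of π, then G/N has the same property: N_{G/N}(⟨y⟩) = C_{G/N}(y) for every π-element y of G/N. -/
theorem result {G : Type*} [Group G] [Finite G] (π : Set ℕ)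
    (hirr : ∀ x : G, (∀ r : ℕ, r.Prime → r ∣ orderOf x → r ∈ π) →
      Subgroup.normalizer ((Subgroup.zpowers x : Subgroup G) : Set G) ≤ Subgroup.centralizer {x})
    (N : Subgroup G) [N.Normal] (hN : ∀ r : ℕ, r.Prime → r ∣ Nat.card N → r ∉ π) :
    ∀ y : G ⧸ N, (∀ r : ℕ, r.Prime → r ∣ orderOf y → r ∈ π) →
      Subgroup.normalizer ((Subgroup.zpowers y : Subgroup (G ⧸ N)) : Set (G ⧸ N)) ≤ Subgroup.centralizer {y} := by
  have hnorm : ∀ {H : Type _} [Group H] [Finite H] (x g : H),
      g ∈ Subgroup.normalizer ((Subgroup.zpowers x : Subgroup H) : Set H) ↔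
        g * x * g⁻¹ ∈ Subgroup.zpowers x := by
    intro H _ _ x g
    constructor
    · intro hg
      exact (Subgroup.mem_normalizer_iff.mp hg x).mp (Subgroup.mem_zpowers x)
    · intro hg
      apply Subgroup.mem_normalizer_fintype
      rintro _ ⟨k, rfl⟩
      simp only
      rw [← conj_zpow]
      exact Subgroup.zpow_mem _ hg k
  -- the prime-power case
  have key : ∀ (y : G ⧸ N) (q k : ℕ), q.Prime → q ∈ π → orderOf y = q ^ k →
      ∀ g : G ⧸ N, g * y * g⁻¹ ∈ Subgroup.zpowers y → g * y = y * g := by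
    intro y q k hq hqπ hy g hg
    have := Fact.mk hq
    obtain ⟨g, rfl⟩ := QuotientGroup.mk'_surjective N g
    obtain ⟨x0, rfl⟩ := QuotientGroup.mk'_surjective N y
    obtain ⟨x, b, -, -, hxb, hc, ⟨j, hj⟩, hb⟩ := CfsgLib.Fgs.exists_p_part q x0
    have hb1 : QuotientGroup.mk' N b = 1 := by
      have h1 : QuotientGroup.mk' N b = (QuotientGroup.mk' N x)⁻¹ * QuotientGroup.mk' N x0 := by
        rw [← hxb, map_mul, inv_mul_cancel_left]
      have hc0 : Commute (QuotientGroup.mk' N x) (QuotientGroup.mk' N x0) := by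
        apply Commute.map
        rw [← hxb]
        exact (Commute.refl x).mul_right hc
      have h2 : (QuotientGroup.mk' N b) ^ q ^ (j + k) = 1 := by
        rw [h1, hc0.inv_left.mul_pow, inv_pow, ← map_pow, pow_add, pow_mul, ← hj,
          pow_orderOf_eq_one, one_pow, map_one, inv_one, one_mul, mul_comm, pow_mul, ← hy,
          pow_orderOf_eq_one, one_pow]
      apply orderOf_eq_one_iff.mp
      exact Nat.eq_one_of_dvd_coprimes
        (Nat.Coprime.pow_left _ ((Nat.Prime.coprime_iff_not_dvd hq).mpr hb))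
        (orderOf_dvd_of_pow_eq_one h2) (orderOf_map_dvd _ _)
    have hx : QuotientGroup.mk' N x0 = QuotientGroup.mk' N x := by
      rw [← hxb, map_mul, hb1, mul_one]
    rw [hx] at hy hg ⊢
    set K : Subgroup G := Subgroup.zpowers x ⊔ N with hK
    have hKc : K = (Subgroup.zpowers (QuotientGroup.mk' N x)).comap (QuotientGroup.mk' N) := by
      rw [← MonoidHom.map_zpowers, Subgroup.comap_map_eq, QuotientGroup.ker_mk']
    have hgx : g * x * g⁻¹ ∈ K := by
      rw [hKc]
      simpa using hg
    have hidx : ¬ q ∣ (Subgroup.zpowers x).relIndex K := by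
      intro hd
      apply hN q hq _ hqπ
      refine hd.trans ?_
      have e1 := CfsgLib.Core.card_mul_relIndex_of_le (le_sup_left : Subgroup.zpowers x ≤ K)
      have e2 := CfsgLib.Core.card_sup_dvd_of_normal (Subgroup.zpowers x) N
      rw [← hK, ← e1] at e2
      exact Nat.dvd_of_mul_dvd_mul_left Nat.card_pos e2
    have hA : IsPGroup q (Subgroup.zpowers (g * x * g⁻¹)) :=
      CfsgLib.Count.isPGroup_zpowers_of_orderOf (k := j)
        (by rw [← hj]; exact (MulAut.conj g).orderOf_eq x)
    obtain ⟨h, hh, hconj⟩ := CfsgLib.SylTools.exists_conj_le_of_not_dvd_relIndex hA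
      (Subgroup.zpowers_le.mpr hgx) (CfsgLib.Count.isPGroup_zpowers_of_orderOf hj) hidx
    have h1 : h * g ∈ Subgroup.normalizer ((Subgroup.zpowers x : Subgroup G) : Set G) := by
      rw [hnorm]
      have := hconj _ (Subgroup.mem_zpowers _)
      simpa [mul_assoc] using this
    have h2 := hirr x (fun r hr hd => by
      rw [hj] at hd
      rw [(Nat.prime_dvd_prime_iff_eq hr hq).mp (hr.dvd_of_dvd_pow hd)]
      exact hqπ) h1
    rw [Subgroup.mem_centralizer_singleton_iff] at h2
    have h3 : Commute (QuotientGroup.mk' N (h * g)) (QuotientGroup.mk' N x) := Commute.map h2 _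
    have h4 : Commute (QuotientGroup.mk' N h) (QuotientGroup.mk' N x) := by
      rw [hKc] at hh
      obtain ⟨n, hn⟩ := hh
      simp only at hn
      rw [← hn]
      exact (Commute.refl _).zpow_left n
    have h5 := h4.inv_left.mul_left h3
    rw [map_mul, inv_mul_cancel_left] at h5
    exact h5
  intro y hy g hg
  have h1 : Subgroup.zpowers y ≤ Subgroup.centralizer ({g} : Set (G ⧸ N)) := by
    apply CfsgLib.Count.le_of_primePow_mem
    rintro z hz q k hq hk
    rw [Subgroup.mem_centralizer_singleton_iff]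
    rcases Nat.eq_zero_or_pos k with rfl | hk0
    · rw [pow_zero, orderOf_eq_one_iff] at hk
      simp [hk]
    have hqπ : q ∈ π := by
      apply hy q hq
      exact ((dvd_pow_self q hk0.ne').trans hk.symm.dvd).trans (orderOf_dvd_of_mem_zpowers hz)
    refine (key z q k hq hqπ hk g ?_).symm
    obtain ⟨n, rfl⟩ := hz
    obtain ⟨m, hm⟩ := (hnorm y g).mp hg
    simp only at hm ⊢
    refine ⟨m, ?_⟩
    simp only
    rw [← conj_zpow, ← hm, ← zpow_mul, ← zpow_mul, mul_comm]
  have := h1 (Subgroup.mem_zpowers y)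
  rw [Subgroup.mem_centralizer_singleton_iff] at this ⊢
  exact this.symm

end Cfsg.Agent.S4032
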