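import Cfsg.Statements.S4036


set_option autoImplicit false
open Cfsg

namespace Cfsg.Agent.S4036


/-- Let P be a finite abelian p-group and K a group of automorphisms of P (a subgroup of Aut P) whose order is divisible by p. If all non-identity elements of K have the same fixed-point subgroup on P, then K has no non-trivial normal subgroup of order prime to p. -/
theorem result {P : Type*} [CommGroup P] [Finite P] {p : ℕ}
    [Fact p.Prime] (hP : IsPGroup p P) (K : Subgroup (MulAut P)) (hK : p ∣ Nat.card K)
    (hfix : ∀ x y : MulAut P, x ∈ K → y ∈ K → x ≠ 1 → y ≠ 1 → ∀ v : P, x v = v ↔ y v = v) :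
    ∀ N : Subgroup ↥K, N.Normal → ¬ p ∣ Nat.card N → N = ⊥ := by
  classical
  intro N hN hNp
  have hp : p.Prime := Fact.out
  have := Fintype.ofFinite N
  let f : P →* P := ∏ n : N, ((n : K) : MulAut P).toMonoidHom
  have hf : ∀ v, f v = ∏ n : N, ((n : K) : MulAut P) v := by
    intro v
    simp only [f, MonoidHom.finsetProd_apply]
    rfl
  obtain ⟨x, hx⟩ := exists_prime_orderOf_dvd_card' (G := K) p hK
  have hx1 : (x : MulAut P) ≠ 1 := by
    intro h
    have : x = 1 := Subtype.ext h
    rw [this, orderOf_one] at hx
    exact hp.one_lt.ne hx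
  -- the kernel of `f` is `K`-invariant
  have hinv : ∀ k : K, ∀ v, f v = 1 → f ((k : MulAut P) v) = 1 := by
    intro k v hv
    have e : f ((k : MulAut P) v) = (k : MulAut P) (f v) := by
      rw [hf, hf, map_prod]
      symm
      refine Fintype.prod_equiv (MulAut.conjNormal k : MulAut N).toEquiv _ _ ?_
      intro n
      change _ = ((k * n * k⁻¹ : K) : MulAut P) ((k : MulAut P) v)
      simp
    rw [e, hv, map_one]
  have hker : f.ker = ⊥ := by
    by_contra hne
    let act : MulAction (Subgroup.zpowers x) f.ker :=
      { smul := fun k v => ⟨((k : K) : MulAut P) v, hinv k v v.2⟩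
        one_smul := fun v => rfl
        mul_smul := fun a b v => rfl }
    have hz : IsPGroup p (Subgroup.zpowers x) :=
      IsPGroup.of_card (n := 1) (by rw [Nat.card_zpowers, hx, pow_one])
    have hd : p ∣ Nat.card f.ker := by
      rcases (hP.to_subgroup f.ker).card_eq_or_dvd with h | h
      · exact absurd (Subgroup.card_eq_one.mp h) hne
      · exact h
    have h1 : (1 : f.ker) ∈ MulAction.fixedPoints (Subgroup.zpowers x) f.ker := by
      intro k
      apply Subtype.ext
      exact map_one ((k : K) : MulAut P)
    obtain ⟨v, hv, hv1⟩ := hz.exists_fixed_point_of_prime_dvd_card_of_fixed_point f.ker hd h1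
    have hxv : (x : MulAut P) v = v :=
      congrArg Subtype.val (hv ⟨x, Subgroup.mem_zpowers x⟩)
    have hall : ∀ n : N, ((n : K) : MulAut P) v = v := by
      intro n
      by_cases hn : ((n : K) : MulAut P) = 1
      · rw [hn]; rfl
      · exact (hfix _ _ x.2 (n : K).2 hx1 hn v).mp hxv
    have h2 : (v : P) ^ Nat.card N = 1 := by
      have := v.2
      rw [MonoidHom.mem_ker, hf] at this
      simp only [hall] at this
      rw [Finset.prod_const, Finset.card_univ, ← Nat.card_eq_fintype_card] at this
      exact this
    have h3 : orderOf (v : P) = 1 := Nat.Coprime.eq_one_of_dvd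
      (hP.orderOf_coprime ((Nat.Prime.coprime_iff_not_dvd hp).mpr hNp) _)
      (orderOf_dvd_of_pow_eq_one h2)
    exact hv1 (Subtype.ext (orderOf_eq_one_iff.mp h3).symm)
  have hinj : Function.Injective f := (MonoidHom.ker_eq_bot_iff f).mp hker
  rw [eq_bot_iff]
  intro n hn
  rw [Subgroup.mem_bot]
  apply Subtype.ext
  ext v
  apply hinj
  change f ((n : MulAut P) v) = f v
  rw [hf, hf]
  refine Fintype.prod_equiv (Equiv.mulRight (⟨n, hn⟩ : N)) _ _ ?_
  intro m
  rfl

end Cfsg.Agent.S4036
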