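import Cfsg.Statements.S4040
import Mathlib
import Cfsg.Agent.Lib.Solv.InvDeskins

set_option autoImplicit false
open Cfsg

namespace Cfsg.Agent.S4040


/-- A finite group possessing a maximal subgroup that is nilpotent of odd order is solvable. -/
theorem result {G : Type*} [Group G] [Finite G]
    (M : Subgroup G) (hmax : IsCoatom M) (hnil : Group.IsNilpotent M) (hodd : Odd (Nat.card M)) :
    Group.IsSolvable G := by
  refine CfsgLib.Solv.janko_deskins hmax hnil fun S => ?_
  have h : (S : Subgroup M) = ⊥ := by
    by_contra h
    exact (Nat.not_even_iff_odd.2 hodd) (even_iff_two_dvd.2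
      ((CfsgLib.Core.dvd_card_of_isPGroup_of_ne_bot S.isPGroup' h).trans
        (Subgroup.card_subgroup_dvd_card _)))
  have : Subsingleton (S : Subgroup M) := by rw [h]; infer_instance
  rw [Group.nilpotencyClass_zero_iff_subsingleton.2 this]
  exact Nat.zero_le _

end Cfsg.Agent.S4040
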