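import Cfsg.Statements.S4043
import Cfsg.Agent.Lib.Core.Basic
import Cfsg.Agent.Lib.Coprime.Action
import Cfsg.Agent.Lib.Transfer.NormalComplement

set_option autoImplicit false
open Cfsg

namespace Cfsg.Agent.S4043

open scoped Pointwise

/-- Let G be a finite group that is the semidirect product of a normal p-subgroup N by a subgroup A, and also of N by a subgroup A₁, where p is a prime and A and A₁ both have normal p-complements. If C_N(A) = C_N(A₁) = 1, then A₁ is conjugate to A by an element of N. -/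
theorem result {G : Type*} [Group G] [Finite G] {p : ℕ}
    [Fact p.Prime] (N : Subgroup G) [N.Normal] (hN : IsPGroup p N) (A A₁ : Subgroup G)
    (hA : A.IsComplement' N) (hA₁ : A₁.IsComplement' N)
    (hAp : Cfsg.HasNormalPComplement p A) (hA₁p : Cfsg.HasNormalPComplement p A₁)
    (hC : ∀ n : G, n ∈ N → (∀ a : G, a ∈ A → a * n * a⁻¹ = n) → n = 1)
    (hC₁ : ∀ n : G, n ∈ N → (∀ a : G, a ∈ A₁ → a * n * a⁻¹ = n) → n = 1) :
    ∃ n : G, n ∈ N ∧ A₁ = A.map (MulAut.conj n).toMonoidHom := by
  have hp : p.Prime := Fact.out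
  obtain ⟨K0, hK0n, hK0c, hK0p⟩ := CfsgLib.Transfer.hasNormalPComplement_iff_exists_normal.mp hAp
  obtain ⟨L0, hL0n, hL0c, hL0p⟩ := CfsgLib.Transfer.hasNormalPComplement_iff_exists_normal.mp hA₁p
  set K := K0.map A.subtype with hK
  set L := L0.map A₁.subtype with hL
  have hKc : (Nat.card K).Coprime p := by rwa [CfsgLib.Core.card_map_subtype]
  have hLc : (Nat.card L).Coprime p := by rwa [CfsgLib.Core.card_map_subtype]
  obtain ⟨k, hk⟩ := hN.exists_card_eq
  obtain ⟨a, ha⟩ := hK0p.exists_card_eq
  obtain ⟨b, hb⟩ := hL0p.exists_card_eq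
  have hAA : Nat.card A = Nat.card A₁ := by rw [← hA.index_eq_card, ← hA₁.index_eq_card]
  have hAK : A ≤ Subgroup.normalizer (K : Set G) := CfsgLib.Core.le_normalizer_map_subtype_of_normal K0
  have hAL : A₁ ≤ Subgroup.normalizer (L : Set G) :=
    CfsgLib.Core.le_normalizer_map_subtype_of_normal L0
  have hKL : Nat.card K = Nat.card L := by
    have e1 := K0.index_mul_card
    have e2 := L0.index_mul_card
    rw [Subgroup.index_eq_card, ha] at e1
    rw [Subgroup.index_eq_card, hb, ← hAA, ← e1] at e2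
    rw [CfsgLib.Core.card_map_subtype, CfsgLib.Core.card_map_subtype]
    apply Nat.dvd_antisymm
    · exact (hK0c.pow_right b).dvd_of_dvd_mul_left (e2 ▸ Dvd.intro_left _ rfl)
    · exact (hL0c.pow_right a).dvd_of_dvd_mul_left (e2.symm ▸ Dvd.intro_left _ rfl)
  -- `N K` is normal of `p`-power index
  have hNKn : (N ⊔ K).Normal := by
    rw [← Subgroup.normalizer_eq_top_iff, eq_top_iff, ← hA.sup_eq_top]
    refine sup_le ?_ (le_sup_left.trans Subgroup.le_normalizer)
    exact (le_inf Subgroup.le_normalizer_of_normal hAK).trans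
      (Subgroup.normalizer_inf_normalizer_le_normalizer_sup N K)
  have hdisj : N ⊓ K = ⊥ := CfsgLib.Core.inf_eq_bot_of_coprime_card (hk ▸ (hKc.pow_right k).symm)
  have hidx : (N ⊔ K).index = p ^ a := by
    have e1 := (N ⊔ K).card_mul_index
    have e2 := K0.index_mul_card
    rw [CfsgLib.Coprime.card_sup_of_le_normalizer Subgroup.le_normalizer_of_normal hdisj,
      ← hA.card_mul_card, ← e2, CfsgLib.Core.card_map_subtype, Subgroup.index_eq_card K0, ha] at e1
    have hpos : 0 < Nat.card N * Nat.card K0 := Nat.mul_pos Nat.card_pos Nat.card_pos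
    apply Nat.eq_of_mul_eq_mul_left hpos
    rw [e1]; ring
  have hLNK : L ≤ N ⊔ K := CfsgLib.Coprime.le_of_coprime_index (hidx ▸ hLc.pow_right a)
  obtain ⟨n, hn, hnL⟩ := CfsgLib.Coprime.exists_conj_smul_eq_of_le_sup (K := N) (A := L) (S := K)
    Subgroup.le_normalizer_of_normal hLNK (hk ▸ hLc.pow_right k)
    (Or.inr (CfsgLib.Coprime.isSolvable_of_isPGroup hN)) hKL.le
  -- `C_N(K) = 1`
  have hCK : N ⊓ Subgroup.centralizer (K : Set G) = ⊥ := by
    by_contra hne
    set C := N ⊓ Subgroup.centralizer (K : Set G) with hCdef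
    have hAC : A ≤ Subgroup.normalizer (C : Set G) :=
      (le_inf Subgroup.le_normalizer_of_normal
        (hAK.trans (CfsgLib.Core.normalizer_le_normalizer_centralizer _))).trans
        Subgroup.inf_normalizer_le_normalizer_inf
    let S : Sylow p A := default
    let act : MulAction (S : Subgroup A) C :=
      MulAction.compHom C ((C.normalizerMonoidHom.comp (Subgroup.inclusion hAC)).comp
        (S : Subgroup A).subtype)
    have hd : p ∣ Nat.card C := by
      rcases (hN.to_le (inf_le_left : C ≤ N)).card_eq_or_dvd with h | h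
      · exact absurd (Subgroup.card_eq_one.mp h) hne
      · exact h
    have h1 : (1 : C) ∈ MulAction.fixedPoints (S : Subgroup A) C := fun s =>
      map_one (C.normalizerMonoidHom (Subgroup.inclusion hAC s))
    obtain ⟨v, hv, hv1⟩ := S.isPGroup'.exists_fixed_point_of_prime_dvd_card_of_fixed_point C hd h1
    apply hv1
    apply Subtype.ext
    symm
    apply hC v v.2.1
    have htop : K0 ⊔ (S : Subgroup A) = ⊤ := by
      apply CfsgLib.Core.sup_eq_top_of_coprime_index
      rw [Subgroup.index_eq_card, ha]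
      exact Nat.Coprime.pow_left _ ((Nat.Prime.coprime_iff_not_dvd hp).mpr S.not_dvd_index)
    have hle : (⊤ : Subgroup A) ≤ (Subgroup.centralizer ({(v : G)} : Set G)).subgroupOf A := by
      rw [← htop]
      refine sup_le (fun x hx => ?_) (fun x hx => ?_)
      · rw [Subgroup.mem_subgroupOf, Subgroup.mem_centralizer_singleton_iff]
        exact v.2.2 x ⟨x, hx, rfl⟩
      · rw [Subgroup.mem_subgroupOf, Subgroup.mem_centralizer_singleton_iff]
        have : (x : G) * v * (x : G)⁻¹ = v := congrArg Subtype.val (hv ⟨x, hx⟩)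
        exact mul_inv_eq_iff_eq_mul.mp this
    intro a ha
    have := hle (Subgroup.mem_top ⟨a, ha⟩)
    rw [Subgroup.mem_subgroupOf, Subgroup.mem_centralizer_singleton_iff] at this
    exact mul_inv_eq_iff_eq_mul.mpr this
  have hNK : Subgroup.normalizer (K : Set G) ≤ A := by
    intro g hg
    obtain ⟨⟨a, m⟩, rfl⟩ := (hA.existsUnique g).exists
    have hm : (m : G) ∈ Subgroup.normalizer (K : Set G) :=
      (Subgroup.mul_mem_cancel_left _ (hAK a.2)).mp hg
    have h1 : N ⊓ Subgroup.normalizer (K : Set G) ≤ Subgroup.centralizer (K : Set G) := by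
      apply CfsgLib.Core.le_centralizer_of_le_normalizer_of_disjoint inf_le_right
      · exact le_trans (le_inf Subgroup.le_normalizer_of_normal
          (Subgroup.le_normalizer.trans Subgroup.le_normalizer))
          Subgroup.inf_normalizer_le_normalizer_inf
      · exact disjoint_iff.mp ((disjoint_iff.mpr hdisj).mono_left inf_le_left)
    have h2 : (m : G) ∈ N ⊓ Subgroup.centralizer (K : Set G) := ⟨m.2, h1 ⟨m.2, hm⟩⟩
    rw [hCK, Subgroup.mem_bot] at h2
    simp only [h2, mul_one]
    exact a.2
  refine ⟨n⁻¹, N.inv_mem hn, ?_⟩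
  apply Subgroup.eq_of_le_of_card_ge
  · intro x hx
    rw [CfsgLib.Core.mem_map_conj_iff, inv_inv]
    apply hNK
    rw [← hnL, CfsgLib.Core.mem_normalizer_iff_conj_smul_eq, ← mul_smul, ← map_mul,
      show n * x * n⁻¹ * n = n * x by group, map_mul, mul_smul,
      CfsgLib.Core.mem_normalizer_iff_conj_smul_eq.mp (hAL hx)]
  · rw [CfsgLib.Core.card_map_conj, hAA]

end Cfsg.Agent.S4043
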