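import Cfsg.Statements.S4049
import Cfsg.Agent.Lib.Solv.MaxCent
import Cfsg.Agent.Lib.Core.Fitting

set_option autoImplicit false
open Cfsg

namespace Cfsg.Agent.S4049

open CfsgLib Subgroup
open scoped ComplexConjugate


/-- Let G be a finite group such that N_G(H)/C_G(H) has odd order for every nontrivial subgroup H of odd order. Then the Sylow 2-subgroups of G are normal. -/
theorem result {G : Type*} [Group G] [Finite G]
    (hhom : ∀ H : Subgroup G, H ≠ ⊥ → ¬ 2 ∣ Nat.card ↥H →
        ¬ 2 ∣ (Subgroup.centralizer (H : Set G)).relIndex (Subgroup.normalizer (H : Set G))) (P : Sylow 2 G) :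
    (P : Subgroup G).Normal := by
  by_cases h : 2 ∣ (Cfsg.pCore 2 G).index
  · obtain ⟨t, x, h1, h2, h3⟩ := Solv.exists_inverted_of_even_index_pCore h
    have h4 : t ∈ normalizer (zpowers x : Set G) := mem_normalizer_fintype fun y hy => by
      obtain ⟨k, rfl⟩ := mem_zpowers_iff.1 hy
      rw [← conj_zpow, h3]; exact zpow_mem (inv_mem (mem_zpowers x)) k
    have h5 := hhom (zpowers x) (by simpa using h1) (by rw [Nat.card_zpowers]; exact h2.not_two_dvd_nat)
    have h6 := ((centralizer (zpowers x : Set G)).subgroupOf (normalizer (zpowers x : Set G))).pow_index_mem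
      ⟨t, h4⟩
    obtain ⟨m, hm⟩ := Nat.odd_iff.2 (Nat.two_dvd_ne_zero.1 h5)
    rw [relIndex] at hm
    rw [hm, mem_subgroupOf] at h6
    have h7 : Commute (t ^ 2) x := by
      rw [Commute, SemiconjBy, ← mul_inv_eq_iff_eq_mul,
        show t ^ 2 * x * (t ^ 2)⁻¹ = t * (t * x * t⁻¹) * t⁻¹ by simp [sq, mul_assoc], h3, ← conj_inv, h3, inv_inv]
    have h8 : Commute x (t ^ (2 * m + 1)) := h6 x (mem_zpowers x)
    rw [pow_succ, pow_mul] at h8
    have h9 : Commute x t := by simpa using (h7.symm.pow_right m).inv_right.mul_right h8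
    rw [← h9.eq, mul_inv_cancel_right, eq_inv_iff_mul_eq_one, ← sq] at h3
    exact absurd (orderOf_eq_one_iff.1 (Nat.Coprime.eq_one_of_dvd
      (Nat.coprime_two_right.2 h2) (orderOf_dvd_of_pow_eq_one h3))) h1
  · rw [Core.sylow_normal_of_not_dvd_index_pCore h P]; infer_instance

end Cfsg.Agent.S4049
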