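import Cfsg.Statements.S4050
import Cfsg.Agent.Lib.Count.PiClosed

set_option autoImplicit false
open Cfsg

namespace Cfsg.Agent.S4050

open CfsgLib.Count


/-- Let π be a set of primes and G a finite group. The π-elements of G (elements whose order is divisible only by primes of π) form a subgroup if and only if G is π-separable (it has a chain of normal subgroups from 1 to G with each successive index divisible only by primes in π or only by primes outside π) and N_G(H)/C_G(H) is a π'-group for every nontrivial π'-subgroup H of G. -/
theorem result {G : Type*} [Group G] [Finite G] (π : Set ℕ)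
    (hπ : ∀ p ∈ π, p.Prime) :
    (∃ K : Subgroup G, ∀ x : G, x ∈ K ↔ ∀ p : ℕ, p.Prime → p ∣ orderOf x → p ∈ π) ↔
    ((∃ (n : ℕ) (H : Fin (n + 1) → Subgroup G), H 0 = ⊥ ∧ H (Fin.last n) = ⊤ ∧ Monotone H ∧ (∀ i, (H i).Normal) ∧
      ∀ i : Fin n, (∀ q : ℕ, q.Prime → q ∣ (H i.castSucc).relIndex (H i.succ) → q ∈ π) ∨
        (∀ q : ℕ, q.Prime → q ∣ (H i.castSucc).relIndex (H i.succ) → q ∉ π)) ∧
     (∀ H : Subgroup G, H ≠ ⊥ → (∀ p : ℕ, p.Prime → p ∣ Nat.card ↥H → p ∉ π) →
        ∀ p : ℕ, p.Prime → p ∣ (Subgroup.centralizer (H : Set G)).relIndex (Subgroup.normalizer (H : Set G)) → p ∉ π)) := by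
  constructor
  · rintro ⟨K, hK⟩
    have hc := normal_of_mem_iff_piNum hK
    have h1 : PiNum π (Nat.card K) := piNum_card_subgroup fun x hx => (hK x).mp hx
    have h2 : PiNum πᶜ K.index := piNum_index_of_mem_iff fun x hx => (hK x).mpr hx
    refine ⟨⟨2, ![⊥, K, ⊤], rfl, rfl, ?_, ?_, ?_⟩, ?_⟩
    · rw [Fin.monotone_iff_le_succ]
      intro i
      fin_cases i
      · exact bot_le
      · exact le_top
    · intro i
      fin_cases i
      · exact Subgroup.normal_bot
      · exact (inferInstance : K.Normal)
      · exact Subgroup.normal_top
    · intro i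
      fin_cases i
      · left
        change PiNum π ((⊥ : Subgroup G).relIndex K)
        rwa [Subgroup.relIndex_bot_left]
      · right
        change PiNum πᶜ (K.relIndex ⊤)
        rwa [Subgroup.relIndex_top_right]
    · intro H _ hH
      have hle : K ⊓ Subgroup.normalizer (H : Set G) ≤ Subgroup.centralizer (H : Set G) := by
        apply CfsgLib.Core.le_centralizer_of_le_normalizer_of_disjoint inf_le_right
        · exact le_trans (le_inf Subgroup.le_normalizer_of_normal
            (Subgroup.le_normalizer.trans Subgroup.le_normalizer))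
            Subgroup.inf_normalizer_le_normalizer_inf
        · exact disjoint_iff.mp
            ((Subgroup.disjoint_of_coprime_natCard (h1.coprime hH)).mono_left inf_le_left)
      have h3 := Subgroup.relIndex_dvd_of_le_left (Subgroup.normalizer (H : Set G)) hle
      rw [Subgroup.inf_relIndex_right] at h3
      exact h2.of_dvd (h3.trans (Subgroup.relIndex_dvd_index_of_normal _ _))
  · rintro ⟨⟨n, H, h0, hl, hmono, hnorm, hstep⟩, hhom⟩
    have hW := weakHom_of_hom hhom
    have key : ∀ i : Fin (n + 1), PiClosed π (H i) := by
      intro i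
      induction i using Fin.induction with
      | zero =>
        apply piClosed_of_piNum
        rw [h0, Subgroup.card_bot]
        intro p hp hd
        exact absurd (Nat.dvd_one.mp hd) hp.ne_one
      | succ i ih =>
        have := hnorm i.castSucc
        have hle : H i.castSucc ≤ H i.succ := hmono (Fin.castSucc_le_succ i)
        apply piClosed_extension (hW.subgroup _) ((H i.castSucc).subgroupOf (H i.succ))
        · exact ih.of_mulEquiv (Subgroup.subgroupOfEquivOfLe hle).symm
        · rcases hstep i with h | h
          · exact piClosed_of_piNum h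
          · exact piClosed_of_piNum_compl h
    have := key (Fin.last n)
    rw [hl] at this
    exact this.of_mulEquiv Subgroup.topEquiv

end Cfsg.Agent.S4050
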