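import Cfsg.Statements.S4056
import Cfsg.Agent.Lib.PGroup.Basic
import Cfsg.Agent.Lib.PGroup.Power

set_option autoImplicit false
open Cfsg

namespace Cfsg.Agent.S4056

open scoped commutatorElement


/-- In a finite 2-group of nilpotency class at most 2 and exponent dividing 4, the Frattini subgroup lies in the centre and is elementary abelian. -/
theorem result {P : Type*} [Group P] [Finite P] (hP : IsPGroup 2 P)
    (hcl : Group.nilpotencyClass P ≤ 2) (hexp : Monoid.exponent P ∣ 4) :
    frattini P ≤ Subgroup.center P ∧ Cfsg.IsElementaryAbelian 2 (frattini P) := by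
  have h2 : Fact (Nat.Prime 2) := ⟨Nat.prime_two⟩
  have hnil := hP.isNilpotent
  have hc : ⁅commutator P, (⊤ : Subgroup P)⁆ = ⊥ :=
    Subgroup.lowerCentralSeries_eq_bot_iff_nilpotencyClass_le.mpr hcl
  have h4 : ∀ x : P, x ^ 4 = 1 := fun x => Monoid.exponent_dvd_iff_forall_pow_eq_one.mp hexp x
  have hcomm : ∀ x y : P, ⁅y⁻¹, x⁻¹⁆ ^ 2 = 1 := by
    intro x y
    have h1 := CfsgLib.PGroup.mul_pow_class_two (CfsgLib.PGroup.mul_eq_mul_mul_commutator x y)
      (CfsgLib.PGroup.commute_of_class_two hc (CfsgLib.PGroup.commutator_inv_inv_mem x y) x)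
      (CfsgLib.PGroup.commute_of_class_two hc (CfsgLib.PGroup.commutator_inv_inv_mem x y) y) 4
    rw [h4, h4, h4, one_mul, one_mul, show Nat.choose 4 2 = 4 + 2 by rfl, pow_add, h4, one_mul] at h1
    exact h1.symm
  let N : Subgroup P :=
    { carrier := {z | z ∈ Subgroup.center P ∧ z ^ 2 = 1}
      one_mem' := ⟨Subgroup.one_mem _, one_pow _⟩
      mul_mem' := by
        rintro a b ⟨ha, ha'⟩ ⟨hb, hb'⟩
        refine ⟨Subgroup.mul_mem _ ha hb, ?_⟩
        have : Commute a b := Subgroup.mem_center_iff.mp hb a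
        rw [this.mul_pow, ha', hb', one_mul]
      inv_mem' := by
        rintro a ⟨ha, ha'⟩
        exact ⟨Subgroup.inv_mem _ ha, by rw [inv_pow, ha', inv_one]⟩ }
  have hle : frattini P ≤ N := by
    apply CfsgLib.PGroup.frattini_le_of_pow_mem (p := 2)
    · rw [commutator_def, Subgroup.commutator_le]
      intro a _ b _
      refine ⟨Subgroup.mem_center_iff.mpr fun g => (CfsgLib.PGroup.commute_of_class_two hc
        (Subgroup.commutator_mem_commutator (Subgroup.mem_top _) (Subgroup.mem_top _)) g).symm, ?_⟩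
      simpa using hcomm b⁻¹ a⁻¹
    · intro x
      refine ⟨Subgroup.mem_center_iff.mpr fun g => ?_, by rw [← pow_mul]; exact h4 x⟩
      have h1 := CfsgLib.PGroup.mul_pow_eq_of_comm (CfsgLib.PGroup.mul_eq_mul_mul_commutator x g)
        (CfsgLib.PGroup.commute_of_class_two hc (CfsgLib.PGroup.commutator_inv_inv_mem x g) x) 2
      rw [hcomm, mul_one] at h1
      exact h1
  refine ⟨fun z hz => (hle hz).1, ⟨⟨fun a b => Subtype.ext ?_⟩⟩, fun a ha => (hle ha).2⟩
  exact Subgroup.mem_center_iff.mp (hle b.2).1 a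

end Cfsg.Agent.S4056
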