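import Cfsg.Statements.S4057
import Cfsg.Agent.Lib.InvChar.AutElem
import Cfsg.Agent.Lib.PGroup.Huppert
import Cfsg.Agent.Lib.PGroup.Omega
import Cfsg.Agent.Lib.Core.Frattini

set_option autoImplicit false
open Cfsg

namespace Cfsg.Agent.S4057

open Module
open scoped commutatorElement

section
variable {P : Type*} [Group P] [Finite P] {p : ℕ} [hp : Fact p.Prime]

/-- The bound for modules of dimension `n`. -/
def Bd (P : Type*) [Group P] (p n : ℕ) [Fact p.Prime] : Prop :=
  ∀ (V : Type) [AddCommGroup V] [Module (ZMod p) V] [FiniteDimensional (ZMod p) V],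
    finrank (ZMod p) V = n → ∀ (ρ : Representation (ZMod p) P V) (F : Subgroup P),
    commutator P ≤ F → MonoidHom.ker ρ ≤ F → ∀ U U' : Submodule (ZMod p) V, U ≤ U' →
    (∀ g : P, ∀ v ∈ U', ρ g v - v ∈ U) → ∀ b : ℕ, b + finrank (ZMod p) U ≤ finrank (ZMod p) U' →
    ∃ x, b ≤ x ∧ x ≤ n ∧ F.index ≤ p ^ (x * (n - x))

omit [Finite P] in
theorem exists_fun (hP : IsPGroup p P) {V : Type} [AddCommGroup V] [Module (ZMod p) V]
    [FiniteDimensional (ZMod p) V] (ρ : Representation (ZMod p) P V) (U' : Submodule (ZMod p) V)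
    (hU : ∀ g : P, ∀ v ∈ U', ρ g v ∈ U') (hne : U' ≠ ⊤) :
    ∃ l : Module.Dual (ZMod p) V, l ≠ 0 ∧ (∀ v ∈ U', l v = 0) ∧ ∀ g v, l (ρ g v) = l v := by
  let W := U'.dualAnnihilator
  let τ : Representation (ZMod p) P W := ρ.dual.subrepresentation W (fun g l hl => by
    rw [Submodule.mem_comap, Submodule.mem_dualAnnihilator]
    intro w hw
    exact (Submodule.mem_dualAnnihilator _).mp hl _ (hU g⁻¹ w hw))
  let _ : MulAction P W :=
    { smul := fun g w => τ g w
      one_smul := fun w => by change τ 1 w = w; simp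
      mul_smul := fun g h w => by change τ (g * h) w = τ g (τ h w); simp }
  have : Finite W := Module.finite_of_finite (ZMod p)
  have h1 : finrank (ZMod p) W ≠ 0 := by
    have h2 := Subspace.finrank_add_finrank_dualAnnihilator_eq U'
    have h3 := Submodule.finrank_lt hne
    change _ + finrank (ZMod p) W = _ at h2
    omega
  have hd : p ∣ Nat.card W := by
    rw [Module.natCard_eq_pow_finrank (K := ZMod p), Nat.card_zmod]
    exact dvd_pow_self p h1
  obtain ⟨l, hl, hl0⟩ := hP.exists_fixed_point_of_prime_dvd_card_of_fixed_point W hd (a := 0)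
    (fun g => map_zero (τ g))
  refine ⟨l, fun h => hl0 (Subtype.ext h).symm, (Submodule.mem_dualAnnihilator _).mp l.2, ?_⟩
  intro g v
  have h2 : τ g⁻¹ l = l := hl g⁻¹
  have h3 := congrArg (fun w : W => (w : Module.Dual (ZMod p) V) v) h2
  have h4 : ((τ g⁻¹ l : W) : Module.Dual (ZMod p) V) v = (l : Module.Dual (ZMod p) V) (ρ g⁻¹⁻¹ v) := rfl
  rw [inv_inv] at h4
  exact h4.symm.trans h3

theorem step (hP : IsPGroup p P) {n : ℕ} (ih : Bd P p n) (V : Type) [AddCommGroup V]
    [Module (ZMod p) V] [FiniteDimensional (ZMod p) V] (hV : finrank (ZMod p) V = n + 1)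
    (ρ : Representation (ZMod p) P V) (F : Subgroup P) (hF : commutator P ≤ F)
    (hk : MonoidHom.ker ρ ≤ F) (U U' : Submodule (ZMod p) V) (hUU : U ≤ U')
    (hU : ∀ g : P, ∀ v ∈ U', ρ g v - v ∈ U) (b : ℕ)
    (hb : b + finrank (ZMod p) U ≤ finrank (ZMod p) U') (hne : U' ≠ ⊤) :
    ∃ x, b ≤ x ∧ x ≤ n + 1 ∧ F.index ≤ p ^ (x * (n + 1 - x)) := by
  obtain ⟨l, hl0, hlU, hl⟩ := exists_fun hP ρ U' (fun g v hv => by
    have := U'.add_mem (hUU (hU g v hv)) hv
    simpa using this) hne
  let H := LinearMap.ker l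
  have hH : finrank (ZMod p) H = n := by
    have := Module.Dual.finrank_ker_add_one_of_ne_zero hl0
    change finrank (ZMod p) H + 1 = _ at this
    omega
  let σ : Representation (ZMod p) P H := ρ.subrepresentation H (fun g v hv => by
    rw [Submodule.mem_comap, LinearMap.mem_ker, hl]; exact hv)
  have hσ : ∀ g (v : H), ((σ g v : H) : V) = ρ g v := fun g v => rfl
  let K : Subgroup P := MonoidHom.ker σ
  have hK : ∀ g ∈ K, ∀ v ∈ H, ρ g v = v := by
    intro g hg v hv
    have h1 : σ g = 1 := hg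
    rw [← hσ g ⟨v, hv⟩, h1]; rfl
  obtain ⟨v0, hv0⟩ : ∃ v0, l v0 ≠ 0 := by
    by_contra h
    push Not at h
    exact hl0 (LinearMap.ext h)
  have hmem : ∀ g v, ρ g v - v ∈ H := fun g v => by
    rw [LinearMap.mem_ker, map_sub, hl, sub_self]
  let δ : K →* Multiplicative H := MonoidHom.mk' (fun k => Multiplicative.ofAdd ⟨ρ k v0 - v0, hmem _ _⟩)
    (by
      intro a b
      rw [← ofAdd_add]
      congr 1
      apply Subtype.ext
      have h1 := hK a a.2 _ (hmem b v0)
      rw [map_sub] at h1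
      simp only [Subgroup.coe_mul, map_mul, Module.End.mul_apply, Submodule.coe_add]
      rw [← h1]; abel)
  have hδ : ∀ k : K, (((δ k).toAdd : H) : V) = ρ k v0 - v0 := fun k => rfl
  have hker : δ.ker ≤ F.subgroupOf K := by
    intro k hk'
    apply hk
    have h1 : ρ k v0 = v0 := by
      have := hδ k
      rw [MonoidHom.mem_ker.mp hk'] at this
      exact sub_eq_zero.mp this.symm
    rw [MonoidHom.mem_ker]
    ext v
    have h2 : v - (l v / l v0) • v0 ∈ H := by
      rw [LinearMap.mem_ker, map_sub, map_smul, smul_eq_mul, div_mul_cancel₀ _ hv0, sub_self]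
    have h3 := hK k k.2 _ h2
    rw [map_sub, map_smul] at h3
    change ρ k v - (l v / l v0) • ρ k v0 = _ at h3
    rw [h1, sub_left_inj] at h3
    exact h3
  let X : Submodule (ZMod p) H := AddSubgroup.toZModSubmodule p (Subgroup.toAddSubgroup' δ.range)
  let X1 : Submodule (ZMod p) H :=
    AddSubgroup.toZModSubmodule p (Subgroup.toAddSubgroup' ((F.subgroupOf K).map δ))
  have hX : ∀ x : H, x ∈ X ↔ Multiplicative.ofAdd x ∈ δ.range := fun x => Iff.rfl
  have hX1 : ∀ x : H, x ∈ X1 ↔ Multiplicative.ofAdd x ∈ (F.subgroupOf K).map δ := fun x => Iff.rfl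
  have hcX : Nat.card X = Nat.card δ.range := rfl
  have hcX1 : Nat.card X1 = Nat.card ((F.subgroupOf K).map δ) := rfl
  obtain ⟨b', hb'⟩ := (hP.to_subgroup K).index (F.subgroupOf K)
  have hfin : Finite H := Module.finite_of_finite (ZMod p)
  have hb2 : b' + finrank (ZMod p) X1 ≤ finrank (ZMod p) X := by
    have h1 := Subgroup.index_comap ((F.subgroupOf K).map δ) δ
    rw [Subgroup.comap_map_eq_self hker, hb'] at h1
    have h2 := Subgroup.card_mul_index (((F.subgroupOf K).map δ).subgroupOf δ.range)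
    rw [CfsgLib.Core.card_subgroupOf_of_le (Subgroup.map_le_range _ _), ← hcX, ← hcX1,
      Module.natCard_eq_pow_finrank (K := ZMod p) (V := X1),
      Module.natCard_eq_pow_finrank (K := ZMod p) (V := X), Nat.card_zmod] at h2
    change _ * Subgroup.relIndex _ _ = _ at h2
    rw [← h1, ← pow_add] at h2
    have := Nat.pow_right_injective hp.out.two_le h2
    omega
  have hXt : ∀ g : P, ∀ x ∈ X, σ g x - x ∈ X1 := by
    intro g x hx
    obtain ⟨k, hk'⟩ := (hX x).mp hx
    have hkn : K.Normal := inferInstance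
    have hc : ⁅g, (k : P)⁆ ∈ K := K.mul_mem (hkn.conj_mem _ k.2 g) (K.inv_mem k.2)
    refine (hX1 _).mpr ⟨⟨_, hc⟩, hF (Subgroup.commutator_mem_commutator trivial trivial), ?_⟩
    apply Multiplicative.toAdd.injective
    apply Subtype.ext
    have h1 : (x : V) = ρ k v0 - v0 := by rw [← hδ, hk']; rfl
    rw [hδ]
    change ρ (g * k * g⁻¹ * (k : P)⁻¹) v0 - v0 = ρ g x - x
    have h3 := hK _ (hkn.conj_mem _ k.2 g) _ (hmem (k : P)⁻¹ v0)
    have h4 := hK _ k.2 _ (hmem g⁻¹ v0)
    have h5 := hK _ k.2 _ (hmem (k : P)⁻¹ v0)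
    have e1 : ∀ a : P, ∀ v, ρ a (ρ a⁻¹ v) = v := fun a v => by
      rw [← Module.End.mul_apply, ← map_mul, mul_inv_cancel, map_one]; rfl
    rw [h1]
    simp only [map_mul, Module.End.mul_apply, map_sub, e1] at h3 h4 h5 ⊢
    have h6 := congrArg (ρ g) h4
    simp only [map_sub, e1] at h6
    linear_combination (norm := abel) h3 + h6 - h5
  have hU'H : U' ≤ H := fun v hv => hlU v hv
  have hFn : F.Normal := Subgroup.Normal.of_commutator_le _ hF
  have key : ∀ (Y Y' : Submodule (ZMod p) H), Y ≤ Y' → (∀ g : P, ∀ v ∈ Y', σ g v - v ∈ Y) →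
      ∀ c, b ≤ c → b' ≤ c → c + finrank (ZMod p) Y ≤ finrank (ZMod p) Y' →
      ∃ x, b ≤ x ∧ x ≤ n + 1 ∧ F.index ≤ p ^ (x * (n + 1 - x)) := by
    intro Y Y' hY ht c hc hc' hcY
    obtain ⟨x, hx1, hx2, hx3⟩ := ih H hH σ (F ⊔ K) (hF.trans le_sup_left) le_sup_right Y Y' hY ht c hcY
    refine ⟨x, hc.trans hx1, by omega, ?_⟩
    have h4 := Subgroup.relIndex_mul_index (le_sup_left : F ≤ F ⊔ K)
    rw [Subgroup.relIndex_sup_left] at h4
    change (F.subgroupOf K).index * _ = _ at h4
    rw [← h4, hb', Nat.succ_sub hx2, Nat.mul_succ, pow_add, mul_comm]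
    exact Nat.mul_le_mul hx3 (Nat.pow_le_pow_right hp.out.pos (hc'.trans hx1))
  rcases le_total b b' with h | h
  · exact key X1 X (fun x hx => (hX x).mpr (Subgroup.map_le_range _ _ ((hX1 x).mp hx))) hXt b' h
      le_rfl hb2
  · refine key (U.comap H.subtype) (U'.comap H.subtype) (Submodule.comap_mono hUU)
      (fun g v hv => hU g v hv) b le_rfl h ?_
    rw [(Submodule.comapSubtypeEquivOfLe (hUU.trans hU'H)).finrank_eq,
      (Submodule.comapSubtypeEquivOfLe hU'H).finrank_eq]
    exact hb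

theorem pat (hP : IsPGroup p P) (n : ℕ) : Bd P p n := by
  have triv : ∀ (V : Type) [AddCommGroup V] [Module (ZMod p) V]
      (ρ : Representation (ZMod p) P V) (F : Subgroup P), MonoidHom.ker ρ ≤ F →
      (∀ g v, ρ g v = v) → ∀ m, F.index ≤ p ^ m := by
    intro V _ _ ρ F hk h m
    have : F = ⊤ := eq_top_iff.mpr fun g _ => hk (LinearMap.ext (h g))
    rw [this, Subgroup.index_top]
    exact Nat.one_le_pow _ _ hp.out.pos
  induction n with
  | zero =>
    intro V _ _ _ hV ρ F hF hk U U' hUU hU b hb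
    have := Submodule.finrank_le U'
    have : Subsingleton V := Module.finrank_zero_iff.mp hV
    exact ⟨0, by omega, le_rfl, triv V ρ F hk (fun g v => Subsingleton.elim _ _) _⟩
  | succ n ih =>
    intro V _ _ _ hV ρ F hF hk U U' hUU hU b hb
    by_cases h1 : U' = ⊤
    swap
    · exact step hP ih V hV ρ F hF hk U U' hUU hU b hb h1
    by_cases h2 : U = ⊥
    · have := Submodule.finrank_le U'
      refine ⟨n + 1, by omega, le_rfl, triv V ρ F hk (fun g v => ?_) _⟩
      have := hU g v (h1 ▸ trivial)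
      rwa [h2, Submodule.mem_bot, sub_eq_zero] at this
    refine step hP ih (Module.Dual (ZMod p) V) (by rw [Subspace.dual_finrank_eq, hV]) ρ.dual F hF ?_
      U'.dualAnnihilator U.dualAnnihilator (Submodule.dualAnnihilator_anti hUU) ?_ b ?_ ?_
    · intro g hg
      rw [← F.inv_mem_iff]
      apply hk
      rw [MonoidHom.mem_ker]
      ext v
      rw [← sub_eq_zero, ← Module.forall_dual_apply_eq_zero_iff (ZMod p)]
      intro l
      have h3 : ρ.dual g l = l := by rw [MonoidHom.mem_ker.mp hg]; rfl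
      have h4 : l (ρ g⁻¹ v) = l v := congrArg (fun l' : Module.Dual (ZMod p) V => l' v) h3
      rw [map_sub, h4]; simp
    · intro g l hl
      rw [Submodule.mem_dualAnnihilator] at hl ⊢
      intro w hw
      have h3 := hl _ (hU g⁻¹ w hw)
      rw [map_sub] at h3
      exact h3
    · have h3 := Subspace.finrank_add_finrank_dualAnnihilator_eq U
      have h4 := Subspace.finrank_add_finrank_dualAnnihilator_eq U'
      omega
    · rwa [Ne, Submodule.dualAnnihilator_eq_top_iff]

end

/-- Let p be an odd prime and P a finite p-group in which every normal abelian subgroup can be generated by k elements. Then every subgroup of P can be generated by at most ⌊k(k+4)/4⌋ elements. -/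
theorem result {P : Type*} [Group P] [Finite P] {p : ℕ} [Fact p.Prime]
    (hp : p ≠ 2) (hP : IsPGroup p P) (k : ℕ)
    (hab : ∀ A : Subgroup P, A.Normal → IsMulCommutative A → ∃ S : Finset P, S.card ≤ k ∧ Subgroup.closure (S : Set P) = A) :
    ∀ H : Subgroup P, ∃ S : Finset P, S.card ≤ k * (k + 4) / 4 ∧ Subgroup.closure (S : Set P) = H := by
  intro H
  have hpp : p.Prime := Fact.out
  have : Group.IsNilpotent P := hP.isNilpotent
  obtain ⟨A, -, hAn, hA, hom⟩ := CfsgLib.PGroup.exists_normal_elementary_ge hpp hp (⊥ : Subgroup P)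
    ⟨inferInstance, fun a ha => by rw [Subgroup.mem_bot.mp ha, one_pow]⟩
  have hAk : Nat.card A ≤ p ^ k := by
    obtain ⟨S, hS, hSA⟩ := hab A hAn hA.1
    obtain ⟨a, ha⟩ := (hP.to_subgroup A).exists_card_eq
    have hAc := hA.1
    have hfr : frattini A = ⊥ := CfsgLib.Core.frattini_eq_bot_of_elementary hpp
      (fun x => Subtype.ext (hA.2 x x.2))
    classical
    have h1 := CfsgLib.Core.burnside_basis_le (hP.to_subgroup A) (n := a)
      (by rw [hfr, Subgroup.index_bot, ha]) (S.subtype (· ∈ A)) (by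
        apply Subgroup.map_injective A.subtype_injective
        rw [MonoidHom.map_closure, ← MonoidHom.range_eq_map, Subgroup.range_subtype]
        conv_rhs => rw [← hSA]
        congr 1
        ext x
        simp only [Set.mem_image, Finset.mem_coe, Finset.mem_subtype, Subgroup.coe_subtype]
        constructor
        · rintro ⟨y, hy, rfl⟩; exact hy
        · intro hx; exact ⟨⟨x, hSA ▸ Subgroup.subset_closure hx⟩, hx, rfl⟩)
    rw [ha]
    refine Nat.pow_le_pow_right hpp.pos (h1.trans (le_trans ?_ hS))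
    rw [Finset.card_subtype]; exact Finset.card_filter_le _ _
  have hAc := hA.1
  obtain ⟨f, hf⟩ := CfsgLib.InvChar.exists_mulAut_hom_GL (V := A) (p := p) (n := k)
    (fun x => Subtype.ext (hA.2 x x.2)) hAk
  let c : H →* MulAut A := (MulAut.conjNormal (H := A)).comp H.subtype
  let ρ : Representation (ZMod p) H (Fin k → ZMod p) :=
    (Matrix.toLinAlgEquiv' (R := ZMod p) (n := Fin k)).toMonoidHom.comp
      ((Units.coeHom _).comp (f.comp c))
  have hker : MonoidHom.ker ρ ≤ c.ker := by
    intro g hg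
    have h1 : Matrix.toLinAlgEquiv' ((f (c g) : GL (Fin k) (ZMod p)) : Matrix (Fin k) (Fin k) (ZMod p))
        = 1 := hg
    rw [map_eq_one_iff _ (Matrix.toLinAlgEquiv' (R := ZMod p) (n := Fin k)).injective,
      Units.val_eq_one, map_eq_one_iff _ hf] at h1
    exact h1
  have hH : IsPGroup p H := hP.to_subgroup H
  obtain ⟨x, -, hxk, hx⟩ := pat hH k (Fin k → ZMod p) (by simp) ρ (frattini H ⊔ c.ker)
    ((CfsgLib.Core.commutator_le_frattini_of_isPGroup hH).trans le_sup_left)
    (hker.trans le_sup_right) ⊥ ⊥ le_rfl (by simp) 0 (by simp)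
  have hcen : ∀ g : H, g ∈ c.ker → (g : P) ∈ Subgroup.centralizer (A : Set P) := by
    intro g hg a ha
    have h1 := congrArg (fun e : MulAut A => ((e ⟨a, ha⟩ : A) : P)) (MonoidHom.mem_ker.mp hg)
    have h2 : (g : P) * a * (g : P)⁻¹ = a := h1
    rw [mul_inv_eq_iff_eq_mul] at h2
    exact h2.symm
  have hD : (frattini H).relIndex c.ker ≤ p ^ k := by
    let ι : c.ker →* P := H.subtype.comp c.ker.subtype
    have hι : Function.Injective ι := H.subtype_injective.comp c.ker.subtype_injective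
    have h1 := CfsgLib.PGroup.index_mho_le_of_pcentral hp (hH.to_subgroup c.ker) (V := A.comap ι)
      (fun x => ⟨fun hx => hι (by rw [map_pow, map_one]; exact hA.2 _ hx),
        fun hx => hom _ (hcen _ x.2) (by
          have := congrArg ι hx
          rwa [map_pow, map_one] at this)⟩)
      (fun x hx => Subgroup.mem_center_iff.mpr fun y => hι (by
        rw [map_mul, map_mul]; exact (hcen _ y.2 _ hx).symm))
    have h2 : Nat.card (A.comap ι) ≤ Nat.card A :=
      Nat.card_le_card_of_injective (fun x => (⟨ι x, x.2⟩ : A))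
        (fun x y h => Subtype.ext (hι (congrArg (fun a : A => (a : P)) h)))
    have h3 : Cfsg.powerClosure p 1 (⊤ : Subgroup c.ker) ≤ (frattini H).subgroupOf c.ker :=
      CfsgLib.PGroup.mho_le_iff.mpr fun x _ =>
        CfsgLib.Core.pow_mem_frattini_of_isPGroup hH (x : H)
    exact (Nat.le_of_dvd (Nat.pos_of_ne_zero Subgroup.index_ne_zero_of_finite)
      (Subgroup.index_dvd_of_le h3)).trans (h1.trans (h2.trans hAk))
  obtain ⟨n, hn⟩ := hH.index (frattini H)
  have h4 := Subgroup.relIndex_mul_index (le_sup_left : frattini H ≤ frattini H ⊔ c.ker)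
  rw [Subgroup.relIndex_sup_left, hn] at h4
  have h5 : p ^ n ≤ p ^ (k + x * (k - x)) := by
    rw [← h4, pow_add]; exact Nat.mul_le_mul hD hx
  have h6 := (Nat.pow_le_pow_iff_right hpp.one_lt).mp h5
  classical
  have := Fintype.ofFinite H
  obtain ⟨T, -, hT, hTc⟩ := CfsgLib.Core.burnside_basis_exists hH hn Finset.univ (by simp)
  refine ⟨T.image H.subtype, Finset.card_image_le.trans ?_, ?_⟩
  · rw [hT, Nat.le_div_iff_mul_le (by norm_num)]
    obtain ⟨y, rfl⟩ := Nat.exists_eq_add_of_le hxk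
    rw [Nat.add_sub_cancel_left] at h6
    nlinarith [sq_nonneg ((x : ℤ) - y)]
  · rw [Finset.coe_image, ← MonoidHom.map_closure, hTc, ← MonoidHom.range_eq_map,
      Subgroup.range_subtype]

end Cfsg.Agent.S4057
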