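import Cfsg.Statements.S4058
import Cfsg.Agent.Lib.Char.Square
import Cfsg.Agent.Lib.Char.PermLemma
import Cfsg.Agent.Lib.Char.CommCount
import Cfsg.Agent.Lib.Core.Frattini

set_option autoImplicit false
open Cfsg

namespace Cfsg.Agent.S4058

open MulAction in
theorem dvd_sum_of_orbits {Λ X : Type*} [Group Λ] [MulAction Λ X] [Fintype X] (f : X → ℤ) (m : ℕ)
    (hf : ∀ (l : Λ) (x : X), f (l • x) = f x)
    (hm : ∀ x, (m : ℤ) ∣ (stabilizer Λ x).index * f x) : (m : ℤ) ∣ ∑ x, f x := by
  classical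
  rw [← ZMod.intCast_zmod_eq_zero_iff_dvd, Int.cast_sum]
  refine Finset.sum_cancels_of_partition_cancels (orbitRel Λ X) fun x _ => ?_
  rw [Finset.sum_congr rfl (g := fun _ => ((f x : ℤ) : ZMod m)) (fun y hy => by
    obtain ⟨l, rfl⟩ : y ∈ orbit Λ x := (Finset.mem_filter.mp hy).2
    rw [hf]), Finset.sum_const]
  have : (Finset.univ.filter fun a => orbitRel Λ X a x).card = (stabilizer Λ x).index := by
    rw [index_stabilizer, ← Set.ncard_coe_finset]
    congr 1
    ext y
    simp [orbitRel_apply]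
  rw [this, nsmul_eq_mul]
  have h := (ZMod.intCast_zmod_eq_zero_iff_dvd _ _).mpr (hm x)
  simpa using h

open CfsgLib.Char in
/-- Multiplication of irreducible characters by the linear characters of a quotient. -/
@[reducible] noncomputable def linAct {G A : Type*} [Group G] [Finite G] [Group A] (π : G →* A) :
    MulAction (A →* ℂˣ) (IrrCharacter G) where
  smul l χ := ⟨(χ : G → ℂ) * fun g => (l (π g) : ℂ), isIrr_mul_of_one_eq_one χ.2
    (isCharacter_of_isIrr (isIrr_unitsHom (l.comp π))) (by simp)⟩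
  one_smul χ := Subtype.ext (funext fun g => by
    change (χ : G → ℂ) g * _ = _
    simp)
  mul_smul l m χ := Subtype.ext (funext fun g => by
    change (χ : G → ℂ) g * _ = (χ : G → ℂ) g * _ * _
    simp only [MonoidHom.mul_apply, Units.val_mul]
    ring)

open CfsgLib.Char ComplexConjugate in
theorem card_stabilizer_le {G A : Type*} [Group G] [Finite G] [Group A] (π : G →* A)
    (hπ : Function.Surjective π) (χ : IrrCharacter G) {d : ℕ} (hd : (χ : G → ℂ) 1 = d) :
    letI := linAct π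
    Nat.card (MulAction.stabilizer (A →* ℂˣ) χ) ≤ d ^ 2 := by
  classical
  letI := linAct π
  have := Fintype.ofFinite G
  have hc := isCharacter_mul (irr_isCharacter χ) (isCharacter_conj (irr_isCharacter χ))
  obtain ⟨n, hn, hsum⟩ := exists_char_eq_sum_nat hc
  choose e he0 he using fun ψ : IrrCharacter G => exists_irr_one_eq_nat ψ.2
  have h1 : d ^ 2 = ∑ ψ, n ψ * e ψ := by
    have := congrFun hsum 1
    rw [Pi.mul_apply, hd] at this
    simp only [map_natCast, Finset.sum_apply, Pi.smul_apply, he, smul_eq_mul] at this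
    rw [sq]
    exact_mod_cast this
  let φ : MulAction.stabilizer (A →* ℂˣ) χ → IrrCharacter G := fun l =>
    ⟨fun g => (l.1 (π g) : ℂ), isIrr_unitsHom (l.1.comp π)⟩
  have hφ : Function.Injective φ := fun l m h => by
    refine Subtype.ext (MonoidHom.ext fun a => ?_)
    obtain ⟨g, rfl⟩ := hπ a
    exact Units.ext (congrFun (congrArg Subtype.val h) g)
  have hφn : ∀ l, 1 ≤ n (φ l) * e (φ l) := fun l => by
    have h2 : (χ : G → ℂ) * (φ l : G → ℂ) = χ := congrArg Subtype.val l.2
    have h3 := hn (φ l)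
    rw [classInner_mul_left] at h3
    simp only [Complex.conj_conj] at h3
    change classInner (χ : G → ℂ) ((χ : G → ℂ) * (φ l : G → ℂ)) = _ at h3
    rw [h2, classInner_irr_self χ.2] at h3
    have h4 : n (φ l) = 1 := by exact_mod_cast h3.symm
    rw [h4, one_mul]; exact he0 _
  have := Finite.of_injective φ hφ
  have := Fintype.ofFinite (MulAction.stabilizer (A →* ℂˣ) χ)
  rw [h1, Nat.card_eq_fintype_card, ← Finset.card_univ, Finset.card_eq_sum_ones]
  calc ∑ _l : MulAction.stabilizer (A →* ℂˣ) χ, 1 ≤ ∑ l, n (φ l) * e (φ l) :=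
        Finset.sum_le_sum fun l _ => hφn l
    _ = ∑ ψ ∈ Finset.univ.image φ, n ψ * e ψ :=
        (Finset.sum_image (f := fun ψ => n ψ * e ψ) fun a _ b _ h => hφ h).symm
    _ ≤ _ := Finset.sum_le_sum_of_subset (Finset.subset_univ _)

/-- Let G be a finite 2-group with #(G/Φ(G)) ≥ 2^(2k+1). Then the number of elements x of G with x² = 1 is divisible by 2^(k+1). -/
theorem result {G : Type*} [Group G] [Finite G] (hG : IsPGroup 2 G) (k : ℕ)
    (hgen : 2 ^ (2 * k + 1) ≤ Nat.card (G ⧸ frattini G)) :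
    2 ^ (k + 1) ∣ Nat.card {x : G // x ^ 2 = 1} := by
  open CfsgLib.Char in
  have := Fintype.ofFinite G
  have hcomm := CfsgLib.Core.isMulCommutative_quotient_frattini hG
  letI : CommGroup (G ⧸ frattini G) :=
    { (inferInstance : Group (G ⧸ frattini G)) with mul_comm := fun a b => mul_comm' a b }
  let π := QuotientGroup.mk' (frattini G)
  letI := linAct π
  have hΛ : Nat.card ((G ⧸ frattini G) →* ℂˣ) = Nat.card (G ⧸ frattini G) :=
    CommGroup.card_monoidHom_of_hasEnoughRootsOfUnity (G ⧸ frattini G) ℂ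
  obtain ⟨D, hD⟩ := (hG.to_quotient (frattini G)).exists_card_eq
  obtain ⟨N, hN⟩ := hG.exists_card_eq
  have hD' : 2 * k + 1 ≤ D := by
    rw [hD] at hgen
    exact (Nat.pow_le_pow_iff_right (by norm_num)).mp hgen
  choose e he0 he using fun ψ : IrrCharacter G => exists_irr_one_eq_nat ψ.2
  have hν : ∀ ψ : IrrCharacter G, ∃ z : ℤ, fsInd (ψ : G → ℂ) = z := fun ψ => by
    rcases fsInd_trichotomy ψ.2 with h | h | h
    · exact ⟨0, by simp [h]⟩
    · exact ⟨1, by simp [h]⟩
    · exact ⟨-1, by simp [h]⟩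
  choose ν hν using hν
  have hsum : (Nat.card {x : G // x ^ 2 = 1} : ℤ) = ∑ ψ, ν ψ * e ψ := by
    have h := card_sq_eq_one_eq_sum (G := G)
    simp only [← sq]  at h
    have h2 : ∀ ψ : IrrCharacter G, ((Nat.card G : ℂ)⁻¹ * ∑ s : G, (ψ : G → ℂ) (s ^ 2)) *
        (ψ : G → ℂ) 1 = ((ν ψ * e ψ : ℤ) : ℂ) := fun ψ => by
      rw [he, Int.cast_mul, ← hν, fsInd]
      simp only [sq, Int.cast_natCast]
    rw [Finset.sum_congr rfl fun ψ _ => h2 ψ] at h
    exact_mod_cast h
  rw [← Int.natCast_dvd_natCast, hsum]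
  refine dvd_sum_of_orbits (Λ := (G ⧸ frattini G) →* ℂˣ) _ _ (fun l χ => ?_) fun χ => ?_
  · have h1 : ∀ g, ((l • χ : IrrCharacter G) : G → ℂ) g = (χ : G → ℂ) g * (l (π g) : ℂ) :=
      fun g => rfl
    have h2 : e (l • χ) = e χ := by
      have := h1 1
      rw [he, he] at this
      simpa using this
    have h3 : ν (l • χ) = ν χ := by
      have : fsInd ((l • χ : IrrCharacter G) : G → ℂ) = fsInd (χ : G → ℂ) := by
        rw [fsInd, fsInd]
        congr 1
        refine Finset.sum_congr rfl fun s _ => ?_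
        rw [h1, ← sq, map_pow π, CfsgLib.Core.pow_eq_one_quotient_frattini hG]
        simp
      rw [hν, hν] at this
      exact_mod_cast this
    rw [h2, h3]
  · have h1 := card_stabilizer_le π (QuotientGroup.mk'_surjective _) χ (he χ)
    have h2 := (MulAction.stabilizer ((G ⧸ frattini G) →* ℂˣ) χ).card_mul_index
    rw [hΛ, hD] at h2
    obtain ⟨s, -, hs⟩ := (Nat.dvd_prime_pow Nat.prime_two).mp (Dvd.intro _ h2)
    obtain ⟨t, -, ht⟩ := (Nat.dvd_prime_pow Nat.prime_two).mp (Dvd.intro_left _ h2)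
    obtain ⟨u, -, hu⟩ := (Nat.dvd_prime_pow Nat.prime_two).mp
      (hN ▸ irr_degree_dvd_card χ.2 (he χ))
    rw [hs, ht, ← pow_add] at h2
    rw [hs, hu, ← pow_mul] at h1
    have h3 := Nat.pow_right_injective le_rfl h2
    have h4 := (Nat.pow_le_pow_iff_right (by norm_num)).mp h1
    rw [ht, hu, mul_left_comm]
    refine Dvd.dvd.mul_left ?_ _
    rw [← Nat.cast_mul, Int.natCast_dvd_natCast, ← pow_add]
    exact pow_dvd_pow 2 (by omega)

end Cfsg.Agent.S4058
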