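import Cfsg.Statements.S4065
import Cfsg.Agent.Lib.SL2.PSL

set_option autoImplicit false
open Cfsg

namespace Cfsg.Agent.S4065

open CfsgLib.SL2 CfsgLib.Char

/-- Let F be a finite field with 2ⁿ elements, n ≥ 2. In PSL₂(F) the centralizer of every element meets each of its conjugates by elements outside its normalizer trivially. -/
theorem result (n : ℕ) (hn : 2 ≤ n)
    (x : Matrix.ProjectiveSpecialLinearGroup (Fin 2) (GaloisField 2 n)) :
    Cfsg.IsTISubset (Subgroup.centralizer ({x} : Set (Matrix.ProjectiveSpecialLinearGroup (Fin 2) (GaloisField 2 n))) :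
      Set (Matrix.ProjectiveSpecialLinearGroup (Fin 2) (GaloisField 2 n))) := by
  have h0 : (2 : GaloisField 2 n) = 0 := CharTwo.two_eq_zero
  obtain ⟨c, rfl⟩ := pm_surjective x
  have hm : ∀ y, pm y ∈ Subgroup.centralizer ({pm c} : Set _) ↔
      y ∈ Subgroup.centralizer ({c} : Set _) := fun y => by
    rw [← comap_centralizer_pm_of_ne (Or.inl h0), Subgroup.mem_comap]
  intro g hg y hy hy'
  obtain ⟨g, rfl⟩ := pm_surjective g
  obtain ⟨y, rfl⟩ := pm_surjective y
  rw [pm_eq_one_iff]
  by_contra hs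
  apply hg
  rw [Subgroup.mem_set_normalizer_iff]
  intro k
  obtain ⟨k, rfl⟩ := pm_surjective k
  rw [← map_inv, ← map_mul, ← map_mul, SetLike.mem_coe, hm] at hy' ⊢
  rw [SetLike.mem_coe, hm] at hy ⊢
  by_cases hc : IsScal c
  · simp only [mem_centralizer_iff_conj, hc.conj]
  · rw [Subgroup.mem_centralizer_singleton_iff] at hy hy'
    conv_lhs => rw [← centralizer_eq_of_commute hc hs hy]
    rw [← centralizer_eq_of_commute hc (mt (isScal_conj_iff y g).1 hs) hy', centralizer_conj,
      Subgroup.mem_map_equiv, MulAut.conj_symm_apply]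
    simp [mul_assoc]

end Cfsg.Agent.S4065
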