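import Cfsg.Statements.S4066

set_option autoImplicit false
open Cfsg

namespace Cfsg.Agent.S4066

/-- Let G be a finite group in which the centralizer of every element meets each of its conjugates by elements outside its normalizer trivially. Then any two distinct Sylow p-subgroups of G, for any prime p, intersect trivially. -/
theorem result {G : Type*} [Group G] [Finite G] (hTI : ∀ x : G, Cfsg.IsTISubset (Subgroup.centralizer ({x} : Set G) : Set G))
    {p : ℕ} [Fact p.Prime] (P Q : Sylow p G) (hPQ : P ≠ Q) : (P : Subgroup G) ⊓ (Q : Subgroup G) = ⊥ := by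
  by_contra hne
  apply hPQ
  obtain ⟨⟨y, hy⟩, hy1⟩ := Subgroup.ne_bot_iff_exists_ne_one.1 hne
  have hyP : (y : G) ∈ (P : Subgroup G) := hy.1
  have hyQ : (y : G) ∈ (Q : Subgroup G) := hy.2
  have hy1' : (y : G) ≠ 1 := fun h => hy1 (Subtype.ext h)
  haveI : Nontrivial (P : Subgroup G) := ⟨⟨⟨y, hyP⟩, 1, fun h => hy1' (congrArg Subtype.val h)⟩⟩
  haveI := P.isPGroup'.center_nontrivial
  obtain ⟨z, hz1⟩ := exists_ne (1 : Subgroup.center (P : Subgroup G))
  set w : G := ((z : (P : Subgroup G)) : G) with hw
  have hw1 : w ≠ 1 := fun h => hz1 (Subtype.ext (Subtype.ext h))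
  have hPC : (P : Subgroup G) ≤ Subgroup.centralizer ({w} : Set G) := by
    intro x hx
    rw [Subgroup.mem_centralizer_singleton_iff]
    have := Subgroup.mem_center_iff.1 z.2 ⟨x, hx⟩
    exact congrArg Subtype.val this
  obtain ⟨g, hg⟩ := MulAction.exists_smul_eq G P Q
  have hmemQ : ∀ x : G, x ∈ (Q : Subgroup G) ↔ g⁻¹ * x * g ∈ (P : Subgroup G) := by
    intro x
    rw [← hg, Sylow.coe_subgroup_smul, Subgroup.mem_pointwise_smul_iff_inv_smul_mem]
    simp
  have hgN : g ∈ Subgroup.normalizer (Subgroup.centralizer ({w} : Set G) : Set G) := by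
    by_contra hgn
    have h1 := hTI w g hgn (g⁻¹ * y * g) (hPC ((hmemQ y).1 hyQ))
      (by simpa [mul_assoc] using hPC hyP)
    apply hy1'
    have : (y : G) = g * (g⁻¹ * y * g) * g⁻¹ := by group
    rw [this, h1]; group
  have hQC : (Q : Subgroup G) ≤ Subgroup.centralizer ({w} : Set G) := by
    intro x hx
    have h1 := hPC ((hmemQ x).1 hx)
    have h2 := (Subgroup.mem_normalizer_iff.1 hgN _).1 h1
    simpa [mul_assoc] using h2
  -- every element of C(w) commutes with its C(w)-conjugates
  have hcomm : ∀ x ∈ Subgroup.centralizer ({w} : Set G), ∀ c ∈ Subgroup.centralizer ({w} : Set G),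
      Commute (c * x * c⁻¹) x := by
    intro x hx c hc
    have hcN : c ∈ Subgroup.normalizer (Subgroup.centralizer ({x} : Set G) : Set G) := by
      by_contra hcn
      rw [Subgroup.mem_centralizer_singleton_iff] at hx hc
      refine hw1 (hTI x c hcn w ?_ ?_)
      · exact Subgroup.mem_centralizer_singleton_iff.2 hx.symm
      · have : c * w * c⁻¹ = w := by rw [hc]; group
        rw [this]
        exact Subgroup.mem_centralizer_singleton_iff.2 hx.symm
    have h1 : x ∈ Subgroup.centralizer ({x} : Set G) := Subgroup.mem_centralizer_singleton_iff.2 rfl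
    exact Subgroup.mem_centralizer_singleton_iff.1 ((Subgroup.mem_normalizer_iff.1 hcN _).1 h1)
  have hPQle : (P : Subgroup G) ≤ Q := by
    intro x hx
    let S : Set G := {u | ∃ c ∈ Subgroup.centralizer ({w} : Set G), u = c * x * c⁻¹}
    have hScomm : ∀ u ∈ S, ∀ v ∈ S, Commute u v := by
      rintro u ⟨c, hc, rfl⟩ v ⟨d, hd, rfl⟩
      have h1 := hcomm x (hPC hx) (d⁻¹ * c) (mul_mem (inv_mem hd) hc)
      have h2 := h1.map (MulAut.conj d)
      simp only [MulAut.conj_apply] at h2
      convert h2 using 1
      group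
    have hNcomm : ∀ u ∈ Subgroup.closure S, ∀ v ∈ Subgroup.closure S, Commute u v := by
      intro u hu v hv
      have := (Subgroup.isMulCommutative_closure (k := S) (fun a ha b hb => (hScomm a ha b hb).eq)).is_comm.comm ⟨u, hu⟩ ⟨v, hv⟩
      exact congrArg Subtype.val this
    have hNp : IsPGroup p (Subgroup.closure S) := by
      rintro ⟨u, hu⟩
      suffices ∃ k, u ^ p ^ k = 1 by
        obtain ⟨k, hk⟩ := this
        exact ⟨k, Subtype.ext hk⟩
      induction hu using Subgroup.closure_induction with
      | mem u hu =>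
        obtain ⟨c, -, rfl⟩ := hu
        obtain ⟨k, hk⟩ := P.isPGroup' ⟨x, hx⟩
        refine ⟨k, ?_⟩
        have hk' : x ^ p ^ k = 1 := congrArg Subtype.val hk
        rw [conj_pow, hk']; group
      | one => exact ⟨0, by simp⟩
      | mul a b ha hb iha ihb =>
        obtain ⟨k, hk⟩ := iha
        obtain ⟨l, hl⟩ := ihb
        refine ⟨k + l, ?_⟩
        rw [(hNcomm a ha b hb).mul_pow, pow_add, pow_mul, hk, one_pow, mul_comm, pow_mul, hl,
          one_pow, one_mul]
      | inv a ha iha =>
        obtain ⟨k, hk⟩ := iha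
        exact ⟨k, by rw [inv_pow, hk, inv_one]⟩
    have hQN : (Q : Subgroup G) ≤ Subgroup.normalizer (Subgroup.closure S : Set G) := by
      refine le_trans ?_ (Subgroup.normalizer_le_normalizer_closure S)
      intro q hq
      rw [Subgroup.mem_set_normalizer_iff]
      intro u
      constructor
      · rintro ⟨c, hc, rfl⟩
        exact ⟨q * c, mul_mem (hQC hq) hc, by group⟩
      · rintro ⟨c, hc, h⟩
        refine ⟨q⁻¹ * c, mul_mem (inv_mem (hQC hq)) hc, ?_⟩
        have : u = q⁻¹ * (q * u * q⁻¹) * q := by group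
        rw [this, h]; group
    have hsup := IsPGroup.to_sup_of_normal_right' Q.isPGroup' hNp hQN
    have heq := Q.is_maximal' hsup le_sup_left
    have hxS : x ∈ Subgroup.closure S := Subgroup.subset_closure ⟨1, one_mem _, by group⟩
    rw [← heq]
    exact Subgroup.mem_sup_right hxS
  exact Sylow.ext (P.is_maximal' Q.isPGroup' hPQle).symm

end Cfsg.Agent.S4066
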