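import Cfsg.Statements.S4071
import Cfsg.Agent.Lib.Transfer.NormalComplement
import Cfsg.Agent.Lib.Coprime.Abelian
import Cfsg.Agent.Lib.Frob.Semidirect
import Cfsg.Agent.Lib.Core.Frattini
import Cfsg.Agent.Lib.SolvStruct.Util

set_option autoImplicit false
open Cfsg

namespace Cfsg.Agent.S4071

open CfsgLib Subgroup in
open scoped commutatorElement in
/-- Let G be a finite solvable non-nilpotent group. Every non-abelian subgroup of G is self-normalizing if and only if G is a semidirect product ⟨x⟩ ⋉ A in which ⟨x⟩ is a p-group for some prime p, A is a normal abelian subgroup of order prime to p, x^p is central in G, and x acts fixed-point-freely on A (no non-identity element of A commutes with x). -/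
theorem result {G : Type*} [Group G] [Finite G]
    [Group.IsSolvable G] (hnn : ¬ Group.IsNilpotent G) :
    (∀ H : Subgroup G, ¬ IsMulCommutative H → Subgroup.normalizer (H : Set G) = H) ↔
    ∃ (x : G) (A : Subgroup G) (p : ℕ), p.Prime ∧ A.Normal ∧ IsMulCommutative A ∧ (∃ k : ℕ, orderOf x = p ^ k) ∧
      ¬ p ∣ Nat.card A ∧ (Subgroup.zpowers x).IsComplement' A ∧ x ^ p ∈ Subgroup.center G ∧
      ∀ a : G, a ∈ A → a ≠ 1 → x * a * x⁻¹ ≠ a := by
  refine ⟨fun h => ?_, ?_⟩
  · haveI : Nontrivial G := by_contra fun e => hnn (by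
      haveI := not_nontrivial_iff_subsingleton.1 e
      infer_instance)
    obtain ⟨M, hM, hle⟩ := Core.exists_isCoatom_ge (Group.IsSolvable.commutator_lt_top_of_nontrivial G).ne
    haveI : M.Normal := Normal.of_commutator_le G hle
    have hp := Core.index_prime_of_isCoatom_of_normal hM
    haveI : IsMulCommutative M := by_contra fun e => hM.1 ((h M e).symm.trans (normalizer_eq_top M))
    obtain ⟨p, hMp⟩ : ∃ p, M.index = p := ⟨_, rfl⟩
    haveI := Fact.mk (hMp ▸ hp)
    have hQ : IsPGroup p (G ⧸ M) := IsPGroup.of_card (n := 1) (hMp.trans (pow_one p).symm)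
    haveI := Core.isNilpotent_of_isMulCommutative (G := M)
    obtain ⟨A, _, h1, h2⟩ := Transfer.hasNormalPComplement_iff_exists_normal.1
      (Transfer.hasNormalPComplement_of_isPGroup_quotient hQ Transfer.hasNormalPComplement_of_isNilpotent)
    have hAM : A ≤ M := Core.le_of_coprime_card_index (hMp ▸ h1)
    haveI := Core.isMulCommutative_of_le hAM
    obtain ⟨P⟩ : Nonempty (Sylow p G) := inferInstance
    obtain ⟨x, hxP, hx⟩ := SetLike.not_le_iff_exists.1 fun e : (P : Subgroup G) ≤ M =>
      P.not_dvd_index (hMp.symm.dvd.trans (index_dvd_of_le e))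
    have hxp := P.isPGroup'.to_le (zpowers_le.2 hxP)
    have hco := Core.isPGroup_coprime_card hxp h1
    have top : ∀ K : Subgroup G, M ≤ K → x ∈ K → K = ⊤ := fun K h1 h2 => hM.2 K (lt_of_le_of_ne h1 fun e => hx (e ▸ h2))
    have hC : x ∉ centralizer (A : Set G) := fun e => hnn (by
      haveI := h2.isNilpotent
      exact Subgroup.isNilpotent_of_ker_le_center (QuotientGroup.mk' A) ((QuotientGroup.ker_mk' A).trans_le
        (centralizer_eq_top_iff_subset.1 (top _ (fun m hm a ha => setLike_mul_comm (hAM ha) hm) e))))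
    have hsup : zpowers x ⊔ A = ⊤ := by
      rw [← SolvStruct.comap_map_mk', MonoidHom.map_zpowers]
      haveI := h2.isNilpotent
      by_contra e
      obtain ⟨g, hg, hg'⟩ := SetLike.exists_of_lt (Core.lt_normalizer_of_isNilpotent
        (H := zpowers (QuotientGroup.mk' A x)) fun e' => e (by rw [e', comap_top]))
      obtain ⟨g, rfl⟩ := QuotientGroup.mk'_surjective A g
      exact hg' ((h ((zpowers (QuotientGroup.mk' A x)).comap (QuotientGroup.mk' A)) fun e => hC fun a ha =>
        Core.isMulCommutative_iff_forall.1 e a (SolvStruct.le_comap_mk' A _ ha) x (mem_zpowers _)).le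
        (le_normalizer_comap _ hg))
    obtain ⟨k, hk⟩ := hxp.exists_card_eq
    refine ⟨x, A, p, Fact.out, inferInstance, inferInstance, ⟨k, Nat.card_zpowers x ▸ hk⟩,
      (Nat.Prime.coprime_iff_not_dvd Fact.out).1 h1.symm, (SolvStruct.index_eq_card_of_inf_eq_bot_of_sup_eq_top
        (Core.inf_eq_bot_of_coprime_card hco.symm) ((sup_comm _ _).trans hsup)).symm,
      mem_center_iff.2 fun g => mem_centralizer_singleton_iff.1 ((top (centralizer {x ^ p}) (fun m hm =>
        mem_centralizer_singleton_iff.2 (setLike_mul_comm hm (hMp ▸ M.pow_index_mem x)))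
        (mem_centralizer_singleton_iff.2 (Commute.self_pow x p))).ge (mem_top g)), fun a ha a1 e => a1 ?_⟩
    rw [mul_inv_eq_iff_eq_mul] at e
    have hle := Coprime.commutator_le_of_le_normalizer (K := A) (A := zpowers x) le_normalizer_of_normal
    have hN := normalizer_commutator_ge_right A (zpowers x)
    have hax : a ∈ centralizer (zpowers x : Set G) := by
      rw [Core.centralizer_zpowers]
      exact mem_centralizer_singleton_iff.2 e.symm
    have h3 : a ∈ ⁅A, zpowers x⁆ ⊔ zpowers x := (h _ fun e => hC (le_centralizer_iff.1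
      (commutator_eq_bot_iff_le_centralizer.1 (Coprime.commutator_eq_bot_of_commutator_commutator_eq_bot
        le_normalizer_of_normal hco (commutator_eq_bot_iff_le_centralizer.2 fun u hu v hv =>
          setLike_mul_comm (mem_sup_right hv) (mem_sup_left hu)))) (mem_zpowers x))).le
      (Core.normalizer_inf_le_normalizer_sup _ _ ⟨centralizer_le_normalizer _ fun u hu => setLike_mul_comm (hle hu) ha,
        centralizer_le_normalizer _ hax⟩)
    have h4 := mem_inf.2 ⟨h3, ha⟩
    rw [Core.sup_inf_assoc_of_le_normalizer' hle hN, Core.inf_eq_bot_of_coprime_card hco, sup_bot_eq] at h4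
    exact mem_bot.1 (Coprime.centralizer_inf_commutator_eq_bot le_normalizer_of_normal hco ▸ mem_inf.2 ⟨hax, h4⟩)
  rintro ⟨x, A, p, hp, hA, _, ⟨k, hk⟩, -, hc, hz, hf⟩ H hH
  have dec : ∀ g : G, ∃ a ∈ A, ∃ i : ℕ, a * x ^ i = g := fun g => by
    obtain ⟨a, ha, y, hy, e⟩ := Frob.exists_mul_eq_of_isComplement' hc.symm g
    obtain ⟨i, rfl⟩ := (mem_powers_iff_mem_zpowers.2 hy)
    exact ⟨a, ha, i, e⟩
  obtain ⟨a, ha, i, hi, hh⟩ : ∃ a ∈ A, ∃ i : ℕ, ¬ p ∣ i ∧ a * x ^ i ∈ H := by
    by_contra! hn
    refine hH (Core.isMulCommutative_iff_forall.2 fun u hu v hv => ?_)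
    obtain ⟨a, ha, i, rfl⟩ := dec u
    obtain ⟨b, hb, j, rfl⟩ := dec v
    obtain ⟨i, rfl⟩ : p ∣ i := by_contra fun e => hn a ha i e hu
    obtain ⟨j, rfl⟩ : p ∣ j := by_contra fun e => hn b hb j e hv
    have c : ∀ (g : G) (n : ℕ), Commute g (x ^ (p * n)) := fun g n => pow_mul x p n ▸ mem_center_iff.1 (pow_mem hz n) g
    exact (Commute.mul_right (setLike_mul_comm ha hb) (c _ _)).mul_left (c _ _).symm
  obtain ⟨m, hm⟩ := exists_pow_eq_self_of_coprime (x := x) (hk ▸ ((hp.coprime_iff_not_dvd.2 hi).symm.pow_right k))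
  have hb : ∀ b ∈ A, b ∈ normalizer (H : Set G) → b ∈ H := fun b hb hN =>
    (Frob.mem_of_fpf_of_inv_mul_conj_mem (N := H ⊓ A) (a := a * x ^ i) inf_le_right
      (inf_normalizer_le_normalizer_inf ⟨le_normalizer hh, le_normalizer_of_normal (mem_top _)⟩)
      (Frob.fpf_iff.2 fun c hc e => by_contra fun c1 => hf c hc c1 (by
        rw [← mul_assoc, setLike_mul_comm hc ha, mul_assoc, mul_assoc, mul_right_inj] at e
        rw [← hm, ← ((show Commute c (x ^ i) from e).pow_right m).eq, mul_inv_cancel_right])) hb ⟨by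
          simpa [mul_assoc] using mul_mem ((mem_normalizer_iff''.1 hN _).1 hh) (inv_mem hh),
        A.mul_mem (inv_mem hb) (hA.conj_mem b hb _)⟩).1
  refine le_antisymm (fun g hg => ?_) le_normalizer
  have : g ∈ A ⊔ zpowers (a * x ^ i) := by
    obtain ⟨b, hb, j, rfl⟩ := dec g
    have := pow_mem ((mul_mem_cancel_left (mem_sup_left ha)).1 (mem_sup_right (S := A) (mem_zpowers (a * x ^ i)))) m
    rw [hm] at this
    exact mul_mem (mem_sup_left hb) (pow_mem this j)
  obtain ⟨b, hb', y, hy, rfl⟩ := mem_sup_of_normal_left.1 this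
  have hy := zpowers_le.2 hh hy
  exact mul_mem (hb b hb' ((mul_mem_cancel_right (le_normalizer hy)).1 hg)) hy

end Cfsg.Agent.S4071
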