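import Cfsg.Statements.S4072
import Cfsg.Agent.Lib.Fusion.SmallCenter
import Cfsg.Agent.Lib.Transfer.Focal
import Cfsg.Agent.Lib.Fgs.ClassSize
import Cfsg.Agent.Lib.Core.MinNormal
import Cfsg.Agent.Lib.Transfer.NormalComplement
import Cfsg.Agent.Lib.Core.Fitting
import Cfsg.Agent.Lib.InvChar.SylowBasic

set_option autoImplicit false
open Cfsg

namespace Cfsg.Agent.S4072

open Cfsg CfsgLib Subgroup
open scoped ComplexConjugate

section

attribute [local instance] Classical.propDecidable

theorem burn {G : Type*} [Group G] [Finite G] (hG : commutator G = ⊤) {p : ℕ} [Fact p.Prime] (P : Sylow p G)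
    (h1 : normalizer (P : Set G) ≤ (P : Subgroup G)) (h2 : ∀ a ∈ (P : Subgroup G), ∀ b ∈ (P : Subgroup G), a * b = b * a) :
    (P : Subgroup G) = ⊥ := by
  obtain ⟨N, _, h3, h4⟩ := Transfer.hasNormalPComplement_iff_exists_normal.1
    (Transfer.burnside_normal_complement P fun x hx y hy => h2 y hy x (h1 hx))
  have := h4.isNilpotent
  rcases subsingleton_or_nontrivial (G ⧸ N) with h | h
  · rw [QuotientGroup.subsingleton_iff.1 h, card_top] at h3
    obtain ⟨k, hk⟩ := IsPGroup.iff_card.1 P.isPGroup'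
    exact card_eq_one.1 (Nat.Coprime.eq_one_of_dvd (hk ▸ (h3.pow_right k).symm) (card_subgroup_dvd_card _))
  · have h5 := congrArg (map (QuotientGroup.mk' N)) hG
    rw [map_commutator_eq, QuotientGroup.range_mk', map_top_of_surjective _ (QuotientGroup.mk'_surjective N)] at h5
    exact absurd h5 (Group.IsSolvable.commutator_lt_top_of_nontrivial _).ne

end

/-- A finite group in which every non-abelian subgroup is self-normalizing is solvable or simple. -/
theorem result {G : Type*} [Group G] [Finite G] (hS : ∀ H : Subgroup G, ¬ IsMulCommutative H → Subgroup.normalizer (H : Set G) = H) :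
    Group.IsSolvable G ∨ IsSimpleGroup G := by
  rw [or_iff_not_imp_left]
  intro hs
  have hab : ∀ N : Subgroup G, N.Normal → N ≠ ⊤ → IsMulCommutative N := fun N hN h =>
    by_contra fun h0 => h ((hS N h0).symm.trans (normalizer_eq_top N))
  have hG : commutator G = ⊤ := by_contra fun h => hs (by
    have := Group.isSolvable_of_comm (hab _ inferInstance h).is_comm.comm
    exact Group.isSolvable_of_ker_le_range (commutator G).subtype (Abelianization.of (G := G)) (by simp))
  have : Nontrivial G := by_contra fun h => hs (by rw [not_nontrivial_iff_subsingleton] at h; infer_instance)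
  refine ⟨fun N₀ hN₀ => by_contra fun h0 => ?_⟩
  obtain ⟨N, ⟨hN, h1, h2⟩, hmax⟩ := (wellFounded_gt (α := Subgroup G)).has_min
    {N | N.Normal ∧ N₀ ≤ N ∧ N ≠ ⊤} ⟨N₀, hN₀, le_rfl, (not_or.1 h0).2⟩
  have h3 : N ≠ ⊥ := fun e => (not_or.1 h0).1 (le_bot_iff.1 (e ▸ h1))
  have hc := hab N hN h2
  have hπ := QuotientGroup.mk'_surjective N
  have hQ : commutator (G ⧸ N) = ⊤ := by
    have := congrArg (map (QuotientGroup.mk' N)) hG
    rwa [map_commutator_eq, QuotientGroup.range_mk', map_top_of_surjective _ hπ] at this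
  have hn : ∀ H : Subgroup (G ⧸ N), ¬ IsMulCommutative (H.comap (QuotientGroup.mk' N)) →
      normalizer (H : Set (G ⧸ N)) ≤ H := fun H h x hx => by
    obtain ⟨x, rfl⟩ := hπ x
    have := le_normalizer_comap (QuotientGroup.mk' N) hx
    rwa [hS _ h] at this
  by_cases h4 : centralizer (N : Set G) = ⊤
  · obtain ⟨p, hp, hd⟩ := Nat.exists_prime_and_dvd (mt card_eq_one.1 h3)
    have := Fact.mk hp
    obtain ⟨P⟩ : Nonempty (Sylow p G) := inferInstance
    have hZ : N ≤ center G := centralizer_eq_top_iff_subset.1 h4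
    have h5 := Transfer.inf_commutator_inf_center_le_of_hall P.card_coprime_index
    rw [hG, inf_top_eq] at h5
    have h6 : ¬ IsMulCommutative (P : Subgroup G) := fun h => by
      obtain ⟨z, hz⟩ := exists_prime_orderOf_dvd_card' p hd
      have h7 : (zpowers (z : G)).Normal := ⟨fun x hx g => by
        rwa [mem_center_iff.1 (zpowers_le.2 (hZ z.2) hx) g, mul_inv_cancel_right]⟩
      have h8 := h5 ⟨(IsPGroup.of_card (p := p) (n := 1) (by
        rw [Nat.card_zpowers, orderOf_coe, hz, pow_one])).le_sylow_of_normal P (mem_zpowers _), hZ z.2⟩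
      rw [commutator_eq_bot_iff_le_centralizer.2 (P : Subgroup G).le_centralizer, mem_bot] at h8
      exact hp.ne_one (by rw [← hz, ← orderOf_coe, h8, orderOf_one])
    have h7 : N ≤ P := hS _ h6 ▸ hZ.trans (center_le_normalizer _)
    have := P.isPGroup'.isNilpotent
    have h8 : ∀ a : P, ∃ M : Subgroup P, IsCoatom M ∧ a ∈ M ∧ ∀ x ∈ M, ∀ y ∈ M, x * y = y * x := fun a => by
      obtain ⟨M, hM, h⟩ := (eq_top_or_exists_le_coatom (zpowers a)).resolve_left fun e =>
        h6 (isCyclic_iff_exists_zpowers_eq_top.2 ⟨a, e⟩).isMulCommutative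
      refine ⟨M, hM, h (mem_zpowers a), fun x hx y hy => by_contra fun h9 => hM.1 (top_le_iff.1 ?_)⟩
      have := Core.normal_of_isCoatom_of_isNilpotent hM
      rw [← map_le_map_iff_of_injective (P : Subgroup G).subtype_injective,
        ← hS (M.map (P : Subgroup G).subtype) fun h => h9 (Subtype.ext
          (congrArg Subtype.val (h.is_comm.comm ⟨x, x, hx, rfl⟩ ⟨y, y, hy, rfl⟩) :))]
      exact (map_mono (normalizer_eq_top M).ge).trans (le_normalizer_map _)
    obtain ⟨M, hM, -, h9⟩ := h8 1
    obtain ⟨a, -, ha⟩ := SetLike.exists_of_lt hM.lt_top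
    obtain ⟨M', hM', ha', h10⟩ := h8 a
    have h11 := (Fusion.card_commutator_of_index_center_le P.isPGroup' h6 ((index_antitone (H := M ⊓ M')
      fun x hx => Fgs.cent_eq_top_iff.1 (top_le_iff.1 (hM.2 (M ⊔ M') (left_lt_sup.2 fun h => ha (h ha')) ▸ sup_le
        (fun y hy => mem_centralizer_singleton_iff.2 (h9 y hy x hx.1))
        (fun y hy => mem_centralizer_singleton_iff.2 (h10 y hy x hx.2))))).trans (index_inf_le.trans (by
          rw [Core.index_eq_of_isCoatom_of_isPGroup P.isPGroup' hM,
            Core.index_eq_of_isCoatom_of_isPGroup P.isPGroup' hM', sq])))).2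
    rw [← card_map_of_injective (P : Subgroup G).subtype_injective, map_subtype_commutator] at h11
    have h12 := (le_inf h7 hZ).trans h5
    have h13 := eq_of_le_of_card_ge h12 (h11.trans_le (Nat.le_of_dvd Nat.card_pos hd))
    have h14 := burn hQ (P.mapSurjective hπ) (hn _ (by
      rwa [Sylow.coe_mapSurjective, QuotientGroup.comap_map_mk', sup_eq_right.2 h7])) (by
        rintro _ ⟨x, hx, rfl⟩ _ ⟨y, hy, rfl⟩
        rw [← commutatorElement_eq_one_iff_mul_comm, ← map_commutatorElement]
        exact (QuotientGroup.eq_one_iff _).2 (h13 ▸ commutator_mem_commutator hx hy))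
    rw [Sylow.coe_mapSurjective, Subgroup.map_eq_bot_iff, QuotientGroup.ker_mk'] at h14
    exact h6 ⟨⟨fun a b => Subtype.ext (mul_comm_of_mem_isMulCommutative N (h14 a.2) (h14 b.2))⟩⟩
  · have h5 : centralizer (N : Set G) ≤ N := by_contra fun h => hmax _
      ⟨inferInstance, h1.trans N.le_centralizer, h4⟩ (lt_of_le_not_ge N.le_centralizer h)
    obtain ⟨p, hp, hd⟩ := Nat.exists_prime_and_dvd (mt index_eq_one.1 h2)
    have := Fact.mk hp
    obtain ⟨P⟩ : Nonempty (Sylow p (G ⧸ N)) := inferInstance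
    obtain ⟨z, hz, h6, h7⟩ := InvChar.exists_mem_center_of_normalized P.isPGroup' le_rfl
      (fun g hg w hw => mul_mem (mul_mem hg hw) (inv_mem hg)) (P.ne_bot_of_dvd_card hd)
    have h8 := hn (zpowers z) fun h => by
      obtain ⟨z, rfl⟩ := hπ z
      exact h6 ((QuotientGroup.eq_one_iff z).2 (h5 fun n hn => congrArg Subtype.val (h.is_comm.comm
        ⟨n, by simp [(QuotientGroup.eq_one_iff n).2 hn]⟩ ⟨z, mem_zpowers _⟩)))
    have h9 : (P : Subgroup (G ⧸ N)) = zpowers z := le_antisymm (fun y hy => h8 (mem_normalizer_fintype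
      fun x hx => by
        obtain ⟨k, rfl⟩ := mem_zpowers_iff.1 hx
        rwa [((show Commute y z from h7 y hy).zpow_right k).eq, mul_inv_cancel_right])) (zpowers_le.2 hz)
    refine P.ne_bot_of_dvd_card hd (burn hQ P (by rw [← Sylow.coe_coe, h9]; exact h8) fun a ha b hb => ?_)
    exact mul_comm_of_mem_isMulCommutative _ (h9 ▸ ha) (h9 ▸ hb)

end Cfsg.Agent.S4072
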