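import Cfsg.Statements.S4074
import Mathlib

set_option autoImplicit false
open Cfsg

namespace Cfsg.Agent.S4074

open DihedralGroup in
/-- parity homomorphism of a dihedral group of even degree -/
def parity {n : ℕ} (h : 2 ∣ n) : DihedralGroup n →* Multiplicative (ZMod 2) where
  toFun g := match g with
    | r i => Multiplicative.ofAdd (ZMod.castHom h (ZMod 2) i)
    | sr i => Multiplicative.ofAdd (ZMod.castHom h (ZMod 2) i)
  map_one' := by
    change Multiplicative.ofAdd (ZMod.castHom h (ZMod 2) 0) = 1
    simp
  map_mul' := by
    have key : ∀ a b : ZMod 2, b - a = a + b := by decide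
    rintro (i | i) (j | j)
    · change Multiplicative.ofAdd (ZMod.castHom h (ZMod 2) (i + j)) = _
      rw [map_add]; rfl
    · change Multiplicative.ofAdd (ZMod.castHom h (ZMod 2) (j - i)) = _
      rw [map_sub, key]; rfl
    · change Multiplicative.ofAdd (ZMod.castHom h (ZMod 2) (i + j)) = _
      rw [map_add]; rfl
    · change Multiplicative.ofAdd (ZMod.castHom h (ZMod 2) (j - i)) = _
      rw [map_sub, key]; rfl

theorem parity_r {n : ℕ} (h : 2 ∣ n) (i : ZMod n) :
    parity h (DihedralGroup.r i) = Multiplicative.ofAdd (ZMod.castHom h (ZMod 2) i) := rfl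

theorem parity_sr {n : ℕ} (h : 2 ∣ n) (i : ZMod n) :
    parity h (DihedralGroup.sr i) = Multiplicative.ofAdd (ZMod.castHom h (ZMod 2) i) := rfl

/-- For n > 2, every non-abelian subgroup of the dihedral group of order 2n is self-normalizing if and only if n = 4 or n is odd. -/
theorem result (n : ℕ) (hn : 2 < n) :
    (∀ H : Subgroup (DihedralGroup n), ¬ IsMulCommutative H → Subgroup.normalizer (H : Set (DihedralGroup n)) = H) ↔
    (n = 4 ∨ Odd n) := by
  haveI : NeZero n := ⟨by omega⟩
  constructor
  · intro h
    by_contra hcon
    push Not at hcon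
    obtain ⟨h4, hev⟩ := hcon
    have h2 : 2 ∣ n := even_iff_two_dvd.1 (Nat.not_odd_iff_even.1 hev)
    have hnc : ¬ IsMulCommutative (parity h2).ker := by
      intro hc
      have ha : DihedralGroup.r (2 : ZMod n) ∈ (parity h2).ker := by
        rw [MonoidHom.mem_ker, parity_r, map_ofNat]; rfl
      have hb : DihedralGroup.sr (0 : ZMod n) ∈ (parity h2).ker := by
        rw [MonoidHom.mem_ker, parity_sr, map_zero]; rfl
      have := congrArg Subtype.val (hc.is_comm.comm ⟨_, ha⟩ ⟨_, hb⟩)
      simp only [Subgroup.coe_mul, DihedralGroup.r_mul_sr, DihedralGroup.sr_mul_r,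
        DihedralGroup.sr.injEq] at this
      have h5 : ((4 : ℕ) : ZMod n) = 0 := by
        push_cast; linear_combination -this
      rw [ZMod.natCast_eq_zero_iff] at h5
      have := Nat.le_of_dvd (by norm_num) h5
      omega
    have h1 := h _ hnc
    rw [Subgroup.normalizer_eq_top] at h1
    have h3 : DihedralGroup.r (1 : ZMod n) ∈ (parity h2).ker := h1 ▸ Subgroup.mem_top _
    rw [MonoidHom.mem_ker, parity_r, map_one] at h3
    exact absurd h3 (by decide)
  · rintro (rfl | hodd) H hH
    · have : H = ⊤ := by
        by_contra hne
        apply hH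
        have hd : Nat.card H ∣ 2 ^ 3 := by
          have := H.card_subgroup_dvd_card
          rwa [DihedralGroup.nat_card] at this
        obtain ⟨k, hk, hk'⟩ := (Nat.dvd_prime_pow Nat.prime_two).1 hd
        interval_cases k
        · haveI : IsCyclic H := isCyclic_of_card_dvd_prime (p := 2) (by rw [hk']; norm_num)
          infer_instance
        · haveI : IsCyclic H := isCyclic_of_card_dvd_prime (p := 2) (by rw [hk']; norm_num)
          infer_instance
        · exact IsPGroup.isMulCommutative_of_card_eq_prime_sq hk'
        · exact absurd (Subgroup.eq_top_of_card_eq H (by rw [hk', DihedralGroup.nat_card]; norm_num)) hne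
      subst this
      exact Subgroup.normalizer_eq_top _
    · have hex : ∃ i, DihedralGroup.sr i ∈ H := by
        by_contra hcon
        push Not at hcon
        apply hH
        refine ⟨⟨?_⟩⟩
        rintro ⟨a | a, ha⟩ ⟨b | b, hb⟩
        · apply Subtype.ext
          simp [add_comm]
        · exact absurd hb (hcon _)
        · exact absurd ha (hcon _)
        · exact absurd ha (hcon _)
      obtain ⟨i, hi⟩ := hex
      have hrot : ∀ j, DihedralGroup.r j ∈ Subgroup.normalizer (H : Set (DihedralGroup n)) →
          DihedralGroup.r j ∈ H := by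
        intro j hj
        have h1 := (Subgroup.mem_normalizer_iff.1 hj _).1 hi
        have h2 := mul_mem h1 hi
        simp only [DihedralGroup.r_mul_sr, DihedralGroup.inv_r, DihedralGroup.sr_mul_r,
          DihedralGroup.sr_mul_sr] at h2
        obtain ⟨m, hm⟩ := hodd
        have h3 := pow_mem h2 (m + 1)
        rw [DihedralGroup.r_pow] at h3
        have h4 : ((2 * m + 1 : ℕ) : ZMod n) = 0 := by rw [← hm]; exact ZMod.natCast_self n
        push_cast at h4 h3
        have : (i - (i - j + -j)) * ((m : ZMod n) + 1) = j := by linear_combination j * h4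
        rwa [this] at h3
      refine le_antisymm ?_ Subgroup.le_normalizer
      rintro (j | j) hg
      · exact hrot j hg
      · have h1 := mul_mem hg (Subgroup.le_normalizer hi)
        have h2 : DihedralGroup.sr j * DihedralGroup.sr i ∈ H := hrot _ h1
        have h3 := mul_mem h2 hi
        rwa [mul_assoc, DihedralGroup.sr_mul_self, mul_one] at h3

end Cfsg.Agent.S4074
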