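import Cfsg.Statements.S4075
import Mathlib

set_option autoImplicit false
open Cfsg

namespace Cfsg.Agent.S4075

theorem comm_of_sylow_comm {G : Type*} [Group G] [Finite G] [Group.IsNilpotent G]
    (h : ∀ (p : ℕ), p.Prime → ∀ P : Sylow p G, IsMulCommutative (P : Subgroup G)) :
    IsMulCommutative G := by
  let e := Sylow.directProductOfNormal (G := G) (fun {p hp} P => inferInstance)
  refine ⟨⟨fun x y => ?_⟩⟩
  obtain ⟨x, rfl⟩ := e.surjective x
  obtain ⟨y, rfl⟩ := e.surjective y
  rw [← map_mul, ← map_mul]
  congr 1
  funext p P
  exact (h p (Nat.prime_of_mem_primeFactors p.2) P).is_comm.comm _ _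

/-- Let G be a finite nilpotent group. Every non-abelian subgroup of G is self-normalizing if and only if G is abelian or G is a minimal non-abelian p-group for some prime p (non-abelian of prime-power order with every proper subgroup abelian). -/
theorem result {G : Type*} [Group G] [Finite G]
    [Group.IsNilpotent G] :
    (∀ H : Subgroup G, ¬ IsMulCommutative H → Subgroup.normalizer (H : Set G) = H) ↔
    (IsMulCommutative G ∨ (IsPrimePow (Nat.card G) ∧ ¬ IsMulCommutative G ∧ ∀ H : Subgroup G, H ≠ ⊤ → IsMulCommutative H)) := by
  constructor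
  · intro h
    by_cases hc : IsMulCommutative G
    · exact Or.inl hc
    right
    have hnc := normalizerCondition_iff_only_full_group_self_normalizing.1
      (Group.normalizerCondition_of_isNilpotent (G := G))
    have hab : ∀ H : Subgroup G, H ≠ ⊤ → IsMulCommutative H := by
      intro H hH
      by_contra hn
      exact hH (hnc H (h H hn))
    refine ⟨?_, hc, hab⟩
    by_contra hpp
    apply hc
    apply comm_of_sylow_comm
    intro p hp P
    apply hab
    intro hP
    haveI := Fact.mk hp
    obtain ⟨k, hk⟩ := IsPGroup.iff_card.1 P.isPGroup'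
    rw [hP, Subgroup.card_top] at hk
    rcases Nat.eq_zero_or_pos k with rfl | hk0
    · haveI : Subsingleton G := (Nat.card_eq_one_iff_unique.1 (by simpa using hk)).1
      exact hc ⟨⟨fun x y => Subsingleton.elim _ _⟩⟩
    · exact hpp ⟨p, k, hp.prime, hk0, hk.symm⟩
  · rintro (h | ⟨-, -, h⟩) H hH
    · exact absurd ⟨⟨fun x y => Subtype.ext (h.is_comm.comm (x : G) y)⟩⟩ hH
    · have : H = ⊤ := by
        by_contra hne
        exact hH (h H hne)
      subst this
      exact Subgroup.normalizer_eq_top _

end Cfsg.Agent.S4075
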