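import Cfsg.Statements.S4078
import Cfsg.Agent.Lib.Flavell.TwoB

set_option autoImplicit false
open Cfsg

namespace Cfsg.Agent.S4078

open CfsgLib Subgroup
open scoped Pointwise

universe u

theorem solv_map_iff {G Q : Type*} [Group G] [Group Q] (f : G →* Q) [Group.IsSolvable f.ker]
    (a b : G) : Group.IsSolvable (closure ({f a, f b} : Set Q)) ↔
      Group.IsSolvable (closure ({a, b} : Set G)) := by
  rw [← Set.image_pair, ← MonoidHom.map_closure]
  constructor
  · intro h
    have := Core.isSolvable_comap f ((closure ({a, b} : Set G)).map f)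
    exact Core.isSolvable_of_le (le_comap_map f _)
  · intro h
    exact Core.isSolvable_map _ _

theorem aux (n : ℕ) : ∀ (G : Type u) [Group G] [Finite G], Nat.card G = n →
    (∀ x : G, ∃ H : Subgroup G, (H : Set G) =
      {y : G | Group.IsSolvable ↥(closure ({x, y} : Set G))}) → Group.IsSolvable G := by
  induction n using Nat.strong_induction_on with
  | _ n ih =>
  intro G _ _ hn h
  by_contra hs
  have hprop : ∀ H : Subgroup G, H ≠ ⊤ → Group.IsSolvable H := by
    intro H hH
    refine ih _ (hn ▸ Core.card_lt_of_ne_top hH) H rfl fun a => ?_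
    obtain ⟨K, hK⟩ := h a
    refine ⟨K.subgroupOf H, Set.ext fun y => ?_⟩
    have : Group.IsSolvable H.subtype.ker := by rw [ker_subtype]; infer_instance
    rw [SetLike.mem_coe, mem_subgroupOf, ← SetLike.mem_coe, hK]
    exact solv_map_iff H.subtype a y
  have hnt : Nontrivial G := by
    by_contra h1
    rw [not_nontrivial_iff_subsingleton] at h1
    exact hs inferInstance
  have hsimple : IsSimpleGroup G := ⟨fun N hN => by
    by_contra hc
    push Not at hc
    have := hprop N hc.2
    have : Group.IsSolvable (QuotientGroup.mk' N).ker := by rwa [QuotientGroup.ker_mk']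
    have : Group.IsSolvable (G ⧸ N) := by
      refine ih _ (hn ▸ Core.card_quotient_lt_of_ne_bot hc.1) (G ⧸ N) rfl fun a => ?_
      obtain ⟨a, rfl⟩ := QuotientGroup.mk'_surjective N a
      obtain ⟨K, hK⟩ := h a
      refine ⟨K.map (QuotientGroup.mk' N), Set.ext fun y => ?_⟩
      obtain ⟨y, rfl⟩ := QuotientGroup.mk'_surjective N y
      rw [Set.mem_ofPred_eq, solv_map_iff]
      constructor
      · rintro ⟨z, hz, e⟩
        rw [SetLike.mem_coe, ← SetLike.mem_coe, hK, Set.mem_ofPred_eq,
          ← solv_map_iff (QuotientGroup.mk' N), e, solv_map_iff] at hz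
        exact hz
      · intro hy
        refine ⟨y, ?_, rfl⟩
        rw [hK]; exact hy
    exact hs (Group.isSolvable_of_ker_le_range N.subtype (QuotientGroup.mk' N) (by simp))⟩
  by_cases hx : ∃ x : G, x ≠ 1 ∧ ∀ y, Group.IsSolvable (closure ({x, y} : Set G))
  · obtain ⟨x, hx1, hx⟩ := hx
    refine hs (Flavell.isSolvable_of_two_generated fun a b => ?_)
    obtain ⟨K, hK⟩ := h a
    have h1 : x ∈ K.normalCore := by
      intro g
      rw [← SetLike.mem_coe, hK, Set.mem_ofPred_eq, Set.pair_comm]
      have : Group.IsSolvable (MulAut.conj g).toMonoidHom.ker := by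
        rw [(MonoidHom.ker_eq_bot_iff _).2 (MulAut.conj g).injective]; infer_instance
      have h2 := (solv_map_iff (MulAut.conj g).toMonoidHom x (g⁻¹ * a * g)).2 (hx _)
      have e : (MulAut.conj g).toMonoidHom (g⁻¹ * a * g) = a := by simp [mul_assoc]
      rw [e] at h2
      exact h2
    rcases (inferInstance : K.normalCore.Normal).eq_bot_or_eq_top with e | e
    · exact absurd (mem_bot.1 (e ▸ h1)) hx1
    · have h2 : b ∈ (K : Set G) := K.normalCore_le (e ▸ mem_top b)
      rwa [hK] at h2
  · push Not at hx
    have huniq : ∀ x : G, x ≠ 1 → ∀ M M' : Subgroup G, IsCoatom M → IsCoatom M' → x ∈ M → x ∈ M' →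
        M = M' := by
      intro x hx1
      obtain ⟨K, hK⟩ := h x
      have hKt : K ≠ ⊤ := by
        rintro rfl
        obtain ⟨y, hy⟩ := hx x hx1
        have : y ∈ ((⊤ : Subgroup G) : Set G) := mem_top y
        rw [hK] at this
        exact hy this
      have key : ∀ M : Subgroup G, IsCoatom M → x ∈ M → M = K := by
        intro M hM hxM
        refine ((hM.le_iff.1 fun y hy => ?_).resolve_left hKt).symm
        rw [← SetLike.mem_coe, hK]
        have := hprop M hM.1
        refine Core.isSolvable_of_le (K := M) ((closure_le M).2 ?_)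
        rintro z (rfl | rfl)
        exacts [hxM, hy]
      intro M M' hM hM' h1 h2
      rw [key M hM h1, key M' hM' h2]
    obtain ⟨a, ha⟩ := exists_ne (1 : G)
    have hz : zpowers a ≠ ⊤ := by
      intro e
      have := Coprime.isSolvable_zpowers a
      rw [e] at this
      exact hs (Core.isSolvable_of_mulEquiv (topEquiv : (⊤ : Subgroup G) ≃* G))
    obtain ⟨M, hM, haM⟩ := (eq_top_or_exists_le_coatom _).resolve_left hz
    have hM1 : M ≠ ⊥ := fun e => ha (mem_bot.1 (e ▸ haM (mem_zpowers a)))
    refine Frob.not_frob_of_isSimpleGroup M ⟨hM1, hM.1, fun g hg => ?_⟩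
    rw [eq_bot_iff]
    rintro t ⟨ht1, ht2⟩
    by_contra ht
    have hc : IsCoatom (MulAut.conj g • M) :=
      ((MulAut.conj g).mapSubgroup.isCoatom_iff M).2 hM
    have e := huniq t ht _ _ hc hM ht2 ht1
    have h1 : g ∈ normalizer (M : Set G) := Core.mem_normalizer_iff_conj_smul_eq.2 e
    rcases hM.le_iff.1 (le_normalizer (H := M)) with e1 | e1
    · rcases (normalizer_eq_top_iff.1 e1).eq_bot_or_eq_top with e2 | e2
      exacts [hM1 e2, hM.1 e2]
    · exact hg (e1 ▸ h1)

/-- For an element x of a finite group G let Sol(x) be the set of y ∈ G such that x and y generate a solvable subgroup. Then G is solvable if and only if Sol(x) is (the carrier of) a subgroup of G for every x ∈ G. -/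
theorem result {G : Type*} [Group G] [Finite G] :
    Group.IsSolvable G ↔ ∀ x : G, ∃ H : Subgroup G, (H : Set G) = {y : G | Group.IsSolvable ↥(Subgroup.closure ({x, y} : Set G))} := by
  constructor
  · intro hs x
    exact ⟨⊤, Set.ext fun y => ⟨fun _ => (inferInstance : Group.IsSolvable _), fun _ => Subgroup.mem_top y⟩⟩
  · exact aux _ G rfl

end Cfsg.Agent.S4078
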