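import Cfsg.Statements.S4080
import Mathlib

set_option autoImplicit false
open Cfsg

namespace Cfsg.Agent.S4080

theorem matrix_key {p : ℕ} [hp : Fact p.Prime] (hp3 : 3 < p)
    (N : Matrix (Fin 2) (Fin 2) (ZMod (p ^ 2))) (h : (N + 1) ^ p = 1) :
    (p : ZMod (p ^ 2)) • N = 0 := by
  let φ : ZMod (p ^ 2) →+* ZMod p := ZMod.castHom (dvd_pow_self p two_ne_zero) (ZMod p)
  have hker : ∀ x : ZMod (p ^ 2), φ x = 0 → ∃ y, x = p * y := by
    intro x hx
    haveI : NeZero (p ^ 2) := ⟨pow_ne_zero _ hp.out.ne_zero⟩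
    have h1 : φ x = ((x.val : ℕ) : ZMod p) := by
      conv_lhs => rw [← ZMod.natCast_zmod_val x]
      exact map_natCast φ _
    rw [h1, ZMod.natCast_eq_zero_iff] at hx
    obtain ⟨c, hc⟩ := hx
    refine ⟨c, ?_⟩
    rw [← ZMod.natCast_zmod_val x, hc]; push_cast; rfl
  have hpp : (p : ZMod (p ^ 2)) * p = 0 := by
    have := ZMod.natCast_self (p ^ 2)
    push_cast at this
    rw [← this]; ring
  let M : Matrix (Fin 2) (Fin 2) (ZMod p) := φ.mapMatrix N
  have hM : M ^ p = 0 := by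
    have h1 : (M + 1) ^ p = 1 := by
      have := congrArg φ.mapMatrix h
      rwa [map_pow, map_add, map_one] at this
    rw [add_pow_char_of_commute _ (Commute.one_right M), one_pow] at h1
    simpa using h1
  have hnil : IsNilpotent M := ⟨p, hM⟩
  have htr : φ N.trace = 0 := by
    have := (Matrix.isNilpotent_trace_of_isNilpotent hnil).eq_zero
    simpa [M, Matrix.trace_fin_two] using this
  have hdet : φ N.det = 0 := by
    have h1 : M.det ^ p = 0 := by rw [← Matrix.det_pow, hM, Matrix.det_zero]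
    have := pow_eq_zero_iff hp.out.ne_zero |>.1 h1
    rwa [RingHom.map_det]
  obtain ⟨t, ht⟩ := hker _ htr
  obtain ⟨d, hd⟩ := hker _ hdet
  have hN2 : N ^ 2 = (p : ZMod (p ^ 2)) • (t • N - d • (1 : Matrix (Fin 2) (Fin 2) (ZMod (p ^ 2)))) := by
    rw [smul_sub, smul_smul, smul_smul, ← ht, ← hd]
    ext i j
    fin_cases i <;> fin_cases j <;>
      simp [pow_two, Matrix.mul_apply, Fin.sum_univ_two, Matrix.trace_fin_two, Matrix.det_fin_two] <;> ring
  have hN4 : N ^ 4 = 0 := by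
    rw [show 4 = 2 * 2 from rfl, pow_mul, hN2, smul_pow, pow_two (p : ZMod (p ^ 2)), hpp, zero_smul]
  have hpN2 : (p : ZMod (p ^ 2)) • N ^ 2 = 0 := by rw [hN2, smul_smul, hpp, zero_smul]
  rw [(Commute.one_right N).add_pow] at h
  obtain ⟨q, rfl⟩ : ∃ q, p = q + 2 := ⟨p - 2, by omega⟩
  rw [Finset.sum_range_succ', Finset.sum_range_succ'] at h
  have hz : ∑ k ∈ Finset.range (q + 1), N ^ (k + 1 + 1) * 1 ^ (q + 2 - (k + 1 + 1)) *
      (((q + 2).choose (k + 1 + 1) : ℕ) : Matrix (Fin 2) (Fin 2) (ZMod ((q + 2) ^ 2))) = 0 := by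
    apply Finset.sum_eq_zero
    intro k hk
    by_cases hk2 : k < 2
    · obtain ⟨c, hc⟩ := hp.out.dvd_choose_self (k := k + 1 + 1) (by omega) (by omega)
      rw [hc, one_pow, mul_one, ← nsmul_eq_mul', mul_comm, mul_nsmul', ← Nat.cast_smul_eq_nsmul (ZMod ((q + 2) ^ 2)) (q + 2),
        show k + 1 + 1 = 2 + k by ring, pow_add, ← smul_mul_assoc (((q + 2 : ℕ)) : ZMod ((q + 2) ^ 2)), hpN2]
      simp
    · rw [show k + 1 + 1 = 4 + (k - 2) by omega, pow_add, hN4]; simp
  rw [hz] at h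
  simp only [zero_add, pow_one, one_pow, mul_one, Nat.choose_one_right, pow_zero,
    Nat.choose_zero_right, Nat.cast_one, add_eq_right] at h
  rw [Nat.cast_smul_eq_nsmul, nsmul_eq_mul', h]

/-- Let p > 3 be a prime and L the direct product of two cyclic groups of order p². Every automorphism of L of order p fixes every element of order p of L. -/
theorem result {p : ℕ} [Fact p.Prime] (hp : 3 < p)
    (a : MulAut (Multiplicative (ZMod (p ^ 2) × ZMod (p ^ 2)))) (ha : orderOf a = p)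
    (x : Multiplicative (ZMod (p ^ 2) × ZMod (p ^ 2))) (hx : orderOf x = p) : a x = x := by
  let R := ZMod (p ^ 2)
  let toLin : MulAut (Multiplicative (R × R)) →* Module.End R (R × R) :=
    { toFun := fun b => (AddMonoidHom.toMultiplicative.symm b.toMonoidHom).toZModLinearMap (p ^ 2)
      map_one' := by ext <;> rfl
      map_mul' := fun _ _ => by ext <;> rfl }
  let B := Module.Basis.finTwoProd R
  let A : Matrix (Fin 2) (Fin 2) R := LinearMap.toMatrixAlgEquiv B (toLin a)
  have hA : A ^ p = 1 := by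
    have : a ^ p = 1 := orderOf_dvd_iff_pow_eq_one.1 (by rw [ha])
    rw [← map_pow, ← map_pow, this, map_one, map_one]
  have h1 := matrix_key hp (A - 1) (by rw [sub_add_cancel, hA])
  have h2 : (p : R) • (toLin a - 1) = 0 := by
    apply (LinearMap.toMatrixAlgEquiv B).injective
    rw [map_smul, map_sub, map_one, map_zero]
    exact h1
  have hx1 : (p : R) • x.toAdd = 0 := by
    have : x ^ p = 1 := orderOf_dvd_iff_pow_eq_one.1 (by rw [hx])
    rw [Nat.cast_smul_eq_nsmul, ← toAdd_pow, this]; rfl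
  have hdiv : ∀ u : R, (p : R) * u = 0 → ∃ v : R, u = p * v := by
    intro u hu
    have hp0 : p ≠ 0 := (Fact.out : p.Prime).ne_zero
    haveI : NeZero (p ^ 2) := ⟨pow_ne_zero _ hp0⟩
    rw [← ZMod.natCast_zmod_val u, ← Nat.cast_mul, ZMod.natCast_eq_zero_iff] at hu
    have hu' : p * p ∣ p * u.val := by rwa [← pow_two]
    obtain ⟨c, hc⟩ := (Nat.mul_dvd_mul_iff_left (Nat.pos_of_ne_zero hp0)).1 hu'
    refine ⟨c, ?_⟩
    rw [← ZMod.natCast_zmod_val u, hc]; push_cast; rfl
  obtain ⟨v1, hv1⟩ := hdiv x.toAdd.1 (congrArg Prod.fst hx1)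
  obtain ⟨v2, hv2⟩ := hdiv x.toAdd.2 (congrArg Prod.snd hx1)
  have hxv : x.toAdd = (p : R) • (v1, v2) := Prod.ext hv1 hv2
  have h3 : toLin a x.toAdd = x.toAdd := by
    have := congrArg (fun f : Module.End R (R × R) => f (v1, v2)) h2
    simp only [LinearMap.smul_apply, LinearMap.sub_apply, Module.End.one_apply, LinearMap.zero_apply,
      smul_sub] at this
    rw [hxv, map_smul]
    exact sub_eq_zero.1 this
  exact h3

end Cfsg.Agent.S4080
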