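import Cfsg.Statements.S4081
import Cfsg.Agent.Lib.AutOrb.Linear
import Cfsg.Agent.Lib.PLocal.ElemRep
import Cfsg.Agent.Lib.Coprime.Generation
import Cfsg.Agent.Lib.Coprime.Hall
import Cfsg.Agent.Lib.Char.Burnside
import Cfsg.Agent.Lib.Core.Basic

set_option autoImplicit false
open Cfsg

namespace Cfsg.Agent.S4081

open Subgroup CfsgLib CfsgLib.PLocal CfsgLib.AutOrb

theorem mk_eq_iff {G : Type*} [Group G] (a b : G) :
    (Quotient.mk'' a : MulAction.orbitRel.Quotient (MulAut G) G) = Quotient.mk'' b ↔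
      ∃ σ : MulAut G, σ b = a := by
  rw [Quotient.eq'', MulAction.orbitRel_apply, MulAction.mem_orbit_iff]
  rfl

theorem toG_pow {G : Type*} [Group G] {p : ℕ} {N : Subgroup G} (hN : IsElementaryAbelian p N)
    {x : G} (hx : x ∈ normalizer (N : Set G)) (k : ℕ) (v : ElemMod hN) :
    (((ElemMod.conj hN x hx : Module.End (ZMod p) (ElemMod hN)) ^ k) v).toG =
      x ^ k * v.toG * (x ^ k)⁻¹ := by
  induction k with
  | zero => simp
  | succ k ih =>
    rw [pow_succ', Module.End.mul_apply, ElemMod.toG_conj, ih, pow_succ']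
    group

theorem exists_mul_pow {G : Type*} [Group G] [Finite G] {N : Subgroup G} {x : G}
    (h : IsComplement' N (zpowers x)) (g : G) : ∃ n ∈ N, ∃ k : ℕ, g = n * x ^ k := by
  obtain ⟨⟨n, z⟩, rfl⟩ := h.existsUnique g |>.exists
  obtain ⟨k, hk⟩ := mem_powers_iff_mem_zpowers.mpr z.2
  exact ⟨n, n.2, k, by simp only at hk ⊢; rw [hk]⟩

theorem forward {G : Type*} [Group G] [Finite G] {p q : ℕ} [hp : Fact p.Prime] [hq : Fact q.Prime]
    (hpq : p ≠ q) {x y : G} (hx : orderOf x = q) (hy : orderOf y = p)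
    (hall : ∀ z : G, z = 1 ∨ (∃ σ : MulAut G, σ y = z) ∨ ∃ σ : MulAut G, σ x = z)
    {N : Subgroup G} [hNc : N.Characteristic] (hN0 : N ≠ ⊥) (hNp : IsPGroup p N)
    (hNa : IsMulCommutative N) :
    ∃ n : ℕ, 1 ≤ n ∧ Nat.card G = p ^ n * q ∧
      (∀ P : Sylow p G, (P : Subgroup G).Normal ∧ IsElementaryAbelian p (P : Subgroup G)) ∧
      orderOf (p : ZMod q) = q - 1 ∧
      ∀ x y : G, orderOf x = q → orderOf y = p → x * y * x⁻¹ ≠ y := by
  have hcop : p.Coprime q := (Nat.coprime_primes hp.out hq.out).mpr hpq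
  have hord : ∀ z : G, z = 1 ∨ orderOf z = p ∨ orderOf z = q := by
    intro z
    rcases hall z with h | ⟨σ, rfl⟩ | ⟨σ, rfl⟩
    · exact Or.inl h
    · exact Or.inr (Or.inl (by rw [σ.orderOf_eq, hy]))
    · exact Or.inr (Or.inr (by rw [σ.orderOf_eq, hx]))
  have hpel : ∀ (z : G) (k : ℕ), z ^ p ^ k = 1 → z ≠ 1 → ∃ σ : MulAut G, σ y = z := by
    intro z k hk hz
    rcases hall z with h | h | ⟨σ, rfl⟩
    · exact absurd h hz
    · exact h
    · have := orderOf_dvd_of_pow_eq_one hk
      rw [σ.orderOf_eq, hx] at this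
      exact absurd ((Nat.prime_dvd_prime_iff_eq hq.out hp.out).mp (hq.out.dvd_of_dvd_pow this))
        hpq.symm
  have hσ : ∀ (σ : MulAut G), ∀ z ∈ N, σ z ∈ N := fun σ z hz =>
    characteristic_iff_le_comap.mp hNc σ hz
  have hNel : ∀ z ∈ N, z ≠ 1 → ∃ σ : MulAut G, σ y = z := by
    intro z hz hz1
    obtain ⟨k, hk⟩ := hNp ⟨z, hz⟩
    exact hpel z k (congrArg Subtype.val hk) hz1
  have hyN : y ∈ N := by
    obtain ⟨⟨z, hz⟩, hz1⟩ := ne_bot_iff_exists_ne_one.mp hN0
    obtain ⟨σ, rfl⟩ := hNel z hz fun h => hz1 (Subtype.ext h)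
    simpa using hσ σ⁻¹ _ hz
  have hNe : IsElementaryAbelian p N := ⟨hNa, fun z hz => by
    by_cases h1 : z = 1
    · rw [h1, one_pow]
    · obtain ⟨σ, rfl⟩ := hNel z hz h1
      rw [← map_pow, ← hy, pow_orderOf_eq_one, map_one]⟩
  have hPN : ∀ P : Sylow p G, (P : Subgroup G) = N := by
    intro P
    refine (P.is_maximal' hNp fun z hz => ?_).symm
    by_cases h1 : z = 1
    · rw [h1]; exact one_mem _
    · obtain ⟨k, hk⟩ := P.isPGroup' ⟨z, hz⟩
      obtain ⟨σ, rfl⟩ := hpel z k (congrArg Subtype.val hk) h1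
      exact hσ σ y hyN
  have hfpf : ∀ x y : G, orderOf x = q → orderOf y = p → x * y * x⁻¹ ≠ y := by
    intro a b ha hb h
    have hc : Commute a b := mul_inv_eq_iff_eq_mul.mp h
    have h1 := hc.orderOf_mul_eq_mul_orderOf_of_coprime (by rw [ha, hb]; exact hcop.symm)
    rw [ha, hb] at h1
    have h2 := hp.out.two_le
    have h3 := hq.out.two_le
    rcases hord (a * b) with h | h | h
    · rw [h, orderOf_one] at h1; nlinarith
    · rw [h] at h1; nlinarith
    · rw [h] at h1; nlinarith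
  have hfix : ∀ a : G, orderOf a = q → ∀ z ∈ N, a * z * a⁻¹ = z → z = 1 := by
    intro a ha z hz h
    by_contra h1
    obtain ⟨σ, rfl⟩ := hNel z hz h1
    exact hfpf a _ ha (by rw [σ.orderOf_eq, hy]) h
  obtain ⟨n, hn⟩ := hNp.exists_card_eq
  obtain ⟨P⟩ : Nonempty (Sylow p G) := inferInstance
  have hidx : N.index = q := by
    obtain ⟨b, hb⟩ : ∃ b, N.index = q ^ b := by
      refine ⟨_, Nat.eq_prime_pow_of_unique_prime_dvd FiniteIndex.index_ne_zero fun {r} hr hd => ?_⟩
      have := Fact.mk hr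
      obtain ⟨z, hz⟩ := exists_prime_orderOf_dvd_card' r (hd.trans N.index_dvd_card)
      rcases hord z with h | h | h
      · rw [h, orderOf_one] at hz; exact absurd hz.symm hr.ne_one
      · rw [← hz, h, ← hPN P] at hd; exact absurd hd P.not_dvd_index
      · rw [← hz, h]
    have hb1 : b ≠ 0 := by
      rintro rfl
      have h1 := orderOf_dvd_natCard x
      rw [← N.card_mul_index, hb, hn, hx, pow_zero, mul_one] at h1
      exact hpq ((Nat.prime_dvd_prime_iff_eq hq.out hp.out).mp (hq.out.dvd_of_dvd_pow h1)).symm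
    have hb2 : b < 2 := by
      by_contra hc
      obtain ⟨Q, hQ⟩ := Sylow.exists_subgroup_card_pow_prime q (n := 2) (G := G)
        ((hb ▸ pow_dvd_pow q (not_lt.mp hc)).trans N.index_dvd_card)
      have : IsMulCommutative Q := IsPGroup.isMulCommutative_of_card_eq_prime_sq hQ
      have hQo : ∀ a ∈ Q, a ≠ 1 → orderOf a = q := by
        intro a ha ha1
        rcases hord a with h | h | h
        · exact absurd h ha1
        · have h1 := Q.orderOf_dvd_natCard ha
          rw [h, hQ] at h1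
          exact absurd ((Nat.prime_dvd_prime_iff_eq hp.out hq.out).mp
            (hp.out.dvd_of_dvd_pow h1)) hpq
        · exact h
      refine hN0 (le_bot_iff.mp (Coprime.le_of_forall_centralizer_le (A := Q) (fun hc => ?_)
        le_normalizer_of_normal (by rw [hQ, hn]; exact (hcop.symm.pow 2 n)) fun a ha ha1 z hz => ?_))
      · obtain ⟨g, hg⟩ := IsCyclic.exists_ofOrder_eq_natCard (α := Q)
        rw [hQ, ← orderOf_coe] at hg
        have h3 := hq.out.two_le
        by_cases h1 : (g : G) = 1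
        · rw [h1, orderOf_one] at hg; nlinarith
        · rw [hQo g g.2 h1] at hg; nlinarith
      · exact hfix a (hQo a ha ha1) z hz.1 (mul_inv_eq_iff_eq_mul.mpr (hz.2 a rfl))
    rw [hb, show b = 1 by omega, pow_one]
  have hcard : Nat.card G = p ^ n * q := by rw [← N.card_mul_index, hn, hidx]
  refine ⟨n, ?_, hcard, fun P => by rw [hPN P]; exact ⟨inferInstance, hNe⟩, ?_, hfpf⟩
  · by_contra h0
    rw [show n = 0 by omega, pow_zero] at hn
    exact hN0 (card_eq_one.mp hn)
  have hcomp : IsComplement' N (zpowers x) := isComplement'_of_coprime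
    (by rw [Nat.card_zpowers, hx, hn, hcard]) (by rw [Nat.card_zpowers, hx, hn]; exact hcop.pow_left n)
  have hxn : x ∈ normalizer (N : Set G) := le_normalizer_of_normal (mem_top x)
  have : Nontrivial (ElemMod hNe) := (nontrivial_iff_ne_bot N).mpr hN0
  have hT : ∀ (σ : MulAut G) (k : ℕ), ∀ m ∈ N, σ x = m * x ^ k →
      ∃ T : ElemMod hNe ≃ₗ[ZMod p] ElemMod hNe, (∀ v, (T v).toG = σ v.toG) ∧
      (T : Module.End (ZMod p) (ElemMod hNe)) * ElemMod.conj hNe x hxn =
        (ElemMod.conj hNe x hxn : Module.End (ZMod p) (ElemMod hNe)) ^ k * T := by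
    intro σ k m hm hk
    let f : ElemMod hNe →ₗ[ZMod p] ElemMod hNe := AddMonoidHom.toZModLinearMap p
      { toFun := fun v => ElemMod.ofG hNe (σ v.toG) (hσ σ _ v.toG_mem)
        map_zero' := ElemMod.toG_injective (by simp [ElemMod.toG_ofG, ElemMod.toG_zero])
        map_add' := fun u v => ElemMod.toG_injective (by simp [ElemMod.toG_ofG, ElemMod.toG_add]) }
    have hf : ∀ v, (f v).toG = σ v.toG := fun _ => rfl
    have hinj : Function.Injective f := fun u v h => ElemMod.toG_injective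
      (σ.injective (by rw [← hf, ← hf, h]))
    refine ⟨LinearEquiv.ofBijective f ⟨hinj, Finite.injective_iff_surjective.mp hinj⟩, hf, ?_⟩
    ext v
    apply ElemMod.toG_injective
    rw [Module.End.mul_apply, Module.End.mul_apply, toG_pow]
    change σ (x * v.toG * x⁻¹) = x ^ k * σ v.toG * (x ^ k)⁻¹
    have h1 : x ^ k * σ v.toG * (x ^ k)⁻¹ ∈ N := (inferInstance : N.Normal).conj_mem _ (hσ σ _ v.toG_mem) _
    have h2 := elemAb_comm hNe hm h1
    rw [map_mul, map_mul, map_inv, hk]
    calc m * x ^ k * σ v.toG * (m * x ^ k)⁻¹ = m * (x ^ k * σ v.toG * (x ^ k)⁻¹) * m⁻¹ := by group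
      _ = _ := by rw [h2, mul_inv_cancel_right]
  refine orderOf_eq_of_transitive (X := ElemMod.conj hNe x hxn) hpq ?_ ?_ ?_ ?_
  · ext v
    apply ElemMod.toG_injective
    rw [toG_pow, ← hx, pow_orderOf_eq_one]
    simp
  · intro v hv
    exact ElemMod.toG_eq_one.mp (hfix x hx _ v.toG_mem (congrArg ElemMod.toG hv))
  · intro v w hv hw
    obtain ⟨σ, h1⟩ := hNel _ v.toG_mem (mt ElemMod.toG_eq_one.mp hv)
    obtain ⟨τ, h2⟩ := hNel _ w.toG_mem (mt ElemMod.toG_eq_one.mp hw)
    obtain ⟨m, hm, k, hk⟩ := exists_mul_pow hcomp ((τ * σ⁻¹) x)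
    obtain ⟨T, h3, h4⟩ := hT _ k m hm hk
    refine ⟨T, k, ElemMod.toG_injective ?_, h4⟩
    rw [h3, ← h1, ← h2]
    simp
  · intro k hk hkq
    have h1 : orderOf (x ^ k) = q := by
      rw [← hx]
      exact Nat.Coprime.orderOf_pow (by
        rw [hx]; exact (Nat.coprime_of_lt_prime hk.ne' hkq hq.out))
    rcases hall (x ^ k) with h | ⟨σ, h⟩ | ⟨σ, h⟩
    · rw [h, orderOf_one] at h1; exact absurd h1.symm hq.out.ne_one
    · rw [← h, σ.orderOf_eq, hy] at h1; exact absurd h1 hpq
    · obtain ⟨T, -, h4⟩ := hT σ k 1 (one_mem _) (by rw [h, one_mul])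
      exact ⟨T, h4⟩

theorem backward {G : Type*} [Group G] [Finite G] {p q n : ℕ} [hp : Fact p.Prime]
    [hq : Fact q.Prime] (hpq : p ≠ q) (hcard : Nat.card G = p ^ n * q)
    (hP : ∀ P : Sylow p G, (P : Subgroup G).Normal ∧ IsElementaryAbelian p (P : Subgroup G))
    (ho : orderOf (p : ZMod q) = q - 1)
    (hfpf : ∀ x y : G, orderOf x = q → orderOf y = p → x * y * x⁻¹ ≠ y)
    {x y : G} (hx : orderOf x = q) (hy : orderOf y = p) (z : G) :
    z = 1 ∨ (∃ σ : MulAut G, σ y = z) ∨ ∃ σ : MulAut G, σ x = z := by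
  have hcop : p.Coprime q := (Nat.coprime_primes hp.out hq.out).mpr hpq
  obtain ⟨P⟩ : Nonempty (Sylow p G) := inferInstance
  obtain ⟨hPn, hNe⟩ := hP P
  set N : Subgroup G := (P : Subgroup G) with hN
  have hn : Nat.card N = p ^ n := by
    rw [hN, P.card_eq_multiplicity, hcard, Nat.factorization_mul_of_coprime (hcop.pow_left n)]
    simp [hp.out.factorization_pow, hq.out.factorization, hpq.symm]
  have hidx : N.index = q := by
    have := N.card_mul_index
    rw [hn, hcard] at this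
    exact Nat.eq_of_mul_eq_mul_left (pow_pos hp.out.pos n) this
  have hcomp : IsComplement' N (zpowers x) := isComplement'_of_coprime
    (by rw [Nat.card_zpowers, hx, hn, hcard]) (by rw [Nat.card_zpowers, hx, hn]; exact hcop.pow_left n)
  have hxn : x ∈ normalizer (N : Set G) := le_normalizer_of_normal (mem_top x)
  have hfix : ∀ a : G, orderOf a = q → ∀ z ∈ N, a * z * a⁻¹ = z → z = 1 := by
    intro a ha z hz h
    by_contra h1
    exact hfpf a z ha (orderOf_eq_prime (hNe.2 z hz) h1) h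
  have hpN : ∀ (z : G) (k : ℕ), z ^ p ^ k = 1 → z ∈ N := fun z k hk =>
    Core.mem_of_coprime_orderOf_index (Nat.Coprime.coprime_dvd_left (orderOf_dvd_of_pow_eq_one hk)
      (hidx ▸ hcop.pow_left k))
  obtain ⟨h1, T₀, h2⟩ := transitive_of_orderOf_eq (X := ElemMod.conj hNe x hxn) hpq (by
    ext v
    apply ElemMod.toG_injective
    rw [toG_pow, ← hx, pow_orderOf_eq_one]
    simp) (fun v hv => ElemMod.toG_eq_one.mp (hfix x hx _ v.toG_mem (congrArg ElemMod.toG hv))) ho
  have hext : ∀ (T : ElemMod hNe ≃+ ElemMod hNe) (k : ℕ), k.Coprime q →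
      (∀ u, T (ElemMod.conj hNe x hxn u) =
        ((ElemMod.conj hNe x hxn : Module.End (ZMod p) (ElemMod hNe)) ^ k) (T u)) →
      ∃ σ : MulAut G, (∀ u : ElemMod hNe, σ u.toG = (T u).toG) ∧ σ x = x ^ k := by
    intro T k hk hT
    let fn : N ≃* N :=
      { toFun := fun v => ⟨(T (ElemMod.ofG hNe v v.2)).toG, ElemMod.toG_mem _⟩
        invFun := fun v => ⟨(T.symm (ElemMod.ofG hNe v v.2)).toG, ElemMod.toG_mem _⟩
        left_inv := fun v => Subtype.ext (by simp [ElemMod.ofG_toG, ElemMod.toG_ofG])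
        right_inv := fun v => Subtype.ext (by simp [ElemMod.ofG_toG, ElemMod.toG_ofG])
        map_mul' := fun u v => Subtype.ext (congrArg ElemMod.toG
          (T.map_add (ElemMod.ofG hNe u u.2) (ElemMod.ofG hNe v v.2))) }
    let fg : zpowers x ≃* zpowers x :=
      { powCoprime (n := k) (by rw [Nat.card_zpowers, hx]; exact hk.symm) with
        map_mul' := fun a b => Commute.mul_pow (mul_comm' a b) k }
    have hpow : ∀ (i : ℕ) (u : ElemMod hNe),
        (T (((ElemMod.conj hNe x hxn : Module.End (ZMod p) (ElemMod hNe)) ^ i) u)) =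
        ((ElemMod.conj hNe x hxn : Module.End (ZMod p) (ElemMod hNe)) ^ (k * i)) (T u) := by
      intro i u
      induction i with
      | zero => simp
      | succ i ih =>
        rw [pow_succ', Module.End.mul_apply, hT, ih, ← Module.End.mul_apply, ← pow_add, mul_add,
          mul_one, add_comm]
    obtain ⟨σ, hσ1, hσ2⟩ := exists_mulAut_extend hcomp fn fg (by
      intro g m
      obtain ⟨i, hi⟩ := mem_powers_iff_mem_zpowers.mpr g.2
      simp only at hi
      have h3 := congrArg ElemMod.toG (hpow i (ElemMod.ofG hNe m m.2))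
      rw [toG_pow] at h3
      have h4 : ((ElemMod.conj hNe x hxn : Module.End (ZMod p) (ElemMod hNe)) ^ i)
          (ElemMod.ofG hNe m m.2) = ElemMod.ofG hNe (MulAut.conjNormal (g : G) m)
            (MulAut.conjNormal (g : G) m).2 := ElemMod.toG_injective (by
        rw [toG_pow, hi, ElemMod.toG_ofG, ElemMod.toG_ofG, MulAut.conjNormal_apply])
      rw [h4] at h3
      have h5 : (fg g : G) = x ^ (k * i) := by
        change (g : G) ^ k = _
        rw [← hi, ← pow_mul, mul_comm]
      rw [h5]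
      exact h3)
    exact ⟨σ, fun u => hσ1 ⟨u.toG, u.toG_mem⟩, hσ2 ⟨x, mem_zpowers x⟩⟩
  by_cases hz1 : z = 1
  · exact Or.inl hz1
  right
  by_cases hzN : z ∈ N
  · left
    have hyN : y ∈ N := hpN y 1 (by rw [pow_one, ← hy, pow_orderOf_eq_one])
    obtain ⟨T, h3, h4⟩ := h1 (ElemMod.ofG hNe y hyN) (ElemMod.ofG hNe z hzN)
      (fun h => hp.out.ne_one (by
        rw [← hy, show y = 1 from congrArg ElemMod.toG h, orderOf_one]))
      (fun h => hz1 (congrArg ElemMod.toG h))
    obtain ⟨σ, h5, -⟩ := hext T 1 (Nat.coprime_one_left q) (by simpa using h4)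
    exact ⟨σ, by rw [← ElemMod.toG_ofG (hV := hNe) y hyN, h5, h3, ElemMod.toG_ofG]⟩
  right
  obtain ⟨τ, -, hτ⟩ := hext T₀ p hcop h2
  have hzq : orderOf z = q := by
    have h3 : z ^ q ∈ N := hidx ▸ N.pow_index_mem z
    have h4 : orderOf (z ^ p) = q := by
      refine orderOf_eq_prime (by rw [← pow_mul, mul_comm, pow_mul, hNe.2 _ h3]) fun h => ?_
      exact hzN (hpN z 1 (by rwa [pow_one]))
    refine orderOf_eq_prime (hfix _ h4 _ h3 ?_) hz1
    group
  have hcomp' : IsComplement' N (zpowers z) := isComplement'_of_coprime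
    (by rw [Nat.card_zpowers, hzq, hn, hcard])
    (by rw [Nat.card_zpowers, hzq, hn]; exact hcop.pow_left n)
  obtain ⟨g, -, hg⟩ := Coprime.exists_conj_smul_eq_of_isComplement'
    (by rw [hn, hidx]; exact hcop.pow_left n) (Or.inl (Coprime.isSolvable_of_isPGroup P.isPGroup'))
    hcomp hcomp'
  have h3 : g⁻¹ * z * g ∈ zpowers x := by
    rw [← Coprime.mem_conj_smul_iff, hg]
    exact mem_zpowers z
  obtain ⟨k, hk⟩ := mem_powers_iff_mem_zpowers.mpr h3
  simp only at hk
  have hkq : k.Coprime q := by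
    rw [Nat.coprime_comm, hq.out.coprime_iff_not_dvd]
    intro hd
    rw [← hx, orderOf_dvd_iff_pow_eq_one, hk] at hd
    apply hz1
    calc z = g * (g⁻¹ * z * g) * g⁻¹ := by group
      _ = 1 := by rw [hd]; group
  have hgen : ∀ u : (ZMod q)ˣ, u ∈ zpowers (ZMod.unitOfCoprime (p ^ 1) (hcop.pow_left 1)) := by
    intro u
    have : zpowers (ZMod.unitOfCoprime (p ^ 1) (hcop.pow_left 1)) = ⊤ := by
      apply eq_top_of_card_eq
      rw [Nat.card_zpowers, orderOf_natCast_eq hcop, ho, Nat.card_eq_fintype_card,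
        ZMod.card_units_eq_totient, Nat.totient_prime hq.out]
    rw [this]; trivial
  obtain ⟨j, hj⟩ := mem_powers_iff_mem_zpowers.mpr (hgen (ZMod.unitOfCoprime k hkq))
  have hj2 : p ^ j ≡ k [MOD q] := by
    rw [← ZMod.natCast_eq_natCast_iff]
    simpa using congrArg Units.val hj
  have hτj : ∀ j : ℕ, (τ ^ j) x = x ^ p ^ j := by
    intro j
    induction j with
    | zero => simp
    | succ j ih => rw [pow_succ', MulAut.mul_apply, ih, map_pow, hτ, ← pow_mul, ← pow_succ']
  refine ⟨MulAut.conj g * τ ^ j, ?_⟩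
  rw [MulAut.mul_apply, hτj, pow_eq_pow_iff_modEq.mpr (hx ▸ hj2), hk, MulAut.conj_apply]
  group


/-- Let G be a finite group whose order is not a prime power. Then the automorphism group of G has exactly three orbits on G if and only if there are distinct primes p, q with #G = pⁿ·q (n ≥ 1) such that G has a normal elementary abelian Sylow p-subgroup P, p is a primitive root modulo q (the multiplicative order of p mod q is q − 1), and every element of order q of G acts on P without non-identity fixed points. -/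
theorem result {G : Type*} [Group G] [Finite G] (hnpp : ¬ IsPrimePow (Nat.card G)) (hnt : Nat.card G ≠ 1) :
    Nat.card (MulAction.orbitRel.Quotient (MulAut G) G) = 3 ↔
    ∃ (p q n : ℕ) (_ : Fact p.Prime) (_ : Fact q.Prime), p ≠ q ∧ 1 ≤ n ∧ Nat.card G = p ^ n * q ∧
      (∀ P : Sylow p G, (P : Subgroup G).Normal ∧ Cfsg.IsElementaryAbelian p (P : Subgroup G)) ∧
      orderOf (p : ZMod q) = q - 1 ∧
      ∀ x y : G, orderOf x = q → orderOf y = p → x * y * x⁻¹ ≠ y := by
  classical
  have := Fintype.ofFinite (MulAction.orbitRel.Quotient (MulAut G) G)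
  have hdist : ∀ {p q : ℕ} {x y : G}, p.Prime → q.Prime → p ≠ q → orderOf x = q → orderOf y = p →
      ({Quotient.mk'' 1, Quotient.mk'' y, Quotient.mk'' x} :
        Finset (MulAction.orbitRel.Quotient (MulAut G) G)).card = 3 := by
    intro p q x y hp hq hpq hx hy
    refine Finset.card_eq_three.mpr ⟨_, _, _, ?_, ?_, ?_, rfl⟩
    · rw [Ne, mk_eq_iff]
      rintro ⟨σ, h⟩
      exact hp.ne_one (by rw [← hy, ← σ.orderOf_eq, h, orderOf_one])
    · rw [Ne, mk_eq_iff]
      rintro ⟨σ, h⟩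
      exact hq.ne_one (by rw [← hx, ← σ.orderOf_eq, h, orderOf_one])
    · rw [Ne, mk_eq_iff]
      rintro ⟨σ, h⟩
      exact hpq (by rw [← hx, ← hy, ← h, σ.orderOf_eq])
  constructor
  · intro h3
    obtain ⟨p, hp, hpd⟩ := Nat.exists_prime_and_dvd hnt
    obtain ⟨q, hq, hqd, hqp⟩ : ∃ q : ℕ, q.Prime ∧ q ∣ Nat.card G ∧ q ≠ p := by
      by_contra hc
      push Not at hc
      refine hnpp ((isPrimePow_iff_unique_prime_dvd).mpr ⟨p, ⟨hp, hpd⟩, fun q hq => hc q hq.1 hq.2⟩)
    have := Fact.mk hp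
    have := Fact.mk hq
    obtain ⟨y, hy⟩ := exists_prime_orderOf_dvd_card' p hpd
    obtain ⟨x, hx⟩ := exists_prime_orderOf_dvd_card' q hqd
    have hall : ∀ z : G, z = 1 ∨ (∃ σ : MulAut G, σ y = z) ∨ ∃ σ : MulAut G, σ x = z := by
      intro z
      have h4 := Finset.eq_univ_of_card _ ((hdist hp hq hqp.symm hx hy).trans
        (by rw [← h3, Nat.card_eq_fintype_card]))
      have h5 := h4 ▸ Finset.mem_univ (Quotient.mk'' z : MulAction.orbitRel.Quotient (MulAut G) G)
      simp only [Finset.mem_insert, Finset.mem_singleton, mk_eq_iff, map_one] at h5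
      exact h5.imp (fun ⟨_, h⟩ => h.symm) id
    have hprimes : ∀ r : ℕ, r.Prime → r ∣ Nat.card G → r = p ∨ r = q := by
      intro r hr hd
      have := Fact.mk hr
      obtain ⟨z, hz⟩ := exists_prime_orderOf_dvd_card' r hd
      rcases hall z with h | ⟨σ, rfl⟩ | ⟨σ, rfl⟩
      · rw [h, orderOf_one] at hz; exact absurd hz.symm hr.ne_one
      · exact Or.inl (by rw [← hz, σ.orderOf_eq, hy])
      · exact Or.inr (by rw [← hz, σ.orderOf_eq, hx])
    have := Char.isSolvable_of_prime_dvd_card hp hq hprimes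
    have : Nontrivial G := Finite.one_lt_card_iff_nontrivial.mp
      (lt_of_le_of_ne Nat.card_pos hnt.symm)
    obtain ⟨r, N, hr, hNc, hN0, hNp, hNa⟩ := Coprime.exists_characteristic_pgroup G
    have := Fact.mk hr
    have hrd : r ∣ Nat.card G := ((hNp.card_eq_or_dvd.resolve_left fun h => hN0
      (card_eq_one.mp h))).trans (card_subgroup_dvd_card N)
    rcases hprimes r hr hrd with rfl | rfl
    · obtain ⟨n, h⟩ := forward hqp.symm hx hy hall hN0 hNp hNa
      exact ⟨r, q, n, inferInstance, inferInstance, hqp.symm, h⟩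
    · obtain ⟨n, h⟩ := forward hqp hy hx (fun z => (hall z).imp id Or.symm) hN0 hNp hNa
      exact ⟨r, p, n, inferInstance, inferInstance, hqp, h⟩
  · rintro ⟨p, q, n, hp, hq, hpq, hn, hcard, hP, ho, hfpf⟩
    obtain ⟨y, hy⟩ := exists_prime_orderOf_dvd_card' (G := G) p
      (hcard ▸ Dvd.dvd.mul_right (dvd_pow_self p (by omega)) q)
    obtain ⟨x, hx⟩ := exists_prime_orderOf_dvd_card' (G := G) q (hcard ▸ Dvd.intro_left _ rfl)
    rw [← hdist hp.out hq.out hpq hx hy, Nat.card_eq_fintype_card, ← Finset.card_univ]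
    congr 1
    refine (Finset.eq_univ_of_forall fun c => ?_).symm
    obtain ⟨z, rfl⟩ := Quotient.mk''_surjective c
    simp only [Finset.mem_insert, Finset.mem_singleton, mk_eq_iff, map_one]
    exact (backward hpq hcard hP ho hfpf hx hy z).imp (fun h => ⟨1, h.symm⟩) id

end Cfsg.Agent.S4081
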