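import Mathlib
import Cfsg.Statements.S4082
import Cfsg.Agent.Lib.PByCyc.Basic

set_option autoImplicit false
open Cfsg

namespace Cfsg.Agent.S4082

open Subgroup CfsgLib.PByCyc CfsgLib.DihSyl CfsgLib.TwoGrp

/-- Let p be an odd prime and G a finite group with Sylow p-subgroup P. Say that G has restricted p-by-cyclic subgroups when every subgroup H of G whose Sylow p-subgroup is normal in H with cyclic quotient is itself cyclic or dihedral of order 2pⁿ for some n. Then G has restricted p-by-cyclic subgroups if and only if P is cyclic and one of the following holds: (1) N_G(P) = C_G(P); or (2) N_G(P)/C_G(P) has order 2 and, for the subgroup Q of order p of P, the centralizer C_G(Q) is abelian and every element of N_G(Q) outside C_G(Q) is an involution inverting every element of C_G(Q). -/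
theorem result {G : Type*} [Group G] [Finite G] {p : ℕ}
    [Fact p.Prime] (hp : p ≠ 2) (P : Sylow p G) :
    (∀ H : Subgroup G, (∀ S : Sylow p ↥H, (S : Subgroup ↥H).Normal) →
        (∀ (S : Sylow p ↥H) [(S : Subgroup ↥H).Normal], IsCyclic (↥H ⧸ (S : Subgroup ↥H))) →
        IsCyclic H ∨ (∃ n : ℕ, Nonempty (H ≃* DihedralGroup (p ^ n)))) ↔
    (IsCyclic P ∧
      (Subgroup.normalizer ((P : Subgroup G) : Set G) = Subgroup.centralizer ((P : Subgroup G) : Set G) ∨
       ((Subgroup.centralizer ((P : Subgroup G) : Set G)).relIndex (Subgroup.normalizer ((P : Subgroup G) : Set G)) = 2 ∧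
        ∀ Q : Subgroup G, Q ≤ P → Nat.card Q = p →
          IsMulCommutative ↥(Subgroup.centralizer (Q : Set G)) ∧
          ∀ x : G, x ∈ Subgroup.normalizer (Q : Set G) → x ∉ Subgroup.centralizer (Q : Set G) →
            orderOf x = 2 ∧ ∀ c : G, c ∈ Subgroup.centralizer (Q : Set G) → x * c * x⁻¹ = c⁻¹))) := by
  have hpp : p.Prime := Fact.out
  have odd : ∀ {Q : Subgroup G}, IsPGroup p Q → ∀ c ∈ Q, c * c = 1 → c = 1 := fun hQ c hc h => by
    obtain ⟨k, hk⟩ := hQ ⟨c, hc⟩
    exact eq_one_of_odd_of_two_pow (k := 1) ((hpp.odd_of_ne_two hp).pow) (congrArg Subtype.val hk) (by rw [pow_one, sq, h])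
  have mc : ∀ {Q : Subgroup G} {x : G}, x ∈ centralizer (Q : Set G) ↔ ∀ c ∈ Q, c * x = x * c := Iff.rfl
  constructor
  · intro h
    have h' : ∀ {Q : Subgroup G} (hQ : IsPGroup p Q) {x : G}, x ∈ normalizer (Q : Set G) →
        IsCyclic ↥(Q ⊔ zpowers x) ∨ ∃ n r s, IsDih (Q ⊔ zpowers x) (p ^ n) r s := fun hQ x hx =>
      (h _ (pc_sup hQ hx).1 (pc_sup hQ hx).2).imp id fun ⟨n, ⟨e⟩⟩ => ⟨n, exists_isDih e⟩
    have key : ∀ {Q : Subgroup G} (hQ : IsPGroup p Q) {x : G}, x ∈ normalizer (Q : Set G) →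
        x ∉ centralizer (Q : Set G) → orderOf x = 2 ∧ ∀ c ∈ Q, x * c * x⁻¹ = c⁻¹ := fun {Q} hQ x hx hc => by
      rcases h' hQ hx with h1 | ⟨n, r, s, D⟩
      · exact absurd (fun c hc => comm_of_isCyclic h1 (mem_sup_left hc) (mem_sup_right (mem_zpowers x))) hc
      have hr : ∀ c ∈ Q, ∃ j : ℤ, r ^ j = c := fun c hc => by
        by_cases h2 : c * c = 1
        · exact ⟨0, by rw [odd hQ c hc h2, zpow_zero]⟩
        · exact D.mem_zpowers_of_sq_ne_one (mem_sup_left hc) h2
      obtain ⟨i, rfl | rfl⟩ := (D.mem x).1 (mem_sup_right (mem_zpowers x))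
      · refine absurd (fun c hc => ?_) hc
        obtain ⟨j, rfl⟩ := hr c hc
        rw [← zpow_add, ← zpow_add, add_comm]
      · refine ⟨D.orderOf_rpows i, fun c hc => ?_⟩
        obtain ⟨j, rfl⟩ := hr c hc
        rw [D.rpows_conj_rpow, zpow_neg]
    refine ⟨?_, ?_⟩
    · rcases h' P.2 (one_mem _) with h1 | ⟨n, r, s, D⟩
      · rwa [zpowers_one_eq_bot, sup_bot_eq] at h1
      · rw [zpowers_one_eq_bot, sup_bot_eq] at D
        exact absurd (odd P.2 s D.s_mem D.ss ▸ one_mem _) D.notMem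
    rw [or_iff_not_imp_left]
    intro hne
    obtain ⟨x0, hx0, hx0'⟩ := SetLike.not_le_iff_exists.1 fun hle =>
      hne (le_antisymm hle (centralizer_le_normalizer _))
    obtain ⟨o0, i0⟩ := key P.2 hx0 hx0'
    refine ⟨relIndex_eq_two_of_mem_iff hx0' fun g => ⟨fun hg => ?_, ?_⟩, fun Q hQ hc => ?_⟩
    · rw [or_iff_not_imp_left]
      refine fun hg' => ⟨g * x0⁻¹, fun c hc => ?_, by group⟩
      have e1 := (key P.2 hg hg').2 _ (inv_mem hc)
      have e2 := i0 _ (inv_mem hc)
      rw [inv_inv] at e1 e2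
      calc c * (g * x0⁻¹) = g * c⁻¹ * g⁻¹ * (g * x0⁻¹) := by rw [e1]
        _ = g * x0⁻¹ * (x0 * c⁻¹ * x0⁻¹) := by group
        _ = _ := by rw [e2]
    · rintro (hg | ⟨c, hc, rfl⟩)
      exacts [centralizer_le_normalizer _ hg, mul_mem (centralizer_le_normalizer _ hc) hx0]
    have hQp : IsPGroup p Q := P.2.to_le hQ
    have k2 : ∀ x ∈ normalizer (Q : Set G), x ∉ centralizer (Q : Set G) →
        orderOf x = 2 ∧ ∀ c ∈ centralizer (Q : Set G), x * c * x⁻¹ = c⁻¹ := fun x hx hx' => by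
      have o1 := (key hQp hx hx').1
      refine ⟨o1, fun c hc => ?_⟩
      have o2 := (key hQp (mul_mem hx (centralizer_le_normalizer _ hc))
        fun h => hx' ((mul_mem_cancel_right hc).1 h)).1
      have s1 : x * x = 1 := by rw [← sq, ← o1, pow_orderOf_eq_one]
      have s2 : x * c * (x * c) = 1 := by rw [← sq, ← o2, pow_orderOf_eq_one]
      rw [inv_eq_of_mul_eq_one_right s1, eq_inv_iff_mul_eq_one, mul_assoc, s2]
    refine ⟨⟨⟨fun a b => Subtype.ext ?_⟩⟩, k2⟩
    have hx1 : x0 ∈ normalizer (Q : Set G) := mem_normalizer_fintype fun c hc => i0 c (hQ hc) ▸ inv_mem hc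
    have hx2 : x0 ∉ centralizer (Q : Set G) := fun h0 => by
      have : Q = ⊥ := eq_bot_iff.2 fun c hc => odd hQp c hc (by
        have := i0 c (hQ hc)
        rw [← h0 c hc, mul_inv_cancel_right] at this
        exact mul_eq_one_iff_eq_inv.2 this)
      rw [this, card_bot] at hc
      exact hpp.one_lt.ne hc
    have k3 := (k2 x0 hx1 hx2).2
    have := k3 _ (mul_mem b.2 a.2)
    rw [← conj_mul, k3 _ a.2, k3 _ b.2, ← mul_inv_rev, inv_inj] at this
    exact this
  · rintro ⟨hP, h⟩ H h1 h2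
    obtain ⟨S, x, hS, hSH, hx, hn, hco, hg⟩ := PC.exists ⟨h1, h2⟩
    obtain ⟨r, n, hr, rfl⟩ := exists_gen P hP hS
    have hrH := hSH (mem_zpowers r)
    have cyc : r * x = x * r → IsCyclic H := fun e =>
      isCyclic_of hrH hx e (hr ▸ hco.pow_right n) hg
    rcases h with h | ⟨-, h⟩
    · left
      have hP' := h.le
      have m1 : x ∈ (MonoidHom.transferSylow P hP').ker := by
        obtain ⟨k, hk⟩ := P.2.exists_orderOf_eq_pow (MonoidHom.transferSylow P hP' x)
        rw [MonoidHom.mem_ker, ← orderOf_eq_one_iff]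
        exact Nat.eq_one_of_dvd_coprimes (hco.pow_right k) (orderOf_map_dvd _ x) (hk ▸ dvd_rfl)
      have m2 : r * x * r⁻¹ * x⁻¹ ∈ (MonoidHom.transferSylow P hP').ker :=
        mul_mem ((MonoidHom.normal_ker _).conj_mem x m1 r) (inv_mem m1)
      have m3 : r * x * r⁻¹ * x⁻¹ ∈ zpowers r := by
        have := mul_mem (mem_zpowers r) (hn x hx _ (inv_mem (mem_zpowers r)))
        rwa [← mul_assoc, ← mul_assoc] at this
      have := disjoint_def.1 (MonoidHom.ker_transferSylow_disjoint P hP' _ hS) m2 m3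
      exact cyc (by rw [mul_inv_eq_one, mul_inv_eq_iff_eq_mul] at this; exact this)
    rcases n with _ | n
    · exact Or.inl (cyc (by rw [orderOf_eq_one_iff.1 hr, one_mul, mul_one]))
    set q := r ^ p ^ n with hq
    have oq : orderOf q = p := by
      rw [hq, orderOf_pow' _ (pow_ne_zero _ hpp.ne_zero), hr, pow_succ, Nat.gcd_mul_right_left,
        Nat.mul_div_cancel_left _ (pow_pos hpp.pos _)]
    obtain ⟨g, hgP⟩ := CfsgLib.SylTools.exists_conj_le_sylow hS P
    obtain ⟨c1, c2⟩ := h (zpowers (g * q * g⁻¹)) (zpowers_le_of_mem (hgP _ (pow_mem (mem_zpowers r) _)))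
      (by rw [Nat.card_zpowers, ← oq]; exact (MulAut.conj g).orderOf_eq q)
    have mcz : ∀ {c : G}, g * c * g⁻¹ ∈ centralizer (zpowers (g * q * g⁻¹) : Set G) ↔ c * q = q * c := fun {c} => by
      rw [zpowers_eq_closure, centralizer_closure, mem_centralizer_singleton_iff, conj_mul, conj_mul, mul_left_inj,
        mul_right_inj]
    have rq : r * q = q * r := (Commute.self_pow r _).eq
    by_cases hxq : x * q = q * x
    · left
      have := congrArg Subtype.val (c1.is_comm.comm ⟨_, mcz.2 rq⟩ ⟨_, mcz.2 hxq⟩)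
      simp only [coe_mul, conj_mul, mul_left_inj, mul_right_inj] at this
      exact cyc this
    right
    obtain ⟨o, iv⟩ := c2 (g * x * g⁻¹) (mem_normalizer_zpowers (by
      obtain ⟨i, hi⟩ := hn x hx r (mem_zpowers r)
      refine ⟨i, ?_⟩
      have : x * q * x⁻¹ = q ^ i := by
        rw [hq, ← conj_pow, ← hi, ← zpow_natCast, ← zpow_natCast, ← zpow_mul, ← zpow_mul, mul_comm]
      show (g * q * g⁻¹) ^ i = _
      rw [conj_zpow, ← this]; group)) fun h => hxq (mcz.1 h)
    have ox : orderOf x = 2 := o ▸ ((MulAut.conj g).orderOf_eq x).symm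
    have xx : x * x = 1 := by rw [← sq, ← ox, pow_orderOf_eq_one]
    have ir : x * r * x⁻¹ = r⁻¹ := by
      have := iv _ (mcz.2 rq)
      calc x * r * x⁻¹ = g⁻¹ * (g * x * g⁻¹ * (g * r * g⁻¹) * (g * x * g⁻¹)⁻¹) * g := by group
        _ = r⁻¹ := by rw [this]; group
    have nx : x ∉ zpowers r := by
      rintro ⟨i, rfl⟩
      exact hxq ((Commute.zpow_self r i).pow_right _).eq
    refine ⟨n + 1, nonempty_mulEquiv_dihedral hr xx ir nx fun y => ?_⟩
    rw [← mem_zpowers_sup_zpowers_iff (mem_normalizer_zpowers_of_inv ir) (xx ▸ one_mem _)]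
    refine ⟨fun hy => ?_, fun hy => sup_le hSH (zpowers_le_of_mem hx) hy⟩
    obtain ⟨s, hs, i, rfl⟩ := hg y hy
    exact mul_mem (mem_sup_left hs) (mem_sup_right (zpow_mem (mem_zpowers x) i))

end Cfsg.Agent.S4082
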