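import Mathlib
import Cfsg.Statements.S4083
import Cfsg.Agent.Lib.PByCyc.Basic
import Cfsg.Agent.Lib.Dickson.Cayley

set_option autoImplicit false
open Cfsg

namespace Cfsg.Agent.S4083

open Subgroup CfsgLib.PByCyc CfsgLib.DihSyl CfsgLib.TwoGrp

theorem sub_dih {G : Type*} [Group G] [Finite G] {D S : Subgroup G} {n : ℕ} {r s : G} (h : IsDih D n r s)
    (hS : S ≤ D) : (∃ a, S = zpowers a) ∨ ∃ a t, IsDih S (orderOf a) a t := by
  obtain ⟨d, -, hd⟩ := exists_dvd_zpow_mem_iff r S
  have e : ∀ i : ℤ, r ^ i ∈ S → ∃ j : ℤ, r ^ i = (r ^ (d : ℤ)) ^ j := fun i hi => by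
    obtain ⟨j, rfl⟩ := (hd i).1 hi
    exact ⟨j, zpow_mul _ _ _⟩
  have m : ∀ j : ℤ, (r ^ (d : ℤ)) ^ j ∈ S := fun j => zpow_mem ((hd d).2 dvd_rfl) j
  by_cases ht : ∃ i : ℤ, r ^ i * s ∈ S
  · obtain ⟨i, hi⟩ := ht
    refine Or.inr ⟨r ^ (d : ℤ), r ^ i * s, rfl, h.rpows_sq i, by rw [h.rpows_conj_rpow, zpow_neg],
      fun hm => h.rpows_notMem i (zpowers_le_of_mem (zpow_mem (mem_zpowers r) _) hm), fun g => ⟨fun hg => ?_, ?_⟩⟩
    · obtain ⟨k, rfl | rfl⟩ := (h.mem g).1 (hS hg)
      · exact (e k hg).imp fun j hj => Or.inl hj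
      · obtain ⟨j, hj⟩ := e (k - i) (h.rpows_mul_rpows k i ▸ mul_mem hg hi)
        exact ⟨j, Or.inr (by rw [← hj, ← mul_assoc, ← zpow_add, sub_add_cancel])⟩
    · rintro ⟨j, rfl | rfl⟩
      exacts [m j, mul_mem (m j) hi]
  · refine Or.inl ⟨r ^ (d : ℤ), le_antisymm (fun g hg => ?_) (zpowers_le_of_mem ((hd d).2 dvd_rfl))⟩
    obtain ⟨k, rfl | rfl⟩ := (h.mem g).1 (hS hg)
    · obtain ⟨j, hj⟩ := e k hg
      exact ⟨j, hj.symm⟩
    · exact absurd ⟨k, hg⟩ ht

theorem a4_cen : ∀ a : alternatingGroup (Fin 4), (∀ b, a * b = b * a) → a = 1 := by decide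

/-- Let G be a finite group with Sylow 2-subgroup P. Every subgroup H of G whose Sylow 2-subgroup is normal in H with cyclic quotient is cyclic, dihedral of 2-power order, or isomorphic to the alternating group of degree 4, if and only if either P is cyclic, or P is dihedral (of order at least 4) and every elementary abelian subgroup K of order 4 of P satisfies C_G(K) = K. -/
theorem result {G : Type*} [Group G] [Finite G] (P : Sylow 2 G) :
    (∀ H : Subgroup G, (∀ S : Sylow 2 ↥H, (S : Subgroup ↥H).Normal) →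
        (∀ (S : Sylow 2 ↥H) [(S : Subgroup ↥H).Normal], IsCyclic (↥H ⧸ (S : Subgroup ↥H))) →
        IsCyclic H ∨ (∃ n : ℕ, Nonempty (H ≃* DihedralGroup (2 ^ n))) ∨ Nonempty (H ≃* alternatingGroup (Fin 4))) ↔
    (IsCyclic P ∨
      ((∃ n : ℕ, 1 ≤ n ∧ Nonempty ((P : Subgroup G) ≃* DihedralGroup (2 ^ n))) ∧
        ∀ K : Subgroup G, K ≤ P → Nat.card K = 4 → (∀ k ∈ K, k ^ 2 = 1) → Subgroup.centralizer (K : Set G) = K)) := by
  have dih : ∀ {S : Subgroup G} {n : ℕ} {a t : G}, IsDih S n a t → Nonempty (S ≃* DihedralGroup n) := fun D =>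
    nonempty_mulEquiv_dihedral D.ord D.ss D.conj D.notMem D.mem
  constructor
  · intro h
    have h' : ∀ {Q : Subgroup G} (hQ : IsPGroup 2 Q) {x : G}, x ∈ normalizer (Q : Set G) → _ := fun hQ x hx =>
      h _ (pc_sup hQ hx).1 (pc_sup hQ hx).2
    rw [or_iff_not_imp_left]
    refine fun hc => ⟨?_, fun K hK h4 h2 => ?_⟩
    · have := h' P.2 (one_mem _)
      rw [zpowers_one_eq_bot, sup_bot_eq] at this
      rcases this with h1 | ⟨n, ⟨e⟩⟩ | ⟨⟨e⟩⟩
      · exact absurd h1 hc
      · refine ⟨n, Nat.pos_of_ne_zero ?_, ⟨e⟩⟩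
        rintro rfl
        exact hc (isCyclic_of_prime_card (p := 2) (by rw [Nat.card_congr e.toEquiv, DihedralGroup.nat_card]; rfl))
      · obtain ⟨k, hk⟩ := IsPGroup.iff_card.1 P.2
        rw [Nat.card_congr e.toEquiv, alternatingGroup.card_of_card_eq_four (by simp)] at hk
        have : 3 ∣ 2 ^ k := hk ▸ (by norm_num)
        exact absurd (Nat.prime_three.dvd_of_dvd_pow this) (by norm_num)
    have hK4 : IsKleinFour K := ⟨h4, by
      have : Nontrivial K := Finite.one_lt_card_iff_nontrivial.1 (by omega)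
      exact (Monoid.exponent_eq_prime_iff Nat.prime_two).2 fun g hg =>
        orderOf_eq_prime (Subtype.ext (h2 g g.2)) hg⟩
    refine le_antisymm (fun x hx => ?_) fun a ha b hb => comm_of_isKleinFour hK4 hb ha
    have hcen : ∀ k ∈ K, ∀ y ∈ K ⊔ zpowers x, k * y = y * k := fun k hk y hy =>
      (mem_centralizer_singleton_iff.1 ((sup_le
        (fun b hb => mem_centralizer_singleton_iff.2 (comm_of_isKleinFour hK4 hb hk))
        (zpowers_le_of_mem (mem_centralizer_singleton_iff.2 (hx k hk).symm)) : _ ≤ centralizer {k}) hy)).symm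
    rcases h' (P.2.to_le hK) (centralizer_le_normalizer _ hx) with h1 | ⟨n, ⟨e⟩⟩ | ⟨⟨e⟩⟩
    · exact absurd (isCyclic_of_le (H' := K ⊔ zpowers x) le_sup_left) (IsKleinFour.not_isCyclic)
    · obtain ⟨r, s, D⟩ := exists_isDih e
      exact D.mem_of_commute_four le_sup_left hK4 (mem_sup_right (mem_zpowers x)) hx
    · obtain ⟨a, -, ha, -, ha1, -⟩ := exists_gens_of_isKleinFour hK4
      have := a4_cen (e ⟨a, mem_sup_left ha⟩) fun b => by
        obtain ⟨b, rfl⟩ := e.surjective b
        rw [← map_mul, ← map_mul]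
        exact congrArg e (Subtype.ext (hcen a ha b b.2))
      exact absurd (congrArg Subtype.val (e.map_eq_one_iff.1 this)) ha1
  · rintro h H h1 h2
    obtain ⟨S, x, hS, hSH, hx, hn, hco, hg⟩ := PC.exists ⟨h1, h2⟩
    have ho : Odd (orderOf x) := Nat.coprime_two_right.1 hco
    have cyc : ∀ a, S = zpowers a → IsCyclic H := by
      rintro a rfl
      obtain ⟨k, hk⟩ := hS.exists_orderOf_eq_pow ⟨a, mem_zpowers a⟩
      rw [orderOf_mk] at hk
      have := commute_of_odd_of_conj_mem_zpowers ho (hk ▸ pow_orderOf_eq_one a) (hn x hx a (mem_zpowers a))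
      exact isCyclic_of (hSH (mem_zpowers a)) hx (mul_inv_eq_iff_eq_mul.1 this).symm (hk ▸ hco.pow_right k) hg
    rcases h with hP | ⟨⟨n, -, ⟨e⟩⟩, hC⟩
    · obtain ⟨r, n, -, hr⟩ := exists_gen P hP hS
      exact Or.inl (cyc r hr)
    have hC' : ∀ K : Subgroup G, IsKleinFour K → ∀ y, (∀ k ∈ K, k * y = y * k) → y ∈ K := fun K hK y hy => by
      obtain ⟨g, hgP⟩ := CfsgLib.SylTools.exists_conj_le_sylow (IsPGroup.of_card (n := 2) hK.card_four) P
      have := (hC (K.map (MulAut.conj g).toMonoidHom) (by rintro _ ⟨k, hk, rfl⟩; exact hgP k hk)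
        (by rw [card_map_of_injective (MulAut.conj g).injective, hK.card_four])
        (by rintro _ ⟨k, hk, rfl⟩; rw [← map_pow, sq, mul_self_of_isKleinFour hK hk, map_one])).le
        (show MulAut.conj g y ∈ _ by
          rintro _ ⟨k, hk, rfl⟩
          exact (map_mul (MulAut.conj g) k y).symm.trans (hy k hk ▸ map_mul (MulAut.conj g) y k))
      obtain ⟨k, hk, e⟩ := this
      exact (MulAut.conj g).injective e ▸ hk
    obtain ⟨g, hgP⟩ := CfsgLib.SylTools.exists_conj_le_sylow hS P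
    have e' : ((P : Subgroup G).map (MulAut.conj g⁻¹).toMonoidHom) ≃* DihedralGroup (2 ^ n) :=
      ((P : Subgroup G).equivMapOfInjective _ (MulAut.conj g⁻¹).injective).symm.trans e
    obtain ⟨r, s, D⟩ := exists_isDih e'
    rcases sub_dih D (S := S) (fun a ha => ⟨_, hgP a ha, by simp [mul_assoc]⟩) with ⟨a, ha⟩ | ⟨a, t, E⟩
    · exact Or.inl (cyc a ha)
    obtain ⟨k, hk⟩ := E.exists_pow_of_isPGroup hS
    have hxn : x ∈ normalizer (S : Set G) := mem_normalizer_fintype (hn x hx)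
    have fin : x ∈ S → ∃ n : ℕ, Nonempty (H ≃* DihedralGroup (2 ^ n)) := fun hxS => by
      have : H = S := le_antisymm (fun y hy => by
        obtain ⟨s, hs, i, rfl⟩ := hg y hy
        exact mul_mem hs (zpow_mem hxS i)) hSH
      exact ⟨k, this ▸ hk ▸ dih E⟩
    by_cases h4 : IsKleinFour S
    · by_cases hxS : x ∈ S
      · exact Or.inr (Or.inl (fin hxS))
      obtain ⟨u, hu, hux⟩ : ∃ u ∈ S, u * x ≠ x * u := by
        by_contra hc
        push Not at hc
        exact hxS (hC' S h4 x hc)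
      have u1 : u ≠ 1 := by rintro rfl; simp at hux
      obtain ⟨v, hv⟩ : ∃ v, v = x * u * x⁻¹ := ⟨_, rfl⟩
      have vS : v ∈ S := hv ▸ hn x hx u hu
      have v1 : v ≠ 1 := fun h => u1 (by rw [hv] at h; simpa using h)
      have uv : u ≠ v := fun h => hux (by rw [hv, eq_mul_inv_iff_mul_eq] at h; exact h)
      have ms := mem_iff_of_isKleinFour h4 hu vS u1 v1 uv
      have uu := mul_self_of_isKleinFour h4 hu
      have vv := mul_self_of_isKleinFour h4 vS
      have cuv := comm_of_isKleinFour h4 hu vS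
      have e1 : x * v * x⁻¹ = u * v := by
        rcases (ms _).1 (hn x hx v vS) with h | h | h | h
        · exact absurd (by simpa using h) v1
        · refine absurd ?_ hux
          have h2 : Commute u (x ^ 2) := by
            show u * x ^ 2 = x ^ 2 * u
            conv_lhs => rw [← h, hv]
            rw [sq]; group
          obtain ⟨i, hi⟩ : x ∈ zpowers (x ^ 2) := mem_zpowers_pow_iff.2 hco.symm
          exact hi ▸ (h2.zpow_right i).eq
        · refine absurd ?_ uv
          rw [hv, mul_left_inj, mul_right_inj] at h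
          rw [hv, h]
        · exact h
      have e2 : x * (u * v) * x⁻¹ = u := by rw [← conj_mul, ← hv, e1, cuv, ← mul_assoc, vv, one_mul]
      have cu : u * x ^ 3 = x ^ 3 * u := by
        conv_lhs => rw [← e2, ← e1, hv]
        rw [pow_three]; group
      have cv : v * x ^ 3 = x ^ 3 * v := by
        rw [hv]
        calc _ = x * (u * x ^ 3) * x⁻¹ := by group
          _ = _ := by rw [cu]; group
      have x3 : x ^ 3 = 1 := eq_one_of_odd_of_two_pow (k := 1) ho
        (by rw [← pow_mul, mul_comm, pow_mul, pow_orderOf_eq_one, one_pow]) (by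
          rw [pow_one, sq]
          refine mul_self_of_isKleinFour h4 (hC' S h4 _ fun k hk => ?_)
          rcases (ms k).1 hk with rfl | rfl | rfl | rfl
          exacts [by simp, cu, cv, by rw [mul_assoc, cv, ← mul_assoc, cu, mul_assoc]])
      obtain ⟨φ, f1, f2⟩ := CfsgLib.Dickson.exists_hom_A4 (a := u) (b := x) (by rw [sq, uu]) x3 (by
        calc (u * x) ^ 3 = u * (x * u * x⁻¹) * (x * (x * u * x⁻¹) * x⁻¹) * x ^ 3 := by rw [pow_three, pow_three]; group
          _ = 1 := by rw [← hv, e1, x3, mul_one, mul_self_of_isKleinFour h4 (mul_mem hu vS)])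
      have mu : u ∈ φ.range := ⟨_, f1⟩
      have mx : x ∈ φ.range := ⟨_, f2⟩
      have mv : v ∈ φ.range := hv ▸ mul_mem (mul_mem mx mu) (inv_mem mx)
      have : H = φ.range := by
        refine le_antisymm (fun y hy => ?_) ?_
        · obtain ⟨s, hs, i, rfl⟩ := hg y hy
          refine mul_mem ?_ (zpow_mem mx i)
          rcases (ms s).1 hs with rfl | rfl | rfl | rfl
          exacts [one_mem _, mu, mv, mul_mem mu mv]
        · rintro _ ⟨y, rfl⟩
          exact (CfsgLib.Dickson.a4_gen (K := H.comap φ) (show φ _ ∈ H from f1 ▸ hSH hu)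
            (show φ _ ∈ H from f2 ▸ hx)).ge (mem_top y)
      exact Or.inr (Or.inr ⟨this ▸ (MonoidHom.ofInjective (CfsgLib.Dickson.a4_hom_injective φ (f1 ▸ u1))).symm⟩)
    have hc := E.mem_centralizer_of_odd hk le_rfl ho hxn (Or.inl h4)
    rcases k with _ | k
    · refine Or.inl (cyc t (le_antisymm (fun y hy => ?_) (zpowers_le_of_mem E.s_mem)))
      have a1 : a = 1 := orderOf_eq_one_iff.1 hk
      obtain ⟨i, rfl | rfl⟩ := (E.mem y).1 hy <;> simp [a1]
    obtain ⟨z1, z2⟩ := E.half (m := 2 ^ k) (by rw [hk, pow_succ']) (by positivity)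
    obtain ⟨k4, kle, -⟩ := E.isKleinFour_sup (zpow_mem (mem_zpowers a) _) z1 z2 0
    exact Or.inr (Or.inl (fin (kle (hC' _ k4 x fun y hy => hc y (kle hy)))))

end Cfsg.Agent.S4083
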