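import Cfsg.Statements.S4084
import Mathlib

set_option autoImplicit false
open Cfsg

namespace Cfsg.Agent.S4084

theorem aux {G H : Type*} [Group G] [Finite G] [Group H] [Finite H] (e : G ≃ H)
    (he : ∀ x y : G, Commute x y ↔ Commute (e x) (e y))
    {p q : ℕ} (hp : p.Prime) (hq : q.Prime) (hpq : p ≠ q) (g : G) (hg : orderOf g = p * q) :
    ∃ h : H, orderOf h = p * q := by
  let Z : Subgroup G := Subgroup.centralizer (Subgroup.centralizer ({g} : Set G) : Set G)
  let W : Subgroup H := Subgroup.centralizer (Subgroup.centralizer ({e g} : Set H) : Set H)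
  have hZW : ∀ x : G, x ∈ Z ↔ e x ∈ W := by
    intro x
    simp only [Z, W, Subgroup.mem_centralizer_iff, SetLike.mem_coe, Set.mem_singleton_iff,
      forall_eq]
    constructor
    · intro h y hy
      obtain ⟨y, rfl⟩ := e.surjective y
      exact (he _ _).1 (h y ((he _ _).2 hy))
    · intro h y hy
      exact (he _ _).2 (h (e y) ((he _ _).1 hy))
  have hcard : Nat.card Z = Nat.card W := Nat.card_congr (e.subtypeEquiv hZW)
  have hgZ : g ∈ Z := by
    intro y hy
    exact Subgroup.mem_centralizer_singleton_iff.1 hy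
  have hdvd : p * q ∣ Nat.card W := by
    rw [← hcard, ← hg]
    exact Subgroup.orderOf_dvd_natCard Z hgZ
  haveI := Fact.mk hp
  haveI := Fact.mk hq
  obtain ⟨a, ha⟩ := exists_prime_orderOf_dvd_card' (G := W) p ((Dvd.intro _ rfl).trans hdvd)
  obtain ⟨b, hb⟩ := exists_prime_orderOf_dvd_card' (G := W) q ((Dvd.intro_left _ rfl).trans hdvd)
  have hWle : W ≤ Subgroup.centralizer ({e g} : Set H) := by
    intro w hw
    rw [Subgroup.mem_centralizer_singleton_iff]
    exact (hw (e g) (Subgroup.mem_centralizer_singleton_iff.2 rfl)).symm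
  have hab : Commute (a : H) (b : H) := b.2 a (hWle a.2)
  refine ⟨a * b, ?_⟩
  rw [hab.orderOf_mul_eq_mul_orderOf_of_coprime, Subgroup.orderOf_coe, Subgroup.orderOf_coe, ha, hb]
  rw [Subgroup.orderOf_coe, Subgroup.orderOf_coe, ha, hb]
  exact (Nat.coprime_primes hp hq).2 hpq

/-- Let G and H be finite groups whose commuting graphs are isomorphic: there is a bijection e : G → H with x, y commuting exactly when e(x), e(y) commute. Then G and H have the same prime graph: for distinct primes p, q, G has an element of order pq if and only if H does (and #G = #H, so the prime divisors agree). -/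
theorem result {G H : Type*} [Group G] [Finite G] [Group H] [Finite H] (e : G ≃ H)
    (he : ∀ x y : G, Commute x y ↔ Commute (e x) (e y))
    {p q : ℕ} (hp : p.Prime) (hq : q.Prime) (hpq : p ≠ q) :
    (∃ g : G, orderOf g = p * q) ↔ (∃ h : H, orderOf h = p * q) := by
  constructor
  · rintro ⟨g, hg⟩
    exact aux e he hp hq hpq g hg
  · rintro ⟨h, hh⟩
    refine aux e.symm ?_ hp hq hpq h hh
    intro x y
    rw [he]; simp

end Cfsg.Agent.S4084
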