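import Cfsg.Statements.S4085
import Mathlib

set_option autoImplicit false
open Cfsg

namespace Cfsg.Agent.S4085

open Subgroup

/-- adjacency in the power graph -/
def Adj {G : Type*} [Group G] (x y : G) : Prop := x ∈ zpowers y ∨ y ∈ zpowers x

section
variable {G : Type*} [Group G]

theorem Adj.symm {x y : G} (h : Adj x y) : Adj y x := Or.symm h

theorem adj_one (x : G) : Adj 1 x := Or.inl (one_mem _)

theorem Adj.dvd {x y : G} (h : Adj x y) : orderOf x ∣ orderOf y ∨ orderOf y ∣ orderOf x :=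
  h.imp orderOf_dvd_of_mem_zpowers orderOf_dvd_of_mem_zpowers

variable [Finite G]

theorem zp_eq {x y : G} (h : x ∈ zpowers y) (ho : orderOf y ≤ orderOf x) :
    zpowers x = zpowers y :=
  eq_of_le_of_card_ge (zpowers_le_of_mem h) (by rwa [Nat.card_zpowers, Nat.card_zpowers])

theorem Adj.mem {x y : G} (h : Adj x y) (ho : orderOf x ≤ orderOf y) : x ∈ zpowers y :=
  h.elim id fun h => zp_eq h ho ▸ mem_zpowers x

theorem exists_ord (x : G) {d : ℕ} (h : d ∣ orderOf x) : ∃ z ∈ zpowers x, orderOf z = d := by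
  obtain ⟨k, hk⟩ := h
  have hk0 : k ≠ 0 := by
    rintro rfl
    exact (orderOf_pos x).ne' (by simpa using hk)
  refine ⟨x ^ k, npow_mem_zpowers x k, ?_⟩
  rw [orderOf_pow' _ hk0, hk, Nat.gcd_eq_right (Dvd.intro_left _ rfl),
    Nat.mul_div_cancel _ (Nat.pos_of_ne_zero hk0)]

theorem ncard_gen (x : G) :
    {z | z ∈ zpowers x ∧ orderOf z = orderOf x}.ncard = (orderOf x).totient := by
  classical
  haveI := Fintype.ofFinite (zpowers x)
  have h1 := IsCyclic.card_orderOf_eq_totient (α := zpowers x) (d := orderOf x)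
    (by rw [← Nat.card_eq_fintype_card, Nat.card_zpowers])
  rw [← h1, ← Set.ncard_coe_finset]
  symm
  refine Set.ncard_congr (fun a _ => (a : G)) ?_ ?_ ?_
  · intro a ha
    simp only [Finset.coe_filter, Finset.mem_univ, true_and, Set.mem_setOf_eq] at ha
    exact ⟨a.2, by rw [orderOf_coe, ha]⟩
  · intro a b _ _ h; exact Subtype.ext h
  · rintro b ⟨h1, h2⟩
    refine ⟨⟨b, h1⟩, ?_, rfl⟩
    simp only [Finset.coe_filter, Finset.mem_univ, true_and, Set.mem_setOf_eq]
    rw [← h2]; exact (orderOf_coe (⟨b, h1⟩ : zpowers x)).symm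

end

theorem inc_prime {r t k : ℕ} (hr : r.Prime) (ht : t.Prime) (hne : r ≠ t) (hk : k ≠ 0) :
    ¬ (r ^ k ∣ t ∨ t ∣ r ^ k) := by
  rintro (h | h)
  · exact hne ((Nat.prime_dvd_prime_iff_eq hr ht).mp ((dvd_pow_self r hk).trans h))
  · exact hne ((Nat.prime_dvd_prime_iff_eq ht hr).mp (ht.dvd_of_dvd_pow h)).symm

theorem exists_inc {n d p q : ℕ} (hp : p.Prime) (hq : q.Prime) (hne : p ≠ q) (h1 : p ∣ n)
    (h2 : q ∣ n) (hd : d ∣ n) (hd1 : d ≠ 1) (hdn : d ≠ n) :
    ∃ r k : ℕ, r.Prime ∧ k ≠ 0 ∧ r ^ k ∣ n ∧ ¬ (d ∣ r ^ k ∨ r ^ k ∣ d) := by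
  have h3 : ¬ n ∣ d := fun h => hdn (Nat.dvd_antisymm hd h)
  rw [Nat.dvd_iff_prime_pow_dvd_dvd] at h3
  push Not at h3
  obtain ⟨r, k, hr, h4, h5⟩ := h3
  by_cases h6 : d ∣ r ^ k
  · obtain ⟨j, -, rfl⟩ := (Nat.dvd_prime_pow hr).mp h6
    have hj : j ≠ 0 := by rintro rfl; exact hd1 rfl
    by_cases e : r = p
    · exact ⟨q, 1, hq, one_ne_zero, by simpa using h2, by
        simpa only [pow_one] using inc_prime hr hq (e ▸ hne) hj⟩
    · exact ⟨p, 1, hp, one_ne_zero, by simpa using h1, by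
        simpa only [pow_one] using inc_prime hr hp e hj⟩
  · exact ⟨r, k, hr, by rintro rfl; exact h5 (by simp), h4, fun h => h.elim h6 h5⟩

theorem main {G H : Type*} [Group G] [Finite G] [Group H] [Finite H] (e : G ≃ H)
    (he : ∀ x y : G, Adj x y ↔ Adj (e x) (e y)) (h1 : e 1 = 1) {p q : ℕ} (hp : p.Prime)
    (hq : q.Prime) (hpq : p < q) {g : G} (hg : orderOf g = p * q) :
    ∃ h : H, orderOf h = p * q := by
  obtain ⟨x, hgx, hx⟩ := Set.exists_max_image {x : G | g ∈ zpowers x} orderOf (Set.toFinite _)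
    ⟨g, mem_zpowers g⟩
  have hgx' : g ∈ zpowers x := hgx
  have hn : p * q ∣ orderOf x := hg ▸ orderOf_dvd_of_mem_zpowers hgx
  have hx1 : x ≠ 1 := by
    rintro rfl
    rw [orderOf_one] at hn
    exact hp.one_lt.ne' (Nat.eq_one_of_mul_eq_one_right (Nat.dvd_one.mp hn))
  let U : Set G := {z | z = 1 ∨ (z ∈ zpowers x ∧ orderOf z = orderOf x)}
  have hU : ∀ z ∈ U, ∀ w ∈ zpowers x, Adj z w := by
    rintro z (rfl | ⟨h2, h3⟩) w hw
    · exact adj_one w
    · exact Or.inr (zp_eq h2 h3.ge ▸ hw)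
  have hUC : ∀ z ∈ U, z ∈ zpowers x := by
    rintro z (rfl | ⟨h2, -⟩)
    · exact one_mem _
    · exact h2
  obtain ⟨x₁, hx₁U, hx₁⟩ := Set.exists_max_image U (fun z => orderOf (e z)) (Set.toFinite _)
    ⟨1, Or.inl rfl⟩
  have hUy : ∀ z ∈ U, e z ∈ zpowers (e x₁) := fun z hz =>
    ((he _ _).mp (hU z hz x₁ (hUC _ hx₁U))).mem (hx₁ z hz)
  have hx₁' : x₁ ∈ zpowers x ∧ orderOf x₁ = orderOf x := by
    refine hx₁U.resolve_left fun h => hx1 ?_
    have := hUy x (Or.inr ⟨mem_zpowers x, rfl⟩)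
    rw [h, h1, zpowers_one_eq_bot, mem_bot, ← h1] at this
    exact e.injective this
  have hC : zpowers x₁ = zpowers x := zp_eq hx₁'.1 hx₁'.2.ge
  have hadj : ∀ z, Adj x₁ z → z ∈ zpowers x := by
    rintro z (h | h)
    · have h2 : x ∈ zpowers z := zpowers_le_of_mem h (hC ▸ mem_zpowers x)
      exact zp_eq h2 (hx z (zpowers_le_of_mem h2 hgx')) ▸ mem_zpowers z
    · exact hC ▸ h
  have hup : ∀ w ∈ zpowers x, e w ∉ zpowers (e x₁) → e x₁ ∈ zpowers (e w) := fun w hw h =>
    ((he _ _).mp (hU x₁ hx₁U w hw)).resolve_right h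
  have hside : ∀ z ∈ zpowers x, ∀ w ∈ zpowers x,
      ¬ (orderOf z ∣ orderOf w ∨ orderOf w ∣ orderOf z) →
      (e z ∈ zpowers (e x₁) ↔ e w ∈ zpowers (e x₁)) := by
    intro z hz w hw h
    constructor
    · intro h2
      by_contra h3
      exact h ((he _ _).mpr (Or.inl (zpowers_le_of_mem (hup w hw h3) h2))).dvd
    · intro h2
      by_contra h3
      exact h ((he _ _).mpr (Or.inr (zpowers_le_of_mem (hup z hz h3) h2))).dvd
  obtain ⟨a, hag, ha⟩ := exists_ord g (d := p) (hg ▸ Dvd.intro _ rfl)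
  obtain ⟨b, hbg, hb⟩ := exists_ord g (d := q) (hg ▸ Dvd.intro_left _ rfl)
  have hax : a ∈ zpowers x := zpowers_le_of_mem hgx' hag
  have hbx : b ∈ zpowers x := zpowers_le_of_mem hgx' hbg
  have hab : ¬ (p ∣ q ∨ q ∣ p) := by simpa only [pow_one] using inc_prime hp hq hpq.ne one_ne_zero
  have hR : ∀ z ∈ zpowers x, z ∉ U → (e z ∈ zpowers (e x₁) ↔ e a ∈ zpowers (e x₁)) := by
    intro z hz hzU
    obtain ⟨r, k, hr, hk, h2, h3⟩ := exists_inc hp hq hpq.ne ((Dvd.intro _ rfl).trans hn)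
      ((Dvd.intro_left _ rfl).trans hn) (orderOf_dvd_of_mem_zpowers hz)
      (fun h => hzU (Or.inl (orderOf_eq_one_iff.mp h))) (fun h => hzU (Or.inr ⟨hz, h⟩))
    obtain ⟨w, hw, hwo⟩ := exists_ord x h2
    rw [hside z hz w hw (hwo ▸ h3)]
    by_cases h4 : r = p
    · rw [hside w hw b hbx (by rw [hwo, hb]; exact inc_prime hr hq (h4 ▸ hpq.ne) hk),
        hside a hax b hbx (by rw [ha, hb]; exact hab)]
    · exact hside w hw a hax (by rw [hwo, ha]; exact inc_prime hr hp h4 hk)
  by_cases hA : e a ∈ zpowers (e x₁)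
  · have h2 : (zpowers (e x₁) : Set H) = e '' (zpowers x : Set G) := by
      ext y
      constructor
      · intro hy
        refine ⟨e.symm y, hadj _ ((he _ _).mpr ?_), e.apply_symm_apply y⟩
        rw [e.apply_symm_apply]; exact Or.inr hy
      · rintro ⟨z, hz, rfl⟩
        by_cases h : z ∈ U
        · exact hUy z h
        · exact (hR z hz h).mpr hA
    have h3 : orderOf (e x₁) = orderOf x := by
      rw [← Nat.card_zpowers, ← Nat.card_zpowers]
      change (zpowers (e x₁) : Set H).ncard = (zpowers x : Set G).ncard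
      rw [h2, Set.ncard_image_of_injective _ e.injective]
    obtain ⟨h, -, hh⟩ := exists_ord (e x₁) (h3 ▸ hn)
    exact ⟨h, hh⟩
  exfalso
  have hyU : ∀ y ∈ zpowers (e x₁), e.symm y ∈ U := by
    intro y hy
    by_contra h
    have h2 : e.symm y ∈ zpowers x := hadj _ ((he _ _).mpr (by
      rw [e.apply_symm_apply]; exact Or.inr hy))
    exact hA ((hR _ h2 h).mp (by rwa [e.apply_symm_apply]))
  have h2 : (orderOf x).totient + 1 ≤ orderOf (e x₁) := by
    rw [← ncard_gen x, ← Set.ncard_insert_of_notMem (a := 1) (fun h => hx1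
      (orderOf_eq_one_iff.mp (h.2.symm.trans orderOf_one))), ← Nat.card_zpowers (e x₁)]
    exact Set.ncard_le_ncard_of_injOn (t := (zpowers (e x₁) : Set H)) e
      (fun z hz => hUy z hz) e.injective.injOn
  have h3 : orderOf (e x₁) ≤ 2 * (orderOf (e x₁)).totient := by
    by_cases h : orderOf (e x₁) = 1
    · rw [h]; simp
    obtain ⟨r, hr, hrd⟩ := Nat.exists_prime_and_dvd h
    have h4 := Nat.eq_prime_pow_of_unique_prime_dvd (orderOf_pos (e x₁)).ne' (p := r)
      (fun {t} ht htd => by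
        obtain ⟨u, hu, huo⟩ := exists_ord _ hrd
        obtain ⟨v, hv, hvo⟩ := exists_ord _ htd
        have := (he _ _).mp (hU _ (hyU u hu) _ (hUC _ (hyU v hv)))
        rw [e.apply_symm_apply, e.apply_symm_apply] at this
        have h5 := this.dvd
        rw [huo, hvo, Nat.prime_dvd_prime_iff_eq hr ht, Nat.prime_dvd_prime_iff_eq ht hr] at h5
        exact h5.elim Eq.symm id)
    generalize (orderOf (e x₁)).primeFactorsList.length = k at h4
    rcases k with _ | k
    · exact absurd h4 h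
    rw [h4, Nat.totient_prime_pow_succ hr, pow_succ, mul_left_comm]
    have := hr.two_le
    exact Nat.mul_le_mul_left _ (by omega)
  have h4 : (orderOf (e a)).totient ≤ p - 1 := by
    rw [← ncard_gen, ← Nat.totient_prime hp, ← ha, ← ncard_gen]
    refine Set.ncard_le_ncard_of_injOn e.symm ?_ e.symm.injective.injOn
    rintro y ⟨hy1, hy2⟩
    have h5 := zp_eq hy1 hy2.ge
    have h6 : ∀ w, Adj (e.symm y) w ↔ Adj a w := fun w => by
      rw [he, he, e.apply_symm_apply]
      refine or_congr ?_ (by rw [h5])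
      rw [← zpowers_le, h5, zpowers_le]
    have h7 : ¬ q ∣ orderOf (e.symm y) := fun h => by
      obtain ⟨u, hu, huo⟩ := exists_ord _ h
      have := ((h6 u).mp (Or.inr hu)).dvd
      rw [ha, huo] at this
      exact hab this
    have h8 : orderOf (e.symm y) ∣ p := by
      have := ((h6 g).mpr (Or.inl hag)).dvd
      rw [hg] at this
      exact ((Nat.Prime.coprime_iff_not_dvd hq).mpr h7).symm.dvd_of_dvd_mul_right
        (this.resolve_right fun h => h7 ((Dvd.intro_left _ rfl).trans h))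
    have h9 : orderOf (e.symm y) = orderOf a := by
      rw [ha]
      refine ((Nat.dvd_prime hp).mp h8).resolve_left fun h => hab ?_
      have := ((h6 b).mp (orderOf_eq_one_iff.mp h ▸ adj_one b)).dvd
      rwa [ha, hb] at this
    exact ⟨((h6 a).mpr (Or.inl (mem_zpowers a))).mem h9.le, h9⟩
  have h5 := Nat.le_of_dvd (Nat.totient_pos.mpr (orderOf_pos _))
    (Nat.totient_dvd_of_dvd (orderOf_dvd_of_mem_zpowers (hup a hax hA)))
  have h6 := Nat.le_of_dvd (Nat.totient_pos.mpr (orderOf_pos _)) (Nat.totient_dvd_of_dvd hn)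
  rw [Nat.totient_mul ((Nat.coprime_primes hp hq).mpr hpq.ne), Nat.totient_prime hp,
    Nat.totient_prime hq] at h6
  have h7 : (p - 1) * 2 ≤ (p - 1) * (q - 1) :=
    Nat.mul_le_mul_left _ (by have := hp.two_le; omega)
  omega

theorem main' {G H : Type*} [Group G] [Finite G] [Group H] [Finite H] (e : G ≃ H)
    (he : ∀ x y : G, Adj x y ↔ Adj (e x) (e y)) {p q : ℕ} (hp : p.Prime)
    (hq : q.Prime) (hpq : p ≠ q) {g : G} (hg : orderOf g = p * q) :
    ∃ h : H, orderOf h = p * q := by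
  classical
  have hu : ∀ z, z = 1 ∨ z = e.symm 1 → ∀ w, Adj z w := by
    rintro z (rfl | rfl) w
    · exact adj_one w
    · rw [he, e.apply_symm_apply]; exact adj_one _
  have hs : ∀ z, z = 1 ∨ z = e.symm 1 → ∀ w, Adj (Equiv.swap 1 (e.symm 1) z) w := by
    rintro z (rfl | rfl)
    · rw [Equiv.swap_apply_left]; exact hu _ (Or.inr rfl)
    · rw [Equiv.swap_apply_right]; exact hu _ (Or.inl rfl)
  have he' : ∀ x y : G, Adj x y ↔ Adj (((Equiv.swap 1 (e.symm 1)).trans e) x)
      (((Equiv.swap 1 (e.symm 1)).trans e) y) := by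
    intro x y
    rw [Equiv.trans_apply, Equiv.trans_apply, ← he]
    by_cases hx : x = 1 ∨ x = e.symm 1
    · exact iff_of_true (hu x hx y) (hs x hx _)
    by_cases hy : y = 1 ∨ y = e.symm 1
    · exact iff_of_true (hu y hy x).symm (hs y hy _).symm
    push Not at hx hy
    rw [Equiv.swap_apply_of_ne_of_ne hx.1 hx.2, Equiv.swap_apply_of_ne_of_ne hy.1 hy.2]
  have h1 : ((Equiv.swap 1 (e.symm 1)).trans e) 1 = 1 := by simp
  rcases lt_or_gt_of_ne hpq with h | h
  · exact main _ he' h1 hp hq h hg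
  · rw [mul_comm] at hg ⊢
    exact main _ he' h1 hq hp h hg


/-- Let G and H be finite groups whose power graphs are isomorphic: there is a bijection e : G → H such that, for all x, y, one of x, y is a power of the other exactly when one of e(x), e(y) is a power of the other. Then G and H have the same prime graph: for distinct primes p, q, G has an element of order pq if and only if H does. -/
theorem result {G H : Type*} [Group G] [Finite G] [Group H] [Finite H] (e : G ≃ H)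
    (he : ∀ x y : G, (x ∈ Subgroup.zpowers y ∨ y ∈ Subgroup.zpowers x) ↔
      (e x ∈ Subgroup.zpowers (e y) ∨ e y ∈ Subgroup.zpowers (e x)))
    {p q : ℕ} (hp : p.Prime) (hq : q.Prime) (hpq : p ≠ q) :
    (∃ g : G, orderOf g = p * q) ↔ (∃ h : H, orderOf h = p * q) := by
  refine ⟨fun ⟨g, hg⟩ => main' e he hp hq hpq hg, fun ⟨g, hg⟩ => main' e.symm (fun x y => ?_) hp hq hpq hg⟩
  have := he (e.symm x) (e.symm y)
  rw [e.apply_symm_apply, e.apply_symm_apply] at this
  exact this.symm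

end Cfsg.Agent.S4085
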