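import Cfsg.Statements.S4089
import Cfsg.Agent.Lib.GT.Casolo

set_option autoImplicit false
open Cfsg

namespace Cfsg.Agent.S4089

open CfsgLib CfsgLib.GT CfsgLib.Tech Subgroup

/-- Let G be a finite group, p a prime and H a p-subgroup of G. Then the set of elements g of G such that H is subnormal in the subgroup generated by H and g is the union of the normalizers N_G(R) over the subgroups R of G containing H with R = O_p(N_G(R)); and this set does not change when H is replaced by the intersection of all Sylow p-subgroups of G containing H. -/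
theorem result {G : Type*} [Group G] [Finite G] (p : ℕ) [Fact p.Prime]
    (H : Subgroup G) (hH : IsPGroup p H) :
    {g : G | ((H).subgroupOf (H ⊔ Subgroup.zpowers g)).IsSubnormal} =
      {g : G | ∃ R : Subgroup G, H ≤ R ∧ (Cfsg.pCore p (Subgroup.normalizer (R : Set G))).map (Subgroup.normalizer (R : Set G)).subtype = R ∧ g ∈ Subgroup.normalizer (R : Set G)} ∧
    ∀ g : G, (((H).subgroupOf (H ⊔ Subgroup.zpowers g)).IsSubnormal ↔
      (((sInf {K : Subgroup G | ∃ Q : Sylow p G, H ≤ (Q : Subgroup G) ∧ K = (Q : Subgroup G)})).subgroupOf ((sInf {K : Subgroup G | ∃ Q : Sylow p G, H ≤ (Q : Subgroup G) ∧ K = (Q : Subgroup G)}) ⊔ Subgroup.zpowers g)).IsSubnormal) := by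
  have key : ∀ g, Sn p H g → ∃ R : Subgroup G, IsPGroup p R ∧ H ≤ R ∧ g ∈ normalizer (R : Set G) ∧
      ∀ X : Subgroup G, IsPGroup p X → R ≤ X → g ∈ normalizer (X : Set G) → X = R := fun g h => by
    obtain ⟨R, h1, h2⟩ := (wellFounded_gt (α := Subgroup G)).has_min _ h
    exact ⟨R, h1.1, h1.2.1, h1.2.2, fun X a b c => (b.eq_of_not_lt (h2 X ⟨a, h1.2.1.trans b, c⟩)).symm⟩
  refine ⟨Set.ext fun g => (sn_iff hH).trans ⟨fun h => ?_, fun ⟨R, h1, h2, h3⟩ =>
    ⟨R, h2 ▸ LAE.isPGroup_pCoreOf _, h1, h3⟩⟩, fun g => ?_⟩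
  · obtain ⟨R, h1, h2, h3, h4⟩ := key g h
    exact ⟨R, h2, h4 _ (LAE.isPGroup_pCoreOf _) (LAE.le_pCoreOf h1 le_normalizer le_rfl)
      (LAE.le_normalizer_pCoreOf _ h3), h3⟩
  obtain ⟨P, hP⟩ := hH.exists_le_sylow
  refine (sn_iff hH).trans (Iff.trans ?_ (sn_iff (P.isPGroup'.to_le (sInf_le (by exact ⟨P, hP, rfl⟩)))).symm)
  refine ⟨fun h => ?_, fun ⟨Q, h1, h2, h3⟩ => ⟨Q, h1, le_trans (le_sInf ?_) h2, h3⟩⟩
  · obtain ⟨R, h1, h2, h3, -⟩ := key g h
    obtain ⟨Q, hQ⟩ := h1.exists_le_sylow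
    refine ⟨⨅ Q : {Q : Sylow p G // R ≤ Q}, Q.1, Q.isPGroup'.to_le (iInf_le_of_le ⟨Q, hQ⟩ le_rfl),
      le_iInf fun Q => sInf_le ⟨Q, h2.trans Q.2, rfl⟩, mem_normalizer_of_forall fun x hx => mem_iInf.2 fun Q => ?_⟩
    have := mem_iInf.1 hx ⟨g⁻¹ • Q.1, (mem_normalizer_iff_cj.1 (inv_mem h3)).ge.trans (cj_mono _ Q.2)⟩
    simpa using mem_cj.1 this
  · rintro _ ⟨Q, h, rfl⟩
    exact h

end Cfsg.Agent.S4089
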