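import Cfsg.Statements.S4092
import Mathlib
import Cfsg.Agent.Lib.Fgs.ClassSize

set_option autoImplicit false
open Cfsg

namespace Cfsg.Agent.S4092

/-- Let G be a finite group, p a prime and P a Sylow p-subgroup of G that is not normal in G. Then G has at least p·#P elements of p-power order (the identity included). -/
theorem result {G : Type*} [Group G] [Finite G] (p : ℕ) [Fact p.Prime]
    (P : Sylow p G) (hP : ¬ (P : Subgroup G).Normal) :
    p * Nat.card (P : Subgroup G) ≤ Nat.card {g : G // ∃ k : ℕ, orderOf g = p ^ k} := by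
  classical
  haveI := Fintype.ofFinite G
  haveI := Fintype.ofFinite (Sylow p G)
  have hp : p.Prime := Fact.out
  -- there are two distinct Sylow subgroups
  have hex : ∃ Q : Sylow p G, Q ≠ P := by
    by_contra hcon
    push Not at hcon
    haveI : Subsingleton (Sylow p G) := ⟨fun a b => (hcon a).trans (hcon b).symm⟩
    exact hP P.normal_of_subsingleton
  obtain ⟨Q0, hQ0⟩ := hex
  let s : Finset (Sylow p G × Sylow p G) := Finset.univ.filter fun x => x.1 ≠ x.2
  obtain ⟨⟨P1, P2⟩, hmem, hmax⟩ := Finset.exists_max_image s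
    (fun x => Nat.card ↥((x.1 : Subgroup G) ⊓ (x.2 : Subgroup G))) ⟨(Q0, P), by simpa [s] using hQ0⟩
  have hne : P1 ≠ P2 := by simpa [s] using hmem
  set D : Subgroup G := (P1 : Subgroup G) ⊓ (P2 : Subgroup G) with hD
  have hDp : IsPGroup p D := P1.isPGroup'.to_inf_left
  let T : Finset (Sylow p G) := Finset.univ.filter fun Q => D ≤ Q
  have hT : T.card ≡ 1 [MOD p] := by
    have h1 := hDp.card_modEq_card_fixedPoints (Sylow p G)
    have h2 : Nat.card (MulAction.fixedPoints D (Sylow p G)) = T.card := by
      rw [Nat.card_eq_fintype_card, Fintype.card_subtype]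
      congr 1
      ext Q
      simp only [Finset.mem_filter, Finset.mem_univ, true_and, T]
      exact hDp.sylow_mem_fixedPoints_iff
    rw [h2] at h1
    exact h1.symm.trans (card_sylow_modEq_one p G)
  have hT2 : 1 < T.card := Finset.one_lt_card.2 ⟨P1, by simp [T, hD], P2, by simp [T, hD], hne⟩
  have hT3 : p + 1 ≤ T.card := by
    have := (Nat.modEq_iff_dvd' hT2.le).1 hT.symm
    have := Nat.le_of_dvd (by omega) this
    omega
  have hcardS : ∀ Q : Sylow p G, Nat.card (Q : Subgroup G) = Nat.card (P : Subgroup G) :=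
    fun Q => by rw [Q.card_eq_multiplicity, P.card_eq_multiplicity]
  have hinter : ∀ Q ∈ T, ∀ R ∈ T, Q ≠ R → (Q : Subgroup G) ⊓ R = D := by
    intro Q hQ R hR hQR
    simp only [T, Finset.mem_filter, Finset.mem_univ, true_and] at hQ hR
    exact (CfsgLib.Core.eq_of_le_of_card_le (le_inf hQ hR) (hmax (Q, R) (by simpa [s] using hQR))).symm
  let F : Subgroup G → Finset G := fun H => Finset.univ.filter fun g => g ∈ H
  have hF : ∀ H : Subgroup G, (F H).card = Nat.card H := fun H => by
    rw [Nat.card_eq_fintype_card, Fintype.card_subtype]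
  let U : Finset G := T.biUnion fun Q => F Q \ F D
  have hU : U.card = T.card * (Nat.card (P : Subgroup G) - Nat.card D) := by
    rw [Finset.card_biUnion, Finset.sum_const_nat]
    · intro Q hQ
      simp only [T, Finset.mem_filter, Finset.mem_univ, true_and] at hQ
      rw [Finset.card_sdiff_of_subset, hF, hF, hcardS]
      intro g hg
      simp only [F, Finset.mem_filter, Finset.mem_univ, true_and] at hg ⊢
      exact hQ hg
    · intro Q hQ R hR hQR
      rw [Function.onFun, Finset.disjoint_left]
      intro g hg1 hg2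
      simp only [F, Finset.mem_sdiff, Finset.mem_filter, Finset.mem_univ, true_and] at hg1 hg2
      apply hg1.2
      rw [← hinter Q hQ R hR hQR]
      exact ⟨hg1.1, hg2.1⟩
  have hdisj : Disjoint U (F D) := by
    rw [Finset.disjoint_left]
    intro g hg1 hg2
    simp only [U, Finset.mem_biUnion, Finset.mem_sdiff] at hg1
    obtain ⟨Q, -, -, h⟩ := hg1
    exact h hg2
  have hsub : U ∪ F D ⊆ Finset.univ.filter fun g : G => ∃ k : ℕ, orderOf g = p ^ k := by
    intro g hg
    simp only [U, F, Finset.mem_union, Finset.mem_biUnion, Finset.mem_sdiff, Finset.mem_filter,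
      Finset.mem_univ, true_and] at hg ⊢
    rcases hg with ⟨Q, -, h, -⟩ | h
    · exact CfsgLib.Fgs.orderOf_eq_pow_of_mem_isPGroup Q.isPGroup' h
    · exact CfsgLib.Fgs.orderOf_eq_pow_of_mem_isPGroup hDp h
  have hle := Finset.card_le_card hsub
  rw [Finset.card_union_of_disjoint hdisj, hU, hF] at hle
  rw [Nat.card_eq_fintype_card (α := {g : G // ∃ k : ℕ, orderOf g = p ^ k}), Fintype.card_subtype]
  refine le_trans ?_ hle
  have hlt : D < P1 := by
    refine lt_of_le_of_ne inf_le_left fun h => hne ?_
    have h1 : (P1 : Subgroup G) ≤ P2 := by rw [← h]; exact inf_le_right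
    exact Sylow.ext (P1.is_maximal' P2.isPGroup' h1).symm
  have hpD : p * Nat.card D ≤ Nat.card (P : Subgroup G) := by
    obtain ⟨a, ha⟩ := IsPGroup.iff_card.1 hDp
    obtain ⟨b, hb⟩ := IsPGroup.iff_card.1 P1.isPGroup'
    have h1 := CfsgLib.Core.card_lt_of_lt hlt
    rw [← hcardS P1, ha, hb, ← pow_succ']
    rw [ha, hb] at h1
    exact Nat.pow_le_pow_right hp.pos ((Nat.pow_lt_pow_iff_right hp.one_lt).1 h1)
  have h2 : 2 ≤ p := hp.two_le
  set a := Nat.card (P : Subgroup G)
  set d := Nat.card D
  have hda : d ≤ a := by nlinarith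
  obtain ⟨e, he⟩ : ∃ e, a = d + e := ⟨a - d, by omega⟩
  have : a - d = e := by omega
  rw [this]
  nlinarith

end Cfsg.Agent.S4092
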