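import Cfsg.Statements.S4093
import Mathlib
import Cfsg.Agent.Lib.Fgs.ConjCount

set_option autoImplicit false
open scoped BigOperators
open Cfsg

namespace Cfsg.Agent.S4093

/-- Let G be a finite group with a normal subgroup N complementing a Sylow p-subgroup P (a normal p-complement). Then the number of elements of G of p-power order equals the sum over x ∈ P of the index of C_N(x) in N. -/
theorem result {G : Type*} [Group G] [Finite G] (p : ℕ) [Fact p.Prime]
    (P : Sylow p G) (N : Subgroup G) [N.Normal] (hNP : N.IsComplement' (P : Subgroup G)) :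
    Nat.card {g : G // ∃ k : ℕ, orderOf g = p ^ k} =
      ∑ᶠ x : (P : Subgroup G), Nat.card N / Nat.card ↥(N ⊓ Subgroup.centralizer ({(x : G)} : Set G)) := by
  classical
  haveI := Fintype.ofFinite G
  -- the p-elements are the N-conjugates of elements of P
  let E : ↥(P : Subgroup G) → Finset G := fun x => Finset.univ.filter fun y => ∃ n ∈ N, y = n * (x : G) * n⁻¹
  have hdisjNP : Disjoint N (P : Subgroup G) := hNP.disjoint
  have hE : (Finset.univ.filter fun g : G => ∃ k : ℕ, orderOf g = p ^ k) = Finset.univ.biUnion E := by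
    ext g
    simp only [E, Finset.mem_filter, Finset.mem_univ, true_and, Finset.mem_biUnion]
    constructor
    · intro hg
      obtain ⟨Q, hQ⟩ := CfsgLib.Fgs.exists_sylow_mem hg
      obtain ⟨c, hc⟩ := MulAction.exists_smul_eq G P Q
      obtain ⟨⟨n, s⟩, hns⟩ := hNP.surjective c
      have hns' : (n : G) * s = c := hns
      have h1 : c⁻¹ * g * c ∈ (P : Subgroup G) := by
        rw [← hc, Sylow.coe_subgroup_smul, CfsgLib.Core.mem_conj_smul_iff] at hQ
        exact hQ
      refine ⟨⟨s * (c⁻¹ * g * c) * s⁻¹, mul_mem (mul_mem s.2 h1) (inv_mem s.2)⟩, n, n.2, ?_⟩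
      change g = (n : G) * ((s : G) * (c⁻¹ * g * c) * (s : G)⁻¹) * (n : G)⁻¹
      rw [← hns']
      group
    · rintro ⟨x, n, hn, rfl⟩
      obtain ⟨k, hk⟩ := CfsgLib.Fgs.orderOf_eq_pow_of_mem_isPGroup P.isPGroup' x.2
      refine ⟨k, ?_⟩
      rw [← hk]
      exact (MulAut.conj n).orderOf_eq (x : G)
  have hcard : ∀ x : (P : Subgroup G), (E x).card =
      Nat.card N / Nat.card ↥(N ⊓ Subgroup.centralizer ({(x : G)} : Set G)) := by
    intro x
    rw [← CfsgLib.Fgs.relIndex_eq_card_div, ← CfsgLib.Fgs.ncard_conj_by_subgroup,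
      ← Set.ncard_coe_finset]
    congr 1
    ext y
    simp [E]
  rw [Nat.card_eq_fintype_card, Fintype.card_subtype, hE, Finset.card_biUnion,
    finsum_eq_sum_of_fintype]
  · exact Finset.sum_congr rfl fun x _ => hcard x
  · intro x _ y _ hxy
    rw [Function.onFun, Finset.disjoint_left]
    intro g hg1 hg2
    simp only [E, Finset.mem_filter, Finset.mem_univ, true_and] at hg1 hg2
    obtain ⟨n, hn, rfl⟩ := hg1
    obtain ⟨m, hm, h⟩ := hg2
    apply hxy
    have h1 : (x : G) * (y : G)⁻¹ ∈ N := by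
      have : (x : G) * (y : G)⁻¹ = n⁻¹ * m * ((y : G) * (m⁻¹ * n) * (y : G)⁻¹) := by
        have h2 : (x : G) = n⁻¹ * (m * y * m⁻¹) * n := by rw [← h]; group
        rw [h2]; group
      rw [this]
      exact mul_mem (mul_mem (inv_mem hn) hm)
        (Subgroup.Normal.conj_mem inferInstance _ (mul_mem (inv_mem hm) hn) _)
    have h2 : (x : G) * (y : G)⁻¹ ∈ (P : Subgroup G) := mul_mem x.2 (inv_mem y.2)
    have h3 := Subgroup.disjoint_def.1 hdisjNP h1 h2
    exact Subtype.ext (mul_inv_eq_one.1 h3)

end Cfsg.Agent.S4093
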