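import Cfsg.Statements.S4097
import Cfsg.Agent.S0035
import Cfsg.Agent.S0042
import Cfsg.Agent.Lib.Core.Basic

set_option autoImplicit false
open Cfsg

namespace Cfsg.Agent.S4097

open Subgroup
open scoped Pointwise

universe u

theorem comap_solv {G : Type*} [Group G] (N : Subgroup G) [N.Normal] [Group.IsSolvable N]
    (S : Subgroup (G ⧸ N)) [Group.IsSolvable S] :
    Group.IsSolvable (S.comap (QuotientGroup.mk' N)) := by
  have : Group.IsSolvable (QuotientGroup.mk' N).ker := by rwa [QuotientGroup.ker_mk']
  exact CfsgLib.Core.isSolvable_comap _ S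

theorem center_solv (G : Type*) [Group G] : Group.IsSolvable (center G) :=
  Group.isSolvable_of_comm fun x y => Subtype.ext (mem_center_iff.1 y.2 x)

theorem aux (n : ℕ) : ∀ (G : Type u) [Group G] [Finite G], Nat.card G = n → ∀ A : Subgroup G,
    Group.IsSolvable A →
    (∀ S : Subgroup G, A ≤ S → Group.IsSolvable S → ∀ a ∈ A, ∀ s ∈ S, a * s = s * a) →
    A ≤ center G := by
  induction n using Nat.strong_induction_on with
  | _ n ih =>
  intro G _ _ hn A hA hc
  by_cases h : ∃ N : Subgroup G, N.Normal ∧ N ≠ ⊥ ∧ Group.IsSolvable N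
  · obtain ⟨N, hN, hN1, hNs⟩ := h
    have key : ∀ S : Subgroup (G ⧸ N), A.map (QuotientGroup.mk' N) ≤ S → Group.IsSolvable S →
        ∀ a ∈ A, ∀ s : G, (s : G ⧸ N) ∈ S → a * s = s * a := fun S h1 h2 a ha s hs =>
      hc _ (map_le_iff_le_comap.1 h1) (comap_solv N S) a ha s hs
    have hlt : Nat.card (G ⧸ N) < n := by
      rw [← hn, N.card_eq_card_quotient_mul_card_subgroup]
      exact lt_mul_of_one_lt_right Nat.card_pos ((one_lt_card_iff_ne_bot N).2 hN1)
    have h1 := ih _ hlt (G ⧸ N) rfl (A.map (QuotientGroup.mk' N))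
      (CfsgLib.Core.isSolvable_map _ A) (by
        rintro S h1 h2 _ ⟨a, ha, rfl⟩ s hs
        obtain ⟨s, rfl⟩ := QuotientGroup.mk_surjective s
        exact congrArg (QuotientGroup.mk' N) (key S h1 h2 a ha s hs))
    intro a ha
    have := center_solv (G ⧸ N)
    refine mem_center_iff.2 fun g => (key (zpowers (g : G ⧸ N) ⊔ center _) (h1.trans le_sup_right)
      (CfsgLib.Core.isSolvable_sup_of_normal _ _) a ha g (mem_sup_left (mem_zpowers _))).symm
  · push Not at h
    by_contra hne
    have hM : ∀ H : Subgroup G, H ≠ ⊤ → A ≤ H → H ≤ centralizer (A : Set G) := by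
      intro H hH hAH x hx a ha
      have hlt : Nat.card H < n := by
        rw [← hn]
        exact lt_of_le_of_ne (card_le_card_group H) fun e => hH ((card_eq_iff_eq_top H).1 e)
      have h1 := ih _ hlt H rfl (A.subgroupOf H)
        (CfsgLib.Core.isSolvable_of_mulEquiv (subgroupOfEquivOfLe hAH).symm) (by
          intro S h1 h2 a ha s hs
          refine Subtype.ext (hc (S.map H.subtype) (fun y hy => ⟨⟨y, hAH hy⟩, h1 hy, rfl⟩)
            (CfsgLib.Core.isSolvable_map _ S) a ha s ⟨s, hs, rfl⟩))
      exact congrArg Subtype.val (mem_center_iff.1 (h1 (x := ⟨a, hAH ha⟩) ha) ⟨x, hx⟩).symm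
    have hAM : A ≤ centralizer (A : Set G) := fun x hx a ha => hc A le_rfl hA a ha x hx
    set M := centralizer (A : Set G) with hMdef
    have hA1 : A ≠ ⊥ := fun e => hne (e ▸ bot_le)
    have hMt : M ≠ ⊤ := fun e => hne fun a ha => mem_center_iff.2 fun g =>
      ((e.ge (mem_top g)) a ha).symm
    have hNM : normalizer (M : Set G) ≤ M := by
      refine hM _ (fun e => ?_) (hAM.trans le_normalizer)
      have hMn : M.Normal := normalizer_eq_top_iff.1 e
      refine h (M ⊓ centralizer (M : Set G)) inferInstance (fun e' => hA1 (le_bot_iff.1 ?_)) ?_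
      · rw [← e']
        exact le_inf hAM fun a ha x hx => (hx a ha).symm
      · exact Group.isSolvable_of_comm fun x y => Subtype.ext (y.2.2 x x.2.1)
    have hF : IsFrobeniusComplement M := by
      refine ⟨fun e => hA1 (le_bot_iff.1 (e ▸ hAM)), hMt, fun g hg => ?_⟩
      rw [eq_bot_iff_forall]
      intro x hx
      by_contra hx1
      have hx2 : g⁻¹ * x * g ∈ M := by
        simpa using mem_pointwise_smul_iff_inv_smul_mem.1 hx.2
      have h1 : centralizer {x} ≤ M := by
        refine hM _ (fun e => ?_) fun a ha => mem_centralizer_singleton_iff.2 (hx.1 a ha)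
        refine h (center G) inferInstance (fun e' => hx1 ?_) (center_solv G)
        rw [← mem_bot, ← e']
        exact mem_center_iff.2 fun y => mem_centralizer_singleton_iff.1 (e.ge (mem_top y))
      have h2 : A ≤ M.comap (MulAut.conj g).toMonoidHom := fun a ha =>
        h1 (mem_centralizer_singleton_iff.2 (by
          have := hx2 a ha
          change g * a * g⁻¹ * x = x * (g * a * g⁻¹)
          calc g * a * g⁻¹ * x = g * (a * (g⁻¹ * x * g)) * g⁻¹ := by group
            _ = x * (g * a * g⁻¹) := by rw [this]; group))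
      have h3 := hM _ (fun e => hMt (eq_top_iff.2 fun y _ => by
        simpa [mul_assoc] using e.ge (mem_top (g⁻¹ * y * g)))) h2
      have h4 : g⁻¹ ∈ normalizer (M : Set G) :=
        mem_normalizer_fintype fun y hy => h3 (by simpa [mul_assoc] using hy)
      exact hg (by simpa using inv_mem (hNM h4))
    obtain ⟨N, hN1, hN2, hN3⟩ := S0042.result M hF
    obtain ⟨N', hN1', -, hN3'⟩ := S0035.result M hF
    obtain rfl : N = N' := SetLike.coe_injective (hN1.trans hN1'.symm)
    refine h N hN2 (fun e => hMt ?_) inferInstance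
    rw [← hN3'.sup_eq_top, e, bot_sup_eq]

/-- Let A be a solvable subgroup of a finite group G such that A lies in the centre of every solvable subgroup of G containing A. Then A lies in the centre of G. -/
theorem result {G : Type*} [Group G] [Finite G]
    (A : Subgroup G) (hA : Group.IsSolvable A)
    (hc : ∀ S : Subgroup G, A ≤ S → Group.IsSolvable S → ∀ a ∈ A, ∀ s ∈ S, a * s = s * a) : A ≤ Subgroup.center G :=
  aux _ G rfl A hA hc

end Cfsg.Agent.S4097
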