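import Cfsg.Statements.S4100
import Cfsg.Agent.Lib.CentSol.Main

set_option autoImplicit false
open Cfsg

namespace Cfsg.Agent.S4100

/-- Let G be a finite group and p a prime other than 3 such that the centralizer of every non-central element of p-power order is solvable. Then every alternating group of degree at least 5 involved in G (as a section) has degree at most p + 4, or at most p + 6 = 8 when p = 2. -/
theorem result {G : Type*} [Group G] [Finite G] (p : ℕ) [Fact p.Prime] (hp3 : p ≠ 3)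
    (h : ∀ x : G, x ∉ Subgroup.center G → (∃ k : ℕ, orderOf x = p ^ k) → Group.IsSolvable (Subgroup.centralizer ({x} : Set G)))
    (d : ℕ) (hd : 5 ≤ d) (hinv : Cfsg.Involves (alternatingGroup (Fin d)) G) :
    d ≤ p + 4 + (if p = 2 then 2 else 0) := by
  by_contra hlt
  obtain ⟨K, R, _, e⟩ := hinv
  have hs := CfsgLib.AltSec.Sec.of_quot K _ e
  suffices H : ∃ X : Subgroup G, CfsgLib.CentSol.NS p X by
    obtain ⟨X, hX⟩ := H
    obtain ⟨x, h1, h2, h3⟩ := hX.of_inj X.subtype X.subtype_injective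
    exact h3 (h x h1 h2)
  have hp : p.Prime := Fact.out
  by_cases h2 : p = 2
  · subst h2
    obtain ⟨X, π, hπ⟩ := hs.alt_le (r := 9) (by simp at hlt; omega)
    exact ⟨X, CfsgLib.CentSol.ns_two π hπ⟩
  rw [if_neg h2] at hlt
  by_cases h5 : p = 5
  · subst h5
    obtain ⟨X, π, hπ⟩ := hs.alt_le (r := 10) (by omega)
    exact ⟨X, CfsgLib.CentSol.ns_five π hπ⟩
  have h7 : 7 ≤ p := by
    by_contra h7
    have := hp.two_le
    have : p = 4 ∨ p = 6 := by omega
    rcases this with rfl | rfl <;> exact absurd hp (by decide)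
  obtain ⟨ι⟩ : Nonempty (Fin p ⊕ Fin 5 ↪ Fin d) := Function.Embedding.nonempty_of_card_le (by simp; omega)
  obtain ⟨f, hf, -⟩ := CfsgLib.AltSec.exists_alt_hom ι
  obtain ⟨X, π, hπ⟩ := hs.mono_left f hf
  exact ⟨X, CfsgLib.CentSol.ns_big h7 π hπ⟩

end Cfsg.Agent.S4100
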