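import Cfsg.Statements.S4107
import Cfsg.Agent.Lib.Core.Fitting

set_option autoImplicit false
open Cfsg

namespace Cfsg.Agent.S4107

open Subgroup CfsgLib in
theorem le_pCore_of_not_le {G : Type*} [Group G] [Finite G] (N : Subgroup G) [N.Normal]
    (heq : ∀ x : G, x ∉ N → ∀ n ∈ N, orderOf (x * n) = orderOf x) {p : ℕ} (hp : p.Prime)
    (h : ¬ pCore p G ≤ N) : N ≤ pCore p G := by
  have := Fact.mk hp
  obtain ⟨x, hx, hxN⟩ := SetLike.not_le_iff_exists.1 h
  have := Core.pCore_characteristic p G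
  refine Core.le_pCore (Core.isPGroup_subgroup_iff.2 fun n hn => ?_)
  obtain ⟨k, hk⟩ := Core.isPGroup_subgroup_iff.1 (Core.isPGroup_pCore p G) x hx
  have h1 : (x * n) ^ p ^ k = 1 := by
    rw [← orderOf_dvd_iff_pow_eq_one, heq x hxN n hn, orderOf_dvd_iff_pow_eq_one, hk]
  have h2 : n ^ p ^ k ∈ pCore p G := by
    rw [← QuotientGroup.eq_one_iff]
    have h3 := congrArg (QuotientGroup.mk (s := pCore p G)) h1
    rwa [QuotientGroup.mk_pow, QuotientGroup.mk_mul, (QuotientGroup.eq_one_iff x).2 hx, one_mul,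
      ← QuotientGroup.mk_pow] at h3
  obtain ⟨l, hl⟩ := Core.isPGroup_subgroup_iff.1 (Core.isPGroup_pCore p G) _ h2
  exact ⟨k + l, by rw [pow_add, pow_mul, hl]⟩

/-- Let G be a finite group and N a proper non-trivial normal subgroup such that for every x outside N all elements of the coset xN have the same order as x. Then N ≤ F(G) or F(G) ≤ N, where F(G) is the Fitting subgroup; and if N is properly contained in F(G) then F(G) has prime-power order. -/
theorem result {G : Type*} [Group G] [Finite G] (N : Subgroup G) [N.Normal] (hN1 : N ≠ ⊥) (hN2 : N ≠ ⊤)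
    (heq : ∀ x : G, x ∉ N → ∀ n ∈ N, orderOf (x * n) = orderOf x) :
    (N ≤ Cfsg.fittingSubgroup G ∨ Cfsg.fittingSubgroup G ≤ N) ∧
    (N < Cfsg.fittingSubgroup G → IsPrimePow (Nat.card (Cfsg.fittingSubgroup G))) := by
  by_cases hF : Cfsg.fittingSubgroup G ≤ N
  · exact ⟨Or.inr hF, fun h => absurd hF h.not_ge⟩
  obtain ⟨p, hp⟩ : ∃ p : Nat.Primes, ¬ pCore (p : ℕ) G ≤ N := by
    by_contra h
    push Not at h
    exact hF (by rw [CfsgLib.Core.fittingSubgroup_eq_iSup_pCore]; exact iSup_le h)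
  have := Fact.mk p.2
  have h1 := le_pCore_of_not_le N heq p.2 hp
  refine ⟨Or.inl (h1.trans (CfsgLib.Core.pCore_le_fittingSubgroup p.2)), fun _ => ?_⟩
  have h2 : Cfsg.fittingSubgroup G = pCore (p : ℕ) G := by
    refine le_antisymm ?_ (CfsgLib.Core.pCore_le_fittingSubgroup p.2)
    rw [CfsgLib.Core.fittingSubgroup_eq_iSup_pCore]
    refine iSup_le fun q => ?_
    by_cases hq : pCore (q : ℕ) G ≤ N
    · exact hq.trans h1
    have := Fact.mk q.2
    by_cases hpq : (p : ℕ) = q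
    · rw [hpq]
    exact absurd (le_bot_iff.1 ((le_inf h1 (le_pCore_of_not_le N heq q.2 hq)).trans
      (IsPGroup.disjoint_of_ne p q hpq _ _ (CfsgLib.Core.isPGroup_pCore _ G)
        (CfsgLib.Core.isPGroup_pCore _ G)).le_bot)) hN1
  rw [h2]
  obtain ⟨k, hk⟩ := (CfsgLib.Core.isPGroup_pCore (p : ℕ) G).exists_card_eq
  refine ⟨p, k, p.2.prime, Nat.pos_of_ne_zero ?_, hk.symm⟩
  rintro rfl
  rw [pow_zero, Subgroup.card_eq_one] at hk
  exact hp (hk ▸ bot_le)

end Cfsg.Agent.S4107
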