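import Cfsg.Statements.S4108
import Mathlib
import Cfsg.Agent.Lib.Fgs.ConjCount

set_option autoImplicit false
open Cfsg

namespace Cfsg.Agent.S4108

/-- Let G be a finite group, p a prime and N a proper non-trivial normal p-subgroup such that for every x outside N all elements of the coset xN have the same order as x. Then every non-trivial subgroup H of G of order prime to p acts fixed-point-freely on N: NH is a Frobenius group with complement H and kernel N. -/
theorem result {G : Type*} [Group G] [Finite G] (N : Subgroup G) [N.Normal] (hN1 : N ≠ ⊥) (hN2 : N ≠ ⊤)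
    (heq : ∀ x : G, x ∉ N → ∀ n ∈ N, orderOf (x * n) = orderOf x)
    (p : ℕ) [Fact p.Prime] (hNp : IsPGroup p N) :
    ∀ H : Subgroup G, H ≠ ⊥ → (Nat.card H).Coprime p →
      Cfsg.IsFrobeniusComplement (H.subgroupOf (N ⊔ H)) ∧ Cfsg.frobeniusKernel (H.subgroupOf (N ⊔ H)) = (N.subgroupOf (N ⊔ H) : Set ↥(N ⊔ H)) := by
  intro H hH1 hcop
  have hfpf : ∀ h ∈ H, h ≠ 1 → ∀ n ∈ N, Commute n h → n = 1 := by
    intro h hh h1 n hn hc
    have hoh : (orderOf h).Coprime p := Nat.Coprime.coprime_dvd_left (H.orderOf_dvd_natCard hh) hcop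
    obtain ⟨k, hk⟩ := CfsgLib.Fgs.orderOf_eq_pow_of_mem_isPGroup hNp hn
    have hhN : h ∉ N := by
      intro hhN
      obtain ⟨l, hl⟩ := CfsgLib.Fgs.orderOf_eq_pow_of_mem_isPGroup hNp hhN
      apply h1
      rw [← orderOf_eq_one_iff]
      exact (Nat.coprime_self _).1 (by nth_rewrite 2 [hl]; exact Nat.Coprime.pow_right _ hoh)
    have h2 := heq h hhN n hn
    rw [hc.symm.orderOf_mul_eq_mul_orderOf_of_coprime (by rw [hk]; exact Nat.Coprime.pow_right _ hoh)] at h2
    have h3 := orderOf_pos h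
    exact orderOf_eq_one_iff.1 (by nlinarith [orderOf_pos n])
  refine CfsgLib.Fgs.isFrobeniusComplement_of_fpf (N.subgroupOf (N ⊔ H)) (H.subgroupOf (N ⊔ H)) ?_ ?_ ?_ ?_
  · rw [Ne, Subgroup.subgroupOf_eq_bot]
    intro hd
    exact hN1 (hd.eq_bot_of_le le_sup_left)
  · rw [Ne, Subgroup.subgroupOf_eq_bot]
    intro hd
    exact hH1 (hd.eq_bot_of_le le_sup_right)
  · rw [← Subgroup.subgroupOf_sup le_sup_left le_sup_right, Subgroup.subgroupOf_self]
  · intro h hh h1 n hn hc
    exact Subtype.ext (hfpf h hh (fun e => h1 (Subtype.ext e)) n hn (congrArg Subtype.val hc))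

end Cfsg.Agent.S4108
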