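import Cfsg.Statements.S4112
import Mathlib
import Cfsg.Agent.Lib.Fgs.Camina

set_option autoImplicit false
open Cfsg

namespace Cfsg.Agent.S4112

/-- Let G be a finite group and M ≤ N non-trivial proper normal subgroups such that for every g outside N the conjugacy class of g is a union of cosets of M (equivalently gm is conjugate to g for every m ∈ M). Then (1) and (2) below are equivalent, and they imply (3): (1) every g outside N acts fixed-point-freely on M, that is C_G(x) ≤ N for every x ∈ M, x ≠ 1; (2) the index of N in G is coprime to the order of M; (3) there is a subgroup H of G with HN = G and H ∩ M = 1. -/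
theorem result {G : Type*} [Group G] [Finite G] (N M : Subgroup G) [N.Normal] [M.Normal] (hMN : M ≤ N) (hM1 : M ≠ ⊥) (hN2 : N ≠ ⊤)
    (hcam : ∀ g : G, g ∉ N → ∀ m ∈ M, ∃ x : G, x * g * x⁻¹ = g * m) :
    ((∀ x ∈ M, x ≠ 1 → Subgroup.centralizer ({x} : Set G) ≤ N) ↔ N.index.Coprime (Nat.card M)) ∧
    ((∀ x ∈ M, x ≠ 1 → Subgroup.centralizer ({x} : Set G) ≤ N) → ∃ H : Subgroup G, H ⊔ N = ⊤ ∧ H ⊓ M = ⊥) := by
  have h1 := CfsgLib.Fgs.camina_triple_fpf_iff_coprime N M hcam
  refine ⟨h1, fun h => ?_⟩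
  obtain ⟨H, hH, hp⟩ := CfsgLib.Fgs.exists_supplement_primes N
  refine ⟨H, hH, ?_⟩
  apply CfsgLib.Core.inf_eq_bot_of_coprime_card
  refine Nat.coprime_of_dvd fun q hq h2 h3 => ?_
  exact hq.one_lt.ne' (Nat.eq_one_of_dvd_coprimes (h1.1 h) (hp q hq h2) h3)

end Cfsg.Agent.S4112
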