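import Cfsg.Statements.S4115
import Cfsg.Agent.S0877
import Cfsg.Agent.Lib.Frob.TIHall
import Cfsg.Agent.Lib.Frob.Action
import Cfsg.Agent.Lib.Solv.AutQuot
import Cfsg.Agent.Lib.Coprime.Sylow
import Cfsg.Agent.Lib.Coprime.Abelian

set_option autoImplicit false
universe u
open Cfsg

namespace Cfsg.Agent.S4115

open Subgroup CfsgLib

/-- An invariant Sylow subgroup exists when all nonidentity elements have the same fixed points. -/
theorem exists_invariant_sylow {G : Type*} [Group G] [Finite G] {N H : Subgroup G} [N.Normal]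
    (hH : H ≠ ⊥) (hcop : (Nat.card H).Coprime (Nat.card N))
    (hK : ∀ h ∈ H, h ≠ 1 → N ⊓ centralizer {h} ≤ centralizer (H : Set G))
    {q : ℕ} [hq : Fact q.Prime] (hi : ¬ q ∣ N.index) :
    ∃ Q : Sylow q G, H ≤ normalizer ((Q : Subgroup G) : Set G) := by
  set K := N ⊓ centralizer (H : Set G) with hKdef
  have hcomm : ∀ h ∈ H, ∀ k ∈ K, ∀ P : Sylow q G, h • k • P = k • h • P := fun h hh k hk P => by
    rw [smul_smul, smul_smul, hk.2 h hh]
  let X := MulAction.orbitRel.Quotient K (Sylow q G)
  let : MulAction H X :=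
    { smul := fun h => Quotient.map' (fun P => (h : G) • P) (by
        rintro _ P ⟨k, rfl⟩
        exact ⟨k, (hcomm h h.2 k k.2 P).symm⟩)
      one_smul := fun x => by
        induction x using Quotient.inductionOn' with
        | h P => exact congrArg Quotient.mk'' (one_smul G P)
      mul_smul := fun a b x => by
        induction x using Quotient.inductionOn' with
        | h P => exact congrArg Quotient.mk'' (mul_smul (a : G) (b : G) P) }
  have hsm : ∀ (h : H) (P : Sylow q G), h • (Quotient.mk'' P : X) = Quotient.mk'' ((h : G) • P) :=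
    fun _ _ => rfl
  have hle : ∀ P : Sylow q G, (P : Subgroup G) ≤ N := fun P =>
    Core.le_of_coprime_card_index (Core.isPGroup_coprime_card P.isPGroup'
      ((Nat.Prime.coprime_iff_not_dvd hq.out).2 hi).symm)
  have hrel : ∀ P : Sylow q G, ¬ q ∣ (P : Subgroup G).relIndex N := fun P h =>
    P.not_dvd_index (h.trans (relIndex_dvd_index_of_le (hle P)))
  have hcz : ∀ h : H, (Nat.card (zpowers (h : G))).Coprime (Nat.card N) := fun h =>
    hcop.coprime_dvd_left (card_dvd_of_le (zpowers_le.2 h.2))
  have hfix : ∀ (h : H) (P : Sylow q G), h • (Quotient.mk'' P : X) = Quotient.mk'' P →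
      (h : G) • P = P := by
    intro h P hP
    obtain ⟨k, hk, h1⟩ := Coprime.exists_fixed_in_orbit (K := K) (A := zpowers (h : G))
      (((zpowers_le.2 h.2).trans (le_centralizer_iff.1 inf_le_right)).trans
        (centralizer_le_normalizer _)) ((hcz h).coprime_dvd_right (card_dvd_of_le inf_le_left))
      (Or.inl (Coprime.isSolvable_zpowers _)) P (by
        rintro _ ⟨i, rfl⟩
        have h2 : h ^ i ∈ MulAction.stabilizer H (Quotient.mk'' P : X) := zpow_mem hP i
        obtain ⟨k, hk⟩ := Quotient.exact' h2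
        exact ⟨k, k.2, hk.symm⟩)
    have h2 := h1 h (mem_zpowers _)
    rw [hcomm h h.2 k hk] at h2
    exact smul_left_cancel k h2
  have := (nontrivial_iff_ne_bot H).2 hH
  obtain ⟨x, hx⟩ := Frob.exists_fixed_of_existsUnique_fixed (H := H) (X := X) fun h hh => by
    obtain ⟨P, hPN, hP, hPi, hn⟩ := Coprime.exists_invariant_sylow' q (K := N)
      (A := zpowers (h : G)) le_normalizer_of_normal (hcz h) (Or.inl (Coprime.isSolvable_zpowers _))
    have hPi' : ¬ q ∣ P.index := by
      rw [← relIndex_mul_index hPN, hq.out.dvd_mul]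
      exact not_or.2 ⟨hPi, hi⟩
    refine ⟨Quotient.mk'' (hP.toSylow hPi'), ?_, fun y hy => ?_⟩
    · exact congrArg Quotient.mk'' (Sylow.smul_eq_iff_mem_normalizer.2 (hn (mem_zpowers _)))
    · induction y using Quotient.inductionOn' with
      | h R =>
        obtain ⟨c, hc, h1⟩ := Coprime.exists_centralizer_smul_sylow_eq' (p := q) (K := N)
          (A := zpowers (h : G)) le_normalizer_of_normal (hcz h)
          (Or.inl (Coprime.isSolvable_zpowers _)) hPN hP hPi hn (hle R) R.isPGroup' (hrel R)
          (zpowers_le.2 (Sylow.smul_eq_iff_mem_normalizer.1 (hfix h R hy)))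
        rw [Core.centralizer_zpowers] at hc
        refine Quotient.sound' ⟨⟨c, hc.1, hK h h.2 (fun e => hh (Subtype.ext e)) hc⟩, ?_⟩
        exact Sylow.ext h1
  induction x using Quotient.inductionOn' with
  | h Q => exact ⟨Q, fun h hh => Sylow.smul_eq_iff_mem_normalizer.1 (hfix ⟨h, hh⟩ Q (hx _))⟩

theorem exists_frob {G : Type u} [Group G] [Finite G] {N H : Subgroup G} [N.Normal]
    (hH : H ≠ ⊥) (hcop : (Nat.card H).Coprime (Nat.card N)) (hi : N.index = Nat.card H)
    (hK : ∀ h ∈ H, h ≠ 1 → N ⊓ centralizer {h} ≤ centralizer (H : Set G))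
    (hN : ¬ N ≤ centralizer (H : Set G)) :
    ∃ (F : Type u) (_ : Group F) (_ : Finite F) (C : Subgroup F),
      Cfsg.IsFrobeniusComplement C ∧ Nonempty (H ≃* C) := by
  obtain ⟨q, hq, hd⟩ := Nat.exists_prime_and_dvd (mt relIndex_eq_one.1 hN)
  have := Fact.mk hq
  have hqN : ¬ q ∣ N.index := fun h => hq.ne_one
    (Nat.eq_one_of_dvd_coprimes hcop (hi ▸ h) (hd.trans (relIndex_dvd_card _ _)))
  obtain ⟨Q, hQ⟩ := exists_invariant_sylow hH hcop hK hqN
  have hQN : (Q : Subgroup G) ≤ N :=
    Core.le_of_coprime_card_index (Core.isPGroup_coprime_card Q.isPGroup'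
      ((Nat.Prime.coprime_iff_not_dvd hq).2 hqN).symm)
  set M := ⁅(Q : Subgroup G), H⁆ with hM
  have hMQ : M ≤ Q := le_normalizer_iff_commutator_le_left.1 hQ
  have hM1 : M ≠ ⊥ := fun h => Q.not_dvd_index (by
    rw [← inf_relIndex_right] at hd
    exact (hd.trans (relIndex_dvd_index_of_le inf_le_right)).trans (index_dvd_of_le
      (le_inf (commutator_eq_bot_iff_le_centralizer.1 h) hQN)))
  have hHM : H ≤ normalizer (M : Set G) := normalizer_commutator_ge_right _ _
  have hcQ := hcop.coprime_dvd_right (card_dvd_of_le hQN)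
  have hcM := hcQ.coprime_dvd_right (card_dvd_of_le hMQ)
  have hinv : Coprime.AutInv (MulAut.conj.comp H.subtype) M := fun h x hx =>
    (mem_normalizer_iff.1 (hHM h.2) x).1 hx
  let χ := Solv.quotAut (Solv.subAut _ M hinv) (commutator M) (Coprime.autInv_of_characteristic _)
  have := (nontrivial_iff_ne_bot H).2 hH
  have := (nontrivial_iff_ne_bot M).2 hM1
  have := (Q.isPGroup'.to_le hMQ).isNilpotent
  have : Nontrivial (M ⧸ commutator M) :=
    QuotientGroup.nontrivial_iff.2 (Group.IsSolvable.commutator_lt_top_of_nontrivial _).ne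
  have hχ : ∀ a, a ≠ 1 → ∀ v, χ a v = v → v = 1 := by
    intro h hh v hv
    induction v using QuotientGroup.induction_on with
    | H m =>
      obtain ⟨u, hu, h1⟩ := Coprime.exists_mul_mem_centralizer (U := ⁅M, M⁆) (A := zpowers (h : G))
        (((zpowers_le.2 h.2).trans hHM).trans (le_trans (le_inf le_rfl le_rfl)
          (Core.normalizer_inf_le_normalizer_commutator M M)))
        ((hcM.coprime_dvd_left (card_dvd_of_le (zpowers_le.2 h.2))).coprime_dvd_right
          (card_dvd_of_le (le_normalizer_iff_commutator_le_left.1 le_normalizer)))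
        (Or.inl (Coprime.isSolvable_zpowers _)) m (by
          rintro _ ⟨i, rfl⟩
          have h2 : h ^ i ∈ (MulAction.stabilizer (MulAut (M ⧸ commutator M))
            (m : M ⧸ commutator M)).comap χ := zpow_mem hv i
          have h3 := QuotientGroup.eq.1 (show χ (h ^ i) (m : M ⧸ commutator M) = m from h2).symm
          rw [← map_subtype_commutator]
          exact ⟨_, h3, rfl⟩)
      have huM : u ∈ M := le_normalizer_iff_commutator_le_left.1 le_normalizer hu
      rw [Core.centralizer_zpowers] at h1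
      have h2 := hK h h.2 (fun e => hh (Subtype.ext e)) ⟨hQN (hMQ (mul_mem m.2 huM)), h1⟩
      have h3 := Coprime.centralizer_inf_commutator_le hHM hcM ⟨h2,
        (Coprime.commutator_commutator_eq hQ hcQ).ge (mul_mem m.2 huM)⟩
      have h4 : (m : G) ∈ ⁅M, M⁆ := by simpa using mul_mem h3 (inv_mem hu)
      rw [← map_subtype_commutator] at h4
      obtain ⟨m', hm', h5⟩ := h4
      rw [QuotientGroup.eq_one_iff, ← show m' = m from Subtype.ext h5]
      exact hm'
  exact ⟨(M ⧸ commutator M) ⋊[χ] H, inferInstance,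
    Finite.of_equiv _ SemidirectProduct.equivProd.symm, _, Frob.frob_of_action χ hχ,
    ⟨MonoidHom.ofInjective SemidirectProduct.inr_injective⟩⟩

/-- Let G be a finite group and H a subgroup that meets each of its conjugates by elements outside N_G(H) trivially and whose order is coprime to its index in N_G(H). Then H has a normal complement in N_G(H) if and only if H has a normal complement in G. Moreover, if H is not normal in G and has a normal complement in N_G(H), then H is isomorphic to a Frobenius complement of some finite Frobenius group. -/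
theorem result {G : Type u} [Group G] [Finite G] (H : Subgroup G)
    (hTI : Cfsg.IsTISubset (H : Set G)) (hHall : (Nat.card H).Coprime (H.subgroupOf (Subgroup.normalizer (H : Set G))).index) :
    ((∃ K : Subgroup (Subgroup.normalizer (H : Set G)), K.Normal ∧ K.IsComplement' (H.subgroupOf (Subgroup.normalizer (H : Set G)))) ↔
      (∃ N : Subgroup G, N.Normal ∧ N.IsComplement' H)) ∧
    (¬ H.Normal → (∃ K : Subgroup (Subgroup.normalizer (H : Set G)), K.Normal ∧ K.IsComplement' (H.subgroupOf (Subgroup.normalizer (H : Set G)))) →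
      ∃ (F : Type u) (_ : Group F) (_ : Finite F) (C : Subgroup F), Cfsg.IsFrobeniusComplement C ∧ Nonempty (H ≃* C)) := by
  have hcop := Frob.coprime_index_of_isTISubset hTI hHall
  have hiff : (∃ K : Subgroup (Subgroup.normalizer (H : Set G)), K.Normal ∧
      K.IsComplement' (H.subgroupOf (Subgroup.normalizer (H : Set G)))) ↔
      (∃ N : Subgroup G, N.Normal ∧ N.IsComplement' H) := by
    constructor
    · rintro ⟨K, hK, hKH⟩
      refine (Cfsg.Agent.S0877.result H hcop (fun x hx y hy hxy => ?_)
        (fun E p _ _ hE => ?_)).imp fun N ⟨hN, h1, h2⟩ =>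
          ⟨hN, isComplement'_of_disjoint_and_mul_eq_univ (disjoint_iff.2 h2)
            (by rw [← normal_mul, h1, coe_top])⟩
      · by_cases hx1 : x = 1
        · exact ⟨1, one_mem _, by rw [hx1] at hxy ⊢; simpa using (isConj_one_right.1 hxy).symm⟩
        obtain ⟨g, rfl⟩ := isConj_iff.1 hxy
        have hg := Frob.mem_normalizer_of_isTISubset hTI hx hx1 hy
        obtain ⟨⟨k, h⟩, hkh⟩ := hKH.existsUnique ⟨g, hg⟩ |>.exists
        have h3 : (k : G) * (h : G) = g := congrArg Subtype.val hkh
        have hh : (h : G) ∈ H := h.2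
        have h0 : (h : G) * x * (h : G)⁻¹ ∈ H := mul_mem (mul_mem hh hx) (inv_mem hh)
        have h4 := Core.le_centralizer_of_normal_of_disjoint (disjoint_iff.1 hKH.disjoint) k.2
          ⟨_, le_normalizer h0⟩ h0
        have h5 : (h : G) * x * (h : G)⁻¹ * k = k * ((h : G) * x * (h : G)⁻¹) :=
          congrArg Subtype.val h4
        refine ⟨h, h.2, ?_⟩
        rw [← h3]
        calc (h : G) * x * (h : G)⁻¹ = (h : G) * x * (h : G)⁻¹ * k * (k : G)⁻¹ := by group
          _ = _ := by rw [h5]; group
      · obtain ⟨g, hg⟩ := Frob.exists_le_conj_of_isTISubset (K := E) hcop hTI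
          fun q _ h => h.trans hE
        refine ⟨g⁻¹, ?_⟩
        rintro _ ⟨x, hx, rfl⟩
        simpa using Core.mem_conj_smul_iff.1 (hg hx)
    · rintro ⟨N, hN, h⟩
      refine ⟨N.subgroupOf _, inferInstance, isComplement'_of_disjoint_and_mul_eq_univ ?_ ?_⟩
      · rw [disjoint_iff, subgroupOf, subgroupOf, ← comap_inf, disjoint_iff.1 h.disjoint]
        exact bot_subgroupOf _
      · rw [Set.eq_univ_iff_forall]
        intro g
        obtain ⟨⟨n, x⟩, hnx⟩ := h.existsUnique g |>.exists
        have h1 : (n : G) = g * (x : G)⁻¹ := eq_mul_inv_of_mul_eq hnx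
        exact ⟨⟨n, h1 ▸ mul_mem g.2 (inv_mem (le_normalizer x.2))⟩, n.2, ⟨x, le_normalizer x.2⟩, x.2,
          Subtype.ext hnx⟩
  refine ⟨hiff, fun hn hK => ?_⟩
  obtain ⟨N, hN, h⟩ := hiff.1 hK
  refine exists_frob (N := N) (fun e => hn (e ▸ inferInstance)) (h.index_eq_card ▸ hcop)
    h.symm.index_eq_card (fun x hx hx1 => ?_) fun hle => hn ?_
  · rintro c ⟨hcN, hc⟩ y hy
    have h1 : c ∈ normalizer (H : Set G) := Frob.mem_normalizer_of_isTISubset hTI hx hx1 (by
      rwa [mem_centralizer_singleton_iff.1 hc, mul_inv_cancel_right])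
    have h2 : y⁻¹ * (c * y * c⁻¹) ∈ N ⊓ H := mem_inf.2 ⟨by
      have := mul_mem (hN.conj_mem c hcN y⁻¹) (inv_mem hcN)
      simpa [mul_assoc] using this, mul_mem (inv_mem hy) ((mem_normalizer_iff.1 h1 y).1 hy)⟩
    rw [disjoint_iff.1 h.disjoint, mem_bot, inv_mul_eq_one, eq_mul_inv_iff_mul_eq] at h2
    exact h2
  · rw [← normalizer_eq_top_iff, eq_top_iff, ← h.sup_eq_top]
    exact sup_le (hle.trans (centralizer_le_normalizer _)) le_normalizer

end Cfsg.Agent.S4115
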