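import Cfsg.Statements.S4117
import Cfsg.Agent.Lib.Coprime.Aut
import Cfsg.Agent.Lib.LocStr.RankOne
import Cfsg.Agent.Lib.Frob.Complement

set_option autoImplicit false
open Cfsg

namespace Cfsg.Agent.S4117

/-- Let A be a finite group acting on the finite group G by automorphisms with the orders of A and G coprime, and suppose every Sylow subgroup of G is cyclic. Then the fixed-point subgroup C_G(A) is a Hall subgroup of G (its order is coprime to its index), the subgroup [G, A] generated by the elements g⁻¹·a(g) is cyclic and normal with [G, A] ∩ C_G(A) = 1 and [G, A]·C_G(A) = G. -/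
theorem result {G A : Type*} [Group G] [Finite G] [Group A] [Finite A]
    [MulDistribMulAction A G] (hcop : (Nat.card A).Coprime (Nat.card G))
    (hcyc : ∀ (p : ℕ) [Fact p.Prime] (P : Sylow p G), IsCyclic (P : Subgroup G)) :
    (Nat.card (MulAction.fixedPoints A G : Set G)).Coprime (Nat.card G / Nat.card (MulAction.fixedPoints A G : Set G)) ∧
    IsCyclic (Subgroup.closure {y : G | ∃ (a : A) (g : G), y = g⁻¹ * a • g}) ∧
    (Subgroup.closure {y : G | ∃ (a : A) (g : G), y = g⁻¹ * a • g}).Normal ∧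
    (Subgroup.closure {y : G | ∃ (a : A) (g : G), y = g⁻¹ * a • g} : Set G) ∩ MulAction.fixedPoints A G = {1} ∧
    Subgroup.closure {y : G | ∃ (a : A) (g : G), y = g⁻¹ * a • g} ⊔ Subgroup.closure (MulAction.fixedPoints A G) = ⊤ := by
  open Subgroup CfsgLib CfsgLib.Coprime in
  have hZ : IsZGroup G := ⟨fun p hp P => by have := Fact.mk hp; exact hcyc p P⟩
  set φ := MulDistribMulAction.toMulAut A G with hφ
  have hK : closure {y : G | ∃ (a : A) (g : G), y = g⁻¹ * a • g} = autComm φ ⊤ :=
    (autComm_top_eq (φ := φ)).symm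
  have hC : MulAction.fixedPoints A G = (autFix φ : Set G) := rfl
  rw [hK, hC, closure_eq]
  have hn : (autComm φ ⊤).Normal := autComm_top_normal
  have hsup : autComm φ ⊤ ⊔ autFix φ = ⊤ := by
    have := autComm_sup_autFix (φ := φ) autInv_top (coprime_subgroup hcop ⊤) (Or.inr inferInstance)
    rwa [top_inf_eq] at this
  have hcent : autComm φ ⊤ ≤ centralizer (commutator G : Set G) := by
    obtain ⟨c, hc⟩ := (isCyclic_iff_exists_zpowers_eq_top.1 (IsZGroup.isCyclic_commutator G))
    have hc' : zpowers (c : G) = commutator G := by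
      have := congrArg (Subgroup.map (commutator G).subtype) hc
      rwa [MonoidHom.map_zpowers, ← MonoidHom.range_eq_map, range_subtype] at this
    rw [← hc', Core.centralizer_zpowers, autComm_le_iff]
    intro a g _
    obtain ⟨m, hm⟩ : g * c * g⁻¹ ∈ zpowers (c : G) :=
      hc'.ge ((inferInstance : (commutator G).Normal).conj_mem _ c.2 g)
    obtain ⟨j, hj⟩ : φ a⁻¹ c ∈ zpowers (c : G) := hc'.ge (autInv_of_characteristic _ a⁻¹ _ c.2)
    have h1 : g * φ a⁻¹ c * g⁻¹ = φ a⁻¹ c ^ m := by
      rw [← hj, ← conj_zpow, ← hm, ← zpow_mul, ← zpow_mul, mul_comm]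
    have h2 := congrArg (φ a) h1
    have h3 : φ a (φ a⁻¹ c) = c := by rw [← MulAut.mul_apply, ← map_mul]; simp
    rw [map_mul, map_mul, map_zpow, h3, map_inv, show (c : G) ^ m = _ from hm] at h2
    rw [mem_centralizer_singleton_iff]
    calc g⁻¹ * φ a g * c = g⁻¹ * (φ a g * c * (φ a g)⁻¹) * φ a g := by group
      _ = _ := by rw [h2]; group
  have hcomm : IsMulCommutative (autComm φ ⊤) := ⟨⟨commutative_of_cyclic_center_quotient
    (Abelianization.of.comp (autComm φ ⊤).subtype) fun x hx => mem_center_iff.2 fun y => Subtype.ext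
      (hcent y.2 x (by rw [← Abelianization.ker_of]; exact hx)).symm⟩⟩
  have hcy : IsCyclic (autComm φ ⊤) := by
    have : Group.IsNilpotent (autComm φ ⊤) := Core.isNilpotent_of_isMulCommutative
    infer_instance
  have hinf : autFix φ ⊓ autComm φ ⊤ = ⊥ := by
    have h1 := autFix_inf_autComm_le (φ := φ) (autInv_autComm ⊤) (coprime_subgroup hcop _)
    rw [autComm_autComm autInv_top (coprime_subgroup hcop ⊤),
      commutator_eq_bot_iff_le_centralizer.2 (le_centralizer _)] at h1
    exact le_bot_iff.1 h1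
  refine ⟨?_, hcy, hn, ?_, hsup⟩
  · have h1 := Core.card_sup_mul_card_inf_of_normal (autFix φ) (autComm φ ⊤)
    rw [sup_comm, hsup, hinf, card_top, card_bot, mul_one] at h1
    change (Nat.card (autFix φ)).Coprime (Nat.card G / Nat.card (autFix φ))
    rw [h1, Nat.mul_div_cancel_left _ Nat.card_pos]
    refine Nat.coprime_of_dvd fun p hp h2 h3 => ?_
    have := Fact.mk hp
    obtain ⟨c, hc⟩ := exists_prime_orderOf_dvd_card' (G := autFix φ) p h2
    obtain ⟨k, hk⟩ := exists_prime_orderOf_dvd_card' (G := autComm φ ⊤) p h3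
    rw [← orderOf_coe] at hc hk
    have h4 : IsPGroup p (zpowers (c : G)) := IsPGroup.of_card (n := 1) (by simp [hc])
    have h5 : IsPGroup p (zpowers (k : G)) := IsPGroup.of_card (n := 1) (by simp [hk])
    obtain ⟨P, hP⟩ := h4.exists_le_sylow
    have := PGroup.normal_of_le_cyclic hcy (zpowers_le.2 k.2)
    have h6 := h5.le_sylow_of_normal P
    obtain ⟨i, hi⟩ := LocStr.mem_zpowers_of_isCyclic (T := (P : Subgroup G)) hp.pos
      (x := ⟨k, h6 (mem_zpowers _)⟩) (y := ⟨c, hP (mem_zpowers _)⟩) (by rw [orderOf_mk, hk])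
      (Subtype.ext (show (c : G) ^ p = 1 from hc ▸ pow_orderOf_eq_one _))
    have h7 : (c : G) ∈ autFix φ ⊓ autComm φ ⊤ := ⟨c.2, by
      rw [← show (k : G) ^ i = c from congrArg Subtype.val hi]; exact zpow_mem k.2 i⟩
    rw [hinf, mem_bot] at h7
    rw [h7, orderOf_one] at hc
    exact hp.ne_one hc.symm
  · rw [← coe_inf, inf_comm, hinf, coe_bot]

end Cfsg.Agent.S4117
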