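import Cfsg.Statements.S4118
import Cfsg.Agent.Lib.FTApp.TIHall
import Cfsg.Agent.Lib.FT.OddOrder
import Cfsg.Agent.Lib.FrobCompl.Basic
import Cfsg.Agent.S3359

set_option autoImplicit false
open Cfsg

namespace Cfsg.Agent.S4118

open CfsgLib CfsgLib.FTApp Subgroup
open scoped commutatorElement

theorem sl25 : ¬ Group.IsSolvable (Matrix.SpecialLinearGroup (Fin 2) (ZMod 5)) := by
  have h1 : (2 : ZMod 5) ≠ 0 := by decide
  have h2 : (2 : ZMod 5) ^ 2 ≠ 1 := by decide
  haveI : Fact (Nat.Prime 5) := ⟨by norm_num⟩
  haveI : Group.IsPerfect (Matrix.SpecialLinearGroup (Fin 2) (ZMod 5)) :=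
    ⟨Matrix.SL2.commutator_eq_top (a := 2) h1 h2⟩
  haveI : Nontrivial (Matrix.SpecialLinearGroup (Fin 2) (ZMod 5)) := ⟨1, -1, by decide⟩
  exact Group.IsPerfect.not_isSolvable _

theorem isSolvable_of_commutator {G : Type*} [Group G] (M : Subgroup G)
    [Group.IsSolvable (⁅M, M⁆ : Subgroup G)] : Group.IsSolvable M := by
  haveI : Group.IsSolvable (_root_.commutator M) := by
    have e := (_root_.commutator M).equivMapOfInjective M.subtype M.subtype_injective
    rw [map_subtype_commutator] at e
    exact Core.isSolvable_of_mulEquiv e.symm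
  exact Group.isSolvable_of_ker_le_range (_root_.commutator M).subtype Abelianization.of (by
    rw [Abelianization.ker_of, range_subtype])

theorem centralizer_solvable {G : Type*} [Group G] [Finite G] {H O : Subgroup G} [O.Normal]
    [Group.IsSolvable O] [Group.IsSolvable H]
    (hHall : (Nat.card H).Coprime (H.relIndex (normalizer (H : Set G))))
    (hOc : (Nat.card O).Coprime (Nat.card H)) (hG : O ⊔ normalizer (H : Set G) = ⊤)
    (hO : ∀ K : Subgroup G, K.Normal → (Nat.card K).Coprime (Nat.card H) → K ≤ O) :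
    Group.IsSolvable (centralizer (H : Set G)) := by
  set C := centralizer (H : Set G) with hC
  have hCN : C ≤ normalizer (H : Set G) := centralizer_le_normalizer _
  have hi : (H ⊓ C).relIndex C ∣ H.relIndex (normalizer (H : Set G)) := by
    rw [inf_relIndex_right, ← Coprime.relIndex_sup_of_le_normalizer hCN]
    exact Dvd.intro _ (by
      rw [mul_comm]
      exact (mul_comm _ _).trans (relIndex_mul_relIndex H (H ⊔ C) _ le_sup_left (sup_le le_normalizer hCN)))
  have hic : ((H ⊓ C).relIndex C).Coprime (Nat.card H) := Nat.Coprime.coprime_dvd_left hi hHall.symm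
  have hCZ : C ≤ centralizer ((H ⊓ C : Subgroup G) : Set G) := centralizer_le (inf_le_left : H ⊓ C ≤ H)
  obtain ⟨C₀, h1, -, h3, h4⟩ := Coprime.exists_complement_of_le_normalizer (inf_le_right : H ⊓ C ≤ C)
    (hCZ.trans (centralizer_le_normalizer _))
    (Nat.Coprime.coprime_dvd_left (card_dvd_of_le inf_le_left) hic.symm)
  have hZ0 : H ⊓ C ≤ normalizer (C₀ : Set G) :=
    (le_centralizer_iff.1 (h1.trans hCZ)).trans (centralizer_le_normalizer _)
  have hC0 : C ≤ normalizer (C₀ : Set G) := h3 ▸ sup_le hZ0 le_normalizer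
  have hri : C₀.relIndex C ∣ Nat.card H := by
    refine (Coprime.relIndex_dvd_of_le_sup hZ0 (by rw [sup_comm, h3])).trans (card_dvd_of_le inf_le_left)
  have hN0 : normalizer (H : Set G) ≤ normalizer (C₀ : Set G) := by
    intro n hn
    apply Core.mem_normalizer_of_forall_conj_mem
    intro x hx
    have hx' : n * x * n⁻¹ ∈ C :=
      (mem_normalizer_iff.1 (Core.normalizer_le_normalizer_centralizer _ hn) x).1 (h1 hx)
    refine Coprime.le_of_coprime_relIndex hC0 (zpowers_le.2 hx') ?_ (mem_zpowers _)
    rw [Nat.card_zpowers, show orderOf (n * x * n⁻¹) = orderOf x from (MulAut.conj n).orderOf_eq x]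
    refine Nat.Coprime.coprime_dvd_left (C₀.orderOf_dvd_natCard hx) ?_
    rw [h4]
    exact hic.coprime_dvd_right hri
  have hle : C₀ ≤ O := le_sup_right.trans (hO _ (normal_sup_of_le_normalizer hG hN0)
    (Nat.Coprime.coprime_dvd_left (Coprime.card_sup_dvd_of_le_normalizer le_normalizer_of_normal)
      (Nat.Coprime.mul_left hOc (h4 ▸ hic))))
  haveI := Core.isSolvable_of_le hle
  haveI := Core.isSolvable_of_le (inf_le_left : H ⊓ C ≤ H)
  rw [← h3]
  exact Core.isSolvable_sup_of_le_normalizer hZ0

/-- Let G be a finite group and H a non-normal subgroup meeting each of its conjugates by elements outside N_G(H) trivially, with the order of H coprime to its index in N_G(H); let π be the set of primes dividing the order of H and suppose G is π-separable (it has a chain of normal subgroups from 1 to G each of whose factors has order divisible only by primes in π or coprime to the order of H). Let O be the largest normal subgroup of G of order coprime to the order of H. Then G = O·N_G(H), O·H is normal in G, and G is solvable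 if and only if O is solvable and H has no subgroup isomorphic to SL₂(5). -/
theorem result {G : Type*} [Group G] [Finite G] (H : Subgroup G)
    (hTI : Cfsg.IsTISubset (H : Set G)) (hnn : ¬ H.Normal)
    (hHall : (Nat.card H).Coprime (H.subgroupOf (Subgroup.normalizer (H : Set G))).index)
    (hsep : ∃ (n : ℕ) (M : Fin (n + 1) → Subgroup G), M 0 = ⊥ ∧ M (Fin.last n) = ⊤ ∧ Monotone M ∧ (∀ i, (M i).Normal) ∧
      ∀ i : Fin n, (∀ q : ℕ, q.Prime → q ∣ (M i.castSucc).relIndex (M i.succ) → q ∣ Nat.card H) ∨
        ((M i.castSucc).relIndex (M i.succ)).Coprime (Nat.card H))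
    (O : Subgroup G) (hO : O = sSup {K : Subgroup G | K.Normal ∧ (Nat.card K).Coprime (Nat.card H)}) :
    O ⊔ Subgroup.normalizer (H : Set G) = ⊤ ∧ (O ⊔ H).Normal ∧
    (Group.IsSolvable G ↔ Group.IsSolvable O ∧
      ∀ K : Subgroup G, K ≤ H → ¬ Nonempty (K ≃* Matrix.SpecialLinearGroup (Fin 2) (ZMod 5))) := by
  obtain ⟨hOn, hOc⟩ := core_normal_coprime _ O hO
  have hG := ti_sup_normalizer_eq_top hTI hnn hHall hsep hO
  refine ⟨hG, normal_sup_of_le_normalizer hG le_rfl, fun hs => ⟨inferInstance, fun K _ ⟨e⟩ =>
    sl25 (Core.isSolvable_of_mulEquiv e)⟩, fun ⟨hOs, hK⟩ => ?_⟩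
  have hH1 : H ≠ ⊥ := fun e => hnn (e ▸ inferInstance)
  haveI := (nontrivial_iff_ne_bot H).2 hH1
  haveI hHs : Group.IsSolvable H := by
    by_contra hns
    obtain ⟨K, hA, hnt, hf⟩ := ti_exists_fpf_action hTI hnn hOc hG le_rfl hH1 (Or.inr hOs)
    obtain ⟨-, -, -, S, -, -, -, -, ⟨e⟩, -⟩ := Cfsg.Agent.S3359.result hns
      (FrobCompl.isFCI_of_action _ hf).isFC
    exact hK (S.map H.subtype) (map_subtype_le _)
      ⟨(S.equivMapOfInjective H.subtype H.subtype_injective).symm.trans e⟩
  haveI hNs : Group.IsSolvable (normalizer (H : Set G)) := by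
    rcases Nat.even_or_odd (Nat.card H) with hev | hodd
    · haveI : Group.IsSolvable (normalizer (H : Set G) ⧸ H.subgroupOf (normalizer (H : Set G))) :=
        FT.odd_order_solvable (Nat.Coprime.odd_of_left
          (Nat.Coprime.coprime_dvd_left (even_iff_two_dvd.1 hev) hHall))
      haveI : Group.IsSolvable (H.subgroupOf (normalizer (H : Set G))) :=
        Core.isSolvable_of_mulEquiv (subgroupOfEquivOfLe le_normalizer).symm
      exact Group.isSolvable_of_ker_le_range (H.subgroupOf (normalizer (H : Set G))).subtype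
        (QuotientGroup.mk' (H.subgroupOf (normalizer (H : Set G)))) (by simp)
    · haveI : IsZGroup H := (ti_pqCond hTI hnn hOc hG).isZGroup_of_odd hodd
      haveI := centralizer_solvable hHall hOc hG (fun K h1 h2 => hO ▸ le_sSup ⟨h1, h2⟩)
      haveI := Core.isSolvable_of_le (zgroup_derived_two_le_centralizer
        (le_rfl : normalizer (H : Set G) ≤ normalizer (H : Set G)))
      haveI := isSolvable_of_commutator ⁅normalizer (H : Set G), normalizer (H : Set G)⁆
      exact isSolvable_of_commutator _
  have := Core.isSolvable_sup_of_normal (normalizer (H : Set G)) O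
  rw [sup_comm, hG] at this
  exact Core.isSolvable_of_mulEquiv topEquiv

end Cfsg.Agent.S4118
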