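import Cfsg.Statements.S4120
import Cfsg.Agent.Lib.KMS.Main

set_option autoImplicit false
open Cfsg

namespace Cfsg.Agent.S4120

/-- Let the finite group A act faithfully on the finite group G by automorphisms, and suppose A is a Frobenius group with kernel F and complement H such that F fixes only the identity of G. If the fixed-point subgroup C_G(H) is nilpotent, then G is nilpotent. -/
theorem result {G A : Type*} [Group G] [Finite G] [Group A] [Finite A] [MulDistribMulAction A G] [FaithfulSMul A G]
    (Fk Hc : Subgroup A) [Fk.Normal] (hHc : Cfsg.IsFrobeniusComplement Hc) (hker : Cfsg.frobeniusKernel Hc = (Fk : Set A))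
    (hCF : ∀ g : G, (∀ f ∈ Fk, f • g = g) → g = 1) (hnil : Group.IsNilpotent (Subgroup.closure {g : G | ∀ h ∈ Hc, h • g = g})) : Group.IsNilpotent G := by
  obtain ⟨N, h1, -, -, -, h2, h3⟩ := CfsgLib.Frob.exists_nilpotent_kernel hHc
  obtain rfl : N = Fk := SetLike.coe_injective (h1.trans hker)
  refine CfsgLib.KMS.kms_nilpotent h3 h2 (MulDistribMulAction.toMulAut A G)
    (CfsgLib.KMS.fix_eq_bot_iff.2 hCF) ?_
  have e : Subgroup.closure {g : G | ∀ h ∈ Hc, h • g = g} =
      CfsgLib.KMS.fix (MulDistribMulAction.toMulAut A G) Hc := by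
    rw [← Subgroup.closure_eq (CfsgLib.KMS.fix _ Hc)]
    congr 1
    ext g
    exact (CfsgLib.KMS.mem_fix (φ := MulDistribMulAction.toMulAut A G)).symm
  exact e ▸ hnil

end Cfsg.Agent.S4120
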