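import Cfsg.Statements.S4126
import Cfsg.Agent.Lib.Fgs.ClassSize
import Cfsg.Agent.Lib.Kazarin.Basic
import Cfsg.Agent.Lib.Tech.SmallCrit
import Cfsg.Agent.Lib.InvChar.SylowBasic
import Cfsg.Agent.Lib.Transfer.NormalComplement

set_option autoImplicit false
open Cfsg

namespace Cfsg.Agent.S4126

open Cfsg CfsgLib Subgroup
open scoped ComplexConjugate

section

attribute [local instance] Classical.propDecidable

theorem key {G : Type*} [Group G] [Finite G] {p : ℕ} [hp : Fact p.Prime] (D : Subgroup G) [D.Normal]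
    (hD : IsPGroup p D) (h : ∀ x ∈ D, ∃ a, (centralizer ({x} : Set G)).index = p ^ a) :
    D ≤ centralizer (pResidual p G : Set G) := by
  have := Transfer.pResidual_normal (p := p) (G := G)
  by_contra h0
  set V := D ⊓ centralizer (pResidual p G : Set G)
  obtain ⟨P⟩ : Nonempty (Sylow p (G ⧸ V)) := inferInstance
  obtain ⟨_, ⟨d, hd, rfl⟩, h1, h2⟩ := InvChar.exists_mem_center_of_normalized P.isPGroup'
    ((hD.map (QuotientGroup.mk' V)).le_sylow_of_normal P)
    (fun g _ w hw => (inferInstance : (D.map (QuotientGroup.mk' V)).Normal).conj_mem w hw g)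
    (fun e => h0 ((((Subgroup.map_eq_bot_iff _).1 e).trans (QuotientGroup.ker_mk' V).le).trans inf_le_right))
  obtain ⟨a, ha⟩ := h d hd
  obtain ⟨b, -, hb⟩ := (Nat.dvd_prime_pow hp.out).1 (ha ▸ Fgs.index_cent_quotient_dvd V d)
  have h3 := Fgs.not_dvd_index_of_sylow_le P fun y hy => mem_centralizer_singleton_iff.2 (h2 y hy)
  have h4 : (d : G ⧸ V) ∈ center _ := Fgs.index_cent_eq_one_iff.1 (by
    rcases b with _ | b
    · exact hb
    · exact absurd (hb ▸ dvd_pow_self p b.succ_ne_zero) h3)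
  refine h1 ((QuotientGroup.eq_one_iff d).2 ⟨hd, fun g hg => (mem_centralizer_singleton_iff.1
    ((Transfer.pResidual_le_iff (N := centralizer {d})).2 (fun g hg => ?_) hg))⟩)
  have h5 : d⁻¹ * (g * d * g⁻¹) ∈ V := QuotientGroup.eq.1 (by simp [mem_center_iff.1 h4])
  have h6 := h5.2 g (Transfer.mem_pResidual_of_coprime hg)
  have h7 : ∀ n : ℕ, g ^ n * d * (g ^ n)⁻¹ = d * (d⁻¹ * (g * d * g⁻¹)) ^ n := fun n => by
    induction n with
    | zero => simp
    | succ n ih =>
      have : Commute g (d⁻¹ * (g * d * g⁻¹)) := h6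
      calc _ = g * (g ^ n * d * (g ^ n)⁻¹) * g⁻¹ := by group
        _ = g * d * g⁻¹ * (g * (d⁻¹ * (g * d * g⁻¹)) ^ n * g⁻¹) := by rw [ih]; group
        _ = _ := by rw [(this.pow_right n).eq, pow_succ']; simp [mul_assoc]
  obtain ⟨k, hk⟩ := Fgs.orderOf_eq_pow_of_mem_isPGroup hD h5.1
  have h8 := h7 (orderOf g)
  rw [pow_orderOf_eq_one, one_mul, inv_one, mul_one, left_eq_mul, ← orderOf_dvd_iff_pow_eq_one, hk] at h8
  rw [(hg.symm.pow_left k).eq_one_of_dvd h8, orderOf_eq_one_iff, inv_mul_eq_one, eq_mul_inv_iff_mul_eq] at hk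
  exact mem_centralizer_singleton_iff.2 hk.symm

end

/-- Let G be a finite group and p a prime. Suppose every element of order p, and when p = 2 also every element of order 4, has a conjugacy class of p-power size. Then G has a normal p-complement. -/
theorem result {G : Type*} [Group G] [Finite G] (p : ℕ) [Fact p.Prime]
    (h : ∀ x : G, (orderOf x = p ∨ (p = 2 ∧ orderOf x = 4)) → ∃ a : ℕ, (Subgroup.centralizer ({x} : Set G)).index = p ^ a) :
    Cfsg.HasNormalPComplement p G := by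
  have hp : p.Prime := Fact.out
  have h1 : ∀ x : G, (x ^ p = 1 ∨ (p = 2 ∧ x ^ 4 = 1)) → ∃ a : ℕ, (centralizer ({x} : Set G)).index = p ^ a :=
    fun x hx => by
    by_cases h0 : x ^ p = 1
    · by_cases h1 : x = 1
      · exact ⟨0, Fgs.index_cent_eq_one_iff.2 (h1 ▸ one_mem _)⟩
      · exact h x (Or.inl (orderOf_eq_prime h0 h1))
    · obtain ⟨rfl, h2⟩ := hx.resolve_left h0
      exact h x (Or.inr ⟨rfl, orderOf_eq_prime_pow (p := 2) (n := 1) h0 h2⟩)
  obtain ⟨D, h2, h3, h4, -, h5⟩ := Tech.exists_critical_small_of (Core.isPGroup_pCore p G)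
  rw [normalizer_eq_top] at h3 h5
  have : D.Normal := normalizer_eq_top_iff.1 (top_le_iff.1 h3)
  have h6 := le_centralizer_iff.1 (key D ((Core.isPGroup_pCore p G).to_le h2) fun x hx => h1 x (h4 x hx))
  have h7 : pResidual p G ≤ centralizer (pCore p G : Set G) := Transfer.pResidual_le_iff.2 fun g hg =>
    h5 g trivial hg (h6 (Transfer.mem_pResidual_of_coprime hg))
  obtain ⟨P⟩ : Nonempty (Sylow p (pResidual p G)) := inferInstance
  refine Transfer.hasNormalPComplement_pResidual_iff.1 (Tech.hasNormalPComplement_of_filtration P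
    (fun i => if i = 0 then ⊥ else ⊤) (n := 1) rfl (fun _ _ _ => trivial) fun i a _ ha _ g _ => ?_)
  split_ifs
  · have h8 : (a : G) ^ p = 1 ∨ (p = 2 ∧ (a : G) ^ 4 = 1) :=
      ha.imp (congrArg Subtype.val) fun h => ⟨h.1, congrArg Subtype.val h.2⟩
    obtain ⟨k, hk⟩ := h1 a h8
    have h9 : (a : G) ∈ pCore p G := Kazarin.mem_pCore_of_index_eq_pow hp (m := 2) (by
      rcases h8 with h | ⟨rfl, h⟩
      · rw [sq, pow_mul, h, one_pow]
      · exact h) hk
    exact mem_bot.2 (commutatorElement_eq_one_iff_mul_comm.2 (Subtype.ext (h7 g.2 a h9).symm))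
  · trivial

end Cfsg.Agent.S4126
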