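import Cfsg.Statements.S4127
import Cfsg.Agent.Lib.Fgs.ClassSize
import Cfsg.Agent.Lib.InvChar.SylowBasic
import Cfsg.Agent.Lib.Kazarin.Basic
import Cfsg.Agent.Lib.Coprime.Abelian
import Cfsg.Agent.Lib.Count.Subgroups
import Cfsg.Agent.Lib.Transfer.NormalComplement

set_option autoImplicit false
open Cfsg

namespace Cfsg.Agent.S4127

open Cfsg CfsgLib Subgroup
open scoped ComplexConjugate

section

attribute [local instance] Classical.propDecidable

theorem camina {G : Type*} [Group G] [Finite G] {p : ℕ} [hp : Fact p.Prime]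
    (h : ∀ y : G, ¬ p ∣ orderOf y → ¬ p ∣ (centralizer ({y} : Set G)).index) : HasNormalPComplement p G := by
  obtain ⟨P⟩ : Nonempty (Sylow p G) := inferInstance
  have h1 : (P : Subgroup G) ⊔ centralizer (P : Set G) = ⊤ := Count.eq_top_of_forall_exists_conj_mem _ fun x => by
    obtain ⟨a, b, -, -, rfl, h1, ⟨k, h2⟩, h3⟩ := Fgs.exists_p_part p x
    obtain ⟨Q, hQ⟩ := Fgs.exists_sylow_le_of_not_dvd_index (h b h3)
    obtain ⟨c, hc, h4⟩ := InvChar.exists_conj_mem_sylow_of_le Q hQ (P := zpowers a)
      (IsPGroup.of_card (by rw [Nat.card_zpowers, h2])) (zpowers_le.2 (Fgs.mem_cent_iff.2 h1.symm))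
    obtain ⟨g, rfl⟩ := MulAction.exists_smul_eq G Q P
    refine ⟨g * c, ?_⟩
    rw [show g * c * (a * b) * (g * c)⁻¹ = g * (c * a * c⁻¹) * g⁻¹ * (g * (c * b * c⁻¹) * g⁻¹) by group,
      ← (Fgs.mem_cent_iff.1 hc).eq, mul_inv_cancel_right]
    refine mul_mem (mem_sup_left ⟨_, h4 a (mem_zpowers a), rfl⟩) (mem_sup_right ?_)
    rintro _ ⟨y, hy, rfl⟩
    have := (Fgs.mem_cent_iff.1 (hQ hy)).eq
    simp [mul_assoc, ← this]
    simp [← mul_assoc, this]
  have h2 : (P : Subgroup G).Normal := normalizer_eq_top_iff.1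
    (top_le_iff.1 (h1 ▸ sup_le le_normalizer (centralizer_le_normalizer _)))
  have h3 : (centralizer (P : Set G)).Normal := Subgroup.normal_centralizer (H := (P : Subgroup G))
  refine Transfer.hasNormalPComplement_of_isPGroup_quotient (N := centralizer (P : Set G)) ?_ ?_
  · refine P.isPGroup'.of_surjective ((QuotientGroup.mk' _).comp (P : Subgroup G).subtype) ?_
    rw [← MonoidHom.range_eq_top, MonoidHom.range_comp, range_subtype,
      ← (comap_injective (QuotientGroup.mk'_surjective _)).eq_iff, QuotientGroup.comap_map_mk', sup_comm, h1,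
      comap_top]
  · obtain ⟨R⟩ : Nonempty (Sylow p (centralizer (P : Set G))) := inferInstance
    refine Transfer.hasNormalPComplement_of_sylow_le_center R fun r hr => mem_center_iff.2 fun g => Subtype.ext ?_
    obtain ⟨Q, hQ⟩ := (R.isPGroup'.map (centralizer (P : Set G)).subtype).exists_le_sylow
    have := P.unique_of_normal h2
    have h4 : (Q : Subgroup G) ≤ P := by rw [Subsingleton.elim Q P]
    exact (g.2 r (h4 (hQ ⟨r, hr, rfl⟩))).symm

end

/-- Let G be a finite group, p a prime and p^a the largest power of p dividing the size of any conjugacy class of G. If some element of p-power order has a conjugacy class of size exactly p^a, then G has a normal p-complement. -/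
theorem result {G : Type*} [Group G] [Finite G] (p : ℕ) [Fact p.Prime]
    (a : ℕ) (hmax : ∀ y : G, ¬ p ^ (a + 1) ∣ (Subgroup.centralizer ({y} : Set G)).index)
    (hx : ∃ x : G, (∃ k : ℕ, orderOf x = p ^ k) ∧ (Subgroup.centralizer ({x} : Set G)).index = p ^ a) :
    Cfsg.HasNormalPComplement p G := by
  have hp : p.Prime := Fact.out
  obtain ⟨x, ⟨k, hk⟩, hx⟩ := hx
  have h1 : x ∈ pCore p G := Kazarin.mem_pCore_of_index_eq_pow hp (hk ▸ pow_orderOf_eq_one x) hx
  set C := centralizer ({x} : Set G) with hC
  have h2 : HasNormalPComplement p C := camina fun y hy h => hmax (x * y) (by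
    rw [Fgs.cent_mul_of_coprime (Fgs.mem_cent_iff.1 y.2) (by
      rw [hk, orderOf_coe]; exact ((Nat.Prime.coprime_iff_not_dvd hp).2 hy).pow_left _),
      ← relIndex_mul_index inf_le_left, inf_relIndex_left, hx, pow_succ', ← Fgs.index_cent_subgroup]
    exact mul_dvd_mul_right h _)
  set H := (pResidual p C).map C.subtype
  have hH : (Nat.card H).Coprime p := by
    rw [card_map_of_injective C.subtype_injective]
    exact Transfer.hasNormalPComplement_iff_coprime.1 h2
  have hO := Core.isPGroup_pCore p G
  have h3 : H ≤ centralizer (pCore p G : Set G) := Coprime.thompson_p_times_q (P := zpowers x)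
    (hO.to_le (zpowers_le.2 h1)) hH hO
    (zpowers_le.2 fun y hy => (Fgs.mem_cent_iff.1 (map_subtype_le _ hy)).symm.eq)
    (by simp [normalizer_eq_top]) (by simp [normalizer_eq_top]) fun u hu => by
      rintro _ ⟨y, hy, rfl⟩
      have h4 : u ∈ C := mem_centralizer_singleton_iff.2 (hu.2 x (mem_zpowers x)).symm
      exact congrArg Subtype.val (Transfer.pResidual_le_centralizer_of_normal h2 ((pCore p G).subgroupOf C)
        hO.comap_subtype hy ⟨u, h4⟩ hu.1).symm
  have h4 : centralizer (pCore p G : Set G) ≤ C := centralizer_le (Set.singleton_subset_iff.2 h1)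
  refine Transfer.hasNormalPComplement_of_isPGroup_quotient (N := centralizer (pCore p G : Set G)) ?_
    (Transfer.hasNormalPComplement_of_le h2 h4)
  have := Transfer.pResidual_normal (p := p) (G := C)
  obtain ⟨j, hj⟩ := IsPGroup.iff_card.1 (Transfer.isPGroup_quotient_pResidual (p := p) (G := C))
  have h5 := index_dvd_of_le h3
  rw [index_map_subtype, hx, show (pResidual p C).index = p ^ j from hj, ← pow_add] at h5
  obtain ⟨i, -, hi⟩ := (Nat.dvd_prime_pow hp).1 h5
  exact IsPGroup.of_card hi

end Cfsg.Agent.S4127
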