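import Cfsg.Statements.S4142
import Mathlib
import Cfsg.Agent.Lib.Fgs.ConjCount

set_option autoImplicit false
open Cfsg

namespace Cfsg.Agent.S4142

theorem key {G : Type*} [Group G] [Finite G] (N : Subgroup G) [hN : N.Normal] (g : G) :
    (∀ n ∈ N, ∃ x : G, x * g * x⁻¹ = g * n) ↔
      Nat.card (Subgroup.centralizer ({g} : Set G)) =
        Nat.card (Subgroup.centralizer ({(QuotientGroup.mk g : G ⧸ N)} : Set (G ⧸ N))) := by
  let D : Subgroup G := (Subgroup.centralizer ({(QuotientGroup.mk g : G ⧸ N)} : Set (G ⧸ N))).comap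
    (QuotientGroup.mk' N)
  have hD : ∀ x : G, x ∈ D ↔ g⁻¹ * (x * g * x⁻¹) ∈ N := by
    intro x
    rw [Subgroup.mem_comap, Subgroup.mem_centralizer_singleton_iff, ← QuotientGroup.eq]
    simp only [QuotientGroup.mk'_apply, QuotientGroup.mk_mul, QuotientGroup.mk_inv]
    rw [eq_mul_inv_iff_mul_eq, eq_comm]
  have hcardD : Nat.card D = _ := CfsgLib.Core.card_comap_mk' N _
  have hCD : Subgroup.centralizer ({g} : Set G) ≤ D := by
    intro x hx
    rw [hD, Subgroup.mem_centralizer_singleton_iff.1 hx]
    simp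
  have h1 := CfsgLib.Core.card_mul_relIndex_of_le hCD
  rw [← CfsgLib.Fgs.ncard_conj_by_subgroup, hcardD] at h1
  set S := {y : G | ∃ h ∈ D, y = h * g * h⁻¹} with hS
  let T : Set G := (fun n => g * n) '' (N : Set G)
  have hT : T.ncard = Nat.card N := by
    rw [Set.ncard_image_of_injective _ (mul_right_injective g)]; rfl
  have hST : S ⊆ T := by
    rintro _ ⟨h, hh, rfl⟩
    exact ⟨_, (hD h).1 hh, by simp⟩
  have hpos : 0 < Nat.card N := Nat.card_pos
  have hpos' : 0 < Nat.card (Subgroup.centralizer ({g} : Set G)) := Nat.card_pos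
  constructor
  · intro h
    have hTS : T ⊆ S := by
      rintro _ ⟨n, hn, rfl⟩
      obtain ⟨x, hx⟩ := h n hn
      exact ⟨x, (hD x).2 (by rw [hx]; simpa using hn), hx.symm⟩
    rw [Set.Subset.antisymm hST hTS, hT] at h1
    first
      | exact Nat.eq_of_mul_eq_mul_right hpos h1
      | exact Nat.eq_of_mul_eq_mul_right hpos (h1.trans (mul_comm _ _))
  · intro h n hn
    rw [← h] at h1
    have h2 : S.ncard = Nat.card N := by
      first
        | exact Nat.eq_of_mul_eq_mul_left hpos' h1
        | exact Nat.eq_of_mul_eq_mul_left hpos' (h1.trans (mul_comm _ _))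
    have h3 : S = T := Set.eq_of_subset_of_ncard_le hST (by rw [hT, h2])
    have h4 : g * n ∈ S := h3 ▸ ⟨n, hn, rfl⟩
    obtain ⟨x, -, hx⟩ := h4
    exact ⟨x, hx.symm⟩

/-- Let G be a finite group and N a normal subgroup. Then the conjugacy class of every element g outside N is a union of cosets of N (gn is conjugate to g for all n ∈ N) if and only if for every g outside N the centralizer of g in G has the same order as the centralizer of gN in G/N. -/
theorem result {G : Type*} [Group G] [Finite G] (N : Subgroup G) [N.Normal] :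
    (∀ g : G, g ∉ N → ∀ n ∈ N, ∃ x : G, x * g * x⁻¹ = g * n) ↔
      ∀ g : G, g ∉ N → Nat.card (Subgroup.centralizer ({g} : Set G)) =
        Nat.card (Subgroup.centralizer ({(QuotientGroup.mk g : G ⧸ N)} : Set (G ⧸ N))) := by
  exact forall_congr' fun g => imp_congr_right fun _ => key N g

end Cfsg.Agent.S4142
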