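import Cfsg.Statements.S4144
import Cfsg.Agent.Lib.MaxCl.Rank

set_option autoImplicit false
open Cfsg

namespace Cfsg.Agent.S4144

/-- Let X be a finite p-group of order p^n, n ≥ 2, of nilpotency class n − 1 (maximal class), and H any subgroup of X. Then the index in H of the subgroup generated by the p-th powers of elements of H is at most p^p. -/
theorem result {X : Type*} [Group X] [Finite X] {p : ℕ} [Fact p.Prime] (n : ℕ) (hn : 2 ≤ n) (hX : Nat.card X = p ^ n)
    (hmax : Group.nilpotencyClass X = n - 1) (H : Subgroup X) :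
    (Subgroup.closure {y : X | ∃ h ∈ H, y = h ^ p}).relIndex H ≤ p ^ p := by
  by_cases h3 : 3 ≤ n
  · exact CfsgLib.MaxCl.MC.relIndex_ag_le ⟨h3, hX, hmax⟩ H
  · have hp : p.Prime := Fact.out
    refine (Nat.le_of_dvd Nat.card_pos (Subgroup.relIndex_dvd_card _ _)).trans
      ((Subgroup.card_le_card_group H).trans ?_)
    rw [hX]
    exact Nat.pow_le_pow_right hp.pos (by have := hp.two_le; omega)

end Cfsg.Agent.S4144
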