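import Cfsg.Statements.S4149
import Cfsg.Agent.Lib.BG.AmbHall

set_option autoImplicit false
open Cfsg

namespace Cfsg.Agent.S4149

open CfsgLib.BG in
theorem two_mul_card_le {G : Type*} [Group G] [Fintype G] {p : ℕ} (hp : p.Prime)
    (h : ¬ Cfsg.HasNormalPComplement p G) [DecidablePred fun x : G =>
      p ∣ (Subgroup.centralizer ({x} : Set G)).index] :
    Fintype.card G ≤ 2 * (Finset.univ.filter fun x : G =>
      p ∣ (Subgroup.centralizer ({x} : Set G)).index).card := by
  classical
  have := Fact.mk hp
  have : Fintype (Sylow p G) := Fintype.ofFinite _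
  have key : ∀ Q : Sylow p G, 2 * Nat.card (Subgroup.centralizer ((Q : Subgroup G) : Set G)) *
      Nat.card (Sylow p G) ≤ Nat.card G := fun Q => by
    have hlt : Subgroup.centralizer ((Q : Subgroup G) : Set G) <
        Subgroup.normalizer ((Q : Subgroup G) : Set G) := by
      refine lt_of_le_of_ne (cent_sub _) fun e => h ⟨Q, _, inferInstance,
        MonoidHom.ker_transferSylow_isComplement' Q e.ge⟩
    obtain ⟨k, hk⟩ := cardSg hlt.le
    have h1 := proper_card hlt
    have h2 : 2 ≤ k := by
      by_contra hc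
      have : k = 0 ∨ k = 1 := by omega
      rcases this with rfl | rfl <;> omega
    rw [Q.card_eq_index_normalizer, ← (Subgroup.normalizer ((Q : Subgroup G) : Set G)).card_mul_index]
    refine Nat.mul_le_mul_right _ ?_
    rw [hk, mul_comm]
    exact Nat.mul_le_mul_left _ h2
  have hsub : (Finset.univ.filter fun x : G => ¬ p ∣ (Subgroup.centralizer ({x} : Set G)).index) ⊆
      Finset.univ.biUnion fun Q : Sylow p G =>
        Finset.univ.filter fun x => x ∈ Subgroup.centralizer ((Q : Subgroup G) : Set G) := by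
    intro x hx
    have hx' := (Finset.mem_filter.1 hx).2
    rw [← Subgroup.relIndex_top_right] at hx'
    obtain ⟨P, hP, hle⟩ := (not_dvd_relIndex_iff_Sylow_le hp le_top).1 hx'
    obtain ⟨S, rfl⟩ := exists_sylow_top hp hP
    exact Finset.mem_biUnion.2 ⟨S, Finset.mem_univ _, Finset.mem_filter.2
      ⟨Finset.mem_univ _, sub_cent1.1 hle⟩⟩
  have h1 := (Finset.card_le_card hsub).trans Finset.card_biUnion_le
  have h2 : ∑ Q : Sylow p G, 2 * (Finset.univ.filter fun x =>
      x ∈ Subgroup.centralizer ((Q : Subgroup G) : Set G)).card * Nat.card (Sylow p G) ≤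
      ∑ _Q : Sylow p G, Nat.card G := Finset.sum_le_sum fun Q _ => by
    have := key Q
    rwa [Nat.card_eq_fintype_card (α := Subgroup.centralizer _), Fintype.card_subtype] at this
  rw [← Finset.sum_mul, ← Finset.mul_sum, Finset.sum_const, smul_eq_mul, Finset.card_univ,
    ← Nat.card_eq_fintype_card, mul_comm _ (Nat.card G)] at h2
  have h3 := Nat.le_of_mul_le_mul_right h2 Nat.card_pos
  have h4 := Finset.card_filter_add_card_filter_not (s := (Finset.univ : Finset G))
    fun x : G => p ∣ (Subgroup.centralizer ({x} : Set G)).index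
  rw [Finset.card_univ] at h4
  rw [Nat.card_eq_fintype_card] at h3
  omega

/-- Let G be a finite group that has a normal p-complement for at most one prime p dividing its order, and let σ be a natural number such that every conjugacy class size of G has at most σ distinct prime divisors. Then the number of primes dividing at least one conjugacy class size of G is at most 2σ. -/
theorem result {G : Type*} [Group G] [Finite G] (σ : ℕ)
    (hσ : ∀ x : G, ((Subgroup.centralizer ({x} : Set G)).index).primeFactors.card ≤ σ)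
    (hnil : ∀ p q : ℕ, p.Prime → q.Prime → p ∣ Nat.card G → q ∣ Nat.card G →
      Cfsg.HasNormalPComplement p G → Cfsg.HasNormalPComplement q G → p = q) :
    Nat.card {p : ℕ | p.Prime ∧ ∃ x : G, p ∣ (Subgroup.centralizer ({x} : Set G)).index} ≤ 2 * σ := by
  classical
  have := Fintype.ofFinite G
  set ρ : Finset ℕ := (Nat.card G).primeFactors.filter
    fun p => ∃ x : G, p ∣ (Subgroup.centralizer ({x} : Set G)).index with hρ
  have hmem : ∀ p, p ∈ ρ ↔ p.Prime ∧ ∃ x : G, p ∣ (Subgroup.centralizer ({x} : Set G)).index :=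
    fun p => ⟨fun h => ⟨Nat.prime_of_mem_primeFactors (Finset.mem_filter.1 h).1,
      (Finset.mem_filter.1 h).2⟩, fun ⟨h1, x, hx⟩ => Finset.mem_filter.2
        ⟨Nat.mem_primeFactors.2 ⟨h1, hx.trans (Subgroup.index_dvd_card _), Nat.card_pos.ne'⟩, x, hx⟩⟩
  have e : {p : ℕ | p.Prime ∧ ∃ x : G, p ∣ (Subgroup.centralizer ({x} : Set G)).index} = ρ :=
    Set.ext fun p => (hmem p).symm
  rw [e, Nat.card_coe_set_eq, Set.ncard_coe_finset]
  have hsum : ∑ p ∈ ρ, (Finset.univ.filter fun x : G =>
      p ∣ (Subgroup.centralizer ({x} : Set G)).index).card ≤ Fintype.card G * σ := by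
    simp only [Finset.card_filter]
    rw [Finset.sum_comm, ← Finset.card_univ, ← smul_eq_mul, ← Finset.sum_const]
    refine Finset.sum_le_sum fun x _ => le_trans ?_ (hσ x)
    rw [← Finset.card_filter]
    refine Finset.card_le_card fun p hp => Nat.mem_primeFactors.2
      ⟨((hmem p).1 (Finset.mem_filter.1 hp).1).1, (Finset.mem_filter.1 hp).2,
        Subgroup.index_ne_zero_of_finite⟩
  have hpos : 0 < Fintype.card G := Fintype.card_pos
  have gen : ∀ s ⊆ ρ, (∀ p ∈ s, ¬ Cfsg.HasNormalPComplement p G) →
      Fintype.card G * s.card ≤ 2 * ∑ p ∈ s, (Finset.univ.filter fun x : G =>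
        p ∣ (Subgroup.centralizer ({x} : Set G)).index).card := fun s hs h => by
    rw [mul_comm, ← smul_eq_mul, ← Finset.sum_const, Finset.mul_sum]
    exact Finset.sum_le_sum fun p hp => two_mul_card_le ((hmem p).1 (hs hp)).1 (h p hp)
  by_cases hc : ∃ p ∈ ρ, Cfsg.HasNormalPComplement p G
  · obtain ⟨p, hp, hn⟩ := hc
    have dv : ∀ q ∈ ρ, q ∣ Nat.card G := fun q hq =>
      Nat.dvd_of_mem_primeFactors (Finset.mem_filter.1 hq).1
    have h1 := gen (ρ.erase p) (Finset.erase_subset _ _) fun q hq h =>
      (Finset.mem_erase.1 hq).1 (hnil q p ((hmem q).1 (Finset.mem_erase.1 hq).2).1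
        ((hmem p).1 hp).1 (dv q (Finset.mem_erase.1 hq).2) (dv p hp) h hn)
    rw [← Finset.add_sum_erase _ _ hp] at hsum
    obtain ⟨x, hx⟩ := ((hmem p).1 hp).2
    have h2 : 0 < (Finset.univ.filter fun x : G =>
        p ∣ (Subgroup.centralizer ({x} : Set G)).index).card :=
      Finset.card_pos.2 ⟨x, Finset.mem_filter.2 ⟨Finset.mem_univ _, hx⟩⟩
    have h3 : Fintype.card G * (ρ.erase p).card < Fintype.card G * (2 * σ) := by
      rw [mul_left_comm]; omega
    have h4 := Nat.lt_of_mul_lt_mul_left h3
    rw [Finset.card_erase_of_mem hp] at h4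
    omega
  · push Not at hc
    have h1 := gen ρ subset_rfl hc
    have h3 : Fintype.card G * ρ.card ≤ Fintype.card G * (2 * σ) := by
      rw [mul_left_comm]; omega
    exact Nat.le_of_mul_le_mul_left h3 hpos

end Cfsg.Agent.S4149
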