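import Cfsg.Statements.S4150
import Cfsg.Agent.Lib.FgsH2.Thirteen
import Cfsg.Agent.Lib.FgsH2.TwoPrimes

set_option autoImplicit false
open Cfsg

namespace Cfsg.Agent.S4150

open MulAction CfsgLib.FgsH2 CfsgLib.Perm

theorem core {α : Type*} [Fintype α] [DecidableEq α] {p q : ℕ} (hp : p.Prime) (hq : q.Prime)
    {x y : Equiv.Perm α} (hx : orderOf x = p) (hy : orderOf y = q) (hxA : x ∈ alternatingGroup α)
    (hyA : y ∈ alternatingGroup α) (hs : ∀ z, z ∈ x.support ∨ z ∈ y.support) (hq5 : 5 ≤ q)
    (h1 : Fintype.card α < p + q) (h2 : Fintype.card α < 2 * q)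
    (hcase : (p + 3 ≤ q ∧ (Fintype.card α ≤ q + 2 → Fintype.card α < 2 * p)) ∨
      (p = 3 ∧ q = 5 ∧ Fintype.card α ≤ 6) ∨ (p = 5 ∧ q = 7 ∧ Fintype.card α ≤ 10) ∨
      (p = 11 ∧ q = 13 ∧ Fintype.card α ≤ 16)) :
    ∃ d : ℕ, 5 ≤ d ∧ Nonempty (Subgroup.closure ({x, y} : Set (Equiv.Perm α)) ≃*
      alternatingGroup (Fin d)) := by
  set G := Subgroup.closure ({x, y} : Set (Equiv.Perm α)) with hG
  have hxG : x ∈ G := Subgroup.subset_closure (by simp)
  have hyG : y ∈ G := Subgroup.subset_closure (by simp)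
  have hle : G ≤ alternatingGroup α := by
    rw [hG, Subgroup.closure_le]
    rintro _ (rfl | rfl)
    · exact hxA
    · exact hyA
  have hyc : y.IsCycle := Equiv.Perm.isCycle_of_prime_order' (hy ▸ hq) (hy ▸ h2)
  have hys : y.support.card = q := by rw [← hyc.orderOf, hy]
  have hqd : q ≤ Fintype.card α := hys ▸ y.support.card_le_univ
  have hmove : ∀ z, ∃ g : G, g • z ∈ y.support := by
    intro z
    by_cases hz : z ∈ y.support
    · exact ⟨1, by rwa [one_smul]⟩
    have hzx := (hs z).resolve_right hz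
    have hc : (x.cycleOf z).support.card = p := by
      obtain ⟨n, hn⟩ := Equiv.Perm.cycleType_prime_order (σ := x) (hx ▸ hp)
      have : (x.cycleOf z).support.card ∈ x.cycleType := by
        rw [Equiv.Perm.cycleType_def]
        exact Multiset.mem_map_of_mem (Finset.card ∘ Equiv.Perm.support)
          (Equiv.Perm.cycleOf_mem_cycleFactorsFinset_iff.mpr hzx)
      rw [hn] at this
      rw [Multiset.eq_of_mem_replicate this, hx]
    by_contra hcon
    push Not at hcon
    have hsub : (x.cycleOf z).support ⊆ y.supportᶜ := by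
      intro w hw
      obtain ⟨i, hi⟩ := (Equiv.Perm.mem_support_cycleOf_iff.mp hw).1
      rw [Finset.mem_compl, ← hi]
      exact hcon ⟨x ^ i, zpow_mem hxG i⟩
    have := Finset.card_le_card hsub
    rw [Finset.card_compl, hc, hys] at this
    omega
  have htr : IsPretransitive G α := by
    constructor
    intro a b
    obtain ⟨g, hg⟩ := hmove a
    obtain ⟨h, hh⟩ := hmove b
    obtain ⟨i, hi⟩ := hyc.exists_pow_eq (Equiv.Perm.mem_support.mp hg) (Equiv.Perm.mem_support.mp hh)
    refine ⟨h⁻¹ * (⟨y ^ i, pow_mem hyG i⟩ : G) * g, ?_⟩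
    rw [mul_smul, mul_smul, inv_smul_eq_iff]
    exact hi
  have hprim : IsPreprimitive G α := isPreprimitive_of_prime_cycle hq hyc hys hyG h2
  have hfin : alternatingGroup α ≤ G → ∃ d : ℕ, 5 ≤ d ∧ Nonempty (G ≃* alternatingGroup (Fin d)) :=
    fun h => ⟨Fintype.card α, by omega, ⟨(MulEquiv.subgroupCongr (le_antisymm hle h)).trans
      (Equiv.altCongrHom (Fintype.equivFin α))⟩⟩
  by_cases h3 : q + 3 ≤ Fintype.card α
  · exact hfin (alternatingGroup_le_of_isPreprimitive_of_prime_cycle G hprim hq h3 hyc hys hyG)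
  by_cases h4 : Fintype.card α < 2 * p
  · have hxc : x.IsCycle := Equiv.Perm.isCycle_of_prime_order' (hx ▸ hp) (hx ▸ h4)
    have hxs : x.support.card = p := by rw [← hxc.orderOf, hx]
    by_cases h5 : p + 3 ≤ Fintype.card α
    · exact hfin (alternatingGroup_le_of_isPreprimitive_of_prime_cycle G hprim hp h5 hxc hxs hxG)
    rcases hcase with ⟨h6, -⟩ | ⟨rfl, rfl, -⟩ | ⟨rfl, rfl, -⟩ | ⟨rfl, rfl, -⟩
    · omega
    · exact hfin (Equiv.Perm.alternatingGroup_le_of_isPreprimitive_of_isThreeCycle_mem hprim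
        (card_support_eq_three_iff.mp hxs) hxG)
    · exact hfin (degree_seven hprim hle (by omega) hxc hxs hxG)
    · exact hfin (degree_thirteen hprim (by omega) hxc hxs hxG)
  · rcases hcase with ⟨-, h6⟩ | ⟨rfl, rfl, h6⟩ | ⟨rfl, rfl, h6⟩ | ⟨rfl, rfl, h6⟩
    · omega
    · rcases degree_six hprim hle (by omega) hyc hys hyG with h | h
      · exact hfin h
      · exact ⟨5, le_rfl, h⟩
    · omega
    · omega

theorem main {m p q : ℕ} (hp : p.Prime) (hq : q.Prime) (hq5 : 5 ≤ q) (h1 : m < p + q)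
    (h2 : m < 2 * q)
    (hcase : (p + 3 ≤ q ∧ (m < 2 * p ∨ q + 2 < 2 * p)) ∨
      (p = 3 ∧ q = 5 ∧ m ≤ 6) ∨ (p = 5 ∧ q = 7 ∧ m ≤ 10) ∨ (p = 11 ∧ q = 13 ∧ m ≤ 16))
    (x y : alternatingGroup (Fin m)) (hx : orderOf x = p) (hy : orderOf y = q) :
    ∃ d : ℕ, 5 ≤ d ∧ Nonempty (Subgroup.closure ({x, y} : Set (alternatingGroup (Fin m))) ≃*
      alternatingGroup (Fin d)) := by
  let s : Finset (Fin m) := x.1.support ∪ y.1.support
  obtain ⟨x', hx'⟩ := (alternatingGroup.mem_range_ofSubtype_iff s x).mpr Finset.subset_union_left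
  obtain ⟨y', hy'⟩ := (alternatingGroup.mem_range_ofSubtype_iff s y).mpr Finset.subset_union_right
  have hsm : Fintype.card s ≤ m := by
    rw [Fintype.card_coe]
    simpa using s.card_le_univ
  have hinj := alternatingGroup.ofSubtype_injective (s := s)
  have key : ∀ (k : alternatingGroup s) (z : s),
      z.1 ∈ (alternatingGroup.ofSubtype s k).1.support → z ∈ k.1.support := by
    intro k z hz
    rw [Equiv.Perm.mem_support] at hz ⊢
    intro h
    apply hz
    rw [alternatingGroup.coe_ofSubtype, Equiv.Perm.ofSubtype_apply_coe, h]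
  obtain ⟨d, hd, ⟨e⟩⟩ := core (α := s) hp hq (x := x'.1) (y := y'.1)
    (by rw [Subgroup.orderOf_coe, ← orderOf_injective _ hinj, hx', hx])
    (by rw [Subgroup.orderOf_coe, ← orderOf_injective _ hinj, hy', hy]) x'.2 y'.2
    (fun z => (Finset.mem_union.mp z.2).imp (fun h => key x' z (hx' ▸ h))
      (fun h => key y' z (hy' ▸ h))) hq5 (by omega) (by omega) (by omega)
  have e1 : (Subgroup.closure ({x', y'} : Set (alternatingGroup s))).map
      (alternatingGroup.ofSubtype s) = Subgroup.closure {x, y} := by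
    rw [MonoidHom.map_closure, Set.image_pair, hx', hy']
  have e2 : (Subgroup.closure ({x', y'} : Set (alternatingGroup s))).map
      (alternatingGroup s).subtype = Subgroup.closure {x'.1, y'.1} := by
    rw [MonoidHom.map_closure, Set.image_pair]; rfl
  exact ⟨d, hd, ⟨((MulEquiv.subgroupCongr e1).symm.trans
    (Subgroup.equivMapOfInjective _ _ hinj).symm).trans
    (((Subgroup.equivMapOfInjective _ _ (alternatingGroup s).subtype_injective).trans
      (MulEquiv.subgroupCongr e2)).trans e)⟩⟩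

/-- Let m ≥ 5. Then there are primes p < q with m/2 ≤ p and q ≤ m such that any two elements x, y of the alternating group of degree m with x of order p and y of order q generate a subgroup isomorphic to an alternating group of some degree d ≥ 5. -/
theorem result (m : ℕ) (hm : 5 ≤ m) :
    ∃ p q : ℕ, p.Prime ∧ q.Prime ∧ m ≤ 2 * p ∧ p < q ∧ q ≤ m ∧
      ∀ x y : alternatingGroup (Fin m), orderOf x = p → orderOf y = q →
        ∃ d : ℕ, 5 ≤ d ∧ Nonempty (Subgroup.closure ({x, y} : Set (alternatingGroup (Fin m))) ≃* alternatingGroup (Fin d)) := by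
  by_cases h1 : m ≤ 6
  · exact ⟨3, 5, by norm_num, by norm_num, by omega, by omega, by omega,
      main (by norm_num) (by norm_num) (by omega) (by omega) (by omega) (by omega)⟩
  by_cases h2 : m ≤ 10
  · exact ⟨5, 7, by norm_num, by norm_num, by omega, by omega, by omega,
      main (by norm_num) (by norm_num) (by omega) (by omega) (by omega) (by omega)⟩
  by_cases h3 : m ≤ 14
  · exact ⟨7, 11, by norm_num, by norm_num, by omega, by omega, by omega,
      main (by norm_num) (by norm_num) (by omega) (by omega) (by omega) (by omega)⟩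
  by_cases h4 : m ≤ 16
  · exact ⟨11, 13, by norm_num, by norm_num, by omega, by omega, by omega,
      main (by norm_num) (by norm_num) (by omega) (by omega) (by omega) (by omega)⟩
  obtain ⟨p, q, hp, hq, a1, a2, a3⟩ := exists_two_primes (m := m) (by omega)
  exact ⟨p, q, hp, hq, by omega, by omega, a3,
    main hp hq (by omega) (by omega) (by omega) (by omega)⟩

end Cfsg.Agent.S4150
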