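import Cfsg.Statements.S4151
import Cfsg.Agent.Lib.FTApp.TIHall

set_option autoImplicit false
open Cfsg

namespace Cfsg.Agent.S4151

open CfsgLib CfsgLib.FTApp Subgroup
open scoped commutatorElement

/-- Let G be a finite group and H a non-normal subgroup meeting each of its conjugates by elements outside N_G(H) trivially, with the order of H coprime to its index in N_G(H), such that G is π-separable for π the set of primes dividing the order of H (G has a chain of normal subgroups from 1 to G each of whose factors has order divisible only by primes dividing the order of H or coprime to it). Suppose a Sylow 2-subgroup of H is abelian and Q is a complement of H in N_G(H). Then C_H(Q), the subgroup of elements of H commuting with Q, has order coprime to its index in G and has a normal complement in G. -/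
theorem result {G : Type*} [Group G] [Finite G] (H : Subgroup G)
    (hTI : Cfsg.IsTISubset (H : Set G)) (hnn : ¬ H.Normal)
    (hHall : (Nat.card H).Coprime (H.subgroupOf (Subgroup.normalizer (H : Set G))).index)
    (hsep : ∃ (n : ℕ) (M : Fin (n + 1) → Subgroup G), M 0 = ⊥ ∧ M (Fin.last n) = ⊤ ∧ Monotone M ∧ (∀ i, (M i).Normal) ∧
      ∀ i : Fin n, (∀ q : ℕ, q.Prime → q ∣ (M i.castSucc).relIndex (M i.succ) → q ∣ Nat.card H) ∨
        ((M i.castSucc).relIndex (M i.succ)).Coprime (Nat.card H))
    (h2 : ∀ P : Sylow 2 H, IsMulCommutative (P : Subgroup H))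
    (Q : Subgroup G) (hQ : Q ≤ Subgroup.normalizer (H : Set G)) (hQH : Q ⊓ H = ⊥) (hQH' : Q ⊔ H = Subgroup.normalizer (H : Set G)) :
    (Nat.card ↥(H ⊓ Subgroup.centralizer (Q : Set G))).Coprime (H ⊓ Subgroup.centralizer (Q : Set G)).index ∧
    ∃ N : Subgroup G, N.Normal ∧ N.IsComplement' (H ⊓ Subgroup.centralizer (Q : Set G)) := by
  set O : Subgroup G := sSup {K : Subgroup G | K.Normal ∧ (Nat.card K).Coprime (Nat.card H)} with hO
  obtain ⟨hOn, hOc⟩ := core_normal_coprime _ O hO
  have hG := ti_sup_normalizer_eq_top hTI hnn hHall hsep hO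
  have hPQ := ti_pqCond hTI hnn hOc hG
  haveI hZ : IsZGroup H := ⟨fun p hp P => by
    haveI := Fact.mk hp
    by_cases h : p = 2
    · subst h; exact hPQ.isCyclic_subgroup _ (h2 P)
    · exact (hPQ.subgroup _).isCyclic_of_odd P.2 h⟩
  have hQc : (Nat.card Q).Coprime (Nat.card H) := by
    have h1 := Coprime.relIndex_sup_of_inf_eq_bot hQ (by rw [inf_comm]; exact hQH)
    rw [sup_comm, hQH'] at h1
    rw [← h1]; exact hHall.symm
  set C : Subgroup G := H ⊓ centralizer (Q : Set G) with hC
  set D : Subgroup G := ⁅H, Q⁆ with hD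
  have hDH : D ≤ H := Coprime.commutator_le_of_le_normalizer hQ
  have hDC : D ⊔ C = H := Coprime.commutator_sup_centralizer hQ hQc (Or.inr inferInstance)
  have hNN : normalizer (H : Set G) ≤ normalizer ((⁅H, H⁆ : Subgroup G) : Set G) :=
    (le_inf le_rfl le_rfl).trans (Core.normalizer_inf_le_normalizer_commutator H H)
  have hD1 : D ≤ H ⊓ centralizer ((⁅H, H⁆ : Subgroup G) : Set G) := le_inf hDH
    ((commutator_mono le_normalizer hQ).trans
      (commutator_le_centralizer_of_isCyclic (zgroup_isCyclic_commutator H) hNN))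
  haveI := zgroup_isMulCommutative_centralizer H
  haveI : IsMulCommutative D := Core.isMulCommutative_of_le hD1
  have hDD : ⁅D, Q⁆ = D := Coprime.commutator_commutator_eq hQ hQc
  have hQD : Q ≤ normalizer (D : Set G) := Core.le_normalizer_of_commutator_le hDD.le
  have hDC0 : centralizer (Q : Set G) ⊓ D = ⊥ := by
    have := Coprime.centralizer_inf_commutator_eq_bot hQD (Coprime.coprime_of_le hQc le_rfl hDH)
    rwa [hDD] at this
  have hcDC : (Nat.card D).Coprime (Nat.card C) := by
    by_contra hc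
    obtain ⟨p, hp, h1, h3⟩ := Nat.Prime.not_coprime_iff_dvd.1 hc
    obtain ⟨x, hx, hxp⟩ := Core.exists_mem_orderOf_eq_of_dvd_card hp h1
    obtain ⟨y, hy, hyp⟩ := Core.exists_mem_orderOf_eq_of_dvd_card hp h3
    have hn := hPQ.normal_zpowers (x := ⟨x, hDH hx⟩) (by rw [orderOf_mk, hxp]; exact hp)
    have h4 := hn.conj_mem _ (mem_zpowers _) ⟨y, hy.1⟩
    obtain ⟨k, hk⟩ := h4
    have h5 := (Frob.pqCond_subgroup_iff.1 hPQ x (hDH hx) y hy.1 (hxp ▸ hp) (hyp ▸ hp)
      ⟨k, congrArg Subtype.val hk⟩).2 (by rw [hxp, hyp])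
    have h6 : y ∈ centralizer (Q : Set G) ⊓ D := ⟨hy.2, zpowers_le.2 hx h5⟩
    rw [hDC0, mem_bot] at h6
    rw [h6, orderOf_one] at hyp
    exact hp.one_lt.ne hyp
  have hCH : Nat.card C ∣ Nat.card H := card_dvd_of_le inf_le_left
  have hYn : normalizer (H : Set G) ≤ normalizer ((Q ⊔ D : Subgroup G) : Set G) := by
    rw [← hQH']
    refine sup_le (le_sup_left.trans le_normalizer) ?_
    rw [hD, commutator_comm]
    exact Core.le_normalizer_sup_commutator Q H
  haveI hNn : (O ⊔ (Q ⊔ D)).Normal := normal_sup_of_le_normalizer hG hYn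
  have hNc : (Nat.card (O ⊔ (Q ⊔ D) : Subgroup G)).Coprime (Nat.card C) := by
    have h1 := Coprime.card_sup_dvd_of_le_normalizer (K := O) (A := Q ⊔ D) le_normalizer_of_normal
    have h3 := Core.card_sup_dvd_of_le_normalizer hQD
    refine Nat.Coprime.coprime_dvd_left (h1.trans (Nat.mul_dvd_mul_left _ h3)) ?_
    exact Nat.Coprime.mul_left (hOc.coprime_dvd_right hCH)
      (Nat.Coprime.mul_left (hQc.coprime_dvd_right hCH) hcDC)
  have htop : (O ⊔ (Q ⊔ D)) ⊔ C = ⊤ := by
    rw [sup_assoc, sup_assoc, hDC, hQH', hG]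
  have hcard : Nat.card (O ⊔ (Q ⊔ D) : Subgroup G) * Nat.card C = Nat.card G := by
    rw [← Coprime.card_sup_of_le_normalizer le_normalizer_of_normal
      (Core.inf_eq_bot_of_coprime_card hNc), htop, card_top]
  have hcomp := isComplement'_of_coprime hcard hNc
  exact ⟨by rw [hcomp.index_eq_card]; exact hNc.symm, _, hNn, hcomp⟩

end Cfsg.Agent.S4151
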