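import Cfsg.Statements.S4153
import Mathlib
import Cfsg.Agent.Lib.Fgs.ClassSize

set_option autoImplicit false
open Cfsg

namespace Cfsg.Agent.S4153

theorem fiber_bound {G : Type*} [Group G] [Finite G] (p : ℕ) [hp : Fact p.Prime] (N : Subgroup G)
    [hN : N.Normal] (y : G ⧸ N) (hy : ∃ k : ℕ, orderOf y = p ^ k) :
    p ^ (Nat.card N).factorization p ≤
        {g : G | (∃ k : ℕ, orderOf g = p ^ k) ∧ (g : G ⧸ N) = y}.ncard ∧
      (N ≤ Subgroup.center G → {g : G | (∃ k : ℕ, orderOf g = p ^ k) ∧ (g : G ⧸ N) = y}.ncard =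
        p ^ (Nat.card N).factorization p) := by
  obtain ⟨x0, rfl⟩ := QuotientGroup.mk_surjective y
  obtain ⟨x, b, -, -, hab, hc, hx, hb⟩ := CfsgLib.Fgs.exists_p_part p x0
  have hxy : (x : G ⧸ N) = x0 := by
    obtain ⟨k, hk⟩ := hy
    obtain ⟨l, hl⟩ := hx
    have hc' : Commute (x : G ⧸ N) (b : G ⧸ N) := hc.map (QuotientGroup.mk' N)
    have h1 : orderOf (b : G ⧸ N) ∣ orderOf b := orderOf_map_dvd (QuotientGroup.mk' N) b
    have h2 : orderOf (x : G ⧸ N) ∣ orderOf x := orderOf_map_dvd (QuotientGroup.mk' N) x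
    have hcop : (orderOf x).Coprime (orderOf b) := by
      rw [hl]; exact Nat.Coprime.pow_left _ ((Nat.Prime.coprime_iff_not_dvd hp.out).2 hb)
    have h3 := CfsgLib.Fgs.right_mem_zpowers_mul_of_coprime hc'
      (Nat.Coprime.coprime_dvd_left h2 (Nat.Coprime.coprime_dvd_right h1 hcop))
    rw [← QuotientGroup.mk_mul, hab] at h3
    have h4 := orderOf_dvd_of_mem_zpowers h3
    rw [hk] at h4
    have h5 : orderOf (b : G ⧸ N) = 1 := by
      refine Nat.eq_one_of_dvd_coprimes ?_ h4 h1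
      exact Nat.Coprime.pow_left _ ((Nat.Prime.coprime_iff_not_dvd hp.out).2 hb)
    rw [← hab, QuotientGroup.mk_mul, orderOf_eq_one_iff.1 h5, mul_one]
  obtain ⟨R, hR⟩ := CfsgLib.Fgs.exists_sylow_mem hx
  have hRN : Nat.card ↥((R : Subgroup G) ⊓ N) = p ^ (Nat.card N).factorization p := by
    have hi : ¬ p ∣ ((R : Subgroup G).subgroupOf N).index := fun h =>
      R.not_dvd_index (h.trans (CfsgLib.Fgs.relIndex_dvd_index_of_normal_right _ N))
    have := (IsPGroup.toSylow (R.isPGroup'.comap_subtype (K := N)) hi).card_eq_multiplicity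
    rw [← this, ← CfsgLib.Core.card_subgroupOf]
    rfl
  have himg : ((fun n => x * n) '' (((R : Subgroup G) ⊓ N : Subgroup G) : Set G)).ncard =
      p ^ (Nat.card N).factorization p := by
    rw [Set.ncard_image_of_injective _ (mul_right_injective x), ← hRN]; rfl
  have hsub : (fun n => x * n) '' (((R : Subgroup G) ⊓ N : Subgroup G) : Set G) ⊆
      {g : G | (∃ k : ℕ, orderOf g = p ^ k) ∧ (g : G ⧸ N) = x0} := by
    rintro _ ⟨n, ⟨hn1, hn2⟩, rfl⟩
    refine ⟨CfsgLib.Fgs.orderOf_eq_pow_of_mem_isPGroup R.isPGroup' (mul_mem hR hn1), ?_⟩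
    rw [← hxy, eq_comm, QuotientGroup.eq]
    simpa using hn2
  refine ⟨himg ▸ Set.ncard_le_ncard hsub, fun hZ => ?_⟩
  rw [← himg]
  congr 1
  refine Set.Subset.antisymm ?_ hsub
  rintro g ⟨⟨k, hk⟩, hg⟩
  rw [← hxy, eq_comm, QuotientGroup.eq] at hg
  refine ⟨x⁻¹ * g, ⟨?_, hg⟩, by simp⟩
  have hz := hZ hg
  have hcx : Commute x g := by
    have := Subgroup.mem_center_iff.1 hz x
    have h2 : x * g = x * (x * (x⁻¹ * g)) := by group
    rw [Commute, SemiconjBy, h2, this]; group
  obtain ⟨l, hl⟩ := hx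
  have h1 : orderOf (x⁻¹ * g) ∣ p ^ (l + k) := by
    rw [orderOf_dvd_iff_pow_eq_one, hcx.inv_left.mul_pow, pow_add, pow_mul, inv_pow, ← hl,
      pow_orderOf_eq_one, mul_comm, pow_mul, ← hk, pow_orderOf_eq_one]
    simp
  have h2 : IsPGroup p (Subgroup.zpowers (x⁻¹ * g)) :=
    IsPGroup.of_card_dvd_pow (by rw [Nat.card_zpowers]; exact h1)
  haveI : (Subgroup.zpowers (x⁻¹ * g)).Normal := by
    refine ⟨fun a ha c => ?_⟩
    have ha' : a ∈ Subgroup.center G := (Subgroup.zpowers_le_of_mem hz) ha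
    rw [Subgroup.mem_center_iff.1 ha' c, mul_inv_cancel_right]
    exact ha
  exact h2.le_sylow_of_normal R (Subgroup.mem_zpowers _)

/-- Let G be a finite group, p a prime, N a normal subgroup, P a Sylow p-subgroup of G and P̄ a Sylow p-subgroup of G/N. Count the elements of p-power order, the identity included. Then (number of such elements of G/N)/#P̄ ≤ (number of such elements of G)/#P, stated as a cross-multiplied inequality, with equality when N is central. -/
theorem result {G : Type*} [Group G] [Finite G] (p : ℕ) [Fact p.Prime] (N : Subgroup G) [N.Normal]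
    (P : Sylow p G) (Pbar : Sylow p (G ⧸ N)) :
    Nat.card {g : (G ⧸ N) // ∃ k : ℕ, orderOf g = p ^ k} * Nat.card (P : Subgroup G) ≤ Nat.card {g : G // ∃ k : ℕ, orderOf g = p ^ k} * Nat.card (Pbar : Subgroup (G ⧸ N)) ∧
    (N ≤ Subgroup.center G → Nat.card {g : (G ⧸ N) // ∃ k : ℕ, orderOf g = p ^ k} * Nat.card (P : Subgroup G) = Nat.card {g : G // ∃ k : ℕ, orderOf g = p ^ k} * Nat.card (Pbar : Subgroup (G ⧸ N))) := by
  classical
  haveI := Fintype.ofFinite G
  haveI := Fintype.ofFinite (G ⧸ N)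
  have hp : p.Prime := Fact.out
  let A : Finset G := Finset.univ.filter fun g => ∃ k : ℕ, orderOf g = p ^ k
  let B : Finset (G ⧸ N) := Finset.univ.filter fun g => ∃ k : ℕ, orderOf g = p ^ k
  have hA : Nat.card {g : G // ∃ k : ℕ, orderOf g = p ^ k} = A.card := by
    rw [Nat.card_eq_fintype_card, Fintype.card_subtype]
  have hB : Nat.card {g : (G ⧸ N) // ∃ k : ℕ, orderOf g = p ^ k} = B.card := by
    rw [Nat.card_eq_fintype_card, Fintype.card_subtype]
  have hmaps : ∀ g ∈ A, (g : G ⧸ N) ∈ B := by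
    intro g hg
    simp only [A, B, Finset.mem_filter, Finset.mem_univ, true_and] at hg ⊢
    obtain ⟨k, hk⟩ := hg
    have := orderOf_map_dvd (QuotientGroup.mk' N) g
    rw [hk] at this
    obtain ⟨j, -, hj⟩ := (Nat.dvd_prime_pow hp).1 this
    exact ⟨j, hj⟩
  have hsum := Finset.card_eq_sum_card_fiberwise (f := fun g : G => (g : G ⧸ N)) (s := A) (t := B)
    (fun g hg => hmaps g hg)
  have hfib : ∀ y : G ⧸ N, (A.filter fun g : G => (g : G ⧸ N) = y).card =
      {g : G | (∃ k : ℕ, orderOf g = p ^ k) ∧ (g : G ⧸ N) = y}.ncard := by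
    intro y
    rw [← Set.ncard_coe_finset]
    congr 1
    ext g
    simp [A]
  have hP : Nat.card (P : Subgroup G) =
      p ^ (Nat.card N).factorization p * Nat.card (Pbar : Subgroup (G ⧸ N)) := by
    rw [P.card_eq_multiplicity, Pbar.card_eq_multiplicity,
      Subgroup.card_eq_card_quotient_mul_card_subgroup N,
      Nat.factorization_mul Nat.card_pos.ne' Nat.card_pos.ne', Finsupp.add_apply, pow_add, mul_comm]
  rw [hA, hB, hP, ← mul_assoc]
  constructor
  · refine Nat.mul_le_mul_right _ ?_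
    rw [hsum, ← smul_eq_mul]
    refine Finset.card_nsmul_le_sum _ _ _ fun y hy => ?_
    rw [hfib]
    exact (fiber_bound p N y (by simpa [B] using hy)).1
  · intro hZ
    congr 1
    rw [hsum, Finset.sum_const_nat fun y hy => ?_]
    rw [hfib]
    exact (fiber_bound p N y (by simpa [B] using hy)).2 hZ

end Cfsg.Agent.S4153
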