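import Cfsg.Statements.S4154
import Mathlib
import Cfsg.Agent.Lib.Core.Basic

set_option autoImplicit false
open Cfsg

namespace Cfsg.Agent.S4154

/-- Let G be a finite group and α an automorphism of G such that every element of G is the product of an element fixed by α and an element of the form g⁻¹α(g). If N is a normal α-invariant subgroup, then the automorphism ᾱ induced on G/N has the same property, and every coset fixed by ᾱ contains an element fixed by α (so the fixed points of ᾱ are the images of the fixed points of α). -/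
theorem result {G : Type*} [Group G] [Finite G] (α : MulAut G)
    (hccp : ∀ x : G, ∃ c g : G, α c = c ∧ x = c * (g⁻¹ * α g))
    (N : Subgroup G) [N.Normal] (hN : ∀ n ∈ N, α n ∈ N) :
    (∀ x : G, ∃ c g : G, c⁻¹ * α c ∈ N ∧ x⁻¹ * (c * (g⁻¹ * α g)) ∈ N) ∧
    (∀ x : G, x⁻¹ * α x ∈ N → ∃ c : G, α c = c ∧ c⁻¹ * x ∈ N) := by
  refine ⟨fun x => ?_, ?_⟩
  · obtain ⟨c, g, hc, hx⟩ := hccp x
    exact ⟨c, g, by rw [hc, inv_mul_cancel]; exact one_mem N, by rw [← hx, inv_mul_cancel]; exact one_mem N⟩
  · have hNn : N.Normal := inferInstance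
    let D : Subgroup G :=
      { carrier := {x | x⁻¹ * α x ∈ N}
        one_mem' := by simp
        mul_mem' := by
          intro a b ha hb
          have : (a * b)⁻¹ * α (a * b) = b⁻¹ * (a⁻¹ * α a) * b⁻¹⁻¹ * (b⁻¹ * α b) := by
            rw [map_mul]; group
          change _ ∈ N
          rw [this]
          exact mul_mem (hNn.conj_mem _ ha _) hb
        inv_mem' := by
          intro a ha
          have : a⁻¹⁻¹ * α a⁻¹ = a * (a⁻¹ * α a)⁻¹ * a⁻¹ := by rw [map_inv]; group
          change _ ∈ N
          rw [this]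
          exact hNn.conj_mem _ (inv_mem ha) _ }
    let C : Subgroup G := (MonoidHom.id G).eqLocus α.toMonoidHom
    have hle : C ⊔ N ≤ D := by
      refine sup_le ?_ ?_
      · intro c hc
        have : c = α c := hc
        change c⁻¹ * α c ∈ N
        rw [← this, inv_mul_cancel]; exact one_mem N
      · intro n hn
        exact mul_mem (inv_mem hn) (hN n hn)
    let f : G ⧸ D → G ⧸ (C ⊔ N) := Quotient.map' (fun g => α g * g⁻¹) (by
      intro a b hab
      rw [QuotientGroup.leftRel_apply] at hab ⊢
      have h1 : (a⁻¹ * b)⁻¹ * α (a⁻¹ * b) ∈ N := hab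
      have : (α a * a⁻¹)⁻¹ * (α b * b⁻¹) = b * ((a⁻¹ * b)⁻¹ * α (a⁻¹ * b)) * b⁻¹ := by
        rw [map_mul, map_inv]; group
      rw [this]
      exact Subgroup.mem_sup_right (hNn.conj_mem _ h1 _))
    have hf : Function.Surjective f := by
      intro y
      obtain ⟨y, rfl⟩ := QuotientGroup.mk_surjective y
      obtain ⟨c, g, hc, hy⟩ := hccp y⁻¹
      refine ⟨QuotientGroup.mk g⁻¹, ?_⟩
      change QuotientGroup.mk (α g⁻¹ * g⁻¹⁻¹) = QuotientGroup.mk y
      rw [QuotientGroup.eq]
      have : (α g⁻¹ * g⁻¹⁻¹)⁻¹ * y = c⁻¹ := by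
        rw [← inv_inv y, hy, map_inv]; group
      rw [this]
      exact Subgroup.mem_sup_left (inv_mem (show c = α c from hc.symm))
    have hidx : (C ⊔ N).index ≤ D.index := Nat.card_le_card_of_surjective f hf
    have heq : C ⊔ N = D := by
      refine CfsgLib.Core.eq_of_le_of_card_le hle ?_
      have h1 := (C ⊔ N).card_mul_index
      have h2 := D.card_mul_index
      have h3 : 0 < D.index := Nat.pos_of_ne_zero Subgroup.FiniteIndex.index_ne_zero
      by_contra hlt
      push Not at hlt
      nlinarith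
    intro x hx
    have hxD : x ∈ C ⊔ N := heq ▸ hx
    obtain ⟨c, hc, n, hn, rfl⟩ := Subgroup.mem_sup_of_normal_right.1 hxD
    exact ⟨c, (show c = α c from hc).symm, by simpa using hn⟩

end Cfsg.Agent.S4154
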