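import Cfsg.Statements.S4155
import Cfsg.Agent.S4107
import Cfsg.Agent.Lib.Frob.Action
import Cfsg.Agent.Lib.Fgs.ClassSize

set_option autoImplicit false
open Cfsg

namespace Cfsg.Agent.S4155

/-- Let G be a finite group and N a proper non-trivial normal nilpotent subgroup whose order is not a prime power, such that for every x outside N all elements of the coset xN have the same order as x. Then N is the Fitting subgroup of G, and for every prime q every Sylow q-subgroup of G/N is cyclic or generalized quaternion. -/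
theorem result {G : Type*} [Group G] [Finite G] (N : Subgroup G) [N.Normal] (hN1 : N ≠ ⊥) (hN2 : N ≠ ⊤)
    (heq : ∀ x : G, x ∉ N → ∀ n ∈ N, orderOf (x * n) = orderOf x)
    (hnil : Group.IsNilpotent N) (hnpp : ¬ IsPrimePow (Nat.card N)) :
    N = Cfsg.fittingSubgroup G ∧
    ∀ (q : ℕ) [Fact q.Prime] (Q : Sylow q (G ⧸ N)), IsCyclic (Q : Subgroup (G ⧸ N)) ∨ ∃ n : ℕ, Nonempty ((Q : Subgroup (G ⧸ N)) ≃* QuaternionGroup (2 ^ n)) := by
  have hF : N = Cfsg.fittingSubgroup G := by
    have h1 := CfsgLib.Core.le_fittingSubgroup hnil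
    by_contra hne
    obtain ⟨p, k, hp, -, hk⟩ := (S4107.result N hN1 hN2 heq).2 (lt_of_le_of_ne h1 hne)
    obtain ⟨l, -, hl⟩ := (Nat.dvd_prime_pow hp.nat_prime).1 (hk ▸ Subgroup.card_dvd_of_le h1)
    refine hnpp ⟨p, l, hp, Nat.pos_of_ne_zero ?_, hl.symm⟩
    rintro rfl
    exact hN1 (Subgroup.card_eq_one.1 hl)
  refine ⟨hF, fun q hq Q => ?_⟩
  obtain ⟨p, hp, hpq, hpN⟩ : ∃ p : ℕ, p.Prime ∧ p ≠ q ∧ p ∣ Nat.card N := by
    by_contra h
    push Not at h
    have h1 := Nat.eq_prime_pow_of_unique_prime_dvd (p := q) (Nat.card_pos (α := N)).ne'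
      fun hd hdvd => by
        by_contra hne
        exact h _ hd hne hdvd
    refine hnpp ⟨q, _, hq.out.prime, Nat.pos_of_ne_zero fun e => ?_, h1.symm⟩
    rw [e, pow_zero] at h1
    exact hN1 (Subgroup.card_eq_one.1 h1)
  have := Fact.mk hp
  have hPn := CfsgLib.Core.map_pCore_normal (p := p) N
  have hP := CfsgLib.Core.isPGroup_map_pCore (p := p) N
  set P := (pCore p N).map N.subtype with hPdef
  have hP1 : P ≠ ⊥ := by
    intro e
    rw [Subgroup.map_eq_bot_iff_of_injective _ N.subtype_injective] at e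
    have h1 := CfsgLib.Core.not_dvd_index_pCore_of_isNilpotent (G := N) p
    rw [e, Subgroup.index_bot] at h1
    exact h1 hpN
  have hZ1 := CfsgLib.Core.inf_centralizer_ne_bot_of_isNilpotent (N := P) (K := N)
    (Subgroup.map_subtype_le _) Subgroup.le_normalizer_of_normal hP1
  set Z := P ⊓ Subgroup.centralizer (N : Set G) with hZ
  have : Nontrivial Z := (Subgroup.nontrivial_iff_ne_bot Z).2 hZ1
  let φ : G ⧸ N →* MulAut Z := QuotientGroup.lift N MulAut.conjNormal fun n hn => by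
    ext z
    simp only [MulAut.conjNormal_apply, MulAut.one_apply]
    rw [z.2.2 n hn, mul_inv_cancel_right]
  have h := CfsgLib.Frob.pqCond_of_action (φ.comp (Q : Subgroup (G ⧸ N)).subtype) fun a ha z hz => by
    obtain ⟨a, haQ⟩ := a
    obtain ⟨x, rfl⟩ := QuotientGroup.mk_surjective a
    have hz' : x * z * x⁻¹ = z := congrArg Subtype.val hz
    obtain ⟨a, b, ha', hb', hab, -, ⟨k, hk⟩, hb⟩ := CfsgLib.Fgs.exists_p_part q x
    have hbN : b ∈ N := by
      obtain ⟨j, rfl⟩ := hb'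
      obtain ⟨l, hl⟩ := IsPGroup.iff_orderOf.1 Q.isPGroup' ⟨_, zpow_mem haQ j⟩
      rw [Subgroup.orderOf_mk, ← QuotientGroup.mk_zpow] at hl
      rw [← QuotientGroup.eq_one_iff, ← orderOf_eq_one_iff]
      refine Nat.eq_one_of_dvd_coprimes
        (Nat.Coprime.pow_left l ((Nat.Prime.coprime_iff_not_dvd hq.out).2 hb)) hl.dvd
        (orderOf_map_dvd (QuotientGroup.mk' N) _)
    have haN : a ∉ N := fun h => ha (Subtype.ext ((QuotientGroup.eq_one_iff x).2 (hab ▸ mul_mem h hbN)))
    have hc : Commute a z := by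
      obtain ⟨j, rfl⟩ := ha'
      exact Commute.zpow_left (mul_inv_eq_iff_eq_mul.1 hz') j
    obtain ⟨l, hl⟩ := IsPGroup.iff_orderOf.1 hP ⟨z, z.2.1⟩
    rw [Subgroup.orderOf_mk] at hl
    have h1 := heq a haN z (Subgroup.map_subtype_le _ z.2.1)
    rw [hc.orderOf_mul_eq_mul_orderOf_of_coprime (by
      rw [hk, hl]; exact ((Nat.coprime_primes hq.out hp).2 hpq.symm).pow _ _)] at h1
    have h2 : orderOf (z : G) = 1 := Nat.eq_of_mul_eq_mul_left (orderOf_pos a) (by rw [h1, mul_one])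
    exact Subtype.ext (orderOf_eq_one_iff.1 h2)
  rcases h.cyclic_or_quaternion Q.isPGroup' with h | ⟨-, n, -, h⟩
  · exact Or.inl h
  · exact Or.inr ⟨n, h⟩

end Cfsg.Agent.S4155
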