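import Cfsg.Statements.S4156
import Mathlib

set_option autoImplicit false
open Cfsg

namespace Cfsg.Agent.S4156

open Matrix in
/-- The matrix of a permutation of `n + 1` points on the sum-zero hyperplane. -/
def delMat (n : ℕ) (F : Type*) [Field F] (σ : Equiv.Perm (Fin (n + 1))) : Matrix (Fin n) (Fin n) F :=
  Matrix.of fun k i => (if σ i.castSucc = k.castSucc then 1 else 0) -
    (if σ (Fin.last n) = k.castSucc then 1 else 0)

theorem delMat_one (n : ℕ) (F : Type*) [Field F] : delMat n F 1 = 1 := by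
  ext k i
  have : Fin.last n ≠ k.castSucc := (Fin.castSucc_ne_last k).symm
  simp [delMat, this, Matrix.one_apply, eq_comm]

theorem delMat_mul (n : ℕ) (F : Type*) [Field F] (σ τ : Equiv.Perm (Fin (n + 1))) :
    delMat n F (σ * τ) = delMat n F σ * delMat n F τ := by
  ext k i
  have key : ∀ (f : Fin (n + 1) → F) (a : Fin (n + 1)),
      ∑ j : Fin n, (f j.castSucc - f (Fin.last n)) * (if a = j.castSucc then 1 else 0) =
        f a - f (Fin.last n) := by
    intro f a
    have h := Fin.sum_univ_castSucc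
      (fun j : Fin (n + 1) => (f j - f (Fin.last n)) * (if a = j then (1 : F) else 0))
    simp only [sub_self, zero_mul, add_zero] at h
    rw [← h]
    simp
  simp only [delMat, Matrix.mul_apply, Matrix.of_apply, mul_sub, Finset.sum_sub_distrib,
    Equiv.Perm.mul_apply]
  rw [key (fun j => if σ j = k.castSucc then 1 else 0),
    key (fun j => if σ j = k.castSucc then 1 else 0), sub_sub_sub_cancel_right]
  rfl

/-- the deleted permutation representation as a monoid hom -/
def delHom (n : ℕ) (F : Type*) [Field F] :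
    Equiv.Perm (Fin (n + 1)) →* Matrix (Fin n) (Fin n) F where
  toFun := delMat n F
  map_one' := delMat_one n F
  map_mul' := delMat_mul n F

/-- Let n ≥ 5 and F a finite field. Then the projective special linear group PSL_n(F) contains a subgroup isomorphic to the alternating group of degree n + 1. -/
theorem result (n : ℕ) (hn : 5 ≤ n) (F : Type*) [Field F] [Finite F] :
    ∃ f : alternatingGroup (Fin (n + 1)) →* Matrix.ProjectiveSpecialLinearGroup (Fin n) F, Function.Injective f := by
  haveI : IsSimpleGroup (alternatingGroup (Fin (n + 1))) :=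
    alternatingGroup.isSimpleGroup (by simp; omega)
  let φ : alternatingGroup (Fin (n + 1)) →* Matrix (Fin n) (Fin n) F :=
    (delHom n F).comp (alternatingGroup (Fin (n + 1))).subtype
  have hperf : commutator (alternatingGroup (Fin (n + 1))) = ⊤ :=
    commutator_alternatingGroup_eq_top (by simp; omega)
  have hdet : ∀ g, (φ g).det = 1 := by
    intro g
    let ψ : alternatingGroup (Fin (n + 1)) →* Fˣ := (Matrix.detMonoidHom.comp φ).toHomUnits
    have h1 : commutator (alternatingGroup (Fin (n + 1))) ≤ ψ.ker := Abelianization.commutator_subset_ker ψ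
    rw [hperf] at h1
    have h2 : ψ g = 1 := h1 (Subgroup.mem_top g)
    exact congrArg Units.val h2
  let φ' : alternatingGroup (Fin (n + 1)) →* Matrix.SpecialLinearGroup (Fin n) F :=
    { toFun := fun g => ⟨φ g, hdet g⟩
      map_one' := Subtype.ext (map_one φ)
      map_mul' := fun a b => Subtype.ext (map_mul φ a b) }
  refine ⟨(QuotientGroup.mk' _).comp φ', ?_⟩
  rw [← MonoidHom.ker_eq_bot_iff]
  refine (IsSimpleGroup.eq_bot_or_eq_top_of_normal _ inferInstance).resolve_right fun htop => ?_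
  obtain ⟨m, rfl⟩ : ∃ m, n = m + 5 := ⟨n - 5, by omega⟩
  have hv2 : 2 % (m + 5 + 1) = 2 := Nat.mod_eq_of_lt (by omega)
  have h01 : (0 : Fin (m + 5 + 1)) ≠ 1 := by simp [Fin.ext_iff]
  have h02 : (0 : Fin (m + 5 + 1)) ≠ 2 := by simp [Fin.ext_iff, hv2]
  have h12 : (1 : Fin (m + 5 + 1)) ≠ 2 := by simp [Fin.ext_iff, hv2]
  have h3 := Equiv.Perm.isThreeCycle_swap_mul_swap_same h01 h02 h12
  let g : alternatingGroup (Fin (m + 5 + 1)) := ⟨_, h3.mem_alternatingGroup⟩
  have hg : g ∈ ((QuotientGroup.mk' (Subgroup.center (Matrix.SpecialLinearGroup (Fin (m + 5)) F))).comp φ').ker :=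
    htop ▸ Subgroup.mem_top g
  rw [MonoidHom.mem_ker, MonoidHom.comp_apply, QuotientGroup.mk'_apply, QuotientGroup.eq_one_iff,
    Matrix.SpecialLinearGroup.mem_center_iff] at hg
  obtain ⟨r, -, hr⟩ := hg
  have h4 := congrFun (congrFun hr 0) 1
  have h5 : (φ' g : Matrix (Fin (m + 5)) (Fin (m + 5)) F) 0 1 = 1 := by
    change delMat (m + 5) F (Equiv.swap 0 1 * Equiv.swap 0 2) 0 1 = 1
    have hl0 : Fin.last (m + 5) ≠ 0 := by simp [Fin.ext_iff]
    have hl1 : Fin.last (m + 5) ≠ 1 := by simp [Fin.ext_iff]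
    have hl2 : Fin.last (m + 5) ≠ 2 := by simp [Fin.ext_iff, hv2]
    have hc : (1 : Fin (m + 5)).castSucc = 1 := by simp [Fin.ext_iff]
    have e1 : (Equiv.swap 0 1 * Equiv.swap 0 2 : Equiv.Perm (Fin (m + 5 + 1)))
        (1 : Fin (m + 5)).castSucc = (0 : Fin (m + 5)).castSucc := by
      rw [hc, Equiv.Perm.mul_apply, Equiv.swap_apply_of_ne_of_ne h01.symm h12, Equiv.swap_apply_right]
      rfl
    have e2 : ¬ (Equiv.swap 0 1 * Equiv.swap 0 2 : Equiv.Perm (Fin (m + 5 + 1)))
        (Fin.last (m + 5)) = (0 : Fin (m + 5)).castSucc := by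
      rw [Equiv.Perm.mul_apply, Equiv.swap_apply_of_ne_of_ne hl0 hl2,
        Equiv.swap_apply_of_ne_of_ne hl0 hl1]
      exact hl0
    rw [delMat, Matrix.of_apply, if_pos e1, if_neg e2, sub_zero]
  rw [h5] at h4
  have h6 : (0 : Fin (m + 5)) ≠ 1 := by simp [Fin.ext_iff]
  simp [Matrix.scalar_apply, Matrix.diagonal_apply_ne _ h6] at h4

end Cfsg.Agent.S4156
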