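import Cfsg.Statements.S4160
import Cfsg.Agent.Lib.Fgs.ClassSize
import Cfsg.Agent.Lib.Transfer.NormalComplement

set_option autoImplicit false
open Cfsg

namespace Cfsg.Agent.S4160

open Cfsg CfsgLib Subgroup
open scoped ComplexConjugate

section

attribute [local instance] Classical.propDecidable

theorem bound {G : Type*} [Group G] [Finite G] {p : ℕ} [Fact p.Prime] (h : ¬ HasNormalPComplement p G) :
    2 * {x : G | ¬ p ∣ (centralizer ({x} : Set G)).index}.ncard ≤ Nat.card G := by
  obtain ⟨P⟩ : Nonempty (Sylow p G) := inferInstance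
  have h1 : 2 * Nat.card (centralizer (P : Set G)) ≤ Nat.card (normalizer (P : Set G)) := by
    obtain ⟨c, hc⟩ := card_dvd_of_le (centralizer_le_normalizer (P : Set G))
    rw [hc, mul_comm]
    refine Nat.mul_le_mul_left _ (by_contra fun h2 => h (Transfer.burnside_normal_complement P
      (eq_of_le_of_card_ge (centralizer_le_normalizer _) ?_).ge))
    exact hc ▸ (Nat.mul_le_mul_left _ (by omega)).trans_eq (mul_one _)
  choose f hf using fun Q : Sylow p G => MulAction.exists_smul_eq G P Q
  have h2 : {x : G | ¬ p ∣ (centralizer ({x} : Set G)).index}.ncard ≤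
      Nat.card (Sylow p G × centralizer (P : Set G)) := by
    rw [← Set.ncard_univ]
    refine le_trans (Set.ncard_le_ncard (fun x hx => ?_))
      (Set.ncard_image_le (f := fun t : Sylow p G × centralizer (P : Set G) => f t.1 * t.2 * (f t.1)⁻¹))
    obtain ⟨Q, hQ⟩ := Fgs.exists_sylow_le_of_not_dvd_index hx
    refine ⟨⟨Q, (f Q)⁻¹ * x * f Q, fun y hy => ?_⟩, trivial, by simp [mul_assoc]⟩
    have h3 : f Q * y * (f Q)⁻¹ ∈ ((f Q • P : Sylow p G) : Subgroup G) := ⟨y, hy, rfl⟩
    rw [hf] at h3
    have := (Fgs.mem_cent_iff.1 (hQ h3)).eq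
    calc _ = (f Q)⁻¹ * (f Q * y * (f Q)⁻¹ * x) * f Q := by group
      _ = _ := by rw [← this]; group
  rw [Nat.card_prod, P.card_eq_index_normalizer] at h2
  rw [← (normalizer (P : Set G)).index_mul_card]
  exact (Nat.mul_le_mul_left _ h2).trans (by rw [mul_left_comm]; exact Nat.mul_le_mul_left _ h1)

end

/-- Let G be a finite group and p ≠ q primes each dividing the size of some conjugacy class of G, such that no conjugacy class size is divisible by pq. Then G has a normal p-complement or a normal q-complement. -/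
theorem result {G : Type*} [Group G] [Finite G] (p q : ℕ) (hp : p.Prime) (hq : q.Prime) (hpq : p ≠ q)
    (hp' : ∃ x : G, p ∣ (Subgroup.centralizer ({x} : Set G)).index) (hq' : ∃ x : G, q ∣ (Subgroup.centralizer ({x} : Set G)).index) (h : ∀ x : G, ¬ p * q ∣ (Subgroup.centralizer ({x} : Set G)).index) :
    Cfsg.HasNormalPComplement p G ∨ Cfsg.HasNormalPComplement q G := by
  have := Fact.mk hp
  have := Fact.mk hq
  by_contra h0
  have h1 := bound (not_or.1 h0).1
  have h2 := bound (not_or.1 h0).2
  have h3 := Set.ncard_union_add_ncard_inter {x : G | ¬ p ∣ (centralizer ({x} : Set G)).index}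
    {x : G | ¬ q ∣ (centralizer ({x} : Set G)).index}
  rw [Set.eq_univ_of_forall (s := {x : G | ¬ p ∣ (centralizer ({x} : Set G)).index} ∪
    {x : G | ¬ q ∣ (centralizer ({x} : Set G)).index}) fun x => not_and_or.1 fun h1 =>
    h x (((Nat.coprime_primes hp hq).2 hpq).mul_dvd_of_dvd_of_dvd h1.1 h1.2), Set.ncard_univ] at h3
  have h4 := (Set.ncard_pos (s := {x : G | ¬ p ∣ (centralizer ({x} : Set G)).index} ∩
    {x : G | ¬ q ∣ (centralizer ({x} : Set G)).index})).2 ⟨1, by
      simp [Fgs.index_cent_eq_one_iff.2 (one_mem _), hp.ne_one, hq.ne_one]⟩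
  omega

end Cfsg.Agent.S4160
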