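import Cfsg.Statements.S4162
import Cfsg.Agent.Lib.AH.Main

set_option autoImplicit false
open Cfsg

namespace Cfsg.Agent.S4162

/-- Let G be a non-trivial finite solvable group in which distinct conjugacy classes have distinct sizes. Then G is isomorphic to the symmetric group of degree 3. -/
theorem result {G : Type*} [Group G] [Finite G] [Nontrivial G] (hG : Group.IsSolvable G)
    (h : Function.Injective fun C : ConjClasses G => Nat.card C.carrier) : Nonempty (G ≃* Equiv.Perm (Fin 3)) := by
  haveI := hG
  refine CfsgLib.AH.Dist.main fun x y e => ConjClasses.mk_eq_mk_iff_isConj.1 (h ?_)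
  have e1 := (Subgroup.centralizer ({x} : Set G)).card_mul_index
  have e2 := (Subgroup.centralizer ({y} : Set G)).card_mul_index
  simp only [CfsgLib.Fgs.card_carrier_eq_index]
  rw [show Nat.card (Subgroup.centralizer ({x} : Set G)) = _ from e, ← e2] at e1
  exact Nat.eq_of_mul_eq_mul_left Nat.card_pos e1

end Cfsg.Agent.S4162
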