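import Cfsg.Statements.S4168
-- import your own Cfsg.Agent.* helpers here

set_option autoImplicit false
open Cfsg

namespace Cfsg.Agent.S4168

/-- Let L be a finite quasisimple group (perfect with L/Z(L) simple). Then every prime dividing the order of the centre Z(L) also divides the order of L/Z(L). -/
theorem result {L : Type*} [Group L] [Finite L] (hL : Cfsg.IsQuasisimple L)
    (p : ℕ) (hp : p.Prime) (hdiv : p ∣ Nat.card (Subgroup.center L)) : p ∣ (Subgroup.center L).index := by
  haveI : Fact p.Prime := ⟨hp⟩
  obtain ⟨z, hz⟩ := exists_prime_orderOf_dvd_card' p hdiv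
  haveI := hL.1
  have hr : Group.IsPerfect (MonoidHom.transferCenterPow L).range := Group.IsPerfect.range _
  haveI : Subsingleton (MonoidHom.transferCenterPow L).range :=
    Group.IsPerfect.subsingleton_of_isMulCommutative
  have h1 : MonoidHom.transferCenterPow L (z : L) = 1 := by
    have : (⟨MonoidHom.transferCenterPow L (z : L), ⟨z, rfl⟩⟩ :
      (MonoidHom.transferCenterPow L).range) = 1 := Subsingleton.elim _ _
    exact congrArg Subtype.val this
  have h2 : (z : L) ^ (Subgroup.center L).index = 1 := by
    have := congrArg Subtype.val h1
    rwa [MonoidHom.transferCenterPow_apply] at this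
  have h3 : z ^ (Subgroup.center L).index = 1 := Subtype.ext (by simpa using h2)
  rw [← hz]
  exact orderOf_dvd_of_pow_eq_one h3

end Cfsg.Agent.S4168
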