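import Cfsg.Statements.S4170
import Cfsg.Agent.Lib.KPerm.Basic

set_option autoImplicit false
open scoped Pointwise
open Cfsg

namespace Cfsg.Agent.S4170

/-- Let p be an odd prime and G a nontrivial group of permutations of a finite set Ω that is generated by its elements of p-power order. Then Ω has two disjoint nonempty subsets Δ₁ and Δ₂ such that the index in G of the subgroup of elements mapping Δ₁ onto Δ₁ and Δ₂ onto Δ₂ (and hence also the complement of their union onto itself) is divisible by p. -/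
theorem result {Ω : Type*} [Fintype Ω] (p : ℕ) [Fact p.Prime] (hp : p ≠ 2) (G : Subgroup (Equiv.Perm Ω)) (hG : G ≠ ⊥) (hgen : Subgroup.closure {g : G | ∃ k : ℕ, orderOf g = p ^ k} = ⊤) :
    ∃ Δ₁ Δ₂ : Set Ω, Δ₁.Nonempty ∧ Δ₂.Nonempty ∧ Disjoint Δ₁ Δ₂ ∧ p ∣ (MulAction.stabilizer G Δ₁ ⊓ MulAction.stabilizer G Δ₂).index := by
  classical
  have hpp : p.Prime := Fact.out
  let _ : Fintype G := Fintype.ofFinite G
  -- an element of order `p`
  have hdvd : p ∣ Nat.card G := by
    by_contra hn
    apply hG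
    have h1 : ∀ g : G, (∃ k : ℕ, orderOf g = p ^ k) → g = 1 := by
      rintro g ⟨k, hk⟩
      rcases Nat.eq_zero_or_pos k with h0 | h0
      · rw [h0, pow_zero] at hk
        exact orderOf_eq_one_iff.mp hk
      · exact absurd ((dvd_pow_self p h0.ne').trans (hk ▸ orderOf_dvd_natCard g)) hn
    have h2 : (⊤ : Subgroup G) ≤ ⊥ := by
      rw [← hgen, Subgroup.closure_le]
      intro g hg
      exact (Subgroup.mem_bot).mpr (h1 g hg)
    rw [eq_bot_iff]
    intro g hg
    have := h2 (Subgroup.mem_top (⟨g, hg⟩ : G))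
    rw [Subgroup.mem_bot] at this ⊢
    exact congrArg Subtype.val this
  obtain ⟨x, hx⟩ := exists_prime_orderOf_dvd_card' p hdvd
  have hx1 : x ≠ 1 := by
    rintro rfl
    rw [orderOf_one] at hx
    exact hpp.one_lt.ne hx
  obtain ⟨b, hb⟩ : ∃ b : Ω, x • b ≠ b := by
    by_contra hn
    push Not at hn
    apply hx1
    ext a
    exact congrArg id (hn a)
  set B : Finset Ω := CfsgLib.KPerm.orb (Subgroup.zpowers x) b with hB
  have hBc : B.card ≤ p := by
    refine Finset.card_image_le.trans ?_
    rw [CfsgLib.KPerm.card_E, Nat.card_zpowers, hx]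
  have hbB : b ∈ B := CfsgLib.KPerm.self_mem_orb _ _
  have hIB : CfsgLib.KPerm.Inv (Subgroup.zpowers x) B := CfsgLib.KPerm.inv_orb _ _
  refine ⟨{b}, ((B.erase b : Finset Ω) : Set Ω), Set.singleton_nonempty b,
    ⟨x • b, ?_⟩, ?_, ?_⟩
  · exact Finset.mem_coe.mpr (Finset.mem_erase.mpr
      ⟨hb, hIB x (Subgroup.mem_zpowers x) b hbB⟩)
  · rw [Set.disjoint_singleton_left]
    simp
  by_contra hn
  set H := MulAction.stabilizer G ({b} : Set Ω) ⊓
    MulAction.stabilizer G ((B.erase b : Finset Ω) : Set Ω) with hH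
  obtain ⟨Q0⟩ : Nonempty (Sylow p H) := inferInstance
  set Q : Subgroup G := (Q0 : Subgroup H).map H.subtype with hQ
  have hQp : IsPGroup p Q := Q0.isPGroup'.map _
  have hQH : Q ≤ H := Subgroup.map_subtype_le _
  have hQi : ¬ p ∣ Q.index := by
    rw [hQ, Subgroup.index_map_subtype]
    intro h
    rcases (Nat.Prime.dvd_mul hpp).mp h with h | h
    · exact Q0.not_dvd_index h
    · exact hn h
  have hQI : CfsgLib.KPerm.Inv Q (B.erase b) := by
    intro g hg a ha
    have h2 := (Subgroup.mem_inf.mp (hQH hg)).2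
    rw [MulAction.mem_stabilizer_iff] at h2
    have : g • a ∈ g • ((B.erase b : Finset Ω) : Set Ω) := Set.smul_mem_smul_set ha
    rw [h2] at this
    exact this
  set K := CfsgLib.KPerm.fx G B with hK
  have hQK : Q ≤ K := by
    intro g hg
    rw [hK, CfsgLib.KPerm.mem_fx]
    intro a ha
    by_cases hab : a = b
    · subst hab
      have h1 := (Subgroup.mem_inf.mp (hQH hg)).1
      rw [MulAction.mem_stabilizer_iff, Set.smul_set_singleton] at h1
      exact Set.singleton_injective h1
    · by_contra hne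
      have h1 := CfsgLib.KPerm.le_card_orb hQp hg hne
      have h2 := Finset.card_le_card (CfsgLib.KPerm.orb_subset hQI
        (Finset.mem_erase.mpr ⟨hab, ha⟩))
      have h3 := Nat.le_of_dvd (CfsgLib.KPerm.card_orb_pos _ _) h1
      have h4 := Finset.card_erase_lt_of_mem hbB
      omega
  have hxN : x ∈ Subgroup.normalizer (K : Set G) := by
    rw [Subgroup.mem_normalizer_iff]
    intro h
    simp only [hK, CfsgLib.KPerm.mem_fx]
    constructor
    · intro hh a ha
      rw [mul_smul, mul_smul, hh _ (hIB _ (Subgroup.inv_mem _ (Subgroup.mem_zpowers x)) a ha),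
        smul_inv_smul]
    · intro hh a ha
      have := hh _ (hIB _ (Subgroup.mem_zpowers x) a ha)
      rw [mul_smul, mul_smul, inv_smul_smul] at this
      exact MulAction.injective x this
  have hxK : x ∉ K := fun h => hb (CfsgLib.KPerm.mem_fx.mp h b hbB)
  set N := Subgroup.normalizer (K : Set G) with hN
  have hKN : K ≤ N := Subgroup.le_normalizer
  have : (K.subgroupOf N).Normal := Subgroup.normal_in_normalizer
  set y : N ⧸ K.subgroupOf N := QuotientGroup.mk ⟨x, hxN⟩ with hy
  have hy1 : y ≠ 1 := by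
    rw [hy, Ne, QuotientGroup.eq_one_iff]
    exact hxK
  have hyp : y ^ p = 1 := by
    rw [hy, ← QuotientGroup.mk_pow]
    have : (⟨x, hxN⟩ : N) ^ p = 1 := by
      apply Subtype.ext
      simp only [SubmonoidClass.mk_pow, OneMemClass.coe_one]
      rw [← hx, pow_orderOf_eq_one]
    rw [this, QuotientGroup.mk_one]
  have hyo : orderOf y = p := orderOf_eq_prime hyp hy1
  have h1 : p ∣ K.relIndex N := hyo ▸ orderOf_dvd_natCard y
  exact hQi ((h1.trans (Subgroup.relIndex_dvd_index_of_le hKN)).trans
    (Subgroup.index_dvd_of_le hQK))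

end Cfsg.Agent.S4170
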