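import Cfsg.Statements.S4176
import Cfsg.Agent.Lib.Fgs.OrbitSum
import Cfsg.Agent.Lib.Coprime.HallAmbient
import Cfsg.Agent.Lib.PLocal.PSolvable

set_option autoImplicit false
open Cfsg

namespace Cfsg.Agent.S4176

/-- Let k be a field of prime characteristic p, H a finite p-soluble group and ρ a k-linear representation of H on V. Let a be a vector that is fixed by some Sylow p-subgroup of H and whose H-orbit spans V. Then the space of H-fixed vectors has dimension at most 1, and every vector b whose H-orbit has size coprime to the size of the orbit of a is fixed by H. -/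
theorem result {k V H : Type*} [Field k] (p : ℕ) [Fact p.Prime] [CharP k p] [AddCommGroup V] [Module k V]
    [Group H] [Finite H] (hsol : Cfsg.IsPSolvable p H) (ρ : Representation k H V) (a : V)
    (hfix : ∃ P : Sylow p H, ∀ x : H, x ∈ (P : Subgroup H) → ρ x a = a)
    (hspan : Submodule.span k {u : V | ∃ h : H, ρ h a = u} = ⊤) :
    Module.finrank k ρ.invariants ≤ 1 ∧
    ∀ b : V, (Nat.card {u : V | ∃ h : H, ρ h a = u}).Coprime (Nat.card {u : V | ∃ h : H, ρ h b = u}) → ∀ h : H, ρ h b = b := by
  classical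
  have hp : p.Prime := Fact.out
  obtain ⟨P, hP⟩ := hfix
  have hA : ¬ p ∣ (CfsgLib.Fgs.repStab ρ a).index := fun h =>
    P.not_dvd_index (h.trans (Subgroup.index_dvd_of_le hP))
  have key : ∀ C : Subgroup H, (CfsgLib.Fgs.repStab ρ a).index.Coprime C.index →
      ∃ s : V, (∀ g, ρ g s = s) ∧ ∀ v, (∀ c ∈ C, ρ c v = v) → v ∈ Submodule.span k {s} := by
    intro C hC
    obtain ⟨B, hBC, hB1, hB2⟩ := (CfsgLib.Coprime.hallGood_of_isPSolvable hp
      (CfsgLib.PLocal.PSolv.subgroup hsol C)).exists_isPiHallOf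
    have := Fintype.ofFinite B
    have hcop : (CfsgLib.Fgs.repStab ρ a).index.Coprime B.index := by
      rw [← Subgroup.relIndex_mul_index hBC]
      refine Nat.Coprime.mul_right (Nat.coprime_of_dvd fun q hq h1 h2 => hB2 q hq ?_ h2) hC
      rintro rfl
      exact hA h1
    have hB := CfsgLib.Fgs.exists_mul_of_coprime_index hcop
    refine ⟨_, CfsgLib.Fgs.rep_sum_subgroup_fixed ρ a B hB, fun v hv =>
      CfsgLib.Fgs.rep_fixed_mem_span ρ a B hB ?_ hspan v fun b hb => hv b (hBC hb)⟩
    rw [Ne, CharP.cast_eq_zero_iff k p]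
    exact fun h => hB1 p hp h rfl
  constructor
  · obtain ⟨s, -, hs⟩ := key ⊤ (by simp)
    have hle : ρ.invariants ≤ Submodule.span k {s} := fun v hv => hs v fun c _ => hv c
    exact (Submodule.finrank_mono hle).trans (by simpa using finrank_span_le_card ({s} : Set V))
  · intro b hb h
    rw [CfsgLib.Fgs.card_repOrbit, CfsgLib.Fgs.card_repOrbit] at hb
    obtain ⟨s, hs, hs'⟩ := key _ hb
    obtain ⟨c, rfl⟩ := Submodule.mem_span_singleton.1 (hs' b fun c hc => hc)
    rw [map_smul, hs]

end Cfsg.Agent.S4176
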