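import Cfsg.Statements.S4177
import Cfsg.Agent.Lib.Fgs.OrbitSum

set_option autoImplicit false
open Cfsg

namespace Cfsg.Agent.S4177

/-- Let k be a field whose characteristic does not divide the order of the finite group H (for instance a field of characteristic zero), and ρ a k-linear representation of H on V. Let a be a vector whose H-orbit spans V. Then the space of H-fixed vectors has dimension at most 1, and every vector b whose H-orbit has size coprime to the size of the orbit of a is fixed by H. -/
theorem result {k V H : Type*} [Field k] [AddCommGroup V] [Module k V] [Group H] [Finite H]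
    (hchar : ¬ ringChar k ∣ Nat.card H) (ρ : Representation k H V) (a : V)
    (hspan : Submodule.span k {u : V | ∃ h : H, ρ h a = u} = ⊤) :
    Module.finrank k ρ.invariants ≤ 1 ∧
    ∀ b : V, (Nat.card {u : V | ∃ h : H, ρ h a = u}).Coprime (Nat.card {u : V | ∃ h : H, ρ h b = u}) → ∀ h : H, ρ h b = b := by
  classical
  have := Fintype.ofFinite H
  have hc : ∀ B : Subgroup H, (Nat.card B : k) ≠ 0 := by
    intro B h
    rw [ringChar.spec] at h
    exact hchar (h.trans B.card_subgroup_dvd_card)
  constructor
  · have h1 : ρ.invariants ≤ Submodule.span k {∑ b : (⊤ : Subgroup H), ρ b a} := by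
      intro v hv
      exact CfsgLib.Fgs.rep_fixed_mem_span ρ a ⊤
        (fun g => ⟨g, Subgroup.mem_top g, 1, one_mem _, by simp⟩) (hc ⊤) hspan v
        (fun b _ => hv b)
    refine (Submodule.finrank_mono h1).trans ?_
    simpa using finrank_span_le_card (R := k) ({∑ b : (⊤ : Subgroup H), ρ b a} : Set V)
  · intro b hb h
    rw [CfsgLib.Fgs.card_repOrbit, CfsgLib.Fgs.card_repOrbit] at hb
    have hB := CfsgLib.Fgs.exists_mul_of_coprime_index hb
    have h1 := CfsgLib.Fgs.rep_fixed_mem_span ρ a _ hB (hc _) hspan b (fun x hx => hx)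
    obtain ⟨c, hc⟩ := Submodule.mem_span_singleton.mp h1
    have h2 := CfsgLib.Fgs.rep_sum_subgroup_fixed ρ a _ hB h
    calc ρ h b = ρ h (c • ∑ x : CfsgLib.Fgs.repStab ρ b, ρ x a) := by rw [hc]
      _ = b := by rw [map_smul, h2, hc]

end Cfsg.Agent.S4177
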