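import Cfsg.Statements.S4178


set_option autoImplicit false
open Cfsg

namespace Cfsg.Agent.S4178

theorem index_le {H X : Type*} [Group H] [MulAction H X] [Finite X] (R : Subgroup H) (S : Set X)
    (x o : X) (ho : o ∈ S) (hS : ∀ h : H, h • x ∈ S ∧ h • x ≠ o)
    (hR : MulAction.stabilizer H x ≤ R) : R.index ≤ Nat.card S - 1 := by
  have h1 : (MulAction.stabilizer H x).index ≤ Nat.card S - 1 := by
    rw [MulAction.index_stabilizer, Nat.card_coe_set_eq, ← Set.ncard_sdiff_singleton_of_mem ho]
    refine Set.ncard_le_ncard ?_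
    rintro _ ⟨h, rfl⟩
    exact hS h
  refine le_trans (Nat.le_of_dvd (Nat.pos_of_ne_zero ?_) (Subgroup.index_dvd_of_le hR)) h1
  rw [MulAction.index_stabilizer]
  exact Set.ncard_ne_zero_of_mem (MulAction.mem_orbit_self x)

/-- Let F be a finite field with q elements, V a non-zero finite-dimensional F-space of dimension d, H a group of invertible linear maps of V, and R the subgroup of H generated by the elements of H that fix some non-zero vector (have eigenvalue 1). Then the index of R in H is at most q^d − 1; and if H leaves invariant some proper non-zero subspace, the index is at most q^(d/2) − 1. -/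
theorem result {F V : Type*} [Field F] [Fintype F] [AddCommGroup V] [Module F V] [FiniteDimensional F V] [Nontrivial V]
    (H : Subgroup (V ≃ₗ[F] V)) :
    (Subgroup.closure {h : ↥H | ∃ v : V, v ≠ 0 ∧ (h : V ≃ₗ[F] V) v = v}).index ≤ Fintype.card F ^ Module.finrank F V - 1 ∧
    ((∃ W : Submodule F V, W ≠ ⊥ ∧ W ≠ ⊤ ∧ ∀ h ∈ H, ∀ w ∈ W, h w ∈ W) →
      ((Subgroup.closure {h : ↥H | ∃ v : V, v ≠ 0 ∧ (h : V ≃ₗ[F] V) v = v}).index : ℝ) ≤ Real.sqrt ((Fintype.card F : ℝ) ^ Module.finrank F V) - 1) := by
  have hV : Finite V := Module.finite_of_finite F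
  set R := Subgroup.closure {h : ↥H | ∃ v : V, v ≠ 0 ∧ (h : V ≃ₗ[F] V) v = v} with hR
  have hsub : ∀ W : Submodule F V, W ≠ ⊥ → (∀ h ∈ H, ∀ w ∈ W, h w ∈ W) →
      R.index ≤ Fintype.card F ^ Module.finrank F W - 1 := by
    intro W hW hinv
    obtain ⟨w, hw, hw0⟩ := (Submodule.ne_bot_iff W).1 hW
    have := index_le R (W : Set V) w 0 W.zero_mem
      (fun h => ⟨hinv h h.2 w hw, fun e => hw0 ((h : V ≃ₗ[F] V).map_eq_zero_iff.1 e)⟩)
      (fun h hh => Subgroup.subset_closure ⟨w, hw0, hh⟩)
    rwa [show Nat.card (W : Set V) = Nat.card W from rfl, Module.natCard_eq_pow_finrank (K := F),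
      Nat.card_eq_fintype_card] at this
  refine ⟨by simpa using hsub ⊤ top_ne_bot (fun _ _ _ _ => trivial), ?_⟩
  rintro ⟨W, hW1, hW2, hinv⟩
  have h1 := hsub W hW1 hinv
  have h2 : R.index ≤ Fintype.card F ^ Module.finrank F (V ⧸ W) - 1 := by
    let ρ : H →* Module.End F (V ⧸ W) :=
      { toFun := fun h => W.mapQ W (h : V ≃ₗ[F] V).toLinearMap (fun w hw => hinv h h.2 w hw)
        map_one' := by ext; simp
        map_mul' := fun a b => by ext; simp }
    let _ : MulAction H (V ⧸ W) := MulAction.compHom _ ρ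
    have : Nontrivial (V ⧸ W) := Submodule.Quotient.nontrivial_iff.2 hW2
    have : Finite (V ⧸ W) := Module.finite_of_finite F
    obtain ⟨x, hx⟩ := exists_ne (0 : V ⧸ W)
    have h3 := index_le R (Set.univ : Set (V ⧸ W)) x 0 trivial (fun h => ⟨trivial, fun e => hx ?_⟩)
      (fun h hh => Subgroup.subset_closure ?_)
    · rwa [Nat.card_univ, Module.natCard_eq_pow_finrank (K := F), Nat.card_eq_fintype_card] at h3
    · rw [← inv_smul_smul h x, e]
      exact map_zero (ρ h⁻¹)
    · by_contra hcon
      have hinj : Function.Injective ((h : V ≃ₗ[F] V).toLinearMap - LinearMap.id : V →ₗ[F] V) := by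
        rw [injective_iff_map_eq_zero]
        intro v hv
        by_contra hv0
        exact hcon ⟨v, hv0, sub_eq_zero.1 hv⟩
      have hsurj := LinearMap.injective_iff_surjective.1 hinj
      have hs : Function.Surjective (ρ h - LinearMap.id : Module.End F (V ⧸ W)) := by
        intro y
        obtain ⟨y, rfl⟩ := Submodule.Quotient.mk_surjective W y
        obtain ⟨z, rfl⟩ := hsurj y
        exact ⟨Submodule.Quotient.mk z, rfl⟩
      refine hx (LinearMap.injective_iff_surjective.2 hs ?_)
      rw [map_zero]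
      exact sub_eq_zero.2 hh
  have hq : 0 < Fintype.card F := Fintype.card_pos
  have h3 : (R.index + 1) * (R.index + 1) ≤ Fintype.card F ^ Module.finrank F V := by
    rw [← W.finrank_quotient_add_finrank, pow_add]
    have := pow_pos hq (Module.finrank F W)
    have := pow_pos hq (Module.finrank F (V ⧸ W))
    exact Nat.mul_le_mul (by omega) (by omega)
  rw [le_sub_iff_add_le]
  apply Real.le_sqrt_of_sq_le
  rw [sq]
  exact_mod_cast h3

end Cfsg.Agent.S4178
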