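import Cfsg.Statements.S4179
import Cfsg.Agent.Lib.CK.Main
import Cfsg.Agent.Lib.CK.Mers

set_option autoImplicit false
open Cfsg

namespace Cfsg.Agent.S4179

/-- Let V be a vector space of dimension n over the field with two elements with 2^n − 1 prime, and H a group of invertible linear maps of V. Then H is transitive on the non-zero vectors of V if and only if H is cyclic of order 2^n − 1, or H has order n·(2^n − 1) and contains a normal cyclic subgroup of order 2^n − 1, or H is the whole general linear group of V. -/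
theorem result {V : Type*} [AddCommGroup V] [Module (ZMod 2) V] [Finite V] (n : ℕ) (hn : Module.finrank (ZMod 2) V = n)
    (hprime : (2 ^ n - 1).Prime) (H : Subgroup (V ≃ₗ[ZMod 2] V)) :
    (∀ v w : V, v ≠ 0 → w ≠ 0 → ∃ h ∈ H, h v = w) ↔
      ((IsCyclic ↥H ∧ Nat.card ↥H = 2 ^ n - 1) ∨
       (Nat.card ↥H = n * (2 ^ n - 1) ∧ ∃ C : Subgroup (V ≃ₗ[ZMod 2] V), C ≤ H ∧ (C.subgroupOf H).Normal ∧
          IsCyclic ↥C ∧ Nat.card ↥C = 2 ^ n - 1) ∨
       H = ⊤) := by
  have hF := Fact.mk hprime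
  have : Finite (V ≃ₗ[ZMod 2] V) := DFunLike.finite _
  constructor
  · intro htr
    have := CfsgLib.CK.Mers.faithful H
    have : MulAction.IsPretransitive H (CfsgLib.CK.Mers.NZ H) := ⟨fun v w => by
      obtain ⟨h, hh, e⟩ := htr v w v.2 w.2
      exact ⟨⟨h, hh⟩, Subtype.ext e⟩⟩
    rcases CfsgLib.Perm.affine_or_two_transitive (G := H) (CfsgLib.CK.Mers.card_NZ hn H) with
      ⟨e, ⟨T, hT⟩, h⟩ | h2
    · rcases CfsgLib.CK.Mers.affine hn e T hT h with h3 | h3
      · exact Or.inl h3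
      · exact Or.inr (Or.inl h3)
    rcases (by omega : n ≤ 2 ∨ n = 4 ∨ (3 ≤ n ∧ n ≠ 4)) with h3 | rfl | ⟨h3, h4⟩
    · obtain ⟨T, e, -, hT⟩ := CfsgLib.Perm.exists_coord_of_transitive (G := H)
        (CfsgLib.CK.Mers.card_NZ hn H)
      have h5 : 2 ^ n - 1 ≤ 3 := by
        have := Nat.pow_le_pow_right (n := 2) (by norm_num) h3
        omega
      rcases CfsgLib.CK.Mers.affine hn e T hT (CfsgLib.Perm.affine_of_le_three h5) with h3 | h3
      · exact Or.inl h3
      · exact Or.inr (Or.inl h3)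
    · exact absurd hprime (by norm_num)
    refine Or.inr (Or.inr (eq_top_iff.2 fun f _ => CfsgLib.CK.sl_le' (hn ▸ h3) (hn ▸ h4)
      (fun a b a' b' ha hb hab ha' hb' hab' => ?_) f ?_))
    · rw [MulAction.is_two_pretransitive_iff] at h2
      obtain ⟨g, h5, h6⟩ := @h2 ⟨a, ha⟩ ⟨b, hb⟩ ⟨a', ha'⟩
        ⟨b', hb'⟩ (fun e => hab (by rw [Subtype.mk.inj e]))
        (fun e => hab' (by rw [Subtype.mk.inj e]))
      exact ⟨g.1, g.2, congrArg _ (congrArg _ (congrArg Subtype.val h5)),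
        congrArg _ (congrArg _ (congrArg Subtype.val h6))⟩
    · have h5 := (LinearEquiv.isUnit_det' f).ne_zero
      revert h5
      generalize LinearMap.det (f : V →ₗ[ZMod 2] V) = d
      revert d; decide
  · rintro (⟨-, h⟩ | ⟨-, C, hC, -, -, h⟩ | rfl) v w hv hw
    · exact CfsgLib.CK.Mers.tr_of_dvd hn hprime h v w hv hw
    · obtain ⟨g, hg, e⟩ := CfsgLib.CK.Mers.tr_of_dvd hn hprime h v w hv hw
      exact ⟨g, hC hg, e⟩
    · obtain ⟨φ, h1, h2⟩ : ∃ φ : Module.Dual (ZMod 2) V, φ v = 1 ∧ φ w = 1 := by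
        have key : ∀ a : ZMod 2, a ≠ 0 → a = 1 := by decide
        obtain ⟨φ, hφ⟩ := Module.Projective.exists_dual_ne_zero (ZMod 2) hv
        obtain ⟨ψ, hψ⟩ := Module.Projective.exists_dual_ne_zero (ZMod 2) hw
        by_cases e1 : φ w = 0
        · by_cases e2 : ψ v = 0
          · exact ⟨φ + ψ, by simp [e2, key _ hφ], by simp [e1, key _ hψ]⟩
          · exact ⟨ψ, key _ e2, key _ hψ⟩
        · exact ⟨φ, key _ hφ, key _ e1⟩
      exact ⟨LinearEquiv.transvection (f := φ) (v := w - v) (by simp [h1, h2]), trivial,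
        by simp [LinearMap.transvection.apply, h1]⟩

end Cfsg.Agent.S4179
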