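import Cfsg.Statements.S4182

set_option autoImplicit false
open Cfsg

namespace Cfsg.Agent.S4182

open Subgroup
open scoped Pointwise

universe u

/-- A finite `p`-group is not the union of `p` proper subgroups. -/
theorem pgroup {P : Type*} [Group P] [Finite P] {p : ℕ} [hp : Fact p.Prime] (hP : IsPGroup p P)
    {ι : Type*} (s : Finset ι) (K : ι → Subgroup P) (hK : ∀ i ∈ s, K i ≠ ⊤)
    (hc : ∀ g, ∃ i ∈ s, g ∈ K i) : p + 1 ≤ s.card := by
  classical
  have := Fintype.ofFinite P
  have hd : ∀ i ∈ s, p ∣ (K i).index := fun i hi => by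
    obtain ⟨k, hk⟩ := hP.index (K i)
    exact hk ▸ dvd_pow_self p fun e => hK i hi (index_eq_one.1 (by rw [hk, e, pow_zero]))
  obtain ⟨j, hj, -⟩ := hc 1
  obtain ⟨m, hm⟩ := (hd j hj).trans (K j).index_dvd_card
  obtain ⟨m, rfl⟩ : ∃ k, m = k + 1 :=
    Nat.exists_eq_succ_of_ne_zero fun e => Nat.card_pos.ne' (by rw [hm, e, mul_zero])
  have h1 := Finset.card_biUnion_le_card_mul s
    (fun i => (Finset.univ.filter (· ∈ K i)).erase 1) m fun i hi => by
      rw [Finset.card_erase_of_mem (by simp), ← Fintype.card_subtype, ← Nat.card_eq_fintype_card]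
      have e := (K i).card_mul_index
      have := Nat.mul_le_mul_left (Nat.card (K i)) (Nat.le_of_dvd
        (Nat.pos_of_ne_zero index_ne_zero_of_finite) (hd i hi))
      rw [e, hm, mul_comm p] at this
      have := Nat.le_of_mul_le_mul_right this hp.out.pos
      omega
  have h2 : (Finset.univ.erase (1 : P)).card ≤ _ := Finset.card_le_card (t := s.biUnion
    fun i => (Finset.univ.filter (· ∈ K i)).erase 1) fun g hg => by
      obtain ⟨i, hi, e⟩ := hc g
      exact Finset.mem_biUnion.2 ⟨i, hi, by simpa [e] using hg⟩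
  rw [Finset.card_erase_of_mem (by simp), Finset.card_univ, ← Nat.card_eq_fintype_card, hm] at h2
  by_contra! h
  have := Nat.mul_le_mul_right m (Nat.le_of_lt_succ h)
  have := hp.out.two_le
  rw [mul_add_one] at h2
  omega

/-- the subgroup generated by the `p`-elements of `X` -/
def O {G : Type*} [Group G] (p : ℕ) (X : Subgroup G) : Subgroup G :=
  closure {g | g ∈ X ∧ ∃ k, orderOf g = p ^ k}

theorem O_le {G : Type*} [Group G] {p : ℕ} {X : Subgroup G} : O p X ≤ X :=
  (closure_le _).2 fun _ h => h.1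

theorem O_mono {G : Type*} [Group G] {p : ℕ} {X Y : Subgroup G} (h : X ≤ Y) : O p X ≤ O p Y :=
  closure_mono fun _ e => ⟨h e.1, e.2⟩

theorem O_O {G : Type*} [Group G] {p : ℕ} {X : Subgroup G} : O p (O p X) = O p X :=
  le_antisymm O_le (closure_mono fun _ e => ⟨subset_closure e, e.2⟩)

theorem O_map {G : Type*} [Group G] {p : ℕ} {X : Subgroup G} (h : O p X = X) (e : G ≃* G) :
    O p (X.map e.toMonoidHom) = X.map e.toMonoidHom := by
  refine le_antisymm O_le ?_
  conv_lhs => rw [← h, O, MonoidHom.map_closure]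
  refine closure_mono ?_
  rintro _ ⟨g, ⟨h1, k, h2⟩, rfl⟩
  exact ⟨⟨g, h1, rfl⟩, k, (orderOf_injective _ e.injective g).trans h2⟩

theorem aux {p : ℕ} [hp : Fact p.Prime] {ι : Type*} (n : ℕ) :
    ∀ (G : Type u) [Group G] [Finite G], Nat.card G ≤ n →
      closure {g : G | ∃ k : ℕ, orderOf g = p ^ k} = ⊤ → ∀ (s : Finset ι) (K : ι → Subgroup G),
      (∀ i ∈ s, K i ≠ ⊤) → (∀ g : G, (∃ k : ℕ, orderOf g = p ^ k) → ∃ i ∈ s, g ∈ K i) →
      p + 1 ≤ s.card := by
  induction n with
  | zero => intro G _ _ e; exact absurd e (not_le.2 Nat.card_pos)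
  | succ n ih =>
  intro G _ _ hn hgen s K hK hc
  classical
  by_contra! hs
  have lt : ∀ {A B : Subgroup G}, A ≤ B → Nat.card B ≤ Nat.card A → A = B := fun h1 h2 =>
    eq_of_le_of_card_ge h1 h2
  have sub : ∀ H : Subgroup G, H ≠ ⊤ → O p H = H → ∀ t ⊆ s,
      (∀ g ∈ H, (∃ k : ℕ, orderOf g = p ^ k) → ∃ i ∈ t, g ∈ K i) → ∃ i ∈ t, H ≤ K i :=
    fun H h1 h2 t ht h3 => by
      by_contra! h4
      have := ih H (by
        have : Nat.card H < Nat.card G := not_le.1 fun e => h1 (lt le_top (by rwa [card_top]))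
        omega) (map_injective H.subtype_injective (by
          rw [MonoidHom.map_closure, ← MonoidHom.range_eq_map, range_subtype]
          refine Eq.trans (congrArg _ (Set.ext fun g => ⟨?_, ?_⟩)) h2
          · rintro ⟨g, h, rfl⟩
            exact ⟨g.2, by simpa using h⟩
          · rintro ⟨a, b⟩
            exact ⟨⟨g, a⟩, by simpa using b, rfl⟩)) t (fun i => (K i).subgroupOf H)
        (fun i hi e => h4 i hi (subgroupOf_eq_top.1 e)) fun g hg => h3 g g.2 (by simpa using hg)
      have := Finset.card_le_card ht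
      omega
  obtain ⟨i₀, h₀, -⟩ := hc 1 ⟨0, by simp⟩
  obtain ⟨L, ⟨L1, L2⟩, mx⟩ := Set.Finite.exists_maximalFor (fun H : Subgroup G => Nat.card H)
    {H | H ≠ ⊤ ∧ O p H = H} (Set.toFinite _)
    ⟨O p (K i₀), fun e => hK i₀ h₀ (top_le_iff.1 (e ▸ O_le)), O_O⟩
  have mx' : ∀ i ∈ s, ∀ M : Subgroup G, O p M = M → Nat.card M = Nat.card L → M ≤ K i →
      M = O p (K i) := fun i hi M h1 h2 h3 => by
    have le : M ≤ O p (K i) := h1 ▸ O_mono h3
    exact lt le ((mx ⟨fun e => hK i hi (top_le_iff.1 (e ▸ O_le)), O_O⟩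
      (h2.ge.trans (card_le_of_le le))).trans h2.ge)
  have nrm : ∀ x : G, (∃ k : ℕ, orderOf x = p ^ k) → x ∈ normalizer (L : Set G) := fun x hx => by
    by_contra h
    have cd : ∀ y : G, Nat.card (L.map (MulAut.conj y).toMonoidHom) = Nat.card L := fun y =>
      card_map_of_injective (MulAut.conj y).injective
    choose f f1 f2 using fun j : Fin p => sub (L.map (MulAut.conj (x ^ j.1)).toMonoidHom)
      (fun e => L1 (lt le_top (by rw [← cd, e]))) (O_map L2 _) s subset_rfl fun g _ => hc g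
    have f3 := fun j => mx' _ (f1 j) _ (O_map L2 _) (cd _) (f2 j)
    have key : ∀ a b : Fin p, a < b → f a ≠ f b := fun a b ab e => by
      have e1 := (f3 b).trans (e ▸ (f3 a).symm)
      have e2 : x ^ (b.1 - a.1) ∈ normalizer (L : Set G) := by
        refine mem_normalizer_fintype fun y hy => ?_
        obtain ⟨z, hz, e3⟩ := e1.le ⟨y, hy, rfl⟩
        have e4 : x ^ a.1 * z * (x ^ a.1)⁻¹ = x ^ b.1 * y * (x ^ b.1)⁻¹ := e3
        rw [← Nat.add_sub_of_le (show a.1 ≤ b.1 from ab.le), pow_add] at e4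
        convert hz using 1
        rw [← (MulAut.conj (x ^ a.1)).injective.eq_iff, MulAut.conj_apply, MulAut.conj_apply, e4]
        group
      obtain ⟨k, hk⟩ := hx
      obtain ⟨m, hm⟩ := exists_pow_eq_self_of_coprime (x := x) (n := b.1 - a.1) (by
        rw [hk]
        exact ((Nat.coprime_of_lt_prime (Nat.sub_ne_zero_of_lt ab)
          (lt_of_le_of_lt (Nat.sub_le _ _) b.2) hp.out).symm).pow_right k)
      exact h (hm ▸ pow_mem e2 m)
    have inj : Function.Injective f := fun a b e => by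
      rcases lt_trichotomy a b with h1 | h1 | h1
      exacts [(key a b h1 e).elim, h1, (key b a h1 e.symm).elim]
    have im : Finset.univ.image f = s := Finset.eq_of_subset_of_card_le
      (fun i hi => by obtain ⟨j, -, rfl⟩ := Finset.mem_image.1 hi; exact f1 j)
      (by rw [Finset.card_image_of_injective _ inj, Finset.card_fin]; omega)
    obtain ⟨i, hi, e⟩ := hc x hx
    obtain ⟨j, -, rfl⟩ := Finset.mem_image.1 (im.ge hi)
    obtain ⟨z, hz, e1⟩ := (f3 j).ge (subset_closure ⟨e, hx⟩)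
    have e2 : x ^ j.1 * z * (x ^ j.1)⁻¹ = x := e1
    rw [mul_inv_eq_iff_eq_mul, ← pow_succ', pow_succ, mul_right_inj] at e2
    exact h (le_normalizer (e2 ▸ hz))
  have hN : L.Normal := normalizer_eq_top_iff.1 (top_le_iff.1 (hgen ▸ (closure_le _).2 nrm))
  have syl : ∀ g : G, (∃ k : ℕ, orderOf g = p ^ k) → ∃ P : Sylow p G, g ∈ P := fun g ⟨k, hk⟩ =>
    (IsPGroup.of_card ((Nat.card_zpowers g).trans hk)).exists_le_sylow.imp fun _ h =>
      h (mem_zpowers g)
  have nle : ∀ P : Sylow p G, ¬ (P : Subgroup G) ≤ L := fun P h =>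
    L1 (top_le_iff.1 (hgen ▸ (closure_le _).2 fun g hg => by
      obtain ⟨Q, hQ⟩ := syl g hg
      obtain ⟨y, rfl⟩ := MulAction.exists_smul_eq G P Q
      obtain ⟨z, hz, rfl⟩ := hQ
      exact hN.conj_mem z (h hz) y))
  obtain ⟨i, hi, e⟩ := sub L L1 L2 _ (Finset.filter_subset (fun i => ¬ L ≤ K i) s) fun g _ hg => by
    obtain ⟨P, hP⟩ := syl g hg
    by_contra! h
    have pe : ∀ y : P, ∃ k : ℕ, orderOf (y : G) = p ^ k := fun y => by
      simpa using IsPGroup.iff_orderOf.1 P.isPGroup' y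
    have := pgroup P.isPGroup' s (fun i => (K i).subgroupOf P) (fun i hi e => ?_)
      fun y => hc y (pe y)
    · omega
    have e := subgroupOf_eq_top.1 e
    refine h i (Finset.mem_filter.2 ⟨hi, fun h1 => nle P fun y hy => ?_⟩) (e hP)
    rw [mx' i hi L L2 rfl h1]
    exact subset_closure ⟨e hy, pe ⟨y, hy⟩⟩
  exact (Finset.mem_filter.1 hi).2 e

/-- Let p be a prime and G a finite group generated by its p-elements. If a finite family of proper subgroups of G covers the set of p-elements of G (every element of p-power order lies in one of them), then the family has at least p + 1 members. -/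
theorem result {G : Type*} [Group G] [Finite G] (p : ℕ) [Fact p.Prime] (hgen : Subgroup.closure {g : G | ∃ k : ℕ, orderOf g = p ^ k} = ⊤)
    {ι : Type*} [Fintype ι] (K : ι → Subgroup G) (hK : ∀ i, K i ≠ ⊤)
    (hcov : ∀ g : G, (∃ k : ℕ, orderOf g = p ^ k) → ∃ i, g ∈ K i) :
    p + 1 ≤ Fintype.card ι := by
  exact aux _ G le_rfl hgen Finset.univ K (fun i _ => hK i) fun g hg =>
    (hcov g hg).imp fun i h => ⟨Finset.mem_univ i, h⟩

end Cfsg.Agent.S4182
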