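import Cfsg.Statements.S4184
import Cfsg.Agent.Lib.BG.AmbHall
import Cfsg.Agent.Lib.Count.Subgroups

set_option autoImplicit false
open Cfsg

namespace Cfsg.Agent.S4184

open CfsgLib.BG

/-- all primes dividing `l / n` lie in `B` -/
def Ty (l : ℕ) (B : Set ℕ) (n : ℕ) : Prop := ∀ q : ℕ, q.Prime → q ∣ l / n → q ∈ B

theorem Ty.of_dvd {l n n' : ℕ} {B : Set ℕ} (h : Ty l B n) (h1 : n ∣ n') (h2 : n' ∣ l) : Ty l B n' :=
  fun q hq hd => h q hq (hd.trans (Nat.div_dvd_div_left h2 h1))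

theorem card_div_index {M : Type*} [Group M] [Finite M] (H : Subgroup M) :
    Nat.card M / H.index = Nat.card H := by
  rw [← H.card_mul_index, Nat.mul_div_cancel _ (Nat.pos_of_ne_zero H.index_ne_zero_of_finite)]

theorem exists_orderOf_mul {M : Type*} [Group M] [Finite M] {a b : ℕ} (ha : a.Prime) (hb : b.Prime)
    (hab : a ≠ b) {x y : M} (hx : orderOf x = a) (hy : orderOf y = b) (hc : x * y = y * x) :
    ∃ z : M, orderOf z = a * b :=
  ⟨x * y, by
    rw [Commute.orderOf_mul_eq_mul_orderOf_of_coprime hc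
      (by rw [hx, hy]; exact (Nat.coprime_primes ha hb).2 hab), hx, hy]⟩

theorem ty_or {M : Type*} [Group M] [Finite M] {A : Set ℕ}
    (hA : ∀ a ∈ A, ∀ b ∉ A, a.Prime → b.Prime → a ∣ Nat.card M → b ∣ Nat.card M →
      ¬ ∃ x : M, orderOf x = a * b) {y : M} (hy : y ≠ 1) :
    Ty (Nat.card M) A 𝒞[y].index ∨ Ty (Nat.card M) Aᶜ 𝒞[y].index := by
  obtain ⟨r, hr, hd⟩ := exists_prime_dvd_orderOf hy
  obtain ⟨u, hu, hur⟩ := Cauchy (H := Subgroup.zpowers y) hr (by rwa [Nat.card_zpowers])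
  have key : ∀ q : ℕ, q.Prime → q ∣ Nat.card M / 𝒞[y].index → ∃ w : M, orderOf w = q ∧
      w * u = u * w := fun q hq h => by
    rw [card_div_index] at h
    obtain ⟨w, hw, hwq⟩ := Cauchy hq h
    exact ⟨w, hwq, mem_cent1.1 (cent1_le_cent1_of_mem_zpowers hu hw)⟩
  by_cases hrA : r ∈ A
  · refine Or.inl fun q hq h => by_contra fun hqA => ?_
    obtain ⟨w, hw, hc⟩ := key q hq h
    exact hA r hrA q hqA hr hq (hur ▸ orderOf_dvd_natCard u) (hw ▸ orderOf_dvd_natCard w)
      (exists_orderOf_mul hr hq (fun e => hqA (e ▸ hrA)) hur hw hc.symm)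
  · refine Or.inr fun q hq h hqA => ?_
    obtain ⟨w, hw, hc⟩ := key q hq h
    exact hA q hqA r hrA hq hr (hw ▸ orderOf_dvd_natCard w) (hur ▸ orderOf_dvd_natCard u)
      (exists_orderOf_mul hq hr (fun e => hrA (e ▸ hqA)) hw hur hc)

theorem exists_central {G : Type*} [Group G] [Finite G] {p : ℕ} (hp : p.Prime) {P H : Subgroup G}
    (hP : IsSylowOf p P H) (hd : p ∣ Nat.card H) : ∃ x ∈ P, orderOf x = p ∧ P ≤ 𝒞[x] := by
  have h1 := pHall_pgroup hP
  obtain ⟨x, hx, hxp⟩ := Cauchy hp (pgp_pdiv (pigroupS (centerOf_le P) h1)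
    (center_nil_ne_bot (pgp_nil h1) (Sylow_ne_bot hp hP hd))).2
  exact ⟨x, hx.1, hxp, sub_cent1.2 hx.2⟩

theorem not_dvd_index {G : Type*} [Group G] [Finite G] {p : ℕ} (hp : p.Prime) {P H : Subgroup G}
    (hP : IsSylowOf p P ⊤) (h : P ≤ H) : ¬ p ∣ H.index := by
  rw [← Subgroup.relIndex_top_right]
  exact (not_dvd_relIndex_iff_Sylow_le hp le_top).2 ⟨P, hP, h⟩

theorem main {G : Type*} [Group G] [Finite G] (hZ : Subgroup.center G = ⊥) {l : ℕ} (hl : l ≠ 0)
    {B : Set ℕ} (h1 : ∀ g : G, 𝒞[g].index ∣ l)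
    (h2 : ∀ g : G, g ≠ 1 → Ty l B 𝒞[g].index ∨ Ty l Bᶜ 𝒞[g].index)
    (h3 : ∀ g : G, Ty l B 𝒞[g].index → ¬ Ty l Bᶜ 𝒞[g].index) {p q : ℕ} (hp : p.Prime)
    (hq : q.Prime) (hpB : p ∉ B) (hqB : q ∈ B) (hpl : p ∣ l) (hpG : p ∣ Nat.card G) :
    (Nat.card G).factorization q ≤ l.factorization q := by
  by_contra hlt
  push Not at hlt
  have hG0 : Nat.card G ≠ 0 := Nat.card_pos.ne'
  have hqG : q ∣ Nat.card G := Nat.dvd_of_factorization_pos (by omega)
  have hsplit : ∀ (r : ℕ) (g : G), r.Prime → r ∣ l → ¬ r ∣ 𝒞[g].index → r ∣ l / 𝒞[g].index :=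
    fun r g hr hd hn => by
      rw [← Nat.mul_div_cancel' (h1 g)] at hd
      exact (hr.dvd_mul.1 hd).resolve_left hn
  have hfac : ∀ g : G, (Nat.card 𝒞[g]).factorization q + 𝒞[g].index.factorization q =
      (Nat.card G).factorization q := fun g => by
    rw [← 𝒞[g].card_mul_index, Nat.factorization_mul (cardG_ne_zero _)
      Subgroup.index_ne_zero_of_finite]
    rfl
  have hfac2 : ∀ g : G, Ty l Bᶜ 𝒞[g].index → 𝒞[g].index.factorization q = l.factorization q :=
    fun g hg => by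
      have e := Nat.mul_div_cancel' (h1 g)
      have e0 : l / 𝒞[g].index ≠ 0 := fun h0 => hl (by rw [← e, h0, mul_zero])
      conv_rhs => rw [← e, Nat.factorization_mul Subgroup.index_ne_zero_of_finite e0]
      rw [Finsupp.add_apply, Nat.factorization_eq_zero_of_not_dvd fun hd => hg q hq hd hqB,
        add_zero]
  by_cases hql : q ∣ l
  · obtain ⟨P, hP⟩ := Sylow_exists hp (⊤ : Subgroup G)
    obtain ⟨x, -, hxp, hPx⟩ := exists_central hp hP (by rwa [Subgroup.card_top])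
    have hx1 : x ≠ 1 := fun e => by
      rw [e, orderOf_one] at hxp
      exact hp.ne_one hxp.symm
    have hx : Ty l Bᶜ 𝒞[x].index := (h2 x hx1).resolve_left fun h =>
      hpB (h p hp (hsplit p x hp hpl (not_dvd_index hp hP hPx)))
    have key : ∀ y : G, orderOf y = q → y ∈ 𝒞[x] → Ty l Bᶜ 𝒞[y].index := fun y hy hc => by
      have hy1 : y ≠ 1 := fun e => by
        rw [e, orderOf_one] at hy
        exact hq.ne_one hy.symm
      refine (h2 y hy1).resolve_left fun h => ?_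
      have hcm : Commute x y := (mem_cent1.1 hc).symm
      have hco : (orderOf x).Coprime (orderOf y) := by
        rw [hxp, hy]
        exact (Nat.coprime_primes hp hq).2 fun e => hpB (e ▸ hqB)
      have hxm : x ∈ Subgroup.zpowers (x * y) := by
        have e : (x * y) ^ orderOf y = x ^ orderOf y := by
          rw [hcm.mul_pow, pow_orderOf_eq_one, mul_one]
        exact Subgroup.zpowers_le.2 (e ▸ Subgroup.npow_mem_zpowers _ _)
          (mem_zpowers_pow_iff.2 hco.symm)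
      have hym : y ∈ Subgroup.zpowers (x * y) := by
        have := Subgroup.mul_mem _ (Subgroup.inv_mem _ hxm) (Subgroup.mem_zpowers (x * y))
        simpa using this
      exact h3 (x * y) (h.of_dvd (Subgroup.index_dvd_of_le (cent1_le_cent1_of_mem_zpowers hym))
        (h1 _)) (hx.of_dvd (Subgroup.index_dvd_of_le (cent1_le_cent1_of_mem_zpowers hxm)) (h1 _))
    obtain ⟨R, hR⟩ := Sylow_exists hq 𝒞[x]
    have e1 := hfac x
    rw [hfac2 x hx] at e1
    obtain ⟨y, hyR, hyq, hRy⟩ := exists_central hq hR (Nat.dvd_of_factorization_pos (by omega))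
    have e2 := hfac y
    rw [hfac2 y (key y hyq (pHall_sub hR hyR))] at e2
    have hR' : IsSylowOf q R 𝒞[y] := Sylow_of_card hq hRy (by
      rw [card_Sylow hq hR]; congr 1; omega)
    obtain ⟨Q, hQ, hRQ⟩ := Sylow_superset hq (le_top (a := R)) (pHall_pgroup hR)
    obtain ⟨z, hzQ, hzq, hQz⟩ := exists_central hq hQ (by rwa [Subgroup.card_top])
    have hzR : Subgroup.zpowers z ≤ R := norm_sub_pHall hR'
      (pigroupS (Subgroup.zpowers_le.2 hzQ) (pHall_pgroup hQ))
      (Subgroup.zpowers_le.2 (cent1C.1 (hQz (hRQ hyR))))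
      (cents_norm (Subgroup.zpowers_le.2 (sub_cent1.1 (hRQ.trans hQz))))
    exact key z hzq (pHall_sub hR (hzR (Subgroup.mem_zpowers z))) q hq
      (hsplit q z hq hql (not_dvd_index hq hQ hQz)) hqB
  · obtain ⟨Q, hQ⟩ := Sylow_exists hq (⊤ : Subgroup G)
    have htop : 𝒞(Q) = ⊤ := CfsgLib.Count.eq_top_of_forall_exists_conj_mem _ fun g => by
      have hn : ¬ q ∣ 𝒞[g].relIndex ⊤ := by
        rw [Subgroup.relIndex_top_right]
        exact fun h => hql (h.trans (h1 g))
      obtain ⟨P, hP, hle⟩ := (not_dvd_relIndex_iff_Sylow_le hq le_top).1 hn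
      obtain ⟨x, -, rfl⟩ := Sylow_trans hq hP hQ
      exact ⟨x, by rw [← cj_cent]; exact conj_mem_cj.2 (sub_cent1.1 hle)⟩
    refine Sylow_ne_bot hq hQ (by rwa [Subgroup.card_top]) (eq_bot_iff.2 fun y hy => ?_)
    rw [← hZ, Subgroup.mem_center_iff]
    exact fun g => (mem_cent_iff.1 (htop.ge trivial : g ∈ 𝒞(Q)) y hy).symm

/-- Let G and M be finite groups with trivial centres and the same set of conjugacy class sizes, and suppose the prime graph of M is disconnected: the prime divisors of #M split into two non-empty parts such that M has no element of order pq with p in one part and q in the other. Then #G = #M. -/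
theorem result {G M : Type*}
    [Group G] [Finite G] [Group M] [Finite M] (hZG : Subgroup.center G = ⊥) (hZM : Subgroup.center M = ⊥)
    (h : Set.range (fun g : G => (Subgroup.centralizer ({g} : Set G)).index) = Set.range (fun g : M => (Subgroup.centralizer ({g} : Set M)).index))
    (hdisc : ∃ A : Set ℕ, (∃ a ∈ A, a.Prime ∧ a ∣ Nat.card M) ∧ (∃ b ∉ A, b.Prime ∧ b ∣ Nat.card M) ∧
      ∀ a ∈ A, ∀ b ∉ A, a.Prime → b.Prime → a ∣ Nat.card M → b ∣ Nat.card M → ¬ ∃ x : M, orderOf x = a * b) :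
    Nat.card G = Nat.card M := by
  obtain ⟨A, ⟨a, haA, ha, hal⟩, ⟨b, hbA, hb, hbl⟩, hA⟩ := hdisc
  have hM0 : Nat.card M ≠ 0 := Nat.card_pos.ne'
  have hG0 : Nat.card G ≠ 0 := Nat.card_pos.ne'
  have t1 : ∀ g : G, ∃ y : M, 𝒞[y].index = 𝒞[g].index := fun g => h.le ⟨g, rfl⟩
  have t2 : ∀ y : M, ∃ g : G, 𝒞[g].index = 𝒞[y].index := fun y => h.ge ⟨y, rfl⟩
  have h1 : ∀ g : G, 𝒞[g].index ∣ Nat.card M := fun g => by
    obtain ⟨y, e⟩ := t1 g
    exact e ▸ Subgroup.index_dvd_card _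
  have h2 : ∀ g : G, g ≠ 1 → Ty (Nat.card M) A 𝒞[g].index ∨ Ty (Nat.card M) Aᶜ 𝒞[g].index :=
    fun g hg => by
      obtain ⟨y, e⟩ := t1 g
      rw [← e]
      refine ty_or hA fun hy => hg (Subgroup.mem_bot.1 ?_)
      have e1 : 𝒞[y] = ⊤ := eq_top_iff.2 fun x _ => mem_cent1.2 (by simp [hy])
      rw [e1, Subgroup.index_top, eq_comm, Subgroup.index_eq_one] at e
      rw [← hZG, Subgroup.mem_center_iff]
      exact fun x => mem_cent1.1 (e.ge trivial : x ∈ 𝒞[g])
  have h3 : ∀ g : G, Ty (Nat.card M) A 𝒞[g].index → ¬ Ty (Nat.card M) Aᶜ 𝒞[g].index :=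
    fun g hg hg' => by
      obtain ⟨y, e⟩ := t1 g
      rw [← e] at hg hg'
      have hne : 𝒞[y] ≠ ⊥ := by
        by_cases hy : y = 1
        · obtain ⟨u, -, hu⟩ := Cauchy (H := (⊤ : Subgroup M)) ha (by rwa [Subgroup.card_top])
          refine ne_bot_of_mem (x := u) (mem_cent1.2 (by simp [hy])) fun e => ?_
          rw [e, orderOf_one] at hu
          exact ha.ne_one hu.symm
        · exact ne_bot_of_mem (cent1id y) hy
      obtain ⟨r, hr, hd⟩ := exists_prime_dvd_card hne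
      rw [← card_div_index] at hd
      exact hg' r hr hd (hg r hr hd)
  have low : ∀ (B : Set ℕ) (p q : ℕ), (∀ y : M, y ≠ 1 → Ty (Nat.card M) B 𝒞[y].index ∨
      Ty (Nat.card M) Bᶜ 𝒞[y].index) → p.Prime → q.Prime → p ∉ B → q ∈ B → p ∣ Nat.card M →
      (Nat.card M).factorization q ≤ (Nat.card G).factorization q := fun B p q hB hp hq hpB hqB hd => by
    obtain ⟨y, -, hy⟩ := Cauchy (H := (⊤ : Subgroup M)) hp (by rwa [Subgroup.card_top])
    have hy1 : y ≠ 1 := fun e => by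
      rw [e, orderOf_one] at hy
      exact hp.ne_one hy.symm
    have ht : Ty (Nat.card M) Bᶜ 𝒞[y].index := (hB y hy1).resolve_left fun h => hpB (h p hp (by
      rw [card_div_index, ← hy]; exact order_dvdG (cent1id y)))
    obtain ⟨g, e⟩ := t2 y
    have hn : ¬ q ∣ Nat.card 𝒞[y] := fun hd => ht q hq (by rwa [card_div_index]) hqB
    rw [← 𝒞[y].card_mul_index, Nat.factorization_mul (cardG_ne_zero _)
      Subgroup.index_ne_zero_of_finite, Finsupp.add_apply, Nat.factorization_eq_zero_of_not_dvd hn,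
      zero_add, ← e]
    exact (Nat.factorization_le_iff_dvd Subgroup.index_ne_zero_of_finite hG0).2
      (Subgroup.index_dvd_card _) q
  have hMG : Nat.card M ∣ Nat.card G := by
    refine (Nat.factorization_prime_le_iff_dvd hM0 hG0).1 fun q hq => ?_
    by_cases hqA : q ∈ A
    · exact low A b q (fun y hy => ty_or hA hy) hb hq hbA hqA hbl
    · exact low Aᶜ a q (fun y hy => by rw [compl_compl]; exact (ty_or hA hy).symm) ha hq
        (fun h => h haA) hqA hal
  refine Nat.dvd_antisymm ((Nat.factorization_prime_le_iff_dvd hG0 hM0).1 fun q hq => ?_) hMG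
  by_cases hqA : q ∈ A
  · exact main hZG hM0 h1 h2 h3 hb hq hbA hqA hbl (hbl.trans hMG)
  · exact main (B := Aᶜ) hZG hM0 h1 (fun g hg => by rw [compl_compl]; exact (h2 g hg).symm)
      (fun g hg => by rw [compl_compl]; exact fun hg' => h3 g hg' hg) ha hq (fun h => h haA) hqA
      hal (hal.trans hMG)

end Cfsg.Agent.S4184
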