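import Cfsg.Statements.S4186
-- import your own Cfsg.Agent.* helpers here

set_option autoImplicit false
open Cfsg

namespace Cfsg.Agent.S4186

/-- Let T and X be subgroups of a group with T a finite 2-group normalizing X but not centralizing it. Then some element of T inverts some non-identity element of X under conjugation. -/
theorem result {G : Type*} [Group G] (T X : Subgroup G) [Finite ↥T] (hT : IsPGroup 2 ↥T) (hTN : T ≤ Subgroup.normalizer (X : Set G)) (hTC : ¬ T ≤ Subgroup.centralizer (X : Set G)) : ∃ t ∈ T, ∃ x ∈ X, x ≠ 1 ∧ t * x * t⁻¹ = x⁻¹ := by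
  classical
  obtain ⟨t, ht, htc⟩ := SetLike.not_le_iff_exists.mp hTC
  obtain ⟨k, hk⟩ := hT ⟨t, ht⟩
  have hex : ∃ k : ℕ, t ^ 2 ^ k ∈ Subgroup.centralizer (X : Set G) := by
    refine ⟨k, ?_⟩
    have : t ^ 2 ^ k = 1 := by simpa using congrArg Subtype.val hk
    rw [this]; exact one_mem _
  have h0 : Nat.find hex ≠ 0 := by
    intro h
    have := Nat.find_spec hex
    rw [h] at this
    exact htc (by simpa using this)
  obtain ⟨j, hj⟩ := Nat.exists_eq_succ_of_ne_zero h0
  have h1 : t ^ 2 ^ j ∉ Subgroup.centralizer (X : Set G) := Nat.find_min hex (by omega)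
  have h2 : t ^ 2 ^ (j + 1) ∈ Subgroup.centralizer (X : Set G) := by
    have := Nat.find_spec hex
    rwa [hj] at this
  set s := t ^ 2 ^ j with hs
  have hsT : s ∈ T := pow_mem ht _
  have h3 : s * s ∈ Subgroup.centralizer (X : Set G) := by
    rw [pow_succ, pow_mul, pow_two] at h2
    exact h2
  rw [Subgroup.mem_centralizer_iff] at h1 h3
  push Not at h1
  obtain ⟨y, hy, hys⟩ := h1
  have hsy : s * y * s⁻¹ ∈ X := (Subgroup.mem_normalizer_iff.mp (hTN hsT) y).mp hy
  refine ⟨s, hsT, y⁻¹ * (s * y * s⁻¹), mul_mem (inv_mem hy) hsy, ?_, ?_⟩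
  · intro h
    apply hys
    have : s * y * s⁻¹ = y := by
      rw [inv_mul_eq_one] at h; exact h.symm
    calc y * s = (s * y * s⁻¹) * s := by rw [this]
      _ = s * y := by group
  · have h4 := h3 y hy
    calc s * (y⁻¹ * (s * y * s⁻¹)) * s⁻¹ = s * y⁻¹ * s⁻¹ * ((s * s) * y) * s⁻¹ * s⁻¹ := by group
      _ = s * y⁻¹ * s⁻¹ * (y * (s * s)) * s⁻¹ * s⁻¹ := by rw [h4]
      _ = (y⁻¹ * (s * y * s⁻¹))⁻¹ := by group

end Cfsg.Agent.S4186
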