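import Cfsg.Statements.S4188
import Cfsg.Agent.Lib.Fgs.TwoAbelianization

set_option autoImplicit false
open Cfsg

namespace Cfsg.Agent.S4188

/-- Let G be a finite group that is the semidirect product of a normal abelian subgroup N of odd order by a 2-subgroup P, and suppose N is the unique minimal normal subgroup of G. Then the index of the Frattini subgroup of P in P is at most #N − 1. -/
theorem result {G : Type*} [Group G] [Finite G] (N P : Subgroup G) (hN : N.Normal) (hNab : IsMulCommutative ↥N) (hNodd : Odd (Nat.card ↥N)) (hP : IsPGroup 2 ↥P) (hdisj : N ⊓ P = ⊥) (hprod : N ⊔ P = ⊤) (hmin : N ≠ ⊥ ∧ ∀ M : Subgroup G, M.Normal → M ≠ ⊥ → N ≤ M) : (frattini ↥P).index ≤ Nat.card ↥N - 1 := by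
  open Subgroup in
  have := (nontrivial_iff_ne_bot N).2 hmin.1
  have h := CfsgLib.Fgs.index_commutator_lt_card hNodd (MulAut.conjNormal.comp P.subtype) (by
    rw [← MonoidHom.ker_eq_bot_iff, ← MonoidHom.comap_ker]
    have h1 : (MulAut.conjNormal : G →* MulAut N).ker = centralizer (N : Set G) := by
      ext g
      rw [MonoidHom.mem_ker, mem_centralizer_iff]
      constructor
      · intro h x hx
        have := congrArg Subtype.val (DFunLike.congr_fun h (⟨x, hx⟩ : N))
        exact (mul_inv_eq_iff_eq_mul.1 this).symm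
      · intro h
        ext x
        exact mul_inv_eq_iff_eq_mul.2 (h x x.2).symm
    rw [h1, ← subgroupOf, subgroupOf_eq_bot, disjoint_iff]
    by_contra hne
    have h2 : (centralizer (N : Set G) ⊓ P).Normal := by
      rw [← normalizer_eq_top_iff, eq_top_iff, ← hprod]
      refine sup_le ((le_centralizer_iff.1 inf_le_left).trans (centralizer_le_normalizer _)) ?_
      exact le_trans (le_inf le_normalizer_of_normal le_normalizer) inf_normalizer_le_normalizer_inf
    exact hmin.1 (eq_bot_iff.2 (hdisj ▸ le_inf le_rfl ((hmin.2 _ h2 hne).trans inf_le_right)))) hP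
  exact Nat.le_sub_one_of_lt ((Nat.le_of_dvd (Nat.pos_of_ne_zero index_ne_zero_of_finite)
    (index_dvd_of_le (CfsgLib.Core.commutator_le_frattini_of_isPGroup hP))).trans_lt h)

end Cfsg.Agent.S4188
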