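import Cfsg.Statements.S4195
-- import your own Cfsg.Agent.* helpers here

set_option autoImplicit false
open Cfsg

namespace Cfsg.Agent.S4195

/-- Let x be a non-identity element of a finite group G whose centralizer contains a Sylow 2-subgroup of G. If x is conjugate to its inverse, then x has order 2. -/
theorem result {G : Type*} [Group G] [Finite G] (x : G) (hx : x ≠ 1) (P : Sylow 2 G) (hP : (P : Subgroup G) ≤ Subgroup.centralizer ({x} : Set G)) (hreal : IsConj x x⁻¹) : orderOf x = 2 := by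
  obtain ⟨g, hg⟩ := isConj_iff.mp hreal
  set C := Subgroup.centralizer ({x} : Set G) with hC
  have hCm : ∀ y, y ∈ C ↔ x * y = y * x := by
    intro y; simp [hC, Subgroup.mem_centralizer_iff]
  have hg' : g * x⁻¹ * g⁻¹ = x := by
    have := congrArg (·⁻¹) hg
    simp only [mul_inv_rev, inv_inv] at this
    rw [mul_assoc]; exact this
  have hgN : g ∈ Subgroup.normalizer (C : Set G) := by
    rw [Subgroup.mem_normalizer_iff]
    intro y
    rw [hCm, hCm]
    constructor
    · intro h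
      have h' : x⁻¹ * y = y * x⁻¹ := by
        calc x⁻¹ * y = x⁻¹ * (y * x) * x⁻¹ := by group
          _ = x⁻¹ * (x * y) * x⁻¹ := by rw [h]
          _ = y * x⁻¹ := by group
      calc x * (g * y * g⁻¹) = (g * x⁻¹ * g⁻¹) * (g * y * g⁻¹) := by rw [hg']
        _ = g * (x⁻¹ * y) * g⁻¹ := by group
        _ = g * (y * x⁻¹) * g⁻¹ := by rw [h']
        _ = (g * y * g⁻¹) * (g * x⁻¹ * g⁻¹) := by group
        _ = (g * y * g⁻¹) * x := by rw [hg']
    · intro h
      have h' : x⁻¹ * y = y * x⁻¹ := by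
        have h2 : (g * x⁻¹ * g⁻¹) * (g * y * g⁻¹) = (g * y * g⁻¹) * (g * x⁻¹ * g⁻¹) := by
          rw [hg']; exact h
        calc x⁻¹ * y = g⁻¹ * ((g * x⁻¹ * g⁻¹) * (g * y * g⁻¹)) * g := by group
          _ = g⁻¹ * ((g * y * g⁻¹) * (g * x⁻¹ * g⁻¹)) * g := by rw [h2]
          _ = y * x⁻¹ := by group
      calc x * y = x * (y * x⁻¹) * x := by group
        _ = x * (x⁻¹ * y) * x := by rw [h']
        _ = y * x := by group
  have hodd : ¬ 2 ∣ C.index := fun h =>
    P.not_dvd_index (h.trans (Subgroup.index_dvd_of_le hP))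
  have h1 : g ^ (C.relIndex (Subgroup.normalizer (C : Set G))) ∈ C := by
    have := (C.subgroupOf (Subgroup.normalizer (C : Set G))).pow_index_mem ⟨g, hgN⟩
    simpa [Subgroup.mem_subgroupOf, Subgroup.relIndex] using this
  have h2 : ¬ 2 ∣ C.relIndex (Subgroup.normalizer (C : Set G)) := fun h =>
    hodd (h.trans (Subgroup.relIndex_dvd_index_of_le Subgroup.le_normalizer))
  have h3 : g ^ 2 ∈ C := by
    rw [hCm]
    calc x * g ^ 2 = (g * x⁻¹ * g⁻¹) * g ^ 2 := by rw [hg']
      _ = g * (g * x * g⁻¹) * g := by rw [hg]; simp [pow_two, mul_assoc]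
      _ = g ^ 2 * x := by simp [pow_two, mul_assoc]
  obtain ⟨k, hk⟩ := Nat.odd_iff.mpr (Nat.two_dvd_ne_zero.mp h2)
  have h4 : g ∈ C := by
    rw [hk, pow_succ, pow_mul] at h1
    exact (mul_mem_cancel_left (pow_mem h3 k)).mp h1
  rw [hCm] at h4
  have h5 : x = x⁻¹ := by
    rw [← hg, ← h4]; group
  haveI : Fact (Nat.Prime 2) := ⟨Nat.prime_two⟩
  apply orderOf_eq_prime _ hx
  rw [pow_two]
  exact mul_eq_one_iff_eq_inv.mpr h5

end Cfsg.Agent.S4195
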