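import Cfsg.Statements.S4196
import Cfsg.Agent.S4195

set_option autoImplicit false
open Cfsg

namespace Cfsg.Agent.S4196

/-- A finite group G has elementary abelian Sylow 2-subgroups (commutative with every element squaring to the identity) if and only if every 2-element of G has a Sylow 2-subgroup in its centralizer and is conjugate to its inverse. -/
theorem result {G : Type*} [Group G] [Finite G] (P : Sylow 2 G) :
    (IsMulCommutative (P : Subgroup G) ∧ ∀ x ∈ (P : Subgroup G), x ^ 2 = 1) ↔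
      ∀ x : G, (∃ k : ℕ, orderOf x = 2 ^ k) → (∃ Q : Sylow 2 G, (Q : Subgroup G) ≤ Subgroup.centralizer ({x} : Set G)) ∧ IsConj x x⁻¹ := by
  constructor
  · rintro ⟨hc, h2⟩ x ⟨k, hk⟩
    have hx : IsPGroup 2 (Subgroup.zpowers x) := by
      apply IsPGroup.of_card (n := k)
      rw [Nat.card_zpowers, hk]
    obtain ⟨Q, hQ⟩ := hx.exists_le_sylow
    obtain ⟨g, rfl⟩ := MulAction.exists_smul_eq G P Q
    have hxQ : x ∈ ((g • P : Sylow 2 G) : Subgroup G) := hQ (Subgroup.mem_zpowers x)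
    have hmem : ∀ y, y ∈ ((g • P : Sylow 2 G) : Subgroup G) → g⁻¹ * y * g ∈ (P : Subgroup G) := by
      intro y hy
      rw [Sylow.coe_subgroup_smul, Subgroup.mem_pointwise_smul_iff_inv_smul_mem] at hy
      simpa using hy
    refine ⟨⟨g • P, ?_⟩, ?_⟩
    · intro y hy
      rw [Subgroup.mem_centralizer_iff]
      rintro z rfl
      have := congrArg Subtype.val (hc.is_comm.comm (⟨_, hmem z hxQ⟩ : (P : Subgroup G)) ⟨_, hmem y hy⟩)
      simp only [Subgroup.coe_mul] at this
      calc z * y = g * ((g⁻¹ * z * g) * (g⁻¹ * y * g)) * g⁻¹ := by group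
        _ = g * ((g⁻¹ * y * g) * (g⁻¹ * z * g)) * g⁻¹ := by rw [this]
        _ = y * z := by group
    · have h3 := h2 _ (hmem x hxQ)
      have h4 : x * x = 1 := by
        calc x * x = g * (g⁻¹ * x * g) ^ 2 * g⁻¹ := by simp [pow_two, mul_assoc]
          _ = 1 := by rw [h3]; group
      rw [← mul_eq_one_iff_eq_inv.mp h4]
  · intro h
    have h2 : ∀ x ∈ (P : Subgroup G), x ^ 2 = 1 := by
      intro x hx
      by_cases h1 : x = 1
      · simp [h1]
      obtain ⟨k, hk⟩ := (IsPGroup.iff_orderOf.mp P.isPGroup') ⟨x, hx⟩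
      obtain ⟨⟨Q, hQ⟩, hr⟩ := h x ⟨k, by rw [← hk]; exact Subgroup.orderOf_mk x hx |>.symm⟩
      rw [← Cfsg.Agent.S4195.result x h1 Q hQ hr]
      exact pow_orderOf_eq_one x
    refine ⟨⟨⟨fun a b => ?_⟩⟩, h2⟩
    apply Subtype.ext
    have ha := h2 a a.2
    have hb := h2 b b.2
    have hab := h2 (a * b) (mul_mem a.2 b.2)
    rw [pow_two] at ha hb hab
    simp only [Subgroup.coe_mul]
    have e1 : (a : G)⁻¹ = a := inv_eq_of_mul_eq_one_right ha
    have e2 : (b : G)⁻¹ = b := inv_eq_of_mul_eq_one_right hb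
    have e3 : ((a : G) * b)⁻¹ = a * b := inv_eq_of_mul_eq_one_right hab
    rw [mul_inv_rev, e1, e2] at e3
    exact e3.symm

end Cfsg.Agent.S4196
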