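import Cfsg.Statements.S4234
import Cfsg.Agent.Lib.PSL2Rec.Basic
import Cfsg.Agent.Lib.Dickson.MinSimple
import Cfsg.Agent.Lib.Dickson.Subfield
import Cfsg.Agent.Lib.SL2.Basic

set_option autoImplicit false
open Cfsg

namespace Cfsg.Agent.S4234

open Subgroup CfsgLib CfsgLib.PSL2Rec CfsgLib.Core
open scoped commutatorElement MatrixGroups

set_option linter.unusedSectionVars false
set_option linter.style.haveILetI false

section Simple

variable {G : Type*} [Group G] [Finite G]

theorem rel_mod {p : ℕ} (hp : p.Prime) {Q M : Subgroup G} (hQ : Nat.card Q = p) (hle : Q ≤ M)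
    (h2 : ¬ p ^ 2 ∣ Nat.card G) :
    (normalizer (Q : Set G)).relIndex M % p = 1 ∧
      p * (normalizer (Q : Set G)).relIndex M ∣ Nat.card M := by
  haveI : Fact p.Prime := ⟨hp⟩
  have hc : Nat.card (Q.subgroupOf M) = p := by
    rw [← hQ]; exact Nat.card_congr (subgroupOfEquivOfLe hle).toEquiv
  have hm := (Q.subgroupOf M).card_mul_index
  rw [hc] at hm
  have hnd : ¬ p ∣ (Q.subgroupOf M).index := fun h => h2 (by
    refine Dvd.dvd.trans ?_ M.card_subgroup_dvd_card
    rw [← hm, pow_two]; exact Nat.mul_dvd_mul_left p h)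
  have hP : IsPGroup p (Q.subgroupOf M) := IsPGroup.of_card (n := 1) (by rw [hc, pow_one])
  let P : Sylow p M := hP.toSylow hnd
  have h1 : Nat.card (Sylow p M) = (normalizer (Q : Set G)).relIndex M := by
    rw [P.card_eq_index_normalizer, relIndex]
    congr 1
    exact (subgroupOf_normalizer_eq hle).symm
  refine ⟨h1 ▸ card_sylow_mod, ?_⟩
  rw [← hm, ← h1]
  exact Nat.mul_dvd_mul_left p (P.card_dvd_index)

theorem exists_sub {p : ℕ} (hp : p.Prime) {M : Subgroup G} (h : p ∣ Nat.card M) :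
    ∃ x ∈ M, orderOf x = p := by
  haveI : Fact p.Prime := ⟨hp⟩
  obtain ⟨x, hx⟩ := exists_prime_orderOf_dvd_card' (G := M) p h
  exact ⟨x, x.2, by rw [← hx, orderOf_coe]⟩

theorem le_norm_of_two {H D : Subgroup G} (hle : H ≤ D) (h : Nat.card D ≤ 2 * Nat.card H) :
    D ≤ normalizer (H : Set G) := by
  have h1 := (H.subgroupOf D).card_mul_index
  rw [Nat.card_congr (subgroupOfEquivOfLe hle).toEquiv] at h1
  have h0 : 0 < Nat.card H := Nat.card_pos
  have h3 : (H.subgroupOf D).index ≠ 0 := index_ne_zero_of_finite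
  have h2 : (H.subgroupOf D).index = 1 ∨ (H.subgroupOf D).index = 2 := by
    have : (H.subgroupOf D).index ≤ 2 := by nlinarith
    omega
  rw [← normal_subgroupOf_iff_le_normalizer hle]
  rcases h2 with h2 | h2
  · rw [index_eq_one.1 h2]; infer_instance
  · exact normal_of_index_eq_two h2

theorem comm_le_cent {C : Subgroup G} [IsCyclic C] {a b : G} (ha : a ∈ normalizer (C : Set G))
    (hb : b ∈ normalizer (C : Set G)) : a * b * a⁻¹ * b⁻¹ ∈ centralizer (C : Set G) := by
  have h : C.normalizerMonoidHom (⟨a, ha⟩ * ⟨b, hb⟩ * ⟨a, ha⟩⁻¹ * ⟨b, hb⟩⁻¹) = 1 := by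
    simp only [map_mul, map_inv]
    have e := IsCyclic.mulAutMulEquiv C
    apply e.injective
    simp only [map_mul, map_inv, map_one]
    rw [mul_comm (e _) (e _)]; group
  have := (MonoidHom.mem_ker).2 h
  rw [normalizerMonoidHom_ker] at this
  exact this

variable [IsSimpleGroup G] (hc : Nat.card G = 1092)
include hc

theorem card_le {M : Subgroup G} (hM : M ≠ ⊤) : Nat.card M ≤ 84 := by
  have h1 := simple_card_dvd_factorial hM
  have h2 := M.card_mul_index
  rw [hc] at h1 h2
  have h3 : 13 ∣ M.index.factorial := Dvd.dvd.trans (by norm_num) h1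
  have h4 := (Nat.Prime.dvd_factorial (by norm_num)).1 h3
  nlinarith

theorem ne_top_of {M : Subgroup G} (h : Nat.card M < 1092) : M ≠ ⊤ := by
  rintro rfl
  rw [card_top, hc] at h
  exact lt_irrefl _ h

theorem ne_bot_of {M : Subgroup G} (h : 1 < Nat.card M) : M ≠ ⊥ := by
  rintro rfl
  rw [card_bot] at h
  exact lt_irrefl _ h

theorem card_n13 {Q : Subgroup G} (hQ : Nat.card Q = 13) :
    Nat.card (normalizer (Q : Set G)) = 78 := by
  obtain ⟨h1, h2⟩ := rel_mod (by norm_num) hQ le_top (by rw [hc]; norm_num)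
  rw [relIndex_top_right] at h1 h2
  rw [card_top, hc] at h2
  have h3 := (normalizer (Q : Set G)).card_mul_index
  have h4 : (normalizer (Q : Set G)).index ≠ 1 := fun h =>
    normalizer_ne_top_of_simple (ne_bot_of hc (by omega)) (ne_top_of hc (by omega)) (index_eq_one.1 h)
  have h5 : (normalizer (Q : Set G)).index ∣ 84 := Nat.dvd_of_mul_dvd_mul_left (by norm_num : 0 < 13) h2
  have h6 := Nat.le_of_dvd (by norm_num) h5
  rw [hc] at h3
  generalize (normalizer (Q : Set G)).index = n at *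
  interval_cases n <;> omega

theorem card_n7 {Q : Subgroup G} (hQ : Nat.card Q = 7) :
    Nat.card (normalizer (Q : Set G)) = 14 := by
  obtain ⟨h1, h2⟩ := rel_mod (by norm_num) hQ le_top (by rw [hc]; norm_num)
  rw [relIndex_top_right] at h1 h2
  rw [card_top, hc] at h2
  have h3 := (normalizer (Q : Set G)).card_mul_index
  have h4 : (normalizer (Q : Set G)).index ≠ 1 := fun h =>
    normalizer_ne_top_of_simple (ne_bot_of hc (by omega)) (ne_top_of hc (by omega)) (index_eq_one.1 h)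
  have h5 : (normalizer (Q : Set G)).index ∣ 156 := Nat.dvd_of_mul_dvd_mul_left (by norm_num : 0 < 7) h2
  have h6 := Nat.le_of_dvd (by norm_num) h5
  rw [hc] at h3
  generalize (normalizer (Q : Set G)).index = n at *
  interval_cases n <;> omega

theorem le_n13 {M : Subgroup G} (hM : M ≠ ⊤) (h : 13 ∣ Nat.card M) :
    ∃ Q : Subgroup G, Nat.card Q = 13 ∧ Q ≤ M ∧ M ≤ normalizer (Q : Set G) := by
  obtain ⟨x, hx, ho⟩ := exists_sub (by norm_num) h
  have hQ : Nat.card (zpowers x) = 13 := by rw [Nat.card_zpowers, ho]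
  have hle : zpowers x ≤ M := zpowers_le.2 hx
  obtain ⟨h1, h2⟩ := rel_mod (by norm_num) hQ hle (by rw [hc]; norm_num)
  have h3 := (Nat.le_of_dvd Nat.card_pos h2).trans (card_le hc hM)
  exact ⟨_, hQ, hle, relIndex_eq_one.1 (by omega)⟩

theorem le_n7 {M : Subgroup G} (hM : M ≠ ⊤) (h : 7 ∣ Nat.card M) :
    ∃ Q : Subgroup G, Nat.card Q = 7 ∧ Q ≤ M ∧ M ≤ normalizer (Q : Set G) := by
  obtain ⟨x, hx, ho⟩ := exists_sub (by norm_num) h
  have hQ : Nat.card (zpowers x) = 7 := by rw [Nat.card_zpowers, ho]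
  have hle : zpowers x ≤ M := zpowers_le.2 hx
  obtain ⟨h1, h2⟩ := rel_mod (by norm_num) hQ hle (by rw [hc]; norm_num)
  have h3 := (Nat.le_of_dvd Nat.card_pos h2).trans (card_le hc hM)
  have h4 := h2.trans M.card_subgroup_dvd_card
  rw [hc] at h4
  refine ⟨_, hQ, hle, relIndex_eq_one.1 ?_⟩
  generalize (normalizer ((zpowers x : Subgroup G) : Set G)).relIndex M = n at *
  have : n ≤ 12 := by omega
  interval_cases n <;> omega

theorem dvd12 {M : Subgroup G} (h13 : ¬ 13 ∣ Nat.card M) (h7 : ¬ 7 ∣ Nat.card M) :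
    Nat.card M ∣ 12 := by
  have h := M.card_subgroup_dvd_card
  rw [hc, show 1092 = 13 * (7 * 12) by norm_num] at h
  have h1 := ((Nat.Prime.coprime_iff_not_dvd (by norm_num)).2 h13).symm.dvd_of_dvd_mul_left h
  exact ((Nat.Prime.coprime_iff_not_dvd (by norm_num)).2 h7).symm.dvd_of_dvd_mul_left h1

theorem proper {M : Subgroup G} (hM : M ≠ ⊤) :
    Nat.card M ∣ 78 ∨ Nat.card M ∣ 14 ∨ Nat.card M ∣ 12 := by
  by_cases h13 : 13 ∣ Nat.card M
  · obtain ⟨Q, h1, -, h2⟩ := le_n13 hc hM h13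
    exact Or.inl (card_n13 hc h1 ▸ card_dvd_of_le h2)
  by_cases h7 : 7 ∣ Nat.card M
  · obtain ⟨Q, h1, -, h2⟩ := le_n7 hc hM h7
    exact Or.inr (Or.inl (card_n7 hc h1 ▸ card_dvd_of_le h2))
  exact Or.inr (Or.inr (dvd12 hc h13 h7))

theorem card_n3 {Q : Subgroup G} (hQ : Nat.card Q = 3) :
    Nat.card (normalizer (Q : Set G)) = 12 ∧ 2 ∣ Nat.card (centralizer (Q : Set G)) := by
  haveI : Fact (Nat.Prime 3) := ⟨by norm_num⟩
  obtain ⟨h1, -⟩ := rel_mod (by norm_num) hQ le_top (by rw [hc]; norm_num)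
  rw [relIndex_top_right] at h1
  have h3 := (normalizer (Q : Set G)).card_mul_index
  rw [hc] at h3
  have h4 := proper hc
    (normalizer_ne_top_of_simple (H := Q) (ne_bot_of hc (by omega)) (ne_top_of hc (by omega)))
  have h5 : 3 ∣ Nat.card (normalizer (Q : Set G)) := hQ ▸ card_dvd_of_le le_normalizer
  have h6 := relIndex_centralizer_dvd_of_prime Q hQ
  have h7 := card_centralizer_mul_relIndex Q
  have hi := Q.card_mul_index
  rw [hQ, hc] at hi
  have hP : IsPGroup 3 Q := IsPGroup.of_card (n := 1) (by rw [hQ, pow_one])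
  have h8 : (centralizer (Q : Set G)).relIndex (normalizer (Q : Set G)) ≠ 1 := fun h =>
    not_normalizer_le_centralizer (p := 3) (k := 1) (m := 364) (by rw [hc]; norm_num) (by norm_num)
      one_ne_zero (by norm_num) (hP.toSylow (by omega)) (relIndex_eq_one.1 h)
  have h9 : (centralizer (Q : Set G)).relIndex (normalizer (Q : Set G)) = 2 :=
    ((Nat.dvd_prime Nat.prime_two).1 h6).resolve_left h8
  rw [h9] at h7
  have h10 : Nat.card (normalizer (Q : Set G)) = 12 := by
    have : Nat.card (normalizer (Q : Set G)) ≤ 78 := by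
      rcases h4 with h | h | h <;> have := Nat.le_of_dvd (by norm_num) h <;> omega
    have h2 : 2 ∣ Nat.card (normalizer (Q : Set G)) := by omega
    generalize Nat.card (normalizer (Q : Set G)) = n at *
    interval_cases n <;> omega
  exact ⟨h10, by omega⟩

theorem card_syl (P : Sylow 2 G) : Nat.card (P : Subgroup G) = 4 := by
  haveI : Fact (Nat.Prime 2) := ⟨Nat.prime_two⟩
  exact card_sylow_of_eq (k := 2) (m := 273) (by rw [hc]; norm_num) (by norm_num) P

omit hc [IsSimpleGroup G] in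
theorem le_cent4 {V : Subgroup G} (h : Nat.card V = 4) : V ≤ centralizer (V : Set G) := by
  haveI : Fact (Nat.Prime 2) := ⟨Nat.prime_two⟩
  have := IsPGroup.isMulCommutative_of_card_eq_prime_sq (p := 2) (G := V) (by rw [h]; norm_num)
  exact le_centralizer_iff_isMulCommutative.2 this

theorem four_dvd {t : G} (ht : orderOf t = 2) : 4 ∣ Nat.card (centralizer ({t} : Set G)) := by
  obtain ⟨P, hP⟩ := exists_sylow_mem (p := 2) (k := 1) (x := t) (by rw [← ht]; simp)
  rw [← card_syl hc P]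
  exact card_dvd_of_le ((le_cent4 (card_syl hc P)).trans (centralizer_le (Set.singleton_subset_iff.2 hP)))

theorem cent_ne {t : G} (ht : t ≠ 1) : centralizer ({t} : Set G) ≠ ⊤ :=
  centralizer_ne_top_of_simple (by rw [hc]; norm_num) ht

theorem card_n4 {V : Subgroup G} (h : Nat.card V = 4) :
    Nat.card (normalizer (V : Set G)) = 12 := by
  haveI : Fact (Nat.Prime 2) := ⟨Nat.prime_two⟩
  have h4 := proper hc
    (normalizer_ne_top_of_simple (H := V) (ne_bot_of hc (by omega)) (ne_top_of hc (by omega)))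
  have h5 : 4 ∣ Nat.card (normalizer (V : Set G)) := h ▸ card_dvd_of_le le_normalizer
  have hi := V.card_mul_index
  rw [h, hc] at hi
  have hP : IsPGroup 2 V := IsPGroup.of_card (n := 2) (by rw [h]; norm_num)
  have h8 : Nat.card (normalizer (V : Set G)) ≠ 4 := fun e =>
    not_normalizer_le_centralizer (p := 2) (k := 2) (m := 273) (by rw [hc]; norm_num) (by norm_num)
      two_ne_zero (by norm_num) (hP.toSylow (by omega)) (by
        have : V = normalizer (V : Set G) := eq_of_le_of_card_ge le_normalizer (by omega)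
        exact this.ge.trans (le_cent4 h))
  have : Nat.card (normalizer (V : Set G)) ≤ 78 := by
    rcases h4 with h | h | h <;> have := Nat.le_of_dvd (by norm_num) h <;> omega
  generalize Nat.card (normalizer (V : Set G)) = n at *
  interval_cases n <;> omega

omit hc [IsSimpleGroup G] in
theorem dvd_cent {t y : G} (h : y * t * y⁻¹ = t) : orderOf y ∣ Nat.card (centralizer ({t} : Set G)) :=
  orderOf_dvd_natCard _ (mem_centralizer_singleton_iff.2 (mul_inv_eq_iff_eq_mul.1 h))

omit hc [IsSimpleGroup G] in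
theorem cent_conj (t g : G) : Nat.card (centralizer ({g * t * g⁻¹} : Set G)) =
    Nat.card (centralizer ({t} : Set G)) := by
  have h1 := card_class_mul_card_centralizer t
  have h2 := card_class_mul_card_centralizer (g * t * g⁻¹)
  have h3 : Nat.card {y : G // IsConj (g * t * g⁻¹) y} = Nat.card {y : G // IsConj t y} :=
    Nat.card_congr (Equiv.subtypeEquivRight fun y =>
      ⟨fun h => (isConj_iff.2 ⟨g, rfl⟩).trans h, fun h => (isConj_iff.2 ⟨g, rfl⟩).symm.trans h⟩)
  haveI : Nonempty {y : G // IsConj t y} := ⟨⟨t, IsConj.refl t⟩⟩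
  rw [h3, ← h1] at h2
  exact Nat.eq_of_mul_eq_mul_left Nat.card_pos h2

theorem three_dvd {t : G} (ht : orderOf t = 2) : 3 ∣ Nat.card (centralizer ({t} : Set G)) := by
  classical
  haveI : Fact (Nat.Prime 2) := ⟨Nat.prime_two⟩
  obtain ⟨P, hP⟩ := exists_sylow_mem (p := 2) (k := 1) (x := t) (by rw [← ht]; simp)
  obtain ⟨y, hy, hy3⟩ := exists_sub (p := 3) (by norm_num)
    (M := normalizer ((P : Subgroup G) : Set G)) (by rw [card_n4 hc (card_syl hc P)]; norm_num)
  obtain ⟨s, hs, hs2⟩ := exists_sub (p := 2) (by norm_num)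
    (card_n3 hc (Q := zpowers y) (by rw [Nat.card_zpowers, hy3])).2
  have hs3 : 3 ∣ Nat.card (centralizer ({s} : Set G)) := by
    rw [← hy3]; exact dvd_cent (by rw [hs y (mem_zpowers y)]; group)
  obtain ⟨P', hP'⟩ := exists_sylow_mem (p := 2) (k := 1) (x := s) (by rw [← hs2]; simp)
  obtain ⟨g, hg⟩ := MulAction.exists_smul_eq G P' P
  have hs' : g * s * g⁻¹ ∈ (P : Subgroup G) := by
    rw [← hg]
    exact Subgroup.smul_mem_pointwise_smul s (MulAut.conj g) _ hP'
  have hs4 : 3 ∣ Nat.card (centralizer ({g * s * g⁻¹} : Set G)) := by rw [cent_conj]; exact hs3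
  have hs1 : g * s * g⁻¹ ≠ 1 := fun e => by
    have : s = 1 := by simpa using e
    rw [this, orderOf_one] at hs2; omega
  generalize g * s * g⁻¹ = r at hs' hs4 hs1
  by_contra hn
  have h1 : y * t * y⁻¹ ≠ t := fun e => hn (hy3 ▸ dvd_cent e)
  have h2 : y⁻¹ * t * y⁻¹⁻¹ ≠ t := fun e => hn (by
    have := dvd_cent e; rwa [orderOf_inv, hy3] at this)
  have hy1 : y ^ 3 = 1 := by rw [← hy3, pow_orderOf_eq_one]
  have h3 : y * t * y⁻¹ ≠ y⁻¹ * t * y⁻¹⁻¹ := fun e => h2 (by
    have e1 : y⁻¹ = y * y := by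
      rw [inv_eq_iff_mul_eq_one, ← hy1]; simp [pow_succ, mul_assoc]
    calc y⁻¹ * t * y⁻¹⁻¹ = (y * y) * t * (y * y)⁻¹ := by rw [← e1]
      _ = y * (y * t * y⁻¹) * y⁻¹ := by group
      _ = t := by rw [e]; group)
  have ht1 : t ≠ 1 := fun e => by rw [e, orderOf_one] at ht; omega
  have h4 : y * t * y⁻¹ ≠ 1 := by simpa using ht1
  have h5 : y⁻¹ * t * y⁻¹⁻¹ ≠ 1 := fun e => ht1 (by
    calc t = y * (y⁻¹ * t * y⁻¹⁻¹) * y⁻¹ := by group
      _ = 1 := by rw [e]; group)
  have hsub : ({1, t, y * t * y⁻¹, y⁻¹ * t * y⁻¹⁻¹} : Set G) ⊆ (P : Subgroup G) := by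
    rintro _ (rfl | rfl | rfl | rfl)
    exacts [one_mem _, hP, (mem_normalizer_iff.1 hy _).1 hP, (mem_normalizer_iff.1 (inv_mem hy) _).1 hP]
  have heq := Set.eq_of_subset_of_ncard_le hsub (by
    rw [Set.ncard_insert_of_notMem (by simp only [Set.mem_insert_iff, Set.mem_singleton_iff]; push Not; exact ⟨ht1.symm, h4.symm, h5.symm⟩),
      Set.ncard_insert_of_notMem (by simp only [Set.mem_insert_iff, Set.mem_singleton_iff]; push Not; exact ⟨h1.symm, h2.symm⟩),
      Set.ncard_pair h3, ← Nat.card_coe_set_eq]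
    exact (card_syl hc P).le)
  have : r ∈ ({1, t, y * t * y⁻¹, y⁻¹ * t * y⁻¹⁻¹} : Set G) := heq ▸ hs'
  rcases this with rfl | rfl | rfl | rfl
  · exact hs1 rfl
  · exact hn hs4
  · rw [cent_conj] at hs4; exact hn hs4
  · rw [cent_conj] at hs4; exact hn hs4

theorem cent13 {Q : Subgroup G} (hQ : Nat.card Q = 13) : centralizer (Q : Set G) ≤ Q := by
  haveI : Fact (Nat.Prime 13) := ⟨by norm_num⟩
  haveI := isCyclic_of_prime_card hQ
  have h0 : Q ≤ centralizer (Q : Set G) := le_centralizer_iff_isMulCommutative.2 inferInstance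
  have h1 : Nat.card (centralizer (Q : Set G)) ∣ 78 :=
    card_n13 hc hQ ▸ card_dvd_of_le (centralizer_le_normalizer _)
  have h2 : ¬ 2 ∣ Nat.card (centralizer (Q : Set G)) := fun h => by
    obtain ⟨x, hx, ho⟩ := exists_sub Nat.prime_two h
    have a1 := four_dvd hc ho
    have a2 : 13 ∣ Nat.card (centralizer ({x} : Set G)) := hQ ▸ card_dvd_of_le fun q hq =>
      mem_centralizer_singleton_iff.2 (hx q hq)
    have a3 := proper hc (cent_ne hc (t := x) fun e => by rw [e, orderOf_one] at ho; omega)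
    rcases a3 with a | a | a
    · exact absurd (a1.trans a) (by norm_num)
    · exact absurd (a1.trans a) (by norm_num)
    · exact absurd (a2.trans a) (by norm_num)
  have h3 : ¬ 3 ∣ Nat.card (centralizer (Q : Set G)) := fun h => by
    obtain ⟨x, hx, ho⟩ := exists_sub Nat.prime_three h
    have a1 := (card_n3 hc (Q := zpowers x) (by rw [Nat.card_zpowers, ho])).1
    have a2 : Q ≤ centralizer (zpowers x : Set G) := le_centralizer_iff.1 (zpowers_le.2 hx)
    have a3 := card_dvd_of_le (a2.trans (centralizer_le_normalizer _))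
    rw [a1, hQ] at a3
    exact absurd a3 (by norm_num)
  refine (eq_of_le_of_card_ge h0 ?_).ge
  have := Nat.le_of_dvd (by norm_num) h1
  rw [hQ]
  generalize Nat.card (centralizer (Q : Set G)) = n at *
  interval_cases n <;> omega

theorem big {H : Subgroup G} (h1 : H ≠ ⊥) (h2 : H ≠ ⊤) :
    78 ∣ Nat.card (normalizer (H : Set G)) ∨ 14 ∣ Nat.card (normalizer (H : Set G)) ∨
      12 ∣ Nat.card (normalizer (H : Set G)) := by
  by_cases h13 : 13 ∣ Nat.card H
  · obtain ⟨Q, a1, a2, a3⟩ := le_n13 hc h2 h13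
    haveI : Fact (Nat.Prime 13) := ⟨by norm_num⟩
    haveI := isCyclic_of_prime_card a1
    refine Or.inl (card_n13 hc a1 ▸ card_dvd_of_le fun b hb =>
      mem_normalizer_of_forall_conj_mem fun h hh => ?_)
    simpa using H.mul_mem (a2 (cent13 hc a1 (comm_le_cent hb (a3 hh)))) hh
  by_cases h7 : 7 ∣ Nat.card H
  · obtain ⟨Q, a1, a2, a3⟩ := le_n7 hc h2 h7
    have := Nat.le_of_dvd Nat.card_pos h7
    exact Or.inr (Or.inl (card_n7 hc a1 ▸ card_dvd_of_le
      (le_norm_of_two a3 (by rw [card_n7 hc a1]; omega))))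
  refine Or.inr (Or.inr ?_)
  have h := dvd12 hc h13 h7
  have h3 : Nat.card H ≠ 1 := fun e => h1 (card_eq_one.1 e)
  have h4 : Nat.card H = 2 ∨ Nat.card H = 3 ∨ Nat.card H = 4 ∨ Nat.card H = 6 ∨ Nat.card H = 12 := by
    have := Nat.le_of_dvd (by norm_num) h
    generalize Nat.card H = n at *
    interval_cases n <;> omega
  rcases h4 with e | e | e | e | e
  · obtain ⟨t, ht, ho⟩ := exists_sub (M := H) Nat.prime_two (by rw [e])
    haveI : Fact (Nat.Prime 2) := ⟨Nat.prime_two⟩
    have e1 := eq_zpowers_of_prime_card e ht (fun e => by rw [e, orderOf_one] at ho; omega)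
    have a : 12 ∣ Nat.card (centralizer ({t} : Set G)) :=
      Nat.Coprime.mul_dvd_of_dvd_of_dvd (by norm_num : Nat.Coprime 4 3) (four_dvd hc ho)
        (three_dvd hc ho)
    refine a.trans (card_dvd_of_le (le_trans ?_ (centralizer_le_normalizer _)))
    rw [e1, le_centralizer_iff, zpowers_le]
    exact fun g hg => mem_centralizer_singleton_iff.1 hg
  · rw [(card_n3 hc e).1]
  · rw [card_n4 hc e]
  · obtain ⟨x, hx, ho⟩ := exists_sub (M := H) Nat.prime_three (by rw [e]; norm_num)
    have hQ : Nat.card (zpowers x) = 3 := by rw [Nat.card_zpowers, ho]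
    obtain ⟨a1, a2⟩ := rel_mod (by norm_num) hQ (zpowers_le.2 hx) (by rw [hc]; norm_num)
    have a3 := Nat.le_of_dvd Nat.card_pos a2
    have a4 : H ≤ normalizer ((zpowers x : Subgroup G) : Set G) := relIndex_eq_one.1 (by omega)
    exact (card_n3 hc hQ).1 ▸ card_dvd_of_le (le_norm_of_two a4 (by rw [(card_n3 hc hQ).1]; omega))
  · exact e ▸ card_dvd_of_le le_normalizer

theorem coatom {H : Subgroup G} (h : ¬ H.Normal) : IsCoatom (normalizer (H : Set G)) := by
  have h1 : H ≠ ⊥ := by rintro rfl; exact h inferInstance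
  have h2 : H ≠ ⊤ := by rintro rfl; exact h inferInstance
  refine ⟨normalizer_ne_top_of_simple h1 h2, fun M hM => ?_⟩
  by_contra hn
  have a1 := card_dvd_of_le hM.le
  have a2 := card_lt_of_lt hM
  rcases big hc h1 h2 with a | a | a <;> rcases proper hc hn with b | b | b <;>
    have c1 := Nat.le_of_dvd Nat.card_pos a <;> have c2 := Nat.le_of_dvd (by norm_num) b <;>
    have c3 := a.trans (a1.trans b) <;> omega

end Simple

theorem lift {L G : Type*} [Group L] [Group G] [Finite L] (f : L →* G) (hf : Function.Surjective f)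
    (hG : ∀ H : Subgroup G, ¬ H.Normal → IsCoatom (normalizer (H : Set G))) (H : Subgroup L)
    (hH : ¬ H.Normal) (h : ∀ x : L, ∀ a ∈ H, ∀ b ∈ H, f (x * a * x⁻¹) = f b → x * a * x⁻¹ ∈ H) :
    IsCoatom (normalizer (H : Set L)) := by
  have e : normalizer (H : Set L) = (normalizer ((H.map f : Subgroup G) : Set G)).comap f := by
    refine le_antisymm (map_le_iff_le_comap.1 (le_normalizer_map f)) fun x hx =>
      mem_normalizer_of_forall_conj_mem fun a ha => ?_
    obtain ⟨b, hb, e⟩ := (mem_normalizer_iff.1 hx (f a)).1 (mem_map_of_mem f ha)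
    exact h x a ha b hb (by simp [e])
  rw [e]
  refine isCoatom_comap_of_surjective hf (hG _ fun hn => hH ?_)
  rw [← normalizer_eq_top_iff] at hn ⊢
  rw [e, hn, comap_top]

theorem card_psl13 : Nat.card PSL(2, ZMod 13) = 1092 := by
  haveI : Fact (Nat.Prime 13) := ⟨by norm_num⟩
  have := Dickson.card_psl (K := ZMod 13)
  rw [Nat.card_zmod, show Nat.gcd 2 (13 - 1) = 2 by norm_num] at this
  exact Nat.eq_of_mul_eq_mul_left two_pos (this.trans (by norm_num))

theorem psl (H : Subgroup PSL(2, ZMod 13)) (hH : ¬ H.Normal) :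
    IsCoatom (normalizer (H : Set PSL(2, ZMod 13))) := by
  haveI : Fact (Nat.Prime 13) := ⟨by norm_num⟩
  have h13 : 4 ≤ Nat.card (ZMod 13) := by rw [Nat.card_zmod]; norm_num
  haveI := Dickson.psl_isSimpleGroup h13
  exact coatom card_psl13 hH

theorem sl (H : Subgroup SL(2, ZMod 13)) (hH : ¬ H.Normal) :
    IsCoatom (normalizer (H : Set SL(2, ZMod 13))) := by
  haveI : Fact (Nat.Prime 13) := ⟨by norm_num⟩
  have h20 : (2 : ZMod 13) ≠ 0 := by decide +revert
  refine lift (QuotientGroup.mk' _) (QuotientGroup.mk'_surjective _) psl H hH fun x a ha b hb e => ?_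
  have h1 := (SL2.mem_center_iff _).1 (QuotientGroup.eq.1 e)
  rcases h1 with h1 | h1
  · rw [inv_mul_eq_one.1 h1]; exact hb
  have h2 : x * a * x⁻¹ = -b := by rw [inv_mul_eq_iff_eq_mul.1 h1]; simp
  by_cases hm : (-1 : SL(2, ZMod 13)) ∈ H
  · rw [h2, ← neg_one_mul]; exact H.mul_mem hm hb
  have hodd : ∀ c ∈ H, Odd (orderOf c) := fun c hc => by
    by_contra hn
    obtain ⟨k, hk⟩ := Nat.not_odd_iff_even.1 hn
    have h0 := orderOf_pos c
    have h3 : c ^ k * c ^ k = 1 := by rw [← pow_add, ← hk, pow_orderOf_eq_one]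
    rcases (SL2.mem_center_iff _).1 ((SL2.mem_center_iff_isScal _).2
      ((SL2.sq_eq_one_iff_isScal h20 _).1 h3)) with h4 | h4
    · exact pow_ne_one_of_lt_orderOf (by omega) (by omega) h4
    · exact hm (h4 ▸ H.pow_mem hc k)
  exfalso
  have h3 : (x * a * x⁻¹) ^ (orderOf a * orderOf b) = 1 := by
    rw [conj_pow, pow_mul, pow_orderOf_eq_one]; simp
  rw [h2, ((hodd a ha).mul (hodd b hb)).neg_pow, mul_comm, pow_mul, pow_orderOf_eq_one, one_pow] at h3
  exact hm (by rw [h3]; exact H.one_mem)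

/-- Let K be isomorphic to PSL(2, 13) or to SL(2, 13) and let S be a finite abelian group of order coprime to the order of K. Then in the direct product K × S every subgroup that is not normal has a normalizer that is a maximal subgroup. -/
theorem result {K S : Type*} [Group K] [CommGroup S] [Finite K] [Finite S]
    (hK : Nonempty (K ≃* Matrix.ProjectiveSpecialLinearGroup (Fin 2) (ZMod 13)) ∨
      Nonempty (K ≃* Matrix.SpecialLinearGroup (Fin 2) (ZMod 13)))
    (hKS : (Nat.card K).Coprime (Nat.card S)) (H : Subgroup (K × S)) (hH : ¬ H.Normal) :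
    IsCoatom (Subgroup.normalizer (H : Set (K × S))) := by
  have hK' : ∀ H : Subgroup K, ¬ H.Normal → IsCoatom (normalizer (H : Set K)) := fun H hH => by
    rcases hK with ⟨⟨e⟩⟩ | ⟨⟨e⟩⟩
    · exact lift e.toMonoidHom e.surjective psl H hH fun x a _ b hb h => e.injective h ▸ hb
    · exact lift e.toMonoidHom e.surjective sl H hH fun x a _ b hb h => e.injective h ▸ hb
  obtain ⟨n, h1, h2⟩ := Nat.chineseRemainder hKS 1 0
  have hs : ∀ c ∈ H, ((c.1, 1) : K × S) ∈ H := fun c hc => by
    have := H.pow_mem hc n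
    rwa [show c ^ n = (c.1, 1) from Prod.ext
      (by rw [Prod.pow_fst, pow_eq_pow_iff_modEq.2 (h1.of_dvd (_root_.orderOf_dvd_natCard c.1)), pow_one])
      (by rw [Prod.pow_snd, pow_eq_pow_iff_modEq.2 (h2.of_dvd (_root_.orderOf_dvd_natCard c.2)), pow_zero])]
      at this
  refine lift (MonoidHom.fst K S) Prod.fst_surjective hK' H hH fun x a ha b hb h => ?_
  have := H.mul_mem (hs b hb) (H.mul_mem (H.inv_mem (hs a ha)) ha)
  have e : x * a * x⁻¹ = (b.1, 1) * ((a.1, 1)⁻¹ * a) := by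
    refine Prod.ext ?_ ?_
    · have h' : x.1 * a.1 * x.1⁻¹ = b.1 := h
      change x.1 * a.1 * x.1⁻¹ = b.1 * (a.1⁻¹ * a.1)
      rw [h', inv_mul_cancel, mul_one]
    · change x.2 * a.2 * x.2⁻¹ = 1 * (1⁻¹ * a.2)
      rw [mul_comm x.2, mul_inv_cancel_right, inv_one, one_mul, one_mul]
  rw [e]; exact this

end Cfsg.Agent.S4234
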