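import Cfsg.Statements.S4237
import Mathlib
import Cfsg.Agent.Lib.PCount.Kul

set_option autoImplicit false
open Cfsg

namespace Cfsg.Agent.S4237

open CfsgLib in

/-- Let G be a finite group, p a prime and a a natural number such that p^(a+1) divides the order of G. Then the number of subgroups of G of order p^a is congruent to 1 or to 1 + p modulo p². -/
theorem result {G : Type*} [Group G] [Finite G] (p a : ℕ) (hp : p.Prime) (hdvd : p ^ (a + 1) ∣ Nat.card G) :
    Nat.card {H : Subgroup G // Nat.card H = p ^ a} ≡ 1 [MOD p ^ 2] ∨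
      Nat.card {H : Subgroup G // Nat.card H = p ^ a} ≡ 1 + p [MOD p ^ 2] := by
  have : Fact p.Prime := ⟨hp⟩
  change {H : Subgroup G | Nat.card H = p ^ a}.ncard ≡ _ [MOD _] ∨
    {H : Subgroup G | Nat.card H = p ^ a}.ncard ≡ _ [MOD _]
  by_cases h2 : p = 2
  · subst h2
    have := Count.ncard_subgroups_modEq (G := G) hp ((pow_dvd_pow 2 a.le_succ).trans hdvd)
    unfold Nat.ModEq at this ⊢
    omega
  obtain ⟨P⟩ : Nonempty (Sylow p G) := inferInstance
  have h1 := PCount.hall P hdvd
  have hP := P.pow_dvd_card_of_pow_dvd_card hdvd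
  have one : (∀ H K : Subgroup P, Nat.card H = p ^ a → Nat.card K = p ^ a → H = K) →
      {H : Subgroup G | Nat.card H = p ^ a}.ncard ≡ 1 [MOD p ^ 2] := fun h => by
    obtain ⟨H, hH⟩ := Sylow.exists_subgroup_card_pow_prime p ((pow_dvd_pow p a.le_succ).trans hP)
    rwa [(Set.ncard_eq_one (s := {H : Subgroup P | Nat.card H = p ^ a})).2 ⟨H, Set.eq_singleton_iff_unique_mem.2 ⟨hH, fun K hK => h K H hK hH⟩⟩] at h1
  by_cases hc : IsCyclic P
  · refine Or.inl (one fun H K hH hK => ?_)
    letI := hc.commGroup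
    have key : ∀ L : Subgroup P, Nat.card L = p ^ a → L = (powMonoidHom (p ^ a)).ker := fun L hL =>
      Subgroup.eq_of_le_of_card_ge (fun x hx => by
        rw [MonoidHom.mem_ker, powMonoidHom_apply, ← hL]
        exact orderOf_dvd_iff_pow_eq_one.1 (L.orderOf_dvd_natCard hx)) (by
        rw [IsCyclic.card_powMonoidHom_ker, hL]
        exact Nat.gcd_le_right _ (pow_pos hp.pos a))
    rw [key H hH, key K hK]
  rcases a with _ | a
  · exact Or.inl (one fun H K hH hK => (Subgroup.card_eq_one.1 hH).trans (Subgroup.card_eq_one.1 hK).symm)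
  · exact Or.inr (h1.trans (PCount.kulakoff a P.isPGroup' ⟨hc, fun e => absurd e h2⟩ hP))

end Cfsg.Agent.S4237
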