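import Cfsg.Statements.S4238
import Cfsg.Agent.Lib.Transfer.Frobenius
import Cfsg.Agent.Lib.Coprime.Action
import Cfsg.Agent.Lib.PLocal.PSolvable
import Cfsg.Agent.Lib.Core.Frattini

set_option autoImplicit false
open Cfsg

namespace Cfsg.Agent.S4238

universe u

/-- The condition on sections. -/
def Cond (p : ℕ) (G : Type u) [Group G] : Prop :=
  ∀ (K : Type u) [Group K] (H : Subgroup G) (f : H →* K), Function.Surjective f →
    pPrimeCore p K = ⊥ → ∃ k : K, orderOf k = Monoid.exponent K

theorem Cond.subgroup {p : ℕ} {G : Type u} [Group G] (h : Cond p G) (L : Subgroup G) :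
    Cond p L := fun K _ H f hf hK =>
  h K (H.map L.subtype) (f.comp (H.equivMapOfInjective _ L.subtype_injective).symm.toMonoidHom)
    (hf.comp (H.equivMapOfInjective _ L.subtype_injective).symm.surjective) hK

theorem Cond.quotient {p : ℕ} {G : Type u} [Group G] (h : Cond p G) (N : Subgroup G) [N.Normal] :
    Cond p (G ⧸ N) := fun K _ H f hf hK =>
  h K (H.comap (QuotientGroup.mk' N)) (f.comp ((QuotientGroup.mk' N).subgroupComap H))
    (hf.comp ((QuotientGroup.mk' N).subgroupComap_surjective_of_surjective H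
      (QuotientGroup.mk'_surjective N))) hK

open Subgroup CfsgLib CfsgLib.Transfer in
theorem aux {p : ℕ} [hp : Fact p.Prime] (n : ℕ) : ∀ (G : Type u) [Group G] [Finite G],
    Nat.card G = n → Cond p G → HasNormalPComplement p G := by
  induction n using Nat.strong_induction_on with
  | _ n ih =>
  intro G _ _ hn h
  by_contra hG
  have hsub : ∀ H : Subgroup G, H ≠ ⊤ → HasNormalPComplement p H := fun H hH =>
    ih _ (hn ▸ Core.card_lt_of_ne_top hH) H rfl (h.subgroup H)
  have hquo : ∀ (N : Subgroup G) [N.Normal], N ≠ ⊥ → HasNormalPComplement p (G ⧸ N) :=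
    fun N _ hN => ih _ (hn ▸ Core.card_quotient_lt_of_ne_bot hN) _ rfl (h.quotient N)
  have hO : pPrimeCore p G = ⊥ := by
    by_contra hO
    exact hG (hasNormalPComplement_of_quotient_coprime _ (Core.coprime_card_pPrimeCore p G)
      (hquo _ hO))
  obtain ⟨k, hk⟩ := h G ⊤ (⊤ : Subgroup G).subtype (fun x => ⟨⟨x, trivial⟩, rfl⟩) hO
  obtain ⟨P⟩ : Nonempty (Sylow p G) := inferInstance
  obtain ⟨hPn, q, hq, hqp, g, ⟨m, hm⟩, hgc, htop⟩ := minimal_not_hasNormalPComplement hG hsub P
  have hgp : Nat.Coprime (orderOf g) p :=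
    Nat.Coprime.coprime_dvd_left (orderOf_dvd_of_pow_eq_one hm)
      (Nat.Coprime.pow_left m ((Nat.coprime_primes hq hp.out).mpr hqp))
  obtain ⟨a, ha⟩ := P.isPGroup'.exists_card_eq
  have hΦ : (frattini P).map (P : Subgroup G).subtype = ⊥ := by
    by_contra hΦ
    have h1 := hquo _ hΦ
    set D := (frattini P).map (P : Subgroup G).subtype
    have hs := QuotientGroup.mk'_surjective D
    have := hPn.map _ hs
    have h2 := pResidual_le_centralizer_of_normal h1 ((P : Subgroup G).map (QuotientGroup.mk' D))
      (P.isPGroup'.map _) (mem_pResidual_of_coprime (g := QuotientGroup.mk' D g)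
        (Nat.Coprime.coprime_dvd_left (orderOf_map_dvd _ g) hgp))
    refine hgc (Coprime.le_centralizer_of_commutator_le_frattini (A := zpowers g) ?_ ?_
      (mem_zpowers g))
    · obtain ⟨b, hb⟩ := (P.isPGroup'.to_subgroup (frattini P)).exists_card_eq
      rw [Nat.card_zpowers, hb]
      exact hgp.pow_right _
    · rw [commutator_le]
      intro x hx y hy
      have hy' := (zpowers_le.2 (show g ∈ (centralizer _).comap (QuotientGroup.mk' D) from h2)) hy
      have := hy' _ (mem_map_of_mem (QuotientGroup.mk' D) hx)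
      rw [← QuotientGroup.eq_one_iff, ← QuotientGroup.mk'_apply, map_commutatorElement,
        commutatorElement_eq_one_iff_mul_comm]
      exact this
  have hcomm : ⁅(P : Subgroup G), (P : Subgroup G)⁆ = ⊥ :=
    eq_bot_iff.2 (hΦ ▸ Core.commutator_le_map_frattini P.isPGroup')
  have hpG : p ∣ Nat.card G := by
    by_contra h'
    exact hG (hasNormalPComplement_of_not_dvd h')
  have hpk : p ∣ orderOf k := by
    obtain ⟨x, hx⟩ := exists_prime_orderOf_dvd_card' p hpG
    rw [hk, ← hx]
    exact Monoid.order_dvd_exponent x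
  have hu : orderOf (k ^ (orderOf k / p)) = p := orderOf_pow_orderOf_div (orderOf_pos k).ne' hpk
  set u := k ^ (orderOf k / p) with hudef
  have huP : u ∈ (P : Subgroup G) := by
    have h1 : IsPGroup p (zpowers u) := IsPGroup.of_card (n := 1) (by rw [Nat.card_zpowers, hu, pow_one])
    obtain ⟨R, hR⟩ := h1.exists_le_sylow
    have := Sylow.unique_of_normal P hPn
    rw [Subsingleton.elim P R]
    exact hR (mem_zpowers u)
  have hC : centralizer {u} = ⊤ := by
    have h1 : (P : Subgroup G) ≤ centralizer {u} := fun x hx =>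
      mem_centralizer_singleton_iff.2 ((commutator_eq_bot_iff_le_centralizer.1 hcomm hx) u huP).symm
    have h2 : k ∈ centralizer {u} := mem_centralizer_singleton_iff.2 (Commute.self_pow k _)
    have h3 : orderOf g ∣ Nat.card (centralizer {u}) :=
      (hk ▸ Monoid.order_dvd_exponent g).trans (Subgroup.orderOf_dvd_natCard _ h2)
    have h4 : Nat.card G ∣ Nat.card (zpowers g) * Nat.card P := by
      rw [← card_top, ← htop, sup_comm]
      exact Core.card_sup_dvd_of_normal _ _
    rw [Nat.card_zpowers] at h4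
    have h5 := h4.trans (Nat.Coprime.mul_dvd_of_dvd_of_dvd (by rw [ha]; exact hgp.pow_right _) h3
      (card_dvd_of_le h1))
    exact eq_top_of_le_card _ (Nat.le_of_dvd Nat.card_pos h5)
  have hZ : zpowers u ≤ center G := zpowers_le.2 (by
    simpa using centralizer_eq_top_iff_subset.1 hC)
  have : (zpowers u).Normal := ⟨fun x hx y => by
    rwa [mem_center_iff.1 (hZ hx) y, mul_inv_cancel_right]⟩
  refine hG (hasNormalPComplement_of_quotient_central _ hZ (hquo _ ?_))
  rw [Ne, zpowers_eq_bot, ← orderOf_eq_one_iff, hu]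
  exact hp.out.ne_one

/-- Let G be a finite group and p a prime. Then G has a normal p-complement if and only if every section K = H/N of G (N a normal subgroup of a subgroup H) whose largest normal subgroup of order prime to p is trivial contains an element whose order equals the exponent of K. -/
theorem result {G : Type*} [Group G] [Finite G] (p : ℕ) [Fact p.Prime] :
    Cfsg.HasNormalPComplement p G ↔
      ∀ (H : Subgroup G) (N : Subgroup H) [N.Normal], Cfsg.pPrimeCore p (H ⧸ N) = ⊥ →
        ∃ k : H ⧸ N, orderOf k = Monoid.exponent (H ⧸ N) := by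
  open CfsgLib CfsgLib.Transfer in
  constructor
  · intro h H N _ hO
    have h1 := hasNormalPComplement_quotient (hasNormalPComplement_subgroup h H) N
    have h2 : IsPGroup p (H ⧸ N) := pResidual_eq_bot_iff.1 (by rw [pResidual_eq_pPrimeCore h1, hO])
    obtain ⟨m, hm⟩ := h2.exists_card_eq
    obtain ⟨j, -, hj⟩ := (Nat.dvd_prime_pow Fact.out).1 (hm ▸ Group.exponent_dvd_nat_card)
    obtain ⟨g, hg⟩ := Nat.Prime.exists_orderOf_eq_pow_factorization_exponent (H ⧸ N)
      (Fact.out : p.Prime)
    refine ⟨g, ?_⟩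
    rw [hg, hj, Nat.Prime.factorization_pow Fact.out]
    simp
  · intro h
    refine aux _ G rfl fun K _ H f hf hK => ?_
    have e := QuotientGroup.quotientKerEquivOfSurjective f hf
    obtain ⟨k, hk⟩ := h H f.ker ((PLocal.PSolv.pPrimeCore_eq_bot_equiv e).2 hK)
    exact ⟨e k, by rw [MulEquiv.orderOf_eq, hk, Monoid.exponent_eq_of_mulEquiv e]⟩

end Cfsg.Agent.S4238
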