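import Cfsg.Statements.S4242
import Cfsg.Agent.Lib.Transfer.Frobenius
import Cfsg.Agent.Lib.Coprime.Sylow
import Cfsg.Agent.Lib.Core.Frattini
import Cfsg.Agent.Lib.Core.Fitting

set_option autoImplicit false
open Cfsg

namespace Cfsg.Agent.S4242

/-- Let G be a finite group and p a prime dividing its order. Every maximal subgroup of G of order divisible by p is nilpotent if and only if G is nilpotent, or G is a minimal non-nilpotent group, or G is the internal direct product of a normal subgroup of order p and a normal minimal non-nilpotent subgroup of order prime to p. -/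
theorem result {G : Type*} [Group G] [Finite G] (p : ℕ) (hp : p.Prime) (hpG : p ∣ Nat.card G) :
    (∀ M : Subgroup G, IsCoatom M → p ∣ Nat.card M → Group.IsNilpotent M) ↔
      (Group.IsNilpotent G ∨ Cfsg.IsMinimalNonNilpotent G ∨
        ∃ Z K : Subgroup G, Z.Normal ∧ K.Normal ∧ Z ⊓ K = ⊥ ∧ Z ⊔ K = ⊤ ∧ Nat.card Z = p ∧
          Cfsg.IsMinimalNonNilpotent K ∧ ¬ p ∣ Nat.card K) := by
  open Subgroup CfsgLib CfsgLib.Transfer in
  have := Fact.mk hp
  constructor
  · intro h
    have hsub : ∀ H : Subgroup G, H ≠ ⊤ → p ∣ Nat.card H → Group.IsNilpotent H := by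
      intro H hH hd
      obtain ⟨M, hM, hHM⟩ := Core.exists_isCoatom_ge hH
      have := h M hM (hd.trans (card_dvd_of_le hHM))
      exact Core.isNilpotent_of_le hHM
    by_cases h1 : Group.IsNilpotent G
    · exact Or.inl h1
    by_cases h2 : IsMinimalNonNilpotent G
    · exact Or.inr (Or.inl h2)
    refine Or.inr (Or.inr ?_)
    obtain ⟨M, hM, hMn⟩ : ∃ M : Subgroup G, IsCoatom M ∧ ¬ Group.IsNilpotent M := by
      by_contra hc
      push Not at hc
      refine h2 ⟨h1, fun H hH => ?_⟩
      obtain ⟨M, hM, hHM⟩ := Core.exists_isCoatom_ge hH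
      have := hc M hM
      exact Core.isNilpotent_of_le hHM
    have hpM : ¬ p ∣ Nat.card M := fun hd => hMn (h M hM hd)
    have hcM : (Nat.card M).Coprime p := ((Nat.Prime.coprime_iff_not_dvd hp).2 hpM).symm
    obtain ⟨P⟩ : Nonempty (Sylow p G) := inferInstance
    obtain ⟨a, ha⟩ := P.isPGroup'.exists_card_eq
    have hMP : Disjoint M (P : Subgroup G) :=
      disjoint_of_coprime_natCard (by rw [ha]; exact hcM.pow_right _)
    have hG : HasNormalPComplement p G := by
      by_contra hG
      obtain ⟨hPn, q, -, -, g, -, -, htop⟩ := minimal_not_hasNormalPComplement hG (fun H hH => by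
        by_cases hd : p ∣ Nat.card H
        · have := hsub H hH hd
          exact hasNormalPComplement_of_isNilpotent
        · exact hasNormalPComplement_of_not_dvd hd) P
      have hc : IsCyclic (G ⧸ (P : Subgroup G)) := by
        refine isCyclic_of_surjective ((QuotientGroup.mk' _).comp (zpowers g).subtype) ?_
        rw [← MonoidHom.range_eq_top, MonoidHom.range_comp, range_subtype,
          ← map_top_of_surjective _ (QuotientGroup.mk'_surjective (P : Subgroup G)), ← htop,
          Subgroup.map_sup, QuotientGroup.map_mk'_self, bot_sup_eq]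
      have hi : Function.Injective ((QuotientGroup.mk' (P : Subgroup G)).comp M.subtype) := by
        rw [← MonoidHom.ker_eq_bot_iff, ← MonoidHom.comap_ker, QuotientGroup.ker_mk', ← subgroupOf,
          subgroupOf_eq_bot]
        exact hMP.symm
      have : IsCyclic M := isCyclic_of_injective _ hi
      exact hMn Core.isNilpotent_of_isMulCommutative
    have hK := hasNormalPComplement_iff_coprime.1 hG
    have hMK : M = pResidual p G := by
      refine ((hM.le_iff.1 (le_pResidual_of_coprime hcM)).resolve_left fun htop => ?_).symm
      rw [htop, card_top] at hK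
      exact (Nat.Prime.coprime_iff_not_dvd hp).1 hK.symm hpG
    have hc := isComplement'_pResidual hG P
    rw [← hMK] at hc
    have hMnorm : M.Normal := hMK ▸ inferInstance
    have hPp : Nat.card (P : Subgroup G) = p := by
      have h3 := Core.index_prime_of_isCoatom_of_normal hM
      rw [hc.symm.index_eq_card, ha] at h3
      rw [ha, (Nat.Prime.eq_one_of_pow h3), pow_one]
    have hsup : ∀ L : Subgroup G, L ≤ M → L ≠ M → (P : Subgroup G) ≤ normalizer L →
        Group.IsNilpotent (L ⊔ P : Subgroup G) := by
      intro L hL hLM hN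
      refine hsub _ (fun htop => hLM ?_) (hPp.symm.dvd.trans (card_dvd_of_le le_sup_right))
      have h3 := Core.card_sup_dvd_of_le_normalizer hN
      rw [sup_comm, htop, card_top, ← hc.card_mul_card, mul_comm] at h3
      exact eq_of_le_of_card_ge hL (Nat.le_of_dvd Nat.card_pos
        (Nat.dvd_of_mul_dvd_mul_left Nat.card_pos h3))
    have hcop : (Nat.card (P : Subgroup G)).Coprime (Nat.card M) := by
      rw [hPp]; exact hcM.symm
    have hcent : M ≤ centralizer (P : Subgroup G) := by
      have := P.isPGroup'.isNilpotent
      refine inf_eq_left.1 (Coprime.eq_of_forall_invariant_pgroup_le (A := P) le_normalizer_of_normal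
        hcop (Or.inl inferInstance) inf_le_left fun q Q hq hQM hQ _ hN => le_inf hQM ?_)
      have := Fact.mk hq
      have := hsup Q hQM (fun h => hMn (h ▸ hQ.isNilpotent)) hN
      exact Core.le_centralizer_of_coprime_of_le_isNilpotent (N := Q ⊔ P) le_sup_left le_sup_right
        (Nat.Coprime.coprime_dvd_left (card_dvd_of_le hQM) hcop.symm)
    have hPn : (P : Subgroup G).Normal := by
      rw [← normalizer_eq_top_iff, eq_top_iff, ← hc.sup_eq_top]
      exact sup_le (hcent.trans (centralizer_le_normalizer _)) le_normalizer
    refine ⟨P, M, hPn, hMnorm, disjoint_iff.1 hMP.symm, by rw [sup_comm, hc.sup_eq_top], hPp,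
      ⟨hMn, fun L hL => ?_⟩, hpM⟩
    have := hsup (L.map M.subtype) (map_subtype_le L) (fun h => hL (by
      apply map_injective M.subtype_injective
      rw [h, ← MonoidHom.range_eq_map, range_subtype]))
      ((le_centralizer_iff.1 ((map_subtype_le L).trans hcent)).trans (centralizer_le_normalizer _))
    have : Group.IsNilpotent (L.map M.subtype) := Core.isNilpotent_of_le (K := L.map M.subtype ⊔ P)
      le_sup_left
    exact Group.nilpotent_of_mulEquiv (L.equivMapOfInjective _ M.subtype_injective).symm
  · rintro (h | h | ⟨Z, K, hZ, hK, hZK, htop, hZp, hmin, hpK⟩) M hM hd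
    · infer_instance
    · exact h.2 M hM.1
    · have hidx : Z.index = Nat.card K := by
        have h1 := Core.card_sup_mul_card_inf_of_normal Z K
        rw [htop, hZK, card_top, card_bot, mul_one, ← Z.card_mul_index] at h1
        exact Nat.eq_of_mul_eq_mul_left Nat.card_pos h1
      have hZM : Z ≤ M := by
        by_contra hZM
        have h1 : Z ⊓ M = ⊥ := Core.inf_eq_bot_of_prime_card_of_not_le (hZp ▸ hp) hZM
        apply hpK
        rw [← hidx]
        refine hd.trans ?_
        have := relIndex_dvd_index_of_normal Z M
        rwa [← inf_relIndex_right, h1, relIndex_bot_left] at this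
      have hM' : M = Z ⊔ (K ⊓ M) := by
        rw [← Core.sup_inf_assoc_of_normal_left hZM, htop, top_inf_eq]
      have hne : (K ⊓ M).subgroupOf K ≠ ⊤ := by
        rw [Ne, subgroupOf_eq_top]
        intro hle
        exact hM.1 (eq_top_iff.2 (htop ▸ sup_le hZM (hle.trans inf_le_right)))
      have := hmin.2 _ hne
      have h2 : Group.IsNilpotent (K ⊓ M : Subgroup G) :=
        Group.nilpotent_of_mulEquiv (subgroupOfEquivOfLe inf_le_left)
      have hZc : Z ≤ centralizer (K : Set G) := fun z hz k hk =>
        (commute_of_normal_of_disjoint Z K hZ hK (disjoint_iff.2 hZK) z k hz hk).symm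
      have : Group.IsNilpotent Z := (IsPGroup.of_card (n := 1) (by rw [hZp, pow_one])).isNilpotent
      rw [hM']
      exact Core.isNilpotent_sup_of_le_normalizer ((hZc.trans (centralizer_le
        (SetLike.coe_subset_coe.2 inf_le_left))).trans (centralizer_le_normalizer _))
        le_normalizer_of_normal

end Cfsg.Agent.S4242
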