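import Cfsg.Statements.S4244

set_option autoImplicit false
open Cfsg

namespace Cfsg.Agent.S4244

theorem aux {G : Type*} [Group G] [Finite G] (N K : Subgroup G) [N.Normal] :
    K.relIndex N ∣ K.index := by
  have h1 : (N ⊓ K).relIndex N * N.relIndex (N ⊔ K) = (N ⊓ K).relIndex (N ⊔ K) :=
    Subgroup.relIndex_mul_relIndex _ _ _ inf_le_left le_sup_left
  have h2 : (N ⊓ K).relIndex K * K.relIndex (N ⊔ K) = (N ⊓ K).relIndex (N ⊔ K) :=
    Subgroup.relIndex_mul_relIndex _ _ _ inf_le_right le_sup_right
  rw [Subgroup.relIndex_sup_left, Subgroup.inf_relIndex_left] at h1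
  rw [Subgroup.inf_relIndex_right] at h2
  have h3 : N.relIndex K ≠ 0 := Subgroup.index_ne_zero_of_finite
  have h4 : K.relIndex N = K.relIndex (N ⊔ K) := by
    apply Nat.eq_of_mul_eq_mul_right (Nat.pos_of_ne_zero h3)
    rw [h1, ← h2, mul_comm]
  rw [h4]
  exact Subgroup.relIndex_dvd_index_of_le le_sup_right

/-- Let H be a subnormal subgroup of a finite group G. Then for every subgroup K of G the index of H ∩ K in H divides the index of K in G. -/
theorem result {G : Type*} [Group G] [Finite G] (H : Subgroup G) (hH : H.IsSubnormal) (K : Subgroup G) :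
    (H ⊓ K).relIndex H ∣ K.index := by
  rw [Subgroup.inf_relIndex_left]
  induction hH with
  | top => simp
  | step H L hle _ hN ih =>
    refine dvd_trans ?_ ih
    have := aux (H.subgroupOf L) (K.subgroupOf L)
    rwa [Subgroup.relIndex_subgroupOf hle] at this

end Cfsg.Agent.S4244
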