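import Cfsg.Statements.S4250
import Cfsg.Agent.Lib.Fgs.FocalLocal

set_option autoImplicit false
open Cfsg

namespace Cfsg.Agent.S4250

open Subgroup

/-- Let P be a Sylow p-subgroup of a finite group G. Call an intersection H = P ∩ Q with a Sylow p-subgroup Q tame when N_P(H) and N_Q(H) are Sylow p-subgroups of N_G(H). Then P ∩ G′ is generated by [P, N_G(P)] together with the commutator subgroups [P ∩ Q, ⟨x⟩] for all tame intersections P ∩ Q and all p-elements x of N_G(P ∩ Q). -/
theorem result {G : Type*} [Group G] [Finite G] (p : ℕ) [Fact p.Prime] (P : Sylow p G) :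
    (P : Subgroup G) ⊓ commutator G =
      ⁅(P : Subgroup G), Subgroup.normalizer ((P : Subgroup G) : Set G)⁆ ⊔
        ⨆ (Q : Sylow p G) (_ : (¬ p ∣ ((P : Subgroup G) ⊓ Subgroup.normalizer (((P : Subgroup G) ⊓ (Q : Subgroup G) : Subgroup G) : Set G)).relIndex (Subgroup.normalizer (((P : Subgroup G) ⊓ (Q : Subgroup G) : Subgroup G) : Set G)) ∧ ¬ p ∣ ((Q : Subgroup G) ⊓ Subgroup.normalizer (((P : Subgroup G) ⊓ (Q : Subgroup G) : Subgroup G) : Set G)).relIndex (Subgroup.normalizer (((P : Subgroup G) ⊓ (Q : Subgroup G) : Subgroup G) : Set G))))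
          (x : G) (_ : x ∈ Subgroup.normalizer (((P : Subgroup G) ⊓ (Q : Subgroup G) : Subgroup G) : Set G) ∧ ∃ k : ℕ, orderOf x = p ^ k),
          ⁅(P : Subgroup G) ⊓ (Q : Subgroup G), Subgroup.zpowers x⁆ := by
  apply le_antisymm
  · apply CfsgLib.Fgs.sylow_inf_commutator_le_of_tame
    intro Q x h1 h2 hx h a ha
    have hp : ∀ R : Sylow p G, x ∈ (R : Subgroup G) → ∃ k : ℕ, orderOf x = p ^ k := by
      intro R hR
      obtain ⟨k, hk⟩ := IsPGroup.iff_orderOf.1 R.isPGroup' ⟨x, hR⟩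
      exact ⟨k, by rw [← hk, ← Subgroup.orderOf_coe]⟩
    have key : (∃ k : ℕ, orderOf x = p ^ k) → _ := fun hk =>
      mem_sup_right (S := ⁅(P : Subgroup G), normalizer ((P : Subgroup G) : Set G)⁆)
        (mem_iSup_of_mem (S := fun Q : Sylow p G => ⨆ (_ : (¬ p ∣ ((P : Subgroup G) ⊓ Subgroup.normalizer (((P : Subgroup G) ⊓ (Q : Subgroup G) : Subgroup G) : Set G)).relIndex (Subgroup.normalizer (((P : Subgroup G) ⊓ (Q : Subgroup G) : Subgroup G) : Set G)) ∧ ¬ p ∣ ((Q : Subgroup G) ⊓ Subgroup.normalizer (((P : Subgroup G) ⊓ (Q : Subgroup G) : Subgroup G) : Set G)).relIndex (Subgroup.normalizer (((P : Subgroup G) ⊓ (Q : Subgroup G) : Subgroup G) : Set G))))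
          (x : G) (_ : x ∈ Subgroup.normalizer (((P : Subgroup G) ⊓ (Q : Subgroup G) : Subgroup G) : Set G) ∧ ∃ k : ℕ, orderOf x = p ^ k),
          ⁅(P : Subgroup G) ⊓ (Q : Subgroup G), Subgroup.zpowers x⁆) Q
          (mem_iSup_of_mem ⟨h1.not_dvd, h2.not_dvd⟩ (mem_iSup_of_mem x (mem_iSup_of_mem ⟨hx, hk⟩
            (commutator_mem_commutator ha (mem_zpowers x))))))
    rcases h with rfl | h | h
    · apply mem_sup_left
      rw [inf_idem] at hx ha
      exact commutator_mem_commutator ha hx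
    · exact key (hp P h)
    · exact key (hp Q h)
  · refine sup_le (le_inf ?_ (commutator_mono le_top le_top)) ?_
    · exact (le_normalizer_iff_commutator_le_left).1 le_rfl
    · refine iSup_le fun Q => iSup_le fun _ => iSup_le fun x => iSup_le fun hx => ?_
      refine le_inf (le_trans ?_ (inf_le_left : (P : Subgroup G) ⊓ Q ≤ P))
        (commutator_mono le_top le_top)
      exact (le_normalizer_iff_commutator_le_left).1 (zpowers_le.2 hx.1)

end Cfsg.Agent.S4250
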