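import Cfsg.Statements.S4251
import Cfsg.Agent.Lib.Transfer.Alperin
import Cfsg.Agent.Lib.Transfer.Focal

set_option autoImplicit false
open Cfsg

namespace Cfsg.Agent.S4251

open Subgroup CfsgLib.Tech CfsgLib.Transfer

/-- Let P be a Sylow p-subgroup of a finite group G. Call an intersection H = P ∩ Q with a Sylow p-subgroup Q tame when N_P(H) and N_Q(H) are Sylow p-subgroups of N_G(H). If N_G(H)/C_G(H) is a p-group for every nontrivial tame intersection H = P ∩ Q, then G has a normal p-complement. -/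
theorem result {G : Type*} [Group G] [Finite G] (p : ℕ) [Fact p.Prime] (P : Sylow p G)
    (h : ∀ Q : Sylow p G, (P : Subgroup G) ⊓ (Q : Subgroup G) ≠ ⊥ → (¬ p ∣ ((P : Subgroup G) ⊓ Subgroup.normalizer (((P : Subgroup G) ⊓ (Q : Subgroup G) : Subgroup G) : Set G)).relIndex (Subgroup.normalizer (((P : Subgroup G) ⊓ (Q : Subgroup G) : Subgroup G) : Set G)) ∧ ¬ p ∣ ((Q : Subgroup G) ⊓ Subgroup.normalizer (((P : Subgroup G) ⊓ (Q : Subgroup G) : Subgroup G) : Set G)).relIndex (Subgroup.normalizer (((P : Subgroup G) ⊓ (Q : Subgroup G) : Subgroup G) : Set G))) →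
      IsPGroup p (Subgroup.normalizer (((P : Subgroup G) ⊓ (Q : Subgroup G) : Subgroup G) : Set G) ⧸
        (Subgroup.centralizer (((P : Subgroup G) ⊓ (Q : Subgroup G) : Subgroup G) : Set G)).subgroupOf
          (Subgroup.normalizer (((P : Subgroup G) ⊓ (Q : Subgroup G) : Subgroup G) : Set G)))) :
    Cfsg.HasNormalPComplement p G := by
  rw [hasNormalPComplement_iff_control P]
  intro a ha g hg
  refine alperin_induction P
    (fun A g => ∀ a ∈ A, ∃ u ∈ (P : Subgroup G), g * a * g⁻¹ = u * a * u⁻¹) ?_ ?_ ?_ (zpowers a) g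
    (zpowers_le.2 ha) (by rw [cj_zpowers, zpowers_le]; exact hg) a (mem_zpowers a)
  · intro A B g hAB h a ha
    exact h a (hAB ha)
  · intro A g k h1 h2 a ha
    obtain ⟨u, hu, e1⟩ := h1 a ha
    obtain ⟨v, hv, e2⟩ := h2 _ (conj_mem_cj.2 ha)
    refine ⟨v * u, mul_mem hv hu, ?_⟩
    calc k * g * a * (k * g)⁻¹ = k * (g * a * g⁻¹) * k⁻¹ := by group
      _ = v * (u * a * u⁻¹) * v⁻¹ := by rw [e2, e1]
      _ = _ := by group
  · intro Q x h1 h2 hx _ a ha
    by_cases hD : (P : Subgroup G) ⊓ Q = ⊥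
    · rw [hD, mem_bot] at ha
      exact ⟨1, one_mem _, by simp [ha]⟩
    have h3 := sup_eq_top_of_isPGroup_quotient (h Q hD ⟨h1.not_dvd, h2.not_dvd⟩) h1.not_dvd
    have h4 := h3 ▸ mem_top (⟨x, hx⟩ : normalizer (((P : Subgroup G) ⊓ Q : Subgroup G) : Set G))
    rw [sup_comm] at h4
    obtain ⟨u, hu, c, hc, e⟩ := mem_sup_of_normal_right.1 h4
    refine ⟨u, hu.1, ?_⟩
    have e' : (u : G) * c = x := congrArg Subtype.val e
    have hc' : a * c = c * a := hc a ha
    rw [← e', mul_assoc (u : G), ← hc']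
    group

end Cfsg.Agent.S4251
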