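import Cfsg.Statements.S4253

set_option autoImplicit false
open Cfsg

namespace Cfsg.Agent.S4253

open scoped Pointwise

/-- Let H be a Frobenius complement in a finite group G (a nontrivial proper subgroup meeting each conjugate gHg⁻¹ with g outside H trivially). Then in the action of G on the left cosets of H by left multiplication, no non-identity element of G fixes two distinct cosets. -/
theorem result {G : Type*} [Group G] [Finite G] (H : Subgroup G) (hH : Cfsg.IsFrobeniusComplement H)
    (g : G) (hg : g ≠ 1) (a b : G ⧸ H) (ha : g • a = a) (hb : g • b = b) : a = b := by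
  obtain ⟨-, -, h3⟩ := hH
  induction a using QuotientGroup.induction_on with
  | H a =>
  induction b using QuotientGroup.induction_on with
  | H b =>
  rw [MulAction.Quotient.smul_mk, QuotientGroup.eq] at ha hb
  rw [QuotientGroup.eq]
  by_contra hab
  have h := h3 _ hab
  have h1 : a⁻¹ * g * a ∈ H := by
    have := H.inv_mem ha
    simpa [mul_assoc] using this
  have h2 : b⁻¹ * g * b ∈ H := by
    have := H.inv_mem hb
    simpa [mul_assoc] using this
  have h4 : a⁻¹ * g * a ∈ H ⊓ (MulAut.conj (a⁻¹ * b) • H) := by
    refine Subgroup.mem_inf.2 ⟨h1, ?_⟩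
    rw [Subgroup.mem_pointwise_smul_iff_inv_smul_mem]
    simpa [mul_assoc] using h2
  rw [h, Subgroup.mem_bot] at h4
  apply hg
  have : g = a * (a⁻¹ * g * a) * a⁻¹ := by group
  rw [this, h4]; simp

end Cfsg.Agent.S4253
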