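import Cfsg.Statements.S4261
import Cfsg.Agent.S0048

set_option autoImplicit false
open Cfsg

namespace Cfsg.Agent.S4261

/-- Let M be a maximal subgroup of a finite solvable group G such that x^[G : M] lies in M for every x in G. Then M is normal in G. -/
theorem result {G : Type*} [Group G] [Finite G] (hG : Group.IsSolvable G) (M : Subgroup G) (hM : IsCoatom M)
    (hexp : ∀ x : G, x ^ M.index ∈ M) : M.Normal := by
  obtain ⟨p, k, hp, -, hk⟩ := Cfsg.Agent.S0048.result M hM
  have := Fact.mk hp.nat_prime
  have hP : IsPGroup p (G ⧸ M.normalCore) := by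
    intro x
    obtain ⟨x, rfl⟩ := QuotientGroup.mk_surjective x
    refine ⟨k, ?_⟩
    rw [← QuotientGroup.mk_pow, QuotientGroup.eq_one_iff, hk]
    intro g
    rw [← conj_pow]
    exact hexp _
  have hnil := hP.isNilpotent
  have hs := QuotientGroup.mk'_surjective M.normalCore
  have hker : (QuotientGroup.mk' M.normalCore).ker ≤ M := by
    rw [QuotientGroup.ker_mk']
    exact M.normalCore_le
  have h1 : (M.map (QuotientGroup.mk' M.normalCore)).comap (QuotientGroup.mk' M.normalCore) = M :=
    Subgroup.comap_map_eq_self hker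
  have h2 : M.map (QuotientGroup.mk' M.normalCore) < ⊤ := by
    rw [lt_top_iff_ne_top]
    intro e
    rw [e, Subgroup.comap_top] at h1
    exact hM.1 h1.symm
  have h3 := Group.normalizerCondition_of_isNilpotent _ h2
  rw [← Subgroup.comap_lt_comap_of_surjective hs,
    Subgroup.comap_normalizer_eq_of_surjective _ hs, h1] at h3
  exact Subgroup.normalizer_eq_top_iff.1 (hM.2 _ h3)

end Cfsg.Agent.S4261
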