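import Cfsg.Statements.S4263
import Cfsg.Agent.S4244
import Cfsg.Agent.Lib.Core.Fitting
import Cfsg.Agent.Lib.Transfer.Frobenius

set_option autoImplicit false
open Cfsg

namespace Cfsg.Agent.S4263

/-- Let G be a finite group. An element x lies in the Fitting subgroup F(G) if and only if, for every subgroup H of G, the power x^[G : H] lies in H. -/
theorem result {G : Type*} [Group G] [Finite G] (x : G) :
    x ∈ Cfsg.fittingSubgroup G ↔ ∀ H : Subgroup G, x ^ H.index ∈ H := by
  constructor
  · intro hx H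
    have hsub : (Subgroup.zpowers x).IsSubnormal :=
      CfsgLib.Core.isSubnormal_of_le_fittingSubgroup (by simpa using hx)
    obtain ⟨c, hc⟩ := Cfsg.Agent.S4244.result _ hsub H
    rw [hc, pow_mul]
    apply H.pow_mem
    have hn : ((Subgroup.zpowers x ⊓ H).subgroupOf (Subgroup.zpowers x)).Normal := inferInstance
    have := Subgroup.pow_index_mem ((Subgroup.zpowers x ⊓ H).subgroupOf (Subgroup.zpowers x))
      ⟨x, Subgroup.mem_zpowers x⟩
    rw [Subgroup.mem_subgroupOf] at this
    exact this.2
  · intro hx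
    apply CfsgLib.Transfer.mem_of_forall_prime_pow_mem
    intro q hq _ y hy ⟨k, hk⟩
    haveI := Fact.mk hq
    apply CfsgLib.Core.pCore_le_fittingSubgroup hq
    rw [CfsgLib.Core.pCore_eq_iInf_sylow, Subgroup.mem_iInf]
    intro P
    obtain ⟨m, rfl⟩ := Subgroup.mem_zpowers_iff.mp hy
    have h1 : (x ^ m) ^ (P : Subgroup G).index ∈ (P : Subgroup G) := by
      rw [← zpow_natCast, ← zpow_mul, mul_comm, zpow_mul, zpow_natCast]
      exact Subgroup.zpow_mem _ (hx _) _
    have hcop : Nat.Coprime (P : Subgroup G).index (orderOf (x ^ m)) := by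
      apply Nat.Coprime.coprime_dvd_right (orderOf_dvd_of_pow_eq_one hk)
      exact Nat.Coprime.pow_right _ ((Nat.Prime.coprime_iff_not_dvd hq).mpr P.not_dvd_index).symm
    obtain ⟨r, hr⟩ := exists_pow_eq_self_of_coprime hcop
    rw [← hr]
    exact Subgroup.pow_mem _ h1 _

end Cfsg.Agent.S4263
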