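import Cfsg.Statements.S4269
import Cfsg.Agent.Lib.SolvStruct.Pronormal

set_option autoImplicit false
open Cfsg

namespace Cfsg.Agent.S4269

/-- Let G be a finite group, V an abelian normal subgroup and H a subgroup with HV = G. Then H is pronormal in G (H and gHg⁻¹ are conjugate inside the subgroup they generate, for every g) if and only if every H-invariant subgroup U of V satisfies U = N_U(H)·[H, U], that is, U is the join of U ∩ N_G(H) and the commutator subgroup [H, U]. -/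
theorem result {G : Type*} [Group G] [Finite G]
    (V : Subgroup G) [V.Normal] (hV : IsMulCommutative ↥V) (H : Subgroup G) (hHV : H ⊔ V = ⊤) :
    Cfsg.IsPronormal H ↔
      ∀ U : Subgroup G, U ≤ V → (∀ h ∈ H, U.map (MulAut.conj h).toMonoidHom = U) →
        U = (U ⊓ Subgroup.normalizer (H : Set G)) ⊔ ⁅H, U⁆ := by
  open Subgroup Pointwise CfsgLib.SolvStruct in
  have hc : ∀ a ∈ V, ∀ b ∈ V, a * b = b * a := fun a ha b hb =>
    congrArg Subtype.val (hV.is_comm.comm (⟨a, ha⟩ : V) ⟨b, hb⟩)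
  have hVn : V.Normal := inferInstance
  rw [isPronormal_iff]
  constructor
  · intro h U hUV hU
    have hU' : ∀ k ∈ H, ∀ u ∈ U, k * u * k⁻¹ ∈ U := by
      intro k hk u hu
      rw [← hU k hk]
      exact ⟨u, hu, rfl⟩
    have hCU : ⁅H, U⁆ ≤ U := by
      rw [commutator_le]
      intro k hk u hu
      rw [commutatorElement_def]
      exact mul_mem (hU' k hk u hu) (inv_mem hu)
    refine le_antisymm (fun u hu => ?_) (sup_le inf_le_left hCU)
    obtain ⟨x, hx, e⟩ := h u
    have h1 : MulAut.conj u • H ≤ ⁅H, U⁆ ⊔ H := by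
      rintro _ ⟨k, hk, rfl⟩
      have : u * k * u⁻¹ = (k * u * k⁻¹ * u⁻¹)⁻¹ * k := by group
      change u * k * u⁻¹ ∈ _
      rw [this]
      exact mul_mem (mem_sup_left (inv_mem (commutator_mem_commutator hk hu))) (mem_sup_right hk)
    have h2 : x ∈ ((⁅H, U⁆ ⊔ H : Subgroup G) : Set G) := (sup_le le_sup_right h1) hx
    rw [coe_mul_of_right_le_normalizer_left _ _ (normalizer_commutator_ge_left H U)] at h2
    obtain ⟨c, hc, k, hk, rfl⟩ := h2
    have h3 : c⁻¹ * u ∈ normalizer (H : Set G) := by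
      rw [mem_normalizer_iff_conj_smul_eq, ← conj_smul_smul, e, conj_smul_smul]
      simp only [inv_mul_cancel_left]
      exact conj_smul_eq_of_mem_normalizer (le_normalizer hk)
    have := mul_mem (mem_sup_right hc : c ∈ (U ⊓ normalizer (H : Set G)) ⊔ ⁅H, U⁆)
      (mem_sup_left ⟨U.mul_mem (U.inv_mem (hCU hc)) hu, h3⟩)
    rwa [mul_inv_cancel_left] at this
  · intro h g
    have hg : g ∈ V ⊔ H := by rw [sup_comm, hHV]; trivial
    obtain ⟨v, hv, k, hk, rfl⟩ := mem_sup_of_normal_left.1 hg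
    rw [← conj_smul_smul, conj_smul_eq_of_mem_normalizer (le_normalizer hk)]
    set L := H ⊔ MulAut.conj v • H with hL
    let U : Subgroup G :=
      { carrier := {u | u ∈ V ∧ ∀ k ∈ H, k * u * k⁻¹ * u⁻¹ ∈ L}
        one_mem' := ⟨one_mem _, fun k _ => by simp⟩
        mul_mem' := by
          rintro a b ⟨ha, ha'⟩ ⟨hb, hb'⟩
          refine ⟨mul_mem ha hb, fun k hk => ?_⟩
          have e1 := hc _ (mul_mem (hVn.conj_mem b hb k) (inv_mem hb)) _ (inv_mem ha)
          have : k * (a * b) * k⁻¹ * (a * b)⁻¹ = (k * a * k⁻¹ * a⁻¹) * (k * b * k⁻¹ * b⁻¹) := by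
            calc k * (a * b) * k⁻¹ * (a * b)⁻¹ = k * a * k⁻¹ * (k * b * k⁻¹ * b⁻¹ * a⁻¹) := by group
              _ = _ := by rw [e1]; group
          rw [this]
          exact mul_mem (ha' k hk) (hb' k hk)
        inv_mem' := by
          rintro a ⟨ha, ha'⟩
          refine ⟨inv_mem ha, fun k hk => ?_⟩
          have e1 := hc _ (inv_mem (hVn.conj_mem a ha k)) _ ha
          have : k * a⁻¹ * k⁻¹ * a⁻¹⁻¹ = (k * a * k⁻¹ * a⁻¹)⁻¹ := by
            calc k * a⁻¹ * k⁻¹ * a⁻¹⁻¹ = (k * a * k⁻¹)⁻¹ * a := by group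
              _ = _ := by rw [e1]; group
          rw [this]
          exact inv_mem (ha' k hk) }
    have hUV : U ≤ V := fun u hu => hu.1
    have hU' : ∀ k ∈ H, ∀ u ∈ U, k * u * k⁻¹ ∈ U := by
      rintro k hk u ⟨hu, hu'⟩
      refine ⟨hVn.conj_mem u hu k, fun l hl => ?_⟩
      have : l * (k * u * k⁻¹) * l⁻¹ * (k * u * k⁻¹)⁻¹ =
          k * ((k⁻¹ * l * k) * u * (k⁻¹ * l * k)⁻¹ * u⁻¹) * k⁻¹ := by group
      rw [this]
      exact mul_mem (mul_mem (mem_sup_left hk) (hu' _ (mul_mem (mul_mem (inv_mem hk) hl) hk)))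
        (mem_sup_left (inv_mem hk))
    have hvU : v ∈ U := by
      refine ⟨hv, fun l hl => ?_⟩
      have : l * v * l⁻¹ * v⁻¹ = l * (v * l⁻¹ * v⁻¹) := by group
      rw [this]
      exact mul_mem (mem_sup_left hl) (mem_sup_right ⟨l⁻¹, inv_mem hl, rfl⟩)
    have h1 := h U hUV (fun k hk => by
      refine le_antisymm ?_ fun u hu => ⟨k⁻¹ * u * k⁻¹⁻¹, hU' _ (inv_mem hk) u hu, by simp [mul_assoc]⟩
      rintro _ ⟨u, hu, rfl⟩
      exact hU' k hk u hu)
    have hCL : ⁅H, U⁆ ≤ L := by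
      rw [commutator_le]
      intro k hk u hu
      exact hu.2 k hk
    have hCV : ⁅H, U⁆ ≤ V := (commutator_mono le_top hUV).trans (commutator_le_right _ _)
    have h2 : v ∈ ((⁅H, U⁆ ⊔ (U ⊓ normalizer (H : Set G)) : Subgroup G) : Set G) := by
      rw [sup_comm, ← h1]; exact hvU
    rw [coe_mul_of_right_le_normalizer_left _ _ (by
      intro n hn
      apply centralizer_le_normalizer
      intro c hc'
      exact hc c (hCV hc') n (hUV hn.1))] at h2
    obtain ⟨c, hc, n, hn, e⟩ := h2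
    refine ⟨c, hCL hc, ?_⟩
    rw [← e]
    simp only
    rw [← conj_smul_smul, conj_smul_eq_of_mem_normalizer hn.2]

end Cfsg.Agent.S4269
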