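import Cfsg.Statements.S4274
import Cfsg.Agent.Lib.SylNum.Basic
import Cfsg.Agent.Lib.PSL2Rec.Fix2
import Cfsg.Agent.Lib.SmallSimple.NC
import Cfsg.Agent.Lib.Coprime.Sylow
import Cfsg.Agent.Lib.Coprime.Abelian
import Cfsg.Agent.Lib.SolvStruct.Util

set_option autoImplicit false
open Cfsg

namespace Cfsg.Agent.S4274

open Subgroup MulAction CfsgLib.PSL2Rec

/-- The divisors. -/
def L : List ℕ := [1, 2, 4, 8].flatMap fun a => [1, 3].flatMap fun b => [1, 5].flatMap fun c =>
  [1, 7].flatMap fun d => [1, 11].flatMap fun e => [1, 19].map fun f => a * (b * (c * (d * (e * f))))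

theorem mem_L {n : ℕ} (h : n ∣ 175560) : n ∈ L := by
  have e : 175560 = 2 ^ 3 * (3 * (5 * (7 * (11 * 19)))) := by norm_num
  rw [e] at h
  obtain ⟨a, n, ha, h1, rfl⟩ := (Nat.dvd_mul).1 h
  obtain ⟨b, n, hb, h2, rfl⟩ := (Nat.dvd_mul).1 h1
  obtain ⟨c, n, hc, h3, rfl⟩ := (Nat.dvd_mul).1 h2
  obtain ⟨d, n, hd, h4, rfl⟩ := (Nat.dvd_mul).1 h3
  obtain ⟨e, f, he, hf, rfl⟩ := (Nat.dvd_mul).1 h4
  simp only [L, List.mem_flatMap, List.mem_map]
  refine ⟨a, ?_, b, ?_, c, ?_, d, ?_, e, ?_, f, ?_, rfl⟩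
  · obtain ⟨i, hi, rfl⟩ := (Nat.dvd_prime_pow Nat.prime_two).1 ha
    interval_cases i <;> simp
  · simpa using (Nat.dvd_prime (by norm_num)).1 hb
  · simpa using (Nat.dvd_prime (by norm_num)).1 hc
  · simpa using (Nat.dvd_prime (by norm_num)).1 hd
  · simpa using (Nat.dvd_prime (by norm_num)).1 he
  · simpa using (Nat.dvd_prime (by norm_num)).1 hf

/-- Local constraints. -/
def ok (q n e c : ℕ) : Prop :=
  (∀ r ∈ [2, 3, 5, 7, 11, 19], c % r = 0 → ∃ j < 19, 1 + q * j < n ∧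
    (1 + q * j) % (if r = 2 then 4 else r) = n % (if r = 2 then 4 else r)) ∧
  (e % 2 = 0 → c % 2 = 1 → ∃ f < 5, 1 ≤ f ∧ f * q ≤ n + (q - 1) ∧ f % 4 = n % 4)

instance decOk (q n e c : ℕ) : Decidable (ok q n e c) := by unfold ok; infer_instance

/-- Possible pairs (number of Sylow subgroups, cofactor of the centralizer order). -/
def opts (q d : ℕ) : List (ℕ × ℕ) :=
  if d % q = 0 then
    (L.filter fun n => n ≠ 1 ∧ n % q = 1 ∧ d % n = 0).flatMap fun n =>
      ([2, 3, 4, 5, 6, 9, 10, 18].filter fun e => (q - 1) % e = 0 ∧ d % (n * e) = 0 ∧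
        ok q n e (d / (q * n * e))).map fun e => (n, d / (q * n * e))
  else [(0, 1)]

/-- Counting term. -/
def tm (q : ℕ) (s : Bool) (t : ℕ × ℕ) : ℕ := t.1 * (q - 1) * (if s then t.2 else 1)

set_option synthInstance.maxSize 10000 in
set_option synthInstance.maxHeartbeats 200000 in
theorem arith : ∀ d ∈ L, d ≠ 175560 → d % 19 = 0 → ∀ a ∈ opts 19 d, ∀ b ∈ opts 11 d,
    (a.2 % 11 = 0 ↔ b.2 % 19 = 0) → ∀ c ∈ opts 7 d, (a.2 % 7 = 0 ↔ c.2 % 19 = 0) →
    (b.2 % 7 = 0 ↔ c.2 % 11 = 0) → ∀ e ∈ opts 5 d, (a.2 % 5 = 0 ↔ e.2 % 19 = 0) →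
    (b.2 % 5 = 0 ↔ e.2 % 11 = 0) → (c.2 % 5 = 0 ↔ e.2 % 7 = 0) → ∀ f ∈ opts 3 d,
    (a.2 % 3 = 0 ↔ f.2 % 19 = 0) → (b.2 % 3 = 0 ↔ f.2 % 11 = 0) → (c.2 % 3 = 0 ↔ f.2 % 7 = 0) →
    (e.2 % 3 = 0 ↔ f.2 % 5 = 0) → ∃ sa sb sc se sf : Bool,
      (sa → sb → a.2 % 11 ≠ 0) ∧ (sa → sc → a.2 % 7 ≠ 0) ∧ (sa → se → a.2 % 5 ≠ 0) ∧
      (sa → sf → a.2 % 3 ≠ 0) ∧ (sb → sc → b.2 % 7 ≠ 0) ∧ (sb → se → b.2 % 5 ≠ 0) ∧
      (sb → sf → b.2 % 3 ≠ 0) ∧ (sc → se → c.2 % 5 ≠ 0) ∧ (sc → sf → c.2 % 3 ≠ 0) ∧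
      (se → sf → e.2 % 3 ≠ 0) ∧
      d < tm 19 sa a + tm 11 sb b + tm 7 sc c + tm 5 se e + tm 3 sf f := by
  decide +kernel

section
variable {G : Type*} [Group G] [Finite G]

/-- The counted sets. -/
def X (G : Type*) [Group G] (q : ℕ) (s : Bool) : Set G :=
  {x | if s then q ∣ orderOf x else orderOf x = q}

theorem count_dvd {q c : ℕ} [hq : Fact q.Prime] (P : Sylow q G) (hP : Nat.card (P : Subgroup G) = q)
    (hC : Nat.card (centralizer ((P : Subgroup G) : Set G)) = q * c) (hc : ¬ q ∣ c) :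
    Nat.card (Sylow q G) * (q - 1) * c ≤ {x : G | q ∣ orderOf x}.ncard := by
  classical
  have hcyc : IsCyclic (P : Subgroup G) := isCyclic_of_prime_card hP
  have hPC : (P : Subgroup G) ≤ centralizer ((P : Subgroup G) : Set G) := le_centralizer _
  have hr : (P : Subgroup G).relIndex (centralizer ((P : Subgroup G) : Set G)) = c := by
    have := CfsgLib.SolvStruct.card_mul_relIndex hPC
    rw [hP, hC] at this
    exact Nat.eq_of_mul_eq_mul_left hq.out.pos this
  have hcop : q.Coprime c := (Nat.Prime.coprime_iff_not_dvd hq.out).2 hc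
  obtain ⟨K, h1, h2, -, h4⟩ := CfsgLib.Coprime.exists_complement_of_le_normalizer hPC
    (centralizer_le_normalizer _) (by rwa [hP, hr])
  rw [hr] at h4
  choose g hg using fun R : Sylow q G => exists_smul_eq G P R
  have hpow : ∀ (u : (P : Subgroup G)) (k : K), ((u : G) * k) ^ c = (u : G) ^ c := by
    intro u k
    have : Commute (u : G) k := h1 k.2 u u.2
    rw [this.mul_pow, ← h4, pow_card_eq_one_of_mem k.2, mul_one]
  have hord : ∀ u : (P : Subgroup G), u ≠ 1 → orderOf ((u : G) ^ c) = q := by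
    intro u hu
    have h5 := orderOf_eq_of_prime_card hP u.2 (fun h => hu (Subtype.ext h))
    rw [Nat.Coprime.orderOf_pow (by rwa [h5]), h5]
  let f : Sylow q G × {u : (P : Subgroup G) // u ≠ 1} × K → {x : G | q ∣ orderOf x} := fun t =>
    ⟨g t.1 * ((t.2.1.1 : G) * t.2.2) * (g t.1)⁻¹, by
      rw [Set.mem_ofPred_eq, ← orderOf_eq_of_isConj (isConj_iff.2 ⟨g t.1, rfl⟩)]
      refine (hord _ t.2.1.2).symm.dvd.trans ?_
      rw [← hpow _ t.2.2]
      exact orderOf_pow_dvd c⟩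
  have hf : Function.Injective f := by
    rintro ⟨R, ⟨u, hu⟩, k⟩ ⟨R', ⟨u', hu'⟩, k'⟩ h
    have h5 : g R * ((u : G) * k) * (g R)⁻¹ = g R' * ((u' : G) * k') * (g R')⁻¹ :=
      congrArg Subtype.val h
    have h6 := congrArg (· ^ c) h5
    simp only [conj_pow, hpow] at h6
    have hm : ∀ (R : Sylow q G) (u : (P : Subgroup G)), u ≠ 1 →
        (R : Subgroup G) = zpowers (g R * (u : G) ^ c * (g R)⁻¹) := by
      intro R u hu
      apply eq_zpowers_of_prime_card (card_sylow_eq_of_one hP R)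
      · have : g R * (u : G) ^ c * (g R)⁻¹ ∈ ((g R • P : Sylow q G) : Subgroup G) := by
          rw [mem_smul_sylow_iff]
          simpa [mul_assoc] using (P : Subgroup G).pow_mem u.2 c
        rwa [hg] at this
      · intro h
        have := hord u hu
        rw [conj_eq_one_iff.1 h, orderOf_one] at this
        exact hq.out.one_lt.ne this
    have h7 : R = R' := Sylow.ext (by rw [hm R u hu, hm R' u' hu', h6])
    subst h7
    have h8 : (u : G) * k = u' * k' := mul_left_cancel (mul_right_cancel h5)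
    have h9 : (u' : G)⁻¹ * u ∈ (P : Subgroup G) ⊓ K := by
      refine mem_inf.2 ⟨mul_mem (inv_mem u'.2) u.2, ?_⟩
      have : (u' : G)⁻¹ * u = k' * (k : G)⁻¹ := by
        rw [inv_mul_eq_iff_eq_mul, ← mul_assoc, ← h8, mul_inv_cancel_right]
      rw [this]
      exact mul_mem k'.2 (inv_mem k.2)
    rw [h2, mem_bot, inv_mul_eq_one] at h9
    obtain rfl : u' = u := Subtype.ext h9
    obtain rfl : k = k' := Subtype.ext (mul_left_cancel h8)
    rfl
  have := Nat.card_le_card_of_injective f hf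
  rw [Nat.card_prod, Nat.card_prod, h4, Nat.card_coe_set_eq] at this
  have h5 : Nat.card {u : (P : Subgroup G) // u ≠ 1} = q - 1 := by
    have := Fintype.ofFinite (P : Subgroup G)
    rw [Nat.card_eq_fintype_card, Fintype.card_subtype_compl, ← Nat.card_eq_fintype_card, hP]
    simp
  rwa [h5, ← mul_assoc] at this

theorem dat [IsSimpleGroup G] (hd : Nat.card G ∣ 175560) (hnp : ¬ (Nat.card G).Prime) {q : ℕ}
    (hq : q ∈ [3, 5, 7, 11, 19]) : ∃ t ∈ opts q (Nat.card G), (∀ s, tm q s t ≤ (X G q s).ncard) ∧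
      ∀ r : ℕ, r.Prime → r ≠ q → (t.2 % r = 0 ↔ ∃ x : G, orderOf x = q * r) := by
  have hqp : q.Prime := by
    simp only [List.mem_cons, List.not_mem_nil, or_false] at hq
    rcases hq with rfl | rfl | rfl | rfl | rfl <;> norm_num
  have := Fact.mk hqp
  by_cases hqd : Nat.card G % q = 0
  swap
  · refine ⟨(0, 1), by simp [opts, hqd], fun s => by simp [tm], fun r hr _ => ?_⟩
    refine iff_of_false (by rw [Nat.mod_eq_of_lt hr.one_lt]; simp) ?_
    rintro ⟨x, hx⟩
    exact hqd (Nat.mod_eq_zero_of_dvd ((Dvd.intro _ hx.symm).trans (orderOf_dvd_natCard x)))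
  obtain ⟨m, hm⟩ := Nat.dvd_of_mod_eq_zero hqd
  have hqm : ¬ q ∣ m := by
    intro h
    have h1 : q * q ∣ 175560 := (Nat.mul_dvd_mul_left q h).trans (hm ▸ hd)
    have h2 : ∀ q ∈ [3, 5, 7, 11, 19], ¬ q * q ∣ 175560 := by decide
    exact h2 q hq h1
  obtain ⟨P⟩ : Nonempty (Sylow q G) := inferInstance
  obtain ⟨h1, h2, h3, h4, e, h5, h6, h7, ⟨c, h8⟩, h9⟩ :=
    sylow_prime_data hm hqm (fun h => hnp (by rwa [hm, h, mul_one])) P
  set n := Nat.card (Sylow q G) with hn
  have hdec : Nat.card G = q * n * e * c := by rw [hm, ← h9, ← h7, h8]; ring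
  have hpos : 0 < q * n * e := by
    have : 0 < Nat.card G := Nat.card_pos
    rw [hdec] at this
    exact Nat.pos_of_mul_pos_right this
  have hc : Nat.card G / (q * n * e) = c := by rw [hdec, Nat.mul_div_cancel_left _ hpos]
  have hqc : ¬ q ∣ c := fun h => hqm (h.trans (Dvd.intro_left (n * e) (Nat.eq_of_mul_eq_mul_left
    hqp.pos (by rw [← hm, hdec]; ring))))
  have hcent : ∀ r : ℕ, r.Prime → c % r = 0 →
      ∃ x ∈ centralizer ((P : Subgroup G) : Set G), orderOf x = r := fun r hr h =>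
    exists_mem_orderOf_eq_prime _ hr (h8 ▸ (Nat.dvd_of_mod_eq_zero h).mul_left q)
  refine ⟨(n, c), ?_, fun s => ?_, fun r hr hrq => ⟨fun h => ?_, ?_⟩⟩
  · simp only [opts, hqd, if_true, List.mem_flatMap, List.mem_filter, List.mem_map,
      decide_eq_true_eq]
    refine ⟨n, ⟨mem_L ((h2.trans (Dvd.intro_left q hm.symm)).trans hd), h4, h3,
      Nat.mod_eq_zero_of_dvd (h2.trans (Dvd.intro_left q hm.symm))⟩, e,
      ⟨?_, Nat.mod_eq_zero_of_dvd h5, Nat.mod_eq_zero_of_dvd ⟨q * c, by rw [hdec]; ring⟩, ?_⟩,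
      by rw [hc]⟩
    · have h10 : ∀ q ∈ [3, 5, 7, 11, 19], ∀ e ≤ 18, e ∣ q - 1 → e ≠ 1 →
          e ∈ [2, 3, 4, 5, 6, 9, 10, 18] := by decide
      have h11 : ∀ q ∈ [3, 5, 7, 11, 19], q - 1 ≤ 18 := by decide
      exact h10 q hq e ((Nat.le_of_dvd (Nat.sub_pos_of_lt hqp.one_lt) h5).trans (h11 q hq)) h5 h6
    rw [hc]
    constructor
    · intro r hr h
      have hrp : r.Prime := by
        simp only [List.mem_cons, List.not_mem_nil, or_false] at hr
        rcases hr with rfl | rfl | rfl | rfl | rfl | rfl <;> norm_num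
      obtain ⟨x, hx, hxr⟩ := hcent r hrp h
      have k1 := CfsgLib.SylNum.card_fixedBy_mod_of_mem_centralizer P hx
      have k2 := CfsgLib.SylNum.card_fixedBy_sylow_lt h4 (ne_one_of_orderOf_prime hrp hxr)
      set M := if r = 2 then 4 else r with hM
      have k3 : n ≡ Nat.card (fixedBy (Sylow q G) x) [MOD M] := by
        rw [hM]
        split_ifs with h2
        · exact simple_involution_moved hnp _ (by rw [← h2, ← hxr, pow_orderOf_eq_one])
        · have := Fact.mk hrp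
          exact card_fixedBy_modEq (k := 1) (by rw [pow_one, ← hxr, pow_orderOf_eq_one])
      have k4 : 0 < M ∧ M ≤ 19 := by
        have h2 : ∀ r ∈ [2, 3, 5, 7, 11, 19], 0 < (if r = 2 then 4 else r) ∧
          (if r = 2 then 4 else r) ≤ 19 := by decide
        exact h2 r hr
      set f := Nat.card (fixedBy (Sylow q G) x)
      rw [Nat.mod_eq_of_lt hqp.one_lt] at k1
      have k5 : f = 1 + q * (f / q) := by rw [← k1, Nat.mod_add_div]
      refine ⟨f / q % M, (Nat.mod_lt _ k4.1).trans_le k4.2, ?_, ?_⟩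
      · refine lt_of_le_of_lt ?_ k2
        conv_rhs => rw [k5]
        exact Nat.add_le_add_left (Nat.mul_le_mul_left _ (Nat.mod_le _ _)) _
      · refine Eq.trans ?_ k3.symm
        conv_rhs => rw [k5]
        exact ((Nat.mod_modEq _ _).mul_left q).add_left 1
    · intro k1 k2
      obtain ⟨x, hx, hx2⟩ := exists_mem_orderOf_eq_prime (normalizer ((P : Subgroup G) : Set G))
        Nat.prime_two (h7 ▸ (Nat.dvd_of_mod_eq_zero k1).mul_left _)
      have k3 : x ∉ centralizer ((P : Subgroup G) : Set G) := by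
        intro h
        have h10 : 2 ∣ q * c := h8 ▸ hx2 ▸ orderOf_dvd_natCard _ h
        have h11 : ∀ q ∈ [3, 5, 7, 11, 19], ¬ 2 ∣ q := by decide
        rcases (Nat.Prime.dvd_mul Nat.prime_two).1 h10 with h | h
        · exact h11 q hq h
        · omega
      have k4 := card_fixedBy_sylow_mul_le P h1 hx k3
      have k5 := simple_involution_moved hnp (Sylow q G) (x := x)
        (by rw [← hx2, pow_orderOf_eq_one])
      have k6 : 0 < Nat.card (fixedBy (Sylow q G) x) := by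
        have : Nonempty (fixedBy (Sylow q G) x) := ⟨⟨P, (smul_sylow_eq_iff x P).2 hx⟩⟩
        exact Nat.card_pos
      set f := Nat.card (fixedBy (Sylow q G) x)
      refine ⟨(f - 1) % 4 + 1, by omega, by omega, le_trans (Nat.mul_le_mul_right _ (by omega)) k4,
        ?_⟩
      unfold Nat.ModEq at k5
      omega
  · cases s
    · simp only [tm, X, Bool.false_eq_true, if_false, mul_one]
      rw [← card_orderOf_eq_prime (card_sylow_eq_of_one h1)]
      rfl
    · simpa [tm, X] using count_dvd P h1 h8 hqc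
  · obtain ⟨x, hx, hxr⟩ := hcent r hr h
    obtain ⟨u, hu, huq⟩ := exists_mem_orderOf_eq_prime (P : Subgroup G) hqp h1.symm.dvd
    refine ⟨u * x, ?_⟩
    rw [Commute.orderOf_mul_eq_mul_orderOf_of_coprime (hx u hu), huq, hxr]
    rw [huq, hxr]
    exact (Nat.coprime_primes hqp hr).2 hrq.symm
  · rintro ⟨x, hx⟩
    have k1 : orderOf (x ^ r) = q := by
      rw [orderOf_pow' _ hr.ne_zero, hx, Nat.gcd_mul_left_left, Nat.mul_div_cancel _ hr.pos]
    have k2 : orderOf (x ^ q) = r := by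
      rw [orderOf_pow' _ hqp.ne_zero, hx, Nat.gcd_mul_right_left, Nat.mul_div_cancel_left _ hqp.pos]
    obtain ⟨R, hR⟩ := exists_sylow_mem (p := q) (x := x ^ r) (k := 1)
      (by rw [pow_one, ← k1, pow_orderOf_eq_one])
    obtain ⟨g, rfl⟩ := exists_smul_eq G P R
    rw [mem_smul_sylow_iff] at hR
    have k3 := eq_zpowers_of_prime_card h1 hR (by
      intro h
      rw [← inv_inv g, inv_inv g⁻¹, conj_eq_one_iff] at h
      exact ne_one_of_orderOf_prime hqp k1 h)
    have k4 : g⁻¹ * x ^ q * g ∈ centralizer ((P : Subgroup G) : Set G) := by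
      rw [k3]
      rintro _ ⟨j, rfl⟩
      refine (Commute.zpow_left ?_ j).eq
      have := ((Commute.refl x).pow_pow r q).map (MulAut.conj g⁻¹)
      simpa using this
    have k5 : r ∣ q * c := by
      rw [← h8, ← k2, orderOf_eq_of_isConj (y := g⁻¹ * x ^ q * g) (isConj_iff.2 ⟨g⁻¹, by simp⟩)]
      exact orderOf_dvd_natCard _ k4
    exact Nat.mod_eq_zero_of_dvd (((Nat.Prime.dvd_mul hr).1 k5).resolve_left
      fun h => hrq ((Nat.prime_dvd_prime_iff_eq hr hqp).1 h))

theorem disj {q r : ℕ} (hq : q.Prime) (hr : r.Prime) (hqr : q ≠ r) {s t : Bool}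
    (h : s → t → ¬ ∃ x : G, orderOf x = q * r) : Disjoint (X G q s) (X G r t) := by
  rw [Set.disjoint_left]
  intro x h1 h2
  cases s <;> cases t <;> simp only [X, Set.mem_ofPred_eq, Bool.false_eq_true, if_false, if_true] at h1 h2
  · exact hqr (h1.symm.trans h2)
  · exact hqr ((Nat.prime_dvd_prime_iff_eq hr hq).1 (h1 ▸ h2)).symm
  · exact hqr ((Nat.prime_dvd_prime_iff_eq hq hr).1 (h2 ▸ h1))
  · obtain ⟨k, hk⟩ := ((Nat.coprime_primes hq hr).2 hqr).mul_dvd_of_dvd_of_dvd h1 h2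
    have h0 : k ≠ 0 := by
      rintro rfl
      exact (orderOf_pos x).ne' hk
    refine h rfl rfl ⟨x ^ k, ?_⟩
    rw [orderOf_pow' _ h0, hk, Nat.gcd_mul_left_left, Nat.mul_div_cancel _ (Nat.pos_of_ne_zero h0)]

theorem no_simple [IsSimpleGroup G] (hd : Nat.card G ∣ 175560) (hnp : ¬ (Nat.card G).Prime)
    (h1 : Nat.card G ≠ 175560) (h2 : 19 ∣ Nat.card G) : False := by
  obtain ⟨a, ha, ha1, ha2⟩ := dat hd hnp (q := 19) (by simp)
  obtain ⟨b, hb, hb1, hb2⟩ := dat hd hnp (q := 11) (by simp)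
  obtain ⟨c, hc, hc1, hc2⟩ := dat hd hnp (q := 7) (by simp)
  obtain ⟨e, he, he1, he2⟩ := dat hd hnp (q := 5) (by simp)
  obtain ⟨f, hf, hf1, hf2⟩ := dat hd hnp (q := 3) (by simp)
  have p3 : Nat.Prime 3 := by norm_num
  have p5 : Nat.Prime 5 := by norm_num
  have p7 : Nat.Prime 7 := by norm_num
  have p11 : Nat.Prime 11 := by norm_num
  have p19 : Nat.Prime 19 := by norm_num
  obtain ⟨sa, sb, sc, se, sf, k1, k2, k3, k4, k5, k6, k7, k8, k9, k10, k⟩ :=
    arith _ (mem_L hd) h1 (Nat.mod_eq_zero_of_dvd h2) a ha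
    b hb ((ha2 11 p11 (by norm_num)).trans (hb2 19 p19 (by norm_num)).symm)
    c hc ((ha2 7 p7 (by norm_num)).trans (hc2 19 p19 (by norm_num)).symm)
    ((hb2 7 p7 (by norm_num)).trans (hc2 11 p11 (by norm_num)).symm)
    e he ((ha2 5 p5 (by norm_num)).trans (he2 19 p19 (by norm_num)).symm)
    ((hb2 5 p5 (by norm_num)).trans (he2 11 p11 (by norm_num)).symm)
    ((hc2 5 p5 (by norm_num)).trans (he2 7 p7 (by norm_num)).symm)
    f hf ((ha2 3 p3 (by norm_num)).trans (hf2 19 p19 (by norm_num)).symm)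
    ((hb2 3 p3 (by norm_num)).trans (hf2 11 p11 (by norm_num)).symm)
    ((hc2 3 p3 (by norm_num)).trans (hf2 7 p7 (by norm_num)).symm)
    ((he2 3 p3 (by norm_num)).trans (hf2 5 p5 (by norm_num)).symm)
  have d1 := disj p19 p11 (by norm_num) fun x y h => k1 x y ((ha2 11 p11 (by norm_num)).2 h)
  have d2 := disj p19 p7 (by norm_num) fun x y h => k2 x y ((ha2 7 p7 (by norm_num)).2 h)
  have d3 := disj p19 p5 (by norm_num) fun x y h => k3 x y ((ha2 5 p5 (by norm_num)).2 h)
  have d4 := disj p19 p3 (by norm_num) fun x y h => k4 x y ((ha2 3 p3 (by norm_num)).2 h)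
  have d5 := disj p11 p7 (by norm_num) fun x y h => k5 x y ((hb2 7 p7 (by norm_num)).2 h)
  have d6 := disj p11 p5 (by norm_num) fun x y h => k6 x y ((hb2 5 p5 (by norm_num)).2 h)
  have d7 := disj p11 p3 (by norm_num) fun x y h => k7 x y ((hb2 3 p3 (by norm_num)).2 h)
  have d8 := disj p7 p5 (by norm_num) fun x y h => k8 x y ((hc2 5 p5 (by norm_num)).2 h)
  have d9 := disj p7 p3 (by norm_num) fun x y h => k9 x y ((hc2 3 p3 (by norm_num)).2 h)
  have d10 := disj p5 p3 (by norm_num) fun x y h => k10 x y ((he2 3 p3 (by norm_num)).2 h)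
  have := Set.ncard_le_card (X G 19 sa ∪ X G 11 sb ∪ X G 7 sc ∪ X G 5 se ∪ X G 3 sf)
  rw [Set.ncard_union_eq (by simp [d4, d7, d9, d10]), Set.ncard_union_eq (by simp [d3, d6, d8]),
    Set.ncard_union_eq (by simp [d2, d5]), Set.ncard_union_eq d1] at this
  have := ha1 sa
  have := hb1 sb
  have := hc1 sc
  have := he1 se
  have := hf1 sf
  omega

instance fact19 : Fact (Nat.Prime 19) := ⟨by norm_num⟩

theorem le_cent (hd : Nat.card G ∣ 175560) (P : Sylow 19 G) (N : Subgroup G) [N.Normal]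
    (h : ¬ 19 ∣ Nat.card N) : N ≤ centralizer ((P : Subgroup G) : Set G) := by
  rw [← inf_eq_left]
  apply CfsgLib.Coprime.eq_of_forall_invariant_pgroup_le (A := P)
    (by rw [normalizer_eq_top]; exact le_top)
    (CfsgLib.Coprime.coprime_card_of_isPGroup P.isPGroup'
      ((Nat.Prime.coprime_iff_not_dvd fact19.out).2 h).symm).symm
    (Or.inl (CfsgLib.Coprime.isSolvable_of_isPGroup P.isPGroup')) inf_le_left
  intro q Q hq hQN hQ _ hPQ
  refine le_inf hQN (le_centralizer_iff.1 ?_)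
  have := Fact.mk hq
  obtain ⟨k, hk⟩ := hQ.exists_card_eq
  have h1 : Nat.card Q ≤ 11 := by
    have h2 : ¬ 19 ∣ Nat.card Q := fun h' => h (h'.trans (card_dvd_of_le hQN))
    have h3 : ∀ n ∈ L, IsPrimePow n → ¬ 19 ∣ n → n ≤ 11 := by decide +kernel
    rcases k with _ | k
    · rw [hk]; norm_num
    · exact h3 _ (mem_L ((card_subgroup_dvd_card Q).trans hd))
        (hk ▸ hq.isPrimePow.pow k.succ_ne_zero) h2
  have h2 := (CfsgLib.SmallSimple.relIndex_centralizer_dvd_card_mulAut Q).trans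
    ((CfsgLib.SmallSimple.card_mulAut_dvd_factorial Q).trans
      (Nat.factorial_dvd_factorial (show Nat.card Q - 1 ≤ 10 by omega)))
  apply CfsgLib.Coprime.le_of_coprime_relIndex (L := normalizer (Q : Set G))
    (CfsgLib.Core.normalizer_le_normalizer_centralizer _) hPQ
  exact (CfsgLib.Coprime.coprime_card_of_isPGroup P.isPGroup'
    (Nat.Coprime.coprime_dvd_left h2 (by norm_num [Nat.factorial]))).symm

end

theorem aux.{u} (n : ℕ) : ∀ (G : Type u) [Group G] [Finite G], Nat.card G = n → n ∣ 175560 →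
    (¬ IsSimpleGroup G ∨ n ≠ 175560) → ∀ P : Sylow 19 G, (P : Subgroup G).Normal := by
  induction n using Nat.strong_induction_on with
  | _ n ih =>
  intro G _ _ hn hd h P
  have hle : n ≤ 175560 := Nat.le_of_dvd (by norm_num) hd
  by_cases hs : IsSimpleGroup G
  · by_cases h1 : 19 ∣ Nat.card G
    · by_cases h2 : (Nat.card G).Prime
      · have := Fact.mk h2
        have : IsCyclic G := isCyclic_of_prime_card rfl
        infer_instance
      · exact (no_simple (hn ▸ hd) h2 (hn ▸ h.resolve_left (not_not.2 hs)) h1).elim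
    · have : (P : Subgroup G) = ⊥ := by
        by_contra h2
        obtain ⟨k, hk⟩ := P.isPGroup'.exists_card_eq
        rcases k with _ | k
        · exact h2 (card_eq_one.1 hk)
        · exact h1 (((dvd_pow_self 19 k.succ_ne_zero).trans hk.symm.dvd).trans
            (card_subgroup_dvd_card _))
      rw [this]
      infer_instance
  rcases subsingleton_or_nontrivial G with hG | hG
  · rw [Subsingleton.elim (P : Subgroup G) ⊥]
    infer_instance
  obtain ⟨N, hN, h1, h2⟩ : ∃ N : Subgroup G, N.Normal ∧ N ≠ ⊥ ∧ N ≠ ⊤ := by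
    by_contra hcon
    push Not at hcon
    exact hs ⟨fun N hN => or_iff_not_imp_left.2 (hcon N hN)⟩
  have hm := N.card_mul_index
  have k1 : 1 < Nat.card N := N.one_lt_card_iff_ne_bot.2 h1
  have k2 : 1 < N.index := N.one_lt_index_of_ne_top h2
  by_cases h3 : 19 ∣ Nat.card N
  · have h4 : ¬ 19 ∣ N.index := by
      intro h4
      have : 19 * 19 ∣ 175560 := (Nat.mul_dvd_mul h3 h4).trans (by rwa [hm, hn])
      norm_num at this
    have h5 := CfsgLib.SolvStruct.sylow_le_of_normal_of_not_dvd_index P.isPGroup' h4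
    have h6 : Nat.card N < n := by nlinarith
    exact CfsgLib.SolvStruct.sylow_normal_of_normal_in_normal P h5
      (ih _ h6 N rfl ((hn ▸ card_subgroup_dvd_card N).trans hd) (Or.inr (by omega)) (P.subtype h5))
  · have h6 : N.index < n := by nlinarith
    have h7 := ih _ h6 (G ⧸ N) rfl ((hn ▸ index_dvd_card N).trans hd) (Or.inr (by omega))
      (P.mapSurjective (QuotientGroup.mk'_surjective N))
    have h8 : ((P : Subgroup G) ⊔ N).Normal := by
      rw [← CfsgLib.SolvStruct.comap_map_mk']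
      exact h7.comap _
    apply CfsgLib.SolvStruct.sylow_normal_of_normal_in_normal P (N := (P : Subgroup G) ⊔ N)
      le_sup_left
    rw [normal_subgroupOf_iff_le_normalizer le_sup_left]
    exact sup_le le_normalizer ((le_cent (hn ▸ hd) P N h3).trans (centralizer_le_normalizer _))

/-- A finite group of order 175560 = 2³·3·5·7·11·19 is either simple or has a normal Sylow 19-subgroup. -/
theorem result {G : Type*} [Group G] [Finite G] (hG : Nat.card G = 175560) : IsSimpleGroup G ∨ ∀ P : Sylow 19 G, (P : Subgroup G).Normal := by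
  by_cases h : IsSimpleGroup G
  · exact Or.inl h
  · exact Or.inr (aux _ G hG dvd_rfl (Or.inl h))

end Cfsg.Agent.S4274
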