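import Mathlib
import Cfsg.Statements.S4330
import Cfsg.Agent.Lib.SnCrit.Main

set_option autoImplicit false
open Pointwise
open Cfsg

namespace Cfsg.Agent.S4330


/-- Let G be a finite solvable group, p an odd prime and A a p-subgroup of G such that every conjugacy class of G contains an element g for which A is subnormal in the subgroup generated by A and its conjugate by g. Then A is contained in O_p(G). (The hypothesis that p is odd is needed.) -/
theorem result {G : Type*} [Group G] [Finite G]
    (hG : Group.IsSolvable G) (p : ℕ) [Fact p.Prime] (hp : p ≠ 2) (A : Subgroup G) (hA : IsPGroup p A)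
    (h : ∀ c : G, ∃ g : G, IsConj c g ∧ (A.subgroupOf (A ⊔ MulAut.conj g • A)).IsSubnormal) :
    A ≤ Cfsg.pCore p G := by
  refine CfsgLib.SnCrit.le_pCore hp _ G rfl A fun c => (h c).imp fun g hg => ⟨hg.1, ?_⟩
  have h1 := CfsgLib.Core.le_pCore_of_isSubnormal hg.2 hA.comap_subtype
  have := CfsgLib.Core.pCore_characteristic p ↥(A ⊔ MulAut.conj g • A)
  have h2 := IsPGroup.to_sup_of_normal_left (CfsgLib.Core.isPGroup_pCore p ↥(A ⊔ MulAut.conj g • A))
    ((hA.of_equiv (Subgroup.equivSMul (MulAut.conj g) A)).comap_subtype (K := A ⊔ MulAut.conj g • A))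
  refine IsPGroup.of_equiv (h2.to_le (H := ⊤) ?_) Subgroup.topEquiv
  rw [← Subgroup.subgroupOf_self, Subgroup.subgroupOf_sup le_sup_left le_sup_right]
  exact sup_le_sup_right h1 _

end Cfsg.Agent.S4330
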