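import Cfsg.Statements.S4331
import Cfsg.Agent.Lib.SolvStruct.Subnormal
import Cfsg.Agent.Lib.Core.Cores

set_option autoImplicit false
open Cfsg

namespace Cfsg.Agent.S4331

open Subgroup

/-- Coordinates of semi-affine maps of the field with nine elements. -/
abbrev T := ZMod 3 × ZMod 3 × ZMod 3 × ZMod 3 × ZMod 3

/-- Composition. -/
def mul5 (g h : T) : T :=
  (g.1 * h.1, g.2.1 * h.2.1 - g.1 * g.2.2.1 * h.2.2.1, g.2.2.1 * h.2.1 + g.1 * g.2.1 * h.2.2.1,
    g.2.1 * h.2.2.2.1 - g.1 * g.2.2.1 * h.2.2.2.2 + g.2.2.2.1,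
    g.2.2.1 * h.2.2.2.1 + g.1 * g.2.1 * h.2.2.2.2 + g.2.2.2.2)

/-- Inversion. -/
def inv5 (g : T) : T :=
  let n := g.2.1 * g.2.1 + g.2.2.1 * g.2.2.1
  (g.1, n * g.2.1, -(g.1 * n * g.2.2.1), -(n * g.2.1 * g.2.2.2.1 + n * g.2.2.1 * g.2.2.2.2),
    g.1 * n * g.2.2.1 * g.2.2.2.1 - g.1 * n * g.2.1 * g.2.2.2.2)

/-- The group of order 144. -/
def E : Type := {g : T // g.1 * g.1 = 1 ∧ g.2.1 * g.2.1 + g.2.2.1 * g.2.2.1 ≠ 0}

instance instDecEq : DecidableEq E := inferInstanceAs (DecidableEq {_g : T // _})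
instance instFin : Fintype E := inferInstanceAs (Fintype {_g : T // _})

theorem good_mul : ∀ s a b s' a' b' : ZMod 3, s * s = 1 → a * a + b * b ≠ 0 → s' * s' = 1 →
    a' * a' + b' * b' ≠ 0 → s * s' * (s * s') = 1 ∧
      (a * a' - s * b * b') * (a * a' - s * b * b') +
        (b * a' + s * a * b') * (b * a' + s * a * b') ≠ 0 := by decide +kernel

theorem good_inv : ∀ s a b : ZMod 3, s * s = 1 → a * a + b * b ≠ 0 →
    (a * a + b * b) * a * ((a * a + b * b) * a) +
      -(s * (a * a + b * b) * b) * -(s * (a * a + b * b) * b) ≠ 0 := by decide +kernel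

instance instMul : Mul E := ⟨fun g h => ⟨mul5 g.1 h.1, good_mul _ _ _ _ _ _ g.2.1 g.2.2 h.2.1 h.2.2⟩⟩
instance instOne : One E := ⟨⟨(1, 1, 0, 0, 0), by decide⟩⟩
instance instInv : Inv E := ⟨fun g => ⟨inv5 g.1, g.2.1, good_inv _ _ _ g.2.1 g.2.2⟩⟩

theorem mul_assoc' (g h k : E) : g * h * k = g * (h * k) := by
  obtain ⟨⟨s, a, b, x, y⟩, h1, -⟩ := g
  obtain ⟨⟨s', a', b', x', y'⟩, -⟩ := h
  obtain ⟨⟨s'', a'', b'', x'', y''⟩, -⟩ := k
  apply Subtype.ext
  change mul5 (mul5 _ _) _ = mul5 _ (mul5 _ _)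
  simp only [mul5, Prod.mk.injEq] at h1 ⊢
  refine ⟨by ring, ?_, ?_, ?_, ?_⟩
  · linear_combination (-s' * a * b' * b'') * h1
  · linear_combination (-s' * b * b' * b'') * h1
  · linear_combination (-s' * a * b' * y'') * h1
  · linear_combination (-s' * b * b' * y'') * h1

instance instGroup : Group E := Group.ofLeftAxioms mul_assoc' (by decide +kernel) (by decide +kernel)

/-- The reflection. -/
def t : E := ⟨(-1, 1, 0, 0, 0), by decide⟩

/-- A translation. -/
def v : E := ⟨(1, 1, 0, 0, 1), by decide⟩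

/-- The linear part. -/
def lin : E →* E := MonoidHom.mk' (fun g => ⟨(g.1.1, g.1.2.1, g.1.2.2.1, 0, 0), g.2⟩) (by
  intro g h
  apply Subtype.ext
  change _ = mul5 _ _
  simp only [mul5, mul_zero, sub_zero, add_zero]
  rfl)

theorem lin_pow : ∀ g : E, (lin g * lin g) * (lin g * lin g) * ((lin g * lin g) * (lin g * lin g)) *
    ((lin g * lin g) * (lin g * lin g) * ((lin g * lin g) * (lin g * lin g))) = 1 := by
  decide +kernel

theorem isPGroup_range : IsPGroup 2 lin.range := by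
  rintro ⟨_, g, rfl⟩
  refine ⟨4, Subtype.ext ?_⟩
  change lin g ^ 2 ^ 4 = 1
  rw [← lin_pow g]
  simp only [← sq, ← pow_mul]
  rfl

theorem ker_comm : ∀ g : E, lin g = 1 → ∀ h : E, lin h = 1 → g * h = h * g := by decide +kernel

theorem exists_conj : ∀ c : E, ∃ h : E, t * (h * c * h⁻¹) = (h * c * h⁻¹) * t ∨
    lin (h * c * h⁻¹) = h * c * h⁻¹ := by decide +kernel

/-- There is a finite solvable group G with a subgroup A of order 2 such that every conjugacy class of G contains an element g for which A is subnormal in the subgroup generated by A and g, and yet A is not contained in O_2(G). (So the corresponding criteria for odd primes fail at the prime 2, even for solvable groups.) -/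
theorem result :
    ∃ (G : Type) (_ : Group G) (_ : Finite G) (A : Subgroup G), Group.IsSolvable G ∧ Nat.card A = 2 ∧
      (∀ c : G, ∃ g : G, IsConj c g ∧ (A.subgroupOf (A ⊔ Subgroup.zpowers g)).IsSubnormal) ∧
      ¬ A ≤ Cfsg.pCore 2 G := by
  have ht : orderOf t = 2 := orderOf_eq_prime (by rw [sq]; decide) (by decide)
  refine ⟨E, inferInstance, inferInstance, zpowers t, ?_, by rw [Nat.card_zpowers, ht], ?_, ?_⟩
  · have := isPGroup_range.isNilpotent
    have : Group.IsSolvable lin.ker :=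
      Group.isSolvable_of_comm fun a b => Subtype.ext (ker_comm _ a.2 _ b.2)
    exact Group.isSolvable_of_ker_le_range lin.ker.subtype lin.rangeRestrict (by simp)
  · intro c
    obtain ⟨h, hh⟩ := exists_conj c
    refine ⟨h * c * h⁻¹, isConj_iff.2 ⟨h, rfl⟩, ?_⟩
    rcases hh with hh | hh
    · apply Normal.isSubnormal
      rw [normal_subgroupOf_iff_le_normalizer le_sup_left, sup_le_iff]
      refine ⟨le_normalizer, le_trans ?_ (centralizer_le_normalizer _)⟩
      rw [zpowers_le]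
      rintro _ ⟨k, rfl⟩
      exact (Commute.zpow_left hh k).eq
    · have h1 : zpowers t ⊔ zpowers (h * c * h⁻¹) ≤ lin.range :=
        sup_le (zpowers_le.2 ⟨t, by decide⟩) (zpowers_le.2 ⟨_, hh⟩)
      have := (isPGroup_range.to_le h1).isNilpotent
      exact CfsgLib.SolvStruct.isSubnormal_of_isNilpotent _
  · intro h
    have h1 : t ∈ pCore 2 E := h (mem_zpowers t)
    have h2 : v * t * v⁻¹ * t⁻¹ ∈ pCore 2 E :=
      mul_mem ((inferInstance : (pCore 2 E).Normal).conj_mem t h1 v) (inv_mem h1)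
    obtain ⟨k, hk⟩ := CfsgLib.Core.isPGroup_pCore 2 E ⟨_, h2⟩
    have h3 : orderOf (v * t * v⁻¹ * t⁻¹) = 3 := by
      have : Fact (Nat.Prime 3) := ⟨Nat.prime_three⟩
      exact orderOf_eq_prime (by rw [pow_three]; decide) (by decide)
    have h4 : 3 ∣ 2 ^ k := h3 ▸ orderOf_dvd_of_pow_eq_one (congrArg Subtype.val hk)
    exact absurd (Nat.prime_three.dvd_of_dvd_pow h4) (by norm_num)

end Cfsg.Agent.S4331
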