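import Cfsg.Statements.S4332
import Cfsg.Agent.Lib.SolvStruct.Subnormal
import Cfsg.Agent.Lib.Core.Cores

set_option autoImplicit false
open Pointwise
open Cfsg

namespace Cfsg.Agent.S4332

open Equiv Equiv.Perm Subgroup

theorem exists_notMem {S E : Finset (Fin 8)} (hS : 6 ≤ S.card) (hE : E.card ≤ 5) :
    ∃ z ∈ S, z ∉ E := Finset.exists_mem_notMem_of_card_lt_card (by omega)

theorem exists_triple (c : Perm (Fin 8)) : ∃ a b d : Fin 8, a ≠ b ∧ a ≠ d ∧ b ≠ d ∧
    ((c a = a ∧ c b = b ∧ c d = d) ∨ (c a = b ∧ c b = d ∧ c d = a) ∨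
      (c a ≠ a ∧ c a ≠ b ∧ c a ≠ d ∧ c b ≠ a ∧ c b ≠ b ∧ c b ≠ d ∧ c d ≠ a ∧ c d ≠ b ∧ c d ≠ d)) := by
  by_cases h1 : 2 < (c.supportᶜ).card
  · obtain ⟨a, b, d, ha, hb, hd, h⟩ := Finset.two_lt_card_iff.1 h1
    simp only [Finset.mem_compl, mem_support, not_not] at ha hb hd
    exact ⟨a, b, d, h.1, h.2.1, h.2.2, Or.inl ⟨ha, hb, hd⟩⟩
  have h2 : 6 ≤ c.support.card := by
    rw [Finset.card_compl, Fintype.card_fin] at h1; omega
  by_cases h3 : ∃ x, c x ≠ x ∧ c (c (c x)) = x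
  · obtain ⟨x, hx, h3⟩ := h3
    refine ⟨x, c x, c (c x), hx.symm, fun h => hx ?_, fun h => hx (c.injective h).symm,
      Or.inr (Or.inl ⟨rfl, rfl, h3⟩)⟩
    rw [← h] at h3
    exact h3
  push Not at h3
  obtain ⟨x, hx, -⟩ := exists_notMem (E := ∅) h2 (by simp)
  rw [mem_support] at hx
  obtain ⟨y, hy, h4, h5, h6, h7⟩ : ∃ y, c y ≠ y ∧ y ≠ x ∧ y ≠ c x ∧ c y ≠ x ∧
      (c.symm x = c x ∨ c.symm y = c x) := by
    by_cases h : c (c x) = x
    · obtain ⟨y, hy, h4⟩ := exists_notMem (E := {x, c x}) h2 (Finset.card_le_two.trans (by norm_num))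
      simp only [Finset.mem_insert, Finset.mem_singleton, not_or] at h4
      refine ⟨y, mem_support.1 hy, h4.1, h4.2, fun h' => h4.2 (c.injective (h'.trans h.symm)),
        Or.inl (by rw [Equiv.symm_apply_eq, h])⟩
    · exact ⟨c (c x), fun h' => hx (c.injective (c.injective h')), h,
        fun h' => hx (c.injective h'), h3 x hx, Or.inr (by simp)⟩
  obtain ⟨z, hz, h8⟩ := exists_notMem (E := {x, c x, c.symm x, y, c y, c.symm y}) h2 (by
    rcases h7 with h | h
    · rw [h, Finset.insert_idem]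
      exact Finset.card_le_five
    · rw [h]
      refine le_trans (Finset.card_le_card ?_) (Finset.card_le_five (a := x) (b := c x)
        (c := c.symm x) (d := y) (e := c y))
      intro w
      simp only [Finset.mem_insert, Finset.mem_singleton]
      tauto)
  simp only [Finset.mem_insert, Finset.mem_singleton, not_or] at h8
  obtain ⟨k1, k2, k3, k4, k5, k6⟩ := h8
  exact ⟨x, y, z, h4.symm, Ne.symm k1, Ne.symm k4, Or.inr (Or.inr ⟨hx, h5.symm, Ne.symm k2, h6, hy,
    Ne.symm k5, fun h => k3 (by rw [← h]; simp), fun h => k6 (by rw [← h]; simp),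
    mem_support.1 hz⟩)⟩

theorem exists_three (c : Perm (Fin 8)) :
    ∃ τ : Perm (Fin 8), τ.IsThreeCycle ∧ Commute τ (c * τ * c⁻¹) := by
  obtain ⟨a, b, d, h1, h2, h3, h⟩ := exists_triple c
  refine ⟨swap a b * swap a d, isThreeCycle_swap_mul_swap_same h1 h2 h3, ?_⟩
  have e : c * (swap a b * swap a d) * c⁻¹ = swap (c a) (c b) * swap (c a) (c d) := by
    rw [swap_apply_apply, swap_apply_apply]; group
  rw [e]
  rcases h with ⟨k1, k2, k3⟩ | ⟨k1, k2, k3⟩ | ⟨k1, k2, k3, k4, k5, k6, k7, k8, k9⟩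
  · rw [k1, k2, k3]
  · rw [k1, k2, k3]
    have : swap b d * swap b a = swap a b * swap a d := by
      rw [swap_comm b a, mul_swap_eq_swap_mul (swap a b), swap_apply_left,
        swap_apply_of_ne_of_ne h2.symm h3.symm]
    rw [this]
  · have hs : ∀ u v u' v' : Fin 8, u' ≠ u → u' ≠ v → v' ≠ u → v' ≠ v →
        Commute (swap u v) (swap u' v') := by
      intro u v u' v' a1 a2 a3 a4
      rw [Commute, SemiconjBy, mul_swap_eq_swap_mul, swap_apply_of_ne_of_ne a1 a2,
        swap_apply_of_ne_of_ne a3 a4]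
    exact ((hs _ _ _ _ k1 k2 k4 k5).mul_right (hs _ _ _ _ k1 k2 k7 k8)).mul_left
      ((hs _ _ _ _ k1 k3 k4 k6).mul_right (hs _ _ _ _ k1 k3 k7 k9))

/-- In the symmetric group of degree 8, let A be the subgroup generated by a 3-cycle. Then every conjugacy class contains an element g for which A is subnormal in the subgroup generated by A and its conjugate by g, although O_3 of the symmetric group of degree 8 is trivial. -/
theorem result
    (σ : Equiv.Perm (Fin 8)) (hσ : σ.IsThreeCycle) :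
    (∀ c : Equiv.Perm (Fin 8), ∃ g : Equiv.Perm (Fin 8), IsConj c g ∧
      ((Subgroup.zpowers σ).subgroupOf (Subgroup.zpowers σ ⊔ MulAut.conj g • Subgroup.zpowers σ)).IsSubnormal) ∧
    Cfsg.pCore 3 (Equiv.Perm (Fin 8)) = ⊥ := by
  constructor
  · intro c
    obtain ⟨τ, hτ, hc⟩ := exists_three c
    obtain ⟨h, rfl⟩ := isConj_iff.1 (isConj_iff_cycleType_eq.2 (hτ.cycleType.trans hσ.cycleType.symm))
    refine ⟨h * c * h⁻¹, isConj_iff.2 ⟨h, rfl⟩, Normal.isSubnormal ?_⟩
    rw [normal_subgroupOf_iff_le_normalizer le_sup_left, sup_le_iff]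
    refine ⟨le_normalizer, le_trans ?_ (centralizer_le_normalizer _)⟩
    rw [CfsgLib.SolvStruct.conj_smul_eq_map, MonoidHom.map_zpowers, zpowers_le]
    rintro _ ⟨k, rfl⟩
    refine (Commute.zpow_left ?_ k).eq
    have := hc.map (MulAut.conj h)
    have e : h * c * h⁻¹ * (h * τ * h⁻¹) * (h * c * h⁻¹)⁻¹ = h * (c * τ * c⁻¹) * h⁻¹ := by group
    change Commute (h * τ * h⁻¹) (h * c * h⁻¹ * (h * τ * h⁻¹) * (h * c * h⁻¹)⁻¹)
    rw [e]
    exact this
  · by_contra hne
    have : Nontrivial (pCore 3 (Perm (Fin 8))) := (nontrivial_iff_ne_bot _).2 hne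
    have h1 := alternatingGroup_le_of_normal (α := Fin 8) (by simp) this
    have : Fact (Nat.Prime 3) := ⟨Nat.prime_three⟩
    obtain ⟨k, hk⟩ := IsPGroup.iff_card.1 (CfsgLib.Core.isPGroup_pCore 3 (Perm (Fin 8)))
    have h2 := card_dvd_of_le h1
    rw [hk, nat_card_alternatingGroup] at h2
    have h3 : 2 ∣ 3 ^ k := dvd_trans (by simp [Nat.factorial]) h2
    exact absurd (Nat.prime_two.dvd_of_dvd_pow h3) (by norm_num)

end Cfsg.Agent.S4332
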