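import Cfsg.Statements.S4334
import Cfsg.Agent.Lib.Coprime.SchurZassenhaus
import Cfsg.Agent.Lib.Transfer.Frobenius
import Cfsg.Agent.Lib.Core.MinNormal

set_option autoImplicit false
open Cfsg

namespace Cfsg.Agent.S4334

open CfsgLib CfsgLib.Tech Subgroup

variable {G : Type*} [Group G] [Finite G]

/-- `L` contains a conjugate of every subgroup whose prime divisors divide `|L|` -/
def Cov (L : Subgroup G) : Prop :=
  ∀ U : Subgroup G, (∀ q : ℕ, q.Prime → q ∣ Nat.card U → q ∣ Nat.card L) → ∃ g, cj g U ≤ L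

theorem step {p : ℕ} [hp : Fact p.Prime] {P L : Subgroup G} (hP : IsSylowIn p P ⊤) (hc : P ≤ centralizer (L : Set G))
    (h : Cov L) : Cov (P ⊔ L) := fun U hU => by
  have h1 : ∀ q : ℕ, q.Prime → q ≠ p → q ∣ Nat.card U → q ∣ Nat.card L := fun q hq e hd =>
    (hq.dvd_mul.1 ((hU q hq hd).trans (Core.card_sup_dvd_of_le_normalizer
      (hc.trans (centralizer_le_normalizer _))))).resolve_left fun e1 =>
      e ((Nat.prime_dvd_prime_iff_eq hq hp.out).1 (hq.dvd_of_dvd_pow (hP.card_eq_pow ▸ e1)))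
  obtain ⟨S⟩ : Nonempty (Sylow p U) := inferInstance
  obtain ⟨S, N, _, h2⟩ := Transfer.frobenius_of_forall_prime_pow S fun Q q1 _ q hq e hd g hg ⟨k, hk⟩ => by
    have := Fact.mk hq
    obtain ⟨a, -, ha⟩ := hP.exists_cj_le ((S.isPGroup'.to_le q1).map U.subtype) le_top
    obtain ⟨T, hT⟩ := exists_isSylowIn q (⊤ : Subgroup G)
    obtain ⟨b, hb⟩ := h T fun r hr e1 =>
      (Nat.prime_dvd_prime_iff_eq hr hq).1 (hr.dvd_of_dvd_pow (hT.card_eq_pow ▸ e1)) ▸ h1 q hq e hd
    have h3 : cj a⁻¹ (cj b T) ≤ centralizer (Q.map U.subtype : Set G) := by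
      rw [← cj_inv_cj a (centralizer _), cj_centralizer]
      exact cj_mono _ (hb.trans (le_centralizer_iff.1 (ha.trans hc)))
    obtain ⟨n, n1, n2⟩ := (((hT.cj_of_mem (mem_top b)).cj_of_mem (mem_top a⁻¹)).of_le
      (h3.trans (centralizer_le_normalizer _)) le_top).exists_conj_mem (le_normalizer_map _ (mem_map_of_mem U.subtype hg))
      (isPGroup_zpowers_of_pow (congrArg Subtype.val hk))
    have h4 := conj_mem_of_mem_normalizer' (Core.normalizer_le_normalizer_centralizer _ n1) (h3 n2)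
    simp only [← mul_assoc, inv_mul_cancel, one_mul, inv_mul_cancel_right] at h4
    exact fun y hy => Subtype.ext (h4 y (mem_map_of_mem U.subtype hy))
  obtain ⟨a, ha⟩ := h (N.map U.subtype) fun q hq e => by
    rw [card_subtype] at e
    exact h1 q hq (fun e1 => S.not_dvd_index (h2.index_eq_card ▸ e1 ▸ e)) (e.trans (card_subgroup_dvd_card N))
  obtain ⟨n, n1, n2⟩ := (hP.of_le (K := normalizer (cj a (N.map U.subtype) : Set G)) (hc.trans ((centralizer_le ha).trans
    (centralizer_le_normalizer _))) le_top).exists_cj_le (isPGroup_cj a (S.isPGroup'.map U.subtype)) (by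
      rw [← cj_normalizer]
      exact cj_mono a ((map_subtype_le _).trans (Core.le_normalizer_map_subtype_of_normal N)))
  refine ⟨n * a, ?_⟩
  rw [← U.range_subtype, MonoidHom.range_eq_map, ← h2.sup_eq_top, Subgroup.map_sup, cj_sup, cj_mul, cj_mul,
    mem_normalizer_iff_cj.1 n1]
  exact sup_le (ha.trans le_sup_right) (n2.trans le_sup_left)

theorem nil (n : ℕ) : ∀ A L : Subgroup G, Nat.card A = n → Group.IsNilpotent A →
    (∀ q : ℕ, q.Prime → q ∣ Nat.card A → ¬ q ∣ A.index) → A ≤ centralizer (L : Set G) → Cov L → Cov (A ⊔ L) := by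
  induction n using Nat.strong_induction_on with | _ n ih
  intro A L hn _ h1 h2 h3
  by_cases h0 : A = ⊥
  · rwa [h0, bot_sup_eq]
  obtain ⟨p, hp, h4⟩ := Nat.exists_prime_and_dvd (mt card_eq_one.1 h0)
  have := Fact.mk hp
  have h5 := Core.pCore_sup_pPrimeCore_of_isNilpotent (G := A) hp
  have h6 := congrArg (Subgroup.map A.subtype) h5
  rw [Subgroup.map_sup, ← MonoidHom.range_eq_map, range_subtype, sup_comm] at h6
  have h7 := Core.coprime_card_pPrimeCore p A
  rw [← h6, sup_assoc]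
  refine ih _ (lt_of_lt_of_eq ?_ hn) _ _ rfl (Core.isNilpotent_map _ _) (fun q hq e1 e2 => ?_) ?_ (step ⟨le_top,
    Core.isPGroup_map_pCore A, ?_⟩ ((map_subtype_le _).trans h2) h3)
  · exact Core.card_lt_of_lt (lt_of_le_of_ne (map_subtype_le _) fun e =>
      hp.one_lt.ne' (Nat.eq_one_of_dvd_coprimes h7 (by rwa [← card_subtype, e]) dvd_rfl))
  · rw [card_subtype] at e1
    rw [index_map_subtype] at e2
    refine (hq.dvd_mul.1 e2).elim (fun e3 => ?_) (h1 q hq (e1.trans (card_subgroup_dvd_card _)))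
    obtain ⟨k, hk⟩ := IsPGroup.iff_card.1 (Core.isPGroup_pCore p A)
    rw [← relIndex_top_right, ← h5, relIndex_sup_right] at e3
    obtain rfl := (Nat.prime_dvd_prime_iff_eq hq hp).1 (hq.dvd_of_dvd_pow (hk ▸ e3.trans (relIndex_dvd_card _ _)))
    exact hp.one_lt.ne' (Nat.eq_one_of_dvd_coprimes h7 e1 dvd_rfl)
  · rw [Core.centralizer_sup]
    exact le_inf (Core.le_centralizer_of_coprime_of_le_isNilpotent (map_subtype_le _) (map_subtype_le _)
      (Core.isPGroup_coprime_card (Core.isPGroup_map_pCore A) (Core.coprime_card_map_pPrimeCore A)).symm)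
      ((map_subtype_le _).trans h2)
  · rw [relIndex_top_right, index_map_subtype]
    exact fun e => (hp.dvd_mul.1 e).elim (Core.not_dvd_index_pCore_of_isNilpotent p) (h1 p hp h4)

/-- Let σ and τ be disjoint sets of primes with union π. Suppose a finite group G has a Hall π-subgroup H which is the direct product of a nilpotent σ-subgroup and a τ-subgroup (two elementwise-commuting subgroups generating H), and that the maximal τ-subgroups of G are pairwise conjugate. Then the maximal π-subgroups of G are pairwise conjugate. -/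
theorem result {G : Type*} [Group G] [Finite G]
    (σ τ π : Set ℕ) (hπ : π = σ ∪ τ) (hd : Disjoint σ τ) (H Hs Ht : Subgroup G) (hH : Cfsg.IsPiHall π H)
    (hs : Cfsg.IsPiSubgroup σ Hs) (ht : Cfsg.IsPiSubgroup τ Ht) (hsn : Group.IsNilpotent Hs)
    (hjoin : Hs ⊔ Ht = H) (hcomm : ∀ a ∈ Hs, ∀ b ∈ Ht, a * b = b * a) (hD : Cfsg.IsDPiGroup τ G) :
    Cfsg.IsDPiGroup π G := by
  subst hπ
  have hc : Hs ≤ centralizer (Ht : Set G) := fun a ha b hb => (hcomm a ha b hb).symm
  have key : ∀ (ρ : Set ℕ) (A B : Subgroup G), A ⊔ B = H → B ≤ centralizer (A : Set G) → IsPiSubgroup ρ B →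
      ∀ q : ℕ, q.Prime → q ∈ σ ∪ τ → q ∉ ρ → ¬ q ∣ A.index := fun ρ A B e h1 h2 q hq h3 h4 h5 => by
    rw [← relIndex_mul_index (e ▸ le_sup_left : A ≤ H), ← e] at h5
    refine (hq.dvd_mul.1 h5).elim (fun h6 => h4 (h2 q hq (h6.trans ?_))) (e ▸ hH.2 q hq h3)
    rw [Coprime.relIndex_sup_of_le_normalizer (h1.trans (centralizer_le_normalizer _))]
    exact relIndex_dvd_card _ _
  have mx : ∀ (ρ : Set ℕ) (A : Subgroup G), IsPiSubgroup ρ A → (∀ q : ℕ, q.Prime → q ∈ ρ → ¬ q ∣ A.index) →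
      Maximal (IsPiSubgroup ρ) A := fun ρ A h1 h2 => ⟨h1, fun B h3 h4 => relIndex_eq_one.1 (by_contra fun e => by
    obtain ⟨q, hq, h5⟩ := Nat.exists_prime_and_dvd e
    exact h2 q hq (h3 q hq (h5.trans (relIndex_dvd_card _ _))) (h5.trans (relIndex_dvd_index_of_le h4)))⟩
  have h1 : Cov H := hjoin ▸ nil _ Hs Ht rfl hsn (fun q hq e => key τ Hs Ht hjoin (le_centralizer_iff.1 hc) ht q hq
    (.inl (hs q hq e)) (Set.disjoint_left.1 hd (hs q hq e))) hc fun U hU => by
      obtain ⟨M, h1, h2⟩ := Finite.exists_le_maximal (p := IsPiSubgroup τ) (a := U) fun q hq e => ht q hq (hU q hq e)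
      obtain ⟨g, hg⟩ := hD M Ht h2 (mx τ Ht ht fun q hq e => key σ Ht Hs (sup_comm Hs Ht ▸ hjoin) hc hs q hq (.inr e)
        (Set.disjoint_right.1 hd e))
      exact ⟨g, hg ▸ cj_mono g h1⟩
  have h2 : ∀ M, Maximal (IsPiSubgroup (σ ∪ τ)) M → ∃ g, cj g M = H := fun M hM => by
    obtain ⟨g, hg⟩ := h1 M fun q hq e => (hq.dvd_mul.1 (H.card_mul_index ▸ e.trans (card_subgroup_dvd_card M))).resolve_right
      (hH.2 q hq (hM.1 q hq e))
    refine ⟨g, le_antisymm hg ?_⟩
    rw [← cj_cj_inv g H]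
    exact cj_mono g (hM.2 (fun q hq e => hH.1 q hq (card_cj g⁻¹ H ▸ e)) (cj_inv_cj g M ▸ cj_mono g⁻¹ hg))
  intro A B hA hB
  obtain ⟨a, ha⟩ := h2 A hA
  obtain ⟨b, hb⟩ := h2 B hB
  exact ⟨b⁻¹ * a, ((cj_mul _ _ _).trans (by rw [ha, ← hb, cj_inv_cj])).symm⟩

end Cfsg.Agent.S4334
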