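import Cfsg.Statements.S4337
import Cfsg.Agent.Lib.Fgs.SymSolv
import Cfsg.Agent.Lib.Core.Basic

set_option autoImplicit false
open Cfsg

namespace Cfsg.Agent.S4337

open CfsgLib.Fgs

theorem aux1 {n : ℕ} (a b c : Equiv.Perm (Fin n))
    (ha : a.IsSwap) (hb : b.IsSwap) (h1 : Disjoint c.support a.support)
    (h2 : Disjoint c.support b.support) :
    Group.IsSolvable (Subgroup.closure ({a, b, c} : Set (Equiv.Perm (Fin n)))) := by
  have hab : Group.IsSolvable (Subgroup.closure ({a, b} : Set (Equiv.Perm (Fin n)))) := by
    refine isSolvable_closure_of_support_subset _ (a.support ∪ b.support) ?_ ?_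
    · have := Finset.card_union_le a.support b.support
      rw [Equiv.Perm.card_support_eq_two.2 ha, Equiv.Perm.card_support_eq_two.2 hb] at this
      exact this
    · rintro g (rfl | rfl)
      · exact Finset.subset_union_left
      · exact Finset.subset_union_right
  have hc : Group.IsSolvable (Subgroup.zpowers c) :=
    CfsgLib.Core.isSolvable_of_isMulCommutative
  have hca : Commute c a := (Equiv.Perm.disjoint_iff_disjoint_support.2 h1).commute
  have hcb : Commute c b := (Equiv.Perm.disjoint_iff_disjoint_support.2 h2).commute
  have hn : Subgroup.closure ({a, b} : Set (Equiv.Perm (Fin n))) ≤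
      Subgroup.normalizer (Subgroup.zpowers c : Set (Equiv.Perm (Fin n))) := by
    refine le_trans ?_ (Subgroup.centralizer_le_normalizer _)
    rw [CfsgLib.Core.centralizer_zpowers, Subgroup.closure_le]
    rintro g (rfl | rfl)
    · exact Subgroup.mem_centralizer_singleton_iff.2 hca.symm
    · exact Subgroup.mem_centralizer_singleton_iff.2 hcb.symm
  have := CfsgLib.Core.isSolvable_sup_of_le_normalizer hn
  have e : ({a, b, c} : Set (Equiv.Perm (Fin n))) = {a, b} ∪ {c} := by
    ext; simp; tauto
  rw [e, Subgroup.closure_union, ← Subgroup.zpowers_eq_closure]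
  exact this

theorem card_union_le {α : Type*} [DecidableEq α] {s t : Finset α} (h : ¬ Disjoint s t) :
    (s ∪ t).card + 1 ≤ s.card + t.card := by
  rw [← Finset.card_union_add_card_inter]
  have : (s ∩ t).Nonempty := Finset.not_disjoint_iff_nonempty_inter.1 h
  have := this.card_pos
  omega

theorem aux2 {n : ℕ} (a b c : Equiv.Perm (Fin n))
    (ha : a.IsSwap) (hb : b.IsSwap) (hc : c.IsSwap) (h1 : ¬ Disjoint a.support b.support)
    (h2 : ¬ Disjoint (a.support ∪ b.support) c.support) :
    Group.IsSolvable (Subgroup.closure ({a, b, c} : Set (Equiv.Perm (Fin n)))) := by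
  refine isSolvable_closure_of_support_subset _ (a.support ∪ b.support ∪ c.support) ?_ ?_
  · have e1 := card_union_le h1
    have e2 := card_union_le h2
    rw [Equiv.Perm.card_support_eq_two.2 ha, Equiv.Perm.card_support_eq_two.2 hb] at e1
    rw [Equiv.Perm.card_support_eq_two.2 hc] at e2
    omega
  · rintro g (rfl | rfl | rfl)
    · exact Finset.subset_union_left.trans Finset.subset_union_left
    · exact Finset.subset_union_right.trans Finset.subset_union_left
    · exact Finset.subset_union_right

/-- In a finite symmetric group, any three transpositions generate a solvable subgroup. -/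
theorem result (n : ℕ) (a b c : Equiv.Perm (Fin n))
    (ha : a.IsSwap) (hb : b.IsSwap) (hc : c.IsSwap) :
    Group.IsSolvable (Subgroup.closure ({a, b, c} : Set (Equiv.Perm (Fin n)))) := by
  by_cases h2 : Disjoint (a.support ∪ b.support) c.support
  · rw [Finset.disjoint_union_left] at h2
    exact aux1 a b c ha hb h2.1.symm h2.2.symm
  by_cases h1 : Disjoint a.support b.support
  swap
  · exact aux2 a b c ha hb hc h1 h2
  by_cases h3 : Disjoint a.support c.support
  · have := aux1 b c a hb hc h1 h3
    rwa [show ({b, c, a} : Set (Equiv.Perm (Fin n))) = {a, b, c} by ext; simp; tauto] at this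
  by_cases h4 : Disjoint b.support c.support
  · have := aux1 a c b ha hc h1.symm h4
    rwa [show ({a, c, b} : Set (Equiv.Perm (Fin n))) = {a, b, c} by ext; simp; tauto] at this
  have := aux2 a c b ha hc hb h3 (by
    rw [Finset.disjoint_union_left]
    exact fun h => h4 h.2.symm)
  rwa [show ({a, c, b} : Set (Equiv.Perm (Fin n))) = {a, b, c} by ext; simp; tauto] at this

end Cfsg.Agent.S4337
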