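import Cfsg.Statements.S4342

set_option autoImplicit false
open Cfsg

namespace Cfsg.Agent.S4342

theorem sylow_le_of_not_dvd_index {G : Type*} [Group G] [Finite G]
    (p : ℕ) [Fact p.Prime] (H : Subgroup G) [H.Normal] (hp : ¬ p ∣ H.index) (P : Sylow p G) :
    (P : Subgroup G) ≤ H := by
  intro x hx
  obtain ⟨k, hk⟩ := P.isPGroup' ⟨x, hx⟩
  have hk' : x ^ p ^ k = 1 := by simpa using congrArg Subtype.val hk
  have h1 : (QuotientGroup.mk x : G ⧸ H) ^ p ^ k = 1 := by
    rw [← QuotientGroup.mk_pow, hk', QuotientGroup.mk_one]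
  have h2 : (QuotientGroup.mk x : G ⧸ H) ^ H.index = 1 := pow_card_eq_one'
  have hc : Nat.Coprime (p ^ k) H.index :=
    Nat.Coprime.pow_left k ((Nat.Prime.coprime_iff_not_dvd Fact.out).2 hp)
  have h3 : orderOf (QuotientGroup.mk x : G ⧸ H) = 1 :=
    Nat.eq_one_of_dvd_coprimes hc (orderOf_dvd_of_pow_eq_one h1) (orderOf_dvd_of_pow_eq_one h2)
  rw [orderOf_eq_one_iff] at h3
  exact (QuotientGroup.eq_one_iff x).1 h3

theorem card_sylow_subgroup {G : Type*} [Group G] [Finite G]
    (p : ℕ) [Fact p.Prime] (H : Subgroup G) [H.Normal] (hp : ¬ p ∣ H.index) :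
    Nat.card (Sylow p H) = Nat.card (Sylow p G) := by
  symm
  refine Nat.card_congr (Equiv.ofBijective
    (fun P : Sylow p G => P.subtype (sylow_le_of_not_dvd_index p H hp P)) ⟨?_, ?_⟩)
  · intro P Q h
    exact Sylow.subtype_injective h
  · intro Q
    obtain ⟨P, hP⟩ := Q.exists_comap_subtype_eq
    exact ⟨P, Sylow.ext hP⟩

theorem card_sylow_quotient_center {H : Type*} [Group H] [Finite H]
    (p : ℕ) [Fact p.Prime] :
    Nat.card (Sylow p (H ⧸ Subgroup.center H)) = Nat.card (Sylow p H) := by
  symm
  have hf : Function.Surjective (QuotientGroup.mk' (Subgroup.center H)) :=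
    QuotientGroup.mk'_surjective _
  refine Nat.card_congr (Equiv.ofBijective
    (Sylow.mapSurjective hf) ⟨?_, Sylow.mapSurjective_surjective hf p⟩)
  intro P Q h
  have h1 : (P : Subgroup H).map (QuotientGroup.mk' (Subgroup.center H)) =
      (Q : Subgroup H).map (QuotientGroup.mk' (Subgroup.center H)) := by
    have := congrArg (fun R : Sylow p (H ⧸ Subgroup.center H) =>
      (R : Subgroup (H ⧸ Subgroup.center H))) h
    simpa using this
  have h2 : (P : Subgroup H) ≤ Subgroup.normalizer ((Q : Subgroup H) : Set H) := by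
    have h3 : (P : Subgroup H) ≤ (Q : Subgroup H) ⊔ Subgroup.center H := by
      have := congrArg (Subgroup.comap (QuotientGroup.mk' (Subgroup.center H))) h1
      rw [Subgroup.comap_map_eq, Subgroup.comap_map_eq, QuotientGroup.ker_mk'] at this
      rw [← this]; exact le_sup_left
    refine h3.trans (sup_le Subgroup.le_normalizer ?_)
    exact Subgroup.center_le_normalizer _
  have h4 := P.isPGroup'.inf_normalizer_sylow Q
  have h5 : (P : Subgroup H) ≤ Q := by
    have h6 : (P : Subgroup H) ≤ (P : Subgroup H) ⊓ Subgroup.normalizer (Q : Set H) :=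
      le_inf le_rfl h2
    rw [h4] at h6
    exact h6.trans inf_le_right
  exact Sylow.ext (P.is_maximal' Q.isPGroup' h5).symm

/-- Let H be a normal subgroup of a finite group G and p a prime not dividing the index of H. Then the number of Sylow p-subgroups of H/Z(H) equals the number of Sylow p-subgroups of G. -/
theorem result {G : Type*} [Group G] [Finite G]
    (p : ℕ) [Fact p.Prime] (H : Subgroup G) [H.Normal] (hp : ¬ p ∣ H.index) :
    Nat.card (Sylow p (H ⧸ Subgroup.center H)) = Nat.card (Sylow p G) := by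
  rw [card_sylow_quotient_center, card_sylow_subgroup p H hp]

end Cfsg.Agent.S4342
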