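import Cfsg.Statements.S4344

set_option autoImplicit false
open Cfsg

namespace Cfsg.Agent.S4344

/-- Let S be a finite non-abelian simple group, M a maximal subgroup of S and C a cyclic normal subgroup of M. If a Sylow p-subgroup P of S (for a prime p dividing the order of S) is contained in C, then the number of Sylow p-subgroups of S equals the index of M. -/
theorem result {S : Type*} [Group S] [Finite S]
    [IsSimpleGroup S] (hS : ¬ IsMulCommutative S) (p : ℕ) [Fact p.Prime] (hp : p ∣ Nat.card S)
    (M : Subgroup S) (hM : IsCoatom M) (C : Subgroup S) (hCM : C ≤ M) (hCn : (C.subgroupOf M).Normal)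
    (hC : IsCyclic C) (P : Sylow p S) (hP : (P : Subgroup S) ≤ C) :
    Nat.card (Sylow p S) = M.index := by
  rw [P.card_eq_index_normalizer]
  congr 1
  have hne : (P : Subgroup S) ≠ ⊥ := P.ne_bot_of_dvd_card hp
  -- M normalizes P
  have hMN : M ≤ Subgroup.normalizer ((P : Subgroup S) : Set S) := by
    have hCN : M ≤ Subgroup.normalizer (C : Set S) :=
      (Subgroup.normal_subgroupOf_iff_le_normalizer hCM).1 hCn
    intro m hm
    have hmC := hCN hm
    -- m • P is a Sylow subgroup inside C
    have h1 : ((m • P : Sylow p S) : Subgroup S) ≤ C := by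
      intro x hx
      rw [Sylow.coe_subgroup_smul, Subgroup.mem_pointwise_smul_iff_inv_smul_mem] at hx
      have hx' := hP hx
      have := (Subgroup.mem_normalizer_iff.1 hmC _).1 hx'
      simpa [mul_assoc] using this
    have h2 : (m • P).subtype h1 = P.subtype hP := by
      haveI : IsMulCommutative C := inferInstance
      haveI : ((P.subtype hP : Sylow p C) : Subgroup C).Normal := inferInstance
      haveI := Sylow.unique_of_normal (P.subtype hP) this
      exact Subsingleton.elim _ _
    have h3 := Sylow.subtype_injective h2
    exact Sylow.smul_eq_iff_mem_normalizer.1 h3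
  rcases hMN.lt_or_eq with hlt | heq
  · exfalso
    have htop := hM.2 _ hlt
    have hn : (P : Subgroup S).Normal := Subgroup.normalizer_eq_top_iff.1 htop
    rcases hn.eq_bot_or_eq_top with h | h
    · exact hne h
    · have : C = ⊤ := top_le_iff.1 (h ▸ hP)
      exact hM.1 (top_le_iff.1 (this ▸ hCM))
  · exact heq.symm

end Cfsg.Agent.S4344
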