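import Cfsg.Statements.S4354
import Mathlib
import Cfsg.Agent.Lib.Fgs.ClassSize

set_option autoImplicit false
open Cfsg

namespace Cfsg.Agent.S4354

open Subgroup CfsgLib.Fgs in
theorem comm_of_parts {G : Type*} [Group G] [Finite G] (p : ℕ) [Fact p.Prime]
    (h : ∀ x : G, (∃ k : ℕ, orderOf x = p ^ k) → ¬ p ∣ (Subgroup.centralizer ({x} : Set G)).index)
    (N : Subgroup G) [N.Normal] (hN : ∀ P : Sylow p N, IsMulCommutative P)
    (hQ : ∀ P : Sylow p (G ⧸ N), IsMulCommutative P) (P : Sylow p G) : IsMulCommutative P := by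
  have hf : Function.Surjective (QuotientGroup.mk' N) := QuotientGroup.mk'_surjective N
  have key : ∀ x ∈ (P : Subgroup G), ∃ z ∈ (P : Subgroup G), (∀ y ∈ (P : Subgroup G), Commute z y) ∧
      z⁻¹ * x ∈ N := by
    intro x hx
    have hxo := orderOf_eq_pow_of_mem_isPGroup P.isPGroup' hx
    obtain ⟨Q, hQx⟩ := exists_sylow_le_of_not_dvd_index (h x hxo)
    let C : Subgroup G := (centralizer ({(x : G ⧸ N)} : Set (G ⧸ N))).comap (QuotientGroup.mk' N)
    have hPC : (P : Subgroup G) ≤ C := by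
      intro y hy
      have := (hQ (P.mapSurjective hf)).is_comm.comm ⟨(x : G ⧸ N), ⟨x, hx, rfl⟩⟩
        ⟨(y : G ⧸ N), ⟨y, hy, rfl⟩⟩
      exact mem_cent_iff.2 (congrArg Subtype.val this)
    have hQC : (Q : Subgroup G) ≤ C := by
      intro y hy
      exact mem_cent_iff.2 ((mem_cent_iff.1 (hQx hy)).map (QuotientGroup.mk' N))
    obtain ⟨c, hc⟩ := MulAction.exists_smul_eq C (Q.subtype hQC) (P.subtype hPC)
    rw [Sylow.smul_subtype] at hc
    have hc' : c • Q = P := Sylow.subtype_injective hc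
    have hcomm : ∀ y ∈ (P : Subgroup G), Commute ((c : G) * x * (c : G)⁻¹) y := by
      intro y hy
      rw [← hc'] at hy
      obtain ⟨w, hw, rfl⟩ := hy
      have h1 : Commute x w := mem_cent_iff.1 (hQx hw)
      have h2 := h1.map (MulAut.conj (c : G))
      simpa using h2
    refine ⟨c * x * (c : G)⁻¹, ?_, hcomm, ?_⟩
    · obtain ⟨k, hk⟩ := hxo
      have hz : IsPGroup p (zpowers ((c : G) * x * (c : G)⁻¹)) := IsPGroup.of_card (n := k) (by
        rw [Nat.card_zpowers, ← hk]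
        exact (SemiconjBy.orderOf_eq (c : G) (by simp [SemiconjBy])).symm)
      have h1 := hz.inf_normalizer_sylow P
      have h2 : (c : G) * x * (c : G)⁻¹ ∈ zpowers ((c : G) * x * (c : G)⁻¹) ⊓
          normalizer (P : Set G) := by
        refine ⟨mem_zpowers _, ?_⟩
        apply centralizer_le_normalizer
        intro y hy
        exact (hcomm y hy).symm
      rw [h1] at h2
      exact h2.2
    · rw [← QuotientGroup.eq]
      have h1 : Commute (x : G ⧸ N) ((c : G) : G ⧸ N) := mem_cent_iff.1 c.2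
      rw [QuotientGroup.mk_mul, QuotientGroup.mk_mul, QuotientGroup.mk_inv, ← h1.eq]
      simp
  refine ⟨⟨fun x y => Subtype.ext ?_⟩⟩
  obtain ⟨a, haP, ha, haN⟩ := key x x.2
  obtain ⟨b, hbP, hb, hbN⟩ := key y y.2
  have hPN : IsPGroup p ((P : Subgroup G).subgroupOf N) := P.isPGroup'.comap_subtype
  obtain ⟨R, hR⟩ := hPN.exists_le_sylow
  have h1 := (hN R).is_comm.comm
    ⟨⟨a⁻¹ * x, haN⟩, hR (by exact mul_mem (inv_mem haP) x.2)⟩
    ⟨⟨b⁻¹ * y, hbN⟩, hR (by exact mul_mem (inv_mem hbP) y.2)⟩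
  have h2 : Commute (a⁻¹ * (x : G)) (b⁻¹ * (y : G)) := congrArg (fun t : R => ((t : N) : G)) h1
  have h3 : Commute (a * (a⁻¹ * (x : G))) (b * (b⁻¹ * (y : G))) := by
    refine Commute.mul_left (ha _ (by simp)) (Commute.mul_right ?_ h2)
    exact (hb _ (mul_mem (inv_mem haP) x.2)).symm
  simpa using h3.eq

/-- Let G be a finite group and p a prime such that the Sylow p-subgroups of G are non-abelian while every element of p-power order has conjugacy class size prime to p, and suppose no nontrivial proper normal subgroup N of G has this property and no quotient G/N by such an N has it. Then G is simple. -/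
theorem result {G : Type*} [Group G] [Finite G]
    (p : ℕ) [Fact p.Prime] (h : ((∃ P : Sylow p G, ¬ IsMulCommutative P) ∧ ∀ x : G, (∃ k : ℕ, orderOf x = p ^ k) → ¬ p ∣ (Subgroup.centralizer ({x} : Set G)).index))
    (hmin : ∀ (N : Subgroup G) [N.Normal], N ≠ ⊥ → N ≠ ⊤ →
      ¬ ((∃ P : Sylow p N, ¬ IsMulCommutative P) ∧ ∀ x : N, (∃ k : ℕ, orderOf x = p ^ k) → ¬ p ∣ (Subgroup.centralizer ({x} : Set N)).index) ∧
      ¬ ((∃ P : Sylow p (G ⧸ N), ¬ IsMulCommutative P) ∧ ∀ x : (G ⧸ N), (∃ k : ℕ, orderOf x = p ^ k) → ¬ p ∣ (Subgroup.centralizer ({x} : Set (G ⧸ N))).index)) :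
    IsSimpleGroup G := by
  obtain ⟨⟨P, hP⟩, h⟩ := h
  have hnt : Nontrivial G := by
    by_contra hs
    rw [not_nontrivial_iff_subsingleton] at hs
    exact hP ⟨⟨fun _ _ => Subsingleton.elim _ _⟩⟩
  refine ⟨fun N hN => ?_⟩
  by_contra hne
  push Not at hne
  obtain ⟨h1, h2⟩ := hmin N hne.1 hne.2
  apply hP
  refine comm_of_parts p h N ?_ ?_ P
  · intro R
    by_contra hR
    refine h1 ⟨⟨R, hR⟩, fun x hx hd => ?_⟩
    refine h x ?_ (hd.trans (CfsgLib.Fgs.index_cent_normal_dvd N x))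
    simpa using hx
  · intro R
    by_contra hR
    refine h2 ⟨⟨R, hR⟩, fun x hx hd => ?_⟩
    obtain ⟨S, hS⟩ := CfsgLib.Fgs.exists_sylow_mem hx
    obtain ⟨T, rfl⟩ := Sylow.mapSurjective_surjective (QuotientGroup.mk'_surjective N) p S
    obtain ⟨y, hy, rfl⟩ := hS
    exact h y (CfsgLib.Fgs.orderOf_eq_pow_of_mem_isPGroup T.isPGroup' hy)
      (hd.trans (CfsgLib.Fgs.index_cent_quotient_dvd N y))

end Cfsg.Agent.S4354
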