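import Mathlib
import Cfsg.Statements.S4359
import Cfsg.Agent.Lib.Sims.Exist

set_option autoImplicit false
open Pointwise
open Cfsg

namespace Cfsg.Agent.S4359

open CfsgLib.BG CfsgLib.Sims

/-- Let P be a subgroup of a finite group G and g an element such that P ∩ g⁻¹Pg is a normal subgroup of prime index p in g⁻¹Pg. Let n ≥ 1 and let K be the subgroup generated by P and its conjugates g⁻ⁱPgⁱ for i ≤ n. Suppose that g normalizes no non-identity normal subgroup of P and that P meets the center of K trivially. Then the order of P is pᵗ for some t with 1 ≤ t ≤ 3n and t ≠ 3n - 1. -/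
theorem result {G : Type*} [Group G] [Finite G]
    (P : Subgroup G) (g : G) (p : ℕ) (hp : p.Prime)
    (hN : ((P ⊓ MulAut.conj g⁻¹ • P).subgroupOf (MulAut.conj g⁻¹ • P)).Normal)
    (hidx : (P ⊓ MulAut.conj g⁻¹ • P).relIndex (MulAut.conj g⁻¹ • P) = p)
    (n : ℕ) (hn : 1 ≤ n) (K : Subgroup G) (hK : K = ⨆ i ∈ Finset.range (n + 1), MulAut.conj (g ^ i)⁻¹ • P)
    (h1 : ∀ Q : Subgroup G, Q ≤ P → (Q.subgroupOf P).Normal → MulAut.conj g • Q = Q → Q = ⊥)
    (h2 : P ⊓ (Subgroup.center K).map K.subtype = ⊥) :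
    ∃ t : ℕ, Nat.card P = p ^ t ∧ 1 ≤ t ∧ t ≤ 3 * n ∧ t ≠ 3 * n - 1 := by
  have h1' : ∀ Q : Subgroup G, Q ≤ P → P ≤ 𝒩(Q) → g ∈ 𝒩(Q) → Q = ⊥ := fun Q h2 h3 h4 =>
    h1 Q h2 ((Subgroup.normal_subgroupOf_iff_le_normalizer h2).2 h3) (mem_norm_iff.1 h4)
  have hP := isPGroup_of_normal hp hN hidx h1'
  obtain ⟨t, x, ht, hc, e⟩ := exists_chain hp hP ((relIndex_inf_cj P g⁻¹).symm.trans hidx) h1'
  have hK' : K ≤ seg x (-n) (t - 1) := by
    rw [hK]
    refine iSup₂_le fun i hi => ?_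
    have := cj_seg hc.shift (-i) 0 (t - 1)
    rw [zpow_neg, zpow_natCast, ← e] at this
    rw [conj_smul_eq_cj, this]
    have := Finset.mem_range.1 hi
    exact seg_mono (by omega) (by omega)
  have hPK : P ≤ K := by
    rw [hK]
    exact le_iSup₂_of_le (f := fun i (_ : i ∈ Finset.range (n + 1)) => MulAut.conj (g ^ i)⁻¹ • P) 0
      (by simp) (by simp)
  refine ⟨t, by rw [e]; exact hc.card _ _ t le_rfl (by omega), ht, ?_⟩
  rcases hc.bound ht n (fun z hz hcm => Subgroup.mem_bot.1 (h2.le ⟨e.ge hz, ⟨z, hPK (e.ge hz)⟩,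
    Subgroup.mem_center_iff.2 fun w => Subtype.ext (commute_seg hcm (hK' w.2)).symm.eq, rfl⟩)) with
    ⟨h3, -⟩ | ⟨k, -, h3, h4, -⟩ <;> omega

end Cfsg.Agent.S4359
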