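import Cfsg.Statements.S4370
import Cfsg.Agent.Lib.Frob.Complement
import Cfsg.Agent.Lib.LocStr.RankOne
import Cfsg.Agent.Lib.Core.Fitting

set_option autoImplicit false
open Cfsg

namespace Cfsg.Agent.S4370

open Subgroup CfsgLib

theorem quat_cent {n : ℕ} [NeZero n] (q : QuaternionGroup n) (hq : q ∉ center (QuaternionGroup n)) :
    ∃ u : QuaternionGroup n, ∀ y, y * q = q * y → y ∈ zpowers u := by
  have key : ∀ j : ZMod (2 * n), j + j = 0 → j = 0 ∨ j = n := by
    intro j hj
    have hn : 0 < n := Nat.pos_of_ne_zero (NeZero.ne n)
    have h1 : ((j.val + j.val : ℕ) : ZMod (2 * n)) = 0 := by push_cast; simpa using hj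
    rw [ZMod.natCast_eq_zero_iff] at h1
    obtain ⟨c, hc⟩ := h1
    have hlt := ZMod.val_lt j
    have hc2 : c < 2 := by nlinarith
    interval_cases c
    · left
      have : j.val = 0 := by omega
      exact (ZMod.val_eq_zero j).1 this
    · right
      have : j.val = n := by omega
      exact (ZMod.natCast_zmod_val j).symm.trans (by rw [this])
  rcases q with i | i
  · refine ⟨QuaternionGroup.a 1, fun y hy => ?_⟩
    rcases y with j | j
    · exact ⟨(j.val : ℕ), by
        show QuaternionGroup.a 1 ^ ((j.val : ℕ) : ℤ) = _
        rw [zpow_natCast, QuaternionGroup.a_one_pow, ZMod.natCast_zmod_val]⟩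
    · exfalso
      apply hq
      simp only [QuaternionGroup.xa_mul_a, QuaternionGroup.a_mul_xa, QuaternionGroup.xa.injEq] at hy
      have hi : i = -i := by linear_combination hy
      rw [mem_center_iff]
      rintro (k | k)
      · simp [add_comm]
      · simp only [QuaternionGroup.xa_mul_a, QuaternionGroup.a_mul_xa, QuaternionGroup.xa.injEq]
        linear_combination hi
  · refine ⟨QuaternionGroup.xa i, fun y hy => ?_⟩
    have h2 : QuaternionGroup.a (n : ZMod (2 * n)) ∈ zpowers (QuaternionGroup.xa i) := by
      have : QuaternionGroup.xa i * QuaternionGroup.xa i = QuaternionGroup.a (n : ZMod (2 * n)) := by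
        simp
      rw [← this]
      exact mul_mem (mem_zpowers _) (mem_zpowers _)
    rcases y with j | j
    · simp only [QuaternionGroup.xa_mul_a, QuaternionGroup.a_mul_xa, QuaternionGroup.xa.injEq] at hy
      rcases key j (by linear_combination -hy) with h | h
      · rw [h]; exact one_mem _
      · rw [h]; exact h2
    · simp only [QuaternionGroup.xa_mul_xa, QuaternionGroup.a.injEq] at hy
      rcases key (j - i) (by linear_combination -hy) with h | h
      · have : j = i := by linear_combination h
        rw [this]; exact mem_zpowers _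
      · have : QuaternionGroup.xa j = QuaternionGroup.xa i * QuaternionGroup.a (n : ZMod (2 * n)) := by
          simp only [QuaternionGroup.xa_mul_a, QuaternionGroup.xa.injEq]
          linear_combination h
        rw [this]
        exact mul_mem (mem_zpowers _) h2

/-- Let G be a finite non-abelian nilpotent group. Then the centralizer of every non-central element of G is cyclic if and only if G is isomorphic to the direct product of a generalized quaternion group and a cyclic group of odd order. -/
theorem result {G : Type*} [Group G] [Finite G] (hG : Group.IsNilpotent G)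
    (hna : ¬ IsMulCommutative G) :
    (∀ x : G, x ∉ Subgroup.center G → IsCyclic (Subgroup.centralizer ({x} : Set G))) ↔
      ∃ (k m : ℕ), 1 ≤ k ∧ Odd m ∧ Nonempty (G ≃* QuaternionGroup (2 ^ k) × Multiplicative (ZMod m)) := by
  haveI : Fact (Nat.Prime 2) := ⟨Nat.prime_two⟩
  constructor
  · intro h
    have hz : ∃ z : G, z ∉ center G := by
      by_contra hc
      push Not at hc
      exact hna ⟨⟨fun a b => mem_center_iff.1 (hc b) a⟩⟩
    have hcomm : ∀ x y : G, y * x = x * y → ∃ C : Subgroup G, IsCyclic C ∧ x ∈ C ∧ y ∈ C := by
      intro x y hxy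
      by_cases hx : x ∈ center G
      · by_cases hy : y ∈ center G
        · obtain ⟨z, hz⟩ := hz
          exact ⟨_, h z hz, mem_centralizer_singleton_iff.2 (mem_center_iff.1 hx z).symm,
            mem_centralizer_singleton_iff.2 (mem_center_iff.1 hy z).symm⟩
        · exact ⟨_, h y hy, mem_centralizer_singleton_iff.2 hxy.symm,
            mem_centralizer_singleton_iff.2 rfl⟩
      · exact ⟨_, h x hx, mem_centralizer_singleton_iff.2 rfl, mem_centralizer_singleton_iff.2 hxy⟩
    have hpq : Frob.PQCond G := by
      intro x y hx hy hxy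
      have hc : y * x = x * y := by
        by_cases e : orderOf x = orderOf y
        · exact Frob.commute_of_orderOf_eq_prime hx e hxy
        · exact (Core.commute_of_coprime_orderOf_of_isNilpotent
            ((Nat.coprime_primes hy hx).2 (Ne.symm e))).eq
      refine ⟨hc, fun e => ?_⟩
      obtain ⟨C, hC, hxC, hyC⟩ := hcomm x y hc
      obtain ⟨k, hk⟩ := LocStr.mem_zpowers_of_isCyclic (T := C) (p := orderOf x) hx.pos
        (x := ⟨x, hxC⟩) (y := ⟨y, hyC⟩) (orderOf_mk _ _)
        (Subtype.ext (by rw [e]; exact pow_orderOf_eq_one y))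
      exact ⟨k, by simpa using congrArg Subtype.val hk⟩
    set S := pCore 2 G with hS
    set O := pPrimeCore 2 G with hO
    have hSp := Core.isPGroup_pCore 2 G
    have hodd := Core.odd_card_oddCore G
    have hsup : S ⊔ O = ⊤ := by
      rw [eq_top_iff, ← Core.fittingSubgroup_eq_top_iff.2 inferInstance]
      exact Core.fittingSubgroup_le_pCore_sup_pPrimeCore Nat.prime_two
    have hinf : S ⊓ O = ⊥ := Core.isPGroup_inf_eq_bot_of_coprime hSp (Core.coprime_card_pPrimeCore 2 G)
    have hc : ∀ (s : S) (o : O), Commute (S.subtype s) (O.subtype o) := fun s o =>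
      (Core.le_centralizer_of_normal_of_disjoint hinf s.2 o o.2).symm
    haveI := (hpq.subgroup O).isZGroup_of_odd hodd
    have hOc : IsCyclic O := inferInstance
    let φ : S × O →* G := MonoidHom.noncommCoprod S.subtype O.subtype hc
    have hφ : Function.Bijective φ := by
      constructor
      · rw [injective_iff_map_eq_one]
        rintro ⟨s, o⟩ hos
        have e : (s : G) * o = 1 := hos
        have h1 : (o : G) ∈ S ⊓ O :=
          mem_inf.2 ⟨by rw [← inv_eq_of_mul_eq_one_right e]; exact inv_mem s.2, o.2⟩
        rw [hinf, mem_bot] at h1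
        rw [h1, mul_one] at e
        exact Prod.ext (Subtype.ext e) (Subtype.ext h1)
      · intro g
        obtain ⟨s, hs, o, ho, rfl⟩ := (Core.mem_sup_of_le_normalizer_right (H := S) (N := O)
          le_normalizer_of_normal).1 (show g ∈ S ⊔ O by rw [hsup]; exact mem_top g)
        exact ⟨(⟨s, hs⟩, ⟨o, ho⟩), rfl⟩
    let e := MulEquiv.ofBijective φ hφ
    rcases (hpq.subgroup S).cyclic_or_quaternion hSp with hcyc | ⟨-, n, hn, ⟨eq⟩⟩
    · exfalso
      refine hna ⟨⟨fun a b => ?_⟩⟩
      obtain ⟨a, rfl⟩ := e.surjective a
      obtain ⟨b, rfl⟩ := e.surjective b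
      rw [← map_mul, ← map_mul]
      congr 1
      exact Prod.ext (IsCyclic.isMulCommutative.is_comm.comm a.1 b.1)
        (IsCyclic.isMulCommutative.is_comm.comm a.2 b.2)
    · exact ⟨n, _, hn, hodd, ⟨e.symm.trans (MulEquiv.prodCongr eq (zmodCyclicMulEquiv hOc).symm)⟩⟩
  · rintro ⟨k, m, hk, hm, ⟨e⟩⟩ x hx
    haveI : NeZero (2 ^ k) := ⟨by positivity⟩
    haveI : NeZero m := ⟨by rintro rfl; simp at hm⟩
    have hq : (e x).1 ∉ center (QuaternionGroup (2 ^ k)) := by
      intro hc
      apply hx
      rw [mem_center_iff]
      intro g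
      apply e.injective
      rw [map_mul, map_mul]
      exact Prod.ext (mem_center_iff.1 hc _) (mul_comm _ _)
    obtain ⟨u, hu⟩ := quat_cent _ hq
    have hcyc : IsCyclic (zpowers u × Multiplicative (ZMod m)) := by
      rw [Group.isCyclic_prod_iff]
      refine ⟨inferInstance, inferInstance, ?_⟩
      have h1 : Nat.card (zpowers u) ∣ 2 ^ (k + 2) := by
        have := card_subgroup_dvd_card (zpowers u)
        rw [Nat.card_eq_fintype_card (α := QuaternionGroup _), QuaternionGroup.card] at this
        convert this using 1
        ring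
      have h2 : Nat.card (Multiplicative (ZMod m)) = m := by simp
      rw [h2]
      exact Nat.Coprime.coprime_dvd_left h1 (Nat.Coprime.pow_left _ ((Nat.coprime_two_left).2 hm))
    let f : centralizer ({x} : Set G) →* zpowers u × Multiplicative (ZMod m) :=
      MonoidHom.prod
        (((MonoidHom.fst _ _).comp (e.toMonoidHom.comp (Subgroup.subtype _))).codRestrict _ (fun y => by
          apply hu
          have := mem_centralizer_singleton_iff.1 y.2
          have h2 := congrArg (fun z => (e z).1) this
          simpa using h2))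
        ((MonoidHom.snd _ _).comp (e.toMonoidHom.comp (Subgroup.subtype _)))
    refine isCyclic_of_injective f fun a b hab => ?_
    apply Subtype.ext
    apply e.injective
    exact Prod.ext (congrArg (fun z => (z.1 : QuaternionGroup (2 ^ k))) hab) (congrArg (fun z => (z.2 : Multiplicative (ZMod m))) hab)

end Cfsg.Agent.S4370
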