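import Cfsg.Statements.S4375
import Cfsg.Agent.Lib.Base.Main
import Cfsg.Agent.Lib.FT.OddOrder

set_option autoImplicit false
open Cfsg

namespace Cfsg.Agent.S4375

/-- Let the finite group A of odd order act faithfully on the finite additive group V by group automorphisms, completely reducibly (every A-invariant subgroup has an A-invariant complement). Then there are v, w ∈ V such that only the identity of A fixes both. -/
theorem result {A V : Type*} [Group A] [Finite A]
    [AddCommGroup V] [Finite V] [DistribMulAction A V] [FaithfulSMul A V] (hA : Odd (Nat.card A))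
    (hcr : (∀ U : AddSubgroup V, (∀ a : A, ∀ v ∈ U, a • v ∈ U) → ∃ W : AddSubgroup V, (∀ a : A, ∀ w ∈ W, a • w ∈ W) ∧ U ⊓ W = ⊥ ∧ U ⊔ W = ⊤)) :
    ∃ v w : V, ∀ a : A, a • v = v → a • w = w → a = 1 := by
  have := CfsgLib.FT.odd_order_solvable hA
  obtain ⟨v, hv⟩ := CfsgLib.Base.CR.hasBase_odd (G := A) (V := V) hcr hA
  exact ⟨v 0, v 1, fun a h0 h1 => FaithfulSMul.eq_of_smul_eq_smul (α := V) fun u => by
    rw [one_smul, hv a fun i => by fin_cases i <;> assumption]⟩

end Cfsg.Agent.S4375
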