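import Cfsg.Statements.S4376
import Cfsg.Agent.Lib.OrdType.Small
import Cfsg.Agent.S4377

set_option autoImplicit false
open Cfsg

namespace Cfsg.Agent.S4376

open CfsgLib.OrdType

abbrev C2 := Multiplicative (ZMod 2)
abbrev C4 := Multiplicative (ZMod 4)

def d2 : Chr C2 := ⟨fun l => l.toAdd.val % 2 == 1, by decide⟩
def d4 : Chr C4 := ⟨fun l => l.toAdd.val % 2 == 1, by decide⟩

abbrev D8 := SD (d2.act 4)

def al : Chr D8 := ⟨fun l => l.v.val % 2 == 1, by decide +kernel⟩
def be : Chr D8 := d2.lift _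

def f1 := F (Chr.zero C2) d2 d2 d2
def f2 := F (Chr.zero (D8 × C2)) (d2.snd D8) (d2.snd D8) (be.fst C2)
def f3 := F (Chr.zero (D8 × C2)) (Chr.zero _) (d2.snd D8) ((be.fst C2).add (d2.snd D8))
def f4 := F (d2.snd C4) (d2.snd C4) ((d4.fst C2).add (d2.snd C4)) (d4.fst C2)
def f5 := F (Chr.zero (C4 × C2)) (d2.snd C4) (d4.fst C2) (d4.fst C2)
def f6 := F (Chr.zero (D8 × C2)) (Chr.zero _) (al.fst C2) (d2.snd D8)
def f7 := F (Chr.zero (D8 × C4)) (Chr.zero _) (al.fst C4) (d4.snd D8)
def f8 := F (al.snd D8) ((al.add be).snd D8) (al.fst D8) ((al.fst D8).add (be.snd D8))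
def f9 := F (Chr.zero (D8 × C2)) (d2.snd D8) (al.fst C2) (d2.snd D8)

theorem key : ∀ n ∈ Nat.divisors 84,
    sG.countP (· ∣ n) * (f1 n * f1 n) * f3 n * (f7 n * f7 n) * f8 n * f9 n =
      M3.s.countP (· ∣ n) * (f2 n * f4 n * f5 n * (f6 n * f6 n * (f6 n * f6 n))) := by
  rw [show Nat.divisors 84 = {1, 2, 3, 4, 6, 7, 12, 14, 21, 28, 42, 84} by decide +kernel]
  decide +kernel

theorem r1 : Real f1 := real_F (by decide +kernel) _ _ _ _
theorem r2 : Real f2 := real_F (by decide +kernel) _ _ _ _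
theorem r3 : Real f3 := real_F (by decide +kernel) _ _ _ _
theorem r4 : Real f4 := real_F (by decide +kernel) _ _ _ _
theorem r5 : Real f5 := real_F (by decide +kernel) _ _ _ _
theorem r6 : Real f6 := real_F (by decide +kernel) _ _ _ _
theorem r7 : Real f7 := real_F (by decide +kernel) _ _ _ _
theorem r8 : Real f8 := real_F (by decide +kernel) _ _ _ _
theorem r9 : Real f9 := real_F (by decide +kernel) _ _ _ _

/-- There are finite groups G and H having the same number of elements of each order (the same order type) with G solvable and H not solvable. -/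
theorem result :
    ∃ (G : Type) (_ : Group G) (_ : Finite G) (H : Type) (_ : Group H) (_ : Finite H),
      Group.IsSolvable G ∧ ¬ Group.IsSolvable H ∧ ∀ n : ℕ, Nat.card {g : G // orderOf g = n} = Nat.card {h : H // orderOf h = n} := by
  obtain ⟨G, _, _, hG, hGe, hGn⟩ :=
    ((((real_G.mul (r1.mul r1)).mul r3).mul (r7.mul r7)).mul r8).mul r9
  obtain ⟨K, _, _, -, hKe, hKn⟩ := ((r2.mul r4).mul r5).mul ((r6.mul r6).mul (r6.mul r6))
  refine ⟨G, inferInstance, inferInstance, M3ˣ × K, inferInstance, inferInstance, hG, fun h => ?_,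
    Cfsg.Agent.S4377.result.mpr fun n => ?_⟩
  · exact M3.not_solvable (Group.isSolvable_of_surjective (f := MonoidHom.fst M3ˣ K) Prod.fst_surjective)
  · have hH : ∀ x : M3ˣ × K, x ^ 84 = 1 := fun x => by
      ext1
      · simpa using M3.units_pow x.1
      · simpa using hKe x.2
    have hd : Nat.gcd n 84 ∣ 84 := Nat.gcd_dvd_right _ _
    change e G n = e (M3ˣ × K) n
    rw [e_gcd G hGe, e_gcd _ hH, e_prod, hGn _ hd, hKn _ hd, M3.e_units hd]
    exact key _ (Nat.mem_divisors.mpr ⟨hd, by norm_num⟩)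

end Cfsg.Agent.S4376
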