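import Cfsg.Statements.S4378
import Cfsg.Agent.Lib.SolvStruct.PChain

set_option autoImplicit false
open Cfsg

namespace Cfsg.Agent.S4378

/-- Let G be a finite solvable group in which every maximal subgroup either has a normal 2-complement or has prime index. Then G has a chain of normal subgroups 1 ≤ A ≤ B ≤ C ≤ G in which A and C/B have odd order and B/A and G/C are 2-groups (so the 2-length of G is at most 2). -/
theorem result {G : Type*} [Group G] [Finite G]
    (hG : Group.IsSolvable G)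
    (hmax : ∀ M : Subgroup G, IsCoatom M → (∃ K : Subgroup ↥M, K.Normal ∧ ¬ 2 ∣ Nat.card K ∧ ∃ k : ℕ, K.index = 2 ^ k) ∨ (M.index).Prime) :
    ∃ A B C : Subgroup G, A.Normal ∧ B.Normal ∧ C.Normal ∧ A ≤ B ∧ B ≤ C ∧ Odd (Nat.card A) ∧
      (∃ k : ℕ, A.relIndex B = 2 ^ k) ∧ Odd (B.relIndex C) ∧ ∃ k : ℕ, C.index = 2 ^ k := by
  obtain ⟨A, B, C, D, hA, hB, hC, hD, -, h1, h2, h3, h4, h5, h6, h7, -, h9⟩ :=
    CfsgLib.SolvStruct.chain2_of_maxNilOrPrime (p := 2) CfsgLib.PLocal.PSolv.of_isSolvable hmax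
  rw [h9 rfl] at h7
  refine ⟨A, B, C, hA, hB, hC, h1, h2, ?_, h5.exists_relIndex Nat.prime_two, ?_, ?_⟩
  · have := h4.not_dvd Nat.prime_two
    rw [Subgroup.relIndex_bot_left] at this
    exact Nat.not_even_iff_odd.1 (mt even_iff_two_dvd.1 this)
  · exact Nat.not_even_iff_odd.1 (mt even_iff_two_dvd.1 (h6.not_dvd Nat.prime_two))
  · simpa using h7.exists_relIndex Nat.prime_two

end Cfsg.Agent.S4378
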