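import Cfsg.Statements.S4383
import Cfsg.Agent.Lib.FewMax.Uniq

set_option autoImplicit false
open Pointwise
open Cfsg

namespace Cfsg.Agent.S4383

open CfsgLib.BG CfsgLib.FewMax Subgroup

theorem pow_mem_coatom {G : Type*} [Group G] [Finite G] {p : ℕ} (hp : p.Prime) (hG : IsPGroup p G)
    {M : Subgroup G} (hM : IsCoatom M) [M.Normal] (z : G) : z ^ p ∈ M := by
  have : Fact p.Prime := ⟨hp⟩
  by_contra h
  have h1 : M ⊔ zpowers (z ^ p) = ⊤ := hM.2 _ (lt_of_le_not_ge le_sup_left fun e => h (e (le_sup_right (α := Subgroup G) (mem_zpowers _))))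
  have h2 : zpowers ((z : G ⧸ M) ^ p) = ⊤ := by
    have := congrArg (map (QuotientGroup.mk' M)) h1
    rwa [Subgroup.map_sup, (Subgroup.map_eq_bot_iff _).2 (QuotientGroup.ker_mk' M).ge, bot_sup_eq, MonoidHom.map_zpowers,
      map_top_of_surjective _ (QuotientGroup.mk'_surjective M), map_pow] at this
  have h3 : orderOf (z : G ⧸ M) ∣ orderOf ((z : G ⧸ M) ^ p) := orderOf_dvd_of_mem_zpowers (h2 ▸ mem_top _)
  obtain ⟨k, hk⟩ := IsPGroup.iff_orderOf.1 (hG.to_quotient M) (z : G ⧸ M)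
  rcases k with _ | k
  · exact h (M.pow_mem ((QuotientGroup.eq_one_iff z).1 (orderOf_eq_one_iff.1 hk)) p)
  · have h4 : orderOf ((z : G ⧸ M) ^ p) ∣ p ^ k :=
      orderOf_dvd_of_pow_eq_one (by rw [← pow_mul, ← pow_succ', ← hk, pow_orderOf_eq_one])
    have := Nat.le_of_dvd (pow_pos hp.pos k) ((hk ▸ h3).trans h4)
    exact absurd (Nat.pow_lt_pow_right hp.one_lt (Nat.lt_succ_self k)) (not_lt.2 this)

/-- A finite group with exactly two conjugacy classes of maximal subgroups is solvable and its order has exactly two prime divisors. -/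
theorem result {G : Type*} [Group G] [Finite G]
    (M₁ M₂ : Subgroup G) (h1 : IsCoatom M₁) (h2 : IsCoatom M₂) (hne : ∀ g : G, M₂ ≠ MulAut.conj g • M₁)
    (hall : ∀ M : Subgroup G, IsCoatom M → ∃ g : G, M = MulAut.conj g • M₁ ∨ M = MulAut.conj g • M₂) :
    Group.IsSolvable G ∧ (Nat.card G).primeFactors.card = 2 := by
  simp only [← cj_eq_smul] at hne hall
  have hs := solv_two _ G rfl M₁ M₂ hall
  refine ⟨hs, le_antisymm ?_ ?_⟩
  · refine (Finset.card_le_card (t := {M₁.index.minFac, M₂.index.minFac}) fun p hp => ?_).trans Finset.card_le_two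
    obtain ⟨hp, hd, -⟩ := Nat.mem_primeFactors.1 hp
    obtain ⟨H, hH⟩ := Hall_exists {p}ᶜ (M := (⊤ : Subgroup G)) inferInstance
    obtain ⟨M, hM, hle⟩ := (eq_top_or_exists_le_coatom H).resolve_left fun e =>
      (p'group_iff hp).1 (pHall_pgroup hH) (by rwa [e, card_top])
    have h3 : M.index.minFac = p := by
      have h4 := pHall_index hH
      rw [compl_compl, relIndex_top_right] at h4
      exact h4 _ (Nat.minFac_prime (one_lt_index_of_ne_top hM.1).ne') ((Nat.minFac_dvd _).trans (index_dvd_of_le hle))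
    obtain ⟨g, rfl | rfl⟩ := hall M hM <;> rw [index_cj] at h3 <;> simp [h3]
  · by_contra hlt
    obtain ⟨p, hp, hd⟩ := exists_prime_dvd_card (H := (⊤ : Subgroup G)) fun e => h1.1 (top_le_iff.1 (e ▸ bot_le))
    rw [card_top] at hd
    have : Fact p.Prime := ⟨hp⟩
    have hG : IsPGroup p G := by
      refine IsPGroup.iff_card.2 ⟨_, Nat.eq_prime_pow_of_unique_prime_dvd Nat.card_pos.ne' fun {r} hr hrd => ?_⟩
      exact Finset.card_le_one.1 (by omega) r (Nat.mem_primeFactors.2 ⟨hr, hrd, Nat.card_pos.ne'⟩) p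
        (Nat.mem_primeFactors.2 ⟨hp, hd, Nat.card_pos.ne'⟩)
    have := hG.isNilpotent
    have nor : ∀ M : Subgroup G, IsCoatom M → M.Normal := fun M hM =>
      NormalizerCondition.normal_of_coatom M Group.normalizerCondition_of_isNilpotent hM
    have n1 := nor _ h1
    have n2 := nor _ h2
    have cjn : ∀ (g : G) (M : Subgroup G), M.Normal → cj g M = M := fun g M hM =>
      cj_eq_of_mem_norm ((normalIn_top.2 hM).norm (mem_top g))
    have ne : M₂ ≠ M₁ := fun e => hne 1 (by rw [cj_one, e])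
    obtain ⟨x, x1, x2⟩ := SetLike.not_le_iff_exists.1 fun h : M₁ ≤ M₂ =>
      h2.1 (h1.2 _ (lt_of_le_of_ne h ne.symm))
    obtain ⟨y, y2, y1⟩ := SetLike.not_le_iff_exists.1 fun h : M₂ ≤ M₁ => h1.1 (h2.2 _ (lt_of_le_of_ne h ne))
    have z1 : x * y ∉ M₁ := fun h => y1 ((mul_mem_cancel_left x1).1 h)
    have z2 : x * y ∉ M₂ := fun h => x2 ((mul_mem_cancel_right y2).1 h)
    rcases eq_top_or_exists_le_coatom (M₁ ⊓ M₂ ⊔ zpowers (x * y)) with h | ⟨M, hM, h⟩
    · obtain ⟨d, hd, w, hz, e⟩ := (mem_sup_norm_l ((le_top.trans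
        (normalIn_top.2 (inferInstance : (M₁ ⊓ M₂).Normal)).norm))).1 (h ▸ mem_top x)
      obtain ⟨i, hi⟩ := (mem_powers_iff_mem_zpowers.2 hz)
      obtain rfl : (x * y) ^ i = w := hi
      have h3 : (x * y) ^ i ∈ M₁ := (M₁.mul_mem_cancel_left hd.1).1 (by rw [e]; exact x1)
      by_cases hi : p ∣ i
      · obtain ⟨j, rfl⟩ := hi
        refine x2 ?_
        rw [← e, pow_mul]
        exact M₂.mul_mem hd.2 (M₂.pow_mem (pow_mem_coatom hp hG h2 _) j)
      · refine z1 ?_
        have h4 := pow_mem_coatom hp hG h1 (x * y)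
        have h5 := Nat.gcd_eq_gcd_ab p i
        rw [((Nat.Prime.coprime_iff_not_dvd hp).2 hi).gcd_eq_one] at h5
        rw [← zpow_one (x * y), show (1 : ℤ) = _ from h5, zpow_add, zpow_mul, zpow_mul, zpow_natCast, zpow_natCast]
        exact mul_mem (zpow_mem h4 _) (zpow_mem h3 _)
    · have hz := h (le_sup_right (α := Subgroup G) (mem_zpowers (x * y)))
      obtain ⟨g, rfl | rfl⟩ := hall M hM
      · exact z1 (cjn g _ n1 ▸ hz)
      · exact z2 (cjn g _ n2 ▸ hz)

end Cfsg.Agent.S4383
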