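import Mathlib
import Cfsg.Statements.S4385
import Cfsg.Agent.Lib.Sims.Prim

set_option autoImplicit false
open Pointwise
open Cfsg

namespace Cfsg.Agent.S4385

open CfsgLib.BG CfsgLib.Sims

/-- Let H be a subgroup of a finite group G whose largest normal 2-subgroup O_2(H) is nontrivial and such that H/O_2(H) is a dihedral group of order at least 4. Let P be a Sylow 2-subgroup of H and S a Sylow 2-subgroup of G containing P. Suppose y ∈ S lies outside P, normalizes P, has y² in the product of P with the centralizer of P in G, and normalizes no non-identity normal subgroup of H contained in P. Then P has order 4, 8 or 16, and H modulo its largest normal subgroup of odd order is isomorphic to the four-group, to the symmetric group of degree 4, or to the direct product of the symmetric group of degree 4 with a group of order 2. -/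
theorem result {G : Type*} [Group G] [Finite G]
    (H : Subgroup G) (hO : Cfsg.pCore 2 ↥H ≠ ⊥) (n : ℕ) (hn : 2 ≤ n) (hdih : Nonempty (↥H ⧸ Cfsg.pCore 2 ↥H ≃* DihedralGroup n))
    (P : Subgroup G) (hPH : P ≤ H) (hP : IsPGroup 2 P) (hPsyl : ¬ 2 ∣ P.relIndex H)
    (S : Sylow 2 G) (hPS : P ≤ (S : Subgroup G)) (y : G) (hyS : y ∈ (S : Subgroup G)) (hyP : y ∉ P)
    (hy2 : y ^ 2 ∈ P ⊔ Subgroup.centralizer (P : Set G)) (hyN : MulAut.conj y • P = P)
    (hyQ : ∀ Q : Subgroup G, Q ≤ P → (Q.subgroupOf H).Normal → MulAut.conj y • Q = Q → Q = ⊥) :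
    (Nat.card P = 4 ∨ Nat.card P = 8 ∨ Nat.card P = 16) ∧
    (Nonempty (↥H ⧸ Cfsg.oddCore ↥H ≃* Multiplicative (ZMod 2) × Multiplicative (ZMod 2)) ∨
     Nonempty (↥H ⧸ Cfsg.oddCore ↥H ≃* Equiv.Perm (Fin 4)) ∨
     Nonempty (↥H ⧸ Cfsg.oddCore ↥H ≃* Equiv.Perm (Fin 4) × Multiplicative (ZMod 2))) := by
  obtain ⟨e⟩ := hdih
  obtain ⟨h1, c, hc, h2, h3⟩ := exists_gen_of_dihedral hn e hP hPH hPsyl
  have hy : y ∈ 𝒩(P) := mem_norm_iff.2 hyN
  have ha : ∀ Q : Subgroup G, Q ≤ P → H ≤ 𝒩(Q) → y ∈ 𝒩(Q) → Q = ⊥ := fun Q h4 h5 h6 =>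
    hyQ Q h4 ((Subgroup.normal_subgroupOf_iff_le_normalizer (h4.trans hPH)).2 h5) (mem_norm_iff.1 h6)
  rcases two_local hP hPH hPsyl hc h2 h3 hy ha (fun Q h4 h5 h6 => by
    have h7 : H ≤ 𝒩(cj y Q) := by
      rw [← cj_norm]; exact le_cj_iff_cj_inv_le.2 h6
    have h8 : cj y (cj y Q) = Q := by
      obtain ⟨s, hs, d, hd, e1⟩ := (mem_sup_norm_r (H := P) (K := 𝒞(P))
        (norms_cent Subgroup.le_normalizer)).1 hy2
      rw [cj_cj, ← pow_two, ← e1, cj_mul, cj_eq_of_mem_cent (Subgroup.centralizer_le h4 hd),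
        cj_eq_of_mem_norm (h5 (hPH hs))]
    have h9 : H ≤ 𝒩(Q ⊔ cj y Q) := fun d hd => by
      rw [mem_norm_iff, cj_sup, cj_eq_of_mem_norm (h5 hd), cj_eq_of_mem_norm (h7 hd)]
    exact eq_bot_iff.2 (le_sup_left.trans (ha _ (sup_le h4 (cj_le_of_mem_norm hy h4)) h9 (by
      rw [mem_norm_iff, cj_sup, h8, sup_comm])).le)) with ⟨h4 | ⟨h4, h5⟩, -⟩ | ⟨h4, h5⟩ | ⟨h4, h5⟩
  exacts [absurd h4 (h1 hO), ⟨Or.inl h4, Or.inl h5⟩, ⟨Or.inr (Or.inl h4), Or.inr (Or.inl h5)⟩,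
    ⟨Or.inr (Or.inr h4), Or.inr (Or.inr h5)⟩]

end Cfsg.Agent.S4385
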