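import Cfsg.Statements.S4387

set_option autoImplicit false
open Pointwise
open Cfsg

namespace Cfsg.Agent.S4387

/-- Let G be a non-trivial finite group in which any two maximal subgroups are conjugate. Then G is cyclic of prime-power order. -/
theorem result {G : Type*} [Group G] [Finite G] [Nontrivial G]
    (h : ∀ M N : Subgroup G, IsCoatom M → IsCoatom N → ∃ g : G, N = MulAut.conj g • M) :
    IsCyclic G ∧ IsPrimePow (Nat.card G) := by
  obtain ⟨M, hM, -⟩ := (eq_top_or_exists_le_coatom (⊥ : Subgroup G)).resolve_left bot_ne_top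
  have hcard : ∀ N : Subgroup G, IsCoatom N → Nat.card N = Nat.card M := by
    intro N hN
    obtain ⟨g, rfl⟩ := h M N hM hN
    exact (Nat.card_congr (Subgroup.equivSMul (MulAut.conj g) M).toEquiv).symm
  have hP : ∃ p : ℕ, p.Prime ∧ IsPGroup p G := by
    by_contra hne
    push Not at hne
    have hdvd : Nat.card G ∣ Nat.card M := by
      rw [← Nat.factorization_prime_le_iff_dvd Nat.card_pos.ne' Nat.card_pos.ne']
      intro p hp
      haveI : Fact p.Prime := ⟨hp⟩
      obtain ⟨P⟩ : Nonempty (Sylow p G) := inferInstance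
      have hPtop : (P : Subgroup G) ≠ ⊤ := by
        intro ht
        apply hne p hp
        have := P.isPGroup'
        rw [ht] at this
        exact this.of_equiv Subgroup.topEquiv
      obtain ⟨N, hN, hPN⟩ := (eq_top_or_exists_le_coatom (P : Subgroup G)).resolve_left hPtop
      have h1 : Nat.card P ∣ Nat.card M := hcard N hN ▸ Subgroup.card_dvd_of_le hPN
      rw [P.card_eq_multiplicity] at h1
      exact (hp.pow_dvd_iff_le_factorization Nat.card_pos.ne').1 h1
    have h2 : M = ⊤ := by
      rw [← Subgroup.card_eq_iff_eq_top]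
      exact Nat.dvd_antisymm (Subgroup.card_subgroup_dvd_card M) hdvd
    exact hM.1 h2
  obtain ⟨p, hp, hG⟩ := hP
  haveI : Fact p.Prime := ⟨hp⟩
  haveI := hG.isNilpotent
  have hMn : M.Normal := Subgroup.NormalizerCondition.normal_of_coatom M
    Group.normalizerCondition_of_isNilpotent hM
  have huniq : ∀ N : Subgroup G, IsCoatom N → N = M := by
    intro N hN
    obtain ⟨g, rfl⟩ := h M N hM hN
    exact Subgroup.Normal.conj_smul_eq_self g M
  obtain ⟨x, hx⟩ : ∃ x, x ∉ M := by
    by_contra hh
    push Not at hh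
    exact hM.1 ((Subgroup.eq_top_iff' M).2 hh)
  have htop : Subgroup.zpowers x = ⊤ := by
    by_contra hne
    obtain ⟨N, hN, hxN⟩ := (eq_top_or_exists_le_coatom _).resolve_left hne
    rw [huniq N hN] at hxN
    exact hx (hxN (Subgroup.mem_zpowers x))
  refine ⟨⟨x, fun y => ?_⟩, ?_⟩
  · have : y ∈ Subgroup.zpowers x := htop ▸ Subgroup.mem_top y
    exact this
  · obtain ⟨n, hn, hc⟩ := hG.nontrivial_iff_card.1 inferInstance
    exact ⟨p, n, hp.prime, hn, hc.symm⟩

end Cfsg.Agent.S4387
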