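import Cfsg.Statements.S4400
import Cfsg.Agent.Lib.Sect.Basic

set_option autoImplicit false
open Cfsg

namespace Cfsg.Agent.S4400


/-- Let S be a finite 2-group of sectional 2-rank at most 4, and let P and Q be normal non-abelian subgroups of S whose centres have order 2 and are different. Then P and Q commute elementwise and intersect trivially, and PQ contains its own centralizer in S. -/
theorem result {S : Type*} [Group S] [Finite S] (h2 : IsPGroup 2 S) (hr : Cfsg.SectionalPRankLE 2 4 S)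
    (P Q : Subgroup S) [P.Normal] [Q.Normal] (hP : ¬ IsMulCommutative ↥P) (hQ : ¬ IsMulCommutative ↥Q)
    (hZP : Nat.card ↥(Subgroup.center ↥P) = 2) (hZQ : Nat.card ↥(Subgroup.center ↥Q) = 2)
    (hne : (Subgroup.center ↥P).map P.subtype ≠ (Subgroup.center ↥Q).map Q.subtype) :
    ⁅P, Q⁆ = ⊥ ∧ P ⊓ Q = ⊥ ∧ Subgroup.centralizer ((P ⊔ Q : Subgroup S) : Set S) ≤ P ⊔ Q := by
  obtain ⟨z, hz, ez⟩ := CfsgLib.Sect.exists_nz hP hZP
  obtain ⟨w, hw, ew⟩ := CfsgLib.Sect.exists_nz hQ hZQ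
  have hzw : z ≠ w := fun e => hne (by rw [ez, ew, e])
  have n1 : ∀ g ∈ P, ∀ x ∈ Q, g * x * g⁻¹ ∈ Q := fun g _ x hx => ‹Q.Normal›.conj_mem x hx g
  have n2 : ∀ g ∈ Q, ∀ x ∈ P, g * x * g⁻¹ ∈ P := fun g _ x hx => ‹P.Normal›.conj_mem x hx g
  have hc := hz.commute h2 hw hzw n1 n2
  have h1 : ∀ x ∈ P, x ∈ Q → x = 1 := fun x => hz.eq_one h2 hw hzw n1 n2
  exact ⟨Subgroup.commutator_eq_bot_iff_le_centralizer.2 fun a ha =>
      Subgroup.mem_centralizer_iff.2 fun b hb => (hc a ha b hb).symm,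
    eq_bot_iff.2 fun x hx => h1 x hx.1 hx.2, fun x hx => hz.cent_sup h2 (CfsgLib.Sect.sr_top_iff.1 hr) hw
      le_top le_top hc h1 (Subgroup.mem_top x) (Subgroup.mem_centralizer_iff.1 hx)⟩

end Cfsg.Agent.S4400
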