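import Cfsg.Statements.S4401
import Cfsg.Agent.Lib.Sect.Basic

set_option autoImplicit false
open Cfsg

namespace Cfsg.Agent.S4401

open CfsgLib.Sect Subgroup

section
variable {S : Type*} [Group S]

/-- `P` has centre `{1, z}` and is normal in the centralizer of `z` -/
structure HP (P : Subgroup S) (z : S) : Prop where
  nz : NZ P z
  norm : ∀ s, s * z = z * s → ∀ x ∈ P, s * x * s⁻¹ ∈ P

theorem comm_conj {g s z : S} : s * (g * z * g⁻¹) = g * z * g⁻¹ * s ↔ g⁻¹ * s * g * z = z * (g⁻¹ * s * g) := by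
  rw [← mul_right_inj g⁻¹, ← mul_left_inj g]
  simp only [mul_assoc, inv_mul_cancel, mul_one, inv_mul_cancel_left]

theorem HP.conj {P : Subgroup S} {z : S} (h : HP P z) (g : S) :
    HP (P.map (MulAut.conj g).toMonoidHom) (g * z * g⁻¹) := ⟨h.nz.conj g, by
  rintro s hs _ ⟨x, hx, rfl⟩
  exact ⟨_, h.norm _ (comm_conj.1 hs) x hx, by simp [mul_assoc]⟩⟩

variable [Finite S] (h2 : IsPGroup 2 S)
include h2

theorem pair {P Q : Subgroup S} {z w : S} (h : HP P z) (h' : HP Q w) (e : ∀ s, s * z = z * s ↔ s * w = w * s)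
    (hne : z ≠ w) : (∀ a ∈ P, ∀ b ∈ Q, a * b = b * a) ∧ ∀ x ∈ P, x ∈ Q → x = 1 :=
  have n1 := fun g hg => h'.norm g ((e g).1 (h.nz.comm g hg))
  have n2 := fun g hg => h.norm g ((e g).2 (h'.nz.comm g hg))
  ⟨h.nz.commute h2 h'.nz hne n1 n2, fun _ => h.nz.eq_one h2 h'.nz hne n1 n2⟩

theorem triple (hr : SR 16 (⊤ : Subgroup S)) {P Q R : Subgroup S} {z w v : S} (h : HP P z) (h' : HP Q w)
    (h'' : HP R v) (e : ∀ s, s * z = z * s ↔ s * w = w * s) (e' : ∀ s, s * z = z * s ↔ s * v = v * s)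
    (n1 : z ≠ w) (n2 : z ≠ v) : w = v := by
  by_contra n3
  obtain ⟨a1, a2⟩ := pair h2 h h' e n1
  have b := (pair h2 h h'' e' n2).1
  have c := (pair h2 h' h'' (fun s => (e s).symm.trans (e' s)) n3).1
  have d : ∀ x ∈ R, ∀ y ∈ P ⊔ Q, y * x = x * y := fun x hx y hy => by
    obtain ⟨p, hp, q, hq, rfl⟩ := (mem_sup_of_comm a1).1 hy
    exact (Commute.mul_left (b p hp x hx) (c q hq x hx)).eq
  obtain ⟨x, hx, y, hy, e⟩ := h''.nz.nonab
  exact e (d y hy x (h.nz.cent_sup h2 hr h'.nz le_top le_top a1 a2 (mem_top x) (d x hx)))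

end


/-- Let S be a finite 2-group of sectional 2-rank at most 4 and P a proper non-abelian subgroup whose centre has order 2. Let S₀ be the centralizer in S of Z(P) and suppose P is normal in S₀. Then either S₀ = S, or P has sectional 2-rank at most 2 and S₀ has index 2 in S. -/
theorem result {S : Type*} [Group S] [Finite S] (h2 : IsPGroup 2 S) (hr : Cfsg.SectionalPRankLE 2 4 S)
    (P : Subgroup S) (hPlt : P ≠ ⊤) (hP : ¬ IsMulCommutative ↥P) (hZP : Nat.card ↥(Subgroup.center ↥P) = 2)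
    (S₀ : Subgroup S) (hS₀ : S₀ = Subgroup.centralizer (((Subgroup.center ↥P).map P.subtype : Subgroup S) : Set S))
    (hPn : ∀ s ∈ S₀, ∀ x ∈ P, s * x * s⁻¹ ∈ P) :
    S₀ = ⊤ ∨ (Cfsg.SectionalPRankLE 2 2 ↥P ∧ S₀.index = 2) := by
  obtain ⟨z, hz, ez⟩ := exists_nz hP hZP
  have hr' : SR 16 (⊤ : Subgroup S) := sr_top_iff.1 hr
  have m0 : ∀ s, s ∈ S₀ ↔ s * z = z * s := fun s => by
    rw [hS₀, ez, zpowers_eq_closure, centralizer_closure, mem_centralizer_singleton_iff]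
  have hp : HP P z := ⟨hz, fun s hs => hPn s ((m0 s).2 hs)⟩
  refine or_iff_not_imp_left.2 fun h0 => ?_
  have := h2.isNilpotent
  obtain ⟨N, hN⟩ : ∃ N, N = normalizer (S₀ : Set S) := ⟨_, rfl⟩
  have mN : ∀ g ∈ N, ∀ s, s * z = z * s ↔ s * (g * z * g⁻¹) = g * z * g⁻¹ * s := fun g hg s => by
    rw [comm_conj, ← m0, ← m0, mem_normalizer_iff.1 (inv_mem (hN ▸ hg)) s, inv_inv]
  have nz : ∀ g, g ∉ S₀ → z ≠ g * z * g⁻¹ := fun g hg e => hg ((m0 g).2 (mul_inv_eq_iff_eq_mul.1 e.symm))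
  obtain ⟨g, hg, hg0⟩ := SetLike.exists_of_lt (hN ▸ normalizerCondition_of_isNilpotent S₀ (lt_top_iff_ne_top.2 h0))
  have key : ∀ y ∈ N, y ∉ S₀ → y * z * y⁻¹ = g * z * g⁻¹ := fun y hy hy0 =>
    triple h2 hr' hp (hp.conj y) (hp.conj g) (mN y hy) (mN g hg) (nz y hy0) (nz g hg0)
  have key2 : ∀ y ∈ N, y ∉ S₀ → ∀ y' ∈ N, y' ∉ S₀ → y' * y ∈ S₀ := fun y hy hy0 y' hy' hy0' => by
    have := (key y hy hy0).trans (key _ (inv_mem hy') fun h => hy0' (inv_mem_iff.1 h)).symm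
    rw [m0]
    calc _ = y' * (y * z * y⁻¹) * y := by group
      _ = _ := by rw [this]; group
  obtain ⟨a1, a2⟩ := pair h2 hp (hp.conj g) (mN g hg) (nz g hg0)
  refine ⟨sr_iff.2 (NZ.sr_four h2 hr' (hp.conj g).nz le_top le_top a1 a2), ?_⟩
  have hle : S₀ ≤ N := hN ▸ le_normalizer
  have htop : N = ⊤ := by
    by_contra h1
    obtain ⟨t, ht, ht0⟩ := SetLike.exists_of_lt (normalizerCondition_of_isNilpotent N (lt_top_iff_ne_top.2 h1))
    have tN : ∀ x ∈ N, t * x * t⁻¹ ∈ N := fun x => (mem_normalizer_iff.1 ht x).1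
    have tN' : ∀ x ∈ N, t⁻¹ * x * t⁻¹⁻¹ ∈ N := fun x => (mem_normalizer_iff.1 (inv_mem ht) x).1
    have p1 := hp.conj t
    have q1 := (hp.conj g).conj t
    have e1 : ∀ s, s * (t * z * t⁻¹) = t * z * t⁻¹ * s ↔
        s * (t * (g * z * g⁻¹) * t⁻¹) = t * (g * z * g⁻¹) * t⁻¹ * s := fun s => by
      rw [comm_conj, comm_conj (g := t), mN g hg]
    obtain ⟨b1, b2⟩ := pair h2 p1 q1 e1 fun e => nz g hg0 (mul_left_cancel (mul_right_cancel e))
    have PN : P ≤ N := fun x hx => hle ((m0 x).2 (hz.comm x hx))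
    have z1 : z * (t * z * t⁻¹) = t * z * t⁻¹ * z := by
      refine mem_centralizer_singleton_iff.1 (hz.mem_of_comm h2 (K := centralizer {t * z * t⁻¹})
        fun a ha b hb => comm_mem (H := N) (fun x hx => ?_) (PN ha) (PN hb))
      rw [mem_centralizer_singleton_iff, comm_conj, ← m0,
        show t⁻¹ * (x * x) * t = t⁻¹ * x * t⁻¹⁻¹ * (t⁻¹ * x * t⁻¹⁻¹) by group]
      by_cases h : t⁻¹ * x * t⁻¹⁻¹ ∈ S₀
      exacts [mul_mem h h, key2 _ (tN' x hx) h _ (tN' x hx) h]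
    have gP : ∀ x ∈ P, t * (g * x * g⁻¹) * t⁻¹ ∈ S₀ ↔ t * x * t⁻¹ ∈ S₀ := fun x _ => by
      rw [mem_normalizer_iff.1 (hN ▸ tN g hg) (t * x * t⁻¹)]
      congr! 1; group
    by_cases h3 : ∀ x ∈ P, t * x * t⁻¹ ∈ S₀
    · have h4 : ∀ y ∈ P.map (MulAut.conj t).toMonoidHom ⊔
          (P.map (MulAut.conj g).toMonoidHom).map (MulAut.conj t).toMonoidHom, y * z = z * y := fun y hy => by
        refine (m0 y).1 ((sup_le ?_ ?_ : _ ≤ S₀) hy)
        · rintro _ ⟨x, hx, rfl⟩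
          exact h3 x hx
        · rintro _ ⟨_, ⟨x, hx, rfl⟩, rfl⟩
          exact (gP x hx).2 (h3 x hx)
      obtain ⟨a, b, ha, hb, e⟩ := p1.nz.center_sup q1.nz b1
        (p1.nz.cent_sup h2 hr' q1.nz le_top le_top b1 b2 (mem_top z) h4) h4
      refine ht0 (hN ▸ mem_normalizer_fintype fun s hs => (m0 _).2 ?_)
      have h5 : t * s * t⁻¹ * (t * z * t⁻¹) = t * z * t⁻¹ * (t * s * t⁻¹) := by
        rw [conj_mul, conj_mul, (m0 s).1 hs]
      rw [e]
      refine (Commute.mul_right ?_ ?_).eq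
      · rcases ha with rfl | rfl
        exacts [Commute.one_right _, h5]
      · rcases hb with rfl | rfl
        exacts [Commute.one_right _, (e1 _).1 h5]
    · push Not at h3
      obtain ⟨x, hx, h3⟩ := h3
      have h4 := key _ (tN x (PN hx)) h3
      have h5 := key _ (tN _ (mul_mem (mul_mem hg (PN hx)) (inv_mem hg))) fun h => h3 ((gP x hx).1 h)
      have h6 := mul_mem (mem_map_of_mem (MulAut.conj t).toMonoidHom hx)
        (p1.norm z z1 _ (inv_mem (mem_map_of_mem (MulAut.conj t).toMonoidHom hx)))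
      have h7 := mem_map_of_mem (MulAut.conj t).toMonoidHom (mem_map_of_mem (MulAut.conj g).toMonoidHom hx)
      have h8 := mul_mem h7 (q1.norm z ((e1 z).1 z1) _ (inv_mem h7))
      simp only [MulEquiv.toMonoidHom_eq_coe, MonoidHom.coe_coe, MulAut.conj_apply] at h6 h8
      rw [← mul_assoc, ← mul_assoc, h4] at h6
      rw [← mul_assoc, ← mul_assoc, h5] at h8
      exact nz g hg0 (mul_inv_eq_one.1 (b2 _ h6 h8)).symm
  refine index_eq_two_iff.2 ⟨g, fun b => ?_⟩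
  by_cases hb : b ∈ S₀
  · exact Or.inr ⟨hb, fun h => hg0 ((mul_mem_cancel_left hb).1 h)⟩
  · exact Or.inl ⟨key2 g hg hg0 b (htop ▸ mem_top b) hb, hb⟩

end Cfsg.Agent.S4401
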