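import Cfsg.Statements.S4404
import Cfsg.Agent.S0640
import Cfsg.Agent.Lib.Fgs.AutBound
import Cfsg.Agent.Lib.PGroup.Rank
import Cfsg.Agent.Lib.Tech.SylowIn
import Cfsg.Agent.Lib.Coprime.HallAmbient
import Cfsg.Agent.Lib.Core.MinNormal
import Cfsg.Agent.Lib.SmallSimple.NC

set_option autoImplicit false
open Cfsg

namespace Cfsg.Agent.S4404

open Subgroup CfsgLib Finset
open scoped commutatorElement

section Aut
variable {V : Type*} [CommGroup V]

/-- the commutator subgroup `[V, σ]` -/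
def cm (σ : MulAut V) : Subgroup V where
  carrier := {w | ∃ v, σ v * v⁻¹ = w}
  one_mem' := ⟨1, by simp⟩
  mul_mem' := by
    rintro _ _ ⟨u, rfl⟩ ⟨v, rfl⟩
    exact ⟨u * v, by rw [map_mul, mul_inv, mul_mul_mul_comm]⟩
  inv_mem' := by
    rintro _ ⟨u, rfl⟩
    exact ⟨u⁻¹, by rw [map_inv, mul_inv]⟩

/-- fixed points -/
def fx (σ : MulAut V) : Subgroup V where
  carrier := {v | σ v = v}
  one_mem' := map_one σ
  mul_mem' := by
    intro a b ha hb
    change σ (a * b) = a * b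
    rw [map_mul, ha, hb]
  inv_mem' := by
    intro a ha
    change σ a⁻¹ = a⁻¹
    rw [map_inv, ha]

/-- automorphisms acting trivially modulo `U` -/
def Low (U : Subgroup V) : Subgroup (MulAut V) where
  carrier := {σ | ∀ v, σ v * v⁻¹ ∈ U}
  one_mem' := fun v => by simp
  mul_mem' := by
    intro σ τ hσ hτ v
    have := mul_mem (hσ (τ v)) (hτ v)
    simpa using this
  inv_mem' := by
    intro σ hσ v
    have := inv_mem (hσ (σ⁻¹ v))
    simpa using this

theorem mem_Low {U : Subgroup V} {σ : MulAut V} : σ ∈ Low U ↔ cm σ ≤ U :=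
  ⟨fun h _ ⟨v, e⟩ => e ▸ h v, fun h v => h ⟨v, rfl⟩⟩

/-- `σ` maps `U` into itself -/
def Inv (σ : MulAut V) (U : Subgroup V) : Prop := ∀ u ∈ U, σ u ∈ U

theorem inv_of_cm_le {U : Subgroup V} {σ : MulAut V} (h : cm σ ≤ U) : Inv σ U := fun u hu => by
  have := mul_mem (h ⟨u, rfl⟩) hu
  simpa using this

theorem Inv.inf {U W : Subgroup V} {σ : MulAut V} (h : Inv σ U) (h' : Inv σ W) : Inv σ (U ⊓ W) :=
  fun u hu => ⟨h u hu.1, h' u hu.2⟩

theorem Inv.mul {U : Subgroup V} {σ τ : MulAut V} (h : Inv σ U) (h' : Inv τ U) : Inv (σ * τ) U :=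
  fun u hu => h _ (h' u hu)

theorem Inv.pow {U : Subgroup V} {σ : MulAut V} (h : Inv σ U) (n : ℕ) : Inv (σ ^ n) U := by
  induction n with
  | zero => exact fun u hu => hu
  | succ n ih => rw [pow_succ]; exact ih.mul h

theorem conj_cm (α σ : MulAut V) {w : V} (hw : w ∈ cm σ) : α w ∈ cm (α * σ * α⁻¹) := by
  obtain ⟨v, rfl⟩ := hw
  exact ⟨α v, by simp⟩

theorem inv_of_comm {α σ : MulAut V} (h : α * σ = σ * α) : Inv α (cm σ) := fun w hw => by
  have := conj_cm α σ hw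
  rwa [h, mul_inv_cancel_right] at this

theorem fx_pow {σ : MulAut V} {v : V} (h : v ∈ fx σ) (n : ℕ) : v ∈ fx (σ ^ n) := by
  induction n with
  | zero => exact rfl
  | succ n ih =>
    change (σ ^ (n + 1)) v = v
    have h' : σ v = v := h
    rw [pow_succ, MulAut.mul_apply, h']
    exact ih

theorem cm_inf_fx (h2 : ∀ v : V, v ^ 2 = 1) {σ : MulAut V} {n : ℕ} (hn : Odd n) (hσ : σ ^ n = 1)
    {w : V} (hw : w ∈ cm σ) (hf : w ∈ fx σ) : w = 1 := by
  obtain ⟨v, rfl⟩ := hw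
  set w := σ v * v⁻¹ with hw
  have key : ∀ m : ℕ, (σ ^ m) v = w ^ m * v := by
    intro m
    induction m with
    | zero => simp
    | succ m ih =>
      have h1 : σ w = w := hf
      rw [pow_succ', MulAut.mul_apply, ih, map_mul, map_pow, h1, pow_succ, mul_assoc, hw]
      simp
  have h1 := key n
  rw [hσ, MulAut.one_apply, right_eq_mul] at h1
  obtain ⟨k, rfl⟩ := hn
  rwa [pow_succ, pow_mul, h2, one_pow, one_mul] at h1

theorem eq_one_of_cm_le_fx (h2 : ∀ v : V, v ^ 2 = 1) {σ : MulAut V} {n : ℕ} (hn : Odd n)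
    (hσ : σ ^ n = 1) (h : cm σ ≤ fx σ) : σ = 1 := by
  ext v
  have := cm_inf_fx h2 hn hσ ⟨v, rfl⟩ (h ⟨v, rfl⟩)
  simpa [mul_inv_eq_one] using this

variable [Finite V]

theorem Inv.inv {U : Subgroup V} {σ : MulAut V} (h : Inv σ U) : Inv σ⁻¹ U := by
  have := h.pow (orderOf σ - 1)
  have e : σ ^ (orderOf σ - 1) = σ⁻¹ := by
    rw [eq_inv_iff_mul_eq_one, ← pow_succ, Nat.sub_add_cancel (orderOf_pos σ), pow_orderOf_eq_one]
  rwa [e] at this

theorem card_cm_conj (α σ : MulAut V) : Nat.card (cm (α * σ * α⁻¹)) = Nat.card (cm σ) := by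
  have key : ∀ α σ : MulAut V, Nat.card (cm σ) ≤ Nat.card (cm (α * σ * α⁻¹)) := fun α σ =>
    Nat.card_le_card_of_injective (fun w : cm σ => (⟨α w, conj_cm α σ w.2⟩ : cm (α * σ * α⁻¹)))
      fun a b e => Subtype.ext (α.injective (congrArg Subtype.val e))
  refine le_antisymm ?_ (key α σ)
  have := key α⁻¹ (α * σ * α⁻¹)
  rwa [show α⁻¹ * (α * σ * α⁻¹) * α⁻¹⁻¹ = σ by group] at this

theorem cover {U : Subgroup V} {ρ : MulAut V} (h : Inv ρ U) (hf : ∀ u ∈ U, u ∈ fx ρ → u = 1) :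
    U ≤ cm ρ := by
  let f : U → U := fun u => ⟨ρ u * (u : V)⁻¹, mul_mem (h u u.2) (inv_mem u.2)⟩
  have hi : Function.Injective f := by
    intro a b e
    have e1 : ρ a * (a : V)⁻¹ = ρ b * (b : V)⁻¹ := congrArg Subtype.val e
    have := hf (a * (b : V)⁻¹) (mul_mem a.2 (inv_mem b.2)) (by
      change ρ (a * (b : V)⁻¹) = a * (b : V)⁻¹
      rw [map_mul, map_inv]
      calc ρ a * (ρ b)⁻¹ = (ρ a * (a : V)⁻¹) * (ρ b * (b : V)⁻¹)⁻¹ * (a * (b : V)⁻¹) := by
            simp [mul_assoc, mul_comm, mul_left_comm]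
        _ = _ := by rw [e1]; simp)
    exact Subtype.ext (mul_inv_eq_one.1 this)
  intro u hu
  obtain ⟨v, hv⟩ := Finite.injective_iff_surjective.1 hi ⟨u, hu⟩
  exact ⟨v, congrArg Subtype.val hv⟩

theorem cnt {r n : ℕ} [Fact r.Prime] {Y : Subgroup V} {ρ : MulAut V} (hρ : ρ ^ r ^ n = 1)
    (h : Inv ρ Y) : Nat.card Y ≡ Nat.card (Y ⊓ fx ρ : Subgroup V) [MOD r] := by
  classical
  have := Fintype.ofFinite Y
  let f : Function.End Y := fun y => ⟨ρ y, h y y.2⟩
  have hf : ∀ (m : ℕ) (y : Y), ((f ^ m) y : V) = (ρ ^ m) y := by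
    intro m
    induction m with
    | zero => intro y; rfl
    | succ m ih => intro y; rw [pow_succ, pow_succ]; exact ih (f y)
  have h1 : f ^ r ^ n = 1 := by
    funext y
    refine Subtype.ext ?_
    rw [hf, hρ]; rfl
  have h2 := Equiv.Perm.card_fixedPoints_modEq h1
  rw [← Nat.card_eq_fintype_card, ← Nat.card_eq_fintype_card] at h2
  convert h2 using 1
  refine Nat.card_congr ⟨fun y => ⟨⟨y, y.2.1⟩, Subtype.ext y.2.2⟩,
    fun y => ⟨y.1, y.1.2, congrArg Subtype.val y.2⟩, fun _ => rfl, fun _ => rfl⟩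

theorem card_two_pow (h2 : ∀ v : V, v ^ 2 = 1) (U : Subgroup V) : ∃ n, Nat.card U = 2 ^ n :=
  IsPGroup.iff_card.1 (fun u => ⟨1, Subtype.ext (by simpa using h2 u)⟩)

theorem faithful (h2 : ∀ v : V, v ^ 2 = 1) {L : Subgroup (MulAut V)} (hL : Odd (Nat.card L))
    {U : Subgroup V} (hLU : L ≤ Low U) {n : ℕ} (hn : Nat.card U = 2 ^ n) :
    Nat.card L ∣ ∏ i ∈ range n, (2 ^ n - 2 ^ i) := by
  have hi : ∀ σ : L, Inv σ U := fun σ => inv_of_cm_le (mem_Low.1 (hLU σ.2))
  let res : L →* MulAut U := MonoidHom.mk' (fun σ =>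
    { toFun := fun u => ⟨σ.1 u, hi σ u u.2⟩
      invFun := fun u => ⟨(σ⁻¹ : L).1 u, hi σ⁻¹ u u.2⟩
      left_inv := fun u => Subtype.ext (by simp)
      right_inv := fun u => Subtype.ext (by simp)
      map_mul' := fun a b => Subtype.ext (by simp) }) (fun a b => rfl)
  have hinj : Function.Injective res := by
    rw [injective_iff_map_eq_one]
    intro σ hσ
    refine Subtype.ext (eq_one_of_cm_le_fx h2 hL
      (congrArg Subtype.val (pow_card_eq_one' (x := σ))) fun w hw => ?_)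
    exact congrArg Subtype.val (DFunLike.congr_fun hσ ⟨w, mem_Low.1 (hLU σ.2) hw⟩)
  exact (card_dvd_of_injective res hinj).trans
    (Fgs.card_mulAut_dvd_of_elementary (fun u => Subtype.ext (by simpa using h2 u)) hn)

theorem card_sup_le (U W : Subgroup V) : Nat.card (U ⊔ W : Subgroup V) ≤ Nat.card U * Nat.card W :=
  Nat.le_of_dvd (Nat.mul_pos Nat.card_pos Nat.card_pos) (Core.card_sup_dvd_of_normal _ _)

theorem pair_dvd (h2 : ∀ v : V, v ^ 2 = 1) {σ τ : MulAut V} {k : ℕ} (hσ : Nat.card (cm σ) = 2 ^ k)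
    (hτ : Nat.card (cm τ) = 2 ^ k) (hL : Odd (Nat.card (closure {σ, τ} : Subgroup (MulAut V)))) :
    closure {σ, τ} ≤ Low (cm σ ⊔ cm τ) ∧ ∃ n ≤ 2 * k,
      Nat.card (closure {σ, τ} : Subgroup (MulAut V)) ∣ ∏ i ∈ range n, (2 ^ n - 2 ^ i) := by
  have h1 : closure {σ, τ} ≤ Low (cm σ ⊔ cm τ) := by
    rw [closure_le]
    rintro _ (rfl | rfl)
    · exact mem_Low.2 le_sup_left
    · exact mem_Low.2 le_sup_right
  obtain ⟨n, hn⟩ := card_two_pow h2 (cm σ ⊔ cm τ)
  refine ⟨h1, n, ?_, faithful h2 hL h1 hn⟩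
  have := card_sup_le (cm σ) (cm τ)
  rw [hn, hσ, hτ, ← pow_add, Nat.pow_le_pow_iff_right (by norm_num)] at this
  omega

theorem comm_of_dvd_sq {L : Type*} [Group L] [Finite L] {r : ℕ} [hr : Fact r.Prime]
    (h : Nat.card L ∣ r ^ 2) (a b : L) : a * b = b * a := by
  obtain ⟨m, hm, e⟩ := (Nat.dvd_prime_pow hr.out).1 h
  interval_cases m
  · have := (Nat.card_eq_one_iff_unique.1 (by simpa using e)).1
    exact Subsingleton.elim _ _
  · have := isCyclic_of_prime_card (by simpa using e : Nat.card L = r)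
    exact (IsCyclic.commGroup (α := L)).mul_comm a b
  · exact (IsPGroup.isMulCommutative_of_card_eq_prime_sq e).is_comm.comm a b

theorem lemA (h2 : ∀ v : V, v ^ 2 = 1) {r k : ℕ} (hrk : (r = 3 ∧ k = 2) ∨ (r = 7 ∧ k = 3))
    {P : Subgroup (MulAut V)} (hP : IsPGroup r P) {δ α : MulAut V} (hδ : δ ∈ P) (hα : α ∈ P)
    (hk : Nat.card (cm δ) = 2 ^ k)
    (hc : α * (δ⁻¹ * (α * δ * α⁻¹)) = δ⁻¹ * (α * δ * α⁻¹) * α) : Inv α (cm δ) := by
  have hr : Fact r.Prime := ⟨by rcases hrk with ⟨rfl, -⟩ | ⟨rfl, -⟩ <;> norm_num⟩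
  have hro : Odd r := by rcases hrk with ⟨rfl, -⟩ | ⟨rfl, -⟩ <;> decide
  set δ' := α * δ * α⁻¹ with hδ'
  have hδ'P : δ' ∈ P := mul_mem (mul_mem hα hδ) (inv_mem hα)
  have hk' : Nat.card (cm δ') = 2 ^ k := by rw [hδ', card_cm_conj, hk]
  have hLP : closure {δ, δ'} ≤ P := by
    rw [closure_le]
    rintro _ (rfl | rfl) <;> assumption
  obtain ⟨m, hm⟩ := IsPGroup.iff_card.1 (hP.to_le hLP)
  obtain ⟨-, n, hn, hd⟩ := pair_dvd h2 hk hk' (by rw [hm]; exact hro.pow)
  have hsq : Nat.card (closure {δ, δ'} : Subgroup (MulAut V)) ∣ r ^ 2 := by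
    rw [hm] at hd ⊢
    refine pow_dvd_pow r ?_
    by_contra hlt
    have h3 : r ^ 3 ∣ ∏ i ∈ range n, (2 ^ n - 2 ^ i) := (pow_dvd_pow r (by omega)).trans hd
    rcases hrk with ⟨rfl, rfl⟩ | ⟨rfl, rfl⟩ <;> interval_cases n <;> revert h3 <;> decide +kernel
  have hcomm : δ * δ' = δ' * δ := congrArg Subtype.val (comm_of_dvd_sq hsq
    (⟨δ, subset_closure (by simp)⟩ : closure {δ, δ'}) ⟨δ', subset_closure (by simp)⟩)
  obtain ⟨a, ha⟩ := hP ⟨δ, hδ⟩
  have ha : δ ^ r ^ a = 1 := congrArg Subtype.val ha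
  obtain ⟨b, hb⟩ := hP ⟨δ', hδ'P⟩
  have hb : δ' ^ r ^ b = 1 := congrArg Subtype.val hb
  suffices h : cm δ' = cm δ by
    intro u hu
    rw [← h]
    exact conj_cm α δ hu
  by_contra hne
  have hbot : cm δ ⊓ cm δ' = ⊥ := by
    have h1 := cnt ha ((inv_of_cm_le le_rfl).inf (inv_of_comm hcomm))
    have h3 : cm δ ⊓ cm δ' ⊓ fx δ = ⊥ :=
      eq_bot_iff.2 fun w hw => cm_inf_fx h2 hro.pow ha hw.1.1 hw.2
    rw [h3, card_bot] at h1
    obtain ⟨j, hj⟩ := card_two_pow h2 (cm δ ⊓ cm δ')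
    have h4 : cm δ ⊓ cm δ' < cm δ' := lt_of_le_of_ne inf_le_right fun h =>
      hne (eq_of_le_of_card_ge (h.ge.trans inf_le_left) (by rw [hk, hk']))
    have h5 := Core.card_lt_of_lt h4
    rw [hj, hk', Nat.pow_lt_pow_iff_right (by norm_num)] at h5
    rw [hj] at h1
    rw [← Subgroup.card_eq_one, hj]
    rcases hrk with ⟨rfl, rfl⟩ | ⟨rfl, rfl⟩ <;> interval_cases j <;> first | rfl | (revert h1; decide)
  have f1 : ∀ u ∈ cm δ', δ u = u := fun u hu => by
    have : δ u * u⁻¹ ∈ cm δ ⊓ cm δ' :=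
      mem_inf.2 ⟨⟨u, rfl⟩, mul_mem (inv_of_comm hcomm u hu) (inv_mem hu)⟩
    rw [hbot, mem_bot] at this
    exact mul_inv_eq_one.1 this
  have f2 : ∀ u ∈ cm δ, δ' u = u := fun u hu => by
    have : δ' u * u⁻¹ ∈ cm δ ⊓ cm δ' :=
      mem_inf.2 ⟨mul_mem (inv_of_comm hcomm.symm u hu) (inv_mem hu), ⟨u, rfl⟩⟩
    rw [hbot, mem_bot] at this
    exact mul_inv_eq_one.1 this
  have e : α * δ' * α⁻¹ = δ' * δ⁻¹ * δ' := by
    have : α * δ' * α⁻¹ = δ' * (α * (δ⁻¹ * δ')) * α⁻¹ := by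
      conv_rhs => enter [1, 1]; rw [hδ']
      group
    rw [this, hc]; group
  have hk'' : Nat.card (cm (δ' * δ⁻¹ * δ')) = 2 ^ k := by rw [← e, card_cm_conj, hk']
  have i1 : Inv δ (cm δ) := inv_of_cm_le le_rfl
  have i2 : Inv δ' (cm δ') := inv_of_cm_le le_rfl
  have g1 : cm δ ≤ cm (δ' * δ⁻¹ * δ') := cover
    (((inv_of_comm hcomm.symm).mul i1.inv).mul (inv_of_comm hcomm.symm)) fun u hu hf => by
      have hf' : δ' (δ⁻¹ (δ' u)) = u := hf
      rw [f2 u hu, f2 _ (i1.inv u hu)] at hf'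
      refine cm_inf_fx h2 hro.pow ha hu ?_
      change δ u = u
      conv_lhs => rw [← hf']
      simp
  have g2 : cm δ' ≤ cm (δ' * δ⁻¹ * δ') := cover
    ((i2.mul (inv_of_comm hcomm).inv).mul i2) fun u hu hf => by
      have hf' : δ' (δ⁻¹ (δ' u)) = u := hf
      have e1 : δ⁻¹ (δ' u) = δ' u := by
        conv_lhs => rw [← f1 _ (i2 u hu)]
        simp
      rw [e1] at hf'
      refine cm_inf_fx h2 hro.pow hb hu ?_
      obtain ⟨c, hc⟩ : Odd (r ^ b) := hro.pow
      have h3 : u ∈ fx ((δ' ^ 2) ^ (c + 1)) := fx_pow (by rw [pow_two]; exact hf') _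
      rwa [← pow_mul, show 2 * (c + 1) = r ^ b + 1 by omega, pow_succ, hb, one_mul] at h3
  exact hne ((eq_of_le_of_card_ge g2 (by rw [hk', hk''])).trans
    (eq_of_le_of_card_ge g1 (by rw [hk, hk''])).symm)

theorem lemB (h2 : ∀ v : V, v ^ 2 = 1) {p : ℕ} (hp : p.Prime) (h5 : 5 ≤ p)
    {H : Subgroup (MulAut V)} (hH : ∀ q : ℕ, q.Prime → q ∣ Nat.card H → q = 3 ∨ q = p)
    {σ τ : MulAut V} (hσH : σ ∈ H) (hτH : τ ∈ H) (hσ3 : σ ^ 3 = 1) (hσ : Nat.card (cm σ) = 2 ^ 2)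
    (hτ : Nat.card (cm τ) = 2 ^ 2) (hne : σ * τ ≠ τ * σ) :
    p = 7 ∧ ∃ δ ∈ H, δ ^ 7 = 1 ∧ Nat.card (cm δ) = 2 ^ 3 ∧ cm σ ≤ cm δ := by
  have hpf := Fact.mk hp
  have h3f : Fact (Nat.Prime 3) := ⟨by norm_num⟩
  have hpo : Odd p := hp.odd_of_ne_two (by omega)
  set L : Subgroup (MulAut V) := Subgroup.closure {σ, τ} with hLdef
  have hσL : σ ∈ L := subset_closure (by simp)
  have hτL : τ ∈ L := subset_closure (by simp)
  have hLH : L ≤ H := by
    rw [hLdef, closure_le]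
    rintro _ (rfl | rfl) <;> assumption
  have hL : ∀ q : ℕ, q.Prime → q ∣ Nat.card L → q = 3 ∨ q = p := fun q hq hd =>
    hH q hq (hd.trans (card_dvd_of_le hLH))
  have hodd : Odd (Nat.card L) := by
    rw [← Nat.not_even_iff_odd, even_iff_two_dvd]
    intro h
    rcases hL 2 Nat.prime_two h with h | h <;> omega
  obtain ⟨hLow, n, hn, hd⟩ := pair_dvd h2 hσ hτ hodd
  have hd1 : Nat.card L ∣ 2 ^ 6 * 315 := hd.trans (by interval_cases n <;> decide +kernel)
  have hd2 : Nat.card L ∣ 9 * 35 :=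
    (Nat.Coprime.pow_right 6 (Nat.coprime_two_right.2 hodd)).dvd_of_dvd_mul_left hd1
  have hpL : p ∣ Nat.card L := by
    by_contra hc
    have : (Nat.card L).Coprime 35 := by
      refine Nat.coprime_of_dvd fun q hq h1 h3 => ?_
      rcases hL q hq h1 with rfl | rfl
      · revert h3; decide
      · exact hc h1
    exact hne (congrArg Subtype.val (comm_of_dvd_sq (r := 3) (this.dvd_of_dvd_mul_right hd2)
      (⟨σ, hσL⟩ : L) ⟨τ, hτL⟩))
  have hp57 : p = 5 ∨ p = 7 := by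
    have h := hpL.trans hd2
    rw [show 9 * 35 = 3 ^ 2 * (5 * 7) by norm_num] at h
    rcases (Nat.Prime.dvd_mul hp).1 h with h | h
    · have := (Nat.prime_dvd_prime_iff_eq hp Nat.prime_three).1 (hp.dvd_of_dvd_pow h)
      omega
    · rcases (Nat.Prime.dvd_mul hp).1 h with h | h
      · exact Or.inl ((Nat.prime_dvd_prime_iff_eq hp (by norm_num)).1 h)
      · exact Or.inr ((Nat.prime_dvd_prime_iff_eq hp (by norm_num)).1 h)
  have hd3 : Nat.card L ∣ 9 * p := by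
    rcases hp57 with rfl | rfl
    · have : (Nat.card L).Coprime 7 := ((Nat.Prime.coprime_iff_not_dvd (by norm_num)).2 fun h => by
        rcases hL 7 (by norm_num) h with h | h <;> omega).symm
      exact this.dvd_of_dvd_mul_right (show _ ∣ 9 * 5 * 7 from hd2)
    · have : (Nat.card L).Coprime 5 := ((Nat.Prime.coprime_iff_not_dvd (by norm_num)).2 fun h => by
        rcases hL 5 (by norm_num) h with h | h <;> omega).symm
      exact this.dvd_of_dvd_mul_right (show _ ∣ 9 * 7 * 5 from hd2)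
  obtain ⟨δ₀, hδ₀⟩ := exists_prime_orderOf_dvd_card' p hpL
  have hcz : Nat.card (zpowers δ₀) = p := by rw [Nat.card_zpowers, hδ₀]
  have hidx : (zpowers δ₀).index ∣ 9 := by
    have := (zpowers δ₀).index_mul_card
    rw [hcz] at this
    rw [← this] at hd3
    exact Nat.dvd_of_mul_dvd_mul_right hp.pos hd3
  have hnorm : (zpowers δ₀).Normal := by
    let D : Sylow p L := (IsPGroup.of_card (n := 1) (by rw [hcz, pow_one])).toSylow
      (fun h => by
        have := Nat.le_of_dvd (by norm_num) (h.trans hidx)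
        rcases hp57 with rfl | rfl <;> exact absurd (h.trans hidx) (by decide))
    have h1 := card_sylow_modEq_one p L
    have h3 : Nat.card (Sylow p L) ∣ 3 ^ 2 := D.card_dvd_index.trans hidx
    obtain ⟨m, hm, e⟩ := (Nat.dvd_prime_pow Nat.prime_three).1 h3
    have h4 : Nat.card (Sylow p L) = 1 := by
      rw [e] at h1 ⊢
      rcases hp57 with rfl | rfl <;> interval_cases m <;> first | rfl | (revert h1; decide)
    have := (Nat.card_eq_one_iff_unique.1 h4).1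
    exact Sylow.normal_of_subsingleton D
  set δ : MulAut V := δ₀.1 with hδdef
  have hδp : δ ^ p = 1 := by
    rw [← hδ₀]
    exact congrArg Subtype.val (pow_orderOf_eq_one δ₀)
  have hδp1 : δ ^ p ^ 1 = 1 := by rwa [pow_one]
  have hσ31 : σ ^ 3 ^ 1 = 1 := by rwa [pow_one]
  have hδ1 : δ ≠ 1 := fun h => by
    have : δ₀ = 1 := Subtype.ext h
    rw [this, orderOf_one] at hδ₀
    omega
  obtain ⟨i, hi⟩ : ∃ i : ℕ, δ ^ i = σ * δ * σ⁻¹ := by
    obtain ⟨i, hi⟩ := mem_powers_iff_mem_zpowers.2 (hnorm.conj_mem δ₀ (mem_zpowers _) ⟨σ, hσL⟩)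
    exact ⟨i, congrArg Subtype.val hi⟩
  have hU0 : cm δ ≤ cm σ ⊔ cm τ := mem_Low.1 (hLow δ₀.2)
  have hU16 : Nat.card (cm σ ⊔ cm τ : Subgroup V) ≤ 2 ^ 4 := by
    have := card_sup_le (cm σ) (cm τ)
    rwa [hσ, hτ] at this
  have hcU : Nat.card (cm δ) ≡ 1 [MOD p] := by
    have h1 := cnt hδp1 (inv_of_cm_le le_rfl)
    rwa [show cm δ ⊓ fx δ = ⊥ from eq_bot_iff.2 fun w hw => cm_inf_fx h2 hpo hδp hw.1 hw.2,
      card_bot] at h1
  have hU1 : Nat.card (cm δ) ≠ 1 := fun h => hδ1 (eq_one_of_cm_le_fx h2 hpo hδp (by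
    rw [Subgroup.card_eq_one.1 h]; exact bot_le))
  obtain ⟨j, hj⟩ := card_two_pow h2 (cm δ)
  have hWf : cm σ ⊓ fx σ = ⊥ :=
    eq_bot_iff.2 fun w hw => cm_inf_fx h2 (by decide) hσ3 hw.1 hw.2
  have hnc : σ * δ ≠ δ * σ := by
    intro hc
    have h1 := cnt hδp1 (inv_of_comm hc.symm)
    have h3 : cm σ ≤ fx δ := by
      have h4 : Nat.card (cm σ ⊓ fx δ : Subgroup V) ≤ Nat.card (cm σ) :=
        card_le_of_le inf_le_left
      have h6 : Nat.card (cm σ ⊓ fx δ : Subgroup V) = Nat.card (cm σ) := by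
        rw [hσ] at h1 h4 ⊢
        generalize Nat.card (cm σ ⊓ fx δ : Subgroup V) = c at h1 h4
        rcases hp57 with rfl | rfl <;> interval_cases c <;> first | rfl | (revert h1; decide)
      exact (eq_of_le_of_card_ge inf_le_left h6.ge).ge.trans inf_le_right
    have h4 : cm δ ≤ fx σ := by
      rintro _ ⟨u, rfl⟩
      have e1 : δ (σ u * u⁻¹) = σ u * u⁻¹ := h3 ⟨u, rfl⟩
      have e2 : δ (σ u) = σ (δ u) := (DFunLike.congr_fun hc u).symm
      change σ (δ u * u⁻¹) = δ u * u⁻¹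
      rw [map_mul, map_inv, e2] at e1
      rw [map_mul, map_inv]
      calc σ (δ u) * (σ u)⁻¹ = (σ (δ u) * (δ u)⁻¹) * (σ u * u⁻¹)⁻¹ * (δ u * u⁻¹) := by
            simp [mul_assoc, mul_comm, mul_left_comm]
        _ = _ := by rw [e1]; simp
    have h6 : cm σ ⊓ cm δ = ⊥ := eq_bot_iff.2 (hWf ▸ inf_le_inf_left _ h4)
    have h7 := Core.card_sup_mul_card_inf_of_normal (cm σ) (cm δ)
    have h8 : Nat.card (cm σ ⊔ cm δ : Subgroup V) ≤ 2 ^ 4 :=
      (card_le_of_le (sup_le le_sup_left hU0)).trans hU16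
    rw [h6, card_bot, mul_one, hσ, hj] at h7
    rw [h7, ← pow_add, Nat.pow_le_pow_iff_right (by norm_num)] at h8
    rw [hj] at hcU hU1
    have hj2 : j ≤ 2 := by omega
    rcases hp57 with rfl | rfl <;> interval_cases j <;> first | exact hU1 rfl | (revert hcU; decide)
  have hp7 : p = 7 := by
    refine hp57.resolve_left ?_
    rintro rfl
    have e1 : ∀ m : ℕ, σ * δ ^ m * σ⁻¹ = δ ^ (i * m) := fun m => by
      rw [pow_mul, hi, conj_pow]
    have e2 : δ ^ (i * (i * i)) = δ ^ 1 := by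
      rw [← e1, ← e1, hi, pow_one]
      calc _ = σ ^ 3 * δ * (σ ^ 3)⁻¹ := by rw [pow_three]; group
        _ = δ := by rw [hσ3]; group
    have ho : orderOf δ = 5 := orderOf_eq_prime hδp hδ1
    rw [pow_eq_pow_iff_modEq, ho] at e2
    have e3 : i ≡ 1 [MOD 5] := by
      unfold Nat.ModEq at e2 ⊢
      rw [Nat.mul_mod, Nat.mul_mod i i] at e2
      have := Nat.mod_lt i (show 0 < 5 by norm_num)
      generalize i % 5 = c at *
      interval_cases c <;> simp_all
    rw [← ho, ← pow_eq_pow_iff_modEq, hi, pow_one] at e3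
    exact hnc (mul_inv_eq_iff_eq_mul.1 e3)
  subst hp7
  have hj3 : j = 3 := by
    have h8 := (card_le_of_le hU0).trans hU16
    rw [hj, Nat.pow_le_pow_iff_right (by norm_num)] at h8
    rw [hj] at hcU hU1
    interval_cases j <;> first | rfl | exact absurd rfl hU1 | (revert hcU; decide)
  subst hj3
  refine ⟨rfl, δ, hLH δ₀.2, hδp, hj, ?_⟩
  have hpow : ∀ m : ℕ, cm (δ ^ m) ≤ cm δ := fun m => mem_Low.1 (pow_mem (mem_Low.2 le_rfl) m)
  have iσ : Inv σ (cm δ) := fun u hu => hpow i (hi ▸ conj_cm σ δ hu)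
  have iδ : Inv δ (cm δ) := inv_of_cm_le le_rfl
  have h1 := cnt hσ31 ((inv_of_cm_le le_rfl).inf iσ)
  rw [show cm σ ⊓ cm δ ⊓ fx σ = ⊥ from eq_bot_iff.2 fun w hw =>
    cm_inf_fx h2 (by decide) hσ3 hw.1.1 hw.2, card_bot] at h1
  obtain ⟨c, hc⟩ := card_two_pow h2 (cm σ ⊓ cm δ)
  have h3 : Nat.card (cm σ ⊓ cm δ : Subgroup V) ≤ Nat.card (cm σ) := card_le_of_le inf_le_left
  rw [hc, hσ, Nat.pow_le_pow_iff_right (by norm_num)] at h3
  rw [hc] at h1
  interval_cases c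
  · exfalso
    have hb : cm σ ⊓ cm δ = ⊥ := Subgroup.card_eq_one.1 hc
    have f1 : ∀ u ∈ cm δ, σ u = u := fun u hu => by
      have : σ u * u⁻¹ ∈ cm σ ⊓ cm δ := mem_inf.2 ⟨⟨u, rfl⟩, mul_mem (iσ u hu) (inv_mem hu)⟩
      rw [hb, mem_bot] at this
      exact mul_inv_eq_one.1 this
    have e : δ ^ (i + 6) = σ * δ * σ⁻¹ * δ⁻¹ := by
      rw [pow_add, hi]
      congr 1
      rw [eq_inv_iff_mul_eq_one, ← pow_succ, hδp]
    have := eq_one_of_cm_le_fx h2 (n := 7) (by decide) (σ := δ ^ (i + 6))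
      (by rw [← pow_mul, mul_comm, pow_mul, hδp, one_pow]) fun u hu => by
        have hu' := hpow _ hu
        change (δ ^ (i + 6)) u = u
        have e1 : σ⁻¹ (δ⁻¹ u) = δ⁻¹ u := by
          conv_lhs => rw [← f1 _ (iδ.inv u hu')]
          simp
        rw [e, MulAut.mul_apply, MulAut.mul_apply, MulAut.mul_apply, e1]
        simpa using f1 u hu'
    rw [e, mul_inv_eq_one, mul_inv_eq_iff_eq_mul] at this
    exact hnc this
  · exact absurd h1 (by decide)
  · exact (eq_of_le_of_card_ge inf_le_left (by rw [hc, hσ])).ge.trans inf_le_right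

end Aut

section Amb
variable {S : Type*} [Group S] [Finite S]

theorem fin {r k : ℕ} (hr : r.Prime) {F U W : Subgroup S} (hF : IsElementaryAbelian r F)
    (hF3 : Nat.card F = r ^ 3) (hU : IsElementaryAbelian 2 U) (hk : Nat.card U = 2 ^ k)
    (hn : F ≤ normalizer (U : Set S)) (hWU : W ≤ U)
    (hd : ¬ r ^ 2 ∣ ∏ i ∈ range k, (2 ^ k - 2 ^ i)) :
    ¬ IsCyclic (F ⊓ centralizer (W : Set S) : Subgroup S) := by
  intro hc
  have := hU.1
  have h1 : (centralizer (U : Set S)).relIndex F ∣ ∏ i ∈ range k, (2 ^ k - 2 ^ i) := by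
    refine dvd_trans ?_ ((SmallSimple.relIndex_centralizer_dvd_card_mulAut U).trans
      (Fgs.card_mulAut_dvd_of_elementary (fun u => Subtype.ext (hU.2 u u.2)) hk))
    have h2 : ((centralizer (U : Set S)).subgroupOf (normalizer (U : Set S))).Normal :=
      inferInstance
    have := relIndex_dvd_index_of_normal ((centralizer (U : Set S)).subgroupOf
      (normalizer (U : Set S))) (F.subgroupOf (normalizer (U : Set S)))
    rwa [relIndex_subgroupOf hn] at this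
  have h2 := Tech.card_mul_relIndex' (inf_le_left : F ⊓ centralizer (U : Set S) ≤ F)
  rw [inf_relIndex_left, hF3] at h2
  have h3 : Nat.card (F ⊓ centralizer (W : Set S) : Subgroup S) ∣ r := by
    rw [← IsCyclic.exponent_eq_card]
    exact Monoid.exponent_dvd_of_forall_pow_eq_one fun x => Subtype.ext (hF.2 x x.2.1)
  have h4 : Nat.card (F ⊓ centralizer (U : Set S) : Subgroup S) ∣ r :=
    (card_dvd_of_le (inf_le_inf_left F (centralizer_le hWU))).trans h3
  apply hd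
  refine dvd_trans ?_ h1
  obtain ⟨c, hc⟩ := h4
  have h5 : r * r ^ 2 ∣ r * (centralizer (U : Set S)).relIndex F := by
    rw [← pow_succ', ← h2]
    exact Nat.mul_dvd_mul_right ⟨c, hc⟩ _
  exact Nat.dvd_of_mul_dvd_mul_left hr.pos h5

theorem rank3 {r : ℕ} [Fact r.Prime] (hr : r ≠ 2) {P E : Subgroup S} (hP : IsPGroup r P)
    (hEP : E ≤ P) (hE : IsElementaryAbelian r E) (hc : r ^ 2 < Nat.card E) :
    ∃ A : Subgroup S, A ≤ P ∧ P ≤ normalizer (A : Set S) ∧ IsElementaryAbelian r A ∧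
      Nat.card A = r ^ 3 := by
  obtain ⟨A, hA, h1, h2⟩ := PGroup.exists_normal_rank_three hr hP
    (Core.isElementaryAbelian_comap_of_injective hE P.subtype_injective)
    (by
      change _ < Nat.card (E.subgroupOf P)
      rwa [Nat.card_congr (subgroupOfEquivOfLe hEP).toEquiv])
  refine ⟨A.map P.subtype, map_subtype_le _, fun g hg => Tech.mem_normalizer_of_forall ?_,
    Core.isElementaryAbelian_map h1 _, by rw [card_map_of_injective P.subtype_injective, h2]⟩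
  rintro _ ⟨a, ha, rfl⟩
  exact ⟨_, hA.conj_mem a ha ⟨g, hg⟩, rfl⟩

end Amb

/-- Let S be a finite solvable group and M a normal elementary abelian 2-subgroup of S. Suppose S contains an elementary abelian subgroup of order p³ for some odd prime p, and a cyclic 3-subgroup Q such that the cubes of the elements of Q centralize M and the commutator subgroup [Q, M] has order 4 (a four-group inside M). Then S contains an elementary abelian subgroup F of order r³, for some odd prime r, whose centralizer of [Q, M] in F — the subgroup C_F([Q, M]) — is not cyclic. -/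
theorem result {S : Type*} [Group S] [Finite S]
    [Group.IsSolvable S] (M : Subgroup S) [M.Normal] (hM : Cfsg.IsElementaryAbelian 2 M)
    (p : ℕ) (hp : p.Prime) (hp2 : p ≠ 2) (E : Subgroup S) (hE : Cfsg.IsElementaryAbelian p E) (hE3 : Nat.card ↥E = p ^ 3)
    (Q : Subgroup S) (hQc : IsCyclic ↥Q) (hQ3 : IsPGroup 3 ↥Q)
    (hQ1 : ∀ x ∈ Q, x ^ 3 ∈ Subgroup.centralizer (M : Set S)) (hQM : Nat.card ↥⁅Q, M⁆ = 4) :
    ∃ (r : ℕ) (F : Subgroup S), r.Prime ∧ r ≠ 2 ∧ Cfsg.IsElementaryAbelian r F ∧ Nat.card ↥F = r ^ 3 ∧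
      ¬ IsCyclic ↥(F ⊓ Subgroup.centralizer ((⁅Q, M⁆ : Subgroup S) : Set S)) := by
  have hpf := Fact.mk hp
  have h3f : Fact (Nat.Prime 3) := ⟨by norm_num⟩
  have hMc := hM.1
  let _ : CommGroup M := { (inferInstance : Group M) with mul_comm := hMc.is_comm.comm }
  have h2 : ∀ v : M, v ^ 2 = 1 := fun v => Subtype.ext (hM.2 v v.2)
  set φ : S →* MulAut M := MulAut.conjNormal with hφ
  have hφa : ∀ (g : S) (v : M), (φ g v : S) = g * v * g⁻¹ := fun g v => rfl
  obtain ⟨⟨x, hxQ⟩, hx⟩ := IsCyclic.exists_generator (α := Q)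
  have hQx : Q = zpowers x := by
    refine le_antisymm (fun y hy => ?_) (zpowers_le.2 hxQ)
    obtain ⟨k, hk⟩ := hx ⟨y, hy⟩
    exact ⟨k, congrArg Subtype.val hk⟩
  have hW : ⁅Q, M⁆ = (cm (φ x)).map M.subtype := by
    refine le_antisymm (commutator_le.2 fun q hq m hm => ?_) ?_
    · have h1 : φ q ∈ Low (cm (φ x)) := by
        rw [hQx] at hq
        obtain ⟨k, rfl⟩ := hq
        rw [map_zpow]
        exact zpow_mem (mem_Low.2 le_rfl) k
      exact ⟨_, h1 ⟨m, hm⟩, rfl⟩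
    · rintro _ ⟨_, ⟨v, rfl⟩, rfl⟩
      exact commutator_mem_commutator hxQ v.2
  have hσ : Nat.card (cm (φ x)) = 2 ^ 2 := by
    rw [← card_map_of_injective M.subtype_injective, ← hW, hQM]; norm_num
  have hσ3 : φ x ^ 3 = 1 := by
    rw [← map_pow]
    ext v
    rw [hφa, ← mem_centralizer_iff.1 (hQ1 x hxQ) v v.2]
    simp
  have hnorm : ∀ (U : Subgroup M) (g : S), Inv (φ g) U →
      g ∈ normalizer ((U.map M.subtype : Subgroup S) : Set S) := fun U g h =>
    Tech.mem_normalizer_of_forall (by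
      rintro _ ⟨u, hu, rfl⟩
      exact ⟨_, h u hu, rfl⟩)
  have hel : ∀ U : Subgroup M, IsElementaryAbelian 2 (U.map M.subtype) := fun U =>
    Core.isElementaryAbelian_map ⟨inferInstance, fun u _ => h2 u⟩ _
  have caseA : ∀ (k : ℕ) (d : S), ((p = 3 ∧ k = 2) ∨ (p = 7 ∧ k = 3)) → IsPGroup p (zpowers d) →
      Nat.card (cm (φ d)) = 2 ^ k → cm (φ x) ≤ cm (φ d) →
      ∃ F : Subgroup S, IsElementaryAbelian p F ∧ Nat.card F = p ^ 3 ∧
        ¬ IsCyclic (F ⊓ centralizer ((⁅Q, M⁆ : Subgroup S) : Set S) : Subgroup S) := by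
    intro k d hk hd hc hle
    obtain ⟨P, hP, hdP⟩ := Tech.exists_isSylowIn_ge hd le_top
    obtain ⟨g, -, hg⟩ := hP.exists_cj_le (IsPGroup.of_card hE3) le_top
    obtain ⟨A, hAP, hPA, hA, hA3⟩ := rank3 hp2 hP.pgroup hg (Core.isElementaryAbelian_map hE _)
      (by rw [Tech.card_cj, hE3]; exact Nat.pow_lt_pow_right hp.one_lt (by norm_num))
    have hdP' : d ∈ P := hdP (mem_zpowers d)
    refine ⟨A, hA, hA3, fin hp hA hA3 (hel (cm (φ d))) (k := k)
      (by rw [card_map_of_injective M.subtype_injective, hc]) (fun a ha => hnorm _ _ ?_)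
      (hW ▸ map_mono hle) ?_⟩
    · refine lemA h2 hk (hP.pgroup.map φ) (mem_map_of_mem φ hdP') (mem_map_of_mem φ (hAP ha)) hc ?_
      have h1 : d⁻¹ * a * d * a⁻¹ ∈ A :=
        mul_mem (Tech.conj_mem_of_mem_normalizer' (hPA hdP') ha) (inv_mem ha)
      have := hA.1
      have h3 := congrArg φ (setLike_mul_comm ha h1)
      simpa only [map_mul, map_inv, mul_assoc] using h3
    · rcases hk with ⟨rfl, rfl⟩ | ⟨rfl, rfl⟩ <;> decide
  have finW : ∀ (r : ℕ) (F : Subgroup S), r.Prime → IsElementaryAbelian r F → Nat.card F = r ^ 3 →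
      (∀ g ∈ F, φ g * φ x = φ x * φ g) →
      ¬ IsCyclic (F ⊓ centralizer ((⁅Q, M⁆ : Subgroup S) : Set S) : Subgroup S) := by
    intro r F hr hF hF3 hc
    refine fin hr hF hF3 (hel (cm (φ x))) (k := 2)
      (by rw [card_map_of_injective M.subtype_injective, hσ])
      (fun a ha => hnorm _ _ (inv_of_comm (hc a ha))) hW.le fun h => ?_
    have h6 : r ^ 2 ∣ 6 := h
    have h7 : r ≤ 2 := by
      by_contra hc
      have := Nat.le_of_dvd (by norm_num) h6
      nlinarith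
    have := hr.two_le
    obtain rfl : r = 2 := by omega
    exact absurd h6 (by decide)
  by_cases hp3 : p = 3
  · obtain ⟨F, h⟩ := caseA 2 x (Or.inl ⟨hp3, rfl⟩) (by rw [hp3, ← hQx]; exact hQ3) hσ le_rfl
    exact ⟨p, F, hp, hp2, h⟩
  have hp5 : 5 ≤ p := by
    have := hp.two_le
    have : p ≠ 4 := by rintro rfl; exact absurd hp (by decide)
    omega
  obtain ⟨H, hH, hQH⟩ := Coprime.exists_isPiHall_ge (G := S) (π := {3, p}) (U := Q)
    (Coprime.isPiNum_card_of_isPGroup Nat.prime_three hQ3 (by simp))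
  obtain ⟨g, hg⟩ := Coprime.exists_le_conj_of_isPiHall hH (U := E)
    (Coprime.isPiNum_card_of_isPGroup hp (IsPGroup.of_card hE3) (by simp))
  rw [Tech.smul_eq_cj] at hg
  have hEH : Tech.cj g⁻¹ E ≤ H := by
    have := Tech.cj_mono g⁻¹ hg
    rwa [Tech.cj_inv_cj] at this
  have hHπ : ∀ q : ℕ, q.Prime → q ∣ Nat.card H → q = 3 ∨ q = p := fun q hq hd => by
    simpa using (Coprime.isPiHall_iff.1 hH).1 q hq hd
  have hxH : x ∈ H := hQH hxQ
  by_cases hcomm : ∀ h ∈ H, φ x * φ (h * x * h⁻¹) = φ (h * x * h⁻¹) * φ x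
  swap
  · push Not at hcomm
    obtain ⟨h, hh, hne⟩ := hcomm
    obtain ⟨hp7, _, ⟨d, hdH, rfl⟩, hδ7, hδc, hle⟩ := lemB h2 hp hp5 (H := H.map φ)
      (fun q hq hd => hHπ q hq (hd.trans (card_map_dvd _ _))) (mem_map_of_mem φ hxH)
      (mem_map_of_mem φ (mul_mem (mul_mem hh hxH) (inv_mem hh))) hσ3 hσ
      (by rw [map_mul, map_mul, map_inv, card_cm_conj, hσ]) hne
    subst hp7
    obtain ⟨a, m, hm, ho⟩ := Nat.exists_eq_pow_mul_and_not_dvd (orderOf_pos d).ne' 7 (by norm_num)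
    have hm6 : m ^ 6 % 7 = 1 := by
      rw [Nat.pow_mod]
      have h1 := Nat.mod_lt m (show 0 < 7 by norm_num)
      have h3 : m % 7 ≠ 0 := fun h => hm (Nat.dvd_of_mod_eq_zero h)
      generalize m % 7 = c at *
      interval_cases c <;> simp_all
    have e : φ (d ^ m ^ 6) = φ d := by
      rw [map_pow, ← Nat.mod_add_div (m ^ 6) 7, hm6, pow_add, pow_mul, hδ7, one_pow, mul_one, pow_one]
    obtain ⟨F, h⟩ := caseA 3 (d ^ m ^ 6) (Or.inr ⟨rfl, rfl⟩)
      (Tech.isPGroup_zpowers_of_pow (k := a) (by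
        rw [← pow_mul, ← orderOf_dvd_iff_pow_eq_one, ho, mul_comm]
        exact Nat.mul_dvd_mul_right (dvd_pow_self m (by norm_num)) _))
      (by rw [e, hδc]) (by rw [e]; exact hle)
    exact ⟨7, F, hp, hp2, h⟩
  set N : Subgroup S := (centralizer {φ x}).comap φ with hN
  have hNm : ∀ g, g ∈ N ↔ φ g * φ x = φ x * φ g := fun g => by
    rw [hN, mem_comap, mem_centralizer_singleton_iff]
  set T : Subgroup S := Subgroup.closure {y | ∃ h ∈ H, y = h * x * h⁻¹} with hT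
  have hTN : T ≤ N := by
    rw [hT, closure_le]
    rintro _ ⟨h, hh, rfl⟩
    exact (hNm _).2 (hcomm h hh).symm
  have hTH : T ≤ H := by
    rw [hT, closure_le]
    rintro _ ⟨h, hh, rfl⟩
    exact mul_mem (mul_mem hh hxH) (inv_mem hh)
  have hHT : H ≤ normalizer (T : Set S) := fun h hh => Tech.mem_normalizer_of_cj_le (by
    rw [hT, Tech.cj, MonoidHom.map_closure, closure_le]
    rintro _ ⟨_, ⟨k, hk, rfl⟩, rfl⟩
    exact subset_closure ⟨h * k, mul_mem hh hk, by simp [mul_assoc]⟩)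
  have hxT : x ∈ T := subset_closure ⟨1, one_mem _, by simp⟩
  obtain ⟨R, hR, hxR⟩ := Tech.exists_isSylowIn_ge (hQx ▸ hQ3) (zpowers_le.2 hxT)
  by_cases hrk : PRankLE 3 2 R
  swap
  · unfold PRankLE at hrk
    push Not at hrk
    obtain ⟨A, hA1, hA2, hA3⟩ := hrk
    obtain ⟨F, hFR, -, hF, hF3⟩ := rank3 (by norm_num) hR.pgroup (map_subtype_le A)
      (Core.isElementaryAbelian_map ⟨hA1, hA2⟩ _)
      (by rwa [card_map_of_injective R.subtype_injective])
    exact ⟨3, F, Nat.prime_three, by norm_num, hF, hF3, finW 3 F Nat.prime_three hF hF3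
      fun a ha => (hNm a).1 (hTN (hR.le (hFR ha)))⟩
  have hE' : IsElementaryAbelian p (Tech.cj g⁻¹ E) := Core.isElementaryAbelian_map hE _
  have hE3' : Nat.card (Tech.cj g⁻¹ E) = p ^ 3 := by rw [Tech.card_cj, hE3]
  refine ⟨p, _, hp, hp2, hE', hE3', finW p _ hp hE' hE3' fun e he => (hNm e).1 ?_⟩
  have heH := hEH he
  obtain ⟨t, ht, hn⟩ := hR.frattini (hHT heH)
  set n := t * e with hndef
  have hnH : n ∈ H := mul_mem (hTH ht) heH
  have h1 : n ^ p ∈ T := by
    have key : ∀ m : ℕ, n ^ m * (e ^ m)⁻¹ ∈ T := by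
      intro m
      induction m with
      | zero => simp
      | succ m ih =>
        have := mul_mem ht (Tech.conj_mem_of_mem_normalizer (hHT heH) ih)
        convert this using 1
        rw [pow_succ', pow_succ, hndef]; group
    have := key p
    rwa [hE'.2 e he, inv_one, mul_one] at this
  obtain ⟨a, m, hm, ho⟩ := Nat.exists_eq_pow_mul_and_not_dvd (orderOf_pos n).ne' p hp.ne_one
  have h3 : n ^ m ∈ N := by
    have hz : IsPGroup p (zpowers (n ^ m)) := Tech.isPGroup_zpowers_of_pow (k := a) (by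
      rw [← pow_mul, ← orderOf_dvd_iff_pow_eq_one, ho, mul_comm])
    have hzn : zpowers (n ^ m) ≤ normalizer (R : Set S) := zpowers_le.2 (pow_mem hn m)
    have h4 : (centralizer (R : Set S)).relIndex (zpowers (n ^ m)) ∣ Nat.card (MulAut R) := by
      refine dvd_trans ?_ (SmallSimple.relIndex_centralizer_dvd_card_mulAut R)
      have := relIndex_dvd_index_of_normal ((centralizer (R : Set S)).subgroupOf
        (normalizer (R : Set S))) ((zpowers (n ^ m)).subgroupOf (normalizer (R : Set S)))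
      rwa [relIndex_subgroupOf hzn] at this
    obtain ⟨b, hb⟩ := IsPGroup.iff_card.1 hz
    obtain ⟨c, -, hc⟩ := (Nat.dvd_prime_pow hp).1
      (hb ▸ relIndex_dvd_card (centralizer (R : Set S)) (zpowers (n ^ m)))
    have hc0 : c = 0 := by
      by_contra hc0
      have := (S0640.result (by norm_num) hR.pgroup hrk p hp hp3
        ((hc ▸ dvd_pow_self p hc0).trans h4)).2
      omega
    rw [hc0, pow_zero, relIndex_eq_one] at hc
    have h5 := mem_centralizer_iff.1 (hc (mem_zpowers _)) x (hxR (mem_zpowers x))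
    rw [hNm, ← map_mul, ← map_mul, h5]
  have h4 : n ∈ N := by
    have hcop : (m : ℤ).gcd p = 1 := by
      simpa using ((Nat.Prime.coprime_iff_not_dvd hp).2 hm).symm
    have e1 := Int.gcd_eq_gcd_ab (m : ℤ) p
    rw [hcop] at e1
    have : n = (n ^ m) ^ Int.gcdA m p * (n ^ p) ^ Int.gcdB m p := by
      rw [← zpow_natCast, ← zpow_natCast, ← zpow_mul, ← zpow_mul, ← zpow_add, ← e1]; simp
    rw [this]
    exact mul_mem (zpow_mem h3 _) (zpow_mem (hTN h1) _)
  have := mul_mem (inv_mem (hTN ht)) h4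
  rwa [hndef, inv_mul_cancel_left] at this

end Cfsg.Agent.S4404
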