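import Mathlib
import Cfsg.Statements.S4405
import Cfsg.Agent.Lib.TwoGrp.O4m
import Cfsg.Agent.Lib.Core.Fitting
import Cfsg.Agent.Lib.Char.Burnside

set_option autoImplicit false
open Cfsg

namespace Cfsg.Agent.S4405

open CfsgLib.TwoGrp.O4m CfsgLib.ExtraTwo

theorem aux {G : Type*} [Group G] [Finite G] (H : Subgroup G) [H.Normal] (hi : H.index = 10)
    (hC : Subgroup.centralizer (H : Set G) ≤ H) {z : H} {π : H → W} (c : Coord ⊤ z qm π)
    {T : G} (hT : T * T = 1) (hTH : T ∉ H) :
    Nat.card ↥(H ⊓ Subgroup.centralizer ({T} : Set G)) ≤ 4 := by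
  classical
  obtain ⟨Φ, -, hk, hΦ⟩ := c.exists_autHom
  let ρ : G →* MulAut H := MulAut.conjNormal
  let κ : G →* Equiv.Perm (Fin 5) := psi.comp (Φ.comp ρ)
  have hker : κ.ker = H := by
    ext g
    simp only [κ, MonoidHom.mem_ker, MonoidHom.comp_apply]
    rw [map_eq_one_iff _ psi_injective, ← MonoidHom.mem_ker, hk]
    constructor
    · rintro ⟨h, hh⟩
      have : (h : G)⁻¹ * g ∈ Subgroup.centralizer (H : Set G) := by
        intro x hx
        have h1 := congrArg Subtype.val (DFunLike.congr_fun hh ⟨x, hx⟩)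
        simp only [MulAut.conj_apply, Subgroup.coe_mul, Subgroup.coe_inv, ρ,
          MulAut.conjNormal_apply] at h1
        calc x * ((h : G)⁻¹ * g) = (h : G)⁻¹ * ((h : G) * x * (h : G)⁻¹) * g := by group
          _ = (h : G)⁻¹ * g * x := by rw [h1]; group
      have h2 := H.mul_mem h.2 (hC this)
      rwa [mul_inv_cancel_left] at h2
    · intro hg
      refine ⟨⟨g, hg⟩, ?_⟩
      ext x
      simp [ρ]
  have hK : Nat.card κ.range = 10 := by rw [← Subgroup.index_ker, hker, hi]
  have ht1 : κ T ≠ 1 := fun h => hTH (hker ▸ h)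
  have ht2 : κ T * κ T = 1 := by rw [← map_mul, hT, map_one]
  set t := Φ (ρ T) with ht
  have hκ : κ T = psi t := rfl
  have hfix : ∀ i j, psi t i = i → psi t j = j → i = j := fun i j h1 h2 =>
    fix_unique hK ⟨T, rfl⟩ ht2 ht1 h1 h2
  have hρ2 : ρ T * ρ T = 1 := by rw [← map_mul, hT, map_one]
  -- elements of `H` fixed by `T` have singular image
  have hsing : ∀ x : H, ρ T x = x → qm (π x) = 0 := by
    intro x hx
    by_contra hq
    obtain ⟨i, j, hij, hv⟩ := qm_ne _ hq
    have h1 : t.1 (π x) = π x := by rw [hΦ, hx]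
    rw [hv, map_add, psi_spec, psi_spec] at h1
    rcases sv_add i j _ _ hij h1.symm with ⟨h2, h3⟩ | ⟨h2, -⟩
    · exact hij (hfix i j h2 h3)
    · obtain ⟨w, -, hw⟩ := c.surj (sv i)
      have h3 : π (w⁻¹ * ρ T w) = π x := by
        rw [c.map_mul _ trivial _ trivial, c.map_inv trivial, ← hΦ, hw, psi_spec, h2, hv]
      have h4 : ρ T (w⁻¹ * ρ T w) = (w⁻¹ * ρ T w)⁻¹ := by
        rw [map_mul, map_inv, ← MulAut.mul_apply, hρ2, MulAut.one_apply, mul_inv_rev, inv_inv]
      set y := w⁻¹ * ρ T w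
      have h5 : ρ T y = y := by
        rcases (c.eq_iff trivial trivial).mp h3.symm with h | h
        · rw [h, hx]
        · rw [h, map_mul, hx, c.es.mulEquiv_apply]
      apply hq
      rw [← h3, c.sq _ trivial]
      exact mul_eq_one_iff_eq_inv.mpr (h5.symm.trans h4)
  let p : W → Prop := fun v => t.1 v = v ∧ qm v = 0
  have hp : Nat.card {v // p v} ≤ 2 := by
    have hinj : Function.Injective (fun v : {v // p v} => (v.1 = 0 : Prop)) := by
      rintro ⟨u, hu1, hu2⟩ ⟨v, hv1, hv2⟩ huv
      apply Subtype.ext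
      simp only [eq_iff_iff] at huv
      change u = v
      rcases (qm_zero u).mp hu2 with rfl | ⟨i, rfl⟩
      · exact (huv.mp rfl).symm
      · rcases (qm_zero v).mp hv2 with rfl | ⟨j, rfl⟩
        · exact huv.mpr rfl
        · rw [psi_spec] at hu1 hv1
          rw [hfix i j (sv_inj _ _ hu1) (sv_inj _ _ hv1)]
    have := Nat.card_le_card_of_injective _ hinj
    simpa using this
  have h3 := c.card_filter p
  have hle : Nat.card ↥(H ⊓ Subgroup.centralizer ({T} : Set G)) ≤
      Nat.card {x : H // x ∈ (⊤ : Subgroup H) ∧ p (π x)} := by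
    have hx : ∀ x : ↥(H ⊓ Subgroup.centralizer ({T} : Set G)), ρ T ⟨x, x.2.1⟩ = ⟨x, x.2.1⟩ := by
      intro x
      apply Subtype.ext
      have := x.2.2 T rfl
      simp only [ρ, MulAut.conjNormal_apply]
      rw [this, mul_inv_cancel_right]
    refine Nat.card_le_card_of_injective
      (fun x => ⟨⟨x, x.2.1⟩, trivial, by rw [hΦ, hx], hsing _ (hx x)⟩) ?_
    intro x y hxy
    exact Subtype.ext (congrArg (fun a => (a.1 : G)) hxy)
  omega

/-- Let G be a finite group of order 320 = 64·5 whose largest normal 2-subgroup H = O₂(G) equals the Fitting subgroup F(G) and is extraspecial of order 32 containing no elementary abelian subgroup of order 8 (so H is the central product of a quaternion group and a dihedral group of order 8). If T is an involution of G outside H whose centralizer in H contains an elementary abelian subgroup of order 4, then C_H(T) itself is elementary abelian of order 4. -/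
theorem result {G : Type*} [Group G] [Finite G]
    (hG : Nat.card G = 320) (hHF : Cfsg.pCore 2 G = Cfsg.fittingSubgroup G)
    (hex : Cfsg.IsExtraspecial 2 ↥(Cfsg.pCore 2 G)) (h32 : Nat.card ↥(Cfsg.pCore 2 G) = 32)
    (hminus : ∀ A : Subgroup G, A ≤ Cfsg.pCore 2 G → Cfsg.IsElementaryAbelian 2 A → Nat.card ↥A ≤ 4)
    (T : G) (hT : orderOf T = 2) (hTH : T ∉ Cfsg.pCore 2 G)
    (V : Subgroup G) (hV : V ≤ Cfsg.pCore 2 G ⊓ Subgroup.centralizer ({T} : Set G)) (hV4 : Nat.card ↥V = 4) (hVe : Cfsg.IsElementaryAbelian 2 V) :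
    Nat.card ↥(Cfsg.pCore 2 G ⊓ Subgroup.centralizer ({T} : Set G)) = 4 ∧
      Cfsg.IsElementaryAbelian 2 (Cfsg.pCore 2 G ⊓ Subgroup.centralizer ({T} : Set G)) := by
  haveI : Group.IsSolvable G := CfsgLib.Char.isSolvable_of_card_eq_pow_mul_pow (p := 2) (q := 5)
    (a := 6) (b := 1) Nat.prime_two Nat.prime_five (by rw [hG]; rfl)
  haveI : (Cfsg.pCore 2 G).Normal := hHF ▸ CfsgLib.Core.fittingSubgroup_normal G
  have hC : Subgroup.centralizer (Cfsg.pCore 2 G : Set G) ≤ Cfsg.pCore 2 G := by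
    rw [hHF]; exact CfsgLib.Core.centralizer_fittingSubgroup_le
  obtain ⟨z, π, c⟩ := exists_coord hex h32 (fun A hA => by
    have := hminus (A.map (Cfsg.pCore 2 G).subtype) (Subgroup.map_subtype_le _)
      ⟨by haveI := hA.1; infer_instance, by
        rintro _ ⟨a, ha, rfl⟩
        rw [← map_pow, hA.2 a ha, map_one]⟩
    rwa [Subgroup.card_map_of_injective Subtype.val_injective] at this)
  have hi : (Cfsg.pCore 2 G).index = 10 := by
    have := (Cfsg.pCore 2 G).card_mul_index
    rw [h32, hG] at this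
    omega
  have h4 := aux _ hi hC c (mul_self_of_orderOf hT) hTH
  have hVe' : V = Cfsg.pCore 2 G ⊓ Subgroup.centralizer ({T} : Set G) :=
    Subgroup.eq_of_le_of_card_ge hV (by omega)
  rw [← hVe']
  exact ⟨hV4, hVe⟩

end Cfsg.Agent.S4405
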