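import Cfsg.Statements.S4406
import Mathlib

set_option autoImplicit false
open Cfsg

namespace Cfsg.Agent.S4406

theorem key : ∀ a u w : ↥(alternatingGroup (Fin 4)), a ^ 3 = 1 → a ≠ 1 → u ^ 2 = 1 → u ≠ 1 →
    w ^ 2 = 1 → w ≠ 1 → u ≠ w →
    (a * u * a⁻¹ = w ∧ a * w * a⁻¹ = u * w) ∨ (a⁻¹ * u * a = w ∧ a⁻¹ * w * a = u * w) := by
  decide +kernel

theorem two_elt : ∀ u : ↥(alternatingGroup (Fin 4)), u ^ 2 = 1 ∨ u ^ 3 = 1 := by
  decide +kernel

theorem comm_inv : ∀ u w : ↥(alternatingGroup (Fin 4)), u ^ 2 = 1 → w ^ 2 = 1 → u * w = w * u := by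
  decide +kernel

theorem card_A4 : Nat.card ↥(alternatingGroup (Fin 4)) = 12 :=
  alternatingGroup.card_of_card_eq_four (by simp)

theorem sq_of_two (u : ↥(alternatingGroup (Fin 4))) (k : ℕ) (h : u ^ 2 ^ k = 1) : u ^ 2 = 1 := by
  rcases two_elt u with h1 | h1
  · exact h1
  · have : orderOf u = 1 := Nat.eq_one_of_dvd_coprimes (Nat.Coprime.pow_left k (by norm_num))
      (orderOf_dvd_of_pow_eq_one h) (orderOf_dvd_of_pow_eq_one h1)
    rw [orderOf_eq_one_iff] at this
    simp [this]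

theorem cube_of_three (u : ↥(alternatingGroup (Fin 4))) (k : ℕ) (h : u ^ 3 ^ k = 1) :
    u ^ 3 = 1 := by
  rcases two_elt u with h1 | h1
  · have : orderOf u = 1 := Nat.eq_one_of_dvd_coprimes (Nat.Coprime.pow_left k (by norm_num))
      (orderOf_dvd_of_pow_eq_one h) (orderOf_dvd_of_pow_eq_one h1)
    rw [orderOf_eq_one_iff] at this
    simp [this]
  · exact h1

theorem card_three_le (K : Subgroup ↥(alternatingGroup (Fin 4))) (hK : IsPGroup 3 K) :
    Nat.card K ≤ 3 := by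
  haveI : Fact (Nat.Prime 3) := ⟨by norm_num⟩
  obtain ⟨n, hn⟩ := hK.exists_card_eq
  have h1 := Subgroup.card_subgroup_dvd_card K
  rw [card_A4, hn] at h1
  rw [hn]
  rcases n with _ | _ | n
  · norm_num
  · norm_num
  · exfalso
    have : 3 ^ 2 ∣ 12 := (pow_dvd_pow 3 (by omega)).trans h1
    norm_num at this

theorem exists_ker {G H : Type*} [Group G] [Group H] [Finite G] (Q : Subgroup G) (f : G →* H)
    (h9 : Nat.card Q = 9) (h3 : Nat.card (Q.map f) ≤ 3) : ∃ x ∈ Q, x ≠ 1 ∧ f x = 1 := by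
  by_contra hne
  push Not at hne
  have hinj : Function.Injective (f.subgroupMap Q) := by
    rw [injective_iff_map_eq_one]
    intro x hx
    by_contra hx1
    apply hne x x.2 (fun h => hx1 (Subtype.ext h))
    simpa using congrArg Subtype.val hx
  haveI : Finite (Q.map f) := Finite.of_surjective _ (f.subgroupMap_surjective Q)
  have := Nat.card_le_card_of_injective _ hinj
  omega

/-- In the direct product P = A₄ × A₄, let X be the Sylow 2-subgroup, X₁ and X₂ its intersections with the two direct factors, Q a Sylow 3-subgroup and Q₁, Q₂ its intersections with the two factors. Then every subgroup B of X of order 4 either meets X₁ or X₂ nontrivially, or is normalized by one of the two subgroups of Q of order 3 other than Q₁ and Q₂. -/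
theorem result
    (X : Sylow 2 (↥(alternatingGroup (Fin 4)) × ↥(alternatingGroup (Fin 4))))
    (Q : Sylow 3 (↥(alternatingGroup (Fin 4)) × ↥(alternatingGroup (Fin 4))))
    (B : Subgroup (↥(alternatingGroup (Fin 4)) × ↥(alternatingGroup (Fin 4)))) (hBX : B ≤ (X : Subgroup _)) (hB4 : Nat.card ↥B = 4) :
    B ⊓ ((X : Subgroup _) ⊓ Subgroup.prod ⊤ ⊥) ≠ ⊥ ∨ B ⊓ ((X : Subgroup _) ⊓ Subgroup.prod ⊥ ⊤) ≠ ⊥ ∨
      ∃ R : Subgroup (↥(alternatingGroup (Fin 4)) × ↥(alternatingGroup (Fin 4))), R ≤ (Q : Subgroup _) ∧ Nat.card ↥R = 3 ∧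
        R ≠ (Q : Subgroup _) ⊓ Subgroup.prod ⊤ ⊥ ∧ R ≠ (Q : Subgroup _) ⊓ Subgroup.prod ⊥ ⊤ ∧ R ≤ Subgroup.normalizer (B : Set _) := by
  haveI : Fact (Nat.Prime 3) := ⟨by norm_num⟩
  by_contra hcon
  push Not at hcon
  obtain ⟨h1, h2, h3⟩ := hcon
  have hQ9 : Nat.card (Q : Subgroup (↥(alternatingGroup (Fin 4)) × ↥(alternatingGroup (Fin 4)))) = 9 := by
    rw [Q.card_eq_multiplicity, Nat.card_prod, card_A4]
    have : (12 * 12 : ℕ).factorization 3 = 2 := by
      rw [Nat.factorization_def _ (by norm_num)]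
      decide +kernel
    rw [this]; norm_num
  obtain ⟨⟨a, a'⟩, haQ, ha1, ha⟩ := exists_ker _ (MonoidHom.snd _ _) hQ9
    (card_three_le _ (Q.isPGroup'.map _))
  obtain ⟨⟨b', b⟩, hbQ, hb1, hb⟩ := exists_ker _ (MonoidHom.fst _ _) hQ9
    (card_three_le _ (Q.isPGroup'.map _))
  simp only [MonoidHom.coe_snd, MonoidHom.coe_fst] at ha hb
  subst ha hb
  have ha1' : a ≠ 1 := fun h => ha1 (by rw [h]; rfl)
  have hb1' : b ≠ 1 := fun h => hb1 (by rw [h]; rfl)
  have ha3 : a ^ 3 = 1 := by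
    obtain ⟨k, hk⟩ := Q.isPGroup' ⟨_, haQ⟩
    exact cube_of_three a k (by simpa using congrArg (fun z => z.1.1) hk)
  have hb3 : b ^ 3 = 1 := by
    obtain ⟨k, hk⟩ := Q.isPGroup' ⟨_, hbQ⟩
    exact cube_of_three b k (by simpa using congrArg (fun z => z.1.2) hk)
  have hsq : ∀ x ∈ B, x.1 ^ 2 = 1 ∧ x.2 ^ 2 = 1 := by
    intro x hx
    obtain ⟨k, hk⟩ := X.isPGroup' ⟨_, hBX hx⟩
    exact ⟨sq_of_two _ k (by simpa using congrArg (fun z => z.1.1) hk),
      sq_of_two _ k (by simpa using congrArg (fun z => z.1.2) hk)⟩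
  have hne : ∀ x ∈ B, x ≠ 1 → x.1 ≠ 1 ∧ x.2 ≠ 1 := by
    intro x hx hx1
    constructor
    · intro h
      apply hx1
      rw [← Subgroup.mem_bot, ← h2]
      exact ⟨hx, hBX hx, by simp [Subgroup.mem_prod, h]⟩
    · intro h
      apply hx1
      rw [← Subgroup.mem_bot, ← h1]
      exact ⟨hx, hBX hx, by simp [Subgroup.mem_prod, h]⟩
  -- two elements of B
  classical
  obtain ⟨x, hxB, hx1⟩ : ∃ x ∈ B, x ≠ 1 := by
    by_contra hh
    push Not at hh
    have : B = ⊥ := (Subgroup.eq_bot_iff_forall B).2 hh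
    rw [this] at hB4
    simp at hB4
  obtain ⟨y, hyB, hy1, hyx⟩ : ∃ y ∈ B, y ≠ 1 ∧ y ≠ x := by
    by_contra hh
    push Not at hh
    have hsub : (B : Set _) ⊆ {1, x} := by
      intro z hz
      by_cases h : z = 1
      · exact Or.inl h
      · exact Or.inr (hh z hz h)
    have := Set.ncard_le_ncard hsub (Set.toFinite _)
    have h5 := Set.ncard_insert_le (1 : ↥(alternatingGroup (Fin 4)) × ↥(alternatingGroup (Fin 4))) {x}
    rw [Set.ncard_singleton] at h5
    have h6 : (B : Set (↥(alternatingGroup (Fin 4)) × ↥(alternatingGroup (Fin 4)))).ncard = 4 := hB4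
    omega
  have hxx : x * x = 1 := Prod.ext (by simpa [pow_two] using (hsq x hxB).1)
    (by simpa [pow_two] using (hsq x hxB).2)
  have hyy : y * y = 1 := Prod.ext (by simpa [pow_two] using (hsq y hyB).1)
    (by simpa [pow_two] using (hsq y hyB).2)
  have hxy1 : x * y ≠ 1 := fun h => hyx (by
    rw [← hxx] at h; exact mul_left_cancel h)
  have hBeq : ∀ z ∈ B, z = 1 ∨ z = x ∨ z = y ∨ z = x * y := by
    have hsub : ({1, x, y, x * y} : Set _) ⊆ (B : Set _) := by
      intro z hz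
      rcases hz with rfl | rfl | rfl | rfl
      exacts [B.one_mem, hxB, hyB, B.mul_mem hxB hyB]
    have h6 : (B : Set (↥(alternatingGroup (Fin 4)) × ↥(alternatingGroup (Fin 4)))).ncard = 4 := hB4
    have h7 : ({1, x, y, x * y} : Set (↥(alternatingGroup (Fin 4)) × ↥(alternatingGroup (Fin 4)))).ncard = 4 := by
      rw [Set.ncard_insert_of_notMem, Set.ncard_insert_of_notMem, Set.ncard_pair]
      · simpa using hx1
      · simp [hyx.symm, hy1]
      · simp [hx1.symm, hy1.symm, hxy1.symm]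
    have := Set.eq_of_subset_of_ncard_le hsub (by omega) (Set.toFinite _)
    intro z hz
    have hz' : z ∈ ({1, x, y, x * y} : Set _) := this ▸ hz
    simpa using hz'
  have hne1 : x.1 ≠ y.1 := fun h => (hne _ (B.mul_mem hxB hyB) hxy1).1 (by
    rw [Prod.fst_mul, h, ← pow_two, (hsq y hyB).1])
  have hne2 : x.2 ≠ y.2 := fun h => (hne _ (B.mul_mem hxB hyB) hxy1).2 (by
    rw [Prod.snd_mul, h, ← pow_two, (hsq y hyB).2])
  have main : ∀ c d : ↥(alternatingGroup (Fin 4)), (c, d) ∈ (Q : Subgroup _) → c ^ 3 = 1 → c ≠ 1 →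
      d ^ 3 = 1 → d ≠ 1 → (c * x.1 * c⁻¹ = y.1 ∧ c * y.1 * c⁻¹ = x.1 * y.1) →
      (d * x.2 * d⁻¹ = y.2 ∧ d * y.2 * d⁻¹ = x.2 * y.2) → False := by
    intro c d hcd hc3 hc1 hd3 hd1 hc hd
    refine h3 (Subgroup.zpowers (c, d)) ((Subgroup.zpowers_le).2 hcd) ?_ ?_ ?_ ?_
    · rw [Nat.card_zpowers]
      exact orderOf_eq_prime (Prod.ext hc3 hd3) (fun h => hc1 (congrArg Prod.fst h))
    · intro h
      have : (c, d) ∈ Subgroup.zpowers (c, d) := Subgroup.mem_zpowers _
      rw [h] at this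
      exact hd1 (by simpa [Subgroup.mem_prod] using this.2)
    · intro h
      have : (c, d) ∈ Subgroup.zpowers (c, d) := Subgroup.mem_zpowers _
      rw [h] at this
      exact hc1 (by simpa [Subgroup.mem_prod] using this.2)
    · rw [Subgroup.zpowers_le]
      apply Subgroup.mem_normalizer_fintype
      have e1 : (c, d) * x * (c, d)⁻¹ = y := Prod.ext hc.1 hd.1
      have e2 : (c, d) * y * (c, d)⁻¹ = x * y := Prod.ext hc.2 hd.2
      intro z hz
      rcases hBeq z hz with rfl | rfl | rfl | rfl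
      · rw [mul_one, mul_inv_cancel]; exact B.one_mem
      · rw [e1]; exact hyB
      · rw [e2]; exact B.mul_mem hxB hz
      · have : (c, d) * (x * y) * (c, d)⁻¹ = ((c, d) * x * (c, d)⁻¹) * ((c, d) * y * (c, d)⁻¹) := by
          group
        rw [this, e1, e2]
        exact B.mul_mem hyB hz
  have hai : (a⁻¹, (1 : ↥(alternatingGroup (Fin 4)))) ∈ (Q : Subgroup _) := by
    simpa using inv_mem haQ
  have hbi : ((1 : ↥(alternatingGroup (Fin 4))), b⁻¹) ∈ (Q : Subgroup _) := by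
    simpa using inv_mem hbQ
  rcases key a x.1 y.1 ha3 ha1' (hsq x hxB).1 (hne x hxB hx1).1 (hsq y hyB).1 (hne y hyB hy1).1 hne1
    with hc | hc <;>
  rcases key b x.2 y.2 hb3 hb1' (hsq x hxB).2 (hne x hxB hx1).2 (hsq y hyB).2 (hne y hyB hy1).2 hne2
    with hd | hd
  · exact main a b (by simpa using mul_mem haQ hbQ) ha3 ha1' hb3 hb1' hc hd
  · exact main a b⁻¹ (by simpa using mul_mem haQ hbi) ha3 ha1' (by simp [hb3])
      (by simpa using hb1') hc (by simpa using hd)
  · exact main a⁻¹ b (by simpa using mul_mem hai hbQ) (by simp [ha3])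
      (by simpa using ha1') hb3 hb1' (by simpa using hc) hd
  · exact main a⁻¹ b⁻¹ (by simpa using mul_mem hai hbi) (by simp [ha3])
      (by simpa using ha1') (by simp [hb3]) (by simpa using hb1') (by simpa using hc)
      (by simpa using hd)

end Cfsg.Agent.S4406
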