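import Cfsg.Statements.S4407
import Mathlib

set_option autoImplicit false
open Cfsg

namespace Cfsg.Agent.S4407

open DihedralGroup in
theorem cls (B : Subgroup (DihedralGroup 4)) (h4 : Nat.card B = 4) (h2 : ∀ b ∈ B, b ^ 2 = 1) :
    ∃ i : ZMod 4, (i = 0 ∨ i = 1) ∧ ∀ x, x ∈ B ↔ x ∈ ({1, r 2, sr i, sr i * r 2} : Finset _) := by
  classical
  have key : ∀ T : Finset (DihedralGroup 4), T.card = 4 → (∀ x ∈ T, x ^ 2 = 1 ∧ ∀ y ∈ T, x * y ∈ T) →
      T = {1, r 2, sr 0, sr 0 * r 2} ∨ T = {1, r 2, sr 1, sr 1 * r 2} := by decide +kernel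
  rcases key (Finset.univ.filter (· ∈ B)) (by rwa [Nat.card_eq_fintype_card, Fintype.card_subtype] at h4)
    (fun x hx => ⟨h2 x (by simpa using hx), fun y hy => by simpa using mul_mem (by simpa using hx) (by simpa using hy)⟩)
    with e | e
  exacts [⟨0, .inl rfl, fun x => by rw [← e]; simp⟩, ⟨1, .inr rfl, fun x => by rw [← e]; simp⟩]

variable {S : Type*} [Group S] [Finite S] {A : Subgroup S}

theorem mem_three (hA9 : Nat.card A = 9) {I : Subgroup S} (h1 : I ≤ A) (h2 : I ≠ A) {e : S} (he : e ∈ I) (h3 : e ≠ 1)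
    (h4 : e ^ 3 = 1) {x : S} (hx : x ∈ I) : x = 1 ∨ x = e ∨ x = e⁻¹ := by
  have : Fact (Nat.Prime 3) := ⟨Nat.prime_three⟩
  have h5 : Nat.card (Subgroup.zpowers e) = 3 := by rw [Nat.card_zpowers, orderOf_eq_prime h4 h3]
  obtain ⟨k, hk, h6⟩ := (Nat.dvd_prime_pow Nat.prime_three).1 (show Nat.card I ∣ 3 ^ 2 from
    (Subgroup.card_dvd_of_le h1).trans (dvd_of_eq hA9))
  have h7 : k ≠ 2 := fun e => h2 (Subgroup.eq_of_le_of_card_ge h1 (by simp [hA9, h6, e]))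
  rw [← Subgroup.eq_of_le_of_card_ge ((Subgroup.zpowers_le).2 he) (by
    rw [h5, h6]; interval_cases k <;> simp at h7 ⊢)] at hx
  obtain ⟨n, rfl⟩ := (mem_powers_iff_mem_zpowers).2 hx
  have : e⁻¹ = e ^ 2 := by rw [inv_eq_iff_mul_eq_one, ← pow_succ', h4]
  simp only [pow_eq_pow_mod n h4, this]
  have := Nat.mod_lt n three_pos
  interval_cases n % 3 <;> simp

variable {M : Type*} [AddCommGroup M] [Module (ZMod 2) M] (ρ : Representation (ZMod 2) S M)

omit [Finite S] in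
theorem add_self (m : M) : m + m = 0 := by rw [← two_smul (ZMod 2), show (2 : ZMod 2) = 0 from rfl, zero_smul]

theorem core [A.Normal] (hA : Cfsg.IsElementaryAbelian 3 A) (hA9 : Nat.card A = 9) (hfaith : Function.Injective ρ)
    (hirr : ∀ N : Submodule (ZMod 2) M, (∀ s : S, ∀ m ∈ N, ρ s m ∈ N) → N = ⊥ ∨ N = ⊤) {r s a : S}
    (hr : r ^ 4 = 1) (hs : s * s = 1) (hrs : s * r = r⁻¹ * s) (hz : ∀ x ∈ A, r ^ 2 * x = x⁻¹ * r ^ 2)
    (hg : A ⊔ Subgroup.closure {r, s} = ⊤) (ha : a ∈ A) (ha1 : a ≠ 1) (hsa : s * a = a * s) {w : M} (hw : w ≠ 0)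
    (haw : ρ a w = w) : Nat.card M = 16 ∧ Nat.card {m : M // ρ s m = m ∧ ρ (r ^ 2) m = m} = 4 ∧
      Nat.card {m : M // ρ (s * r) m = m ∧ ρ (r ^ 2) m = m} = 2 := by
  have mul : ∀ g h m, ρ g (ρ h m) = ρ (g * h) m := fun g h m => by simp
  have inv : ∀ {g m}, ρ g m = m → ρ g⁻¹ m = m := fun {g m} e => by nth_rw 1 [← e]; simp [mul]
  have hsz : s * r ^ 2 = r ^ 2 * s := by
    rw [sq, ← mul_assoc, hrs, mul_assoc, hrs, ← mul_assoc, ← mul_inv_rev, ← sq,
      inv_eq_of_mul_eq_one_right (show r ^ 2 * r ^ 2 = 1 by rw [← pow_add, hr])]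
  have step : ∀ {t : S} {P : M → Prop}, t * t = 1 → (∀ m, P m → P (ρ t m)) → (∀ m n, P m → P n → P (m + n)) →
      (∃ m, m ≠ 0 ∧ P m) → ∃ m, m ≠ 0 ∧ P m ∧ ρ t m = m := fun {t P} h1 h2 h3 ⟨m, h4, h5⟩ => by
    by_cases e : m + ρ t m = 0
    · exact ⟨m, h4, h5, by rw [← add_right_inj m, e, add_self]⟩
    · exact ⟨_, e, h3 _ _ h5 (h2 _ h5), by simp [mul, h1, add_comm]⟩
  obtain ⟨v, hv, ⟨av, sv⟩, zv⟩ := step (t := r ^ 2) (P := fun m => ρ a m = m ∧ ρ s m = m) (by rw [← pow_add, hr])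
    (fun m h => ⟨by rw [mul, ← inv_inv a, ← hz _ (inv_mem ha), ← mul, inv h.1], by rw [mul, hsz, ← mul, h.2]⟩)
    (fun m n h h' => by simp [h.1, h.2, h'.1, h'.2])
    (step (P := fun m => ρ a m = m) hs (fun m h => by rw [mul, ← hsa, ← mul, h]) (fun m n h h' => by simp [h, h'])
      ⟨w, hw, haw⟩)
  obtain ⟨b, hb⟩ : ∃ b, b = r * a * r⁻¹ := ⟨_, rfl⟩
  have bA : b ∈ A := hb ▸ Subgroup.Normal.conj_mem inferInstance a ha r
  have cm : ∀ x ∈ A, ∀ y ∈ A, x * y = y * x := fun x hx y hy => congrArg Subtype.val (hA.1.1.1 ⟨x, hx⟩ ⟨y, hy⟩)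
  have ra : r * a = b * r := by simp [hb]
  have rb : r * b = a⁻¹ * r := by rw [hb, ← mul_assoc, ← mul_assoc, ← sq, hz a ha, sq]; group
  have sr' : s * r⁻¹ = r * s := by rw [mul_inv_eq_iff_eq_mul, mul_assoc, hrs, mul_inv_cancel_left]
  have sb : s * b = b⁻¹ * s := by
    rw [hb, ← mul_assoc, ← mul_assoc, hrs, mul_assoc _ s, hsa, mul_assoc, mul_assoc, sr', ← hb, ← mul_assoc a,
      ← mul_assoc, mul_left_inj, inv_mul_eq_iff_eq_mul, eq_mul_inv_iff_mul_eq, mul_assoc, rb, mul_inv_cancel_left]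
  have ne : ∀ x ∈ A, x ≠ 1 → x⁻¹ ≠ x := fun x hx h1 e => h1 (by
    have := hA.2 x hx; rwa [pow_three', mul_eq_one_iff_inv_eq.2 e, one_mul] at this)
  have hAg : Subgroup.closure {a, b} = A := by_contra fun h => by
    have b1 : b ≠ 1 := by simpa [hb] using ha1
    rcases mem_three hA9 ((Subgroup.closure_le _).2 (by simp [Set.insert_subset_iff, ha, bA])) h
      (Subgroup.subset_closure (by simp)) ha1 (hA.2 a ha) (x := b) (Subgroup.subset_closure (by simp)) with e | e | e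
    · exact b1 e
    · exact ne b bA b1 (mul_right_cancel (sb.symm.trans (e ▸ hsa)))
    · exact ne b bA b1 (mul_right_cancel (sb.symm.trans (e ▸ (show Commute s a from hsa).inv_right.eq)))
  have fx : ∀ m, ρ a m = m → ρ b m = m → m = 0 := fun m h1 h2 => by
    have h3 : ∀ {m}, (ρ a m = m ∧ ρ b m = m) ↔ ∀ x ∈ A, ρ x m = m := fun {m} => ⟨fun h x hx => by
      rw [← hAg] at hx
      induction hx using Subgroup.closure_induction with
      | mem x hx => rcases hx with rfl | rfl; exacts [h.1, h.2]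
      | one => simp
      | mul x y _ _ h1 h2 => rw [← mul, h2, h1]
      | inv x _ h => exact inv h, fun h => ⟨h a ha, h b bA⟩⟩
    rcases hirr (LinearMap.eqLocus (ρ a) 1 ⊓ LinearMap.eqLocus (ρ b) 1) (fun g m hm => h3.2 fun x hx => by
      nth_rw 2 [← h3.1 hm _ (Subgroup.Normal.conj_mem' inferInstance x hx g)]
      simp) with e | e
    · exact (Submodule.eq_bot_iff _).1 e m ⟨h1, h2⟩
    · exact (ha1 (hfaith (LinearMap.ext fun m => by simpa using ((Submodule.eq_top_iff'.1 e) m).1))).elim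
  have cube : ∀ {x y m}, x ∈ A → y ∈ A → (∀ m, ρ x m = m → ρ y m = m → m = 0) → ρ x m = m →
      ρ y⁻¹ m = m + ρ y m := fun {x y m} hx hy h1 h2 => by
    have h3 : y * y = y⁻¹ := by rw [eq_inv_iff_mul_eq_one, ← pow_three', hA.2 y hy]
    have := h1 (m + ρ y m + ρ y⁻¹ m) (by simp only [map_add, mul, cm x hx y hy, cm x hx _ (inv_mem hy)]; simp [h2])
      (by simp only [map_add, mul, h3]; simp; abel)
    rw [← add_right_inj (m + ρ y m), this, add_self]
  have brv : ρ b (ρ r v) = ρ r v := by rw [mul, ← ra, ← mul, av]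
  have e1 := cube ha bA fx av
  have e2 := cube bA ha (fun m h h' => fx m h' h) brv
  have srv : ρ s (ρ r v) = ρ r v := by
    rw [mul, hrs, ← mul, sv, inv_eq_of_mul_eq_one_right (show r * (r * r ^ 2) = 1 by rw [← hr]; group), ← mul, zv]
  let f : (Fin 4 → ZMod 2) →ₗ[ZMod 2] M := Fintype.linearCombination _ ![v, ρ b v, ρ r v, ρ a (ρ r v)]
  have hf : ∀ x, f x = x 0 • v + x 1 • ρ b v + x 2 • ρ r v + x 3 • ρ a (ρ r v) := fun x => by
    simp [f, Fintype.linearCombination_apply, Fin.sum_univ_four]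
  have bb : ρ b (ρ b v) = v + ρ b v := by
    rw [mul, ← e1, eq_inv_of_mul_eq_one_left (show b * b * b = 1 by rw [← pow_three', hA.2 b bA])]
  have aa : ρ a (ρ a (ρ r v)) = ρ r v + ρ a (ρ r v) := by
    rw [mul, ← e2, eq_inv_of_mul_eq_one_left (show a * a * a = 1 by rw [← pow_three', hA.2 a ha])]
  have abv : ρ a (ρ b v) = ρ b v := by rw [mul, cm a ha b bA, ← mul, av]
  have bav : ρ b (ρ a (ρ r v)) = ρ a (ρ r v) := by rw [mul, cm b bA a ha, ← mul, brv]
  have fa : ∀ x, ρ a (f x) = f ![x 0, x 1, x 3, x 2 + x 3] := fun x => by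
    simp [hf, av, abv, aa, add_smul]; abel
  have fb : ∀ x, ρ b (f x) = f ![x 1, x 0 + x 1, x 2, x 3] := fun x => by
    simp [hf, brv, bav, bb, add_smul]; abel
  have fr : ∀ x, ρ r (f x) = f ![x 2, x 3, x 0 + x 1, x 1] := fun x => by
    have h1 : ρ r (ρ r v) = v := by rw [mul, ← sq, zv]
    have h2 : ρ r (ρ b v) = ρ r v + ρ a (ρ r v) := by rw [mul, rb, ← mul, e2]
    have h3 : ρ r (ρ a (ρ r v)) = ρ b v := by rw [mul, ra, ← mul, h1]
    simp [hf, h1, h2, h3, add_smul]; abel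
  have fs : ∀ x, ρ s (f x) = f ![x 0 + x 1, x 1, x 2, x 3] := fun x => by
    have h2 : ρ s (ρ b v) = v + ρ b v := by rw [mul, sb, ← mul, sv, e1]
    have h3 : ρ s (ρ a (ρ r v)) = ρ a (ρ r v) := by rw [mul, hsa, ← mul, srv]
    simp [hf, sv, srv, h2, h3, add_smul]; abel
  have two : ∀ {x y m} {c d : ZMod 2}, m ≠ 0 → (∀ m, ρ x m = m → ρ y m = m → m = 0) → ρ x m = m →
      c • m + d • ρ y m = 0 → c = 0 ∧ d = 0 := fun {x y m c d} h1 h2 h3 e => by
    have h4 : ρ y m ≠ 0 := fun e => h1 (by simpa using congrArg (ρ y⁻¹) e)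
    have h5 : m + ρ y m ≠ 0 := fun e => h1 (h2 m h3 (by rw [← add_right_inj m, e, add_self]))
    have : ∀ c : ZMod 2, c = 0 ∨ c = 1 := by decide
    rcases this c with rfl | rfl <;> rcases this d with rfl | rfl <;> simp [h1, h4, h5] at e ⊢
  have inj : Function.Injective f := (injective_iff_map_eq_zero f).2 fun x e => by
    rw [hf, add_assoc, add_eq_zero_iff_eq_neg] at e
    have h1 := fx (x 0 • v + x 1 • ρ b v) (by simp [av, abv]) (by simp [e, brv, bav])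
    have h2 := two hv fx av h1
    have h3 := two (m := ρ r v) (fun e => hv (by simpa using congrArg (ρ r⁻¹) e)) (fun m h h' => fx m h' h) brv
      (neg_eq_zero.1 (e.symm.trans h1))
    ext i; fin_cases i; exacts [h2.1, h2.2, h3.1, h3.2]
  have surj : Function.Surjective f := by
    refine LinearMap.range_eq_top.1 ((hirr _ fun g => ?_).resolve_left fun e => hv ?_)
    · have : g ∈ Submonoid.closure ({a, b} ∪ {r, s}) := by
        rw [← Subgroup.closure_toSubmonoid_of_finite, Subgroup.closure_union, hAg, hg]; trivial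
      induction this using Submonoid.closure_induction with
      | mem x hx => rintro _ ⟨y, rfl⟩; rcases hx with (rfl | rfl) | rfl | rfl <;> simp [fa, fb, fr, fs]
      | one => simp
      | mul x y _ _ h1 h2 => exact fun m hm => mul x y m ▸ h1 _ (h2 m hm)
    · exact (Submodule.eq_bot_iff _).1 e v ⟨![1, 0, 0, 0], by simp [hf]⟩
  let e := Equiv.ofBijective f ⟨inj, surj⟩
  refine ⟨by rw [← Nat.card_congr e]; simp, ?_, ?_⟩
  all_goals
    rw [← Nat.card_congr (e.subtypeEquiv fun x => Iff.rfl)]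
    change Nat.card {x // ρ _ (f x) = f x ∧ ρ _ (f x) = f x} = _
    simp only [sq, ← mul, fr, fs, inj.eq_iff, Nat.card_eq_fintype_card]
    decide +kernel

/-- Let S be a finite group with a normal elementary abelian subgroup A of order 9 that is self-centralizing (C_S(A) = A), and a dihedral subgroup X of order 8 with S = AX. Let M be a finite-dimensional module for S over the field with two elements that is faithful and irreducible. Then M has 16 elements, and X contains exactly one subgroup B of order 4 and exponent 2 whose fixed points on M form a subspace with exactly 2 elements (equivalently, M is free of rank one over the group algebra of B). -/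
theorem result {S : Type*} [Group S] [Finite S]
    (A : Subgroup S) [A.Normal] (hA : Cfsg.IsElementaryAbelian 3 A) (hA9 : Nat.card ↥A = 9)
    (hAC : Subgroup.centralizer (A : Set S) = A) (X : Subgroup S) (hX : Nonempty (↥X ≃* DihedralGroup 4)) (hAX : A ⊔ X = ⊤)
    {M : Type*} [AddCommGroup M] [Module (ZMod 2) M] [Finite M] (ρ : Representation (ZMod 2) S M)
    (hfaith : Function.Injective ρ)
    (hirr : ∀ N : Submodule (ZMod 2) M, (∀ s : S, ∀ m ∈ N, ρ s m ∈ N) → N = ⊥ ∨ N = ⊤) (hM : Nontrivial M) :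
    Nat.card M = 16 ∧
      ∃! B : Subgroup S, B ≤ X ∧ Nat.card ↥B = 4 ∧ (∀ b ∈ B, b ^ 2 = 1) ∧
        Nat.card {m : M // ∀ b ∈ B, ρ b m = m} = 2 := by
  obtain ⟨e⟩ := hX
  obtain ⟨φ, inj, hφ⟩ : ∃ φ : DihedralGroup 4 →* S, Function.Injective φ ∧ φ.range = X :=
    ⟨X.subtype.comp e.symm, X.subtype_injective.comp e.symm.injective, by
      rw [MonoidHom.range_comp, MonoidHom.range_eq_top.2 e.symm.surjective, ← MonoidHom.range_eq_map, X.range_subtype]⟩
  have cm : ∀ x ∈ A, ∀ y ∈ A, x * y = y * x := fun x hx y hy => congrArg Subtype.val (hA.1.1.1 ⟨x, hx⟩ ⟨y, hy⟩)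
  have fa : ∀ d, d ≠ 1 → ∃ x ∈ A, φ d * x ≠ x * φ d := fun d hd => by_contra fun h => by
    have h1 := hA.2 (φ d) (hAC ▸ fun x hx => by_contra fun h1 => h ⟨x, hx, Ne.symm h1⟩)
    rw [← map_pow, map_eq_one_iff _ inj] at h1
    exact hd ((by decide : ∀ d : DihedralGroup 4, d ^ 3 = 1 → d = 1) d h1)
  have ne : ∀ x ∈ A, x ≠ 1 → x⁻¹ ≠ x := fun x hx h1 e => h1 (by
    have := hA.2 x hx; rwa [pow_three', mul_eq_one_iff_inv_eq.2 e, one_mul] at this)
  have cj : ∀ g, ∀ x ∈ A, g * x * g⁻¹ ∈ A := fun g x hx => Subgroup.Normal.conj_mem inferInstance x hx g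
  obtain ⟨r, hr⟩ : ∃ r, r = φ (.r 1) := ⟨_, rfl⟩
  have r2 : r ^ 2 = φ (.r 2) := by rw [hr, ← map_pow]; rfl
  have r4 : r ^ 4 = 1 := by rw [hr, ← map_pow, ← map_one φ]; rfl
  let I : S → Subgroup S := fun t => ⟨⟨⟨{x | x ∈ A ∧ t * x * t⁻¹ = x⁻¹}, fun {x y} hx hy => ⟨mul_mem hx.1 hy.1, by
    rw [cm x hx.1 y hy.1, mul_inv_rev, ← hx.2, ← hy.2, cm y hy.1 x hx.1]; group⟩⟩, by simp⟩, fun {x} hx =>
      ⟨inv_mem hx.1, by rw [← conj_inv, hx.2]⟩⟩
  have hI : ∀ t x, t * t = 1 → x ∈ A → x * (t * x * t⁻¹)⁻¹ ∈ I t := fun t x ht hx =>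
    ⟨mul_mem hx (inv_mem (cj t x hx)), by
      rw [mul_inv_rev _ (t * x * t⁻¹)⁻¹, inv_inv, inv_eq_of_mul_eq_one_right ht]
      simp only [mul_inv_rev, inv_eq_of_mul_eq_one_right ht, mul_assoc, ht, mul_one]⟩
  have hz : ∀ x ∈ A, r ^ 2 * x = x⁻¹ * r ^ 2 := by
    by_contra h
    obtain ⟨c, hc, h1⟩ := fa (.r 2) (by decide)
    have h2 := hI (r ^ 2) c (by rw [← pow_add, r4]) hc
    generalize hd : c * (r ^ 2 * c * (r ^ 2)⁻¹)⁻¹ = d at h2
    have h3 : d ≠ 1 := fun e => h1 (by rw [← r2, ← mul_inv_eq_iff_eq_mul, eq_comm, ← mul_inv_eq_one, hd, e])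
    refine ne d h2.1 h3 (h2.2.symm.trans ?_)
    rw [show r ^ 2 * d * (r ^ 2)⁻¹ = r * (r * d * r⁻¹) * r⁻¹ by simp [sq, mul_assoc]]
    rcases mem_three hA9 (I := I (r ^ 2)) (fun x hx => hx.1)
      (fun e => h fun x hx => mul_inv_eq_iff_eq_mul.1 (e.ge hx).2) h2 h3 (hA.2 d h2.1) (x := r * d * r⁻¹)
      ⟨cj r d h2.1, by rw [conj_inv, ← h2.2]; group⟩ with e | e | e
    · exact (h3 (by simpa using e)).elim
    · rw [e, e]
    · rw [e, ← conj_inv, e, inv_inv]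
  have key := fun (i : ZMod 4) {a} => core ρ hA hA9 hfaith hirr (r := r) (s := φ (.sr i)) (a := a) r4
    (by rw [← map_mul, ← map_one φ]; simp) (by rw [hr, ← map_inv, ← map_mul, ← map_mul]; simp) hz (by
      rw [eq_top_iff, ← hAX, ← hφ]
      refine sup_le_sup_left ?_ _
      rintro _ ⟨d, rfl⟩
      have : ∀ d : DihedralGroup 4, ∃ j : Fin 2, ∃ k : Fin 4, d = .sr i ^ j.1 * .r 1 ^ k.1 := by revert i; decide
      obtain ⟨j, k, rfl⟩ := this d
      rw [map_mul, map_pow, map_pow, ← hr]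
      exact mul_mem (pow_mem (Subgroup.subset_closure (by simp)) _) (pow_mem (Subgroup.subset_closure (by simp)) _))
  obtain ⟨i, h1, h2, h3⟩ : ∃ i : ZMod 4, Nat.card M = 16 ∧
      Nat.card {m : M // ρ (φ (.sr i)) m = m ∧ ρ (r ^ 2) m = m} = 4 ∧
      Nat.card {m : M // ρ (φ (.sr (i + 1))) m = m ∧ ρ (r ^ 2) m = m} = 2 := by
    obtain ⟨c, hc, h1⟩ := fa (.sr 2) (by decide)
    have h2 := hI (φ (.sr 2)) c (by rw [← map_mul, ← map_one φ]; rfl) hc
    generalize hd : c * (φ (.sr 2) * c * (φ (.sr 2))⁻¹)⁻¹ = a at h2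
    have h3 : a ≠ 1 := fun e => h1 (by rw [← mul_inv_eq_iff_eq_mul, eq_comm, ← mul_inv_eq_one, hd, e])
    have h4 : φ (.sr 0) * a = a * φ (.sr 0) := by
      rw [show DihedralGroup.sr 0 = .sr (2 : ZMod 4) * .r 2 by rfl, map_mul, ← r2, mul_assoc, hz a h2.1, ← mul_assoc,
        ← mul_assoc, mul_left_inj, ← mul_inv_eq_iff_eq_mul, ← conj_inv, h2.2, inv_inv]
    obtain ⟨b, hb⟩ : ∃ b, b = r * a * r⁻¹ := ⟨_, rfl⟩
    have bA : b ∈ A := hb ▸ cj r a h2.1
    have ra : r * a = b * r := by simp [hb]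
    have rb : r * b⁻¹ = a * r := by
      rw [hb, conj_inv, ← mul_assoc, ← mul_assoc, ← sq, hz _ (inv_mem h2.1), sq]; group
    have sb : φ (.sr 0) * b = b⁻¹ * φ (.sr 0) := by
      have : φ (.sr 0) * r = r * φ (.sr 2) := by rw [hr, ← map_mul, ← map_mul]; rfl
      rw [← mul_left_inj r, mul_assoc, ← ra, ← mul_assoc, mul_assoc _ _ r, this, mul_assoc,
        mul_inv_eq_iff_eq_mul.1 h2.2, hb]
      group
    have h5 : a * b⁻¹ ≠ 1 := fun e => ne a h2.1 h3 (mul_right_cancel ((mul_inv_eq_one.1 e ▸ sb).symm.trans h4))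
    have sr : ∀ i, φ (.sr (i + 1)) = φ (.sr i) * r := fun i => by rw [hr, ← map_mul]; rfl
    by_cases h6 : ∃ w, w ≠ 0 ∧ ρ a w = w
    · exact h6.elim fun w h6 => ⟨0, sr 0 ▸ key 0 h2.1 h3 h4 h6.1 h6.2⟩
    by_cases h7 : ∃ w, w ≠ 0 ∧ ρ (a * b⁻¹) w = w
    · refine h7.elim fun w h6 => ⟨0 + 1, sr (0 + 1) ▸ key (0 + 1) (mul_mem h2.1 (inv_mem bA)) h5 ?_ h6.1 h6.2⟩
      rw [sr, mul_assoc, ← mul_assoc r, ra, mul_assoc, rb, ← mul_assoc, sb, mul_assoc, ← mul_assoc _ a, h4,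
        cm a h2.1 _ (inv_mem bA)]
      group
    exfalso
    have h8 : ∀ x, (¬ ∃ w, w ≠ 0 ∧ ρ x w = w) → ¬ ∃ w, w ≠ 0 ∧ ρ (r * x * r⁻¹) w = w := fun x h ⟨w, h8, h9⟩ =>
      h ⟨ρ r⁻¹ w, fun e => h8 (by simpa using congrArg (ρ r) e), by simpa using congrArg (ρ r⁻¹) h9⟩
    have h9 : ∀ x ∈ A, (¬ ∃ w, w ≠ 0 ∧ ρ x w = w) → ∀ m, ρ x⁻¹ m = m + ρ x m := fun x hx h m => by
      have h3 : x * x = x⁻¹ := by rw [eq_inv_iff_mul_eq_one, ← pow_three', hA.2 x hx]
      have : m + ρ x m + ρ x⁻¹ m = 0 := by_contra fun e => h ⟨_, e, by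
        simp only [map_add, ← Module.End.mul_apply, ← map_mul, h3]; simp; abel⟩
      rw [← add_right_inj (m + ρ x m), this, add_self]
    obtain ⟨m, hm⟩ := exists_ne (0 : M)
    have h10 := h9 _ (cj r _ (mul_mem h2.1 (inv_mem bA))) (h8 _ h7) m
    rw [← mul_assoc, ra, mul_assoc b, rb, ← mul_assoc, mul_inv_cancel_right, mul_inv_rev, cm b bA a h2.1, map_mul,
      Module.End.mul_apply, h9 a h2.1 h6, h9 b bA (hb ▸ h8 a h6), map_add, map_mul, Module.End.mul_apply, ← add_assoc,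
      add_left_inj, add_assoc, add_eq_left] at h10
    exact h7 ⟨ρ b m, fun e => hm (by simpa using congrArg (ρ b⁻¹) e), by
      rw [← add_right_inj (ρ b m), add_self, ← h10]; simp⟩
  let T : ZMod 4 → Finset (DihedralGroup 4) := fun j => {1, .r 2, .sr j, .sr j * .r 2}
  obtain ⟨W, mW⟩ : ∃ W : ZMod 4 → Subgroup (DihedralGroup 4), ∀ j x, x ∈ W j ↔ x ∈ T j :=
    ⟨fun j => ⟨⟨⟨{x | x ∈ T j}, fun {x y} => by revert x y j; decide⟩, by simp [T]⟩, fun {x} => by revert x j; decide⟩,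
      fun _ _ => Iff.rfl⟩
  have hW : ∀ j, Nat.card {m : M // ∀ b ∈ (W j).map φ, ρ b m = m} =
      Nat.card {m : M // ρ (φ (.sr j)) m = m ∧ ρ (r ^ 2) m = m} := fun j =>
    Nat.card_congr (Equiv.subtypeEquivRight fun m => ⟨fun h => ⟨h _ ⟨_, by simp [mW, T], rfl⟩,
      h _ ⟨_, by simp [mW, T], r2.symm⟩⟩, by
        rintro h _ ⟨d, hd, rfl⟩
        simp only [SetLike.mem_coe, mW, T, Finset.mem_insert, Finset.mem_singleton] at hd
        rcases hd with rfl | rfl | rfl | rfl <;> simp [- DihedralGroup.sr_mul_r, - map_pow, ← r2, h.1, h.2]⟩)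
  refine ⟨h1, (W (i + 1)).map φ, ⟨hφ ▸ Subgroup.map_le_range _ _, ?_, ?_, (hW _).trans h3⟩, fun B hB => ?_⟩
  · rw [Subgroup.card_map_of_injective inj, Nat.subtype_card _ fun x => (mW _ x).symm]
    exact (by decide : ∀ j, (T j).card = 4) _
  · rintro _ ⟨d, hd, rfl⟩
    rw [← map_pow, (by decide : ∀ j, ∀ d ∈ T j, d ^ 2 = 1) _ d ((mW _ d).1 hd), map_one]
  obtain ⟨B, rfl⟩ : ∃ B', B = Subgroup.map φ B' := ⟨_, (Subgroup.map_comap_eq_self (hφ ▸ hB.1)).symm⟩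
  obtain ⟨j, h4, h5⟩ := cls B (Subgroup.card_map_of_injective inj ▸ hB.2.1) fun b hb =>
    inj (by rw [map_pow, hB.2.2.1 _ ⟨b, hb, rfl⟩, map_one])
  rcases (by decide : ∀ i j, T j = T i ∨ T j = T (i + 1)) i j with e | e
  · obtain rfl : B = W i := Subgroup.ext fun x => by rw [mW, ← e, h5]
    exact absurd (h2.symm.trans ((hW i).symm.trans hB.2.2.2)) (by norm_num)
  · rw [show B = W (i + 1) from Subgroup.ext fun x => by rw [mW, ← e, h5]]

end Cfsg.Agent.S4407
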