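import Cfsg.Statements.S4408
import Cfsg.Agent.Lib.MinS.Mod1a

set_option autoImplicit false
open Cfsg

namespace Cfsg.Agent.S4408

/-- Let S be a finite solvable group whose Fitting subgroup F(S) has odd order, and let I be an elementary abelian 2-subgroup of S of order 2ⁿ with n ≥ 1. Then F(S) contains subgroups A₁, …, Aₙ of prime order, each normalized by I, pairwise commuting and generating a subgroup A of order |A₁|⋯|Aₙ| (their internal direct product), such that no non-identity element of I centralizes A. -/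
theorem result {S : Type*} [Group S] [Finite S]
    [Group.IsSolvable S] (hF : Odd (Nat.card ↥(Cfsg.fittingSubgroup S)))
    (I : Subgroup S) (hI : Cfsg.IsElementaryAbelian 2 I) (n : ℕ) (hn : 1 ≤ n) (hIn : Nat.card ↥I = 2 ^ n) :
    ∃ f : Fin n → Subgroup S, (∀ i, (Nat.card ↥(f i)).Prime) ∧ (∀ i, f i ≤ Cfsg.fittingSubgroup S) ∧
      (∀ i, I ≤ Subgroup.normalizer ((f i) : Set S)) ∧ (∀ i j, i ≠ j → ∀ a ∈ f i, ∀ b ∈ f j, a * b = b * a) ∧
      Nat.card ↥(⨆ i, f i) = ∏ i, Nat.card ↥(f i) ∧ I ⊓ Subgroup.centralizer ((⨆ i, f i : Subgroup S) : Set S) = ⊥ := by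
  classical
  have hN := CfsgLib.Core.fittingSubgroup_normal S
  have hsq : ∀ x ∈ I, x * x = 1 := fun x hx => by rw [← sq]; exact hI.2 x hx
  have hf : I ⊓ Subgroup.centralizer (Cfsg.fittingSubgroup S : Set S) = ⊥ := by
    rw [eq_bot_iff]
    rintro x ⟨hx, hc⟩
    have h1 : x ∈ Cfsg.fittingSubgroup S := CfsgLib.Core.centralizer_fittingSubgroup_le hc
    exact CfsgLib.MinS.M1.eq_one_of_odd_of_inv (CfsgLib.MinS.M1.odd_orderOf_of_mem hF h1)
      (eq_inv_of_mul_eq_one_left (hsq x hx))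
  obtain ⟨k, a, d, h⟩ := CfsgLib.MinS.exists_td hF (CfsgLib.Core.isNilpotent_fittingSubgroup S)
    hsq Subgroup.le_normalizer_of_normal hf
  obtain rfl : k = n := Nat.pow_right_injective le_rfl (h.card.symm.trans hIn)
  have hcomm : ∀ i j, ∀ x ∈ Subgroup.zpowers (d i), ∀ y ∈ Subgroup.zpowers (d j), x * y = y * x := by
    rintro i j _ ⟨m, rfl⟩ _ ⟨l, rfl⟩
    exact (Commute.zpow_zpow (h.comm i j) m l).eq
  refine ⟨fun i => Subgroup.zpowers (d i), fun i => ?_, fun i => Subgroup.zpowers_le.2 (h.d_mem i),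
    fun i x hx => ?_, fun i j _ => hcomm i j, ?_, ?_⟩
  · rw [Nat.card_zpowers]; exact h.prime i
  · have key : ∀ x ∈ I, ∀ y ∈ Subgroup.zpowers (d i), x * y * x⁻¹ ∈ Subgroup.zpowers (d i) := by
      rintro x hx _ ⟨m, rfl⟩
      rw [← conj_zpow]
      refine zpow_mem ?_ m
      rcases (h.cases hx).1 i with e | e
      · rw [e, mul_inv_cancel_right]; exact Subgroup.mem_zpowers _
      · rw [e]; exact inv_mem (Subgroup.mem_zpowers _)
    rw [Subgroup.mem_normalizer_iff]
    refine fun y => ⟨key x hx y, fun hy => ?_⟩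
    have := key x⁻¹ (inv_mem hx) _ hy
    simpa [mul_assoc] using this
  · have hc : Pairwise fun i j : Fin k => ∀ x y : S, x ∈ Subgroup.zpowers (d i) →
        y ∈ Subgroup.zpowers (d j) → Commute x y := fun i j _ x y hx hy => hcomm i j x hx y hy
    have hind : iSupIndep fun i => Subgroup.zpowers (d i) := by
      intro i
      rw [disjoint_iff, eq_bot_iff]
      rintro x ⟨⟨m, rfl⟩, hx⟩
      have h1 : (⨆ j, ⨆ (_ : j ≠ i), Subgroup.zpowers (d j)) ≤ Subgroup.centralizer {a i} := by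
        refine iSup_le fun j => iSup_le fun hj => Subgroup.zpowers_le.2 ?_
        rw [Subgroup.mem_centralizer_singleton_iff]
        exact (h.cent j i hj).symm
      have h2 := Subgroup.mem_centralizer_singleton_iff.1 (h1 hx)
      have h3 : a i * d i ^ m * (a i)⁻¹ = (d i ^ m)⁻¹ := by rw [← conj_zpow, h.inv, inv_zpow]
      refine CfsgLib.MinS.M1.eq_one_of_odd_of_inv
        ((h.odd i).of_dvd_nat (orderOf_dvd_of_mem_zpowers ⟨m, rfl⟩)) ?_
      change d i ^ m = (d i ^ m)⁻¹
      rw [← h3, ← h2, mul_inv_cancel_right]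
    rw [← Subgroup.noncommPiCoprod_range (hcomm := hc), ← Nat.card_pi]
    exact (Nat.card_congr (MonoidHom.ofInjective
      (Subgroup.injective_noncommPiCoprod_of_iSupIndep hind)).toEquiv).symm
  · rw [eq_bot_iff]
    rintro x ⟨hx, hc⟩
    by_contra h1
    obtain ⟨i, hi⟩ := (h.cases hx).2 h1
    have h2 := hc (d i) (le_iSup (fun i => Subgroup.zpowers (d i)) i (Subgroup.mem_zpowers _))
    exact h.d_ne_inv i (by rw [← hi, ← h2, mul_inv_cancel_right])

end Cfsg.Agent.S4408
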