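import Cfsg.Statements.S4410
import Cfsg.Agent.Lib.Core.Fitting

set_option autoImplicit false
open Cfsg

namespace Cfsg.Agent.S4410

variable {V : Type*} [AddCommGroup V] [Module (ZMod 2) V] {S : Subgroup (V ≃ₗ[ZMod 2] V)}

theorem add_self (m : V) : m + m = 0 := by rw [← two_smul (ZMod 2), show (2 : ZMod 2) = 0 from rfl, zero_smul]

def W (a : S) (v : V) : Prop := a.1 v = v ∧ ∀ x, a.1 x = x ∨ a.1 x = x + v

theorem W.conj {a : S} {v : V} (h : W a v) (g : S) : W (g * a * g⁻¹) (g.1 v) :=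
  ⟨by simp [h.1], fun x => (h.2 (g.1.symm x)).imp (fun e => by simp [e]) fun e => by simp [e]⟩

theorem W.mul {a b : S} {v : V} (h : W a v) (h' : W b v) : W (a * b) v :=
  ⟨by simp [h.1, h'.1], fun x => by
    rcases h.2 x with e | e <;> rcases h'.2 x with e' | e' <;> simp [e, e', h.1, add_assoc, add_self]⟩

theorem W.sq {a : S} {v : V} (h : W a v) : a * a = 1 := Subtype.ext (LinearEquiv.ext fun x => by
  rcases h.2 x with e | e <;> simp [e, h.1, add_assoc, add_self])

theorem W.eq {a b : S} {v w : V} (h : W a v) (h' : W b w) (ho : Odd (orderOf (a * b))) (e : a.1 w = w) : a = b := by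
  have h1 := ((e ▸ h'.conj a : W _ w).mul h').sq
  rw [inv_eq_of_mul_eq_one_right h.sq] at h1
  have h2 : orderOf (a * b) = 1 := Nat.eq_one_of_dvd_coprimes ((Nat.coprime_two_right.2 ho).pow_right 2) dvd_rfl
    (orderOf_dvd_of_pow_eq_one (by rw [← h1]; simp [pow_succ, mul_assoc]))
  rw [← inv_eq_of_mul_eq_one_right (orderOf_eq_one_iff.1 h2), inv_eq_of_mul_eq_one_right h.sq]

/-- Let V be a finite-dimensional vector space over the field with two elements and S a solvable group of linear automorphisms of V with O₂(S) = 1. If P ∈ S has order 4 and (P − 1)³ = 0 on V, then the image of (P − 1)² has at least 4 elements; equivalently, in the decomposition of V into indecomposable modules for the cyclic group generated by P, at least two summands have dimension 3. -/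
theorem result
    {V : Type*} [AddCommGroup V] [Module (ZMod 2) V] [Finite V]
    (S : Subgroup (V ≃ₗ[ZMod 2] V)) (hS : Group.IsSolvable ↥S) (hO2 : Cfsg.pCore 2 ↥S = ⊥)
    (P : V ≃ₗ[ZMod 2] V) (hPS : P ∈ S) (hP4 : orderOf P = 4)
    (hcub : ((P : V →ₗ[ZMod 2] V) - LinearMap.id) ^ 3 = 0) :
    4 ≤ Nat.card ↥(LinearMap.range (((P : V →ₗ[ZMod 2] V) - LinearMap.id) ^ 2)) := by
  have : Finite (V ≃ₗ[ZMod 2] V) := Finite.of_injective _ DFunLike.coe_injective
  by_contra hlt
  obtain ⟨p, hp⟩ : ∃ p : S, p.1 = P := ⟨⟨P, hPS⟩, rfl⟩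
  subst hp
  obtain ⟨v, hv⟩ : ∃ v, W (p * p) v := by
    have h1 : ∀ x, (p * p).1 x + x ∈ LinearMap.range (((p.1 : V →ₗ[ZMod 2] V) - LinearMap.id) ^ 2) := fun x =>
      ⟨x, by
        have : ∀ y : V, -y = y := fun y => neg_eq_of_add_eq_zero_right (add_self y)
        simp [sq, sub_eq_add_neg, this, add_assoc, ← add_assoc ((p.1 : V ≃ₗ[ZMod 2] V) x), add_self]⟩
    generalize LinearMap.range (((p.1 : V →ₗ[ZMod 2] V) - LinearMap.id) ^ 2) = R at h1 hlt
    have h2 : ∀ {x y : V}, x + y = 0 ↔ x = y := fun {x y} => by rw [← add_left_inj y, add_assoc, add_self]; simp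
    obtain ⟨v, hv⟩ : ∃ v, ∀ y ∈ R, y = 0 ∨ y = v := by
      by_cases h : ∃ v ∈ R, v ≠ 0
      · obtain ⟨v, h3, h4⟩ := h
        refine ⟨v, fun y hy => by_contra fun h => hlt ?_⟩
        push Not at h
        simpa using Nat.card_le_card_of_injective (![0, ⟨v, h3⟩, ⟨y, hy⟩, ⟨y + v, add_mem hy h3⟩] : Fin 4 → R) (by
          intro i j; fin_cases i <;> fin_cases j <;> simp [Subtype.ext_iff, h.1, h.2, h4, h2, eq_comm (a := (0 : V)), h.2.symm])
      · exact ⟨0, fun y hy => .inl (by_contra fun e => h ⟨y, hy, e⟩)⟩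
    have h3 : ∀ x, (p * p).1 x = x ∨ (p * p).1 x = x + v := fun x => (hv _ (h1 x)).imp h2.1 fun e => by
      rw [← e, add_comm, add_assoc, add_self, add_zero]
    exact ⟨v, (h3 v).elim id fun e => by rw [add_self, map_eq_zero_iff _ (p * p).1.injective] at e; simp [e], h3⟩
  have hn := CfsgLib.Core.fittingSubgroup_normal S
  have ho : ∀ x ∈ fittingSubgroup S, Odd (orderOf x) := fun x hx => (CfsgLib.Core.odd_card_oddCore S).of_dvd_nat
    (Subgroup.orderOf_dvd_natCard _ (CfsgLib.Core.fittingSubgroup_le_pPrimeCore_of_pCore_eq_bot Nat.prime_two hO2 hx))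
  generalize ht : p * p = t at hv
  have pt : p * t * p⁻¹ = t := by rw [← ht]; group
  let D : S → Prop := fun a => ∃ f ∈ fittingSubgroup S, a = f * t * f⁻¹
  have h1 : ∀ {a b}, D a → D b → Odd (orderOf (a * b)) := by
    rintro _ _ ⟨f, hf, rfl⟩ ⟨g, hg, rfl⟩
    have := mul_mem (mul_mem hf (hn.conj_mem _ (mul_mem (inv_mem hf) hg) t)) (inv_mem hg)
    rw [inv_eq_of_mul_eq_one_right hv.sq] at this
    exact ho _ (by simpa [mul_assoc] using this)
  have h2 : ∀ {a g}, g * t * g⁻¹ = t → D a → D (g * a * g⁻¹) := by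
    rintro _ g e ⟨f, hf, rfl⟩
    exact ⟨_, hn.conj_mem f hf g, by nth_rw 2 [← e]; group⟩
  have h3 : ∀ {a}, D a → ∃ w, W a w := by rintro _ ⟨f, -, rfl⟩; exact ⟨_, hv.conj f⟩
  have Dt : D t := ⟨1, one_mem _, by simp⟩
  have h4 : ∀ b, D b → b = t := fun b hb => by_contra fun h => by
    obtain ⟨w, hw⟩ := h3 hb
    obtain ⟨u, hu⟩ := h3 (h2 pt hb)
    have h5 : p * b * p⁻¹ ≠ b := fun e => h (by
      have e' : t * b * t⁻¹ = b := by
        rw [← ht, show p * p * b * (p * p)⁻¹ = p * (p * b * p⁻¹) * p⁻¹ by group, e, e]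
      have : orderOf (t * b) = 1 := Nat.eq_one_of_dvd_coprimes (Nat.coprime_two_right.2 (h1 Dt hb)) dvd_rfl
        (orderOf_dvd_of_pow_eq_one (by
          rw [inv_eq_of_mul_eq_one_right hv.sq] at e'
          rw [sq, ← mul_assoc, e', hw.sq]))
      rw [← inv_eq_of_mul_eq_one_right (orderOf_eq_one_iff.1 this), inv_eq_of_mul_eq_one_right hv.sq])
    have e1 := (hv.2 w).resolve_left fun e => h (hv.eq hw (h1 Dt hb) e).symm
    have e2 := (hu.2 w).resolve_left fun e => h5 (hu.eq hw (h1 (h2 pt hb) hb) e)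
    have e3 := (hu.2 v).resolve_left fun e =>
      h (conj_injective (x := p) ((hu.eq hv (h1 (h2 pt hb) Dt) e).trans pt.symm))
    refine h5 (conj_injective (x := p) ((hu.eq (hw.conj t) (h1 (h2 pt hb) (h2 (by simp) hb)) ?_).trans ?_).symm)
    · rw [e1, map_add, e2, e3, add_add_add_comm, add_self, add_zero]
    · rw [← ht]; group
  have h5 := ho t (CfsgLib.Core.centralizer_fittingSubgroup_le fun f hf => mul_inv_eq_iff_eq_mul.1 (h4 _ ⟨f, hf, rfl⟩))
  rw [← ht, ← sq, orderOf_pow_of_dvd two_ne_zero (by simp [← Subgroup.orderOf_coe, hP4]), ← Subgroup.orderOf_coe,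
    hP4] at h5
  exact absurd h5 (by decide)

end Cfsg.Agent.S4410
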