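import Cfsg.Statements.S4412
import Cfsg.Agent.Lib.Coprime.Aut

set_option autoImplicit false
open Cfsg

namespace Cfsg.Agent.S4412

theorem fix_or_inv {P : Type*} [Group P] {p : ℕ} (hp : p.Prime) (hp2 : p ≠ 2) (hP : IsPGroup p P) {T : MulAut P}
    (hT : T ^ 2 = 1) {g : P} (h : T g ∈ Subgroup.zpowers g) : T g = g ∨ T g = g⁻¹ := by
  have : Fact p.Prime := ⟨hp⟩
  obtain ⟨n, hn⟩ := h
  obtain ⟨e, he⟩ := IsPGroup.iff_orderOf.1 hP g
  have h1 : ((p : ℤ) ^ e) ∣ (n - 1) * (n + 1) := by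
    have : T (T g) = g := by rw [← MulAut.mul_apply, ← sq, hT]; rfl
    rw [← hn, map_zpow, ← hn, ← zpow_mul] at this
    rw [← Nat.cast_pow, ← he, orderOf_dvd_iff_zpow_eq_one, show (n - 1) * (n + 1) = n * n - 1 by ring, zpow_sub,
      this, zpow_one, mul_inv_cancel]
  have hp' := Nat.prime_iff_prime_int.1 hp
  simp only [← hn, ← zpow_neg_one]
  by_cases h2 : (p : ℤ) ∣ n - 1
  · have := hp'.pow_dvd_of_dvd_mul_right e (fun h3 => hp2 ((Nat.prime_dvd_prime_iff_eq hp Nat.prime_two).1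
      (Int.natCast_dvd_natCast.1 (by simpa using h3.sub h2)))) h1
    rw [← Nat.cast_pow, ← he, orderOf_dvd_sub_iff_zpow_eq_zpow] at this
    exact .inl (by simpa using this)
  · have := hp'.pow_dvd_of_dvd_mul_left e h2 h1
    rw [← Nat.cast_pow, ← he, ← sub_neg_eq_add, orderOf_dvd_sub_iff_zpow_eq_zpow] at this
    exact .inr this

theorem exists_hyp {G : Type*} [Group G] [Finite G] {I I₀ : Subgroup G} (hI : Cfsg.IsElementaryAbelian 2 I)
    (hI8 : Nat.card I = 8) (h0 : I₀ ≤ I) {t : G} (h1 : t ∈ I) (h2 : t ∉ I₀) :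
    ∃ J : Subgroup G, I₀ ≤ J ∧ J ≤ I ∧ t ∉ J ∧ Nat.card J = 4 := by
  obtain ⟨J, h3, h4⟩ := Finite.exists_le_maximal (p := fun J : Subgroup G => J ≤ I ∧ t ∉ J) ⟨h0, h2⟩
  refine ⟨J, h3, h4.1.1, h4.1.2, ?_⟩
  have cm : ∀ x ∈ I, ∀ y ∈ I, x * y = y * x := fun x hx y hy => congrArg Subtype.val (hI.1.1.1 ⟨x, hx⟩ ⟨y, hy⟩)
  have iv : ∀ x ∈ I, x⁻¹ = x := fun x hx => inv_eq_of_mul_eq_one_right (sq x ▸ hI.2 x hx)
  have h5 : J.relIndex I = 2 := Subgroup.relIndex_eq_two_iff.2 ⟨t, h1, fun x hx => by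
    by_cases e : x ∈ J
    · exact .inr ⟨e, fun h => h4.1.2 ((J.mul_mem_cancel_left e).1 h)⟩
    refine .inl ⟨by_contra fun h => e (h4.2 (y := ⟨⟨⟨{y | y ∈ J ∨ x * y ∈ J}, ?_⟩, .inl J.one_mem⟩, ?_⟩)
      ⟨?_, fun h' => h'.elim h4.1.2 h⟩ (fun y hy => .inl hy) (.inr (by simp [← sq, hI.2 x hx]))), e⟩
    · rintro a b (ha | ha) (hb | hb)
      · exact .inl (mul_mem ha hb)
      · exact .inr (by rw [← mul_assoc, cm x hx a (h4.1.1 ha), mul_assoc]; exact mul_mem ha hb)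
      · exact .inr (mul_assoc x a b ▸ mul_mem ha hb)
      · have := mul_mem ha hb
        rw [cm x hx a ((I.mul_mem_cancel_left hx).1 (h4.1.1 ha)), mul_assoc, ← mul_assoc x, ← sq, hI.2 x hx,
          one_mul] at this
        exact .inl this
    · rintro a (ha | ha)
      · exact .inl (inv_mem ha)
      · exact .inr (by rwa [iv a ((I.mul_mem_cancel_left hx).1 (h4.1.1 ha))])
    · rintro a (ha | ha)
      exacts [h4.1.1 ha, (I.mul_mem_cancel_left hx).1 (h4.1.1 ha)]⟩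
  have := Subgroup.card_mul_index (J.subgroupOf I)
  rw [Nat.card_congr (Subgroup.subgroupOfEquivOfLe h4.1.1).toEquiv, hI8, ← Subgroup.relIndex, h5] at this
  omega

/-- Let p be an odd prime, P a finite p-group and I an elementary abelian subgroup of order 8 of Aut(P). Call T ∈ I, T ≠ 1, broad when its fixed-point subgroup C_P(T) is not cyclic. Suppose I has a proper subgroup I₀ containing no broad element such that the product of any two broad elements lies in I₀. Then P is abelian of rank exactly 3 (generated by three elements but not by two), there are exactly three broad elements and they generate I, and I₀ is exactly the set of products of two broad elements. -/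
theorem result
    {P : Type*} [Group P] [Finite P] (p : ℕ) (hp : p.Prime) (hp2 : p ≠ 2) (hP : IsPGroup p P)
    (I : Subgroup (MulAut P)) (hI : Cfsg.IsElementaryAbelian 2 I) (hI8 : Nat.card ↥I = 8)
    (I₀ : Subgroup (MulAut P)) (hI₀ : I₀ < I)
    (hdisj : ∀ T ∈ I₀, T ≠ 1 → ∃ g : P, ∀ x : P, (T x = x ↔ x ∈ Subgroup.zpowers g))
    (hprod : ∀ T ∈ I, ∀ T' ∈ I, T ≠ 1 → T' ≠ 1 → (¬ ∃ g : P, ∀ x : P, (T x = x ↔ x ∈ Subgroup.zpowers g)) →
      (¬ ∃ g : P, ∀ x : P, (T' x = x ↔ x ∈ Subgroup.zpowers g)) → T * T' ∈ I₀) :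
    IsMulCommutative P ∧ (∃ a b c : P, Subgroup.closure {a, b, c} = ⊤) ∧ (¬ ∃ a b : P, Subgroup.closure {a, b} = ⊤) ∧
      Nat.card {T : MulAut P // T ∈ I ∧ T ≠ 1 ∧ ¬ ∃ g : P, ∀ x : P, (T x = x ↔ x ∈ Subgroup.zpowers g)} = 3 ∧
      Subgroup.closure {T : MulAut P | T ∈ I ∧ T ≠ 1 ∧ ¬ ∃ g : P, ∀ x : P, (T x = x ↔ x ∈ Subgroup.zpowers g)} = I ∧
      (I₀ : Set (MulAut P)) = {S : MulAut P | ∃ T T' : MulAut P, T ∈ I ∧ T' ∈ I ∧ T ≠ 1 ∧ T' ≠ 1 ∧
        (¬ ∃ g : P, ∀ x : P, (T x = x ↔ x ∈ Subgroup.zpowers g)) ∧ (¬ ∃ g : P, ∀ x : P, (T' x = x ↔ x ∈ Subgroup.zpowers g)) ∧ S = T * T'} := by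
  classical
  have : Fact p.Prime := ⟨hp⟩
  have cm : ∀ x ∈ I, ∀ y ∈ I, x * y = y * x := fun x hx y hy => congrArg Subtype.val (hI.1.1.1 ⟨x, hx⟩ ⟨y, hy⟩)
  obtain ⟨J, h1, h2, h3, h4⟩ : ∃ J : Subgroup (MulAut P), I₀ ≤ J ∧ J ≤ I ∧ Nat.card J = 4 ∧
      ∀ T ∈ J, T ≠ 1 → ∃ g : P, ∀ x : P, (T x = x ↔ x ∈ Subgroup.zpowers g) := by
    by_cases h : ∃ T ∈ I, T ≠ 1 ∧ ¬ ∃ g : P, ∀ x : P, (T x = x ↔ x ∈ Subgroup.zpowers g)
    · obtain ⟨t, h1, h2, h3⟩ := h
      obtain ⟨J, h4, h5, h6, h7⟩ := exists_hyp hI hI8 hI₀.le h1 fun h => h3 (hdisj t h h2)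
      exact ⟨J, h4, h5, h7, fun T h8 h9 => by_contra fun h =>
        h6 ((J.mul_mem_cancel_right h8).1 (h4 (hprod t h1 T (h5 h8) h2 h9 h3 h)))⟩
    · obtain ⟨t, h1, h2⟩ := SetLike.exists_of_lt hI₀
      obtain ⟨J, h4, h5, h6, h7⟩ := exists_hyp hI hI8 hI₀.le h1 h2
      exact ⟨J, h4, h5, h7, fun T h8 h9 => by_contra fun h' => h ⟨T, h5 h8, h9, h'⟩⟩
  obtain ⟨W, hW, hW'⟩ : ∃ W : Fin 3 → MulAut P, (∀ k, W k ∈ J ∧ W k ≠ 1) ∧ ∀ x ∈ J, x ≠ 1 → ∃ k, W k = x := by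
    have := Fintype.ofFinite J
    have e := Fintype.equivFinOfCardEq (α := {x : J // x ≠ 1}) (n := 3) (by
      rw [Fintype.card_subtype_compl, ← Nat.card_eq_fintype_card, h3]; simp)
    exact ⟨fun k => (e.symm k).1, fun k => ⟨(e.symm k).1.2, fun h => (e.symm k).2 (Subtype.ext h)⟩,
      fun x hx h => ⟨e ⟨⟨x, hx⟩, fun e => h (congrArg Subtype.val e)⟩, by simp⟩⟩
  choose g hg using fun k => h4 _ (hW k).1 (hW k).2
  have odd : ∀ x : P, x⁻¹ = x → x = 1 := fun x e => by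
    obtain ⟨k, hk⟩ := IsPGroup.iff_orderOf.1 hP x
    exact orderOf_eq_one_iff.1 (Nat.eq_one_of_dvd_coprimes (((Nat.coprime_primes hp Nat.prime_two).2 hp2).pow_left k)
      (dvd_of_eq hk) (orderOf_dvd_of_pow_eq_one (by rw [sq, mul_eq_one_iff_inv_eq, e])))
  have gen : Subgroup.closure (Set.range g) = ⊤ := by
    have : IsMulCommutative J := ⟨⟨fun x y => Subtype.ext (cm _ (h2 x.2) _ (h2 y.2))⟩⟩
    obtain ⟨n, hn⟩ := hP.exists_card_eq
    refine eq_top_iff.2 (CfsgLib.Coprime.aut_le_of_forall_fixed (φ := J.subtype) (fun h => ?_)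
      CfsgLib.Coprime.autInv_top (by
        rw [h3, Subgroup.card_top, hn]
        exact ((Nat.coprime_primes Nat.prime_two hp).2 hp2.symm).pow 2 n) fun a ha x _ e => ?_)
    · have := Monoid.exponent_dvd_of_forall_pow_eq_one fun x : J => Subtype.ext (hI.2 x (h2 x.2))
      rw [IsCyclic.exponent_eq_card, h3] at this
      omega
    · obtain ⟨k, hk⟩ := hW' a a.2 fun e => ha (Subtype.ext e)
      exact Subgroup.zpowers_le.2 (Subgroup.subset_closure (Set.mem_range_self k)) ((hg k x).1 (hk ▸ e))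
  have pm' : ∀ T ∈ I, ∀ U ∈ I, ∀ g : P, (∀ x, U x = x ↔ x ∈ Subgroup.zpowers g) → T g = g ∨ T g = g⁻¹ :=
    fun T hT U hU g h => fix_or_inv hp hp2 hP (hI.2 T hT) ((h _).1 (by
      rw [← MulAut.mul_apply, cm U hU T hT, MulAut.mul_apply, (h g).2 (Subgroup.mem_zpowers g)]))
  have pm := fun T hT k => pm' T hT _ (h2 (hW k).1) _ (hg k)
  have ext : ∀ T ∈ I, ∀ U ∈ I, (∀ k, T (g k) = g k ↔ U (g k) = g k) → T = U := fun T hT U hU h =>
    MulEquiv.toMonoidHom_injective (MonoidHom.eq_of_eqOn_dense gen (by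
      rintro _ ⟨k, rfl⟩
      by_cases e : T (g k) = g k
      · exact e.trans ((h k).1 e).symm
      · exact ((pm T hT k).resolve_left e).trans ((pm U hU k).resolve_left (mt (h k).2 e)).symm))
  obtain ⟨T, hT, hT'⟩ : ∃ T : Fin 3 → MulAut P, (∀ k, T k ∈ I) ∧ ∀ k j, T k (g j) = g j ↔ k ≠ j := by
    have := ((Nat.bijective_iff_injective_and_card fun (T : I) k => T.1 (g k) = g k).2 (And.intro
      (fun T U e => Subtype.ext (ext _ T.2 _ U.2 fun k => iff_of_eq (congrFun e k))) (by simp [hI8]))).2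
    choose T hT using fun k => this fun j => k ≠ j
    exact ⟨fun k => T k, fun k => (T k).2, fun k j => iff_of_eq (congrFun (hT k) j)⟩
  have inv : ∀ k, T k (g k) = (g k)⁻¹ := fun k => (pm _ (hT k) k).resolve_left (by simp [hT'])
  have ne : ∀ k, (g k)⁻¹ ≠ g k := fun k => by simp [← inv, hT']
  have mul : ∀ X ∈ I, ∀ Y ∈ I, ∀ k, (X * Y) (g k) = g k ↔ (X (g k) = g k ↔ Y (g k) = g k) := fun X hX Y hY k => by
    rcases pm X hX k with e | e <;> rcases pm Y hY k with e' | e' <;> simp [e, e', ne]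
  have zfix : ∀ {X : MulAut P} {a x}, x ∈ Subgroup.zpowers a → X a = a → X x = x := by
    rintro X a _ ⟨n, rfl⟩ e; simp [e]
  have zinv : ∀ {X : MulAut P} {a x}, x ∈ Subgroup.zpowers a → X a = a⁻¹ → X x = x⁻¹ := by
    rintro X a _ ⟨n, rfl⟩ e; simp [e]
  have hWg : ∀ k j, W k (g j) = g j ↔ k = j := fun k j => ⟨fun e => by_contra fun h =>
    (hT' j j).1 (zfix ((hg k _).1 e) ((hT' j k).2 (Ne.symm h))) rfl, fun e => e ▸ (hg k _).2 (Subgroup.mem_zpowers _)⟩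
  have com : ∀ i j, Commute (g i) (g j) := fun i j => by
    obtain ⟨k, h5, h6⟩ := (by decide : ∀ i j : Fin 3, ∃ k, k ≠ i ∧ k ≠ j) i j
    let Q := (T k).toMonoidHom.eqLocus (MonoidHom.id P)
    let φ : Q →* Q := ((W k).toMonoidHom.comp Q.subtype).codRestrict Q fun x => by
      change T k (W k x) = W k x
      rw [← MulAut.mul_apply, cm _ (hT k) _ (h2 (hW k).1), MulAut.mul_apply, show T k x = x from x.2]
    exact (MonoidHom.FixedPointFree.commute_all_of_involutive (φ := φ) (fun x e => Subtype.ext (odd _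
      ((zinv ((hg k _).1 (congrArg Subtype.val e)) (inv k)).symm.trans x.2))) (fun x => Subtype.ext (by
        change (W k * W k) x = x
        rw [← sq, hI.2 _ (h2 (hW k).1)]; rfl)) ⟨g i, (hT' k i).2 h5⟩ ⟨g j, (hT' k j).2 h6⟩).map Q.subtype
  have ab : IsMulCommutative P := by
    have := Subgroup.isMulCommutative_closure (k := Set.range g) (by rintro _ ⟨i, rfl⟩ _ ⟨j, rfl⟩; exact com i j)
    rw [gen] at this
    exact ⟨⟨fun x y => congrArg Subtype.val (this.1.1 ⟨x, trivial⟩ ⟨y, trivial⟩)⟩⟩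
  have WT : ∀ k, ∃ i j, W k = T i * T j := fun k => by
    obtain ⟨i, j, h5⟩ := (by decide : ∀ k : Fin 3, ∃ i j, ∀ l, k = l ↔ (i ≠ l ↔ j ≠ l)) k
    exact ⟨i, j, ext _ (h2 (hW k).1) _ (mul_mem (hT i) (hT j)) fun l => by rw [mul _ (hT i) _ (hT j), hT', hT', hWg, h5]⟩
  have cls : ∀ X ∈ I, X = 1 ∨ (∃ k, X = T k) ∨ (∃ k, X = W k) ∨ X = T 0 * T 1 * T 2 := fun X hX => by
    rcases (by decide : ∀ s : Fin 3 → Bool, (∀ k, s k) ∨ (∃ k, ∀ l, s l ↔ k ≠ l) ∨ (∃ k, ∀ l, s l ↔ k = l) ∨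
      ∀ k, s k ↔ ((0 ≠ k ↔ 1 ≠ k) ↔ 2 ≠ k)) fun k => decide (X (g k) = g k) with e | ⟨k, e⟩ | ⟨k, e⟩ | e <;>
      simp only [decide_eq_true_eq] at e
    · exact .inl (ext _ hX _ I.one_mem fun k => by simp [e])
    · exact .inr (.inl ⟨k, ext _ hX _ (hT k) fun l => by rw [e, hT']⟩)
    · exact .inr (.inr (.inl ⟨k, ext _ hX _ (h2 (hW k).1) fun l => by rw [e, hWg]⟩))
    · exact .inr (.inr (.inr (ext _ hX _ (mul_mem (mul_mem (hT _) (hT _)) (hT _)) fun l => by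
        rw [e, mul _ (mul_mem (hT _) (hT _)) _ (hT _), mul _ (hT _) _ (hT _), hT', hT', hT'])))
  have br : ∀ X, (X ∈ I ∧ X ≠ 1 ∧ ¬ ∃ g : P, ∀ x : P, (X x = x ↔ x ∈ Subgroup.zpowers g)) ↔ ∃ k, T k = X := fun X => by
    refine ⟨fun ⟨h5, h6, h7⟩ => ?_, ?_⟩
    · rcases cls X h5 with e | ⟨k, e⟩ | ⟨k, e⟩ | e
      · exact (h6 e).elim
      · exact ⟨k, e.symm⟩
      · exact (h7 ⟨g k, e ▸ hg k⟩).elim
      refine (h7 ⟨1, fun x => ⟨fun h => (odd x ?_).symm ▸ Subgroup.mem_zpowers _, fun h => zfix h (map_one _)⟩⟩).elim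
      refine (DFunLike.congr_fun (MonoidHom.eq_of_eqOn_dense (f := X.toMonoidHom) (g := ⟨⟨(·⁻¹), inv_one⟩, fun a b => by
        rw [mul_comm' a b]; exact mul_inv_rev _ _⟩) gen ?_) x).symm.trans h
      rintro _ ⟨k, rfl⟩
      refine (pm X h5 k).resolve_left ?_
      rw [e, mul _ (mul_mem (hT _) (hT _)) _ (hT _), mul _ (hT _) _ (hT _), hT', hT', hT']
      revert k; decide
    · rintro ⟨k, rfl⟩
      refine ⟨hT k, fun e => (hT' k k).1 (by simp [e]) rfl, fun ⟨a, ha⟩ => ?_⟩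
      obtain ⟨i, j, h5, h6, h7⟩ := (by decide : ∀ k : Fin 3, ∃ i j, k ≠ i ∧ k ≠ j ∧ i ≠ j) k
      rcases pm' _ (hT i) _ (hT k) a ha with e | e
      · exact (hT' i i).1 (zfix ((ha _).1 ((hT' k i).2 h5)) e) rfl
      · exact ne j ((zinv ((ha _).1 ((hT' k j).2 h6)) e).symm.trans ((hT' i j).2 h7))
  refine ⟨ab, ⟨g 0, g 1, g 2, by rw [← gen]; congr; ext; simp [Fin.exists_fin_succ, eq_comm]⟩, ?_, ?_, ?_, ?_⟩
  · rintro ⟨a, b, hab⟩
    let _ : CommGroup P := { ‹Group P› with mul_comm := mul_comm' }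
    let π := QuotientGroup.mk' (powMonoidHom p : P →* P).range
    have h5 : ∀ x, Nat.card (Subgroup.zpowers (π x)) ≤ p := fun x => Nat.card_zpowers (π x) ▸ orderOf_le_of_pow_eq_one hp.pos
      (by rw [← map_pow]; exact (QuotientGroup.eq_one_iff _).2 ⟨x, rfl⟩)
    have h6 := Nat.card_le_card_of_surjective (fun x : Subgroup.zpowers (π a) × Subgroup.zpowers (π b) => x.1.1 * x.2.1)
      fun y => by
        obtain ⟨y, rfl⟩ := QuotientGroup.mk'_surjective _ y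
        obtain ⟨m, n, rfl⟩ := Subgroup.mem_closure_pair.1 (hab.ge (Subgroup.mem_top y))
        exact ⟨(⟨_, m, rfl⟩, ⟨_, n, rfl⟩), by simp [π]⟩
    have h7 := Nat.card_le_card_of_injective (fun c : Fin 3 → Fin p => π (∏ k, g k ^ (c k).1)) fun c d e => by
      obtain ⟨y, hy⟩ := QuotientGroup.eq.1 e
      funext k
      have h7 : ∀ c : Fin 3 → Fin p, (∏ k, g k ^ (c k).1) * W k (∏ k, g k ^ (c k).1) = g k ^ (2 * (c k).1) := fun c => by
        rw [map_prod, ← Finset.prod_mul_distrib, Finset.prod_eq_single k (fun j _ h => by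
          simp [(pm _ (h2 (hW k).1) j).resolve_left fun e => h ((hWg k j).1 e).symm]) (by simp)]
        simp [(hWg k k).2 rfl, two_mul, pow_add]
      obtain ⟨n, hn⟩ := (hg k (y * W k y)).1 (by
        rw [map_mul, ← MulAut.mul_apply, ← sq, hI.2 _ (h2 (hW k).1), mul_comm]; rfl)
      have h8 : g k ^ (n * p) = g k ^ (2 * ((d k).1 - (c k).1 : ℤ)) := by
        rw [zpow_mul, show g k ^ n = _ from hn, zpow_natCast, mul_pow, ← map_pow, show y ^ p = _ from hy, map_mul,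
          map_inv, mul_mul_mul_comm, ← mul_inv, h7, h7, mul_sub, zpow_sub, mul_comm]
        norm_cast
      obtain ⟨e, he⟩ := IsPGroup.iff_orderOf.1 hP (g k)
      have h9 : (p : ℤ) ∣ n * p - 2 * ((d k).1 - (c k).1 : ℤ) := (Int.natCast_dvd_natCast.2 (he ▸ dvd_pow_self p
        fun h => ne k (by simp [orderOf_eq_one_iff.1 (he.trans (by simp [h]))]))).trans
          (orderOf_dvd_sub_iff_zpow_eq_zpow.2 h8)
      have := ((Nat.prime_iff_prime_int.1 hp).dvd_or_dvd ((dvd_sub_right (dvd_mul_left _ _)).1 h9)).resolve_left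
        fun h => hp2 ((Nat.prime_dvd_prime_iff_eq hp Nat.prime_two).1 (Int.natCast_dvd_natCast.1 h))
      have := Int.eq_zero_of_abs_lt_dvd this (abs_lt.2 ⟨by omega, by omega⟩)
      omega
    have := h7.trans (h6.trans ((Nat.card_prod _ _).le.trans (Nat.mul_le_mul (h5 a) (h5 b))))
    simp only [Nat.card_eq_fintype_card, Fintype.card_fun, Fintype.card_fin] at this
    nlinarith [hp.two_le]
  · rw [Nat.card_congr (Equiv.subtypeEquivRight br)]
    exact (Nat.card_range_of_injective (f := T) fun i j e => by_contra fun h => (hT' j j).1 (e ▸ (hT' i j).2 h) rfl).trans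
      (by simp)
  · refine le_antisymm ((Subgroup.closure_le _).2 fun X h => h.1) fun X hX => ?_
    rw [Set.ext br]
    have := fun k => Subgroup.subset_closure (Set.mem_range_self (f := T) k)
    rcases cls X hX with rfl | ⟨k, rfl⟩ | ⟨k, rfl⟩ | rfl
    exacts [one_mem _, this k, (WT k).elim fun i ⟨j, e⟩ => e ▸ mul_mem (this i) (this j),
      mul_mem (mul_mem (this _) (this _)) (this _)]
  · ext X
    refine ⟨fun h => ?_, fun ⟨a, b, h1, h2, h3, h4, h5, h6, e⟩ => e ▸ hprod a h1 b h2 h3 h4 h5 h6⟩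
    obtain ⟨i, j, e⟩ : ∃ i j, X = T i * T j := by
      by_cases e : X = 1
      · exact ⟨0, 0, by rw [e, ← sq, hI.2 _ (hT 0)]⟩
      · obtain ⟨k, rfl⟩ := hW' X (h1 h) e
        exact WT k
    have hi := (br _).2 ⟨i, rfl⟩
    have hj := (br _).2 ⟨j, rfl⟩
    exact ⟨_, _, hi.1, hj.1, hi.2.1, hj.2.1, hi.2.2, hj.2.2, e⟩

end Cfsg.Agent.S4412
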