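import Mathlib
import Cfsg.Statements.S4413
import Cfsg.Agent.Lib.TwoGrp.O4m

set_option autoImplicit false
open Cfsg

namespace Cfsg.Agent.S4413


/-- Let P be an extraspecial 2-group of order 32 with no elementary abelian subgroup of order 8 (the central product of a dihedral and a quaternion group of order 8). Then the inner automorphism group of P has order 16 and the outer automorphism group Aut(P)/Inn(P) is isomorphic to the symmetric group of degree 5; in particular Aut(P) has order 1920. -/
theorem result {P : Type*} [Group P] [Finite P]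
    (hex : Cfsg.IsExtraspecial 2 P) (h32 : Nat.card P = 32)
    (hminus : ∀ A : Subgroup P, Cfsg.IsElementaryAbelian 2 A → Nat.card ↥A ≤ 4)
    [(MulAut.conj : P →* MulAut P).range.Normal] :
    Nat.card ↥(MulAut.conj : P →* MulAut P).range = 16 ∧ Nat.card (MulAut P) = 1920 ∧
      Nonempty ((MulAut P ⧸ (MulAut.conj : P →* MulAut P).range) ≃* Equiv.Perm (Fin 5)) := by
  obtain ⟨z, π, c⟩ := CfsgLib.TwoGrp.O4m.exists_coord hex h32 hminus
  obtain ⟨Φ, hs, hk, -⟩ := c.exists_autHom
  have h1 := CfsgLib.TwoGrp.O4m.card_inn c.es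
  have h16 : Nat.card (Cfsg.Inn P) = 16 := by omega
  let e := c.nonempty_out_equiv.some.trans (MulEquiv.ofBijective _ CfsgLib.TwoGrp.O4m.psi_bijective)
  refine ⟨h16, ?_, ⟨e⟩⟩
  have h2 := Subgroup.card_mul_index (Cfsg.Inn P)
  have h3 : (Cfsg.Inn P).index = 120 := by
    rw [Subgroup.index, Nat.card_congr e.toEquiv, Nat.card_perm]; simp [Nat.factorial]
  rw [h16, h3] at h2
  omega

end Cfsg.Agent.S4413
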