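import Cfsg.Statements.S4414
import Cfsg.Agent.Lib.Perm.PermModule
import Cfsg.Agent.Lib.HH.Reduce

set_option autoImplicit false
open Cfsg

namespace Cfsg.Agent.S4414

open MulAction TensorProduct Module
open scoped commutatorElement IsMulCommutative

set_option linter.unusedSectionVars false
set_option linter.style.haveILetI false

section Core

variable {S : Type*} [Group S] [Finite S] {N : Subgroup S} [N.Normal] {F : Type*} [Field F]

/-- the action on the characters of a normal subgroup -/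
@[reducible] def dact : MulAction S (N →* Fˣ) where
  smul s μ := μ.comp (MulAut.conjNormal s⁻¹ : MulAut N).toMonoidHom
  one_smul μ := by
    ext v
    change ((μ (MulAut.conjNormal (1 : S)⁻¹ v) : Fˣ) : F) = μ v
    simp
  mul_smul s t μ := by
    ext v
    change ((μ (MulAut.conjNormal (s * t)⁻¹ v) : Fˣ) : F) =
      μ (MulAut.conjNormal t⁻¹ (MulAut.conjNormal s⁻¹ v))
    simp

attribute [local instance] dact

theorem smul_ap (s : S) (μ : N →* Fˣ) (v : N) : (s • μ) v = μ (MulAut.conjNormal s⁻¹ v) := rfl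

variable {W : Type*} [AddCommGroup W] [Module F W] (σ : Representation F S W) [Fintype N]

/-- the (unnormalised) projection on a weight space -/
noncomputable def pr (μ : N →* Fˣ) : W →ₗ[F] W := ∑ v : N, (((μ v)⁻¹ : Fˣ) : F) • σ v

theorem pr_ap (μ : N →* Fˣ) (w : W) : pr σ μ w = ∑ v : N, (((μ v)⁻¹ : Fˣ) : F) • σ v w := by
  simp [pr, LinearMap.sum_apply]

theorem pr_conj (s : S) (μ : N →* Fˣ) (w : W) : σ s (pr σ μ w) = pr σ (s • μ) (σ s w) := by
  rw [pr_ap, pr_ap, map_sum]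
  refine Fintype.sum_equiv (MulAut.conjNormal s : MulAut N).toEquiv _ _ fun v => ?_
  have e1 : MulAut.conjNormal s⁻¹ ((MulAut.conjNormal s : MulAut N).toEquiv v) = v := by
    apply Subtype.ext; simp [mul_assoc]
  have e2 : (((MulAut.conjNormal s : MulAut N).toEquiv v : N) : S) = s * v * s⁻¹ := by simp
  rw [smul_ap, e1, e2, map_smul, ← Module.End.mul_apply, ← Module.End.mul_apply, ← map_mul,
    ← map_mul, inv_mul_cancel_right]

theorem eig (u : N) (μ : N →* Fˣ) (w : W) : σ u (pr σ μ w) = (μ u : F) • pr σ μ w := by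
  rw [pr_ap, map_sum, Finset.smul_sum]
  refine Fintype.sum_equiv (Equiv.mulLeft u) _ _ fun v => ?_
  rw [map_smul, Equiv.coe_mulLeft, smul_smul, ← Module.End.mul_apply, ← map_mul, map_mul μ,
    Subgroup.coe_mul]
  congr 1
  simp only [mul_inv, Units.val_mul, ← mul_assoc, Units.mul_inv, one_mul]

theorem pr_pr (ν μ : N →* Fˣ) (w : W) :
    pr σ ν (pr σ μ w) = (∑ v : N, (((ν⁻¹ * μ) v : Fˣ) : F)) • pr σ μ w := by
  rw [pr_ap σ ν, Finset.sum_smul]
  refine Finset.sum_congr rfl fun v _ => ?_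
  rw [eig, smul_smul]; simp

theorem pr_pr_ne {ν μ : N →* Fˣ} (h : ν ≠ μ) (w : W) : pr σ ν (pr σ μ w) = 0 := by
  have := sum_hom_units_eq_zero ((Units.coeHom F).comp (ν⁻¹ * μ)) (fun e => h (by
    ext v
    have := DFunLike.congr_fun e v
    simp only [MonoidHom.comp_apply, MonoidHom.mul_apply, MonoidHom.inv_apply, Units.coeHom_apply,
      MonoidHom.one_apply, Units.val_eq_one, inv_mul_eq_one] at this
    rw [this]))
  rw [pr_pr]
  erw [this]
  rw [zero_smul]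

theorem ne_zero_iff (s : S) (w : W) : σ s w ≠ 0 ↔ w ≠ 0 := by
  refine not_congr ⟨fun h => ?_, fun h => by rw [h, map_zero]⟩
  have : σ s⁻¹ (σ s w) = w := by
    rw [← Module.End.mul_apply, ← map_mul, inv_mul_cancel, map_one, Module.End.one_apply]
  rw [← this, h, map_zero]

theorem pr_smul_ne (s : S) (μ : N →* Fˣ) (w : W) : pr σ (s • μ) (σ s w) ≠ 0 ↔ pr σ μ w ≠ 0 := by
  rw [← pr_conj, ne_zero_iff]

variable [IsMulCommutative N] [HasEnoughRootsOfUnity F (Monoid.exponent N)]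

theorem exists_pr (hN : (Nat.card N : F) ≠ 0) {w : W} (hw : w ≠ 0) :
    ∃ μ : N →* Fˣ, pr σ μ w ≠ 0 := by
  classical
  by_contra hn
  push Not at hn
  haveI := Fintype.ofFinite (N →* Fˣ)
  have h1 : ∑ μ : N →* Fˣ, pr σ μ w = (Nat.card N : F) • w := by
    simp only [pr_ap]
    rw [Finset.sum_comm, Finset.sum_eq_single (1 : N)]
    · rw [← CommGroup.card_monoidHom_of_hasEnoughRootsOfUnity N F, Nat.card_eq_fintype_card]
      simp [Nat.cast_smul_eq_nsmul]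
    · intro v _ hv
      rw [← Finset.sum_smul]
      obtain ⟨φ, hφ⟩ := CommGroup.exists_apply_ne_one_of_hasEnoughRootsOfUnity N F (inv_ne_one.2 hv)
      have := sum_hom_units_eq_zero ((Units.coeHom F).comp (MonoidHom.eval v⁻¹ : (N →* Fˣ) →* Fˣ))
        (fun e => hφ (by simpa using DFunLike.congr_fun e φ))
      simp only [← map_inv]
      erw [this]
      rw [zero_smul]
    · simp
  simp only [hn, Finset.sum_const_zero] at h1
  exact hw ((smul_eq_zero.1 h1.symm).resolve_left hN)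

theorem exists_fix [CharP F 2] (hN : (Nat.card N : F) ≠ 0) {P : Subgroup S} (hP : IsPGroup 2 P)
    {μ : N →* Fˣ} {w : W} (h : pr σ μ w ≠ 0) :
    ∃ v : W, (∀ s ∈ P, σ s v = v) ∧ ∀ ν, pr σ ν v ≠ 0 ↔ ν ∈ orbit P μ := by
  haveI : Fact (Nat.Prime 2) := ⟨Nat.prime_two⟩
  let U : Submodule F W := ⨅ ν ∈ (orbit P μ)ᶜ, LinearMap.ker (pr σ ν)
  have hU : ∀ v, v ∈ U ↔ ∀ ν, ν ∉ orbit P μ → pr σ ν v = 0 := fun v => by simp [U]
  obtain ⟨v, hv, hv0, hf⟩ := CfsgLib.Perm.exists_fixed_of_isPGroup hP (σ.comp P.subtype) U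
    (fun g v hv => (hU _).2 fun ν hν => by
      have := (hU v).1 hv (g⁻¹ • ν) fun e => hν (by
        simpa using mem_orbit_of_mem_orbit g e)
      by_contra hn
      refine (pr_smul_ne σ (g : S) (g⁻¹ • ν) v).1 ?_ this
      rwa [← Subgroup.smul_def, smul_inv_smul])
    ((Submodule.ne_bot_iff _).2 ⟨_, (hU _).2 fun ν hν => pr_pr_ne σ
      (fun e => hν (by rw [e]; exact mem_orbit_self μ)) w, h⟩)
  refine ⟨v, fun s hs => hf ⟨s, hs⟩, fun ν => ⟨fun e => by_contra fun hn => e ((hU v).1 hv ν hn),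
    fun e => ?_⟩⟩
  obtain ⟨ν₀, h0⟩ := exists_pr σ hN hv0
  have h1 : ν₀ ∈ orbit P μ := by_contra fun hn => h0 ((hU v).1 hv ν₀ hn)
  rw [← orbit_eq_iff.2 h1] at e
  obtain ⟨g, rfl⟩ := e
  have := (pr_smul_ne σ (g : S) ν₀ v).2 h0
  rwa [show σ (g : S) v = v from hf g] at this

theorem not_inv {q : ℕ} (hq : q.Prime) (hq2 : q ≠ 2) {P Q : Subgroup S} (hP : IsPGroup 2 P)
    (hQ : IsPGroup q Q) (hfix : ∀ μ : N →* Fˣ, (∀ y ∈ Q, y • μ = μ) → ∀ w, pr σ μ w = 0)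
    {μ : N →* Fˣ} {w : W} (h : pr σ μ w ≠ 0) :
    ¬ ∀ y ∈ Q, ∀ ν ∈ orbit P μ, y • ν ∈ orbit P μ := fun hi => by
  haveI : Fact (Nat.Prime 2) := ⟨Nat.prime_two⟩
  haveI : Fact q.Prime := ⟨hq⟩
  let T : SubMulAction Q (N →* Fˣ) := ⟨orbit P μ, fun y ν hν => hi y y.2 ν hν⟩
  obtain ⟨k, hk⟩ := hP.card_orbit μ
  obtain ⟨⟨ν, g, rfl⟩, hν⟩ := hQ.nonempty_fixed_point_of_prime_not_dvd_card T (by
    rw [show Nat.card T = 2 ^ k from hk]
    exact fun e => hq2 ((Nat.prime_dvd_prime_iff_eq hq Nat.prime_two).1 (hq.dvd_of_dvd_pow e)))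
  exact (pr_smul_ne σ (g : S) μ w).2 h
    (hfix _ (fun y hy => congrArg Subtype.val (hν ⟨y, hy⟩)) _)

theorem core [CharP F 2] [Nontrivial W] (hN : (Nat.card N : F) ≠ 0) {q : ℕ} (hq : q.Prime)
    (hq2 : q ≠ 2) {P Q : Subgroup S} (hP : IsPGroup 2 P) (hQ : IsPGroup q Q)
    (hfix : ∀ μ : N →* Fˣ, (∀ y ∈ Q, y • μ = μ) → ∀ w, pr σ μ w = 0) :
    ∃ v₁ v₂ : W, (∀ s ∈ P, σ s v₁ = v₁) ∧ (∀ s ∈ P, σ s v₂ = v₂) ∧
      LinearIndependent F ![v₁, v₂] ∧ ¬ ∀ y ∈ Q, σ y v₁ ∈ Submodule.span F {v₁, v₂} ∧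
        σ y v₂ ∈ Submodule.span F {v₁, v₂} := by
  haveI : Fact q.Prime := ⟨hq⟩
  obtain ⟨w, hw⟩ := exists_ne (0 : W)
  obtain ⟨μ, hμ⟩ := exists_pr σ hN hw
  have hni := not_inv σ hq hq2 hP hQ hfix hμ
  have hni' := hni
  push Not at hni'
  obtain ⟨y, -, _, ⟨g, rfl⟩, hy⟩ := hni'
  obtain ⟨v₁, f₁, s₁⟩ := exists_fix σ hN hP hμ
  obtain ⟨v₂, f₂, s₂⟩ := exists_fix σ hN hP
    ((pr_smul_ne σ y _ _).2 ((pr_smul_ne σ (g : S) μ w).2 hμ))
  change y • (g : S) • μ ∉ _ at hy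
  generalize y • (g : S) • μ = μ' at hy s₂
  have hd : ∀ ν, ν ∈ orbit P μ → ν ∈ orbit P μ' → False := fun ν h1 h2 => hy (by
    rw [← orbit_eq_iff.2 h1, orbit_eq_iff.2 h2]; exact mem_orbit_self _)
  have z₁ : ∀ ν ∈ orbit P μ', pr σ ν v₁ = 0 := fun ν h =>
    by_contra fun e => hd ν ((s₁ ν).1 e) h
  have z₂ : ∀ ν ∈ orbit P μ, pr σ ν v₂ = 0 := fun ν h =>
    by_contra fun e => hd ν h ((s₂ ν).1 e)
  have k₁ : ∀ a b : F, a ≠ 0 → ∀ ν ∈ orbit P μ, pr σ ν (a • v₁ + b • v₂) ≠ 0 := fun a b ha ν h => by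
    rw [map_add, map_smul, map_smul, z₂ ν h, smul_zero, add_zero]
    exact smul_ne_zero ha ((s₁ ν).2 h)
  have k₂ : ∀ a b : F, b ≠ 0 → ∀ ν ∈ orbit P μ', pr σ ν (a • v₁ + b • v₂) ≠ 0 := fun a b ha ν h => by
    rw [map_add, map_smul, map_smul, z₁ ν h, smul_zero, zero_add]
    exact smul_ne_zero ha ((s₂ ν).2 h)
  have hb : ∀ (z : S) (v : W) (ν : N →* Fˣ), pr σ ν (σ z v) ≠ 0 → pr σ (z⁻¹ • ν) v ≠ 0 :=
    fun z v ν h => (pr_smul_ne σ z _ _).1 (by rwa [smul_inv_smul])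
  refine ⟨v₁, v₂, f₁, f₂, LinearIndependent.pair_iff.2 fun a b h => ⟨by_contra fun ha =>
    k₁ a b ha μ (mem_orbit_self _) (by rw [h, map_zero]), by_contra fun ha =>
    k₂ a b ha μ' (mem_orbit_self _) (by rw [h, map_zero])⟩, fun H => hni fun x hx ν hν => ?_⟩
  obtain ⟨z, hz, rfl⟩ : ∃ z ∈ Q, x = z⁻¹ * z⁻¹ := by
    obtain ⟨k, hk⟩ := IsPGroup.iff_orderOf.1 hQ ⟨x, hx⟩
    rw [← Subgroup.orderOf_coe] at hk
    obtain ⟨m, hm⟩ : Odd (orderOf x) := by
      rw [show orderOf x = q ^ k from hk]; exact (hq.odd_of_ne_two hq2).pow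
    refine ⟨x ^ m, Q.pow_mem hx m, ?_⟩
    rw [← mul_inv_rev, eq_inv_iff_mul_eq_one, ← pow_add, ← pow_succ', ← two_mul, ← hm,
      pow_orderOf_eq_one]
  obtain ⟨H₁, H₂⟩ := H z hz
  obtain ⟨a, b, e₁⟩ := Submodule.mem_span_pair.1 H₁
  obtain ⟨c, d, e₂⟩ := Submodule.mem_span_pair.1 H₂
  rw [mul_smul]
  by_cases ha : a = 0
  · have hb0 : b ≠ 0 := fun e => (ne_zero_iff σ z v₁).2
      (fun e => (s₁ μ).2 (mem_orbit_self _) (by rw [e, map_zero])) (by rw [← e₁, ha, e]; simp)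
    have t₁ : ∀ ν ∈ orbit P μ', z⁻¹ • ν ∈ orbit P μ := fun ν h =>
      (s₁ _).1 (hb z v₁ ν (e₁ ▸ k₂ a b hb0 ν h))
    have hd0 : d = 0 := by_contra fun e => hd _ (t₁ μ' (mem_orbit_self _))
      ((s₂ _).1 (hb z v₂ μ' (e₂ ▸ k₂ c d e μ' (mem_orbit_self _))))
    have hc0 : c ≠ 0 := fun e => (ne_zero_iff σ z v₂).2
      (fun e => (s₂ μ').2 (mem_orbit_self _) (by rw [e, map_zero])) (by rw [← e₂, hd0, e]; simp)
    exact t₁ _ ((s₂ _).1 (hb z v₂ ν (e₂ ▸ k₁ c d hc0 ν hν)))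
  · have t₁ : ∀ ν ∈ orbit P μ, z⁻¹ • ν ∈ orbit P μ := fun ν h =>
      (s₁ _).1 (hb z v₁ ν (e₁ ▸ k₁ a b ha ν h))
    exact t₁ _ (t₁ _ hν)

omit [IsMulCommutative N] [HasEnoughRootsOfUnity F (Monoid.exponent N)] in
theorem fix_cond {Q : Subgroup S} (hc : ⁅N, Q⁆ = N) (h0 : ∀ w : W, (∀ v ∈ N, σ v w = w) → w = 0)
    (μ : N →* Fˣ) (h : ∀ y ∈ Q, y • μ = μ) (w : W) : pr σ μ w = 0 := by
  have : N ≤ μ.ker.map N.subtype := by
    refine hc.ge.trans (Subgroup.commutator_le.2 fun v hv y hy => ?_)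
    refine ⟨⟨v, hv⟩ * (MulAut.conjNormal y⁻¹⁻¹ ⟨v, hv⟩)⁻¹, ?_, by simp [commutatorElement_def, mul_assoc]⟩
    rw [SetLike.mem_coe, MonoidHom.mem_ker, map_mul, map_inv, ← smul_ap, h _ (Q.inv_mem hy),
      mul_inv_cancel]
  refine h0 _ fun v hv => ?_
  obtain ⟨u, hu, rfl⟩ := this hv
  rw [Subgroup.coe_subtype, eig, (MonoidHom.mem_ker).1 hu, Units.val_one, one_smul]

end Core

section BC

variable {k F S E : Type*} [Field k] [Field F] [Algebra k F] [Group S] [AddCommGroup E] [Module k E]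
  (ρ : Representation k S E)

theorem coord {ι : Type*} [DecidableEq ι] (b : Basis ι k F) (s : S) (w : F ⊗[k] E) (i : ι) :
    equivFinsuppOfBasisLeft b (CfsgLib.HH.baseChangeRep F ρ s w) i =
      ρ s (equivFinsuppOfBasisLeft b w i) := by
  rw [CfsgLib.HH.baseChangeRep_apply]
  induction w with
  | zero => simp
  | tmul a e => simp
  | add x y hx hy => simp only [map_add, Finsupp.add_apply, hx, hy]

theorem fix_le (P : Subgroup S) (U : Submodule k E) (hU : ∀ v, (∀ s ∈ P, ρ s v = v) → v ∈ U)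
    (w : F ⊗[k] E) (hw : ∀ s ∈ P, CfsgLib.HH.baseChangeRep F ρ s w = w) :
    w ∈ LinearMap.range (U.subtype.baseChange F) := by
  classical
  let b := Basis.ofVectorSpace k F
  rw [← (equivFinsuppOfBasisLeft b).symm_apply_apply w, equivFinsuppOfBasisLeft_symm_apply]
  refine Submodule.sum_mem _ fun i _ => ⟨b i ⊗ₜ ⟨_, hU (equivFinsuppOfBasisLeft b w i)
    fun s hs => by rw [← coord, hw s hs]⟩, by simp⟩

theorem inv_range (U : Submodule k E) (y : S) (hU : ∀ v ∈ U, ρ y v ∈ U) (w : F ⊗[k] E)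
    (hw : w ∈ LinearMap.range (U.subtype.baseChange F)) :
    CfsgLib.HH.baseChangeRep F ρ y w ∈ LinearMap.range (U.subtype.baseChange F) := by
  obtain ⟨u, rfl⟩ := hw
  rw [CfsgLib.HH.baseChangeRep_apply]
  induction u with
  | zero => simp
  | tmul a e => exact ⟨a ⊗ₜ ⟨_, hU e e.2⟩, by simp⟩
  | add x y hx hy => simp only [map_add]; exact Submodule.add_mem _ hx hy

/-- the fixed points of a subgroup -/
def fixS (P : Subgroup S) : Submodule k E where
  carrier := {v | ∀ s ∈ P, ρ s v = v}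
  add_mem' ha hb s hs := by rw [map_add, ha s hs, hb s hs]
  zero_mem' s _ := map_zero _
  smul_mem' c v hv s hs := by rw [map_smul, hv s hs]

end BC

/-- Let S be a finite solvable group whose order is divisible only by the primes 2, p, q (p, q distinct odd primes), with a Sylow system S₂, S_p, S_q (pairwise permutable Sylow subgroups) such that: S_p is a minimal normal subgroup of S of order p or p²; S_q has order q and [S_p, S_q] = S_p; and O₂(S) = 1. Let E be an irreducible module for S over the field with two elements on which S_p acts faithfully, and E₀ the subspace of fixed points of S₂. Then either E₀ has at least 8 elements, or E₀ has exactly 4 elements and S_q does not leave E₀ invariant. -/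
theorem result {S : Type*} [Group S] [Finite S]
    [Group.IsSolvable S] (p q : ℕ) (hp : p.Prime) (hq : q.Prime) (hp2 : p ≠ 2) (hq2 : q ≠ 2) (hpq : p ≠ q)
    (hπ : ∀ r : ℕ, r.Prime → r ∣ Nat.card S → r = 2 ∨ r = p ∨ r = q)
    (S₂ : Sylow 2 S) (Sp : Sylow p S) (Sq : Sylow q S)
    (h2q : Nat.card ↥((S₂ : Subgroup S) ⊔ (Sq : Subgroup S)) = Nat.card ↥S₂ * Nat.card ↥Sq)
    (h2p : Nat.card ↥((S₂ : Subgroup S) ⊔ (Sp : Subgroup S)) = Nat.card ↥S₂ * Nat.card ↥Sp)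
    (hpq' : Nat.card ↥((Sp : Subgroup S) ⊔ (Sq : Subgroup S)) = Nat.card ↥Sp * Nat.card ↥Sq)
    (hSpN : (Sp : Subgroup S).Normal) (hSpmin : ∀ N : Subgroup S, N.Normal → N ≤ (Sp : Subgroup S) → N = ⊥ ∨ N = (Sp : Subgroup S))
    (hSpcard : Nat.card ↥Sp = p ∨ Nat.card ↥Sp = p ^ 2)
    (hSq : Nat.card ↥Sq = q) (hcomm : ⁅(Sp : Subgroup S), (Sq : Subgroup S)⁆ = (Sp : Subgroup S))
    (hO2 : Cfsg.pCore 2 S = ⊥)
    {E : Type*} [AddCommGroup E] [Module (ZMod 2) E] [Finite E] (ρ : Representation (ZMod 2) S E) (hE : Nontrivial E)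
    (hirr : ∀ N : Submodule (ZMod 2) E, (∀ s : S, ∀ m ∈ N, ρ s m ∈ N) → N = ⊥ ∨ N = ⊤)
    (hfaith : ∀ x ∈ (Sp : Subgroup S), ρ x = 1 → x = 1) :
    8 ≤ Nat.card {v : E // ∀ s ∈ (S₂ : Subgroup S), ρ s v = v} ∨
      (Nat.card {v : E // ∀ s ∈ (S₂ : Subgroup S), ρ s v = v} = 4 ∧
        ∃ x ∈ (Sq : Subgroup S), ∃ v : E, (∀ s ∈ (S₂ : Subgroup S), ρ s v = v) ∧ ¬ ∀ s ∈ (S₂ : Subgroup S), ρ s (ρ x v) = ρ x v) := by
  classical
  haveI : Fact p.Prime := ⟨hp⟩
  haveI : Fact (Nat.Prime 2) := ⟨Nat.prime_two⟩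
  haveI := Fintype.ofFinite (Sp : Subgroup S)
  let F := AlgebraicClosure (ZMod 2)
  have hcard : Nat.card (Sp : Subgroup S) = p ∨ Nat.card (Sp : Subgroup S) = p ^ 2 := hSpcard
  haveI : IsMulCommutative (Sp : Subgroup S) := by
    rcases hcard with h | h
    · haveI := isCyclic_of_prime_card h; infer_instance
    · exact IsPGroup.isMulCommutative_of_card_eq_prime_sq h
  have hodd : ∀ n : ℕ, n ∣ Nat.card (Sp : Subgroup S) → (n : F) ≠ 0 := fun n hn e => by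
    have h2 := ((CharP.cast_eq_zero_iff F 2 n).1 e).trans hn
    refine hp2 ((Nat.prime_dvd_prime_iff_eq Nat.prime_two hp).1 ?_).symm
    rcases hcard with h | h <;> rw [h] at h2
    exacts [h2, Nat.prime_two.dvd_of_dvd_pow h2]
  haveI : NeZero ((Monoid.exponent (Sp : Subgroup S) : ℕ) : F) :=
    ⟨hodd _ Group.exponent_dvd_nat_card⟩
  haveI : HasEnoughRootsOfUnity F (Monoid.exponent (Sp : Subgroup S)) :=
    IsSepClosed.hasEnoughRootsOfUnity F _
  have hC : fixS ρ (Sp : Subgroup S) = ⊥ := by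
    refine (hirr (fixS ρ (Sp : Subgroup S)) fun s m hm v hv => ?_).resolve_right fun e => ?_
    · have := hm (s⁻¹ * v * s⁻¹⁻¹) (hSpN.conj_mem v hv s⁻¹)
      conv_rhs => rw [← this]
      rw [← Module.End.mul_apply, ← Module.End.mul_apply, ← map_mul, ← map_mul]
      congr 2; group
    · have : (Sp : Subgroup S) = ⊥ := (Subgroup.eq_bot_iff_forall _).2 fun x hx =>
        hfaith x hx (LinearMap.ext fun v => (e.ge Submodule.mem_top : v ∈ fixS ρ _) x hx)
      rw [this, Subgroup.card_bot] at hcard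
      have := hp.two_le
      rcases hcard with h | h
      · omega
      · nlinarith
  haveI : Nontrivial (F ⊗[ZMod 2] E) :=
    Module.FaithfullyFlat.rTensor_nontrivial (ZMod 2) E F
  obtain ⟨v₁, v₂, f₁, f₂, hli, hni⟩ := core (CfsgLib.HH.baseChangeRep F ρ) (N := (Sp : Subgroup S))
    (hodd _ dvd_rfl) hq hq2 S₂.2 Sq.2 (fix_cond _ hcomm fun w hw => by
      obtain ⟨u, rfl⟩ := fix_le ρ _ ⊥ (fun v hv => hC.le hv) w hw
      rw [Subsingleton.elim u 0, map_zero])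
  set U := fixS ρ (S₂ : Subgroup S) with hU
  have m₁ := fix_le ρ _ U (fun v hv => hv) v₁ f₁
  have m₂ := fix_le ρ _ U (fun v hv => hv) v₂ f₂
  have hle : Submodule.span F {v₁, v₂} ≤ LinearMap.range (U.subtype.baseChange F) :=
    Submodule.span_le.2 (Set.pair_subset m₁ m₂)
  have r₁ : finrank F (Submodule.span F {v₁, v₂}) = 2 := by
    have := finrank_span_eq_card hli
    rwa [Matrix.range_cons_cons_empty, Fintype.card_fin] at this
  have r₂ : finrank F (LinearMap.range (U.subtype.baseChange F)) ≤ finrank (ZMod 2) U :=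
    (LinearMap.finrank_range_le _).trans Module.finrank_baseChange.le
  have r₃ := Submodule.finrank_mono hle
  have hc : Nat.card {v : E // ∀ s ∈ (S₂ : Subgroup S), ρ s v = v} = 2 ^ finrank (ZMod 2) U := by
    have := Module.natCard_eq_pow_finrank (K := ZMod 2) (V := U)
    rwa [Nat.card_zmod] at this
  rw [hc]
  by_cases h3 : 3 ≤ finrank (ZMod 2) U
  · exact Or.inl (Nat.pow_le_pow_right two_pos h3)
  refine Or.inr ⟨by rw [show finrank (ZMod 2) U = 2 by omega]; rfl, ?_⟩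
  by_contra hn
  push Not at hn
  have heq := Submodule.eq_of_le_of_finrank_le hle (by omega)
  refine hni fun y hy => ?_
  rw [heq]
  exact ⟨inv_range ρ U y (fun v hv => hn y hy v hv) _ m₁,
    inv_range ρ U y (fun v hv => hn y hy v hv) _ m₂⟩

end Cfsg.Agent.S4414
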