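import Cfsg.Statements.S4415
import Cfsg.Agent.Lib.Cub3.Top

set_option autoImplicit false
open Cfsg

namespace Cfsg.Agent.S4415

open CfsgLib CfsgLib.Cub3 Subgroup Module in
/-- Let S be a finite solvable group acting faithfully on a finite-dimensional space E over the field with three elements, with O₃(S) = 1. Let B ≤ S have order 3 and suppose: E = E₀ ⊕ E₁ with B fixing E₁ pointwise, E₀ B-invariant of order 27 and indecomposable under B (a generator of B has a single Jordan block on E₀); B normalizes but does not centralize some subgroup Q of S that is elementary abelian of order 4; and B is the centre of a Sylow 3-subgroup of S. Put R = [O_{3'}(S), B]. Then R is elementary abelian of order 4 or extraspecial of order 32 containing an elementary abelian subgroup of order 8 (a central product of two quaternion groups), and E is the direct sum of a subspace fixed pointwise by R and an RB-invariant subspace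 on which the subgroup RB acts faithfully and irreducibly. -/
theorem result {S : Type*} [Group S] [Finite S]
    [Group.IsSolvable S] {E : Type*} [AddCommGroup E] [Module (ZMod 3) E] [Finite E] (ρ : Representation (ZMod 3) S E)
    (hfaith : Function.Injective ρ) (hO3 : Cfsg.pCore 3 S = ⊥)
    (B : Subgroup S) (hB : Nat.card ↥B = 3) (b : S) (hb : Subgroup.zpowers b = B)
    (E₀ E₁ : Submodule (ZMod 3) E) (hE01 : E₀ ⊓ E₁ = ⊥) (hE01' : E₀ ⊔ E₁ = ⊤)
    (hE1 : ∀ v ∈ E₁, ρ b v = v) (hE0inv : ∀ v ∈ E₀, ρ b v ∈ E₀) (hE0 : Nat.card ↥E₀ = 27)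
    (hind : ∃ v ∈ E₀, ρ b (ρ b v - v) - (ρ b v - v) ≠ 0)
    (Q : Subgroup S) (hQ : Cfsg.IsElementaryAbelian 2 Q) (hQ4 : Nat.card ↥Q = 4)
    (hBQ : B ≤ Subgroup.normalizer (Q : Set S)) (hBQ' : ¬ B ≤ Subgroup.centralizer (Q : Set S))
    (P : Sylow 3 S) (hBZ : (Subgroup.center ↥(P : Subgroup S)).map (P : Subgroup S).subtype = B) :
    ((Cfsg.IsElementaryAbelian 2 ⁅Cfsg.pPrimeCore 3 S, B⁆ ∧ Nat.card ↥⁅Cfsg.pPrimeCore 3 S, B⁆ = 4) ∨
      (Cfsg.IsExtraspecial 2 ↥⁅Cfsg.pPrimeCore 3 S, B⁆ ∧ Nat.card ↥⁅Cfsg.pPrimeCore 3 S, B⁆ = 32 ∧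
        ∃ A : Subgroup S, A ≤ ⁅Cfsg.pPrimeCore 3 S, B⁆ ∧ Cfsg.IsElementaryAbelian 2 A ∧ Nat.card ↥A = 8)) ∧
    ∃ F₀ F₁ : Submodule (ZMod 3) E, F₀ ⊓ F₁ = ⊥ ∧ F₀ ⊔ F₁ = ⊤ ∧
      (∀ r ∈ ⁅Cfsg.pPrimeCore 3 S, B⁆, ∀ v ∈ F₁, ρ r v = v) ∧ (∀ r ∈ ⁅Cfsg.pPrimeCore 3 S, B⁆ ⊔ B, ∀ v ∈ F₀, ρ r v ∈ F₀) ∧
      (∀ r ∈ ⁅Cfsg.pPrimeCore 3 S, B⁆ ⊔ B, (∀ v ∈ F₀, ρ r v = v) → r = 1) ∧
      (∀ N : Submodule (ZMod 3) E, N ≤ F₀ → (∀ r ∈ ⁅Cfsg.pPrimeCore 3 S, B⁆ ⊔ B, ∀ v ∈ N, ρ r v ∈ N) → N = ⊥ ∨ N = F₀) := by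
  subst hb
  have : Module.Finite (ZMod 3) E := Module.Finite.of_finite
  have b3 : b ^ 3 = 1 := by rw [← hB, Nat.card_zpowers, pow_orderOf_eq_one]
  have hbb : ρ b * ρ b * ρ b = 1 := by rw [← map_mul, ← map_mul, ← pow_three', b3, map_one]
  have rk : finrank (ZMod 3) (LinearMap.range (ρ b - 1)) ≤ 2 := by
    have h1 := LinearMap.finrank_range_add_finrank_ker ((ρ b - 1).domRestrict E₀)
    have h2 : finrank (ZMod 3) E₀ = 3 := by
      rw [Module.natCard_eq_pow_finrank (K := ZMod 3), Nat.card_zmod] at hE0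
      exact Nat.pow_right_injective (by norm_num : 2 ≤ 3) hE0
    have h3 : LinearMap.ker ((ρ b - 1).domRestrict E₀) ≠ ⊥ := by
      obtain ⟨v, hv, hv'⟩ := hind
      have m := E₀.sub_mem (hE0inv v hv) hv
      exact (Submodule.ne_bot_iff _).2 ⟨⟨_, E₀.sub_mem (hE0inv _ m) m⟩, cube_sub_one hbb v,
        fun e => hv' (congrArg Subtype.val e)⟩
    have h4 : LinearMap.range (ρ b - 1) ≤ LinearMap.range ((ρ b - 1).domRestrict E₀) := by
      rintro _ ⟨v, rfl⟩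
      obtain ⟨x, hx, y, hy, rfl⟩ := Submodule.mem_sup.1 (hE01'.ge (Submodule.mem_top (x := v)))
      exact ⟨⟨x, hx⟩, by simp [hE1 y hy]⟩
    have h5 := Submodule.finrank_mono h4
    rw [Ne, ← Submodule.finrank_eq_zero] at h3
    omega
  obtain ⟨q, hq, tri⟩ := exists_tri b3 hQ.2 (hBQ (mem_zpowers b))
    (fun e => hBQ' (zpowers_le.2 e)) P fun x hx => by
      obtain ⟨z, hz, e⟩ := hBZ.ge (mem_zpowers b)
      rw [← e]
      exact congrArg Subtype.val (mem_center_iff.1 hz ⟨x, hx⟩)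
  have r1 : ⁅pPrimeCore 3 S, zpowers b⁆ ≤ pPrimeCore 3 S := commutator_le_left _ _
  have r2 := Coprime.commutator_commutator_eq (K := pPrimeCore 3 S) (A := zpowers b)
    le_normalizer_of_normal (by rw [hB]; exact (Core.coprime_card_pPrimeCore 3 S).symm)
  have r3 : ¬ 3 ∣ Nat.card ↥⁅pPrimeCore 3 S, zpowers b⁆ := fun e =>
    Core.not_dvd_card_pPrimeCore Nat.prime_three S (e.trans (card_dvd_of_le r1))
  generalize ⁅pPrimeCore 3 S, zpowers b⁆ = R at *
  have r4 : zpowers b ≤ normalizer (R : Set S) := Core.le_normalizer_of_commutator_le r2.le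
  set G := R ⊔ zpowers b with hG
  have : (R.subgroupOf G).Normal := normal_subgroupOf_of_le_normalizer (sup_le le_normalizer r4)
  have e := subgroupOfEquivOfLe (H := R) (K := G) le_sup_left
  have hb : b ∈ G := mem_sup_right (mem_zpowers b)
  obtain ⟨c1, c2, c3, c4⟩ := top (ρ := ρ.comp G.subtype) (R := R.subgroupOf G) (b := ⟨b, hb⟩)
    (q := ⟨q, mem_sup_left hq⟩) (hfaith.comp G.subtype_injective)
    (by rwa [Nat.card_congr e.toEquiv]) (Subtype.ext b3) (by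
      have h1 : zpowers b ≤ (normalClosure {(⟨b, hb⟩ : G)}).map G.subtype :=
        zpowers_le.2 ⟨_, subset_normalClosure rfl, rfl⟩
      have h2 : R ≤ (normalClosure {(⟨b, hb⟩ : G)}).map G.subtype := by
        refine r2.ge.trans (commutator_le.2 fun r hr y hy => mul_mem ?_ (inv_mem (h1 hy)))
        obtain ⟨z, hz, rfl⟩ := h1 hy
        exact ⟨_, Normal.conj_mem inferInstance z hz ⟨r, mem_sup_left hr⟩, rfl⟩
      refine eq_top_iff.2 fun g _ => ?_
      obtain ⟨z, hz, e⟩ := sup_le h2 h1 g.2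
      exact Subtype.ext e ▸ hz)
    (fun g => by
      obtain ⟨r, hr, y, hy, e⟩ := (coe_mul_of_right_le_normalizer_left R _ r4).le g.2
      obtain ⟨i, rfl⟩ := (mem_powers_iff_mem_zpowers (x := b)).2 hy
      exact ⟨⟨r, mem_sup_left hr⟩, hr, i, Subtype.ext e.symm⟩) rk
    ⟨fun e => tri.ne (congrArg Subtype.val e), Subtype.ext tri.sq, Subtype.ext tri.nm⟩ hq
  have ea : ∀ K : Subgroup S, (∀ x ∈ K, x ^ 2 = 1) → IsElementaryAbelian 2 K := fun K hK =>
    ⟨⟨⟨fun x y => Subtype.ext (by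
      have i : ∀ z ∈ K, z⁻¹ = z := fun z hz => inv_eq_of_mul_eq_one_left (pow_two z ▸ hK z hz)
      change x.1 * y = y * x
      rw [← i _ (mul_mem x.2 y.2), mul_inv_rev, i _ x.2, i _ y.2])⟩⟩, hK⟩
  have cop : ¬ 3 ∣ Nat.card (R.subgroupOf G) := by rwa [Nat.card_congr e.toEquiv]
  refine ⟨c1.imp (fun h => ⟨ea R fun x hx => congrArg Subtype.val (h.2 ⟨x, mem_sup_left hx⟩ hx),
      by rw [← h.1, Nat.card_congr e.toEquiv]⟩) fun ⟨h1, h2, K, k1, k2, k3⟩ =>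
    ⟨es_congr e h1, by rw [← h2, Nat.card_congr e.toEquiv], K.map G.subtype,
      fun _ ⟨x, hx, ex⟩ => ex ▸ k1 hx, ea _ fun _ ⟨x, hx, ex⟩ => ex ▸ congrArg Subtype.val (k3 x hx),
      by rw [card_map_of_injective G.subtype_injective, k2]⟩,
    LinearMap.ker (sm (ρ.comp G.subtype) (R.subgroupOf G)),
    LinearMap.range (sm (ρ.comp G.subtype) (R.subgroupOf G)), eq_bot_iff.2 ?_, eq_top_iff.2 fun v _ => ?_,
    ?_, fun r hr => c2 ⟨r, hr⟩, fun r hr h => congrArg Subtype.val (c3 ⟨r, hr⟩ h),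
    fun N h1 h2 => c4 N h1 fun g => h2 g g.2⟩
  · rintro _ ⟨h, v, rfl⟩
    exact eq_zero_of_fix cop (fun a ha => mul_sm ha v) h
  · obtain ⟨x, y, rfl, hx, hy⟩ := exists_split (ρ := ρ.comp G.subtype) cop v
    refine Submodule.add_mem _ (Submodule.mem_sup_right ?_) (Submodule.mem_sup_left hy)
    exact (Submodule.smul_mem_iff _ (cast_ne_zero cop)).1 ⟨x, sm_fix hx⟩
  · rintro r hr _ ⟨v, rfl⟩
    exact mul_sm (ρ := ρ.comp G.subtype) (a := ⟨r, mem_sup_left hr⟩) hr v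

end Cfsg.Agent.S4415
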