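import Cfsg.Statements.S4420

set_option autoImplicit false
open Cfsg

namespace Cfsg.Agent.S4420

theorem inverts {H : Type*} [Group H] (A : Subgroup H) (hD : ∀ x : H, x ∉ A → x ^ 2 = 1)
    (x : H) (hx : x ∉ A) (a : H) (ha : a ∈ A) : x * a * x⁻¹ = a⁻¹ := by
  have h1 : x * a ∉ A := fun h => hx (by simpa using A.mul_mem h (A.inv_mem ha))
  have h2 := hD _ h1
  have h3 := hD _ hx
  rw [pow_two] at h2 h3
  have h4 : x⁻¹ = x := inv_eq_of_mul_eq_one_right h3
  rw [h4]
  apply eq_inv_of_mul_eq_one_left
  rw [← h2]; group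

theorem comm_of_sq {H : Type*} [Group H] (h : ∀ x : H, x ^ 2 = 1) (x y : H) : x * y = y * x := by
  have h1 : ∀ z : H, z⁻¹ = z := fun z => inv_eq_of_mul_eq_one_right (by rw [← pow_two, h z])
  rw [← h1 (x * y), mul_inv_rev, h1, h1]

/-- Structure of groups in which every element outside some proper subgroup has square 1. Let H be a finite group with a proper subgroup A such that every element outside A has square 1. Then H has an abelian normal subgroup B of index 2 such that every element outside B is an involution inverting every element of B; and if H is not an elementary abelian 2-group, B is the only abelian normal subgroup of index 2 with this property. -/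
theorem result {H : Type*} [Group H] [Finite H] (A : Subgroup H) (hA : A ≠ ⊤) (hD : ∀ x : H, x ∉ A → x ^ 2 = 1) :
    ∃ B : Subgroup H, B.Normal ∧ IsMulCommutative ↥B ∧ B.index = 2 ∧
      (∀ x : H, x ∉ B → x ^ 2 = 1 ∧ ∀ b ∈ B, x * b * x⁻¹ = b⁻¹) ∧
      (¬ (IsMulCommutative H ∧ ∀ x : H, x ^ 2 = 1) →
        ∀ B' : Subgroup H, B'.Normal → IsMulCommutative ↥B' → B'.index = 2 →
          (∀ x : H, x ∉ B' → x ^ 2 = 1 ∧ ∀ b ∈ B', x * b * x⁻¹ = b⁻¹) → B' = B) := by
  obtain ⟨M, hM, hAM⟩ := (eq_top_or_exists_le_coatom A).resolve_left hA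
  have hD' : ∀ x : H, x ∉ M → x ^ 2 = 1 := fun x hx => hD x fun h => hx (hAM h)
  obtain ⟨x, hx⟩ : ∃ x, x ∉ M := by
    by_contra hh
    push Not at hh
    exact hM.1 ((Subgroup.eq_top_iff' M).2 hh)
  have hinv := inverts M hD'
  have hcomm : IsMulCommutative M := by
    refine ⟨⟨fun a b => Subtype.ext ?_⟩⟩
    have h1 := hinv x hx _ (M.mul_mem a.2 b.2)
    have h2 := hinv x hx _ a.2
    have h3 := hinv x hx _ b.2
    have h4 : ((a : H) * b)⁻¹ = ((b : H) * a)⁻¹ := by
      rw [← h1, mul_inv_rev, ← h2, ← h3]; group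
    simpa using inv_injective h4
  have hmul : ∀ y : H, y ∉ M → y * x ∈ M := by
    intro y hy
    by_contra hyx
    have hall : ∀ z : H, z ^ 2 = 1 := by
      intro z
      by_cases hz : z ∈ M
      · have h1 := hinv _ hyx z hz
        have h2 := hinv x hx z hz
        have h3 := hinv y hy z⁻¹ (M.inv_mem hz)
        have h4 : z⁻¹ = z := by
          rw [← h1]
          calc y * x * z * (y * x)⁻¹ = y * (x * z * x⁻¹) * y⁻¹ := by group
            _ = z := by rw [h2, h3, inv_inv]
        rw [pow_two]; nth_rewrite 1 [← h4]; exact inv_mul_cancel z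
      · exact hD' z hz
    have hc := comm_of_sq hall
    let K : Subgroup H :=
      { carrier := {z | z ∈ M ∨ z * x ∈ M}
        one_mem' := Or.inl M.one_mem
        inv_mem' := by
          intro z hz
          have : z⁻¹ = z := inv_eq_of_mul_eq_one_right (by rw [← pow_two, hall z])
          rwa [this]
        mul_mem' := by
          rintro a b (ha | ha) (hb | hb)
          · exact Or.inl (M.mul_mem ha hb)
          · exact Or.inr (by rw [mul_assoc]; exact M.mul_mem ha hb)
          · refine Or.inr ?_
            have : a * b * x = a * x * b := by rw [mul_assoc, hc b x, mul_assoc]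
            rw [this]; exact M.mul_mem ha hb
          · refine Or.inl ?_
            have : a * b = a * x * (b * x) := by
              rw [hc b x, mul_assoc, ← mul_assoc x, ← pow_two, hall, one_mul]
            rw [this]; exact M.mul_mem ha hb }
    have hMK : M < K := by
      refine lt_of_le_of_ne (fun z hz => Or.inl hz) fun h => hx ?_
      rw [h]
      exact Or.inr (by rw [← pow_two, hall]; exact M.one_mem)
    have hK := hM.2 K hMK
    have : y ∈ K := hK ▸ Subgroup.mem_top y
    rcases this with h | h
    · exact hy h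
    · exact hyx h
  have hidx : M.index = 2 := by
    rw [Subgroup.index_eq_two_iff]
    refine ⟨x, fun b => ?_⟩
    by_cases hb : b ∈ M
    · exact Or.inr ⟨hb, fun h => hx (by simpa using M.mul_mem (M.inv_mem hb) h)⟩
    · exact Or.inl ⟨hmul b hb, hb⟩
  refine ⟨M, Subgroup.normal_of_index_eq_two hidx, hcomm, hidx, fun z hz => ⟨hD' z hz, hinv z hz⟩, ?_⟩
  intro hne B' _ hB'c hB'i hB'
  by_contra hBB
  apply hne
  have hex : ∃ z ∈ B', z ∉ M := by
    by_contra hh
    push Not at hh
    have := Subgroup.index_strictAnti (lt_of_le_of_ne hh hBB)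
    omega
  obtain ⟨z, hzB, hzM⟩ := hex
  have hall : ∀ w : H, w ^ 2 = 1 := by
    intro w
    by_cases hw : w ∈ M
    · by_cases hw' : w ∈ B'
      · have h1 := hinv z hzM w hw
        have h2 : z * w = w * z := by
          have := hB'c.is_comm.comm ⟨z, hzB⟩ ⟨w, hw'⟩
          simpa using congrArg Subtype.val this
        rw [h2, mul_assoc, mul_inv_cancel, mul_one] at h1
        rw [pow_two]; nth_rewrite 1 [h1]; exact inv_mul_cancel w
      · exact (hB' w hw').1
    · exact hD' w hw
  exact ⟨⟨⟨comm_of_sq hall⟩⟩, hall⟩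

end Cfsg.Agent.S4420
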