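import Mathlib
import Cfsg.Statements.S4451
import Cfsg.Agent.Lib.Glaub.CyclicCorr

set_option autoImplicit false
open Cfsg

namespace Cfsg.Agent.S4451

open CfsgLib.Glaub CfsgLib.Char CfsgLib.CharDeep CfsgLib.ChDeg Finset


/-- Let the finite group Γ be generated by a normal subgroup G and a cyclic subgroup S of coprime orders such that every non-identity element of S has the same centraliser C = G ⊓ C(S) in G. Let χ be an S-invariant irreducible character of G, χ̂ its canonical extension to Γ (determinantal order coprime to the order of S), and β the irreducible character of C with χ̂(c s) = ε₀ β(c) for c ∈ C and generators s of S (ε₀ = ±1). Then there are a sign ε = ±1, which may differ from ε₀, and a linear character μ of S with μ² = 1, such that: (a) χ̂(c x) = ε β(c) μ(x) for all c ∈ C and all x ∈ S other than 1; (b) the restriction of χ to C equals |S|·ϑ + ε β for some character ϑ of C or ϑ = 0;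 (c) |S| divides χ(1) − ε β(1). -/
theorem result {Γ : Type*} [Group Γ] [Fintype Γ] (G S : Subgroup Γ) [Fintype G] (hnorm : ∀ s ∈ S, ∀ g ∈ G, s * g * s⁻¹ ∈ G) (hcop : (Nat.card G).Coprime (Nat.card S)) (htop : G ⊔ S = ⊤) (hcyc : IsCyclic S) (C : Subgroup Γ) [Fintype C] (hC : C = G ⊓ Subgroup.centralizer (S : Set Γ)) (hCG : C ≤ G) (hfpf : ∀ x ∈ S, x ≠ 1 → G ⊓ Subgroup.centralizer ({x} : Set Γ) = C) (χ : Cfsg.IrrCharacter G) (hinv : (∀ s ∈ S, ∀ g g' : G, (g' : Γ) = s * g * s⁻¹ → (χ : G → ℂ) g' = (χ : G → ℂ) g)) (χh : Cfsg.IrrCharacter Γ) (hext : (∀ g : G, (χh : Γ → ℂ) g = (χ : G → ℂ) g)) (hdet : (Cfsg.detOrder (χh : Γ → ℂ)).Coprime (Nat.card S)) (β : Cfsg.IrrCharacter C) (ε₀ : ℤ) (hε₀ : ε₀ = 1 ∨ ε₀ = -1) (hβ : ∀ c : C, ∀ s : Γ, Subgroup.zpowers s = S → (χh : Γ → ℂ) ((c : Γ) * s) = (ε₀ : ℂ) * (β : C → ℂ) c) : ∃ ε : ℤ, (ε = 1 ∨ ε = -1) ∧ (∃ μ : S → ℂ, Cfsg.IsCharacter S μ ∧ μ 1 = 1 ∧ (∀ x : S, μ x * μ x =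 1) ∧ ∀ c : C, ∀ x : S, x ≠ 1 → (χh : Γ → ℂ) ((c : Γ) * x) = (ε : ℂ) * (β : C → ℂ) c * μ x) ∧ (∃ ϑ : C → ℂ, Cfsg.IsCharacter C ϑ ∧ (fun c : C => (χ : G → ℂ) ⟨c, hCG c.2⟩) = fun c => (Nat.card S : ℂ) * ϑ c + (ε : ℂ) * (β : C → ℂ) c) ∧ (Nat.card S : ℤ) ∣ (Cfsg.charDegree (χ : G → ℂ) : ℤ) - ε * (Cfsg.charDegree (β : C → ℂ) : ℤ) := by
  classical
  have := normal_of_sup_top hnorm htop
  obtain ⟨s₀, hs₀⟩ := (Subgroup.isCyclic_iff_exists_zpowers_eq_top S).mp hcyc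
  have hs₀S : s₀ ∈ S := hs₀ ▸ Subgroup.mem_zpowers s₀
  have hG : IsIrrCharacter G (fun g : G => (χh : Γ → ℂ) g) := by rw [funext hext]; exact χ.2
  have hall : ∀ x : S, x ≠ 1 → ∃ ε : ℤ, (ε = 1 ∨ ε = -1) ∧
      ∀ c : C, (χh : Γ → ℂ) (c * x) = ε * (β : C → ℂ) c := by
    rintro ⟨x, hx⟩ hx1
    obtain ⟨j, rfl⟩ := (mem_powers_iff_mem_zpowers.mpr (hs₀ ▸ hx) : x ∈ Submonoid.powers s₀)
    have h1 : s₀ ^ j ≠ 1 := fun h => hx1 (Subtype.ext h)
    exact exists_sign_of_fpf hcop htop hC hfpf χh.2 hG hdet hs₀S β.2 hε₀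
      (fun c => hβ c s₀ hs₀) j (by rintro rfl; exact h1 (pow_zero _)) h1
  let a : IrrCharacter C → S → ℂ := fun γ s => classInner (fun c : C => (χh : Γ → ℂ) (c * s)) γ
  have ha : ∀ γ, IsCharacter S (a γ) := fun γ =>
    isCharacter_coeff' hC (irr_isCharacter χh) (irr_isCharacter γ)
  have ha1 : ∀ x : S, x ≠ 1 → (a β x = 1 ∨ a β x = -1) ∧
      ∀ c : C, (χh : Γ → ℂ) (c * x) = a β x * (β : C → ℂ) c := by
    intro x hx
    obtain ⟨ε, hε, h⟩ := hall x hx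
    have : a β x = ε := by
      simp only [a]; rw [coeff_of_sign h, classInner_irr_self β.2, mul_one]
    rw [this]
    exact ⟨by rcases hε with rfl | rfl <;> simp, h⟩
  have ha2 : ∀ γ, γ ≠ β → ∀ x : S, x ≠ 1 → a γ x = 0 := by
    intro γ hγ x hx
    obtain ⟨ε, hε, h⟩ := hall x hx
    simp only [a]
    rw [coeff_of_sign h, classInner_irr_irr, if_neg hγ.symm, mul_zero]
  have ha3 : ∀ x : S, x ≠ 1 → a β x * (starRingEnd ℂ) (a β x) = 1 := fun x hx => by
    rcases (ha1 x hx).1 with h | h <;> simp [h]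
  obtain ⟨d, hd⟩ := exists_char_one_eq_nat (ha β)
  have hd0 : d ≠ 0 := by
    rintro rfl
    have h1 := congrFun (char_eq_zero_of_one_eq_zero (ha β) (by simpa using hd)) ⟨s₀, hs₀S⟩
    simp only [a] at h1
    rw [coeff_of_sign (fun c => hβ c s₀ hs₀), classInner_irr_self β.2] at h1
    rcases hε₀ with rfl | rfl <;> simp at h1
  obtain ⟨ε, hε, k, hk⟩ : ∃ ε : ℤ, (ε = 1 ∨ ε = -1) ∧ ∃ k : ℕ, (d : ℤ) = k * Nat.card S + ε := by
    have hn : (0 : ℤ) < Nat.card S := by exact_mod_cast Nat.card_pos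
    rcases dvd_of_norm_one (ha β) ha3 hd with ⟨k, hk⟩ | ⟨k, hk⟩
    · have : 0 ≤ k := by
        by_contra h
        have : (1 : ℤ) ≤ d := by omega
        nlinarith
      exact ⟨1, Or.inl rfl, k.toNat, by rw [Int.toNat_of_nonneg this]; linarith⟩
    · have : 0 ≤ k := by
        by_contra h
        have : (1 : ℤ) ≤ d := by omega
        nlinarith
      exact ⟨-1, Or.inr rfl, k.toNat, by rw [Int.toNat_of_nonneg this]; linarith⟩
  have hk' : a β 1 = (k : ℤ) * Nat.card S + ε := by rw [hd]; exact_mod_cast hk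
  obtain ⟨μ, hμ, hμ1, hμ2⟩ := exists_eq_reg_add (ha β) ha3 k ε hε hk'
  have hεε : (ε : ℂ) * ε = 1 := by rcases hε with rfl | rfl <;> simp
  have hm : ∀ γ, ∃ m : ℕ, a γ 1 = m * Nat.card S + if γ = β then (ε : ℂ) else 0 := by
    intro γ
    split_ifs with h
    · exact ⟨k, by rw [h, hk']; simp⟩
    · have := Fintype.ofFinite S
      obtain ⟨m, hm⟩ := exists_classInner_eq_nat (ha γ) isCharacter_one
      refine ⟨m, ?_⟩
      rw [← hm, mul_comm, card_mul_classInner, sum_eq_single 1 (fun x _ hx => by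
        rw [ha2 γ h x hx, zero_mul]) (by simp)]
      simp
  choose m hm using hm
  have hb : (fun c : C => (χ : G → ℂ) ⟨c, hCG c.2⟩) = fun c => (Nat.card S : ℂ) *
      (∑ γ : IrrCharacter C, (m γ : ℂ) • (γ : C → ℂ)) c + (ε : ℂ) * (β : C → ℂ) c := by
    funext c
    have h1 := classFun_apply_eq_sum (isClassFunction_coset hC (irr_isClassFunction χh) S.one_mem) c
    change _ = ∑ γ, a γ 1 * _ at h1
    simp only [hm, mul_one, add_mul, sum_add_distrib, ite_mul, zero_mul, sum_ite_eq', mem_univ,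
      if_true] at h1
    rw [← hext ⟨c, hCG c.2⟩, h1, Finset.sum_apply, mul_sum]
    congr 1
    exact sum_congr rfl fun γ _ => by simp only [Pi.smul_apply, smul_eq_mul]; ring
  refine ⟨ε, hε, ⟨μ, isCharacter_of_isIrr hμ, hμ1, fun x => ?_, fun c x hx => ?_⟩,
    ⟨_, isCharacter_sum_nat m, hb⟩, ?_⟩
  · by_cases hx : x = 1
    · rw [hx, hμ1, mul_one]
    · have h1 := hμ2 x hx
      have h2 : a β x * a β x = 1 := by rcases (ha1 x hx).1 with h | h <;> simp [h]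
      rw [h1] at h2
      linear_combination h2 - μ x * μ x * hεε
  · rw [(ha1 x hx).2 c, hμ2 x hx]; ring
  · obtain ⟨t, ht⟩ := exists_char_one_eq_nat (isCharacter_sum_nat m)
    refine ⟨t, ?_⟩
    have h1 := congrFun hb 1
    simp only [ht] at h1
    have h2 : (χ : G → ℂ) ⟨(1 : C), hCG (1 : C).2⟩ = (χ : G → ℂ) 1 := rfl
    rw [h2, ← irr_deg_cast, ← irr_deg_cast] at h1
    have h3 : ((charDegree (χ : G → ℂ) : ℤ) : ℂ) =
        ((Nat.card S * t + ε * charDegree (β : C → ℂ) : ℤ) : ℂ) := by push_cast; exact h1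
    rw [Int.cast_inj] at h3
    rw [h3]; ring

end Cfsg.Agent.S4451
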