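import Cfsg.Statements.S4468
import Cfsg.Agent.Lib.ChA.Ito
import Cfsg.Agent.Lib.PLocal.QuadSep
import Cfsg.Agent.Lib.Coprime.Sylow
import Cfsg.Agent.Lib.Coprime.Action

set_option autoImplicit false
open Cfsg

namespace Cfsg.Agent.S4468


open CfsgLib CfsgLib.Char CfsgLib.ChDeg CfsgLib.ChA Subgroup

theorem exists_solvable {G : Type*} [Group G] [Finite G] {p : ℕ} [hp : Fact p.Prime]
    (hG : IsPSolvable p G) (h : ¬ NS p G) : ∃ H : Subgroup G, Group.IsSolvable H ∧ ¬ NS p H := by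
  obtain ⟨P⟩ : Nonempty (Sylow p G) := inferInstance
  let f := QuotientGroup.mk' (pCore p G)
  have hf : Function.Surjective f := QuotientGroup.mk'_surjective _
  set A := (P : Subgroup G).map f
  have hA : IsPGroup p A := P.isPGroup'.map f
  set K := pPrimeCore p (G ⧸ pCore p G)
  have hK : (Nat.card K).Coprime p := PLocal.PSolv.coprime_card_pPrimeCore
  have hcop : (Nat.card A).Coprime (Nat.card K) := by
    obtain ⟨k, hk⟩ := IsPGroup.iff_card.1 hA
    rw [hk]; exact hK.symm.pow_left k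
  have hAs : Group.IsSolvable A := Coprime.isSolvable_of_isPGroup hA
  by_contra! H
  have h1 := Coprime.eq_of_forall_invariant_pgroup_le (K := K) (A := A)
    (H := K ⊓ centralizer (A : Set (G ⧸ pCore p G))) le_normalizer_of_normal hcop (Or.inl hAs)
    inf_le_left fun q Q hq hQK hQ _ hAQ => by
      have := Fact.mk hq
      have hQs : Group.IsSolvable Q := Coprime.isSolvable_of_isPGroup hQ
      have h2 := Core.isSolvable_sup_of_le_normalizer hAQ
      have h3 : Group.IsSolvable f.ker := by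
        rw [QuotientGroup.ker_mk']
        exact Coprime.isSolvable_of_isPGroup (p := p) PLocal.PSolv.isPGroup_pCore
      have h4 := H _ (Core.isSolvable_comap f (A ⊔ Q))
      refine le_inf hQK fun y hy => ?_
      rintro _ ⟨u, hu, rfl⟩
      obtain ⟨y, rfl⟩ := hf y
      have hu' : u ∈ (A ⊔ Q).comap f := mem_sup_left (mem_map_of_mem f hu)
      have hy' : y ∈ (A ⊔ Q).comap f := mem_sup_right hy
      have h5 : PE p (⟨u, hu'⟩ : (A ⊔ Q).comap f) :=
        PE.of_inj (Subgroup.subtype _) (subtype_injective _) (PE.of_mem P.isPGroup' hu)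
      have h6 := (h4 _ _ h5 (h5.inv.conj ⟨y, hy'⟩)).map (f.comp (Subgroup.subtype _))
      have h7 : f u * (f y * (f u)⁻¹ * (f y)⁻¹) ∈ Q := by
        rw [show f u * (f y * (f u)⁻¹ * (f y)⁻¹) = (f u * f y * (f u)⁻¹) * (f y)⁻¹ by group]
        exact mul_mem ((mem_normalizer_iff.1 (hAQ (mem_map_of_mem f hu)) _).1 hy) (inv_mem hy)
      have h8 : f u * (f y * (f u)⁻¹ * (f y)⁻¹) = 1 :=
        PE.eq_one h6 ((Nat.Prime.coprime_iff_not_dvd hp.out).1 hK.symm)
          (congrArg Subtype.val (pow_card_eq_one' (G := K) (x := ⟨_, hQK h7⟩)))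
      calc f u * f y = f u * (f y * (f u)⁻¹ * (f y)⁻¹) * (f y * f u) := by group
        _ = _ := by rw [h8, one_mul]
  have h2 : A ≤ K := (le_centralizer_iff.1 (h1.ge.trans inf_le_right)).trans
    (PLocal.centralizer_pPrimeCore_le (PLocal.PSolv.quotient hG _) PLocal.PSolv.pCore_quotient)
  have h3 : A = ⊥ := (PLocal.PSolv.disjoint_of_isPGroup_of_coprime hA hK).eq_bot_of_le h2
  rw [Subgroup.map_eq_bot_iff, QuotientGroup.ker_mk'] at h3
  refine h ((ns_iff P).2 ?_)
  rw [le_antisymm h3 (PLocal.PSolv.pCore_le_sylow P)]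
  infer_instance

/-- Let the finite p-solvable group G have a faithful character χ of degree n ≤ p − 1 and suppose that a Sylow p-subgroup of G is not normal. Then n = p − 1, n is a power of 2, and χ is irreducible. -/
theorem result {G : Type*} [Group G] [Finite G] (χ : G → ℂ) (hχ : Cfsg.IsCharacter G χ) (hfaith : ∀ g : G, χ g = χ 1 → g = 1) (n : ℕ) (hn : Cfsg.charDegree χ = n) (p : ℕ) (hp : p.Prime) (hsolv : Cfsg.IsPSolvable p G) (hnp : n + 1 ≤ p) (P : Sylow p G) (hP : ¬ (P : Subgroup G).Normal) : n + 1 = p ∧ (∃ k : ℕ, n = 2 ^ k) ∧ Cfsg.IsIrrCharacter G χ := by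
  have := Fact.mk hp
  obtain ⟨H, hH, h1⟩ := exists_solvable hsolv fun h => hP ((ns_iff P).1 h)
  have := Fintype.ofFinite H
  have hc := isCharacter_restrict H hχ
  obtain ⟨ψ, hψ, hi, h2⟩ := exists_constituent hc
    (by rw [cker_res H hχ, (cker_eq_bot_iff hχ).2 hfaith, bot_subgroupOf]) h1
  have hψc := isCharacter_of_isIrr hψ
  obtain ⟨q, hq, hd, h3⟩ := ito (isIrr_defl hψ le_rfl) (cker_defl_cker hψc) h2
  rw [deg_defl hψc le_rfl] at hd
  have h4 : charDegree ψ ≤ n := hn ▸ deg_le_of_inner_ne_zero hc hψ hi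
  have h5 := Nat.le_of_dvd (deg_pos hψ) hd
  have h6 := hq.one_lt
  have h7 : q + 1 = p := by
    rcases h3 with h | h | h
    · have := Int.le_of_dvd (by omega) (Int.modEq_iff_dvd.1 h.symm); omega
    · have := Int.le_of_dvd (by omega) (Int.modEq_iff_dvd.1 h.symm); omega
    · have := Int.le_of_dvd (by omega) (Int.modEq_iff_dvd.1 h.symm); omega
  have h8 : n = q := by omega
  refine ⟨by omega, ?_, CharDeep.isIrr_of_comp_isIrr H.subtype hχ ?_⟩
  · obtain ⟨r, k, hr, hk, e⟩ := (isPrimePow_nat_iff q).1 hq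
    have h9 : 2 ∣ q := by
      obtain ⟨a, ha⟩ := hp.odd_of_ne_two (by omega); omega
    refine ⟨k, ?_⟩
    rw [h8, ← e, (Nat.prime_dvd_prime_iff_eq Nat.prime_two hr).1
      (Nat.prime_two.dvd_of_dvd_pow (e ▸ h9))]
  · have := eq_of_inner_ne_zero_of_deg_le hc hψ hi (by rw [deg_res, hn]; omega)
    exact this ▸ hψ

end Cfsg.Agent.S4468
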