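import Cfsg.Statements.S4473
import Cfsg.Agent.Lib.Dickson.Main
import Cfsg.Agent.Lib.ChDeg.Avg
import Cfsg.Agent.Lib.CharDeg.Degree
import Cfsg.Agent.Lib.Char.Basic
import Cfsg.Agent.Lib.DihSyl.Basic

set_option autoImplicit false
open Cfsg

namespace Cfsg.Agent.S4473

open Subgroup CfsgLib
open scoped MatrixGroups

theorem comm_of_cyc {G H : Type*} [Group G] [Group H] (f : G →* H) (hf : f.ker ≤ center G) (r : H) :
    IsMulCommutative ((zpowers r).comap f) := by
  refine ⟨⟨fun a b => Subtype.ext ?_⟩⟩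
  by_cases h : ∃ g : G, ∀ x ∈ (zpowers r).comap f, ∃ k : ℤ, (g ^ k)⁻¹ * x ∈ center G
  · obtain ⟨g, hg⟩ := h
    obtain ⟨i, hi⟩ := hg a a.2
    obtain ⟨j, hj⟩ := hg b b.2
    rw [mem_center_iff] at hi hj
    show (a : G) * b = b * a
    calc (a : G) * b = g ^ i * ((g ^ i)⁻¹ * a) * (g ^ j * ((g ^ j)⁻¹ * b)) := by group
      _ = g ^ j * (g ^ i * ((g ^ j)⁻¹ * b)) * ((g ^ i)⁻¹ * a) := by
        rw [mul_assoc (g ^ i), ← hi]; group
      _ = b * a := by rw [hj]; group
  · exfalso
    apply h
    have hc : IsCyclic ↥(zpowers r ⊓ f.range) := isCyclic_of_le inf_le_left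
    obtain ⟨⟨u, hu, g, rfl⟩, hg⟩ := hc.exists_generator
    refine ⟨g, fun x hx => ?_⟩
    obtain ⟨k, hk⟩ := hg ⟨f x, hx, x, rfl⟩
    refine ⟨k, hf ?_⟩
    have : f g ^ k = f x := by simpa using congrArg Subtype.val hk
    rw [MonoidHom.mem_ker, map_mul, map_inv, map_zpow, this, inv_mul_cancel]

/-- Let the finite group G have a faithful irreducible character χ of degree 2 that is primitive: χ is not induced from a character of any proper subgroup. Then the centre of G has index 12, 24 or 60. -/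
theorem result {G : Type*} [Group G] [Fintype G] (χ : Cfsg.IrrCharacter G) (hfaith : ∀ g : G, (χ : G → ℂ) g = (χ : G → ℂ) 1 → g = 1) (h2 : Cfsg.charDegree (χ : G → ℂ) = 2) (hprim : ∀ H : Subgroup G, H ≠ ⊤ → ∀ θ : H → ℂ, Cfsg.IsCharacter H θ → (χ : G → ℂ) ≠ Cfsg.indFun H θ) : (Subgroup.center G).index = 12 ∨ (Subgroup.center G).index = 24 ∨ (Subgroup.center G).index = 60 := by
  classical
  obtain ⟨χ, hχ⟩ := χ
  have key : ∀ H : Subgroup G, IsMulCommutative H → H.index ≤ 2 → False := by
    intro H hH hi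
    obtain ⟨θ, hθ, hin⟩ := ChDeg.exists_irr_under H hχ
    have hθ1 : charDegree θ = 1 := by
      rw [charDegree, Char.irr_one_eq_one_of_comm hθ]; simp
    have hc : IsCharacter H θ := by
      obtain ⟨n, ρ, -, h⟩ := hθ
      exact ⟨n, ρ, h⟩
    have := ChDeg.ind_eq_of_inner_of_deg_le hχ H hc hin (by rw [hθ1, h2]; omega)
    refine hprim H ?_ θ hc this.symm
    rintro rfl
    have : IsMulCommutative G := ⟨⟨fun a b =>
      congrArg Subtype.val (hH.is_comm.comm (⟨a, trivial⟩ : (⊤ : Subgroup G)) ⟨b, trivial⟩)⟩⟩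
    have h1 : charDegree χ = 1 := by
      rw [charDegree, Char.irr_one_eq_one_of_comm hχ]; simp
    have h3 : charDegree χ = 2 := h2
    omega
  obtain ⟨n, ρ, hirr, rfl⟩ := hχ
  have hn : n = 2 := by
    have h3 : charDegree ρ.character = 2 := h2
    rw [charDegree, Representation.char_one] at h3
    simpa using h3
  subst hn
  have hinj : ∀ g, ρ g = 1 → g = 1 := fun g hg => hfaith g (by
    show ρ.character g = ρ.character 1
    simp only [Representation.character, hg, map_one])
  let φ : G →* GL (Fin 2) ℂ := Matrix.GeneralLinearGroup.toLin.symm.toMonoidHom.comp ρ.asGroupHom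
  have hφ : ∀ g, ((Matrix.GeneralLinearGroup.toLin (φ g) : (Fin 2 → ℂ) →ₗ[ℂ] (Fin 2 → ℂ))) = ρ g := by
    intro g
    simp [φ, Representation.asGroupHom_apply]
  have hφi : Function.Injective φ := by
    rw [injective_iff_map_eq_one]
    intro g hg
    apply hinj
    rw [← hφ, hg, map_one]; rfl
  let f : G →* PGL(2, ℂ) := Matrix.ProjGenLinGroup.mk.comp φ
  have hker : f.ker = center G := by
    ext z
    rw [MonoidHom.mem_ker]
    show Matrix.ProjGenLinGroup.mk (φ z) = 1 ↔ _
    rw [Matrix.ProjGenLinGroup.mk_eq_one]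
    constructor
    · intro h
      rw [mem_center_iff] at h ⊢
      intro g
      apply hφi
      rw [map_mul, map_mul, h]
    · intro h
      obtain ⟨c, hc⟩ := CharDeg.exists_eq_smul_of_mem_center ρ h
      rw [mem_center_iff]
      intro A
      apply Matrix.GeneralLinearGroup.toLin.injective
      apply Units.ext
      rw [map_mul, map_mul, Units.val_mul, Units.val_mul]
      have := hφ z
      erw [this, hc]
      simp
  have hcard : (center G).index = Nat.card f.range := by
    rw [← hker, index_ker]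
  have hk' : f.rangeRestrict.ker ≤ center G := by rw [MonoidHom.ker_rangeRestrict, hker]
  have hs := f.rangeRestrict_surjective
  rw [hcard]
  rcases Dickson.dickson_charZero f.range with h | ⟨m, ⟨e⟩⟩ | ⟨⟨e⟩⟩ | ⟨⟨e⟩⟩ | ⟨⟨e⟩⟩
  · obtain ⟨r, hr⟩ := h.exists_generator
    refine (key _ (comm_of_cyc _ hk' r) ?_).elim
    rw [(eq_top_iff' _).2 hr, comap_top, index_top]; omega
  · obtain ⟨r, s, h⟩ := DihSyl.exists_isDih (D := (⊤ : Subgroup f.range)) (topEquiv.trans e)
    refine (key _ (comm_of_cyc _ hk' r) ?_).elim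
    rw [index_comap_of_surjective _ hs, ← relIndex_top_right, h.relIndex_zpowers]
  · left
    rw [Nat.card_congr e.toEquiv, nat_card_alternatingGroup]; simp [Nat.factorial]
  · right; left
    rw [Nat.card_congr e.toEquiv, Nat.card_perm]; simp [Nat.factorial]
  · right; right
    rw [Nat.card_congr e.toEquiv, nat_card_alternatingGroup]; simp [Nat.factorial]

end Cfsg.Agent.S4473
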