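import Cfsg.Statements.S4497
import Cfsg.Agent.Lib.DefectOne.B43_Grp

set_option autoImplicit false
open Cfsg

namespace Cfsg.Agent.S4497

open CfsgLib.DefectOne CfsgLib.DefectOne.B43 Subgroup

/-- Let the finite group G contain an element x of prime order p with C_G(x) = ⟨x⟩, let t be the number of conjugacy classes of elements of order p, and let S* = O_{p′}(G) be the largest normal subgroup of order prime to p. Then S* ≤ G′; if t ≠ p − 1 the quotient G′/S* is simple (in particular non-trivial); if t = p − 1 then G′ = S*. -/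
theorem result {G : Type*} [Group G] [Finite G] (p : ℕ) (hp : p.Prime) (x : G) (hx : orderOf x = p) (hC : Subgroup.centralizer ({x} : Set G) = Subgroup.zpowers x) (t : ℕ) (ht : Nat.card {C : ConjClasses G // ∃ g ∈ C.carrier, orderOf g = p} = t) : Cfsg.pPrimeCore p G ≤ commutator G ∧ (t ≠ p - 1 → ∀ h : ((Cfsg.pPrimeCore p G).subgroupOf (commutator G)).Normal, IsSimpleGroup (↥(commutator G) ⧸ (Cfsg.pPrimeCore p G).subgroupOf (commutator G))) ∧ (t = p - 1 → commutator G = Cfsg.pPrimeCore p G) := by
  have h : SC p x := ⟨hp, hx, hC⟩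
  have h1 := h.classes_mul_ee
  rw [ht] at h1
  have h2 := hp.two_le
  have hO := CfsgLib.Core.not_dvd_card_pPrimeCore hp G
  refine ⟨h.le_commutator _ hO, fun h3 hn => ?_, fun h3 => (h.commutator_of_ee ?_).2.2⟩
  · have h4 : ee x ≠ 1 := fun h => h3 (by rw [← h1, h, mul_one])
    have hxL := mem_commutator_of_ee h.syl h4
    have : Nontrivial (↥(commutator G) ⧸ (pPrimeCore p G).subgroupOf (commutator G)) :=
      ⟨⟨(⟨x, hxL⟩ : commutator G), 1, fun e =>
        notMem_of_not_dvd h.syl hO (mem_subgroupOf.1 ((QuotientGroup.eq_one_iff _).1 e))⟩⟩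
    refine ⟨fun M hM => ?_⟩
    let f := QuotientGroup.mk' ((pPrimeCore p G).subgroupOf (commutator G))
    have hf : Function.Surjective f := QuotientGroup.mk'_surjective _
    by_cases hp' : p ∣ Nat.card (M.comap f)
    · right
      have h5 : normalClosure ({x} : Set G) ≤ (M.comap f).map (commutator G).subtype := by
        refine (closure_le _).2 fun y hy => ?_
        obtain ⟨a, ha, hay⟩ := Group.mem_conjugatesOfSet_iff.1 hy
        rw [Set.mem_singleton_iff] at ha
        subst ha
        have hyo : orderOf y = p := (CfsgLib.PSL2Rec.orderOf_eq_of_isConj hay).symm.trans hx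
        obtain ⟨c, hc⟩ := isConj_iff.1 hay
        have hyL : y ∈ commutator G := hc ▸ Normal.conj_mem inferInstance a hxL c
        exact ⟨⟨y, hyL⟩, mem_of_normal ((syl_of_orderOf h.syl hyo).subgroup hyL) _ hp', rfl⟩
      have h6 := (h.commutator_le (normalClosure ({x} : Set G))
        (hx ▸ orderOf_dvd_natCard _ (subset_normalClosure rfl))).trans h5
      rw [eq_top_iff]
      intro m _
      obtain ⟨g, rfl⟩ := hf m
      obtain ⟨g', hg', e⟩ := h6 g.2
      rwa [show g = g' from Subtype.ext e.symm]
    · left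
      have h5 : M.comap f ≤ pPrimeCore p (commutator G) :=
        CfsgLib.Core.le_pPrimeCore (hp.coprime_iff_not_dvd.2 hp').symm
      rw [eq_bot_iff]
      intro m hm
      obtain ⟨g, rfl⟩ := hf m
      exact (QuotientGroup.eq_one_iff _).2
        (CfsgLib.Core.map_pPrimeCore_le_of_normal (commutator G) ⟨g, h5 hm, rfl⟩)
  · rw [h3] at h1
    exact Nat.eq_of_mul_eq_mul_left (by omega : 0 < p - 1) (h1.trans (mul_one _).symm)

end Cfsg.Agent.S4497
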