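import Cfsg.Statements.S4501
import Cfsg.Agent.Lib.Tuan.Four
import Cfsg.Agent.S0998
import Cfsg.Agent.S0494
import Cfsg.Agent.S0495

set_option autoImplicit false
open Cfsg

namespace Cfsg.Agent.S4501

open CfsgLib.Char CfsgLib.Tuan CfsgLib.DefectOne CfsgLib.DefectOne.B43

theorem two_primes {G : Type*} [Group G] [Finite G] [IsSimpleGroup G] (hna : ∃ x y : G, x * y ≠ y * x)
    {p q r a b c : ℕ} (hp : p.Prime) (hq : q.Prime) (hG : Nat.card G = r ^ c * p ^ a * q ^ b) :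
    r ≠ p ∧ r ≠ q := by
  obtain ⟨x, y, h⟩ := hna
  constructor <;> rintro rfl
  · exact h (IsSimpleGroup.comm_iff_isSolvable.2
      (isSolvable_of_card_eq_pow_mul_pow hp hq (by rw [hG, ← pow_add])) x y)
  · exact h (IsSimpleGroup.comm_iff_isSolvable.2
      (isSolvable_of_card_eq_pow_mul_pow hq hp (by rw [hG, mul_right_comm, ← pow_add])) x y)

theorem arith {p q a b d d' : ℕ} (hp : p.Prime) (hq : q.Prime) (h : d.Coprime d') (h1 : 1 < d) (h2 : 1 < d')
    (hd : d ∣ p ^ a * q ^ b) (hd' : d' ∣ p ^ a * q ^ b) :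
    ∃ i j, (d = p ^ i ∧ d' = q ^ j) ∨ (d' = p ^ i ∧ d = q ^ j) := by
  wlog h3 : ¬ q ∣ d generalizing d d'
  · obtain ⟨i, j, h4⟩ := this h.symm h2 h1 hd' hd fun h4 =>
      hq.ne_one (Nat.eq_one_of_dvd_coprimes h (not_not.1 h3) h4)
    exact ⟨i, j, h4.symm⟩
  obtain ⟨i, -, hi⟩ := (Nat.dvd_prime_pow hp).1
    (((hq.coprime_iff_not_dvd.2 h3).symm.pow_right b).dvd_of_dvd_mul_right hd)
  have h4 : ¬ p ∣ d' := fun h4 => hp.ne_one (Nat.eq_one_of_dvd_coprimes h
    (hi ▸ dvd_pow_self p (by rintro rfl; rw [pow_zero] at hi; omega)) h4)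
  obtain ⟨j, -, hj⟩ := (Nat.dvd_prime_pow hq).1
    (((hp.coprime_iff_not_dvd.2 h4).symm.pow_right a).dvd_of_dvd_mul_left hd')
  exact ⟨i, j, Or.inl ⟨hi, hj⟩⟩

theorem exists_pair {G : Type*} [Group G] [Finite G] [IsSimpleGroup G] (hna : ∃ x y : G, x * y ≠ y * x)
    (h1 : 3 ∣ Nat.card G) (h2 : ¬ 3 ^ 2 ∣ Nat.card G) : ∃ χ ψ : IrrCharacter G, χ ≠ irrOne G ∧ ψ ≠ irrOne G ∧
      dg χ % 3 = 1 ∧ dg ψ = dg χ + 1 := by
  classical
  have : Fact (Nat.Prime 3) := ⟨Nat.prime_three⟩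
  obtain ⟨x, hs⟩ := exists_syl h1 h2
  obtain ⟨ζ, hζ, ⟨D⟩⟩ := exists_data hs
  have h3 := ee_ne_one_of_perfect hs (commutator_eq_top hna)
  have h4 := (Nat.dvd_prime Nat.prime_two).1 (ee_dvd hs)
  obtain ⟨χ, hχ⟩ := Finset.card_eq_one.1 (by have := card_erase D hs; omega :
    (D.X.erase (irrOne G)).card = 1)
  have h5 := Finset.mem_erase.1 (hχ ▸ Finset.mem_singleton_self χ)
  have hdeg := CfsgLib.Tuan.deg_eq' D
  rw [hχ, Finset.sum_singleton, ← deg_Y D 1] at hdeg
  have h6 := D.X_deg χ h5.2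
  have := dg_pos χ
  have := dg_pos (D.Y 1)
  unfold Int.ModEq at h6
  change (dg χ : ℤ) % 3 = _ % 3 at h6
  change _ * (dg (D.Y 1) : ℤ) = _ at hdeg
  rcases D.δ_sign χ h5.2 with h | h <;> rcases D.ε_sign with h' | h' <;> rw [h, h'] at hdeg <;>
    rw [h] at h6
  · exact ⟨χ, D.Y 1, h5.1, Y_ne_one D 1, by omega, by omega⟩
  · omega
  · omega
  · exact ⟨D.Y 1, χ, Y_ne_one D 1, h5.1, by omega, by omega⟩

/-- Let G be a non-abelian finite simple group and p, q distinct primes. If the order of G is 4·p^a·q^b with a ≤ 2, then G is isomorphic to the alternating group of degree 5. If the order of G is 3·p^a·q^b with a ≤ 2, then G is isomorphic to the alternating group of degree 5 or to PSL(2,7). -/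
theorem result {G : Type*} [Group G] [Finite G] [IsSimpleGroup G] (hna : ∃ x y : G, x * y ≠ y * x) (p q a b : ℕ) (hp : p.Prime) (hq : q.Prime) (hpq : p ≠ q) (ha : a ≤ 2) : (Nat.card G = 4 * p ^ a * q ^ b → Nonempty (G ≃* alternatingGroup (Fin 5))) ∧ (Nat.card G = 3 * p ^ a * q ^ b → Nonempty (G ≃* alternatingGroup (Fin 5)) ∨ Nonempty (G ≃* Matrix.ProjectiveSpecialLinearGroup (Fin 2) (ZMod 7))) := by
  refine ⟨fun hG => ?_, fun hG => ?_⟩
  · obtain ⟨h1, h2⟩ := two_primes hna hp hq (r := 2) (c := 2) hG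
    exact Cfsg.Agent.S0494.result (card_eq_sixty hna hp hq hpq h1.symm h2.symm hG)
  obtain ⟨h1, h2⟩ := two_primes hna hp hq (r := 3) (c := 1) hG
  have c1 := (Nat.coprime_primes Nat.prime_three hp).2 h1
  have c2 := (Nat.coprime_primes Nat.prime_three hq).2 h2
  have c3 := (c1.pow_right a).mul_right (c2.pow_right b)
  rw [mul_assoc] at hG
  obtain ⟨χ, ψ, k1, k2, k3, k4⟩ := exists_pair hna (hG ▸ dvd_mul_right _ _) (by
    rw [hG, sq, Nat.mul_dvd_mul_iff_left (by norm_num)]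
    exact (Nat.Prime.coprime_iff_not_dvd Nat.prime_three).1 c3)
  have hd : ∀ χ : IrrCharacter G, dg χ % 3 ≠ 0 → dg χ ∣ p ^ a * q ^ b := fun χ h =>
    Nat.Coprime.dvd_of_dvd_mul_left ((Nat.Prime.coprime_iff_not_dvd Nat.prime_three).2 (by omega)).symm
      (hG ▸ dg_dvd χ)
  have l1 := one_lt_dg hna k1
  have c4 := (Nat.coprime_primes hp hq).2 hpq
  have hf : (Nat.card G).factorization p = a ∧ (Nat.card G).factorization q = b := by
    rw [hG, Nat.factorization_mul (by norm_num) (mul_pos (pow_pos hp.pos a) (pow_pos hq.pos b)).ne',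
      Nat.factorization_mul (pow_pos hp.pos a).ne' (pow_pos hq.pos b).ne', hp.factorization_pow,
      hq.factorization_pow, Nat.prime_three.factorization]
    simp [h1, h2, hpq, hpq.symm]
  have h3 : ¬ p ^ 3 ∣ Nat.card G := by
    rw [hp.pow_dvd_iff_le_factorization Nat.card_pos.ne']; omega
  obtain ⟨i, j, hij⟩ := arith hp hq (d := dg χ) (d' := dg ψ) (by simp [k4]) l1 (by omega)
    (hd χ (by omega)) (hd ψ (by omega))
  have hi : i = a := by
    rcases hij with h | h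
    · rw [← factorization_eq_of_prime_pow hna hp k1 h.1 h3, hf.1]
    · rw [← factorization_eq_of_prime_pow hna hp k2 h.1 h3, hf.1]
  subst hi
  interval_cases i
  · rw [pow_zero] at hij; omega
  · have hc : ¬ IsCyclic G := fun h => by
      obtain ⟨x, y, hxy⟩ := hna
      exact hxy (h.isMulCommutative.is_comm.comm x y)
    rcases Cfsg.Agent.S0998.result hc p q 3 b hp hq Nat.prime_three hpq h1.symm h2.symm (by rw [hG]; ring) with
      ⟨F, _, _, h4, ⟨e⟩⟩ | ⟨F, _, _, h4, ⟨e⟩⟩ <;> have h5 := CfsgLib.Classical.psl2_card_mul (F := F) <;>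
      rw [h4, ← Nat.card_congr e.toEquiv] at h5 <;> norm_num at h5
    · exact Or.inl (Cfsg.Agent.S0494.result (by omega))
    · have : Fact (Nat.Prime 7) := ⟨by norm_num⟩
      exact Or.inr (Cfsg.Agent.S0495.result (by omega) (ZMod.card 7))
  have h4 : p ^ 2 % 3 = 1 := by
    have := (Nat.Prime.coprime_iff_not_dvd Nat.prime_three).1 c1
    rw [Nat.pow_mod]
    rcases (by omega : p % 3 = 1 ∨ p % 3 = 2) with h | h <;> rw [h]
  obtain ⟨h5, h6⟩ := hij.resolve_right (by omega)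
  by_cases h7 : p = 2
  · subst h7
    have h8 : q = 5 := (Nat.prime_dvd_prime_iff_eq hq Nat.prime_five).1
      ((by omega : q ^ j = 5) ▸ dvd_pow_self q (by rintro rfl; rw [pow_zero] at h6; omega))
    have := factorization_eq_one_of_prime hna hq (χ := ψ) (by omega)
    refine Or.inl (Cfsg.Agent.S0494.result ?_)
    rw [hG, ← hf.2, this, h8]; rfl
  obtain ⟨k, hk⟩ := hp.odd_of_ne_two h7
  have h8 : q ^ j = 4 * (k ^ 2 + k) + 2 := by rw [← h6, k4, h5, hk]; ring
  have h9 : q = 2 := ((Nat.prime_dvd_prime_iff_eq Nat.prime_two hq).1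
    (Nat.prime_two.dvd_of_dvd_pow (n := j) (by omega))).symm
  subst h9
  have h10 : j < 2 := by
    by_contra! h
    have := pow_dvd_pow 2 h
    omega
  have := hp.two_le
  interval_cases j <;> nlinarith

end Cfsg.Agent.S4501
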