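import Cfsg.Statements.S4509
import Cfsg.Agent.Lib.DefectOne.B43_Grp

set_option autoImplicit false
open Cfsg

namespace Cfsg.Agent.S4509

open CfsgLib.DefectOne CfsgLib.DefectOne.B43 Subgroup
open scoped commutatorElement

/-- Let the finite group G contain an element x of prime order p with C_G(x) = ⟨x⟩; let t be the number of conjugacy classes of elements of order p and 1 + n·p the number of subgroups of order p. Then G has a normal subgroup of order 1 + n·p if and only if either t = p − 1, or t < p − 1 and G″ ≠ G′. Moreover, if t = p − 1 then G′ has order 1 + n·p and G/G′ is cyclic of order p; and if t < p − 1 and G″ ≠ G′ then G″ has order 1 + n·p and G′ has order p·(1 + n·p). -/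
theorem result {G : Type*} [Group G] [Finite G] (p : ℕ) (hp : p.Prime) (x : G) (hx : orderOf x = p) (hC : Subgroup.centralizer ({x} : Set G) = Subgroup.zpowers x) (t : ℕ) (ht : Nat.card {C : ConjClasses G // ∃ g ∈ C.carrier, orderOf g = p} = t) (n : ℕ) (hn : Nat.card {H : Subgroup G // Nat.card H = p} = 1 + n * p) : ((∃ S : Subgroup G, S.Normal ∧ Nat.card S = 1 + n * p) ↔ (t = p - 1 ∨ (t < p - 1 ∧ derivedSeries G 2 ≠ derivedSeries G 1))) ∧ (t = p - 1 → Nat.card (commutator G) = 1 + n * p ∧ IsCyclic (G ⧸ commutator G) ∧ (commutator G).index = p) ∧ (t < p - 1 → derivedSeries G 2 ≠ derivedSeries G 1 → Nat.card (derivedSeries G 2) = 1 + n * p ∧ Nat.card (commutator G) = p * (1 + n * p)) := by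
  have h : SC p x := ⟨hp, hx, hC⟩
  have : Fact p.Prime := ⟨hp⟩
  have h1 := h.classes_mul_ee
  rw [ht] at h1
  have h2 := hp.two_le
  rw [card_subgroups_eq h.syl] at hn
  have hG := h.card_eq
  rw [hn] at hG
  have e1 : derivedSeries G 1 = commutator G := rfl
  have e2 : derivedSeries G 2 = ⁅commutator G, commutator G⁆ := rfl
  have hA : t = p - 1 → Nat.card (commutator G) = 1 + n * p ∧ IsCyclic (G ⧸ commutator G) ∧
      (commutator G).index = p := by
    intro h3
    rw [h3] at h1
    have h4 : ee x = 1 :=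
      Nat.eq_of_mul_eq_mul_left (by omega : 0 < p - 1) (h1.trans (mul_one _).symm)
    have h5 := (h.commutator_of_ee h4).1
    refine ⟨?_, isCyclic_of_prime_card (p := p) h5, h5⟩
    have h6 := (commutator G).card_mul_index
    rw [h5, hG, h4] at h6
    exact Nat.eq_of_mul_eq_mul_right hp.pos (h6.trans (by ring))
  have hB : t < p - 1 → derivedSeries G 2 ≠ derivedSeries G 1 →
      Nat.card (derivedSeries G 2) = 1 + n * p ∧ Nat.card (commutator G) = p * (1 + n * p) := by
    intro h3 h4
    rw [e1, e2] at h4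
    have h5 : ee x ≠ 1 := fun h => h3.ne (by rw [← h1, h, mul_one])
    have hxL := mem_commutator_of_ee h.syl h5
    have hL := h.subgroup hxL
    have h6 : ¬ p ∣ Nat.card (⁅commutator G, commutator G⁆ : Subgroup G) := fun h6 =>
      h4 (le_antisymm (commutator_le_left _ _) (h.commutator_le _ h6))
    have h7 : ee (⟨x, hxL⟩ : commutator G) = 1 := by
      by_contra h7
      refine notMem_of_not_dvd h.syl h6 ?_
      rw [← map_subtype_commutator]
      exact ⟨_, mem_commutator_of_ee hL.syl h7, rfl⟩
    have h8 := hL.card_eq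
    rw [h7, CfsgLib.PSL2Rec.card_sylow_of_forall_le, hn, mul_one] at h8
    · refine ⟨?_, h8⟩
      have h9 := (commutator (commutator G)).card_mul_index
      rw [(hL.commutator_of_ee h7).1, h8, mul_comm p] at h9
      rw [e2, ← map_subtype_commutator, card_map_of_injective (subtype_injective _)]
      exact Nat.eq_of_mul_eq_mul_right hp.pos h9
    · intro P
      obtain ⟨y, hy, hP⟩ := syl_of_sylow P (card_sylow_eq_p h.syl P)
      rw [hP, zpowers_le]
      exact mem_of_normal hy _ (hx ▸ orderOf_dvd_natCard _ hxL)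
  refine ⟨⟨?_, ?_⟩, hA, hB⟩
  · rintro ⟨S, hS, hSc⟩
    by_cases h3 : t = p - 1
    · exact Or.inl h3
    have h5 : ee x ≠ 1 := fun h => h3 (by rw [← h1, h, mul_one])
    have h6 : ¬ p ∣ Nat.card S := by
      rw [hSc]
      exact fun h => hp.ne_one (Nat.dvd_one.1 ((Nat.dvd_add_left (dvd_mul_left p n)).1 h))
    refine Or.inr ⟨lt_of_le_of_ne (h1 ▸ Nat.le_mul_of_pos_right t (ee_pos x)) h3, fun h7 => ?_⟩
    rw [e1, e2] at h7
    let f := QuotientGroup.mk' S
    have hinj : Function.Injective (f.comp (NN x).subtype) := by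
      rw [injective_iff_map_eq_one]
      exact fun a ha => Subtype.ext (h.eq_one_of_mem_NN h6 a.2 ((QuotientGroup.eq_one_iff _).1 ha))
    have hsurj : Function.Surjective (f.comp (NN x).subtype) := by
      refine (hinj.bijective_of_nat_card_le (le_of_eq ?_)).2
      have h8 := S.card_mul_index
      rw [hG, hSc, mul_comm, ← h.card_NN] at h8
      exact Nat.eq_of_mul_eq_mul_right (by omega) h8
    have h8 : (commutator G).map f ≤ zpowers (f x) := by
      rw [map_le_iff_le_comap, commutator_def, commutator_le]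
      intro a _ b _
      obtain ⟨a', ha⟩ := hsurj (f a)
      obtain ⟨b', hb⟩ := hsurj (f b)
      rw [mem_comap, map_commutatorElement, ← ha, ← hb, ← map_commutatorElement,
        ← MonoidHom.map_zpowers]
      exact ⟨⁅(a' : G), (b' : G)⁆, h.cent ▸ commutator_mem_CC h.syl a'.2 b'.2, rfl⟩
    have h9 : (⁅commutator G, commutator G⁆ : Subgroup G).map f = ⊥ := by
      rw [map_commutator, eq_bot_iff]
      refine (commutator_mono h8 h8).trans (le_of_eq ?_)
      rw [commutator_eq_bot_iff_le_centralizer]
      exact le_centralizer _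
    rw [h7, Subgroup.map_eq_bot_iff, QuotientGroup.ker_mk'] at h9
    exact notMem_of_not_dvd h.syl h6 (h9 (mem_commutator_of_ee h.syl h5))
  · rintro (h3 | ⟨h3, h4⟩)
    · exact ⟨_, inferInstance, (hA h3).1⟩
    · exact ⟨_, derivedSeries_normal G 2, (hB h3 h4).1⟩

end Cfsg.Agent.S4509
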