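import Mathlib
import Cfsg.Statements.S4520
import Cfsg.Agent.Lib.Cover.Graded
import Cfsg.Agent.Lib.Block.Real

set_option autoImplicit false
open Cfsg

namespace Cfsg.Agent.S4520

open CfsgLib CfsgLib.Cover CfsgLib.Block CfsgLib.Char in

/-- Let N be a normal subgroup of odd index in the finite group G, M a maximal ideal of the algebraic integers containing 2, and k coprime to the order of G with k ^ (2 ^ e) ≡ 1 modulo the order of G for some e and g ^ k = g⁻¹ for every element g of odd order. Let θ be an irreducible character of N and χ an irreducible character of G over θ, both unchanged by composing with g ↦ g ^ k. Then χ lies in the principal 2-block of G if and only if θ lies in the principal 2-block of N. -/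
theorem result {G : Type*} [Group G] [Fintype G] (M : Ideal Cfsg.AlgInt) (hM : Cfsg.IsPModular 2 M) (N : Subgroup G) [N.Normal] [Fintype N] (hidx : Odd N.index) (k e : ℕ) (hk : Nat.Coprime k (Nat.card G)) (hke : k ^ (2 ^ e) ≡ 1 [MOD Nat.card G]) (hk₂ : ∀ g : G, Odd (orderOf g) → g ^ k = g⁻¹) (θ : Cfsg.IrrCharacter N) (hθ : ∀ n : N, (θ : N → ℂ) (n ^ k) = (θ : N → ℂ) n) (χ : Cfsg.IrrCharacter G) (hχ : ∀ g : G, (χ : G → ℂ) (g ^ k) = (χ : G → ℂ) g) (hover : Cfsg.classInner (fun n : N => (χ : G → ℂ) n) (θ : N → ℂ) ≠ 0) : χ ∈ Cfsg.principalBlock M G ↔ θ ∈ Cfsg.principalBlock M N := by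
  constructor
  · intro h
    have hcov : Covers N (principalBlock M G) (principalBlock M N) :=
      ⟨irrOne G, irrOne_mem_principalBlock hM, irrOne N, irrOne_mem_principalBlock hM, by
        rw [irrOne_coe, irrOne_coe, classInner_one_one]; exact one_ne_zero⟩
    obtain ⟨g, φ, hφ, rfl⟩ := exists_conj_mem_of_covers N hM isPBlock_principalBlock
      isPBlock_principalBlock hcov h hover
    have := sameBlock_conjIrr N g (θ := irrOne N) hφ
    rwa [conjIrr_irrOne] at this
  · intro h
    have hB := isPBlock_blockOf (M := M) χ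
    have hχB := mem_blockOf_self hM χ
    obtain ⟨P, hP⟩ := exists_isDefectGroup hM hB
    have h1 := card_inf_eq_of_covers N hM hB isPBlock_principalBlock ⟨χ, hχB, θ, h, hover⟩ hP
    have h2 := Subgroup.card_le_of_le (inf_le_left : P ⊓ N ≤ P)
    rw [h1, card_eq_pow_blockDefect hM hB hP, Nat.pow_le_pow_iff_right one_lt_two,
      blockDefect_principalBlock hM] at h2
    rw [← eq_principalBlock_of_inv hM hB (le_antisymm (blockDefect_le _) ?_) hχB fun g hg => ?_]
    · exact hχB
    · rwa [factorization_card_eq_add N,
        Nat.factorization_eq_zero_of_not_dvd hidx.not_two_dvd_nat, add_zero]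
    · rw [centralChar, centralChar, centralizer_singleton_inv,
        ← hk₂ g (Nat.not_even_iff_odd.1 fun h => hg h.two_dvd), hχ, sub_self]
      exact li_zero hM

end Cfsg.Agent.S4520
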