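import Mathlib
import Cfsg.Statements.S4521
import Cfsg.Agent.Lib.Cover.Dade
import Cfsg.Agent.Lib.Block.Pair

set_option autoImplicit false
open Cfsg

namespace Cfsg.Agent.S4521

open CfsgLib CfsgLib.Cover CfsgLib.Block CfsgLib.Char CfsgLib.Fusion in

/-- Let the finite group G be generated by subgroups U₁ and U₂ that commute elementwise and whose intersection is a p-group, and let M be a maximal ideal of the algebraic integers containing the prime p. If the irreducible character χ of G has the irreducible constituents ψ₁ on U₁ and ψ₂ on U₂, then χ lies in the principal block of G if and only if ψ₁ and ψ₂ lie in the principal blocks of U₁ and U₂. -/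
theorem result {G : Type*} [Group G] [Fintype G] (p : ℕ) [Fact p.Prime] (M : Ideal Cfsg.AlgInt) (hM : Cfsg.IsPModular p M) (U₁ U₂ : Subgroup G) [Fintype U₁] [Fintype U₂] (hcomm : ∀ u ∈ U₁, ∀ v ∈ U₂, u * v = v * u) (hgen : U₁ ⊔ U₂ = ⊤) (hZ : IsPGroup p ↥(U₁ ⊓ U₂)) (χ : Cfsg.IrrCharacter G) (ψ₁ : Cfsg.IrrCharacter U₁) (ψ₂ : Cfsg.IrrCharacter U₂) (h₁ : Cfsg.classInner (fun u : U₁ => (χ : G → ℂ) u) (ψ₁ : U₁ → ℂ) ≠ 0) (h₂ : Cfsg.classInner (fun u : U₂ => (χ : G → ℂ) u) (ψ₂ : U₂ → ℂ) ≠ 0) : χ ∈ Cfsg.principalBlock M G ↔ (ψ₁ ∈ Cfsg.principalBlock M U₁ ∧ ψ₂ ∈ Cfsg.principalBlock M U₂) := by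
  have hC : ∀ {U V : Subgroup G}, (∀ u ∈ U, ∀ v ∈ V, u * v = v * u) → U ⊔ V = ⊤ → U.Normal := by
    intro U V h h'
    rw [← Subgroup.normalizer_eq_top_iff, eq_top_iff, ← h']
    exact sup_le Subgroup.le_normalizer
      ((show V ≤ BrPair.Cz U from fun v hv => BrPair.mem_Cz.2 fun u hu => h u hu v hv).trans
        (BrPair.Cz_le_Nz U))
  haveI hn₁ : U₁.Normal := hC hcomm hgen
  haveI hn₂ : U₂.Normal := hC (fun u hu v hv => (hcomm v hv u hu).symm) (by rw [sup_comm, hgen])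
  refine ⟨fun h => ⟨mem_principal_of_under hM U₁ h h₁, mem_principal_of_under hM U₂ h h₂⟩,
    fun ⟨hψ₁, hψ₂⟩ => ?_⟩
  refine mem_of_sameBlock hM isPBlock_principalBlock (irrOne_mem_principalBlock hM)
    (sameBlock_symm (sameBlock_of_pRegular hM fun g hg => ?_))
  obtain ⟨a, m, hm, hG⟩ := Nat.exists_eq_pow_mul_and_not_dvd (Nat.card_pos (α := G)).ne' p
    hM.1.ne_one
  obtain ⟨s, hs, t, ht, hsr, htr, rfl⟩ : ∃ s ∈ U₁, ∃ t ∈ U₂, ¬ p ∣ orderOf s ∧ ¬ p ∣ orderOf t ∧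
      g = s * t := by
    obtain ⟨k, hk⟩ := exists_pow_eq_self_of_coprime
      (((Nat.Prime.coprime_iff_not_dvd hM.1).2 hg).pow_left a)
    have hg' : g ∈ ((U₁ ⊔ U₂ : Subgroup G) : Set G) := by rw [hgen]; trivial
    rw [Subgroup.normal_mul] at hg'
    obtain ⟨u, hu, v, hv, rfl⟩ := hg'
    have hr : ∀ x : G, ¬ p ∣ orderOf ((x ^ p ^ a) ^ k) := fun x h => hm (h.trans
      (orderOf_dvd_of_pow_eq_one (by
        rw [← pow_mul, mul_comm k, pow_mul, ← pow_mul x, ← hG, pow_card_eq_one', one_pow])))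
    refine ⟨(u ^ p ^ a) ^ k, pow_mem (pow_mem hu _) _, (v ^ p ^ a) ^ k, pow_mem (pow_mem hv _) _,
      hr u, hr v, ?_⟩
    have hc : Commute u v := hcomm u hu v hv
    rw [← ((hc.pow_pow _ _).mul_pow), ← hc.mul_pow]
    exact hk.symm
  have hdec : ∀ x : G, ∃ u ∈ U₁, ∃ v ∈ U₂, u * v = x := fun x => by
    have hg' : x ∈ ((U₁ ⊔ U₂ : Subgroup G) : Set G) := by rw [hgen]; trivial
    rwa [Subgroup.normal_mul] at hg'
  have key : classSum ℂ s * classSum ℂ t = classSum ℂ (s * t) := by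
    refine ga_ext fun h => ?_
    by_cases hh : IsConj (s * t) h
    · rw [coeff_classSum_of_isConj hh, ← coeff_eq_of_isConj (classSum_mul_mem_Z s t) hh,
        coeff_classSum_mul, Nat.cast_eq_one, pairN, Nat.card_eq_one_iff_exists]
      refine ⟨⟨s, IsConj.refl s, by rw [inv_mul_cancel_left]⟩, ?_⟩
      rintro ⟨x, hx, hx'⟩
      refine Subtype.ext ?_
      obtain ⟨c, rfl⟩ := isConj_iff.1 hx
      obtain ⟨d, hd⟩ := isConj_iff.1 hx'
      have h1 : s⁻¹ * (c * s * c⁻¹) ∈ U₁ := mul_mem (inv_mem hs) (hn₁.conj_mem s hs c)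
      have h2 : s⁻¹ * (c * s * c⁻¹) ∈ U₂ := by
        have := mul_mem ht (inv_mem (hn₂.conj_mem t ht d))
        rw [hd] at this
        convert this using 1
        group
      have h3 := eq_one_of_not_dvd_mul hM.1 hZ hsr (⟨h1, h2⟩ : _ ∈ U₁ ⊓ U₂) (hcomm s hs _ h2)
        (by rwa [mul_inv_cancel_left, Block.orderOf_conj'])
      exact (inv_mul_eq_one.1 h3).symm
    · rw [coeff_classSum_of_not_isConj hh, coeff_classSum_mul, Nat.cast_eq_zero]
      refine pairN_eq_zero fun x hx hx' => hh ?_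
      obtain ⟨c, rfl⟩ := isConj_iff.1 hx
      obtain ⟨d, hd⟩ := isConj_iff.1 hx'
      obtain ⟨u, hu, v, hv, rfl⟩ := hdec c
      obtain ⟨u', hu', v', hv', rfl⟩ := hdec d
      refine isConj_iff.2 ⟨u * v', ?_⟩
      have e1 : u * v * s * (u * v)⁻¹ = u * s * u⁻¹ := by
        rw [mul_assoc u, ← hcomm s hs v hv]; group
      have e2 : u' * v' * t * (u' * v')⁻¹ = v' * t * v'⁻¹ := by
        rw [mul_inv_rev, ← mul_assoc, mul_assoc u', mul_assoc u',
          hcomm u' hu' _ (hn₂.conj_mem t ht v'), mul_inv_cancel_right]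
      rw [e1, e2, eq_inv_mul_iff_mul_eq] at hd
      rw [← hd, mul_assoc (u * s), ← hcomm u⁻¹ (inv_mem hu) _ (hn₂.conj_mem t ht v') |>.symm,
        mul_assoc u v', ← mul_assoc v', ← hcomm s hs v' hv']
      group
  have hsupp : ∀ {U : Subgroup G} [U.Normal] {x : G}, x ∈ U → BrPair.Supp U (classSum ℂ x) := by
    intro U hU x hx y hy
    refine coeff_classSum_of_not_isConj fun h => hy ?_
    obtain ⟨c, rfl⟩ := isConj_iff.1 h
    exact hU.conj_mem x hx c
  have a1 := li_om_sub_aug hM hψ₁ ⟨hsupp hs, fixed_of_mem_Z (classSum_mem_Z s) _⟩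
    (classSum_mem_OG hM s)
  have a2 := li_om_sub_aug hM hψ₂ ⟨hsupp ht, fixed_of_mem_Z (classSum_mem_Z t) _⟩
    (classSum_mem_OG hM t)
  rw [← omega_eq_om h₁ (classSum_mem_Z s) (hsupp hs)] at a1
  rw [← omega_eq_om h₂ (classSum_mem_Z t) (hsupp ht)] at a2
  rw [← omega_classSum (irr_isClassFunction χ), ← omega_classSum (irr_isClassFunction _), ← key,
    omega_irrOne, omega_mul χ.2 (classSum_mem_Z s), map_mul]
  have := li_add hM (li_mul_right hM a1 (lr_omega hM χ.2 (classSum_mem_Z t) (classSum_mem_OG hM t)))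
    (li_mul_left hM (lr_aug hM (classSum_mem_OG hM s)) a2)
  convert this using 1
  ring

end Cfsg.Agent.S4521
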