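import Mathlib
import Cfsg.Statements.S4531
import Cfsg.Agent.Lib.Tame.Main
import Cfsg.Agent.Lib.Tame.Solv
import Cfsg.Agent.Lib.PLocal.PSolvable
-- import your own Cfsg.Agent.* helpers here

set_option autoImplicit false
open Cfsg

namespace Cfsg.Agent.S4531

open CfsgLib CfsgLib.Tame CfsgLib.Star CfsgLib.Char CfsgLib.Blk Subgroup

/-- Let the finite group G have a 2-block B (relative to a maximal ideal M of the algebraic integers containing 2) of 2-regular rank three (three irreducible Brauer characters) whose defect group D is dihedral of order 2 ^ n with n ≥ 3 or semidihedral. Then the centre of G has odd order and G is not solvable. -/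
theorem result {G : Type*} [Group G] [Finite G] (M : Ideal Cfsg.AlgInt) (hM : Cfsg.IsPModular 2 M) (B : Set (Cfsg.IrrCharacter G)) (hB : Cfsg.IsPBlock M B) (D : Subgroup G) (hD : Cfsg.IsDefectGroup 2 M B D) (hD' : (∃ n : ℕ, 3 ≤ n ∧ Nonempty (D ≃* DihedralGroup (2 ^ (n - 1)))) ∨ Cfsg.IsQuasiDihedral D) (hl : Cfsg.blockRank 2 B = 3) : Odd (Nat.card (Subgroup.center G)) ∧ ¬ Group.IsSolvable G := by
  classical
  have := Fintype.ofFinite G
  have := fun u : G => Fintype.ofFinite (Cu u)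
  obtain ⟨m, r, x, y, i, hm, T, hy, h1, h2⟩ : ∃ (m : ℕ) (r : ℤ) (x y : G) (i : ℤ), 2 ≤ m ∧
      Tm D m r x y ∧ y * y = 1 ∧ x ^ i * y * (x ^ i * y) = 1 ∧ ¬ (m : ℤ) ∣ i := by
    rcases hD' with ⟨n, hn, ⟨f⟩⟩ | hsd
    · obtain ⟨k, rfl⟩ : ∃ k, n = k + 2 := ⟨n - 2, by omega⟩
      obtain ⟨x, y, T, h0⟩ := exists_tm_dih (k := k) f
      have hm : 2 ≤ 2 ^ k := Nat.le_self_pow (by omega) 2
      exact ⟨_, _, x, y, 1, hm, T, h0 y T.y_mem T.notMem, h0 _ (T.xy_mem 1) (T.xy_notMem 1),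
        fun h => by have := Int.le_of_dvd one_pos h; omega⟩
    · obtain ⟨m, x, y, hm, T, hy, -⟩ := exists_tm_qd hsd
      obtain ⟨g, -, hg⟩ := T.exists_conj_even T.y_mem T.notMem 1
      exact ⟨m, _, x, y, 2 * 1, by omega, T, hy, hg ▸ conj_mul_self.2 hy,
        fun h => by have := Int.le_of_dvd (by omega) h; omega⟩
  obtain ⟨e, h⟩ := exists_maxPair hM hB hD
  refine ⟨odd_center h T hm hB hl hy, fun hs => ?_⟩
  obtain ⟨H, _, _, ι, b, P, hι, hb, hP, ⟨f⟩, hr⟩ :=
    exists_sylow_red hM PLocal.PSolv.of_isSolvable hB hD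
  have := Fintype.ofFinite H
  have := fun u : H => Fintype.ofFinite (Cu u)
  let φ : D →* H := (P : Subgroup H).subtype.comp f.symm.toMonoidHom
  have hφ : Function.Injective φ := Subtype.val_injective.comp f.symm.injective
  have T' := (T.subgroupOf le_rfl).map φ fun g _ hg => hφ (hg.trans (map_one φ).symm)
  rw [subgroupOf_self, ← MonoidHom.range_eq_map, MonoidHom.range_comp,
    MonoidHom.range_eq_top.2 f.symm.surjective, ← MonoidHom.range_eq_map, range_subtype] at T'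
  obtain ⟨e', h'⟩ := exists_maxPair hM hb hP
  have hy' : φ ⟨y, T.y_mem⟩ * φ ⟨y, T.y_mem⟩ = 1 := by
    rw [← map_mul, ← map_one φ]; exact congrArg φ (Subtype.ext hy)
  have h1' : φ ⟨x, T.x_mem⟩ ^ i * φ ⟨y, T.y_mem⟩ * (φ ⟨x, T.x_mem⟩ ^ i * φ ⟨y, T.y_mem⟩) = 1 := by
    rw [← map_zpow, ← map_mul, ← map_mul, ← map_one φ]; exact congrArg φ (Subtype.ext h1)
  have h3 := commute_of_isConj_z (solvable_of_solvable_injective hι) P T' hm T'.y_mem (T'.xy_mem i)
    (isConj_z h' T' hm hb (hr.trans hl) T'.y_mem T'.notMem hy')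
    (isConj_z h' T' hm hb (hr.trans hl) (T'.xy_mem i) (T'.xy_notMem i) h1')
  refine h2 (T'.sq_eq_one_iff.1 ?_)
  rw [mul_assoc, h3, mul_assoc, hy', mul_one] at h1'
  exact h1'

end Cfsg.Agent.S4531
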