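import Mathlib
import Cfsg.Statements.S4534
import Cfsg.Agent.Lib.SymChar.Rank
-- import your own Cfsg.Agent.* helpers here

set_option autoImplicit false
open Cfsg

namespace Cfsg.Agent.S4534

open CfsgLib.SymChar CfsgLib.Block

/-- Let B be a p-block of a finite symmetric group (relative to a maximal ideal M of the algebraic integers containing p) with a nontrivial defect group D all of whose sections have p-rank at most s. Then the p-regular rank of B is less than p ^ s. -/
theorem result (n : ℕ) (p : ℕ) [Fact p.Prime] (M : Ideal Cfsg.AlgInt) (hM : Cfsg.IsPModular p M) (B : Set (Cfsg.IrrCharacter (Equiv.Perm (Fin n)))) (hB : Cfsg.IsPBlock M B) (D : Subgroup (Equiv.Perm (Fin n))) (hD : Cfsg.IsDefectGroup p M B D) (hD1 : D ≠ ⊥) (s : ℕ) (hs : Cfsg.SectionalPRankLE p s D) : Cfsg.blockRank p B < p ^ s := by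
  have hp := hM.1
  obtain ⟨χ, hχ⟩ : B.Nonempty := by
    obtain ⟨χ, rfl⟩ := hB
    exact ⟨χ, mem_blockOf.2 (sameBlock_refl hM _)⟩
  obtain ⟨β, h⟩ := exists_lab (N := Fintype.card (Fin n) + p) (by omega) χ
  obtain ⟨T, h1, h2, h3⟩ := h.exists_sylIn hM le_rfl hB hD hχ
  have h4 := h.blockRank_le hM (by omega) hB hχ
  refine lt_of_lt_of_le ?_ (pow_le_of_sectional h2 h1.ge D.subtype_injective (by simp) hs)
  obtain ⟨w, hw⟩ : ∃ w, hk p β = w + 1 := Nat.exists_eq_succ_of_ne_zero fun h0 =>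
    hD1 ((blockDefect_eq_zero_iff_eq_bot hM hB hD).1 (by simp [h3, h0]))
  rw [hw] at h4 ⊢
  refine (h4.trans (cc_le _ _)).trans_lt ?_
  rw [Finset.card_erase_of_mem (Finset.mem_univ _), Finset.card_univ, ZMod.card,
    Nat.sub_add_cancel hp.pos, pow_succ']
  exact Nat.mul_lt_mul_of_pos_right (Nat.sub_lt hp.pos one_pos) (pow_pos hp.pos _)

end Cfsg.Agent.S4534
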