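import Mathlib
import Cfsg.Statements.S4535
import Cfsg.Agent.Lib.SymChar.AltBlk
import Cfsg.Agent.Lib.Cyc.Bound
-- import your own Cfsg.Agent.* helpers here

set_option autoImplicit false
open Cfsg

namespace Cfsg.Agent.S4535

open CfsgLib.SymChar CfsgLib.Block CfsgLib.Blk CfsgLib.Char CfsgLib.Cover

theorem lt_pow_aux {s w : ℕ} (hs : 1 ≤ s) (hw : 2 ≤ w) (h : s = 1 ∨ 2 ≤ s) :
    s * (w + 1) < (s + 1) ^ w := by
  induction w, hw using Nat.le_induction with
  | base => rcases h with rfl | h <;> nlinarith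
  | succ w hw ih =>
    have h1 : w + 1 + 1 ≤ (w + 1) * (s + 1) := by nlinarith
    rw [pow_succ]
    exact (Nat.mul_le_mul_left s h1).trans_lt
      (by rw [← mul_assoc]; exact Nat.mul_lt_mul_of_pos_right ih s.succ_pos)

/-- Let B be a p-block of a finite alternating group (relative to a maximal ideal M of the algebraic integers containing p) with a nontrivial defect group D all of whose sections have p-rank at most s. Then the p-regular rank of B is less than p ^ s. -/
theorem result (n : ℕ) (p : ℕ) [Fact p.Prime] (M : Ideal Cfsg.AlgInt) (hM : Cfsg.IsPModular p M) (B : Set (Cfsg.IrrCharacter (alternatingGroup (Fin n)))) (hB : Cfsg.IsPBlock M B) (D : Subgroup (alternatingGroup (Fin n))) (hD : Cfsg.IsDefectGroup p M B D) (hD1 : D ≠ ⊥) (s : ℕ) (hs : Cfsg.SectionalPRankLE p s D) : Cfsg.blockRank p B < p ^ s := by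
  have hp := hM.1
  obtain ⟨B', P, χ, β, T, hB', hc, hP, hχ, h, h1, h2, h3, h4, h5⟩ := exists_setup hM hB hD
  have hd : blockDefect p B ≠ 0 := fun h => hD1 ((blockDefect_eq_zero_iff_eq_bot hM hB hD).1 h)
  have hι : Function.Injective ((alternatingGroup (Fin n)).subtype.comp D.subtype) :=
    (Subgroup.subtype_injective _).comp (Subgroup.subtype_injective _)
  have small : blockDefect p B ≤ 2 → blockRank p B < p ^ blockDefect p B := fun h =>
    ((blockRank_le_card B).lt_of_ne fun e => hd (defect_zero_of_card_eq_rank hM hB e.symm)).trans_le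
      (CfsgLib.Cyc.card_le_of_defect_le_two hM hB h)
  rcases subsingleton_or_nontrivial (Fin n) with _ | _
  · exact absurd (Subsingleton.elim _ _) hD1
  have h6 := blockRank_le_two_mul alternatingGroup.index_eq_two hM hB' hB hc
  have h7 := h.blockRank_le hM (by omega) hB' hχ
  have h8 : (Finset.univ.erase (0 : ZMod p)).card + 1 = p := by
    rw [Finset.card_erase_add_one (Finset.mem_univ _), Finset.card_univ, ZMod.card]
  have big : ∀ w, 2 ≤ w → 2 * cc (Finset.univ.erase (0 : ZMod p)) (w + 1) <
      (p - 1) * p ^ w + p ^ w := fun w hw => by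
    have := two_mul_cc_le (Finset.univ.erase (0 : ZMod p)) w
    have h9 := lt_pow_aux (s := p - 1) (by have := hp.two_le; omega) hw (by have := hp.two_le; omega)
    rw [h8, show (Finset.univ.erase (0 : ZMod p)).card = p - 1 by omega] at this
    rw [Nat.sub_add_cancel hp.pos] at h9
    omega
  generalize hw : hk p β = w at h1 h3 h7
  rcases eq_or_ne p 2 with rfl | hp2
  · have h9 := h5 rfl
    have h10 := four_pow_le_of_sectional h2 (m := w / 2) (by omega) hι hP.ge hs
    rw [show 4 = 2 ^ 2 from rfl, ← pow_mul] at h10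
    refine lt_of_lt_of_le ?_ h10
    rcases w with _ | _ | _ | w
    · simp [h3] at h9; omega
    · simp [h3] at h9; omega
    · have : blockDefect 2 B = 2 := by
        rw [h9, h3, show Nat.factorial (0 + 1 + 1) = 2 from rfl, hp.factorization_self]
      simpa [this] using small this.le
    have h11 := big (w + 2) (by omega)
    rcases Nat.even_or_odd w with ⟨v, rfl⟩ | ⟨v, rfl⟩
    · have h12 : blockRank 2 B ≤ blockRank 2 B' := blockRank_le_of_res fun θ hθ => by
        obtain ⟨ψ, hψ, h12⟩ := exists_over_of_covers _ hM hB' hB hc hθ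
        obtain ⟨γ, hγ⟩ := exists_lab (N := Fintype.card (Fin n) + 2 * 2) (by omega) ψ
        refine ⟨ψ, hψ, irr_eq_of_classInner_ne_zero (hγ.isIrr_res_of_odd ?_) θ.2 h12⟩
        rw [(h.sim hM (by omega) hγ (sameBlock_of_mem hM hB' hχ hψ)).hk_eq hp.pos h.good hγ.good
          (hγ.lvl_eq.trans h.lvl_eq.symm), hw]
        exact ⟨v + 1, by ring⟩
      rw [show 2 * ((v + v + 1 + 1 + 1) / 2) = v + v + 2 by omega]
      change 2 * cc _ (v + v + 1 + 1 + 1) < _ at h11
      omega
    · rw [show 2 * ((2 * v + 1 + 1 + 1 + 1) / 2) = 2 * v + 1 + 2 + 1 by omega, pow_succ 2 (2 * v + 1 + 2)]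
      change 2 * cc _ (2 * v + 1 + 1 + 1 + 1) < _ at h11
      omega
  obtain ⟨h9, h10⟩ := h4 hp2
  refine lt_of_lt_of_le ?_ (pow_le_of_sectional h2 h1.ge hι (hP ▸ le_inf le_rfl h9) hs)
  rcases le_or_gt w 2 with h11 | h11
  · rw [Nat.factorization_factorial_eq_zero_of_lt (by have := hp.two_le; omega), ← h10] at h3
    simpa [h3] using small (by omega)
  · obtain ⟨w, rfl⟩ : ∃ v, w = v + 1 := ⟨w - 1, by omega⟩
    have h12 := big w (by omega)
    rw [← add_one_mul, Nat.sub_add_cancel hp.one_le, ← pow_succ'] at h12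
    omega

end Cfsg.Agent.S4535
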