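import Mathlib
import Cfsg.Statements.S4542
import Cfsg.Agent.Lib.KB.Main
-- import your own Cfsg.Agent.* helpers here

set_option autoImplicit false
open Cfsg

namespace Cfsg.Agent.S4542

open CfsgLib.KB CfsgLib.Blk CfsgLib

/-- Let B be a p-block of the finite group G (relative to a maximal ideal M of the algebraic integers containing p) with defect group D, and suppose D has a cyclic subgroup Z, central in D, of index at most 16 in D. Then B contains at most as many irreducible characters as D has elements (Brauer's k(B) bound holds for B); in particular this covers every 2-block of defect at most 5. -/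
theorem result {G : Type*} [Group G] [Finite G] (p : ℕ) [Fact p.Prime] (M : Ideal Cfsg.AlgInt) (hM : Cfsg.IsPModular p M) (B : Set (Cfsg.IrrCharacter G)) (hB : Cfsg.IsPBlock M B) (D : Subgroup G) (hD : Cfsg.IsDefectGroup p M B D) (Z : Subgroup G) (hZD : Z ≤ D) (hZc : ∀ z ∈ Z, ∀ d ∈ D, z * d = d * z) (hcyc : IsCyclic Z) (hidx : Z.relIndex D ≤ 16) : Nat.card B ≤ Nat.card D := by
  have := Fintype.ofFinite G
  have := fun u : G => Fintype.ofFinite (Cu u)
  obtain ⟨e, h⟩ := BrPair.exists_maxPair_of_isDef le_rfl BrPair.top_le_Nz_top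
    (BrPair.isBlk_eB hM hB) ((BrPair.isDefectGroup_iff hM hB).1 hD)
  obtain ⟨z, rfl⟩ := (Subgroup.isCyclic_iff_exists_zpowers_eq_top Z).1 hcyc
  have hz := Subgroup.mem_zpowers z
  refine card_le_sixteen h hB (hZD hz) (fun d hd => mem_Cu.2 (hZc z hz d hd)) ?_
  rw [← Nat.card_zpowers, ← Nat.card_congr (Subgroup.subgroupOfEquivOfLe hZD).toEquiv,
    ← ((Subgroup.zpowers z).subgroupOf D).index_mul_card]
  exact Nat.mul_le_mul_right _ hidx

end Cfsg.Agent.S4542
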