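import Mathlib
import Cfsg.Statements.S4543
import Cfsg.Agent.Lib.KB.Main3
-- import your own Cfsg.Agent.* helpers here

set_option autoImplicit false
open Cfsg

namespace Cfsg.Agent.S4543

open CfsgLib.KB CfsgLib.Blk CfsgLib

/-- Let B be a 2-block of the finite group G (relative to a maximal ideal M of the algebraic integers containing 2) whose defect group D has order at most 64 and is generated by two of its elements. Then B contains at most as many irreducible characters as D has elements. -/
theorem result {G : Type*} [Group G] [Finite G] (M : Ideal Cfsg.AlgInt) (hM : Cfsg.IsPModular 2 M) (B : Set (Cfsg.IrrCharacter G)) (hB : Cfsg.IsPBlock M B) (D : Subgroup G) (hD : Cfsg.IsDefectGroup 2 M B D) (hcard : Nat.card D ≤ 64) (hgen : ∃ x ∈ D, ∃ y ∈ D, Subgroup.closure ({x, y} : Set G) = D) : Nat.card B ≤ Nat.card D := by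
  have := Fintype.ofFinite G
  have := fun u : G => Fintype.ofFinite (Cu u)
  obtain ⟨e, h⟩ := Tame.exists_maxPair hM hB hD
  obtain ⟨x, -, y, -, hg⟩ := hgen
  exact card_le_of_two_gen h hB hcard hg

end Cfsg.Agent.S4543
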