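import Mathlib
import Cfsg.Statements.S4560
import Cfsg.Agent.Lib.SymChar.AltBlk
-- import your own Cfsg.Agent.* helpers here

set_option autoImplicit false
open Cfsg

namespace Cfsg.Agent.S4560

open CfsgLib.SymChar CfsgLib.Char Multiset

theorem key {n N p u k : ℕ} (hp : 0 < p) (κ : Fin N → ℤ) (c : Fin N) (hκ : Good κ)
    (h0 : ∀ c ∈ Finset.univ, (p : ℤ) ≤ κ c → ∃ d ∈ Finset.univ, κ d = κ c - p)
    (hc : ∀ d, κ d ≤ κ c) (hl : lvl κ + p * u = n) (hu : 0 < u) (hk0 : 0 < k)
    (hk2 : Even k) (h1 : ∀ e, e ≠ c → κ e < k ∨ ∃ d, d ≠ c ∧ κ d = κ e - k)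
    (h2 : k ≤ κ c + p ∧ ∀ d, d ≠ c → κ d + k < κ c + p) (μ : Multiset ℕ) (h3 : ∀ j ∈ μ, 0 < j) (h4 : μ.sum = n)
    (h5 : Even (n + μ.card)) (h6 : p * u < WW p μ) :
    ∃ χ : IrrCharacter (alternatingGroup (Fin n)), (∃ x : alternatingGroup (Fin n),
      ty (x : Equiv.Perm (Fin n)) = μ ∧ (χ : alternatingGroup (Fin n) → ℂ) x = 0) ∧
      ∃ ψ : IrrCharacter (Equiv.Perm (Fin n)), ∀ x : alternatingGroup (Fin n),
        (ψ : Equiv.Perm (Fin n) → ℂ) x = (χ : alternatingGroup (Fin n) → ℂ) x := by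
  have g := Top.good (p := p) (fun d _ => hc d) hκ u
  have hpu : (p : ℤ) ≤ p * u := by exact_mod_cast Nat.le_mul_of_pos_right p hu
  replace h2 : Good (κ + ee c (p * u) - ee c k) := g.move_sub c (by simp; omega) fun d hd => by
    have := h2.2 d hd
    simp only [Pi.add_apply, ee_self, ee_ne hd]
    omega
  replace h1 : ∀ e, e ≠ c → ¬ Good (κ + ee c (p * u) - ee e k) := fun e he g => by
    rcases h1 e he with h | ⟨d, hd, h⟩
    · have := g.nn e
      simp only [Pi.sub_apply, Pi.add_apply, ee_self, ee_ne he] at this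
      omega
    · have hde : d ≠ e := by rintro rfl; omega
      exact hde (g.inj (by simp [ee_ne he, ee_ne hd, ee_ne hde, h]))
  obtain ⟨ψ, hψ⟩ := g.exists_lab (Ω := Fin n) (by simp [lvl_add_ee, hl])
  have h7 := h2.lvl_nonneg
  rw [lvl_sub_ee, lvl_add_ee, hl] at h7
  have h8 := hψ.isIrr_res (μ := k ::ₘ replicate (n - k) 1)
    (by simp only [mem_cons, mem_replicate]; omega)
    (by simp only [Fintype.card_fin, card_cons, card_replicate, Nat.odd_iff, Nat.even_iff] at hk2 ⊢
        omega) (by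
    rw [XX_cons, Finset.sum_eq_single c (fun e _ he => XX_of_not_good (h1 e he) _) (by simp)]
    exact h2.XX_one_ne_zero (by rw [lvl_sub_ee, lvl_add_ee, hl]; omega))
  obtain ⟨σ, rfl⟩ := exists_ty (Ω := Fin n) h3 (by simpa using h4)
  refine ⟨⟨_, h8⟩, ⟨⟨σ, ?_⟩, rfl, by_contra fun h => ?_⟩, ψ, fun _ => rfl⟩
  · rw [Equiv.Perm.mem_alternatingGroup, sign_eq_ty, Fintype.card_fin, h5.neg_one_pow]
  · have := WW_le_of_XX hp ((hψ.ne_zero_iff σ).1 h)
    rw [hk_eq_of_lvl hp hκ g (fun i => by simpa using dvd_ee (dvd_mul_right _ _) c i)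
      (lvl_add_ee _ _ _), PackedOn.hk_eq h0, zero_add] at this
    omega

theorem WW_eq (p a b c : ℕ) : WW p (replicate a 4 + replicate b p + replicate c 1) =
    (if p ∣ 4 then a * 4 else 0) + b * p + (if p ∣ 1 then c else 0) := by
  have h : ∀ a j, WW p (replicate a j) = if p ∣ j then a * j else 0 := fun a j => by
    induction a with
    | zero => simp [WW_zero]
    | succ a ih =>
      rw [replicate_succ]
      split_ifs at ih ⊢ with h
      · rw [WW_cons_of_dvd h, ih]; ring
      · rw [WW_cons_of_not_dvd h, ih]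
  have h' : ∀ s t, WW p (s + t) = WW p s + WW p t := fun s t => by simp [WW]
  simp [h, h']

theorem two (n : ℕ) (hn : 7 ≤ n) : ∃ a b, 4 * a + 2 * b ≤ n ∧ n < 4 * a + 2 * b + 6 ∧
    (Odd n → n < 4 * a + 2 * b + 3) ∧ Even (a + b) := by
  obtain ⟨m, rfl | rfl | rfl | rfl⟩ : ∃ m, n = 4 * m + 8 ∨ n = 4 * m + 9 ∨ n = 4 * m + 10 ∨
    n = 4 * m + 7 := ⟨(n - 7) / 4, by omega⟩
  · exact ⟨0, 2 * m + 4, by omega, by omega, by omega, m + 2, by omega⟩
  · exact ⟨0, 2 * m + 4, by omega, by omega, by omega, m + 2, by omega⟩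
  · exact ⟨0, 2 * m + 4, by omega, by omega, by simp only [Nat.odd_iff]; omega, m + 2, by omega⟩
  · exact ⟨1, 2 * m + 1, by omega, by omega, by omega, m + 1, by omega⟩

/-- For n ≥ 7 the alternating group on n letters has an irreducible character that vanishes at some 2-element and is the restriction of an irreducible character of the symmetric group, and an irreducible character that vanishes at some element of order 3 and is the restriction of an irreducible character of the symmetric group. -/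
theorem result (n : ℕ) (hn : 7 ≤ n) : (∃ χ : Cfsg.IrrCharacter (alternatingGroup (Fin n)), (∃ x : alternatingGroup (Fin n), (∃ j : ℕ, orderOf x = 2 ^ j) ∧ (χ : alternatingGroup (Fin n) → ℂ) x = 0) ∧ ∃ ψ : Cfsg.IrrCharacter (Equiv.Perm (Fin n)), ∀ x : alternatingGroup (Fin n), (ψ : Equiv.Perm (Fin n) → ℂ) x = (χ : alternatingGroup (Fin n) → ℂ) x) ∧ (∃ χ : Cfsg.IrrCharacter (alternatingGroup (Fin n)), (∃ y : alternatingGroup (Fin n), orderOf y = 3 ∧ (χ : alternatingGroup (Fin n) → ℂ) y = 0) ∧ ∃ ψ : Cfsg.IrrCharacter (Equiv.Perm (Fin n)), ∀ x : alternatingGroup (Fin n), (ψ : Equiv.Perm (Fin n) → ℂ) x = (χ : alternatingGroup (Fin n) → ℂ) x) := by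
  constructor
  · obtain ⟨a, b, h1, h2, h3, h4⟩ := two n hn
    obtain ⟨χ, ⟨x, hx, h5⟩, h6⟩ : ∃ χ : IrrCharacter (alternatingGroup (Fin n)),
        (∃ x : alternatingGroup (Fin n), ty (x : Equiv.Perm (Fin n)) =
          replicate a 4 + replicate b 2 + replicate (n - (4 * a + 2 * b)) 1 ∧
          (χ : alternatingGroup (Fin n) → ℂ) x = 0) ∧
        ∃ ψ : IrrCharacter (Equiv.Perm (Fin n)), ∀ x : alternatingGroup (Fin n),
          (ψ : Equiv.Perm (Fin n) → ℂ) x = (χ : alternatingGroup (Fin n) → ℂ) x := by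
      have k1 : ∀ j ∈ replicate a 4 + replicate b 2 + replicate (n - (4 * a + 2 * b)) 1, 0 < j := by
        simp only [mem_add, mem_replicate]; omega
      have k2 : (replicate a 4 + replicate b 2 + replicate (n - (4 * a + 2 * b)) 1).sum = n := by
        simp; omega
      have k3 : Even (n + card (replicate a 4 + replicate b 2 +
          replicate (n - (4 * a + 2 * b)) 1)) := by
        simp only [card_add, card_replicate, Nat.even_iff] at h4 ⊢; omega
      obtain ⟨u, rfl | rfl⟩ : ∃ u, n = 6 + 2 * (u + 1) ∨ n = 3 + 2 * (u + 2) :=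
        ⟨(n - 7) / 2, by omega⟩
      · exact key (u := u + 1) (k := 2) two_pos ![5, 3, 1] 0 ⟨by decide, by decide⟩
          (by decide) (by decide) (by simp [lvl, del, Fin.sum_univ_three])
          (by omega) two_pos even_two (by decide) (by decide) _ k1 k2 k3 (by simp [WW_eq]; omega)
      · have := h3 ⟨u + 3, by ring⟩
        exact key (u := u + 2) (k := 2) two_pos ![3, 1] 0 ⟨by decide, by decide⟩
          (by decide) (by decide) (by simp [lvl, del, Fin.sum_univ_two])
          (by omega) two_pos even_two (by decide) (by decide) _ k1 k2 k3 (by simp [WW_eq]; omega)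
    refine ⟨χ, ⟨x, ?_, h5⟩, h6⟩
    rw [← Subgroup.orderOf_coe]
    refine ((Nat.dvd_prime_pow Nat.prime_two (m := 2)).1 (orderOf_dvd_iff_ty.2 ?_)).imp fun _ h => h.2
    simp only [hx, mem_add, mem_replicate]
    rintro _ ((⟨-, rfl⟩ | ⟨-, rfl⟩) | ⟨-, rfl⟩) <;> decide
  · obtain ⟨χ, ⟨x, hx, h5⟩, h6⟩ : ∃ χ : IrrCharacter (alternatingGroup (Fin n)),
        (∃ x : alternatingGroup (Fin n), ty (x : Equiv.Perm (Fin n)) =
          replicate 0 4 + replicate (n / 3) 3 + replicate (n % 3) 1 ∧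
          (χ : alternatingGroup (Fin n) → ℂ) x = 0) ∧
        ∃ ψ : IrrCharacter (Equiv.Perm (Fin n)), ∀ x : alternatingGroup (Fin n),
          (ψ : Equiv.Perm (Fin n) → ℂ) x = (χ : alternatingGroup (Fin n) → ℂ) x := by
      have k1 : ∀ j ∈ replicate 0 4 + replicate (n / 3) 3 + replicate (n % 3) 1, 0 < j := by
        simp only [mem_add, mem_replicate]; omega
      have k2 : (replicate 0 4 + replicate (n / 3) 3 + replicate (n % 3) 1).sum = n := by
        simp; omega
      have k3 : Even (n + card (replicate 0 4 + replicate (n / 3) 3 + replicate (n % 3) 1)) := by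
        simp only [card_add, card_replicate, Nat.even_iff]; omega
      obtain ⟨u, rfl | rfl | rfl⟩ : ∃ u, n = 4 + 3 * (u + 1) ∨ n = 5 + 3 * (u + 1) ∨
        n = 6 + 3 * (u + 1) := ⟨(n - 7) / 3, by omega⟩
      · exact key (u := u + 1) (k := 4) three_pos ![4, 1] 0 ⟨by decide, by decide⟩
          (by decide) (by decide) (by simp [lvl, del, Fin.sum_univ_two])
          (by omega) four_pos (by decide) (by decide) (by decide) _ k1 k2 k3 (by rw [WW_eq]; simp; omega)
      · exact key (u := u + 1) (k := 4) three_pos ![5, 2, 1] 0 ⟨by decide, by decide⟩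
          (by decide) (by decide) (by simp [lvl, del, Fin.sum_univ_three])
          (by omega) four_pos (by decide) (by decide) (by decide) _ k1 k2 k3 (by rw [WW_eq]; simp; omega)
      · exact key (u := u + 1) (k := 4) three_pos ![5, 2] 0 ⟨by decide, by decide⟩
          (by decide) (by decide) (by simp [lvl, del, Fin.sum_univ_two])
          (by omega) four_pos (by decide) (by decide) (by decide) _ k1 k2 k3 (by rw [WW_eq]; simp; omega)
    refine ⟨χ, ⟨x, ?_, h5⟩, h6⟩
    rw [← Subgroup.orderOf_coe]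
    refine Nat.dvd_antisymm (orderOf_dvd_iff_ty.2 ?_) ((dvd_orderOf_iff_WW Nat.prime_three _).2 ?_)
    · simp only [hx, mem_add, mem_replicate]
      rintro _ ((⟨h, -⟩ | ⟨-, rfl⟩) | ⟨-, rfl⟩) <;> simp_all
    · rw [hx, WW_eq]
      omega

end Cfsg.Agent.S4560
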