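import Cfsg.Statements.S4561
import Cfsg.Agent.Lib.ChMisc.PiChar
import Cfsg.Agent.Lib.ChDeg.Avg
import Cfsg.Agent.Lib.ChDeg.Cliff
import Cfsg.Agent.Lib.Core.MinNormal
import Mathlib.GroupTheory.RegularWreathProduct
import Mathlib.Analysis.SpecialFunctions.Complex.CircleAddChar

set_option autoImplicit false
universe u
open Cfsg

namespace Cfsg.Agent.S4561

open CfsgLib.Char CfsgLib.ChDeg CfsgLib.ChMisc
open scoped Classical

/-- the inductive invariant -/
def CT (G : Type u) [Group G] : Prop :=
  ∃ (H : Type u) (_ : Group H) (_ : Finite H) (χ : H → ℂ) (X : Type u) (_ : Group X) (ρ : H →* X)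
    (f : G →* X) (m : ℕ),
    IsIrrCharacter H χ ∧ Function.Surjective ρ ∧ charDegree χ ^ 2 = Nat.card X ∧
    Function.Injective f ∧ (∀ q : ℕ, q.Prime → q ∣ Nat.card H → q ∣ Nat.card G) ∧ Squarefree m ∧
    (∀ z, ρ z = 1 → ‖χ z‖ = ‖χ 1‖ ∧ z ^ m = 1) ∧
    (∀ q : ℕ, q.Prime → q ∣ Nat.card G → ∃ z, ρ z = 1 ∧ z ^ q = 1 ∧ χ z ≠ χ 1)

section step

variable (p : ℕ) [hp : Fact p.Prime]

/-- the pairing -/
noncomputable def beta (a c : Multiplicative (ZMod p)) : ℂ :=
  ZMod.stdAddChar (a.toAdd * c.toAdd)

theorem beta_mul_left (a b c : Multiplicative (ZMod p)) :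
    beta p (a * b) c = beta p a c * beta p b c := by
  simp only [beta, toAdd_mul, add_mul, AddChar.map_add_eq_mul]

theorem beta_mul_right (a b c : Multiplicative (ZMod p)) :
    beta p a (b * c) = beta p a b * beta p a c := by
  simp only [beta, toAdd_mul, mul_add, AddChar.map_add_eq_mul]

theorem beta_one_left (c : Multiplicative (ZMod p)) : beta p 1 c = 1 := by
  simp [beta]

theorem beta_one_right (c : Multiplicative (ZMod p)) : beta p c 1 = 1 := by
  simp [beta]

theorem norm_beta (a c : Multiplicative (ZMod p)) : ‖beta p a c‖ = 1 := by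
  rw [beta, ZMod.stdAddChar_apply, Circle.norm_coe]

theorem eq_one_of_beta {a : Multiplicative (ZMod p)}
    (h : beta p a (Multiplicative.ofAdd 1) = 1) : a = 1 := by
  have h2 : ZMod.stdAddChar (a.toAdd) = ZMod.stdAddChar (0 : ZMod p) := by
    simpa [beta] using h
  have := ZMod.injective_stdAddChar h2
  exact Multiplicative.toAdd.injective (by simpa using this)

/-- `beta a` as a hom -/
noncomputable def betaHom (a : Multiplicative (ZMod p)) : Multiplicative (ZMod p) →* ℂ where
  toFun := beta p a
  map_one' := beta_one_right p a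
  map_mul' := beta_mul_right p a

variable {H : Type u} [Group H] [Finite H]

/-- base group of the wreath product -/
abbrev BB (H : Type u) [Group H] :
    Subgroup ((H × Multiplicative (ZMod p)) ≀ᵣ Multiplicative (ZMod p)) :=
  (RegularWreathProduct.rightHom).ker

/-- coordinates -/
def coord : BB p H →* (Multiplicative (ZMod p) → H × Multiplicative (ZMod p)) where
  toFun b := b.1.left
  map_one' := rfl
  map_mul' a b := by
    have ha : a.1.right = 1 := a.2
    ext x : 1
    simp [ha]

/-- from coordinates -/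
def mkB (v : Multiplicative (ZMod p) → H × Multiplicative (ZMod p)) : BB p H :=
  ⟨⟨v, 1⟩, rfl⟩

omit [Finite H] in
theorem coord_mkB (v : Multiplicative (ZMod p) → H × Multiplicative (ZMod p)) :
    coord p (mkB p v) = v := rfl

omit [Finite H] in
theorem coord_inj : Function.Injective (coord p (H := H)) := by
  intro a b h
  have ha : a.1.right = 1 := a.2
  have hb : b.1.right = 1 := b.2
  apply Subtype.ext
  exact RegularWreathProduct.ext h (ha.trans hb.symm)

/-- the character of the base group -/
noncomputable def theta (χ : H → ℂ) (b : BB p H) : ℂ :=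
  (∏ i, χ (coord p b i).1) * ∏ i, beta p i (coord p b i).2

theorem isIrr_theta {χ : H → ℂ} (hχ : IsIrrCharacter H χ) : IsIrrCharacter _ (theta p χ) := by
  have := Fintype.ofFinite H
  have h1 : IsIrrCharacter (Multiplicative (ZMod p) → H × Multiplicative (ZMod p))
      (piFun fun i x => χ x.1 * beta p i x.2) := by
    refine isIrr_piFun fun i => ?_
    have h2 : IsIrrCharacter (H × Multiplicative (ZMod p)) (fun x => χ x.1) :=
      isIrr_comp_of_surjective (MonoidHom.fst H (Multiplicative (ZMod p))) Prod.fst_surjective hχ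
    have h3 : IsCharacter (H × Multiplicative (ZMod p)) (fun x => beta p i x.2) :=
      isCharacter_of_isIrr (isIrr_monoidHom
        ((betaHom p i).comp (MonoidHom.snd H (Multiplicative (ZMod p)))))
    exact isIrr_mul_of_one_eq_one h2 h3 (beta_one_right p i)
  have h4 := isIrr_comp_of_surjective (coord p (H := H)) (fun v => ⟨mkB p v, rfl⟩) h1
  convert h4 using 1
  ext b
  simp only [theta, piFun, Finset.prod_mul_distrib]

omit [Finite H] in
theorem theta_conj {χ : H → ℂ} (hχ : IsIrrCharacter H χ)
    (w : (H × Multiplicative (ZMod p)) ≀ᵣ Multiplicative (ZMod p)) (b : BB p H) :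
    conjChar (BB p H) w (theta p χ) b = theta p χ b * beta p w.right (∏ i, (coord p b i).2) := by
  have hb : b.1.right = 1 := b.2
  have hc : ∀ x, coord p ⟨w * b.1 * w⁻¹, (MonoidHom.normal_ker _).conj_mem b.1 b.2 w⟩ x =
      w.left x * coord p b (w.right⁻¹ * x) * (w.left x)⁻¹ := by
    intro x
    simp [coord, hb]
  rw [conjChar_apply]
  simp only [theta, hc, Prod.fst_mul, Prod.snd_mul, Prod.fst_inv, Prod.snd_inv]
  have e1 : ∏ i, χ ((w.left i).1 * (coord p b (w.right⁻¹ * i)).1 * ((w.left i).1)⁻¹) =
      ∏ i, χ (coord p b i).1 := by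
    rw [← Equiv.prod_comp (Equiv.mulLeft w.right⁻¹) (fun i => χ (coord p b i).1)]
    refine Finset.prod_congr rfl fun i _ => ?_
    rw [isClassFunction_of_isIrr hχ]
    rfl
  have e2 : ∏ i, beta p i ((w.left i).2 * (coord p b (w.right⁻¹ * i)).2 * ((w.left i).2)⁻¹) =
      (∏ i, beta p i (coord p b i).2) * beta p w.right (∏ i, (coord p b i).2) := by
    have : beta p w.right (∏ i, (coord p b i).2) = ∏ i, beta p w.right (coord p b i).2 :=
      map_prod (betaHom p w.right) _ _
    rw [this, ← Finset.prod_mul_distrib,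
      ← Equiv.prod_comp (Equiv.mulLeft w.right⁻¹) (fun i => beta p i (coord p b i).2 *
        beta p w.right (coord p b i).2)]
    refine Finset.prod_congr rfl fun i _ => ?_
    rw [mul_inv_cancel_comm, ← beta_mul_left]
    simp only [Equiv.coe_mulLeft]
    rw [inv_mul_cancel_comm]
  rw [e1, e2, mul_assoc]

omit [Finite H] in
theorem theta_one (χ : H → ℂ) : theta p χ 1 = χ 1 ^ p := by
  simp [theta, beta_one_right]

theorem inertia_le {χ : H → ℂ} (hχ : IsIrrCharacter H χ) :
    inertia (BB p H) (theta p χ) ≤ BB p H := by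
  intro w hw
  rw [mem_inertia] at hw
  have h := congrFun hw (mkB p fun i => (1, Pi.mulSingle (M := fun _ => Multiplicative (ZMod p))
    1 (Multiplicative.ofAdd 1) i))
  rw [theta_conj p hχ, coord_mkB] at h
  have h0 : theta p χ (mkB p fun i => (1, Pi.mulSingle (M := fun _ => Multiplicative (ZMod p))
      1 (Multiplicative.ofAdd 1) i)) ≠ 0 := by
    simp only [theta, coord_mkB]
    refine mul_ne_zero (Finset.prod_ne_zero_iff.2 fun i _ => irr_one_ne_zero hχ)
      (Finset.prod_ne_zero_iff.2 fun i _ => ?_)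
    intro h0
    have := norm_beta p i (Pi.mulSingle (M := fun _ => Multiplicative (ZMod p))
      1 (Multiplicative.ofAdd 1) i)
    rw [h0] at this
    simp at this
  have h1 := (mul_eq_left₀ h0).1 h
  rw [Finset.prod_pi_mulSingle'] at h1
  simp only [Finset.mem_univ, if_true] at h1
  exact eq_one_of_beta p h1

omit [Finite H] in
theorem index_BB : (BB p H).index = p := by
  rw [Subgroup.index_ker, MonoidHom.range_eq_top.2
    (fun q => ⟨RegularWreathProduct.inl q, rfl⟩)]
  simp

theorem ind_apply [Fintype ((H × Multiplicative (ZMod p)) ≀ᵣ Multiplicative (ZMod p))]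
    {χ : H → ℂ} (hχ : IsIrrCharacter H χ) (b : BB p H) (hb : ∏ i, (coord p b i).2 = 1) :
    indFun (BB p H) (theta p χ) b = p * theta p χ b := by
  rw [indFun_normal_apply_of_mem]
  simp only [theta_conj p hχ, hb, beta_one_right, mul_one, Finset.sum_const, Finset.card_univ,
    nsmul_eq_mul]
  rw [← mul_assoc, ← Nat.card_eq_fintype_card, ← natCast_index_eq, index_BB]

variable {X : Type u} [Group X]

/-- the quotient map -/
noncomputable def rhoW (ρ : H →* X) :
    ((H × Multiplicative (ZMod p)) ≀ᵣ Multiplicative (ZMod p)) →*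
      (X ≀ᵣ Multiplicative (ZMod p)) × Multiplicative (ZMod p) where
  toFun w := (⟨fun i => ρ (w.left i).1, w.right⟩, ∏ i, (w.left i).2)
  map_one' := by
    refine Prod.ext (RegularWreathProduct.ext ?_ rfl) ?_
    · ext i; simp
    · simp
  map_mul' a b := by
    refine Prod.ext (RegularWreathProduct.ext ?_ rfl) ?_
    · ext i; simp
    · simp only [RegularWreathProduct.mul_left, Pi.mul_apply, Prod.snd_mul,
        Finset.prod_mul_distrib]
      congr 1
      exact Equiv.prod_comp (Equiv.mulLeft a.right⁻¹) (fun i => (b.left i).2)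

omit [Finite H] in
theorem rhoW_surj {ρ : H →* X} (h : Function.Surjective ρ) : Function.Surjective (rhoW p ρ) := by
  rintro ⟨⟨x, q⟩, c⟩
  choose g hg using h
  refine ⟨⟨fun i => (g (x i), Pi.mulSingle (M := fun _ => Multiplicative (ZMod p)) 1 c i), q⟩, ?_⟩
  refine Prod.ext (RegularWreathProduct.ext ?_ rfl) ?_
  · ext i; exact hg _
  · change ∏ i, Pi.mulSingle (M := fun _ => Multiplicative (ZMod p)) 1 c i = c
    rw [Finset.prod_pi_mulSingle']
    simp

omit [Finite H] in
theorem rhoW_eq_one {ρ : H →* X} {w} : rhoW p ρ w = 1 ↔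
    w.right = 1 ∧ (∀ i, ρ (w.left i).1 = 1) ∧ ∏ i, (w.left i).2 = 1 := by
  constructor
  · intro h
    have h1 := congrArg Prod.fst h
    have h2 := congrArg Prod.snd h
    exact ⟨congrArg RegularWreathProduct.right h1,
      fun i => congrFun (congrArg RegularWreathProduct.left h1) i, h2⟩
  · rintro ⟨h1, h2, h3⟩
    exact Prod.ext (RegularWreathProduct.ext (funext h2) h1) h3

/-- the Kaloujnine-Krasner embedding -/
theorem exists_kk {G : Type u} [Group G] {Q : Type} [Group Q] (π : G →* Q)
    (hπ : Function.Surjective π) (f : π.ker →* X) (hf : Function.Injective f) :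
    ∃ F : G →* X ≀ᵣ Q, Function.Injective F := by
  choose s hs using hπ
  have hm : ∀ (g : G) (q : Q), (s q)⁻¹ * g * s ((π g)⁻¹ * q) ∈ π.ker := by
    intro g q
    simp [MonoidHom.mem_ker, hs]
  let F : G →* X ≀ᵣ Q := MonoidHom.mk' (fun g => ⟨fun q => f ⟨_, hm g q⟩, π g⟩) (by
    intro a b
    refine RegularWreathProduct.ext ?_ (map_mul π a b)
    ext q
    simp only [RegularWreathProduct.mul_left, Pi.mul_apply, ← map_mul]
    congr 1
    apply Subtype.ext
    simp only [map_mul, mul_inv_rev, Subgroup.coe_mul]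
    group)
  refine ⟨F, (injective_iff_map_eq_one F).2 fun g hg => ?_⟩
  have h1 : π g = 1 := congrArg RegularWreathProduct.right hg
  have h2 : f ⟨_, hm g 1⟩ = 1 := congrFun (congrArg RegularWreathProduct.left hg) 1
  have h3 := congrArg Subtype.val ((injective_iff_map_eq_one f).1 hf _ h2)
  simp only [h1, inv_one, mul_one, OneMemClass.coe_one] at h3
  have : g = s 1 * ((s 1)⁻¹ * g * s 1) * (s 1)⁻¹ := by group
  rw [this, h3]; simp

theorem ct_step {G : Type u} [Group G] [Finite G] (π : G →* Multiplicative (ZMod p))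
    (hπ : Function.Surjective π) (h : CT π.ker) : CT G := by
  obtain ⟨H, _, _, χ, X, _, ρ, f, m, hχ, hρ, hdeg, hf, hpr, hm, hker, hex⟩ := h
  have : Finite X := Finite.of_surjective ρ hρ
  have hG : Nat.card G = Nat.card π.ker * p := by
    rw [← Subgroup.card_mul_index π.ker, Subgroup.index_ker, MonoidHom.range_eq_top.2 hπ]
    simp
  obtain ⟨F, hF⟩ := exists_kk π hπ f hf
  have := Fintype.ofFinite ((H × Multiplicative (ZMod p)) ≀ᵣ Multiplicative (ZMod p))
  have hθ := isIrr_theta p hχ
  have hp0 : (p : ℂ) ≠ 0 := Nat.cast_ne_zero.2 hp.out.ne_zero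
  have h1 : indFun (BB p H) (theta p χ) 1 = p * χ 1 ^ p := by
    rw [indFun_one, index_BB, theta_one]
  obtain ⟨m', hm', hmm, hpm⟩ : ∃ m', Squarefree m' ∧ m ∣ m' ∧ p ∣ m' := by
    by_cases hd : p ∣ m
    · exact ⟨m, hm, dvd_rfl, hd⟩
    · exact ⟨p * m, Nat.squarefree_mul_iff.2 ⟨(Nat.Prime.coprime_iff_not_dvd hp.out).2 hd,
        hp.out.squarefree, hm⟩, dvd_mul_left _ _, dvd_mul_right _ _⟩
  have hpw : ∀ c : Multiplicative (ZMod p), c ^ p = 1 := by
    intro c
    have := pow_card_eq_one' (x := c)
    simpa using this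
  have hpowB : ∀ (b : BB p H) (n : ℕ), (∀ i, (coord p b i) ^ n = 1) → b.1 ^ n = 1 := by
    intro b n hb
    have : b ^ n = 1 := coord_inj p (by rw [map_pow, map_one]; exact funext hb)
    exact congrArg Subtype.val this
  refine ⟨(H × Multiplicative (ZMod p)) ≀ᵣ Multiplicative (ZMod p), inferInstance, inferInstance,
    indFun (BB p H) (theta p χ), (X ≀ᵣ Multiplicative (ZMod p)) × Multiplicative (ZMod p),
    inferInstance, rhoW p ρ, (MonoidHom.inl _ _).comp F, m',
    isIrr_indFun_of_inertia_le _ hθ (inertia_le p hχ), rhoW_surj p hρ, ?_, ?_, ?_, hm', ?_, ?_⟩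
  · have : charDegree (indFun (BB p H) (theta p χ)) = p * charDegree χ ^ p :=
      deg_eq_of_eq (by rw [h1]; push_cast; rw [deg_cast (isCharacter_of_isIrr hχ)])
    rw [this, Nat.card_prod, RegularWreathProduct.card, ← hdeg]
    simp only [Nat.card_eq_fintype_card, Fintype.card_multiplicative, ZMod.card]
    ring
  · exact fun a b hab => hF (congrArg Prod.fst hab)
  · intro q hq hd
    rw [RegularWreathProduct.card, Nat.card_prod] at hd
    rw [show Nat.card (Multiplicative (ZMod p)) = p by simp] at hd
    rw [hG]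
    rcases (Nat.Prime.dvd_mul hq).1 hd with hd | hd
    · rcases (Nat.Prime.dvd_mul hq).1 (hq.dvd_of_dvd_pow hd) with hd | hd
      · exact (hpr q hq hd).mul_right _
      · exact hd.mul_left _
    · exact hd.mul_left _
  · intro z hz
    obtain ⟨hz1, hz2, hz3⟩ := (rhoW_eq_one p).1 hz
    constructor
    · have := ind_apply p hχ ⟨z, hz1⟩ hz3
      simp only at this
      rw [this, h1, norm_mul, norm_mul, theta, norm_mul, norm_prod, norm_prod, norm_pow]
      simp only [norm_beta, Finset.prod_const_one, mul_one]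
      congr 1
      refine (Finset.prod_congr rfl (fun i _ => (hker _ (hz2 i)).1)).trans ?_
      simp
    · refine hpowB ⟨z, hz1⟩ m' fun i => Prod.ext ?_ ?_
      · obtain ⟨k, rfl⟩ := hmm
        change (z.left i).1 ^ (m * k) = 1
        rw [pow_mul, (hker _ (hz2 i)).2, one_pow]
      · obtain ⟨k, rfl⟩ := hpm
        change (z.left i).2 ^ (p * k) = 1
        rw [pow_mul, hpw, one_pow]
  · intro q hq hd
    rw [hG] at hd
    have hχ0 := irr_one_ne_zero hχ
    rcases (Nat.Prime.dvd_mul hq).1 hd with hd | hd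
    · obtain ⟨z, hz1, hz2, hz3⟩ := hex q hq hd
      let b : BB p H := mkB p fun i => (Pi.mulSingle (M := fun _ => H) 1 z i, 1)
      refine ⟨b.1, (rhoW_eq_one p).2 ⟨rfl, fun i => ?_, ?_⟩, hpowB b q fun i => ?_, ?_⟩
      · change ρ (Pi.mulSingle (M := fun _ => H) 1 z i) = 1
        by_cases hi : i = 1
        · subst hi; simpa using hz1
        · simp [Pi.mulSingle_eq_of_ne hi]
      · simp [b, mkB]
      · refine Prod.ext ?_ (by simp [b, coord_mkB])
        change (Pi.mulSingle (M := fun _ => H) 1 z i) ^ q = 1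
        by_cases hi : i = 1
        · subst hi; simpa using hz2
        · simp [Pi.mulSingle_eq_of_ne hi]
      · rw [ind_apply p hχ b (by simp [b, coord_mkB]), h1]
        intro he
        have h2 := mul_left_cancel₀ hp0 he
        simp only [theta, b, coord_mkB, beta_one_right, Finset.prod_const_one, mul_one] at h2
        have h3 : χ 1 ^ p = ∏ _i : Multiplicative (ZMod p), χ 1 := by simp
        rw [h3, ← Finset.mul_prod_erase _ _ (Finset.mem_univ 1),
          ← Finset.mul_prod_erase _ _ (Finset.mem_univ 1),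
          Finset.prod_congr rfl (fun i hi => by
            rw [Pi.mulSingle_eq_of_ne (Finset.ne_of_mem_erase hi)])] at h2
        have h4 := mul_right_cancel₀ (Finset.prod_ne_zero_iff.2 fun i _ => hχ0) h2
        exact hz3 (by simpa using h4)
    · have hqp : q = p := (Nat.prime_dvd_prime_iff_eq hq hp.out).1 hd
      subst hqp
      let c : Multiplicative (ZMod q) := Multiplicative.ofAdd 1
      let u : Multiplicative (ZMod q) → Multiplicative (ZMod q) :=
        Pi.mulSingle (M := fun _ => Multiplicative (ZMod q)) c c *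
          Pi.mulSingle (M := fun _ => Multiplicative (ZMod q)) 1 c⁻¹
      have hu : ∏ i, u i = 1 := by
        simp only [u, Pi.mul_apply, Finset.prod_mul_distrib, Finset.prod_pi_mulSingle']
        simp
      let b : BB q H := mkB q fun i => (1, u i)
      refine ⟨b.1, (rhoW_eq_one q).2 ⟨rfl, fun i => map_one ρ, hu⟩, hpowB b q fun i => ?_, ?_⟩
      · exact Prod.ext (by simp [b, coord_mkB]) (hpw _)
      · rw [ind_apply q hχ b hu, h1]
        intro he
        have h2 := mul_left_cancel₀ hp0 he
        have h5 : ∀ a d : Multiplicative (ZMod q), ∏ i, beta q i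
            (Pi.mulSingle (M := fun _ => Multiplicative (ZMod q)) a d i) = beta q a d := by
          intro a d
          rw [Finset.prod_eq_single a]
          · simp
          · intro i _ hi
            rw [Pi.mulSingle_eq_of_ne hi, beta_one_right]
          · simp
        simp only [theta, b, coord_mkB, u, Pi.mul_apply, beta_mul_right, Finset.prod_mul_distrib,
          h5, beta_one_left, mul_one, Finset.prod_const, Finset.card_univ,
          Fintype.card_multiplicative, ZMod.card] at h2
        have h6 := eq_one_of_beta q ((mul_eq_left₀ (pow_ne_zero _ hχ0)).1 h2)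
        have h7 : (1 : ZMod q) = 0 := congrArg Multiplicative.toAdd h6
        exact one_ne_zero h7

end step

theorem ct_all : ∀ (n : ℕ) (G : Type u) [Group G] [Finite G] [Group.IsSolvable G],
    Nat.card G = n → CT G := by
  intro n
  induction n using Nat.strong_induction_on with
  | _ n ih =>
  intro G _ _ _ hn
  rcases subsingleton_or_nontrivial G with hG | hG
  · refine ⟨G, inferInstance, inferInstance, fun _ => 1, G, inferInstance, MonoidHom.id G,
      MonoidHom.id G, 1, isIrr_one, Function.surjective_id, ?_, Function.injective_id,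
      fun _ _ h => h, squarefree_one, fun z _ => ⟨rfl, Subsingleton.elim _ _⟩, fun q hq hd => ?_⟩
    · rw [deg_one, Nat.card_of_subsingleton (1 : G)]; rfl
    · rw [Nat.card_of_subsingleton (1 : G), Nat.dvd_one] at hd
      exact absurd hd hq.one_lt.ne'
  · obtain ⟨N, hN, hp⟩ := CfsgLib.Core.exists_normal_prime_index G
    have : Fact N.index.Prime := ⟨hp⟩
    let e : (G ⧸ N) ≃* Multiplicative (ZMod N.index) :=
      mulEquivOfPrimeCardEq (p := N.index) rfl (by simp)
    let π : G →* Multiplicative (ZMod N.index) := e.toMonoidHom.comp (QuotientGroup.mk' N)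
    have hπ : Function.Surjective π := e.surjective.comp (QuotientGroup.mk'_surjective N)
    refine ct_step N.index π hπ (ih _ ?_ π.ker rfl)
    have h1 : π.ker.index = N.index := by
      rw [Subgroup.index_ker, MonoidHom.range_eq_top.2 hπ]; simp
    have h2 := Subgroup.card_mul_index π.ker
    have h3 : 0 < Nat.card π.ker := Nat.card_pos
    have h4 := hp.two_le
    rw [h1] at h2
    nlinarith

/-- For every finite solvable group G there is a finite group H with a faithful irreducible character χ whose degree squared equals the index of the centre Z(H) (so χ is fully ramified over the centre), such that G is isomorphic to a subgroup of H/Z(H), the primes dividing the orders of H, of Z(H) and of G are the same, and the order of Z(H) is squarefree. -/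
theorem result {G : Type u} [Group G] [Finite G] (hsolv : Group.IsSolvable G) : ∃ (H : Type u) (_ : Group H) (_ : Finite H) (χ : Cfsg.IrrCharacter H), (∀ h : H, (χ : H → ℂ) h = (χ : H → ℂ) 1 → h = 1) ∧ (Cfsg.charDegree (χ : H → ℂ)) ^ 2 = (Subgroup.center H).index ∧ (∃ f : G →* H ⧸ Subgroup.center H, Function.Injective f) ∧ (∀ p : ℕ, p.Prime → ((p ∣ Nat.card H ↔ p ∣ Nat.card G) ∧ (p ∣ Nat.card (Subgroup.center H) ↔ p ∣ Nat.card G))) ∧ Squarefree (Nat.card (Subgroup.center H)) := by
  obtain ⟨H, _, _, χ, X, _, ρ, f, m, hχ, hρ, hdeg, hf, hpr, hm, hker, hex⟩ := ct_all _ G rfl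
  have hχc := isCharacter_of_isIrr hχ
  let K := cker χ
  have hχ' : IsIrrCharacter (H ⧸ K) (defl K χ) := isIrr_defl hχ le_rfl
  have hχ'c := isCharacter_of_isIrr hχ'
  have hbot : cker (defl K χ) = ⊥ := cker_defl_cker hχc
  have hfa := (cker_eq_bot_iff hχ'c).1 hbot
  have hfa' : charKer (defl K χ) = ⊥ :=
    (Subgroup.eq_bot_iff_forall _).2 fun g hg => hfa g ((mem_charKer hχ'c).1 hg)
  have hZ : charCenter (defl K χ) = Subgroup.center (H ⧸ K) :=
    le_antisymm (charCenter_le_center_of_faithful (isClassFunction_of_isIrr hχ') hfa')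
      (center_le_charCenter hχ')
  have hle : ρ.ker ≤ charCenter χ := fun z hz => (mem_charCenter hχc).2 (hker z hz).1
  have hidx : ρ.ker.index = Nat.card X := by
    rw [Subgroup.index_ker, MonoidHom.range_eq_top.2 hρ]; simp
  have heq : ρ.ker = charCenter χ := by
    refine Subgroup.eq_of_le_of_card_ge hle ?_
    have h1 := deg_sq_le_index_of_norm_eq hχ (charCenter χ) fun z hz => (mem_charCenter hχc).1 hz
    rw [hdeg, ← hidx] at h1
    have h2 := Subgroup.card_mul_index ρ.ker
    have h3 := Subgroup.card_mul_index (charCenter χ)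
    have h4 : 0 < ρ.ker.index := Nat.pos_of_ne_zero Subgroup.index_ne_zero_of_finite
    by_contra hlt
    push Not at hlt
    nlinarith
  have hmem : ∀ z : H, (z : H ⧸ K) ∈ Subgroup.center (H ⧸ K) ↔ ρ z = 1 := by
    intro z
    rw [← hZ, mem_charCenter hχ'c, defl_mk hχc le_rfl, defl_one hχc le_rfl, ← mem_charCenter hχc,
      ← heq, MonoidHom.mem_ker]
  let φ : H →* (H ⧸ K) ⧸ Subgroup.center (H ⧸ K) :=
    (QuotientGroup.mk' _).comp (QuotientGroup.mk' K)
  have hφ : Function.Surjective φ :=
    (QuotientGroup.mk'_surjective _).comp (QuotientGroup.mk'_surjective _)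
  have hφk : ρ.ker = φ.ker := by
    ext z
    rw [MonoidHom.mem_ker, ← hmem, MonoidHom.mem_ker]
    exact (QuotientGroup.eq_one_iff _).symm
  let e : X ≃* (H ⧸ K) ⧸ Subgroup.center (H ⧸ K) :=
    (QuotientGroup.quotientKerEquivOfSurjective ρ hρ).symm.trans
      ((QuotientGroup.quotientMulEquivOfEq hφk).trans
        (QuotientGroup.quotientKerEquivOfSurjective φ hφ))
  have hA : ∀ q : ℕ, q.Prime → q ∣ Nat.card (H ⧸ K) → q ∣ Nat.card G := fun q hq hd =>
    hpr q hq (hd.trans (Subgroup.card_quotient_dvd_card K))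
  have hB : ∀ q : ℕ, q.Prime → q ∣ Nat.card G → q ∣ Nat.card (Subgroup.center (H ⧸ K)) := by
    intro q hq hd
    obtain ⟨z, hz1, hz2, hz3⟩ := hex q hq hd
    have := Fact.mk hq
    have h1 : orderOf (⟨(z : H ⧸ K), (hmem z).2 hz1⟩ : Subgroup.center (H ⧸ K)) = q := by
      refine orderOf_eq_prime (Subtype.ext ?_) fun h => hz3 ?_
      · change ((z : H ⧸ K)) ^ q = 1
        rw [← QuotientGroup.mk_pow, hz2]; rfl
      · have h2 : (z : H ⧸ K) = 1 := congrArg Subtype.val h
        exact (mem_cker hχc).1 ((QuotientGroup.eq_one_iff _).1 h2)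
    rw [← h1]
    exact orderOf_dvd_natCard _
  have hC : Nat.card (Subgroup.center (H ⧸ K)) ∣ Nat.card (H ⧸ K) := Subgroup.card_subgroup_dvd_card _
  refine ⟨H ⧸ K, inferInstance, inferInstance, ⟨defl K χ, hχ'⟩, hfa, ?_,
    ⟨e.toMonoidHom.comp f, e.injective.comp hf⟩,
    fun q hq => ⟨⟨hA q hq, fun h => (hB q hq h).trans hC⟩, ⟨fun h => hA q hq (h.trans hC), hB q hq⟩⟩,
    ?_⟩
  · change charDegree (defl K χ) ^ 2 = _
    rw [deg_defl hχc le_rfl, hdeg]
    exact Nat.card_congr e.toEquiv
  · obtain ⟨l, hl⟩ := exists_hom_charCenter (irr_one_ne_zero hχ')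
    have hinj : Function.Injective l := by
      refine (injective_iff_map_eq_one l).2 fun z hz => Subtype.ext (hfa _ ?_)
      have := hl z 1
      rw [hz, mul_one] at this
      simpa using this
    have hcyc : IsCyclic (charCenter (defl K χ)) :=
      isCyclic_of_injective_ringHom ((Units.coeHom ℂ).comp l) (Units.val_injective.comp hinj)
    rw [hZ] at hcyc
    rw [← IsCyclic.exponent_eq_card]
    refine hm.squarefree_of_dvd (Monoid.exponent_dvd_of_forall_pow_eq_one fun z => Subtype.ext ?_)
    obtain ⟨z, hz⟩ := z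
    obtain ⟨z, rfl⟩ := QuotientGroup.mk_surjective z
    change ((z : H ⧸ K)) ^ m = 1
    rw [← QuotientGroup.mk_pow, (hker z ((hmem z).1 hz)).2]; rfl

end Cfsg.Agent.S4561
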