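import Cfsg.Statements.S4564
import Cfsg.Agent.Lib.FullRam.Basic

set_option autoImplicit false
open Cfsg

namespace Cfsg.Agent.S4564

/-- Let χ be an irreducible character of the finite group H that is fully ramified over the normal subgroup Z: the restriction of χ to Z is e times an irreducible character of Z with e ^ 2 equal to the index of Z. Let K be a normal subgroup of H containing Z and P a cyclic Sylow p-subgroup of H/K. Then P has a complement in H/K: a subgroup meeting P trivially whose product with P is the whole group. -/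
theorem result {H : Type*} [Group H] [Finite H] (Z : Subgroup H) [Z.Normal] (χ : Cfsg.IrrCharacter H) (hfr : ∃ (θ : Cfsg.IrrCharacter ↥Z) (e : ℕ), e ^ 2 = Z.index ∧ ∀ z : ↥Z, (χ : H → ℂ) z = (e : ℂ) * (θ : ↥Z → ℂ) z) (K : Subgroup H) [K.Normal] (hZK : Z ≤ K) (p : ℕ) [Fact p.Prime] (P : Sylow p (H ⧸ K)) (hcyc : IsCyclic P) : ∃ M : Subgroup (H ⧸ K), M.IsComplement' (P : Subgroup (H ⧸ K)) := by
  have := Fintype.ofFinite H
  obtain ⟨θ, e, he, h⟩ := hfr
  obtain ⟨M, hM⟩ := CfsgLib.FullRam.exists_index hZK (CfsgLib.Char.irr_isCharacter χ)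
    (CfsgLib.FullRam.hom_of χ.2 θ.2 he h).1 he P (Or.inl hcyc)
  have h1 : Nat.card M = (P : Subgroup (H ⧸ K)).index :=
    Nat.eq_of_mul_eq_mul_right (Nat.card_pos (α := P))
      (by rw [Subgroup.index_mul_card, ← hM, Subgroup.card_mul_index])
  exact ⟨M, Subgroup.isComplement'_of_coprime (by rw [← hM, Subgroup.card_mul_index])
    (h1 ▸ P.card_coprime_index.symm)⟩

end Cfsg.Agent.S4564
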