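import Cfsg.Statements.S4566
import Cfsg.Agent.Lib.ChDeg.Avg

set_option autoImplicit false
open Cfsg

namespace Cfsg.Agent.S4566

/-- Let N be a central subgroup of the finite group G, ψ a faithful irreducible (hence degree-one) character of N, and χ an irreducible character of G whose restriction to N contains ψ. If g ∈ G and some x ∈ G has commutator x⁻¹ g⁻¹ x g in N but different from 1, then χ g = 0. -/
theorem result {G : Type*} [Group G] [Fintype G] (N : Subgroup G) [Fintype N] (hN : N ≤ Subgroup.center G) (ψ : Cfsg.IrrCharacter ↥N) (hfaith : ∀ n : ↥N, (ψ : ↥N → ℂ) n = (ψ : ↥N → ℂ) 1 → n = 1) (χ : Cfsg.IrrCharacter G) (hover : Cfsg.classInner (fun n : ↥N => (χ : G → ℂ) n) (ψ : ↥N → ℂ) ≠ 0) (g x : G) (hcomm : x⁻¹ * g⁻¹ * x * g ∈ N) (hne : x⁻¹ * g⁻¹ * x * g ≠ 1) : (χ : G → ℂ) g = 0 := by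
  open CfsgLib.Char CfsgLib.ChDeg in
  have hc := irr_isCharacter χ
  refine eq_zero_of_isConj_mul hc (z := (x⁻¹ * g⁻¹ * x * g)⁻¹)
    (norm_irr_of_mem_center χ.2 (hN (N.inv_mem hcomm))) (fun e => hne ?_) ?_
  · have h1 : (⟨_, N.inv_mem hcomm⟩ : N) ∈ cker (fun n : N => (χ : G → ℂ) n) :=
      (mem_cker (isCharacter_restrict N hc)).mpr e
    have h2 := cker_le_of_inner_ne_zero (isCharacter_restrict N hc) ψ.2 hover h1
    have h3 := hfaith _ ((mem_cker (irr_isCharacter ψ)).mp h2)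
    exact inv_eq_one.mp (congrArg Subtype.val h3)
  · rw [isConj_iff]
    exact ⟨g⁻¹ * x⁻¹, by group⟩

end Cfsg.Agent.S4566
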