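import Cfsg.Statements.S4567
import Cfsg.Agent.Lib.ChDeg.Cliff
import Cfsg.Agent.Lib.Char.ClassCount
import Cfsg.Agent.Lib.Core.Basic
import Cfsg.Agent.Lib.Char.Monomial

set_option autoImplicit false
open Cfsg

namespace Cfsg.Agent.S4567

open CfsgLib CfsgLib.Char CfsgLib.ChDeg Subgroup
open scoped ComplexConjugate

/-- special elements -/
def Sp {G : Type*} [Group G] (N : Subgroup G) (g : G) : Prop :=
  ∀ x : G, x⁻¹ * g⁻¹ * x * g ∈ N → x * g = g * x

theorem sp_iff {G : Type*} [Group G] {N : Subgroup G} [hN : N.Normal] (g : G) :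
    Sp N g ↔ ∀ n ∈ N, IsConj g (n * g) → n = 1 := by
  constructor
  · intro h n hn hc
    obtain ⟨c, hc⟩ := isConj_iff.mp hc
    have h1 := h c⁻¹ (by
      have : c⁻¹⁻¹ * g⁻¹ * c⁻¹ * g = (c * g * c⁻¹)⁻¹ * g := by group
      rw [this, hc]
      simpa using hN.conj_mem _ (N.inv_mem hn) g⁻¹)
    rw [mul_assoc, ← h1, mul_inv_cancel_left] at hc
    simpa using hc
  · intro h x hx
    have h1 := h _ (hN.conj_mem _ (N.inv_mem hx) g) (isConj_iff.mpr ⟨g * g⁻¹ * x⁻¹, by group⟩)
    calc x * g = x * (g * (x⁻¹ * g⁻¹ * x * g)⁻¹ * g⁻¹) * g := by rw [h1, mul_one]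
      _ = _ := by group

theorem sp_iff' {G : Type*} [Group G] {N : Subgroup G} [hN : N.Normal] (g : G) :
    Sp N g ↔ (centralizer {(g : G ⧸ N)}).comap (QuotientGroup.mk' N) ≤ centralizer {g} := by
  refine forall_congr' fun x => ?_
  rw [mem_comap, mem_centralizer_singleton_iff, mem_centralizer_singleton_iff,
    QuotientGroup.mk'_apply, ← QuotientGroup.mk_mul, ← QuotientGroup.mk_mul, eq_comm (b := ((g * x : G) : G ⧸ N)),
    QuotientGroup.eq, mul_inv_rev, ← mul_assoc]

/-- Let N be a central subgroup of the finite group G and ψ a faithful irreducible (hence degree-one) character of N. Call a coset g N special when every x ∈ G whose commutator x⁻¹ g⁻¹ x g lies in N actually commutes with g (this depends only on the coset). Then the number of irreducible characters of G whose restriction to N contains ψ equals the number of conjugacy classes of G/N consisting of special cosets. -/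
theorem result {G : Type*} [Group G] [Fintype G] (N : Subgroup G) [N.Normal] [Fintype N] (hN : N ≤ Subgroup.center G) (ψ : Cfsg.IrrCharacter ↥N) (hfaith : ∀ n : ↥N, (ψ : ↥N → ℂ) n = (ψ : ↥N → ℂ) 1 → n = 1) : Nat.card {χ : Cfsg.IrrCharacter G // Cfsg.classInner (fun n : ↥N => (χ : G → ℂ) n) (ψ : ↥N → ℂ) ≠ 0} = Nat.card {C : ConjClasses (G ⧸ N) // ∃ g : G, ConjClasses.mk (g : G ⧸ N) = C ∧ ∀ x : G, x⁻¹ * g⁻¹ * x * g ∈ N → x * g = g * x} := by
  classical
  have hcomm : ∀ (n : N) (g : G), g * n = n * g := fun n g => mem_center_iff.mp (hN n.2) g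
  have : IsMulCommutative N := ⟨⟨fun a b => Subtype.ext (hcomm b a)⟩⟩
  have hψ1 := irr_one_eq_one_of_comm ψ.2
  have hψn := norm_eq_one_of_linear (irr_isCharacter ψ) hψ1
  set S := Finset.univ.filter fun χ : IrrCharacter G =>
    classInner (fun n : N => (χ : G → ℂ) n) (ψ : N → ℂ) ≠ 0 with hS
  have h1 : ∀ χ ∈ S, ∀ n : N, (χ : G → ℂ) n = (χ : G → ℂ) 1 * (ψ : N → ℂ) n := by
    intro χ hχ n
    have := clifford_invariant N χ.2 ψ.2 (Finset.mem_filter.mp hχ).2 fun g => funext fun n => by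
      exact congrArg (ψ : N → ℂ) (Subtype.ext (by
        show g * n * g⁻¹ = n
        rw [hcomm, mul_inv_cancel_right]))
    have e1 := congrFun this n
    have e2 := congrFun this 1
    simp only [Pi.smul_apply, smul_eq_mul, hψ1, mul_one, OneMemClass.coe_one] at e1 e2
    rw [e1, e2]
  have h2 : ∀ (χ : IrrCharacter G) (g : G), ∑ n : N, (χ : G → ℂ) (n * g) * conj ((ψ : N → ℂ) n) =
      if χ ∈ S then Nat.card N * (χ : G → ℂ) g else 0 := by
    intro χ g
    have e : ∑ n : N, (χ : G → ℂ) (n * g) * conj ((ψ : N → ℂ) n) = Nat.card N *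
        classInner (fun n : N => (χ : G → ℂ) n) (ψ : N → ℂ) * ((χ : G → ℂ) g / (χ : G → ℂ) 1) := by
      rw [card_mul_classInner, Finset.sum_mul]
      exact Finset.sum_congr rfl fun n _ => by rw [irr_mul_of_mem_center χ.2 (hN n.2)]; ring
    rw [e]
    split_ifs with h
    · rw [show (fun n : N => (χ : G → ℂ) n) = (χ : G → ℂ) 1 • (ψ : N → ℂ) from funext (h1 χ h),
        classInner_smul_left, classInner_irr_self ψ.2]
      field_simp [irr_one_ne_zero χ.2]
    · simp only [hS, Finset.mem_filter, Finset.mem_univ, true_and, not_not] at h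
      rw [h]; simp
  have h3 : ∀ g : G, (Nat.card N : ℂ) * ∑ χ ∈ S, (χ : G → ℂ) g * conj ((χ : G → ℂ) g) =
      if Sp N g then (Nat.card (centralizer ({g} : Set G)) : ℂ) else 0 := by
    intro g
    split_ifs with h
    · calc _ = ∑ χ : IrrCharacter G, (∑ n : N, (χ : G → ℂ) (n * g) * conj ((ψ : N → ℂ) n)) *
              conj ((χ : G → ℂ) g) := by
            simp only [h2, ite_mul, zero_mul, Finset.sum_ite_mem, Finset.univ_inter,
              Finset.mul_sum, mul_assoc]
        _ = ∑ n : N, conj ((ψ : N → ℂ) n) *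
              ∑ χ : IrrCharacter G, (χ : G → ℂ) (n * g) * conj ((χ : G → ℂ) g) := by
            simp only [Finset.sum_mul, Finset.mul_sum]
            rw [Finset.sum_comm]
            exact Finset.sum_congr rfl fun _ _ => Finset.sum_congr rfl fun _ _ => by ring
        _ = _ := by
            rw [Finset.sum_eq_single 1 (fun n _ hn => by
              rw [column_orthogonality_of_not_isConj fun e =>
                hn (Subtype.ext ((sp_iff g).mp h n n.2 e.symm)), mul_zero]) (by simp)]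
            simp [hψ1, column_orthogonality_self]
    · rw [sp_iff] at h
      push Not at h
      obtain ⟨n, hn, hc, hn1⟩ := h
      rw [Finset.sum_eq_zero fun χ hχ => ?_, mul_zero]
      have e : (χ : G → ℂ) n = _ := h1 χ hχ ⟨n, hn⟩
      rw [eq_zero_of_isConj_mul (irr_isCharacter χ) (by rw [e, norm_mul, hψn, mul_one])
        (fun e' => hn1 (congrArg Subtype.val (hfaith ⟨n, hn⟩ (mul_left_cancel₀
          (irr_one_ne_zero χ.2) (by rw [← e, e', hψ1, mul_one]))))) hc, zero_mul]
  have := Fintype.ofFinite (G ⧸ N)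
  set P : ConjClasses (G ⧸ N) → Prop := fun C => ∃ g : G, ConjClasses.mk (g : G ⧸ N) = C ∧
    ∀ x : G, x⁻¹ * g⁻¹ * x * g ∈ N → x * g = g * x
  have h4 : ∀ g : G, P (ConjClasses.mk (g : G ⧸ N)) ↔ Sp N g := fun g => by
    refine ⟨fun ⟨g', e, hs⟩ => ?_, fun h => ⟨g, rfl, h⟩⟩
    obtain ⟨c, hc⟩ := isConj_iff.mp (ConjClasses.mk_eq_mk_iff_isConj.mp e)
    obtain ⟨c, rfl⟩ := QuotientGroup.mk_surjective c
    rw [← QuotientGroup.mk_inv, ← QuotientGroup.mk_mul, ← QuotientGroup.mk_mul,
      QuotientGroup.eq] at hc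
    rw [sp_iff]
    intro n hn hg
    obtain ⟨d, hd⟩ := isConj_iff.mp hg
    refine (sp_iff g').mp hs n hn (isConj_iff.mpr ⟨c⁻¹ * d * c, ?_⟩)
    obtain ⟨m, rfl⟩ : ∃ m : N, g = c * g' * c⁻¹ * m := ⟨⟨_, hc⟩, (mul_inv_cancel_left _ _).symm⟩
    rw [← mul_assoc, mul_assoc _ (m : G), ← hcomm m, ← mul_assoc, ← mul_assoc n,
      mul_left_inj] at hd
    calc _ = c⁻¹ * (d * (c * g' * c⁻¹) * d⁻¹) * c := by group
      _ = (c⁻¹ * (⟨n, hn⟩ : N)) * c * g' := by rw [hd]; group
      _ = _ := by rw [hcomm]; group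
  have h5 : ∑ g ∈ Finset.univ.filter (fun g : G ⧸ N => P (ConjClasses.mk g)),
      Nat.card (centralizer ({g} : Set (G ⧸ N))) = Nat.card {C // P C} * Nat.card (G ⧸ N) := by
    convert sum_card_centralizer_filter P
  have h6 := sum_comp_of_surjective (QuotientGroup.mk' N) (QuotientGroup.mk'_surjective N)
    fun q => if P (ConjClasses.mk q) then (Nat.card (centralizer ({q} : Set (G ⧸ N))) : ℂ) else 0
  rw [← Finset.sum_filter (s := (Finset.univ : Finset (G ⧸ N))), ← Nat.cast_sum, h5,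
    QuotientGroup.ker_mk'] at h6
  have h7 : ∑ g : G, (Nat.card N : ℂ) * ∑ χ ∈ S, (χ : G → ℂ) g * conj ((χ : G → ℂ) g) =
      Nat.card N * (S.card * Nat.card G) := by
    rw [← Finset.mul_sum, Finset.sum_comm, Finset.sum_congr rfl fun χ _ => by
      rw [← card_mul_classInner, classInner_irr_self χ.2, mul_one], Finset.sum_const, nsmul_eq_mul]
  have h8 : ∑ g : G, (Nat.card N : ℂ) * ∑ χ ∈ S, (χ : G → ℂ) g * conj ((χ : G → ℂ) g) =
      Nat.card N * (Nat.card N * ((Nat.card {C // P C} * Nat.card (G ⧸ N) : ℕ) : ℂ)) := by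
    rw [← h6, Finset.mul_sum]
    refine Finset.sum_congr rfl fun g _ => ?_
    rw [h3, QuotientGroup.mk'_apply, if_congr (h4 g) rfl rfl]
    split_ifs with h
    · rw [← Nat.cast_mul, mul_comm, ← Core.card_comap_mk', le_antisymm ((sp_iff' g).mp h)]
      intro x hx
      rw [mem_comap, mem_centralizer_singleton_iff, QuotientGroup.mk'_apply,
        ← QuotientGroup.mk_mul, mem_centralizer_singleton_iff.mp hx, QuotientGroup.mk_mul]
    · simp
  rw [h7, card_eq_card_quotient_mul_card_subgroup N] at h8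
  rw [Nat.subtype_card S (by simp [hS])]
  have h9 : (Nat.card (G ⧸ N) * Nat.card N : ℂ) ≠ 0 := mul_ne_zero natCard_ne_zero natCard_ne_zero
  have := mul_left_cancel₀ natCard_ne_zero h8
  push_cast at this
  have h10 : (S.card : ℂ) = Nat.card {C // P C} := mul_right_cancel₀ h9 (this.trans (by ring))
  exact_mod_cast h10

end Cfsg.Agent.S4567
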