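import Cfsg.Statements.S4574
import Cfsg.Agent.Lib.ChDeg.Avg

set_option autoImplicit false
open Cfsg

namespace Cfsg.Agent.S4574

/-- Let χ be an irreducible character of the finite group G, of degree d, and let Z(χ) be the set of elements g with |χ g| = d (the centre of χ). Then χ vanishes on at least (d ^ 2 - 1) · |Z(χ)| elements of G, with equality when every value |χ g| is 0, 1 or d. -/
theorem result {G : Type*} [Group G] [Fintype G] [DecidableEq G] (χ : G → ℂ) (hχ : Cfsg.IsIrrCharacter G χ) : (Cfsg.charDegree χ ^ 2 - 1) * (Finset.univ.filter (fun g : G => ‖χ g‖ = (Cfsg.charDegree χ : ℝ))).card ≤ (Finset.univ.filter (fun g : G => χ g = 0)).card ∧ ((∀ g : G, ‖χ g‖ = 0 ∨ ‖χ g‖ = 1 ∨ ‖χ g‖ = (Cfsg.charDegree χ : ℝ)) → (Cfsg.charDegree χ ^ 2 - 1) * (Finset.univ.filter (fun g : G => ‖χ g‖ = (Cfsg.charDegree χ : ℝ))).card = (Finset.univ.filter (fun g : G => χ g = 0)).card) := by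
  open CfsgLib.Char CfsgLib.ChDeg in
  have hc := isCharacter_of_isIrr hχ
  have hd : (0 : ℝ) < charDegree χ := by exact_mod_cast deg_pos hχ
  set d := charDegree χ with hdd
  set Z := Finset.univ.filter (fun g : G => ‖χ g‖ = (d : ℝ)) with hZ
  set O := Finset.univ.filter (fun g : G => χ g = 0) with hO
  let S : Finset G := Finset.univ.filter (fun g => ¬ ‖χ g‖ = (d : ℝ) ∧ ¬ χ g = 0)
  have e1 : (Finset.univ.filter (fun g => ¬ ‖χ g‖ = (d : ℝ))).filter (fun g => χ g = 0) = O := by
    ext g
    simp only [hO, Finset.mem_filter, Finset.mem_univ, true_and, and_iff_right_iff_imp]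
    intro h
    rw [h, norm_zero]
    exact hd.ne
  have h1 := sum_norm_sq_irr hχ
  rw [← Finset.sum_filter_add_sum_filter_not Finset.univ (fun g : G => ‖χ g‖ = (d : ℝ)),
    ← Finset.sum_filter_add_sum_filter_not (Finset.univ.filter (fun g => ¬ ‖χ g‖ = (d : ℝ)))
      (fun g => χ g = 0), e1, Finset.filter_filter,
    Finset.sum_congr rfl (s₁ := Z) (g := fun _ => (d : ℝ) ^ 2)
      (fun g hg => by rw [(Finset.mem_filter.mp hg).2]),
    Finset.sum_eq_zero (s := O) (fun g hg => by rw [(Finset.mem_filter.mp hg).2]; simp),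
    Finset.sum_const, nsmul_eq_mul, zero_add] at h1
  have h4 : Nat.card G = Z.card + (O.card + S.card) := by
    rw [Nat.card_eq_fintype_card, ← Finset.card_univ,
      ← Finset.card_filter_add_card_filter_not (s := Finset.univ) (fun g : G => ‖χ g‖ = (d : ℝ)),
      ← Finset.card_filter_add_card_filter_not
        (s := Finset.univ.filter (fun g => ¬ ‖χ g‖ = (d : ℝ))) (fun g => χ g = 0), e1,
      Finset.filter_filter]
  have h5 : (Nat.card G : ℝ) = Z.card + (O.card + S.card) := by exact_mod_cast h4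
  have hd1 : 1 ≤ d ^ 2 := Nat.one_le_pow _ _ (deg_pos hχ)
  constructor
  · have h2 := card_le_sum_norm_sq hc S (fun m hm g hg => by
      simp only [S, Finset.mem_filter, Finset.mem_univ, true_and] at hg ⊢
      refine ⟨fun e => hg.1 ?_, char_pow_ne_zero hc hm hg.2⟩
      rw [hdd, ← norm_one_eq_deg hc, ← mem_charCenter hc] at e ⊢
      exact mem_of_pow_mem_of_coprime hm e) (fun g hg => (Finset.mem_filter.mp hg).2.2)
    have : (((d ^ 2 - 1) * Z.card : ℕ) : ℝ) ≤ O.card := by
      push_cast [Nat.cast_sub hd1]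
      change _ + ∑ g ∈ S, _ = _ at h1
      linarith
    exact_mod_cast this
  · intro hv
    have h2 : ∑ g ∈ S, ‖χ g‖ ^ 2 = S.card := by
      rw [Finset.sum_congr rfl (g := fun _ => (1 : ℝ)) (fun g hg => by
        simp only [S, Finset.mem_filter, Finset.mem_univ, true_and] at hg
        rcases hv g with e | e | e
        · exact absurd (norm_eq_zero.mp e) hg.2
        · rw [e, one_pow]
        · exact absurd e hg.1)]
      simp
    have : (((d ^ 2 - 1) * Z.card : ℕ) : ℝ) = O.card := by
      push_cast [Nat.cast_sub hd1]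
      change _ + ∑ g ∈ S, _ = _ at h1
      linarith
    exact_mod_cast this

end Cfsg.Agent.S4574
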