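import Cfsg.Statements.S4575
import Cfsg.Agent.Lib.Blk.Two

set_option autoImplicit false
open Cfsg

namespace Cfsg.Agent.S4575

open CfsgLib.Blk CfsgLib.Char CfsgLib.Block
open scoped ComplexConjugate

/-- Let B be a 2-block of the finite group G (relative to a maximal ideal M of the algebraic integers containing 2) of defect d with defect group D. Let z be an element of D commuting with every element of D, and let b be a block of the centralizer of z with defect group D that induces B (a major subsection (z, b)). If the number of irreducible characters in B exceeds the 2-regular rank of b by at most three, then B contains at most 2 ^ d irreducible characters. -/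
theorem result {G : Type*} [Group G] [Finite G] (M : Ideal Cfsg.AlgInt) (hM : Cfsg.IsPModular 2 M) (B : Set (Cfsg.IrrCharacter G)) (hB : Cfsg.IsPBlock M B) (D : Subgroup G) (hD : Cfsg.IsDefectGroup 2 M B D) (z : G) (hzD : z ∈ D) (hzc : ∀ d ∈ D, d * z = z * d) (b : Set (Cfsg.IrrCharacter ↥(Subgroup.centralizer ({z} : Set G)))) (hb : Cfsg.IsInducedBlock M (Subgroup.centralizer ({z} : Set G)) b B) (hbD : Cfsg.IsDefectGroup 2 M b (D.subgroupOf (Subgroup.centralizer ({z} : Set G)))) (h : Nat.card B ≤ Cfsg.blockRank 2 b + 3) : Nat.card B ≤ 2 ^ Cfsg.blockDefect 2 B := by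
  classical
  have := Fintype.ofFinite G
  have := Fintype.ofFinite (Cu z)
  have : Fact (Nat.Prime 2) := ⟨Nat.prime_two⟩
  obtain ⟨k, hk⟩ := pElt_of_mem_defect hD hzD
  have hd := defect_eq_of_subgroupOf hM hB hD (le_Cu_of_comm hzc) hb.1 hbD
  by_cases hd0 : Cfsg.blockDefect 2 B = 0
  · rw [card_eq_one_of_defect_zero hM hB hd0]; exact Nat.one_le_two_pow
  set d := Cfsg.blockDefect 2 B with hdd
  have h2li : ∀ n, n ≠ 0 → Cfsg.MemLocalIdeal M ((2 : ℂ) ^ n) := fun n hn => by
    have := (li_natCast_iff hM (2 ^ n)).2 (dvd_pow_self 2 hn)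
    exact_mod_cast this
  have h2c : ∀ n, (2 : ℂ) ^ n ∈ cycInt (2 ^ (k + 1)) := fun n =>
    pow_mem (by exact_mod_cast natCast_mem (cycInt (2 ^ (k + 1))) 2) n
  let A : Cfsg.IrrCharacter G → Cfsg.IrrCharacter G → ℂ := fun χ ψ =>
    (if χ = ψ then (2 : ℂ) ^ d else 0) - au 2 z b χ ψ
  have hsq : ∀ χ ∈ bf B, ∑ ψ ∈ bf B, A χ ψ * conj (A χ ψ) = (2 : ℂ) ^ d * A χ χ := by
    intro χ hχ
    have h1 := sum_au_mul_conj hM ⟨k, hk⟩ hb χ
    rw [hd] at h1
    push_cast at h1
    have h2 : ∀ ψ, A χ ψ * conj (A χ ψ) = au 2 z b χ ψ * conj (au 2 z b χ ψ) +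
        if χ = ψ then (2 : ℂ) ^ d * ((2 : ℂ) ^ d - 2 * au 2 z b χ χ) else 0 := fun ψ => by
      simp only [A]
      split_ifs with h
      · subst h; rw [map_sub, conj_au, map_pow, map_ofNat]; ring
      · simp
    simp only [h2, Finset.sum_add_distrib, h1, Finset.sum_ite_eq, if_pos hχ, A, if_true]
    ring
  have hlk : Cfsg.blockRank 2 b ≤ Nat.card B := by
    have h1 := sum_au_self hM ⟨k, hk⟩ hb
    have h2 : 0 ≤ ∑ χ ∈ bf B, tav (A χ χ) := Finset.sum_nonneg fun χ hχ =>
      tav_diag_nonneg (k := k + 1) (A := A) (d := d) Nat.prime_two (fun χ _ ψ _ => sub_mem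
        (by split_ifs; exacts [h2c _, zero_mem _]) (au_mem_cycInt_succ hk b χ ψ)) hχ
        (by exact_mod_cast hsq χ hχ)
    rw [← map_sum] at h2
    simp only [A, if_true, Finset.sum_sub_distrib, h1, Finset.sum_const, hd] at h2
    rw [show (bf B).card • (2 : ℂ) ^ d - ((2 : ℕ) : ℂ) ^ d * (Cfsg.blockRank 2 b : ℂ) =
      ((2 ^ d * ((bf B).card - Cfsg.blockRank 2 b : ℤ) : ℤ) : ℂ) by push_cast; ring,
      tav_intCast] at h2
    have h3 : (0 : ℤ) ≤ 2 ^ d * ((bf B).card - Cfsg.blockRank 2 b : ℤ) := by exact_mod_cast h2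
    have h4 := nonneg_of_mul_nonneg_right h3 (by positivity)
    rw [card_bf]; omega
  have key := three_bound (s := bf B) (A := A) (k := k + 1) (d := d) hM
    (fun χ _ ψ _ => sub_mem (by split_ifs; exacts [h2c _, zero_mem _])
      (au_mem_cycInt_succ hk b χ ψ))
    (fun χ _ => by simp only [A, if_true, map_sub, conj_au, map_pow, map_ofNat]) hsq
    (l := Nat.card B - Cfsg.blockRank 2 b) (by
      have h1 := sum_au_self hM ⟨k, hk⟩ hb
      simp only [A, if_true, Finset.sum_sub_distrib, h1, Finset.sum_const, hd]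
      rw [Nat.cast_sub hlk, card_bf]; push_cast; ring) (by omega)
    (fun χ => Cfsg.blockHeight 2 B (χ : G → ℂ))
    (fun χ hχ h ψ hψ => by
      obtain ⟨y, hy, hy', he⟩ := exists_au_eq_unit hM hk hb hd (mem_bf.1 hχ) (mem_bf.1 hψ) h
      by_cases hχψ : χ = ψ
      · subst hχψ
        refine ⟨2 ^ d - y, sub_mem (h2c _) hy, fun h1 => hy' ?_, ?_⟩
        · simpa using li_sub hM (h2li d hd0) h1
        · simp only [A, if_true, he, h]; simp
      · refine ⟨-y, neg_mem hy, fun h1 => hy' (li_neg_iff.1 h1), ?_⟩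
        simp only [A, if_neg hχψ, he]; push_cast; ring)
    (fun ψ hψ h => by
      obtain ⟨y, hy, hy', he⟩ := exists_au_eq_li hM hk hb hd (mem_bf.1 hψ) (mem_bf.1 hψ) h
      have h1 := height_add_two_le hM hB (mem_bf.1 hψ) h
      obtain ⟨r, hr⟩ := Nat.exists_eq_add_of_le h1
      refine ⟨fun h0 => ?_, 2 ^ (2 + r) - y, sub_mem (h2c _) hy, li_sub hM (h2li _ (by omega)) hy',
        ?_⟩
      · obtain ⟨χ₀, hχ₀, h00⟩ := exists_height_zero (p := 2) (IsPBlock_nonempty hM hB)
        have h2 := hsq ψ hψ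
        rw [h0, mul_zero] at h2
        simp only [Complex.mul_conj] at h2
        have h3 : ∑ χ ∈ bf B, Complex.normSq (A ψ χ) = 0 := by exact_mod_cast h2
        have h4 := (Finset.sum_eq_zero_iff_of_nonneg fun χ _ => Complex.normSq_nonneg _).1 h3 χ₀
          (mem_bf.2 hχ₀)
        have h5 : ψ ≠ χ₀ := by rintro rfl; exact h h00
        simp only [A, if_neg h5, zero_sub, Complex.normSq_neg, Complex.normSq_eq_zero] at h4
        exact au_ne_zero_of_major hM ⟨k, hk⟩ hb hd hχ₀ (mem_bf.1 hψ) h00 h4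
      · simp only [A, if_true, he]
        rw [hdd, hr]; push_cast; ring)
  have h3 : ∑ _ψ ∈ bf B, 3 ≤ 3 * 2 ^ d := by
    refine le_trans (Finset.sum_le_sum fun ψ _ => ?_) key
    split_ifs with h
    · exact le_rfl
    · have h1 : 2 ^ 1 ≤ 2 ^ Cfsg.blockHeight 2 B (ψ : G → ℂ) :=
        Nat.pow_le_pow_right (by norm_num) (Nat.one_le_iff_ne_zero.2 h)
      omega
  rw [Finset.sum_const, smul_eq_mul] at h3
  rw [card_bf]; omega

end Cfsg.Agent.S4575
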