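import Mathlib
import Cfsg.Statements.S4580
import Cfsg.Agent.Lib.Cover.Dade
import Cfsg.Agent.Lib.Block.Real

set_option autoImplicit false
open Cfsg

namespace Cfsg.Agent.S4580

open CfsgLib CfsgLib.Cover CfsgLib.Block CfsgLib.Char CfsgLib.Fusion in

/-- Let N be a normal subgroup of the finite group G, M a maximal ideal of the algebraic integers containing 2, and θ a real-valued irreducible character of N of odd degree that extends to G (some irreducible character of G restricts to θ). Then θ has an extension to G lying in the principal 2-block of G. -/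
theorem result {G : Type*} [Group G] [Finite G] (N : Subgroup G) [N.Normal] (M : Ideal Cfsg.AlgInt) (hM : Cfsg.IsPModular 2 M) (θ : Cfsg.IrrCharacter N) (hreal : ∀ n : N, ((θ : N → ℂ) n).im = 0) (hodd : Odd (Cfsg.charDegree (θ : N → ℂ))) (hext : ∃ η : Cfsg.IrrCharacter G, ∀ n : N, (η : G → ℂ) n = (θ : N → ℂ) n) :
    ∃ η : Cfsg.IrrCharacter G, (∀ n : N, (η : G → ℂ) n = (θ : N → ℂ) n) ∧ η ∈ Cfsg.principalBlock M G := by
  obtain ⟨η, hη⟩ := hext
  obtain ⟨β, hβ, h⟩ := CharDeep.exists_linear_of_extensions N θ.2 (irr_isCharacter η)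
    (irr_isCharacter (irrBar η)) hη (fun n => by
      rw [irrBar_apply', hη, Complex.conj_eq_iff_im, hreal])
  obtain ⟨a, m, hm, hG⟩ := Nat.exists_eq_pow_mul_and_not_dvd (Nat.card_pos (α := G)).ne' 2
    (by norm_num)
  obtain ⟨k, rfl⟩ : ∃ k, m = 2 * k + 1 := ⟨m / 2, by omega⟩
  let χ : Cfsg.IrrCharacter G := ⟨(η : G → ℂ) * fun g => (((β ^ (k + 1)) g : ℂˣ) : ℂ),
    isIrr_mul_of_one_eq_one η.2 (isCharacter_of_isIrr (isIrr_unitsHom _)) (by simp)⟩
  have hχ : ∀ g, (χ : G → ℂ) g = (η : G → ℂ) g * (β g : ℂ) ^ (k + 1) := fun g => by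
    simp [χ]
  have h1 : ∀ n : N, (χ : G → ℂ) n = (θ : N → ℂ) n := fun n => by
    rw [hχ, hβ, hη]; simp
  refine ⟨χ, h1, ?_⟩
  have hd : ¬ 2 ∣ Cfsg.charDegree (χ : G → ℂ) := by
    rw [ChDeg.deg_congr (h1 1)]
    exact hodd.not_two_dvd_nat
  rw [← eq_principalBlock_of_inv hM (isPBlock_blockOf χ)
    (blockDefect_eq_of_not_dvd (mem_blockOf_self hM χ) hd) (mem_blockOf_self hM χ) fun g hg => ?_]
  · exact mem_blockOf_self hM χ
  have h2 : orderOf g ∣ 2 * k + 1 :=
    (((Nat.Prime.coprime_iff_not_dvd Nat.prime_two).2 hg).symm.pow_right a).dvd_of_dvd_mul_left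
      (hG ▸ orderOf_dvd_natCard g)
  have h3 : (β g : ℂ) ^ (2 * k + 1) = 1 := by
    rw [← Units.val_pow_eq_pow_val, ← map_pow, orderOf_dvd_iff_pow_eq_one.1 h2, map_one,
      Units.val_one]
  have h4 : (χ : G → ℂ) g⁻¹ = (χ : G → ℂ) g := by
    rw [hχ, hχ, ← irrBar_apply, h, map_inv, Units.val_inv_eq_inv_val]
    have := (β g).ne_zero
    rw [inv_pow]
    field_simp
    linear_combination (-(η : G → ℂ) g * (β g : ℂ)) * h3
  rw [centralChar_eq_div χ.2, centralChar_eq_div χ.2, h4, BrPair.Ce, centralizer_singleton_inv,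
    sub_self]
  exact li_zero hM

end Cfsg.Agent.S4580
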