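import Mathlib
import Cfsg.Statements.S4581
import Cfsg.Agent.Lib.McKay.Final
import Cfsg.Agent.Lib.PGroup.Basic

set_option autoImplicit false
open Cfsg

namespace Cfsg.Agent.S4581

section
open CfsgLib.McKay CfsgLib.Char CfsgLib.ChDeg Subgroup
open scoped ComplexConjugate

theorem real_iff {H : Type*} [Group H] [Finite H] {χ : H → ℂ} (hχ : IsIrrCharacter H χ) :
    (∀ g, (χ g).im = 0) ↔ ∀ g, χ g⁻¹ = χ g :=
  forall_congr' fun g => by rw [char_inv (isCharacter_of_isIrr hχ), Complex.conj_eq_iff_im]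

theorem good_iff {H : Type*} [Group H] [Finite H] {k : ℕ} (hk : ∀ g : H, g ^ k = g⁻¹)
    (χ : IrrCharacter H) : Good 2 k (χ : H → ℂ) ↔
      (∀ g, ((χ : H → ℂ) g).im = 0) ∧ Odd (charDegree (χ : H → ℂ)) := by
  rw [real_iff χ.2, Good, and_comm, funext_iff, ← Nat.not_even_iff_odd, even_iff_two_dvd]
  simp only [pw_apply, hk]

theorem forall_iff_card {α : Type*} [Finite α] (p q : α → Prop) :
    (∀ a, q a → p a) ↔ Nat.card {a // p a ∧ q a} = Nat.card {a // q a} := by
  constructor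
  · intro h
    exact Nat.card_congr (Equiv.subtypeEquivRight fun a => ⟨fun h' => h'.2, fun h' => ⟨h a h', h'⟩⟩)
  · intro h a ha
    have hb := (Nat.bijective_iff_injective_and_card
      (fun x : {a // p a ∧ q a} => (⟨x.1, x.2.2⟩ : {a // q a}))).mpr
      ⟨fun x y e => Subtype.ext (Subtype.mk.inj e), h⟩
    obtain ⟨x, hx⟩ := hb.2 ⟨a, ha⟩
    exact (Subtype.mk.inj hx) ▸ x.2.1

theorem eq_one_of_odd {H : Type*} [Group H] [Finite H] (hH : Odd (Nat.card H)) {g : H}
    (h : IsConj g g⁻¹) : g = 1 := by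
  obtain ⟨x, hx⟩ := isConj_iff.mp h
  obtain ⟨m, hm⟩ := hH
  have h1 : Commute (x ^ 2) g := by
    have : x * (x * g * x⁻¹) * x⁻¹ = g := by
      rw [hx, show x * g⁻¹ * x⁻¹ = (x * g * x⁻¹)⁻¹ by group, hx, inv_inv]
    rw [Commute, SemiconjBy, pow_two]
    conv_rhs => rw [← this]
    group
  have h2 : ∀ y : H, (y ^ 2) ^ (m + 1) = y := fun y => by
    rw [← pow_mul, show 2 * (m + 1) = Nat.card H + 1 by omega, pow_succ, pow_card_eq_one', one_mul]
  have h3 : Commute x g := h2 x ▸ h1.pow_left (m + 1)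
  rw [h3.eq, mul_inv_cancel_right] at hx
  rw [← h2 g, pow_two, show g * g = 1 from mul_eq_one_iff_eq_inv.mpr hx, one_pow]

theorem local_iff {G : Type*} [Group G] [Finite G] (P : Sylow 2 G) (N : Subgroup G)
    (hN : N = normalizer ((P : Subgroup G) : Set G)) :
    (∀ ψ : IrrCharacter N, Odd (charDegree (ψ : N → ℂ)) → ∀ g, ((ψ : N → ℂ) g).im = 0) ↔
      (commutator (P : Subgroup G) = frattini (P : Subgroup G) ∧ N = (P : Subgroup G)) := by
  have : Fact (Nat.Prime 2) := ⟨Nat.prime_two⟩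
  constructor
  · intro h
    have hNP : N = P := by
      have hPN : (P : Subgroup G) ≤ N := hN ▸ le_normalizer
      have := normal_subgroupOf_of_le_normalizer hN.le
      have hodd : Odd (Nat.card (N ⧸ (P : Subgroup G).subgroupOf N)) :=
        Nat.not_even_iff_odd.mp fun h' => P.not_dvd_index
          (h'.two_dvd.trans (relIndex_dvd_index_of_le hPN))
      refine le_antisymm (fun g hg => ?_) hPN
      refine (QuotientGroup.eq_one_iff (N := (P : Subgroup G).subgroupOf N) ⟨g, hg⟩).mp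
        (eq_one_of_odd hodd (isConj_of_irr_eq fun χ hχ => ?_))
      exact ((real_iff (isIrr_infl _ hχ)).mp (h ⟨_, isIrr_infl _ hχ⟩
        (hodd.of_dvd_nat (deg_dvd_card hχ))) ⟨g, hg⟩).symm
    subst hNP
    refine ⟨le_antisymm (CfsgLib.PGroup.commutator_le_frattini P.isPGroup')
      (CfsgLib.PGroup.frattini_le_of_pow_mem (p := 2) le_rfl fun x => ?_), rfl⟩
    refine mem_of_forall_irr _ fun χ hχ h1 => ?_
    have h2 : χ 1 = 1 := (irr_one_eq_one_iff hχ).mpr fun g hg =>
      (mem_charKer (isCharacter_of_isIrr hχ)).mpr (h1 g hg)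
    have h3 := (real_iff hχ).mp (h ⟨χ, hχ⟩ (by
      change Odd (charDegree χ)
      rw [(deg_eq_one_iff (isCharacter_of_isIrr hχ)).mpr h2]; exact odd_one)) x
    rw [pow_two, char_mul_of_one_eq_one (isCharacter_of_isIrr hχ) h2]
    nth_rewrite 1 [← h3]
    rw [← char_mul_of_one_eq_one (isCharacter_of_isIrr hχ) h2, inv_mul_cancel]
  · rintro ⟨h, rfl⟩ ψ hψ
    have hc := irr_isCharacter ψ
    have h1 := deg_eq_one_of_isPGroup P.isPGroup' ψ.2 hψ.not_two_dvd_nat
    refine (real_iff ψ.2).mpr fun g => ?_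
    have h2 : g ^ 2 ∈ cker (ψ : _ → ℂ) := (deg_eq_one_iff_commutator_le ψ.2).mp h1
      (h ▸ CfsgLib.PGroup.pow_mem_frattini P.isPGroup' g)
    rw [← char_mul_of_mem_cker hc h2 g⁻¹, pow_two, mul_inv_cancel_right]

end

open CfsgLib.McKay CfsgLib.Char Subgroup in

/-- Let G be a finite solvable group, P a Sylow 2-subgroup and N its normalizer. Then G and N have the same number of real-valued irreducible characters of odd degree; and every odd-degree irreducible character of G is real-valued exactly when the derived subgroup of P equals the Frattini subgroup of P and P is its own normalizer in G. -/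
theorem result {G : Type*} [Group G] [Finite G] [Group.IsSolvable G] (P : Sylow 2 G) :
    Nat.card {χ : Cfsg.IrrCharacter G // (∀ g : G, ((χ : G → ℂ) g).im = 0) ∧ Odd (Cfsg.charDegree (χ : G → ℂ))} =
      Nat.card {ψ : Cfsg.IrrCharacter (Subgroup.normalizer ((P : Subgroup G) : Set G)) // (∀ g, ((ψ : Subgroup.normalizer ((P : Subgroup G) : Set G) → ℂ) g).im = 0) ∧ Odd (Cfsg.charDegree (ψ : Subgroup.normalizer ((P : Subgroup G) : Set G) → ℂ))} ∧
    ((∀ χ : Cfsg.IrrCharacter G, Odd (Cfsg.charDegree (χ : G → ℂ)) → ∀ g : G, ((χ : G → ℂ) g).im = 0) ↔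
      (commutator (P : Subgroup G) = frattini (P : Subgroup G) ∧ Subgroup.normalizer ((P : Subgroup G) : Set G) = (P : Subgroup G))) := by
  have : Fact (Nat.Prime 2) := ⟨Nat.prime_two⟩
  obtain ⟨n, hn⟩ : ∃ n, Nat.card G = n + 1 := ⟨_, (Nat.succ_pred_eq_of_pos Nat.card_pos).symm⟩
  have hk : ∀ g : G, g ^ n = g⁻¹ := fun g => by
    rw [eq_inv_iff_mul_eq_one, ← pow_succ, ← hn, pow_card_eq_one']
  have h := cnt_fixed_eq (k := n) (e := 1) (by rw [hn]; simp)
    (fun g => by rw [pow_one, pow_two, pow_mul, hk, hk, inv_inv]) (fun g _ => hk g) P.isPGroup' ⊥ ⊤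
    (normalizer ((P : Subgroup G) : Set G)) bot_le bot_le (fun _ => 1) CfsgLib.Char.isIrr_one rfl
    (normalizer_eq_top ⊥).ge (fun g _ => ⟨(normalizer_eq_top ⊥).ge trivial, fun _ _ _ => rfl⟩)
    le_top (by rw [relIndex_top_right]; exact P.not_dvd_index) (by simp)
  rw [cnt_bot, cnt_bot, card_good_top] at h
  have hk' : ∀ g : normalizer ((P : Subgroup G) : Set G), g ^ n = g⁻¹ := fun g =>
    Subtype.ext (hk g)
  simp only [good_iff hk, good_iff hk'] at h
  refine ⟨h, ?_⟩
  have h2 := mckay (CfsgLib.PLocal.PSolv.of_isSolvable) P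
  simp only [← even_iff_two_dvd, Nat.not_even_iff_odd] at h2
  rw [forall_iff_card, h, h2, ← forall_iff_card]
  exact local_iff P _ rfl

end Cfsg.Agent.S4581
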