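import Cfsg.Statements.S4582
import Cfsg.Agent.Lib.Syl2EA.Basic
import Cfsg.Agent.Lib.SylTools.TransferCtrl

set_option autoImplicit false
open Cfsg

namespace Cfsg.Agent.S4582

open Subgroup CfsgLib.Syl2EA in
theorem aux {G : Type*} [Group G] [Finite G] (N : Subgroup G) [N.Normal] (P : Subgroup G)
    (h2 : IsPGroup 2 P) (hi : Odd P.index) (hNP : ∀ g : G, ∃ p ∈ P, ∃ n ∈ N, g = p * n)
    (hP : ∀ x ∈ P, x ^ 2 ∈ (P ⊓ N) ⊔ ⁅P, P⁆) (hQ : EA 2 (P ⊓ N))
    (hodd : Odd (Nat.card (Abelianization N))) : EA 2 P := by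
  have hA : IsPGroup 2 (Abelianization P) := h2.of_surjective _ (QuotientGroup.mk'_surjective _)
  have hA' : ∀ (a : Abelianization P) (n : ℕ), Odd n → a ^ n = 1 → a = 1 := by
    intro a n hn h
    obtain ⟨k, hk⟩ := hA a
    rw [← orderOf_eq_one_iff]
    exact Nat.eq_one_of_dvd_coprimes ((Nat.coprime_two_right.2 hn).pow_right k)
      (orderOf_dvd_of_pow_eq_one h) (orderOf_dvd_of_pow_eq_one hk)
  set V := MonoidHom.transfer (Abelianization.of : P →* Abelianization P)
  have hN : ∀ n ∈ N, V n = 1 := fun n hn => hA' _ _ hodd (by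
    rw [show V n = Abelianization.lift (V.comp N.subtype) (Abelianization.of ⟨n, hn⟩) from rfl, ← map_pow,
      pow_card_eq_one', map_one])
  have hV : ∀ g, MonoidHom.transfer ((powMonoidHom 2).comp (Abelianization.of : P →* Abelianization P)) g =
      V g ^ 2 := by
    intro g
    have := Fintype.ofFinite (Quotient (MulAction.orbitRel (zpowers g) (G ⧸ P)))
    rw [MonoidHom.transfer_eq_prod_quotient_orbitRel_zpowers_quot,
      MonoidHom.transfer_eq_prod_quotient_orbitRel_zpowers_quot, ← Finset.prod_pow]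
    rfl
  intro x hx
  refine (pow_mem_comm_iff ⟨x, hx⟩).2 (hA' _ _ hi ?_)
  have h3 := CfsgLib.SylTools.transfer_eq_pow_of_ctrl
    ((powMonoidHom 2).comp (Abelianization.of : P →* Abelianization P)) ⟨x, hx⟩ (by
      intro m a h
      obtain ⟨p, hp, n, hn, rfl⟩ := hNP a
      have h4 : (p⁻¹ * x ^ m * p)⁻¹ * ((p * n)⁻¹ * x ^ m * (p * n)) ∈ P ⊓ N := by
        refine mem_inf.2 ⟨mul_mem (inv_mem (mul_mem (mul_mem (inv_mem hp) (pow_mem hx m)) hp)) h, ?_⟩
        have := mul_mem (‹N.Normal›.conj_mem _ (inv_mem hn) (p⁻¹ * x ^ m * p)⁻¹) hn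
        convert this using 1; group
      have h5 := (pow_mem_comm_iff ⟨_, h4.1⟩).1 (commutator_mono inf_le_left inf_le_left (hQ _ h4))
      have h6 : (⟨_, h⟩ : P) = (⟨p, hp⟩⁻¹ * ⟨x, hx⟩ ^ m * ⟨p, hp⟩) * ⟨_, h4.1⟩ :=
        Subtype.ext (mul_inv_cancel_left _ _).symm
      rw [h6, map_mul, map_mul, map_mul, map_pow, map_inv, inv_mul_cancel_comm]
      exact mul_eq_left.2 h5)
  rw [hV, ← map_pow] at h3
  refine h3.symm.trans ((show _ ≤ V.ker from sup_le (fun y hy => hN y (mem_inf.1 hy).2) ?_) (hP x hx))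
  exact (commutator_mono le_top le_top).trans (Abelianization.commutator_subset_ker V)


/-- Let N be a normal subgroup of the finite group G, P a Sylow 2-subgroup of G and Q = P ∩ N. Suppose that P/QP' and Q/Q' are elementary abelian (every square of an element of P lies in the subgroup generated by Q and the derived subgroup of P, and every square of an element of Q lies in the derived subgroup of Q), and that the commutator factor group N/N' has odd order. Then P/P' is elementary abelian. -/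
theorem result {G : Type*} [Group G] [Finite G] (N : Subgroup G) [N.Normal] (P : Sylow 2 G)
    (hP : ∀ x ∈ (P : Subgroup G), x ^ 2 ∈ ((P : Subgroup G) ⊓ N) ⊔ ⁅(P : Subgroup G), (P : Subgroup G)⁆)
    (hQ : ∀ x ∈ (P : Subgroup G) ⊓ N, x ^ 2 ∈ ⁅(P : Subgroup G) ⊓ N, (P : Subgroup G) ⊓ N⁆)
    (hodd : Odd (Nat.card (Abelianization N))) :
    ∀ x ∈ (P : Subgroup G), x ^ 2 ∈ ⁅(P : Subgroup G), (P : Subgroup G)⁆ := by
  have h1 : (P : Subgroup G) ≤ (P : Subgroup G) ⊔ N := le_sup_left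
  have h2 : N ≤ (P : Subgroup G) ⊔ N := le_sup_right
  have hi := Subgroup.subtype_injective ((P : Subgroup G) ⊔ N)
  have h3 := (aux (N.subgroupOf ((P : Subgroup G) ⊔ N)) ((P : Subgroup G).subgroupOf ((P : Subgroup G) ⊔ N)) (P.subtype h1).isPGroup'
    (Nat.odd_iff.2 (Nat.two_dvd_ne_zero.1 (P.subtype h1).not_dvd_index)) ?_ ?_ ?_ ?_).map
      ((P : Subgroup G) ⊔ N).subtype
  · rwa [Subgroup.map_subgroupOf_eq_of_le h1] at h3
  · rintro ⟨g, hg⟩
    obtain ⟨p, hp, n, hn, rfl⟩ := Subgroup.mem_sup_of_normal_right.1 hg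
    exact ⟨⟨p, h1 hp⟩, hp, ⟨n, h2 hn⟩, hn, rfl⟩
  · intro x hx
    rw [← Subgroup.mem_map_iff_mem hi, Subgroup.map_sup, Subgroup.map_commutator, Subgroup.map_inf _ _ _ hi,
      Subgroup.map_subgroupOf_eq_of_le h1, Subgroup.map_subgroupOf_eq_of_le h2]
    exact hP x hx
  · refine CfsgLib.Syl2EA.EA.of_map hi ?_
    rwa [Subgroup.map_inf _ _ _ hi, Subgroup.map_subgroupOf_eq_of_le h1, Subgroup.map_subgroupOf_eq_of_le h2]
  · rwa [Nat.card_congr (Subgroup.subgroupOfEquivOfLe h2).abelianizationCongr.toEquiv]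

end Cfsg.Agent.S4582
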