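import Mathlib
import Cfsg.Statements.S4583
import Cfsg.Agent.Lib.Cover.Dade

set_option autoImplicit false
open Cfsg

namespace Cfsg.Agent.S4583

open CfsgLib CfsgLib.Cover CfsgLib.Block CfsgLib.Char CfsgLib.Fusion in

/-- Let N be a normal subgroup of the finite group G, p a prime, M a maximal ideal of the algebraic integers containing p, and P a Sylow p-subgroup of G. Let θ be an irreducible character of N of degree prime to p lying in the principal p-block of N, and suppose θ extends to the subgroup NP (some irreducible character of NP restricts to θ). Then some irreducible character χ of G of degree prime to p in the principal p-block of G lies over θ (θ is a constituent of the restriction of χ to N). -/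
theorem result {G : Type*} [Group G] [Finite G] (N : Subgroup G) [N.Normal] (p : ℕ) [Fact p.Prime] (M : Ideal Cfsg.AlgInt) (hM : Cfsg.IsPModular p M) (P : Sylow p G)
    (θ : Cfsg.IrrCharacter N) (hθ : θ ∈ Cfsg.principalBlock M N) (hdeg : ¬ p ∣ Cfsg.charDegree (θ : N → ℂ))
    (hext : ∃ η : Cfsg.IrrCharacter ↥(N ⊔ (P : Subgroup G)), ∀ n : N, (η : ↥(N ⊔ (P : Subgroup G)) → ℂ) (Subgroup.inclusion le_sup_left n) = (θ : N → ℂ) n) :
    ∃ χ : Cfsg.IrrCharacter G, χ ∈ Cfsg.principalBlock M G ∧ ¬ p ∣ Cfsg.charDegree (χ : G → ℂ) ∧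
      haveI := Fintype.ofFinite N; Cfsg.classInner (fun n : N => (χ : G → ℂ) n) (θ : N → ℂ) ≠ 0 := by
  obtain ⟨η, hη⟩ := hext
  have := Fintype.ofFinite N
  let H : Subgroup G := N ⊔ (P : Subgroup G)
  let L : Subgroup G := H ⊔ BrPair.Cz (P : Subgroup G)
  have := Fintype.ofFinite L
  have h1 : η ∈ Cfsg.principalBlock M H :=
    mem_principal_of_over_of_pow hM le_sup_left (le_top.trans (top_le_Nz N))
      (fun t ht => exists_pow_mem_of_mem_sup P.isPGroup' ht) hθ (by
        rw [funext hη, classInner_irr_self θ.2]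
        exact one_ne_zero)
  have hPL : (P : Subgroup G) ≤ L := le_sup_right.trans le_sup_left
  obtain ⟨ξ, hξ, h2⟩ := dade_in hM (L := L) le_sup_left
    (sup_le Subgroup.le_normalizer ((le_inf (le_top.trans (top_le_Nz N)) (BrPair.Cz_le_Nz _)).trans
      (BrPair.inf_Nz_le_Nz_sup _ _))) (sylIn_of_sylow_le P hPL) le_sup_right
    (sup_le_sup_left (le_inf le_sup_right le_rfl) _) h1
  have hNL : N ≤ L := le_sup_left.trans le_sup_left
  have h3 : (fun n : N => (ξ : L → ℂ) ⟨n, hNL n.2⟩) = θ := funext fun n =>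
    (h2 (Subgroup.inclusion le_sup_left n)).trans (hη n)
  obtain ⟨χ, hχ, h4, h5⟩ := exists_not_dvd_over_of_induced hM
    (isInducedBlock_principal hM P.isPGroup' hPL le_sup_right) hξ
    (fun h => P.not_dvd_index (h.trans (Subgroup.index_dvd_of_le hPL)))
    (by rwa [ChDeg.deg_congr (congrFun h3 1)])
  refine ⟨χ, hχ, h4, ?_⟩
  have h6 := ChDeg.inner_res_ne_zero_trans hNL (irr_isCharacter χ) ξ.2 (irr_isCharacter θ) h5 (by
    rw [h3, classInner_irr_self θ.2]
    exact one_ne_zero)
  rwa [classInner_congr_fintype]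

end Cfsg.Agent.S4583
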