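import Cfsg.Statements.S4585
import Cfsg.Agent.Lib.ChDeg.AbelCyc

set_option autoImplicit false
open Cfsg
open scoped commutatorElement

namespace Cfsg.Agent.S4585

/-- Let p be a prime and P a group of order p^4. Then P' has index p^2 in P if and only if P has maximal nilpotency class, that is, nilpotency class exactly 3. -/
theorem result {P : Type*} [Group P] [Finite P] (p : ℕ) [Fact p.Prime] (hP : Nat.card P = p ^ 4) :
    (commutator P).index = p ^ 2 ↔ Group.nilpotencyClass P = 3 := by
  have hpp := (Fact.out : p.Prime)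
  have hPG : IsPGroup p P := IsPGroup.of_card hP
  have hnil : Group.IsNilpotent P := hPG.isNilpotent
  have hinj : ∀ a b : ℕ, p ^ a = p ^ b → a = b := fun a b h =>
    Nat.pow_right_injective hpp.two_le h
  have hcard : ∀ H : Subgroup P, ∃ k ≤ 4, Nat.card H = p ^ k := fun H =>
    (Nat.dvd_prime_pow hpp).1 (hP ▸ H.card_subgroup_dvd_card)
  have hind : ∀ H : Subgroup P, ∃ k ≤ 4, H.index = p ^ k := fun H =>
    (Nat.dvd_prime_pow hpp).1 (hP ▸ H.index_dvd_card)
  have hlt : ∀ N : Subgroup P, N.Normal → N ≠ ⊥ → ∀ k l : ℕ, Nat.card N = p ^ k →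
      Nat.card ↥(⁅N, (⊤ : Subgroup P)⁆) = p ^ l → l < k := by
    intro N hN hne k l hk hl
    have h1 := CfsgLib.ChDeg.commutator_top_ne_self N hne
    have h2 : ⁅N, (⊤ : Subgroup P)⁆ ≤ N := Subgroup.commutator_le_left _ _
    have h3 : Nat.card ↥(⁅N, (⊤ : Subgroup P)⁆) ≤ Nat.card N := Subgroup.card_le_of_le h2
    rw [hk, hl, Nat.pow_le_pow_iff_right hpp.one_lt] at h3
    rcases h3.lt_or_eq with h | h
    · exact h
    · exact absurd (Subgroup.eq_of_le_of_card_ge h2 (by rw [hk, hl, h])) h1
  have e1 : Subgroup.lowerCentralSeries (⊤ : Subgroup P) 1 = commutator P :=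
    Subgroup.top_lowerCentralSeries_one
  have e2 : Subgroup.lowerCentralSeries (⊤ : Subgroup P) 2 = ⁅commutator P, (⊤ : Subgroup P)⁆ := by
    rw [Subgroup.lowerCentralSeries_succ, e1]
  have e3 : Subgroup.lowerCentralSeries (⊤ : Subgroup P) 3 = ⁅⁅commutator P, (⊤ : Subgroup P)⁆, ⊤⁆ := by
    rw [Subgroup.lowerCentralSeries_succ, e2]
  have hcm := (commutator P).card_mul_index
  -- if P/Z has prime index or one then P is abelian
  have habel : ∀ N : Subgroup P, N ≤ Subgroup.center P → N.index ∣ p → commutator P = ⊥ := by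
    intro N hN hi
    have h1 : (Subgroup.center P).index ∣ p := (Subgroup.index_dvd_of_le hN).trans hi
    have : IsCyclic (P ⧸ Subgroup.center P) := isCyclic_of_card_dvd_prime h1
    have := isMulCommutative_of_isCyclic_quotient_center_self P
    exact commutator_eq_bot P
  constructor
  · intro hi
    have hc : Nat.card (commutator P) = p ^ 2 :=
      Nat.eq_of_mul_eq_mul_right (pow_pos hpp.pos 2) (by rw [← hi, hcm, hP, hi]; ring)
    have hne : commutator P ≠ ⊥ := by
      intro h
      rw [h, Subgroup.card_bot] at hc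
      have := hinj 0 2 (by rw [← hc, pow_zero])
      omega
    apply le_antisymm
    · rw [← Subgroup.lowerCentralSeries_eq_bot_iff_nilpotencyClass_le, e3]
      obtain ⟨l, -, hl⟩ := hcard ⁅commutator P, (⊤ : Subgroup P)⁆
      have h1 := hlt _ inferInstance hne 2 l hc hl
      by_cases h2 : ⁅commutator P, (⊤ : Subgroup P)⁆ = ⊥
      · rw [h2]; simp
      obtain ⟨m, -, hm⟩ := hcard ⁅⁅commutator P, (⊤ : Subgroup P)⁆, ⊤⁆
      have h3 := hlt _ inferInstance h2 l m hl hm
      have : m = 0 := by omega
      rw [this, pow_zero] at hm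
      exact Subgroup.card_eq_one.1 hm
    · by_contra h
      have h2 : Group.nilpotencyClass P ≤ 2 := by omega
      rw [← Subgroup.lowerCentralSeries_eq_bot_iff_nilpotencyClass_le, e2,
        Subgroup.commutator_eq_bot_iff_le_centralizer] at h2
      have hZ : commutator P ≤ Subgroup.center P := fun z hz =>
        Subgroup.mem_center_iff.2 fun g => Subgroup.mem_centralizer_iff.1 (h2 hz) g trivial
      have h3 : (Subgroup.center P).index ∣ p ^ 2 := hi ▸ Subgroup.index_dvd_of_le hZ
      obtain ⟨k, hk2, hk⟩ := (Nat.dvd_prime_pow hpp).1 h3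
      interval_cases k
      · exact hne (habel _ le_rfl (by rw [hk]; simp))
      · exact hne (habel _ le_rfl (by rw [hk]; simp))
      · have := (CfsgLib.ChDeg.card_commutator_eq_iff_of_card_eq_pow_four p hP).2 hk
        have := hinj 1 2 (by rw [pow_one, ← hc, this])
        omega
  · intro h3
    have h2 : ⁅commutator P, (⊤ : Subgroup P)⁆ ≠ ⊥ := by
      rw [← e2, Ne, Subgroup.lowerCentralSeries_eq_bot_iff_nilpotencyClass_le]
      omega
    have hne : commutator P ≠ ⊥ := by
      intro h; rw [h] at h2; simp at h2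
    obtain ⟨k, -, hk⟩ := hcard (commutator P)
    obtain ⟨l, -, hl⟩ := hcard ⁅commutator P, (⊤ : Subgroup P)⁆
    have h4 := hlt _ inferInstance hne k l hk hl
    have h5 : l ≠ 0 := by
      intro h; rw [h, pow_zero] at hl; exact h2 (Subgroup.card_eq_one.1 hl)
    obtain ⟨m, -, hm⟩ := hind (commutator P)
    rw [hk, hm, hP, ← pow_add] at hcm
    have h6 := hinj _ _ hcm
    have h7 : ¬ m ≤ 1 := by
      intro h
      have h8 : (commutator P).index ∣ p := by
        rw [hm]; interval_cases m <;> simp
      -- P / [P', P] has central subgroup of index dividing p, so is abelian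
      set K := ⁅commutator P, (⊤ : Subgroup P)⁆ with hK
      have hc : IsCyclic (P ⧸ commutator P) := isCyclic_of_card_dvd_prime h8
      obtain ⟨x, hx⟩ := CfsgLib.ChDeg.exists_sup_zpowers_of_isCyclic_quotient (commutator P)
      apply CfsgLib.ChDeg.commutator_top_ne_self (commutator P) hne
      apply le_antisymm (Subgroup.commutator_le_left _ _)
      conv_lhs => rw [commutator_def]
      rw [Subgroup.commutator_le]
      intro g _ h _
      obtain ⟨a, ha, i, rfl⟩ := CfsgLib.ChDeg.exists_mul_zpow_of_sup _ x hx g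
      obtain ⟨b, hb, j, rfl⟩ := CfsgLib.ChDeg.exists_mul_zpow_of_sup _ x hx h
      rw [← QuotientGroup.eq_one_iff]
      have hcen : ∀ a ∈ commutator P, ∀ y : P, Commute (a : P ⧸ K) (y : P ⧸ K) := by
        intro a ha y
        have : ((⁅a, y⁆ : P) : P ⧸ K) = 1 :=
          (QuotientGroup.eq_one_iff _).2 (Subgroup.commutator_mem_commutator ha trivial)
        rw [commutatorElement_def] at this
        simp only [QuotientGroup.mk_mul, QuotientGroup.mk_inv] at this
        exact commutatorElement_eq_one_iff_commute.1 (by rw [commutatorElement_def]; exact this)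
      have hc : Commute ((a * x ^ i : P) : P ⧸ K) ((b * x ^ j : P) : P ⧸ K) := by
        simp only [QuotientGroup.mk_mul]
        apply Commute.mul_left <;> apply Commute.mul_right
        · exact hcen a ha b
        · exact hcen a ha _
        · exact (hcen b hb _).symm
        · simp only [QuotientGroup.mk_zpow]; exact Commute.zpow_zpow_self _ _ _
      have := commutatorElement_eq_one_iff_commute.2 hc
      rw [commutatorElement_def] at this ⊢
      simpa only [QuotientGroup.mk_mul, QuotientGroup.mk_inv] using this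
    have : m = 2 := by omega
    rw [hm, this]

end Cfsg.Agent.S4585
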