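import Cfsg.Statements.S4586
import Cfsg.Agent.Lib.ChDeg.AbelCyc

set_option autoImplicit false
open Cfsg

namespace Cfsg.Agent.S4586

/-- Let p be a prime, P a finite p-group and N a normal subgroup of P of index p. For x ∈ P write c(x) for the number of elements n of N whose commutator x n x⁻¹ n⁻¹ lies in the derived subgroup N' (so c(x)/#N' is the order of the centralizer of x acting on N/N'). Then [P : P'] = p² if and only if c(x) = p·#N' for every x ∈ P outside N, and also if and only if c(x) = p·#N' for some x ∈ P outside N. -/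
theorem result {P : Type*} [Group P] [Finite P] (p : ℕ) [Fact p.Prime] (hP : IsPGroup p P) (N : Subgroup P) [N.Normal] (hN : N.index = p) :
    ((commutator P).index = p ^ 2 ↔ ∀ x : P, x ∉ N →
        Nat.card {n : N // x * n * x⁻¹ * (n : P)⁻¹ ∈ (commutator N).map N.subtype} = p * Nat.card (commutator N)) ∧
    ((commutator P).index = p ^ 2 ↔ ∃ x : P, x ∉ N ∧
        Nat.card {n : N // x * n * x⁻¹ * (n : P)⁻¹ ∈ (commutator N).map N.subtype} = p * Nat.card (commutator N)) := by
  have hpp := (Fact.out : p.Prime)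
  set K : Subgroup P := (commutator N).map N.subtype with hK
  have hKeq : K = ⁅N, N⁆ := by
    rw [hK, commutator_def, Subgroup.map_commutator, ← MonoidHom.range_eq_map, Subgroup.range_subtype]
  have hKn : K.Normal := by rw [hKeq]; infer_instance
  have hKN : K ≤ N := by rw [hKeq]; exact Subgroup.commutator_le_left _ _
  have hKc : K ≤ commutator P := by
    rw [hKeq]; exact Subgroup.commutator_mono le_top le_top
  have hcardK : Nat.card K = Nat.card (commutator N) :=
    Subgroup.card_map_of_injective N.subtype_injective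
  set f := QuotientGroup.mk' K with hf
  have hfs : Function.Surjective f := QuotientGroup.mk'_surjective K
  have hker : f.ker = K := QuotientGroup.ker_mk' K
  set A := N.map f with hA
  have hAn : A.Normal := Subgroup.Normal.map inferInstance f hfs
  have hab : ∀ a ∈ A, ∀ b ∈ A, a * b = b * a := by
    rintro _ ⟨a, ha, rfl⟩ _ ⟨b, hb, rfl⟩
    have : f (a * b * a⁻¹ * b⁻¹) = 1 := by
      rw [← MonoidHom.mem_ker, hker, hKeq]
      exact Subgroup.commutator_mem_commutator ha hb
    simp only [map_mul, map_inv] at this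
    calc f a * f b = (f a * f b * (f a)⁻¹ * (f b)⁻¹) * (f b * f a) := by group
      _ = _ := by rw [this, one_mul]
  have hcardmap : ∀ H : Subgroup P, K ≤ H → Nat.card H = Nat.card (H.map f) * Nat.card K := by
    intro H hH
    have h1 := H.card_mul_index
    have h2 := (H.map f).card_mul_index
    have h3 : (H.map f).index = H.index := Subgroup.index_map_eq H hfs (by rw [hker]; exact hH)
    have h4 := K.card_mul_index
    have h5 : Nat.card (P ⧸ K) = K.index := rfl
    rw [h3, h5] at h2
    have h6 : H.index ≠ 0 := Subgroup.index_ne_zero_of_finite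
    apply Nat.eq_of_mul_eq_mul_right (Nat.pos_of_ne_zero h6)
    rw [h1, ← h4, ← h2]; ring
  have key : ∀ x : P, x ∉ N → ((commutator P).index = p ^ 2 ↔
      Nat.card {n : N // x * n * x⁻¹ * (n : P)⁻¹ ∈ K} = p * Nat.card (commutator N)) := by
    intro x hx
    have h1 := CfsgLib.ChDeg.sup_zpowers_eq_top_of_prime_index N hpp hN x hx
    have h2 : A ⊔ Subgroup.zpowers (f x) = ⊤ := by
      rw [hA, ← MonoidHom.map_zpowers, ← Subgroup.map_sup, h1, ← MonoidHom.range_eq_map,
        MonoidHom.range_eq_top]
      exact hfs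
    have h3 := CfsgLib.ChDeg.card_eq_commutator_mul_centralizer A hab (f x) h2
    set C := (A ⊓ Subgroup.centralizer ({f x} : Set (P ⧸ K))).comap f with hC
    have hKC : K ≤ C := by
      intro k hk
      rw [← hker] at hk
      rw [hC, Subgroup.mem_comap, MonoidHom.mem_ker.1 hk]
      exact Subgroup.one_mem _
    have hCm : C.map f = A ⊓ Subgroup.centralizer ({f x} : Set (P ⧸ K)) :=
      Subgroup.map_comap_eq_self_of_surjective hfs _
    have hmem : ∀ g : P, g ∈ C ↔ g ∈ N ∧ x * g * x⁻¹ * g⁻¹ ∈ K := by
      intro g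
      rw [hC, Subgroup.mem_comap, Subgroup.mem_inf, ← Subgroup.mem_comap, hA,
        Subgroup.comap_map_eq, hker, sup_of_le_left hKN, Subgroup.mem_centralizer_iff]
      simp only [Set.mem_singleton_iff, forall_eq]
      rw [show x * g * x⁻¹ * g⁻¹ ∈ K ↔ f (x * g * x⁻¹ * g⁻¹) = 1 by
        rw [← MonoidHom.mem_ker, hker]]
      simp only [map_mul, map_inv]
      apply and_congr Iff.rfl
      constructor
      · intro h; rw [h]; group
      · intro h
        calc f x * f g = (f x * f g * (f x)⁻¹ * (f g)⁻¹) * (f g * f x) := by group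
          _ = _ := by rw [h, one_mul]
    have h4 : Nat.card {n : N // x * n * x⁻¹ * (n : P)⁻¹ ∈ K} = Nat.card C := by
      apply Nat.card_congr
      exact
        { toFun := fun n => ⟨n.1.1, (hmem _).2 ⟨n.1.2, n.2⟩⟩
          invFun := fun c => ⟨⟨c.1, ((hmem _).1 c.2).1⟩, ((hmem _).1 c.2).2⟩
          left_inv := fun _ => rfl
          right_inv := fun _ => rfl }
    have h5 : (commutator P).map f = commutator (P ⧸ K) := by
      rw [commutator_def, Subgroup.map_commutator, ← MonoidHom.range_eq_map,
        MonoidHom.range_eq_top.2 hfs, commutator_def]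
    have h6 := hcardmap _ hKC
    have h7 := hcardmap _ hKc
    have h8 := hcardmap _ hKN
    rw [hCm] at h6
    rw [h5] at h7
    rw [← hA, h3] at h8
    have h9 := N.card_mul_index
    have h10 := (commutator P).card_mul_index
    rw [h4, h6, ← hcardK]
    rw [hN, h8] at h9
    rw [h7, ← h9] at h10
    have hK0 : 0 < Nat.card K := Nat.card_pos
    have hc0 : 0 < Nat.card (commutator (P ⧸ K)) := Nat.card_pos
    have h11 : (commutator P).index =
        Nat.card ↥(A ⊓ Subgroup.centralizer ({f x} : Set (P ⧸ K))) * p := by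
      apply Nat.eq_of_mul_eq_mul_left (Nat.mul_pos hc0 hK0)
      rw [h10]; ring
    rw [h11, pow_two]
    constructor
    · intro h
      rw [Nat.eq_of_mul_eq_mul_right hpp.pos h]
    · intro h
      rw [Nat.eq_of_mul_eq_mul_right hK0 h]
  have hex : ∃ x : P, x ∉ N := by
    by_contra h
    push Not at h
    rw [show N = ⊤ from eq_top_iff.2 fun g _ => h g, Subgroup.index_top] at hN
    exact hpp.one_lt.ne hN
  obtain ⟨x₀, hx₀⟩ := hex
  refine ⟨⟨fun h x hx => (key x hx).1 h, fun h => (key x₀ hx₀).2 (h x₀ hx₀)⟩,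
    ⟨fun h => ⟨x₀, hx₀, (key x₀ hx₀).1 h⟩, fun ⟨x, hx, h⟩ => (key x hx).2 h⟩⟩

end Cfsg.Agent.S4586
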