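import Cfsg.Statements.S4591
import Cfsg.Agent.Lib.PF.S1_Ext
import Cfsg.Agent.Lib.PF.S1_Lin
import Cfsg.Agent.Lib.Glaub.Cong
import Cfsg.Agent.Lib.Transfer.Tate
import Cfsg.Agent.Lib.Fgs.ClassSize
import Cfsg.Agent.Lib.Coprime.Abelian
import Cfsg.Agent.Lib.Core.Fitting
import Cfsg.Agent.Lib.Core.Commutator
import Cfsg.Agent.Lib.PGroup.Basic
import Cfsg.Agent.Lib.Block.Omega

set_option autoImplicit false
open Cfsg

namespace Cfsg.Agent.S4591

open CfsgLib CfsgLib.PF CfsgLib.BG CfsgLib.Glaub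
open scoped ComplexConjugate

section aux

variable {G : Type*} [Group G] [Finite G] {p : ℕ}

theorem exists_constt_not_dvd {L : Subgroup G} {χ : G → ℂ} (h : IsChar L χ) {n : ℕ} (hn : χ 1 = n)
    (hp : ¬ p ∣ n) : ∃ ψ, IsIrr L ψ ∧ dot L χ ψ ≠ 0 ∧ ∃ d : ℕ, ψ 1 = d ∧ ¬ p ∣ d := by
  by_contra hc
  push Not at hc
  have h1 : ∀ ψ, ψ ∈ Irr L → ∃ k : ℕ, p ∣ k ∧ dot L χ ψ * ψ 1 = k := by
    intro ψ hψ
    rw [mem_Irr] at hψ
    by_cases h0 : dot L χ ψ = 0
    · exact ⟨0, dvd_zero _, by simp [h0]⟩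
    obtain ⟨m, hm⟩ := h.dot_nat hψ.isChar
    obtain ⟨d, -, hd⟩ := hψ.one_pos
    exact ⟨m * d, (hc ψ hψ h0 d hd).mul_left _, by rw [hm, hd, Nat.cast_mul]⟩
  choose! k hk1 hk2 using h1
  have h2 := CF_apply_expand h.mem_CF 1
  rw [hn, Finset.sum_congr rfl hk2, ← Nat.cast_sum, Nat.cast_inj] at h2
  exact hp (h2 ▸ Finset.dvd_sum hk1)

theorem inKer_of_cent_eq_bot [hp : Fact p.Prime] {P N : Subgroup G} [N.Normal] (hP : IsPGroup p P)
    (hN : N ⊓ Subgroup.centralizer (P : Set G) = ⊥) {χ : G → ℂ} (h : IsIrr ⊤ χ) {n : ℕ}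
    (hn : χ 1 = n) (hpn : ¬ p ∣ n) : InKer N χ := by
  classical
  by_contra hk
  have h0 := h.sum_mul_eq_zero (normalIn_top.2 ‹_›) hk 1
  let _inst := Fintype.ofFinite N
  let _inst : MulAction P N := MulAction.compHom N ((MulAut.conjNormal (H := N)).comp P.subtype)
  have hs : ∀ (a : P) (x : N), ((a • x : N) : G) = a * x * (a : G)⁻¹ := fun _ _ => rfl
  have h1 := congP_sum_fixed hP (X := N) (fun x => χ x) (fun x => h.isVChar.isIntegral _)
    (fun a x => by simp only [hs]; exact CF_conj h.mem_CF _ (Subgroup.mem_top _))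
  have h2 : (Finset.univ.filter fun x : N => ∀ a : P, a • x = x) = {1} := by
    ext x
    simp only [Finset.mem_filter, Finset.mem_univ, true_and, Finset.mem_singleton]
    constructor
    · intro hx
      have : (x : G) ∈ N ⊓ Subgroup.centralizer (P : Set G) := by
        refine Subgroup.mem_inf.2 ⟨x.2, fun a ha => ?_⟩
        have := congrArg Subtype.val (hx ⟨a, ha⟩)
        rw [hs] at this
        exact mul_inv_eq_iff_eq_mul.1 this
      rw [hN, Subgroup.mem_bot] at this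
      exact Subtype.ext this
    · rintro rfl a
      exact Subtype.ext (by rw [hs]; simp)
  rw [h2, Finset.sum_singleton, ← sum_els_subgroup N χ] at h1
  simp only [mul_one] at h0
  rw [h0, OneMemClass.coe_one, hn, ← Nat.cast_zero, congP_nat_iff hp.out.ne_zero, Nat.cast_zero,
    eq_comm, ZMod.natCast_eq_zero_iff] at h1
  exact hpn h1

theorem exists_invariant_irr [hp : Fact p.Prime] {P K : Subgroup G} (hP : IsPGroup p P)
    (hPK : P ≤ 𝒩(K)) {c : G} (hcK : c ∈ K) (hc : c ∈ Subgroup.centralizer (P : Set G))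
    (hc1 : c ≠ 1) :
    ∃ θ, IsIrr K θ ∧ θ ≠ cf1 K ∧ ∀ a ∈ P, cfJ a θ = θ := by
  classical
  by_contra hne
  push Not at hne
  let _inst : MulAction P {θ // θ ∈ Irr K} :=
    { smul := fun a θ => ⟨cfJ (a : G)⁻¹ θ.1,
        mem_Irr.2 ((mem_Irr.1 θ.2).cfJ (inv_mem (hPK a.2)))⟩
      one_smul := fun θ => Subtype.ext (by
        show cfJ ((1 : P) : G)⁻¹ θ.1 = θ.1
        ext x; simp [cfJ_apply])
      mul_smul := fun a b θ => Subtype.ext (by
        show cfJ ((a * b : P) : G)⁻¹ θ.1 = cfJ (a : G)⁻¹ (cfJ (b : G)⁻¹ θ.1)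
        rw [cfJ_cfJ, Subgroup.coe_mul, mul_inv_rev]) }
  have hs : ∀ (a : P) (θ : {θ // θ ∈ Irr K}), (a • θ).1 = cfJ (a : G)⁻¹ θ.1 := fun _ _ => rfl
  have h1 := congP_sum_fixed hP (X := {θ // θ ∈ Irr K}) (fun θ => θ.1 1 * conj (θ.1 c))
    (fun θ => ((mem_Irr.1 θ.2).isVChar.isIntegral _).mul (by
      rw [← (mem_Irr.1 θ.2).isVChar.apply_inv]; exact (mem_Irr.1 θ.2).isVChar.isIntegral _))
    (fun a θ => by
      simp only [hs, cfJ_apply, mul_one, inv_mul_cancel, inv_inv]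
      rw [mul_assoc, ← hc a a.2, inv_mul_cancel_left])
  have h2 : (Finset.univ.filter fun θ : {θ // θ ∈ Irr K} => ∀ a : P, a • θ = θ) =
      {⟨cf1 K, cf1_mem_Irr K⟩} := by
    ext θ
    simp only [Finset.mem_filter, Finset.mem_univ, true_and, Finset.mem_singleton]
    constructor
    · intro hθ
      by_contra h
      obtain ⟨a, ha, ha'⟩ := hne θ.1 (mem_Irr.1 θ.2) (fun h' => h (Subtype.ext h'))
      have := congrArg Subtype.val (hθ ⟨a⁻¹, inv_mem ha⟩)
      rw [hs] at this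
      exact ha' (by simpa using this)
    · rintro rfl a
      exact Subtype.ext (by rw [hs]; exact cfJ_cf1 (inv_mem (hPK a.2)))
  rw [h2, Finset.sum_singleton, Finset.sum_coe_sort (Irr K) (fun θ => θ 1 * conj (θ c)),
    second_orth_of_not_conj (fun g _ => by simpa using hc1)] at h1
  simp only [cf1_apply_of_mem K.one_mem, cf1_apply_of_mem hcK, map_one, mul_one] at h1
  rw [← Nat.cast_zero, ← Nat.cast_one, congP_nat_iff hp.out.ne_zero] at h1
  simp at h1

/-- the intersection of the kernels of the irreducible characters of `p'`-degree -/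
def kerAll (p : ℕ) (G : Type*) [Group G] [Finite G] : Subgroup G :=
  ⨅ χ : {χ : G → ℂ // IsIrr ⊤ χ ∧ ∃ d : ℕ, χ 1 = d ∧ ¬ p ∣ d}, cfker ⊤ χ.1

theorem mem_kerAll {g : G} : g ∈ kerAll p G ↔
    ∀ χ : G → ℂ, IsIrr ⊤ χ → ∀ d : ℕ, χ 1 = d → ¬ p ∣ d → χ g = χ 1 := by
  rw [kerAll, Subgroup.mem_iInf]
  constructor
  · intro h χ hχ d hd hp
    exact (hχ.isChar.mem_cfker.1 (h ⟨χ, hχ, d, hd, hp⟩)).2
  · rintro h ⟨χ, hχ, d, hd, hp⟩
    exact hχ.isChar.mem_cfker.2 ⟨Subgroup.mem_top _, h χ hχ d hd hp⟩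

theorem kerAll_normal : (kerAll p G).Normal :=
  Subgroup.normal_iInf_normal (fun χ => normalIn_top.1 (cfker_normal χ.2.1.mem_CF))

theorem inKer_of_le_kerAll (hp : p.Prime) {H A : Subgroup G} (hH : ¬ p ∣ H.index) (hAH : A ≤ H)
    (hA : A ≤ kerAll p G) {ψ : G → ℂ} (h : IsIrr H ψ) {d : ℕ} (hd : ψ 1 = d) (hpd : ¬ p ∣ d) :
    InKer A ψ := by
  obtain ⟨χ, hχ, h0, e, he, hpe⟩ := exists_constt_not_dvd (p := p) (h.isChar.Ind (L := ⊤) le_top)
    (n := H.index * d) (by rw [Ind_apply_one le_top, hd, Subgroup.relIndex_top_right, Nat.cast_mul])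
    (fun h => ((Nat.Prime.dvd_mul hp).1 h).elim hH hpd)
  rw [dot_Ind_left le_top _ hχ.mem_CF] at h0
  exact hχ.isChar.inKer_constt_Res le_top h (fun h' => h0 (dot_eq_zero_symm h')) hAH
    (fun a ha => mem_kerAll.1 (hA ha) χ hχ e he hpe)

theorem kerAll_inf_le [hp : Fact p.Prime] (P : Sylow p G) :
    kerAll p G ⊓ P ≤ ⁅(P : Subgroup G), (P : Subgroup G)⁆ := by
  intro x hx
  refine mem_of_forall_irr_inKer ((NormalIn.refl _).commg (NormalIn.refl _)) hx.2 ?_
  intro χ hχ hk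
  have h1 := (hχ.isLin_iff_inKer_der.2 hk).one
  exact inKer_of_le_kerAll hp.out P.not_dvd_index inf_le_right inf_le_left hχ (d := 1)
    (by rw [h1, Nat.cast_one]) (by rw [Nat.dvd_one]; exact hp.out.ne_one) x hx

theorem kerAll_inf_cent [hp : Fact p.Prime] (P : Sylow p G) :
    (pPrimeCore p G ⊓ kerAll p G) ⊓ Subgroup.centralizer ((P : Subgroup G) : Set G) = ⊥ := by
  have := kerAll_normal (p := p) (G := G)
  rw [eq_bot_iff]
  intro c hc
  rw [Subgroup.mem_bot]
  by_contra hc1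
  set K := pPrimeCore p G ⊓ kerAll p G with hK
  have hKn : K ⊲ ⊤ := normalIn_top.2 inferInstance
  obtain ⟨θ, hθ, hθ1, hinv⟩ := exists_invariant_irr (K := K) P.2 (le_top.trans hKn.2) hc.1 hc.2 hc1
  have hKp : (Nat.card K).Coprime p :=
    Nat.Coprime.coprime_dvd_left (Subgroup.card_dvd_of_le inf_le_left)
      (Core.coprime_card_pPrimeCore p G)
  obtain ⟨χ, hχ, hres⟩ := hall_invariant_extendible (L := K ⊔ P)
    (hKn.of_le le_sup_left le_top) (by
      rw [Subgroup.relIndex_sup_left]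
      obtain ⟨k, hk⟩ := IsPGroup.iff_card.1 P.2
      refine Nat.Coprime.coprime_dvd_right (Subgroup.relIndex_dvd_card _ _) ?_
      rw [hk]; exact hKp.pow_right k) hθ
    (sup_le (le_inertia le_sup_left hθ.mem_CF)
      (fun a ha => mem_inertia.2 ⟨Subgroup.mem_sup_right ha, hinv a ha⟩))
  obtain ⟨d, -, hd⟩ := hθ.one_pos
  have h1 : InKer K χ := inKer_of_le_kerAll hp.out
    (Fgs.not_dvd_index_of_sylow_le P le_sup_right) le_sup_left inf_le_right hχ (d := d)
    (by rw [← hd, ← hres, Res_apply_of_mem _ K.one_mem])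
    (fun h => (Nat.Prime.coprime_iff_not_dvd hp.out).1 hKp.symm (h.trans (hθ.one_dvd_card hd)))
  apply hθ1
  rw [← hθ.inKer_self_iff, ← hres, inKer_Res le_rfl]
  exact h1

theorem kerAll_le_sup [hp : Fact p.Prime] (P : Sylow p G) :
    kerAll p G ≤ (pPrimeCore p G ⊓ kerAll p G) ⊔ ⁅(P : Subgroup G), (P : Subgroup G)⁆ := by
  have := kerAll_normal (p := p) (G := G)
  obtain ⟨S, N, hN, hc⟩ := Transfer.hasNormalPComplement_of_inf_le_frattini P (kerAll p G)
    ((kerAll_inf_le P).trans (by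
      rw [← Subgroup.map_subtype_commutator]
      exact Subgroup.map_mono (PGroup.commutator_le_frattini P.2)))
  have h1 : N ≤ (pPrimeCore p G).subgroupOf (kerAll p G) := by
    rw [← Core.pPrimeCore_eq_subgroupOf_of_normal]
    refine Core.le_pPrimeCore ?_
    rw [← hc.index_eq_card]
    exact ((Nat.Prime.coprime_iff_not_dvd hp.out).2 S.not_dvd_index).symm
  have h2 : ((pPrimeCore p G ⊓ kerAll p G).relIndex (kerAll p G)).Coprime
      ((P : Subgroup G).relIndex (kerAll p G)) := by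
    rw [Subgroup.inf_relIndex_right]
    refine Nat.Coprime.coprime_dvd_left (Subgroup.index_dvd_of_le h1)
      (Nat.Coprime.coprime_dvd_right (Fgs.relIndex_dvd_index_of_normal_right _ _) ?_)
    rw [hc.symm.index_eq_card]
    exact Core.isPGroup_coprime_card S.2
      ((Nat.Prime.coprime_iff_not_dvd hp.out).2 P.not_dvd_index).symm
  intro k hk
  obtain ⟨x, hx, y, hy, rfl⟩ := Coprime.exists_mul_of_coprime_relIndex inf_le_right h2 hk
  refine mul_mem (Subgroup.mem_sup_left hx) (Subgroup.mem_sup_right (kerAll_inf_le P ⟨?_, hy⟩))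
  exact (Subgroup.mul_mem_cancel_left _ hx.2).1 hk

theorem normalCore_le_kerAll [hp : Fact p.Prime] (P : Sylow p G) (N : Subgroup G) [N.Normal]
    (hN : N ⊓ Subgroup.centralizer ((P : Subgroup G) : Set G) = ⊥) :
    (N ⊔ ⁅(P : Subgroup G), (P : Subgroup G)⁆).normalCore ≤ kerAll p G := by
  intro g hg
  rw [mem_kerAll]
  intro χ hχ d hd hpd
  have h1 := inKer_of_cent_eq_bot P.2 hN hχ hd hpd
  obtain ⟨ψ, hψ, h0, e, he, hpe⟩ := exists_constt_not_dvd (p := p)
    (hχ.isChar.Res (H := N ⊔ P) le_top) (n := d) (by rw [Res_apply_of_mem _ (one_mem _), hd]) hpd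
  rw [dot_Res_left_of_le le_rfl] at h0
  have h2 : InKer N ψ := hχ.isChar.inKer_constt_Res le_top hψ h0 le_sup_left h1
  have h3 := hψ.one_dvd_index_ker ((normalIn_top.2 ‹_›).of_le le_sup_left le_top) h2 he
  rw [Subgroup.relIndex_sup_left] at h3
  obtain ⟨k, hk⟩ := IsPGroup.iff_card.1 P.2
  have h4 : e = 1 := Nat.eq_one_of_dvd_coprimes
    (Nat.Coprime.pow_right k ((Nat.Prime.coprime_iff_not_dvd hp.out).2 hpe).symm) dvd_rfl
    (hk ▸ h3.trans (Subgroup.relIndex_dvd_card _ _))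
  have h5 := (hψ.isChar.isLin_of_one (by rw [he, h4, Nat.cast_one])).inKer_der
  have h6 : InKer (N ⊔ ⁅(P : Subgroup G), (P : Subgroup G)⁆) ψ :=
    hψ.isChar.inKer_sup.2 ⟨h2, h5.mono (Subgroup.commutator_mono le_sup_right le_sup_right)⟩
  have h7 : N ⊔ ⁅(P : Subgroup G), (P : Subgroup G)⁆ ≤ N ⊔ P :=
    sup_le_sup_left (Core.commutator_le_of_le le_rfl le_rfl) _
  exact (hχ.inKer_iff_constt le_top hψ h0 ((Subgroup.normalCore_le _).trans h7)
    (normalIn_top.2 inferInstance).2).2 (h6.mono (Subgroup.normalCore_le _)) g hg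

end aux


/-- Let G be a finite group, p a prime and P a Sylow p-subgroup, and let N be the largest normal subgroup of G in which P has trivial centralizer (N is normal with C_N(P) = 1 and contains every normal subgroup with that property). Then the intersection of the kernels of the irreducible characters of G of degree prime to p is the normal core in G of the subgroup N·P' (P' the derived subgroup of P). In particular, when G has no nontrivial normal subgroup of order prime to p, that intersection is the normal core of P'. -/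
theorem result {G : Type*} [Group G] [Finite G] (p : ℕ) [Fact p.Prime] (P : Sylow p G) (N : Subgroup G) [N.Normal]
    (hN : N ⊓ Subgroup.centralizer ((P : Subgroup G) : Set G) = ⊥)
    (hmax : ∀ L : Subgroup G, L.Normal → L ⊓ Subgroup.centralizer ((P : Subgroup G) : Set G) = ⊥ → L ≤ N) :
    {g : G | ∀ χ : Cfsg.IrrCharacter G, ¬ p ∣ Cfsg.charDegree (χ : G → ℂ) → (χ : G → ℂ) g = (χ : G → ℂ) 1} =
      ((N ⊔ ⁅(P : Subgroup G), (P : Subgroup G)⁆).normalCore : Set G) := by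
  have hn := kerAll_normal (p := p) (G := G)
  have h1 : kerAll p G = (N ⊔ ⁅(P : Subgroup G), (P : Subgroup G)⁆).normalCore := by
    refine le_antisymm (Subgroup.normal_le_normalCore.2 ((kerAll_le_sup P).trans ?_))
      (normalCore_le_kerAll P N hN)
    exact sup_le_sup_right (hmax _ inferInstance (kerAll_inf_cent P)) _
  rw [← h1]
  ext g
  rw [SetLike.mem_coe, mem_kerAll, Set.mem_ofPred_eq]
  constructor
  · intro h χ hχ d hd hpd
    exact h ⟨χ, isIrr_top.1 hχ⟩ (by rwa [Block.charDegree_eq_of_eq hd])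
  · intro h χ hχ
    exact h χ (isIrr_top.2 χ.2) _ (Block.charDegree_eq (Char.isCharacter_of_isIrr χ.2)).symm hχ

end Cfsg.Agent.S4591
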