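import Cfsg.Statements.S4601
import Cfsg.Agent.Lib.ChDeg.SylNorm
import Cfsg.Agent.Lib.Transfer.Residual

set_option autoImplicit false
open Cfsg

namespace Cfsg.Agent.S4601

open CfsgLib CfsgLib.ChDeg Subgroup

theorem qsolv {G : Type*} [Group G] [Finite G] {p q : ℕ} [hp : Fact p.Prime] [hq : Fact q.Prime]
    (hG : IsPSolvable q G)
    (h : ∀ y : G, (∃ k : ℕ, y ^ q ^ k = 1) → ¬ p ∣ (centralizer ({y} : Set G)).index)
    (Q : Sylow q G) : ¬ p ∣ (normalizer ((Q : Subgroup G) : Set G)).index := by
  induction hn : Nat.card G using Nat.strong_induction_on generalizing G with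
  | _ n ih =>
  subst hn
  rcases subsingleton_or_nontrivial G with _ | _
  · rw [Subsingleton.elim (normalizer _) ⊤, index_top]
    exact hp.out.not_dvd_one
  have key : ∀ (N : Subgroup G) [N.Normal], N ≠ ⊥ → ¬ p ∣ (normalizer
      (((Q : Subgroup G).map (QuotientGroup.mk' N) : Subgroup (G ⧸ N)) : Set (G ⧸ N))).index := by
    intro N _ hN
    refine ih _ (Core.card_quotient_lt_of_ne_bot hN) (PLocal.PSolv.quotient hG N) ?_
      (Q.mapSurjective (QuotientGroup.mk'_surjective N)) rfl
    rintro y ⟨k, hk⟩ e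
    obtain ⟨R, hR⟩ := (Core.isPGroup_zpowers_iff.mpr ⟨k, hk⟩).exists_le_sylow
    obtain ⟨R, rfl⟩ := Sylow.mapSurjective_surjective (QuotientGroup.mk'_surjective N) q R
    obtain ⟨x, hx, rfl⟩ := hR (mem_zpowers y)
    refine h x (Core.isPGroup_subgroup_iff.mp R.isPGroup' x hx) (e.trans ?_)
    rw [← index_comap_of_surjective _ (QuotientGroup.mk'_surjective N)]
    refine index_dvd_of_le fun g hg => ?_
    rw [mem_comap, mem_centralizer_singleton_iff, ← map_mul, ← map_mul,
      mem_centralizer_singleton_iff.mp hg]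
  rcases PLocal.PSolv.pCore_ne_bot_or hG with h1 | h1
  · have := key _ h1
    rwa [← index_comap_of_surjective _ (QuotientGroup.mk'_surjective _),
      comap_normalizer_eq_of_surjective _ (QuotientGroup.mk'_surjective _),
      SolvStruct.comap_map_mk'_of_le _ (Core.pCore_le_sylow Q)] at this
  · set N := pPrimeCore q G
    have hcop : (Nat.card (Q : Subgroup G)).Coprime (Nat.card N) :=
      Core.isPGroup_coprime_card Q.isPGroup' (Core.coprime_card_pPrimeCore q G)
    have hs := Coprime.isSolvable_of_isPGroup Q.isPGroup'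
    have := key _ h1
    rw [← Coprime.map_normalizer_quotient N hcop (Or.inl hs)] at this
    rw [index_eq_relIndex_mul_index_map _ N]
    refine fun e => (hp.out.dvd_mul.mp e).elim (fun e => ?_) this
    have hQN : ∀ A : Subgroup G, A ≤ normalizer (N : Set G) := fun A => by
      rw [normalizer_eq_top]; exact le_top
    obtain ⟨P, hPN, hP, hPi, hQP⟩ := Coprime.exists_invariant_sylow' p (hQN Q) hcop (Or.inl hs)
    refine hPi (e.trans (relIndex_dvd_of_le_left N ?_))
    refine le_trans ?_ (centralizer_le_normalizer _)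
    intro x hx y hy
    have hz : zpowers y ≤ Q := zpowers_le.mpr hy
    have h2 := Coprime.not_dvd_relIndex_inf_centralizer (hQN (zpowers y))
      (Coprime.coprime_of_le hcop hz le_rfl) (Or.inl (Coprime.isSolvable_zpowers y)) hPN hP hPi
      (hz.trans hQP)
    rw [Core.centralizer_zpowers] at h2
    obtain ⟨R, hR⟩ := exists_sylow_le (h y (Core.isPGroup_subgroup_iff.mp Q.isPGroup' y hy))
    have h3 : ¬ p ∣ (N ⊓ centralizer {y}).relIndex N := fun e =>
      Transfer.not_dvd_relIndex_sylow_of_normal R N (by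
        rw [← inf_relIndex_right]
        exact e.trans (relIndex_dvd_of_le_left N (le_inf inf_le_right (inf_le_left.trans hR))))
    have h4 : ¬ p ∣ (P ⊓ centralizer {y}).relIndex N := by
      rw [← relIndex_mul_relIndex (P ⊓ centralizer {y}) (N ⊓ centralizer {y}) N
        (inf_le_inf_right _ hPN) inf_le_left]
      exact fun e => (hp.out.dvd_mul.mp e).elim h2 h3
    have h5 := Coprime.eq_of_sylow_le (hP.to_le inf_le_left) h4 inf_le_left hPN hP
    exact (mem_centralizer_singleton_iff.mp (h5.le hx).2).symm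

/-- Let p and q be primes and G a finite group that is p-solvable or q-solvable, in which no q-element has conjugacy class size divisible by p. Then some Sylow p-subgroup of G normalizes some Sylow q-subgroup of G. -/
theorem result {G : Type*} [Group G] [Finite G] (p q : ℕ) [Fact p.Prime] [Fact q.Prime] (hsolv : Cfsg.IsPSolvable p G ∨ Cfsg.IsPSolvable q G)
    (h : ∀ y : G, (∃ k : ℕ, orderOf y = q ^ k) → ¬ p ∣ (Subgroup.centralizer ({y} : Set G)).index) :
    ∃ (P : Sylow p G) (Q : Sylow q G), (P : Subgroup G) ≤ Subgroup.normalizer ((Q : Subgroup G) : Set G) := by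
  rcases eq_or_ne p q with rfl | hpq
  · obtain ⟨P⟩ : Nonempty (Sylow p G) := inferInstance
    exact ⟨P, P, le_normalizer⟩
  have h' : ∀ y : G, (∃ k : ℕ, y ^ q ^ k = 1) → ¬ p ∣ (centralizer ({y} : Set G)).index := by
    rintro y ⟨k, hk⟩
    obtain ⟨j, -, hj⟩ := (Nat.dvd_prime_pow Fact.out).mp (orderOf_dvd_of_pow_eq_one hk)
    exact h y ⟨j, hj⟩
  obtain ⟨Q⟩ : Nonempty (Sylow q G) := inferInstance
  suffices ¬ p ∣ (normalizer ((Q : Subgroup G) : Set G)).index from
    (exists_sylow_le this).imp fun P hP => ⟨Q, hP⟩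
  rcases hsolv with hG | hG
  · refine not_dvd_index_normalizer _ (Core.coprime_card_pPrimeCore p G) Q fun y hy => ?_
    obtain ⟨R, hR⟩ := exists_sylow_le (h' y (Core.isPGroup_subgroup_iff.mp Q.isPGroup' y hy))
    refine mem_pPrimeCore_of_centralizes hG (Core.subgroup_coprime_card_iff.mp
      (coprime_card_of_isPGroup hpq Q.isPGroup') y hy) R fun x hx _ => ?_
    rw [mem_centralizer_singleton_iff.mp (hR hx)]
    simp
  · exact qsolv hG h' Q

end Cfsg.Agent.S4601
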