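import Cfsg.Statements.S4604
import Cfsg.Agent.Lib.Glaub.Cong
import Cfsg.Agent.Lib.Brauer.PiSplit
import Cfsg.Agent.Lib.Char.CAut
import Cfsg.Agent.Lib.ChDeg.Avg

set_option autoImplicit false
open Cfsg

namespace Cfsg.Agent.S4604

open CfsgLib CfsgLib.Char CfsgLib.Glaub CfsgLib.Brauer

theorem congP_sum_pow {p : ℕ} (hp : p.Prime) (a : ℕ) (s : Multiset ℂ)
    (hs : ∀ ε ∈ s, IsIntegral ℤ ε) :
    IsIntegral ℤ s.sum ∧ CongP p (s.sum ^ p ^ a) (s.map fun ε => ε ^ p ^ a).sum := by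
  induction s using Multiset.induction_on with
  | empty => exact ⟨isIntegral_zero, CongP.of_eq (by simp [hp.ne_zero])⟩
  | cons x s ih =>
    obtain ⟨h1, h2⟩ := ih fun ε h => hs ε (Multiset.mem_cons_of_mem h)
    have hx := hs x (Multiset.mem_cons_self _ _)
    rw [Multiset.sum_cons, Multiset.map_cons, Multiset.sum_cons]
    refine ⟨hx.add h1, CongP.trans ?_ ((CongP.refl _).add h2)⟩
    obtain ⟨r, hr⟩ := exists_add_pow_prime_pow_eq hp (⟨x, hx⟩ : AlgInt) ⟨_, h1⟩ a
    refine ⟨x * s.sum * r, (hx.mul h1).mul r.2, ?_⟩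
    have := congrArg Subtype.val hr
    push_cast at this
    rw [this]; ring

theorem congP_char_pow {G : Type*} [Group G] [Finite G] {p : ℕ} (hp : p.Prime) (a : ℕ)
    {χ : G → ℂ} (hχ : IsCharacter G χ) (g : G) : CongP p (χ g ^ p ^ a) (χ (g ^ p ^ a)) := by
  obtain ⟨s, -, h1, h2⟩ := exists_eigenvalues hχ g
  have e1 := h2 1
  have e2 := h2 (p ^ a : ℕ)
  simp only [zpow_one, Multiset.map_id', zpow_natCast] at e1 e2
  rw [e1, e2]
  exact (congP_sum_pow hp a s fun ε h =>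
    isIntegral_of_pow_eq_one (orderOf_pos g) (h1 ε h)).2

theorem pow_eq {G : Type*} [Group G] [Finite G] {p : ℕ} (hp : p.Prime) {x x' : G}
    (hx : (∃ k : ℕ, orderOf (x * x'⁻¹) = p ^ k) ∧ Commute (x * x'⁻¹) x' ∧ ¬ p ∣ orderOf x') :
    x ^ p ^ (Nat.card G).factorization p = x' ^ p ^ (Nat.card G).factorization p := by
  obtain ⟨⟨k, hk⟩, hc, -⟩ := hx
  have h1 : orderOf (x * x'⁻¹) ∣ p ^ (Nat.card G).factorization p := by
    rw [hk]
    exact pow_dvd_pow _ ((hp.pow_dvd_iff_le_factorization Nat.card_pos.ne').mp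
      (hk ▸ orderOf_dvd_natCard _))
  conv_lhs => rw [← inv_mul_cancel_right x x', hc.mul_pow, orderOf_dvd_iff_pow_eq_one.mp h1,
    one_mul]

/-- Let G be a finite group, p a prime and p^a the p-part of the order of G. Let x, y ∈ G and let x′, y′ be their p-regular parts: x′ has order prime to p, commutes with x·x′⁻¹, and x·x′⁻¹ has p-power order (likewise for y). Then x′ and y′ are conjugate in G if and only if for every irreducible character χ of G the algebraic integer χ(x)^(p^a) − χ(y)^(p^a) is p times an algebraic integer. -/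
theorem result {G : Type*} [Group G] [Finite G] (p : ℕ) [Fact p.Prime] (x y x' y' : G)
    (hx : (∃ k : ℕ, orderOf (x * x'⁻¹) = p ^ k) ∧ Commute (x * x'⁻¹) x' ∧ ¬ p ∣ orderOf x')
    (hy : (∃ k : ℕ, orderOf (y * y'⁻¹) = p ^ k) ∧ Commute (y * y'⁻¹) y' ∧ ¬ p ∣ orderOf y') :
    IsConj x' y' ↔ ∀ χ : Cfsg.IrrCharacter G, ∃ γ : Cfsg.AlgInt,
      (χ : G → ℂ) x ^ (p ^ (Nat.card G).factorization p) - (χ : G → ℂ) y ^ (p ^ (Nat.card G).factorization p) = (p : ℂ) * (γ : ℂ) := by
  have hp : p.Prime := Fact.out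
  have := Fintype.ofFinite G
  set a := (Nat.card G).factorization p
  have h1 : ∀ χ : IrrCharacter G, CongP p ((χ : G → ℂ) x ^ p ^ a) ((χ : G → ℂ) (x' ^ p ^ a)) :=
    fun χ => pow_eq hp hx ▸ congP_char_pow hp a (irr_isCharacter χ) x
  have h2 : ∀ χ : IrrCharacter G, CongP p ((χ : G → ℂ) y ^ p ^ a) ((χ : G → ℂ) (y' ^ p ^ a)) :=
    fun χ => pow_eq hp hy ▸ congP_char_pow hp a (irr_isCharacter χ) y
  constructor
  · intro h χ
    obtain ⟨r, hr, e⟩ := (h1 χ).trans ((CongP.of_eq (classFun_eq_of_isConj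
      (irr_isClassFunction χ) (h.pow _))).trans (h2 χ).symm)
    exact ⟨⟨r, hr⟩, e⟩
  · intro h
    have h3 : ∀ χ : IrrCharacter G, CongP p ((χ : G → ℂ) (x' ^ p ^ a)) ((χ : G → ℂ) (y' ^ p ^ a)) :=
      fun χ => by
        obtain ⟨r, e⟩ := h χ
        exact (h1 χ).symm.trans (CongP.trans ⟨r, r.2, e⟩ (h2 χ))
    have hG : Nat.card G ≠ 0 := Nat.card_pos.ne'
    set n := ordCompl[p] (Nat.card G)
    have hcop : (p ^ a).Coprime n := (Nat.coprime_ordCompl hp hG).pow_left _
    have hmul : p ^ a * n = Nat.card G := Nat.ordProj_mul_ordCompl_eq_self _ _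
    obtain ⟨c, b, hs⟩ := exists_splitExp hcop
    have hn : ∀ z : G, ¬ p ∣ orderOf z → orderOf z ∣ n := fun z hz =>
      (Nat.Coprime.pow_right a (hp.coprime_iff_not_dvd.mpr hz).symm).dvd_of_dvd_mul_left
        (hmul ▸ orderOf_dvd_natCard z)
    have hn0 : n ≠ 0 := fun e => hG (by rw [← hmul, e, mul_zero])
    obtain ⟨k, -, hk⟩ := Nat.exists_mul_mod_eq_of_coprime 1 hcop hn0
    have hback : ∀ z : G, ¬ p ∣ orderOf z → (z ^ p ^ a) ^ k = z := fun z hz => by
      have e := orderOf_dvd_iff_pow_eq_one.mp (hn z hz)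
      rw [← pow_mul, pow_eq_pow_mod _ e, hk, ← pow_eq_pow_mod _ e, pow_one]
    suffices IsConj (x' ^ p ^ a) (y' ^ p ^ a) by
      have := this.pow k
      rwa [hback _ hx.2.2, hback _ hy.2.2] at this
    by_contra hne
    set ψ : G → ℂ := fun z => n * classInd (y' ^ p ^ a) (z ^ b)
    have hψ : IsClassFunction G ψ := isClassFunction_map (isClassFunction_pow
      (isClassFunction_classInd _) b) fun t => n * t
    have hint : ∀ χ : IrrCharacter G, IsIntegral ℤ (classInner ψ χ) := fun χ =>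
      isIntegral_inner_section hs hmul.symm.dvd (isClassFunction_classInd _) (fun z => by
        by_cases e : IsConj z (y' ^ p ^ a)
        · rw [classInd_of_isConj e]; exact isIntegral_one
        · rw [classInd_of_not_isConj e]; exact isIntegral_zero) (irr_isCharacter χ)
    have h4 : CongP p (ψ (x' ^ p ^ a)) (ψ (y' ^ p ^ a)) := by
      rw [classFun_apply_eq_sum hψ, classFun_apply_eq_sum hψ]
      exact CongP.sum _ fun χ _ => (h3 χ).mul_left (hint χ)
    simp only [ψ] at h4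
    rw [hs.symm.pow_eq_self ((orderOf_pow_dvd _).trans (hn _ hx.2.2)),
      hs.symm.pow_eq_self ((orderOf_pow_dvd _).trans (hn _ hy.2.2)), classInd_of_not_isConj hne,
      classInd_of_isConj (IsConj.refl _), mul_zero, mul_one, ← Nat.cast_zero,
      congP_nat_iff hp.ne_zero, Nat.cast_zero, eq_comm, ZMod.natCast_eq_zero_iff] at h4
    exact Nat.not_dvd_ordCompl hp hG h4

end Cfsg.Agent.S4604
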