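import Cfsg.Statements.S4608
import Cfsg.Agent.Lib.Tame.CK16
import Cfsg.Agent.Lib.Cyc.Bound
import Cfsg.Agent.Lib.Star.Gdn

set_option autoImplicit false
open Cfsg

namespace Cfsg.Agent.S4608

open CfsgLib CfsgLib.Cyc CfsgLib.Star CfsgLib.Blk CfsgLib.Block CfsgLib.Char CfsgLib.BrPair

theorem not_comm {G : Type*} [Group G] [Fintype G] {M : Ideal AlgInt} (hM : IsPModular 2 M)
    {B : Set (IrrCharacter G)} (hB : IsPBlock M B) {D : Subgroup G} (hD : IsDefectGroup 2 M B D)
    (hc : Nat.card D = 8) (hl : blockRank 2 B = 1) (hk : Nat.card B = 5) {ψ : IrrCharacter G}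
    (hψ : ψ ∈ B) (h4 : aa 2 B ψ ψ = 4) : ¬ IsMulCommutative D := by
  classical
  intro hab
  have : Fact (Nat.Prime 2) := ⟨Nat.prime_two⟩
  have : ∀ u : G, Fintype (Cu u) := fun u => Fintype.ofFinite _
  obtain ⟨e, h⟩ := exists_maxPair_of_defect hM hB hD
  have hle : ∀ u ∈ D, D ≤ Cu u := fun u hu x hx =>
    mem_Cu.2 (congrArg Subtype.val (hab.1.1 ⟨u, hu⟩ ⟨x, hx⟩))
  have hd : ∀ u ∈ D, blockDefect 2 (bu hM D e u) = blockDefect 2 B := fun u hu =>
    defect_bu_of_central h hB hu (hle u hu)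
  have h8 : 2 ^ blockDefect 2 B = 8 := (card_eq_pow_blockDefect hM hB hD).symm.trans hc
  have hcl : IsClassFunction G (ψ : G → ℂ) := isClassFunction_of_isIrr ψ.2
  have h1 : au 2 1 (bu hM D e 1) ψ ψ = 4 := by
    rw [au, mu_one_irr h hB hψ hψ, hd 1 D.one_mem, ← aa_cast hψ (isGenChar_of_isIrr ψ.2), h4]
    norm_num
  have h0 : blockHeight 2 B (ψ : G → ℂ) ≠ 0 := fun h0 => by
    refine (not_li_au_iff hM (pElt_of_mem h D.one_mem) (induced_bu h hB D.one_mem) ψ ψ).2
      ⟨⟨hψ, h0⟩, hψ, h0⟩ ?_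
    rw [h1]
    exact_mod_cast (li_intCast_iff hM 4).2 (by norm_num)
  have h2 : ∀ u ∈ D, (4 : ℚ) ≤ tav (au 2 u (bu hM D e u) ψ ψ) := fun u hu => by
    obtain ⟨n, hn⟩ := pElt_of_mem h hu
    have h3 := pow_le_tav_au hM hn (induced_bu h hB hu) (hd u hu) hψ h0
    obtain ⟨y, hy, hy', e1⟩ := exists_au_eq_li hM hn (induced_bu h hB hu) (hd u hu) hψ hψ h0
    have h5 : (starRingEnd ℂ) y = y := by
      have := conj_au (p := 2) (bu hM D e u) (ψ : G → ℂ) ψ
      rw [e1, map_mul, map_pow, map_natCast] at this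
      exact mul_left_cancel₀ (pow_ne_zero _ (by norm_num)) this
    have e2 : tav (au 2 u (bu hM D e u) ψ ψ) =
        ((2 ^ blockHeight 2 B (ψ : G → ℂ) : ℕ) : ℚ) * tav y := by
      rw [e1, ← Nat.cast_pow, tav_nat_mul]
    rw [e2] at h3 ⊢
    have h6 : (2 : ℚ) ≤ ((2 ^ blockHeight 2 B (ψ : G → ℂ) : ℕ) : ℚ) := by
      exact_mod_cast Nat.le_self_pow h0 2
    have h7 : 0 < tav y := by
      by_contra h7
      push_cast at h3 h6
      nlinarith
    have := two_le_tav hM hy h5 hy' h7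
    nlinarith
  obtain ⟨R, hR, -⟩ := exists_isFReps h
  have h3 : ∑ u ∈ R, au 2 u (bu hM D e u) ψ ψ = ((8 : ℕ) : ℂ) := by
    have := sum_mu_reps h hB hR hcl hcl
    rw [blockPart_irr_of_mem hψ, classInner_irr_self ψ.2] at this
    rw [← h8, Finset.sum_congr rfl fun u hu => by rw [au, hd u (hR.1 u hu)], ← Finset.mul_sum, this]
    simp
  have h5 : R.card ≤ 2 := by
    have := Finset.card_nsmul_le_sum R _ _ fun u hu => h2 u (hR.1 u hu)
    rw [← map_sum, h3, tav_natCast, nsmul_eq_mul] at this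
    have h6 : (R.card : ℚ) ≤ 2 := by push_cast at this; linarith
    exact_mod_cast h6
  have h6 : ∀ u ∈ R.erase 1, blockRank 2 (bu hM D e u) ≤ 3 := fun u hu => by
    have hu1 := Finset.ne_of_mem_erase hu
    have huD := hR.1 u (Finset.mem_of_mem_erase hu)
    have := Fintype.ofFinite (Cu u ⧸ Subgroup.zpowers (uC u))
    have hb := isPBlock_bu h huD
    have hq := isPGroup_ker_qz (pElt_of_mem h huD)
    have hb' := isPBlock_dom (qz_surj u) hq (ker_qz_le u) hM hb
    have hD' := isDefectGroup_dom (qz_surj u) hq (ker_qz_le u) hM hb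
      ((isDefectGroup_subgroupOf_iff hM hb (hle u huD)).2
        (isDef_su_of_central h huD (hle u huD)))
    have c1 := card_map_qz (u := u) (D := D.subgroupOf (Cu u)) huD
    rw [Nat.card_congr (Subgroup.subgroupOfEquivOfLe (hle u huD)).toEquiv, hc,
      card_eq_pow_blockDefect hM hb' hD'] at c1
    have c2 : 2 ≤ orderOf u := by
      have := orderOf_pos u
      have := mt orderOf_eq_one_iff.1 hu1
      omega
    rw [← blockRank_dom (qz_surj u) hq (ker_qz_le u) hM hb]
    generalize Cover.infl (qz u) (qz_surj u) ⁻¹' bu hM D e u = b' at hb' c1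
    have c3 : 2 ^ blockDefect 2 b' ≤ 2 ^ 2 := by nlinarith
    have c4 := card_le_of_defect_le_two hM hb' ((Nat.pow_le_pow_iff_right one_lt_two).1 c3)
    have c5 := blockRank_le_card (p := 2) b'
    by_contra c6
    have := card_eq_one_of_defect_zero hM hb' (defect_zero_of_card_eq_rank hM hb' (by omega))
    omega
  have h7 := card_eq_sum_reps h hB hR
  rw [← Finset.add_sum_erase _ _ (hR.one_mem h), rank_bu_one h hB] at h7
  have h9 := Finset.sum_le_card_nsmul _ _ _ h6
  rw [Finset.card_erase_of_mem (hR.one_mem h), smul_eq_mul] at h9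
  omega

/-- Let G be a finite group, p a prime, M a maximal ideal of the algebraic integers containing p, and B a p-block of G with defect group D. If B has p-regular rank one and exactly five irreducible characters, then D is cyclic of order 5, or D has order 8 and is non-abelian (dihedral or quaternion). -/
theorem result {G : Type*} [Group G] [Finite G] (p : ℕ) [Fact p.Prime] (M : Ideal Cfsg.AlgInt) (hM : Cfsg.IsPModular p M) (B : Set (Cfsg.IrrCharacter G)) (hB : Cfsg.IsPBlock M B) (D : Subgroup G) (hD : Cfsg.IsDefectGroup p M B D)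
    (hl : Cfsg.blockRank p B = 1) (hk : Nat.card B = 5) :
    (Nat.card D = 5) ∨ (Nat.card D = 8 ∧ ¬ IsMulCommutative D) := by
  have := Fintype.ofFinite G
  have hc := card_eq_pow_blockDefect hM hB hD
  have h8 := Tame.pow_defect_le_eight hM hB hl hk.le
  obtain ⟨W⟩ := ModRep.nonempty_wedd (K hM) (MonoidAlgebra (K hM) G)
  obtain ⟨a, ha⟩ := exists_ib_eq_singleton W hB hl
  have h1 := cart_eq_sum_bf hB (ha ▸ Finset.mem_singleton_self a) a
  rw [(cart_eq_pow_of_singleton hB ha).2] at h1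
  have h1' : p ^ blockDefect p B = ∑ χ ∈ bf B, dn W (χ : G → ℂ) a * dn W (χ : G → ℂ) a := by
    exact_mod_cast h1
  have h2 : ∀ ψ ∈ bf B, dn W (ψ : G → ℂ) a = 1 ∨ dn W (ψ : G → ℂ) a = 2 := fun ψ hψ => by
    have h3 := irr_one_eq_sum (W := W) hB (mem_bf.1 hψ)
    rw [ha, Finset.sum_singleton] at h3
    have h4 : dn W (ψ : G → ℂ) a ≠ 0 := fun h4 => charDegree_ne_zero ψ.2 (by rw [h3, h4, zero_mul])
    have h5 := Finset.single_le_sum (f := fun χ : IrrCharacter G =>
      dn W (χ : G → ℂ) a * dn W (χ : G → ℂ) a) (fun _ _ => Nat.zero_le _) hψ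
    have h6 : dn W (ψ : G → ℂ) a ≤ 2 := by nlinarith
    omega
  by_cases h3 : ∀ ψ ∈ bf B, dn W (ψ : G → ℂ) a = 1
  · left
    rw [hc, h1', Finset.sum_congr rfl fun χ hχ => by rw [h3 χ hχ], ← hk, card_bf]
    simp
  push Not at h3
  obtain ⟨ψ, hψ, h3⟩ := h3
  have h4 := (h2 ψ hψ).resolve_left h3
  have h5 : Nat.card D = 8 := by
    classical
    have h6 := Finset.card_nsmul_le_sum ((bf B).erase ψ)
      (fun χ : IrrCharacter G => dn W (χ : G → ℂ) a * dn W (χ : G → ℂ) a) 1 fun χ hχ => by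
        rcases h2 χ (Finset.mem_of_mem_erase hχ) with h | h <;> simp [h]
    rw [← Finset.add_sum_erase _ _ hψ, h4] at h1'
    rw [Finset.card_erase_of_mem hψ, ← card_bf, hk, smul_eq_mul] at h6
    omega
  obtain rfl : p = 2 := by
    have h6 : p ∣ 2 ^ 3 := by
      refine (dvd_pow_self p fun h0 => ?_).trans (hc.symm.trans h5).dvd
      simp [h0, h5] at hc
    exact (Nat.prime_dvd_prime_iff_eq hM.1 Nat.prime_two).1 (hM.1.dvd_of_dvd_pow h6)
  refine Or.inr ⟨h5, not_comm hM hB hD h5 hl hk (mem_bf.1 hψ) ?_⟩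
  rw [aa_eq_sum_acm (W := W) hB (mem_bf.1 hψ) (mem_bf.1 hψ), ha, Finset.sum_singleton,
    Finset.sum_singleton, (cart_eq_pow_of_singleton hB ha).1, h4]
  norm_num

end Cfsg.Agent.S4608
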