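import Cfsg.Statements.S4609
import Cfsg.Agent.Lib.K3B.Main

set_option autoImplicit false
open Cfsg

namespace Cfsg.Agent.S4609

/-- Let G be a finite group, p a prime, M a maximal ideal of the algebraic integers containing p, and B a p-block of G with defect group D containing exactly three irreducible characters. Suppose the number of height-zero characters of B equals the number of height-zero characters of its Brauer correspondent b, the block of N_G(D) with defect group D inducing B (as the Alperin–McKay conjecture predicts). Then D has order 3. -/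
theorem result {G : Type*} [Group G] [Finite G] (p : ℕ) [Fact p.Prime] (M : Ideal Cfsg.AlgInt) (hM : Cfsg.IsPModular p M) (B : Set (Cfsg.IrrCharacter G)) (hB : Cfsg.IsPBlock M B) (D : Subgroup G) (hD : Cfsg.IsDefectGroup p M B D) (hk : Nat.card B = 3)
    (b : Set (Cfsg.IrrCharacter (Subgroup.normalizer (D : Set G)))) (hbB : Cfsg.IsInducedBlock M (Subgroup.normalizer (D : Set G)) b B)
    (hbD : Cfsg.IsDefectGroup p M b (D.subgroupOf (Subgroup.normalizer (D : Set G))))
    (hAM : Nat.card {χ : Cfsg.IrrCharacter G // χ ∈ B ∧ Cfsg.blockHeight p B (χ : G → ℂ) = 0} =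
           Nat.card {ψ : Cfsg.IrrCharacter (Subgroup.normalizer (D : Set G)) // ψ ∈ b ∧ Cfsg.blockHeight p b (ψ : Subgroup.normalizer (D : Set G) → ℂ) = 0}) :
    Nat.card D = 3 := by
  have hn : (D.subgroupOf (Subgroup.normalizer (D : Set G))).Normal := Subgroup.normal_in_normalizer
  have : Finite B := Nat.finite_of_card_ne_zero (by omega)
  have h1 := CfsgLib.K3B.card_le_of_normal hM hbB.1 hbD (hAM ▸ hk ▸
    Nat.card_le_card_of_injective (fun χ => (⟨χ.1, χ.2.1⟩ : B))
      fun χ ψ h => Subtype.ext (congrArg (fun t : B => (t : IrrCharacter G)) h))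
  rw [Nat.card_congr (Subgroup.subgroupOfEquivOfLe Subgroup.le_normalizer).toEquiv] at h1
  have h2 : 0 < Nat.card D := Nat.card_pos
  have h3 : Nat.card D ≠ 2 := fun h => by
    have := (Cfsg.Agent.S4607.result p M hM B hB D hD).2 h
    omega
  have h4 : Nat.card D ≠ 1 := fun h => by
    have := Fintype.ofFinite G
    rw [CfsgLib.Block.card_eq_pow_blockDefect hM hB hD, Nat.pow_eq_one] at h
    have := CfsgLib.Blk.card_eq_one_of_defect_zero hM hB (h.resolve_left hM.1.ne_one)
    omega
  omega

end Cfsg.Agent.S4609
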