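import Cfsg.Statements.S4610
import Cfsg.Agent.Lib.Block.TwoPrime
import Cfsg.Agent.Lib.Char.Kernel

set_option autoImplicit false
open Cfsg

namespace Cfsg.Agent.S4610

open CfsgLib CfsgLib.Char CfsgLib.Block

/-- Let G be a finite group and p a prime dividing its order; fix for every prime r a maximal ideal M r of the algebraic integers containing r. Then, for every prime q ≠ p dividing the order of G, the principal p-block and the principal q-block of G have only the principal character in common, if and only if a Sylow p-subgroup P of G is normal and G is generated by P and its largest normal subgroup of order prime to p (that is, G is the direct product of P and that subgroup). -/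
theorem result {G : Type*} [Group G] [Finite G] (p : ℕ) [Fact p.Prime] (hp : p ∣ Nat.card G) (M : ℕ → Ideal Cfsg.AlgInt) (hM : ∀ r : ℕ, r.Prime → Cfsg.IsPModular r (M r)) (P : Sylow p G) :
    (∀ q : ℕ, q.Prime → q ≠ p → q ∣ Nat.card G →
        ∀ χ : Cfsg.IrrCharacter G, χ ∈ Cfsg.principalBlock (M p) G → χ ∈ Cfsg.principalBlock (M q) G → (χ : G → ℂ) = fun _ => 1) ↔
      ((P : Subgroup G).Normal ∧ (P : Subgroup G) ⊔ Cfsg.pPrimeCore p G = ⊤) := by
  have hp' : p.Prime := Fact.out
  constructor
  · intro h
    have hN : (P : Subgroup G).Normal := by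
      have h1 : (P : Subgroup G) = pCore p G := by
        refine le_antisymm (fun x hx => ?_) (Core.pCore_le_sylow P)
        have hx' := pElt_of_mem_isPGroup hp' P.isPGroup' hx
        refine mem_pCore_of_index_Ce hx' fun q hq hqp hd => ?_
        exact not_dvd_index_Ce_of_principal_inter (hM q hq) (hM p hp')
          (fun χ h1 h2 => h q hq hqp (hd.trans (Subgroup.index_dvd_card _)) χ h2 h1) hx' hd
      rw [h1]
      infer_instance
    refine ⟨hN, sup_pPrimeCore_eq_top_of_index_Ce P fun q hq hqp y hy => ?_⟩
    by_cases hqG : q ∣ Nat.card G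
    · exact not_dvd_index_Ce_of_principal_inter (hM p hp') (hM q hq) (h q hq hqp hqG) hy
    · obtain ⟨k, hk⟩ := hy
      have h1 : y = 1 := by
        rcases k with _ | k
        · exact orderOf_eq_one_iff.1 (by simpa using hk)
        · exact absurd (((dvd_pow_self q k.succ_ne_zero).trans hk.symm.dvd).trans
            (orderOf_dvd_natCard y)) hqG
      have h2 : BrPair.Ce y = ⊤ := by
        rw [h1, eq_top_iff]
        intro g _
        exact Subgroup.mem_centralizer_singleton_iff.2 (by simp)
      rw [h2, Subgroup.index_top]
      exact hp'.not_dvd_one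
  · rintro ⟨hN, h⟩ q hq hqp _ χ h1 h2
    refine irr_eq_one_of_charKer_eq_top χ.2 (top_le_iff.1 (h ▸ sup_le (fun x hx => ?_) fun x hx => ?_))
    · have h3 : (P : Subgroup G) ≤ pPrimeCore q G := by
        obtain ⟨k, hk⟩ := IsPGroup.iff_card.1 P.isPGroup'
        refine Core.le_pPrimeCore ?_
        rw [hk]
        exact Nat.Coprime.pow_left k ((Nat.coprime_primes hp' hq).2 hqp.symm)
      rw [mem_charKer (irr_isCharacter χ)]
      simpa using principal_mul_of_mem_pPrimeCore (hM q hq) h2 (h3 hx) 1
    · rw [mem_charKer (irr_isCharacter χ)]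
      simpa using principal_mul_of_mem_pPrimeCore (hM p hp') h1 hx 1

end Cfsg.Agent.S4610
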