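import Cfsg.Statements.S4611
import Cfsg.Agent.Lib.Cover.PSolvHt
import Cfsg.Agent.Lib.Char.Kernel
import Cfsg.Agent.Lib.PLocal.PSolvable

set_option autoImplicit false
open Cfsg

namespace Cfsg.Agent.S4611

open CfsgLib CfsgLib.Char CfsgLib.Block

/-- Let G be a finite solvable group and π a nonempty set of primes, each dividing the order of G; fix for each p in π a maximal ideal M p of the algebraic integers containing p. Then the only irreducible character lying in the principal p-block for every p in π is the principal character if and only if G is generated by the subgroups O_{p'}(G), p in π (the largest normal subgroups of order prime to p). -/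
theorem result {G : Type*} [Group G] [Finite G] [Group.IsSolvable G] (π : Set ℕ) (hπ : ∀ p ∈ π, p.Prime ∧ p ∣ Nat.card G) (hne : π.Nonempty) (M : ℕ → Ideal Cfsg.AlgInt) (hM : ∀ p ∈ π, Cfsg.IsPModular p (M p)) :
    (∀ χ : Cfsg.IrrCharacter G, (∀ p ∈ π, χ ∈ Cfsg.principalBlock (M p) G) → (χ : G → ℂ) = fun _ => 1) ↔
      ⨆ p ∈ π, Cfsg.pPrimeCore p G = ⊤ := by
  have key : ∀ χ : IrrCharacter G, (∀ p ∈ π, χ ∈ principalBlock (M p) G) ↔
      ⨆ p ∈ π, pPrimeCore p G ≤ charKer (χ : G → ℂ) := fun χ => by
    rw [iSup₂_le_iff]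
    refine forall₂_congr fun p hp => ?_
    have : Fact p.Prime := ⟨(hπ p hp).1⟩
    rw [Cover.principalBlock_eq_of_isPSolvable (hM p hp) PLocal.PSolv.of_isSolvable]
    exact forall₂_congr fun g _ => (mem_charKer (irr_isCharacter χ)).symm
  constructor
  · intro h
    have : (⨆ p ∈ π, pPrimeCore p G).Normal :=
      Subgroup.iSup_normal _
    refine top_le_iff.1 fun g _ => mem_of_forall_irr _ fun χ hχ h1 => ?_
    have h2 := h ⟨χ, hχ⟩ ((key _).2 fun n hn => (mem_charKer (isCharacter_of_isIrr hχ)).2 (h1 n hn))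
    rw [show χ = fun _ => 1 from h2]
  · intro h χ hχ
    exact irr_eq_one_of_charKer_eq_top χ.2 (top_le_iff.1 (h ▸ (key χ).1 hχ))

end Cfsg.Agent.S4611
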