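import Mathlib
import Cfsg.Statements.S4620
import Cfsg.Agent.Lib.Core.Cores
import Cfsg.Agent.Lib.Core.MinNormal
import Cfsg.Agent.Lib.Fusion.SylIn
-- import your own Cfsg.Agent.* helpers here

set_option autoImplicit false
open scoped Pointwise
open Cfsg

namespace Cfsg.Agent.S4620

open CfsgLib.Core CfsgLib.Fusion Subgroup
open scoped Pointwise

variable {H : Type*} [Group H] [Finite H] {p : ℕ} [hp : Fact p.Prime]

theorem ti {P : Sylow p H} (hTI : ∀ g : H, g ∉ normalizer ((P : Subgroup H) : Set H) →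
    (P : Subgroup H) ⊓ (MulAut.conj g • (P : Subgroup H)) = ⊥) {R S : Sylow p H} {x : H}
    (hx : x ≠ 1) (hR : x ∈ (R : Subgroup H)) (hS : x ∈ (S : Subgroup H)) : R = S := by
  obtain ⟨a, rfl⟩ := MulAction.exists_smul_eq H P R
  obtain ⟨b, rfl⟩ := MulAction.exists_smul_eq H (a • P) S
  by_contra h
  have h1 := hTI (a⁻¹ * b * a) fun h1 => h (by
    rw [← mul_smul, show b * a = a * (a⁻¹ * b * a) by group, mul_smul,
      Sylow.smul_eq_iff_mem_normalizer.2 h1])
  refine hx (conj_eq_one_iff.1 (mem_bot.1 (h1.le (mem_inf.2 (⟨?_, ?_⟩ : a⁻¹ * x * a⁻¹⁻¹ ∈ _ ∧ _)))))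
  · simpa [Sylow.coe_subgroup_smul, mem_pointwise_smul_iff_inv_smul_mem] using hR
  · simpa [Sylow.coe_subgroup_smul, mem_pointwise_smul_iff_inv_smul_mem, mul_assoc] using hS

theorem dvd_card (hOp' : pPrimeCore p H = ⊥) {A : Subgroup H} (hA : A.IsSubnormal) (h : A ≠ ⊥) :
    p ∣ Nat.card A := by
  by_contra h1
  exact h (le_bot_iff.1 (hOp' ▸ le_pPrimeCore_of_isSubnormal hA
    ((Nat.Prime.coprime_iff_not_dvd hp.out).2 h1).symm))

theorem key (hOp : pCore p H = ⊥) (hOp' : pPrimeCore p H = ⊥)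
    (hTI : ∀ {R S : Sylow p H} {x : H}, x ≠ 1 → x ∈ (R : Subgroup H) → x ∈ (S : Subgroup H) → R = S)
    {A B : Subgroup H} (hA : A.IsSubnormal) (hB : B.IsSubnormal) (hA1 : A ≠ ⊥) (hB1 : B ≠ ⊥)
    (h : ∀ a ∈ A, ∀ b ∈ B, a * b = b * a) : False := by
  obtain ⟨x, hx⟩ := exists_prime_orderOf_dvd_card' p (dvd_card hOp' hB hB1)
  have hx1 : (x : H) ≠ 1 := fun h => hp.out.ne_one (by rw [← hx, ← orderOf_coe, h, orderOf_one])
  have hz : IsPGroup p (zpowers (x : H)) :=
    IsPGroup.of_card (n := 1) (by rw [Nat.card_zpowers, orderOf_coe, hx, pow_one])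
  have h1 : ∀ Q, SylIn p Q A → ∃ R : Sylow p H, (x : H) ∈ (R : Subgroup H) ∧ (R : Subgroup H) ⊓ A = Q :=
      fun Q hQ => by
    obtain ⟨R, hR⟩ := (IsPGroup.to_sup_of_normal_right' hQ.isPGroup hz (le_trans
      (fun a ha => mem_centralizer_iff.2 fun y hy => (h a (hQ.le ha) y (zpowers_le.2 x.2 hy)).symm)
        (centralizer_le_normalizer _))).exists_le_sylow
    exact ⟨R, hR (mem_sup_right (mem_zpowers _)), hQ.eq_of_le R.isPGroup'.to_inf_left
      (le_inf (le_sup_left.trans hR) hQ.le) inf_le_right⟩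
  obtain ⟨Q, hQ⟩ := exists_sylIn p A
  obtain ⟨R, hR, h2⟩ := h1 Q hQ
  have h3 : Q.IsSubnormal := .step _ A hQ.le hA ((normal_subgroupOf_iff_le_normalizer hQ.le).2
    fun a ha => by
      obtain ⟨S, hS, h4⟩ := h1 _ (hQ.map_conj_of_mem_normalizer (le_normalizer ha))
      rw [← hTI hx1 hR hS, h2] at h4
      exact mem_normalizer_iff_map_conj_eq.2 h4.symm)
  have h4 := hQ.not_dvd_relIndex
  rw [le_bot_iff.1 ((le_pCore_of_isSubnormal h3 hQ.isPGroup).trans hOp.le), relIndex_bot_left] at h4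
  exact h4 (dvd_card hOp' hA hA1)

/-- Let H be a finite group with no nontrivial normal p-subgroup and no nontrivial normal subgroup of order prime to p, whose Sylow p-subgroup P is nontrivial and a trivial-intersection set (P meets its conjugates by elements outside N_H(P) trivially). Then H has a unique minimal normal subgroup N; N is non-abelian simple with trivial centralizer in H (so H embeds in Aut(N)), and a Sylow p-subgroup of N is again a nontrivial trivial-intersection set in N. -/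
theorem result {H : Type*} [Group H] [Finite H] (p : ℕ) [Fact p.Prime] (hOp : Cfsg.pCore p H = ⊥) (hOp' : Cfsg.pPrimeCore p H = ⊥) (P : Sylow p H) (hP1 : (P : Subgroup H) ≠ ⊥)
    (hTI : ∀ g : H, g ∉ Subgroup.normalizer ((P : Subgroup H) : Set H) → (P : Subgroup H) ⊓ (MulAut.conj g • (P : Subgroup H)) = ⊥) :
    ∃ N : Subgroup H, N.Normal ∧ N ≠ ⊥ ∧ (∀ K : Subgroup H, K.Normal → K ≠ ⊥ → N ≤ K) ∧
      IsSimpleGroup N ∧ ¬ IsMulCommutative N ∧ Subgroup.centralizer (N : Set H) = ⊥ ∧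
      ∀ Q : Sylow p N, (Q : Subgroup N) ≠ ⊥ ∧
        ∀ n : N, n ∉ Subgroup.normalizer ((Q : Subgroup N) : Set N) → (Q : Subgroup N) ⊓ (MulAut.conj n • (Q : Subgroup N)) = ⊥ := by
  have hT := fun {R S : Sylow p H} {x : H} => ti hTI (R := R) (S := S) (x := x)
  obtain ⟨N, hN, h1, -, h2⟩ := exists_minimal_normal_le (K := (⊤ : Subgroup H))
    fun h => hP1 (le_bot_iff.1 (h ▸ le_top))
  have k := fun {A B : Subgroup H} => key hOp hOp' hT (A := A) (B := B)
  refine ⟨N, hN, h1, fun K hK hK1 => ?_, ?_, fun h => k hN.isSubnormal hN.isSubnormal h1 h1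
    fun a ha b hb => congrArg Subtype.val (h.is_comm.comm ⟨a, ha⟩ ⟨b, hb⟩), by_contra fun h =>
      k hN.isSubnormal normal_centralizer.isSubnormal h1 h fun a ha b hb => hb a ha, fun Q => ?_⟩
  · refine inf_eq_left.1 ((h2 _ inferInstance inf_le_left).resolve_left fun h => ?_)
    exact k hN.isSubnormal hK.isSubnormal h1 hK1 fun a ha b hb =>
      commute_of_normal_of_disjoint N K hN hK (disjoint_iff.2 h) a b ha hb
  · have := (nontrivial_iff_ne_bot N).2 h1
    refine ⟨fun K hK => or_iff_not_imp_left.2 fun hK1 => ?_⟩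
    obtain ⟨L, hL, h3, h4, h5⟩ := exists_minimal_normal_le hK1
    have h6 : ∀ g : H, L ≤ L.map (MulAut.conjNormal g).toMonoidHom := fun g => by
      have h6 := hL.map (MulAut.conjNormal g).toMonoidHom (MulEquiv.surjective _)
      refine inf_eq_left.1 ((h5 _ inferInstance inf_le_left).resolve_left fun h => ?_)
      refine k (hL.isSubnormal.trans' hN.isSubnormal) (h6.isSubnormal.trans' hN.isSubnormal)
        (mt (map_eq_bot_iff_of_injective _ N.subtype_injective).1 h3)
        (mt (map_eq_bot_iff_of_injective _ N.subtype_injective).1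
          (mt (map_eq_bot_iff_of_injective _ (MulEquiv.injective _)).1 h3)) ?_
      rintro _ ⟨a, ha, rfl⟩ _ ⟨b, hb, rfl⟩
      exact congrArg Subtype.val (commute_of_normal_of_disjoint _ _ hL h6 (disjoint_iff.2 h) a b ha hb)
    have h7 := (h2 (L.map N.subtype) ⟨by
      rintro _ ⟨a, ha, rfl⟩ g
      obtain ⟨b, hb, rfl⟩ := h6 g⁻¹ ha
      exact ⟨b, hb, by simp [mul_assoc]⟩⟩ (map_subtype_le _)).resolve_left
        (mt (map_eq_bot_iff_of_injective _ N.subtype_injective).1 h3)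
    refine top_le_iff.1 (le_trans (fun a _ => ?_) h4)
    obtain ⟨b, hb, h8⟩ := h7.ge a.2
    exact (Subtype.ext h8 : b = a) ▸ hb
  · refine ⟨fun h => Q.not_dvd_index (by
      rw [h, index_bot]; exact dvd_card hOp' hN.isSubnormal h1), fun n hn => ?_⟩
    refine (eq_bot_iff_forall _).2 fun x ⟨hx, hx'⟩ => by_contra fun hx1 => hn ?_
    obtain ⟨R, hR⟩ := Q.exists_comap_subtype_eq
    obtain ⟨S, hS⟩ := (n • Q).exists_comap_subtype_eq
    refine Sylow.smul_eq_iff_mem_normalizer.1 (Sylow.ext ?_)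
    rw [← hR, ← hS, hT (x := x) (R := R) (S := S) (by simpa using hx1) (hR.ge hx) (hS.ge hx')]

end Cfsg.Agent.S4620
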