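import Mathlib
import Cfsg.Statements.S4729
import Cfsg.Agent.Lib.Block.Span
import Cfsg.Agent.Lib.DefectOne.B43_Char
-- import your own Cfsg.Agent.* helpers here

set_option autoImplicit false
open Cfsg

namespace Cfsg.Agent.S4729

open CfsgLib CfsgLib.Block CfsgLib.Char Subgroup

/-- Let p be a prime, M a maximal ideal of the algebraic integers containing p, G a finite perfect group and P a Sylow p-subgroup. If the principal p-block of G contains a faithful irreducible character of degree less than 2p, then the centralizer of P is a p-group. -/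
theorem result {G : Type*} [Group G] [Finite G] (p : ℕ) [Fact p.Prime] (M : Ideal Cfsg.AlgInt) (hM : Cfsg.IsPModular p M) (hperf : commutator G = ⊤) (P : Sylow p G) (χ : Cfsg.IrrCharacter G) (hχ : χ ∈ Cfsg.principalBlock M G) (hfaith : ∀ g : G, (χ : G → ℂ) g = (χ : G → ℂ) 1 → g = 1) (hdeg : Cfsg.charDegree (χ : G → ℂ) < 2 * p) : IsPGroup p ↥(Subgroup.centralizer ((P : Subgroup G) : Set G)) := by
  classical
  by_contra hcon
  obtain ⟨q, hq, hqd, hqp⟩ : ∃ q : ℕ, q.Prime ∧ q ∣ Nat.card (centralizer ((P : Subgroup G) : Set G)) ∧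
      q ≠ p := by
    by_contra! h
    exact hcon (IsPGroup.of_card (Nat.eq_prime_pow_of_unique_prime_dvd Nat.card_pos.ne' (h _)))
  have := Fact.mk hq
  obtain ⟨⟨y, hy⟩, hyq⟩ := exists_prime_orderOf_dvd_card' q hqd
  rw [orderOf_mk] at hyq
  have hli : ∀ k : ℕ, MemLocalIdeal M ((χ : G → ℂ) (y ^ k) - (χ : G → ℂ) 1) := fun k => by
    have hi : ¬ p ∣ (centralizer ({y ^ k} : Set G)).index := fun h => P.not_dvd_index
      (h.trans (index_dvd_of_le fun g hg => mem_centralizer_singleton_iff.2 (pow_mem hy k g hg)))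
    have h := li_mul_left hM (lr_mul hM (lr_inv_nat hM hi) (lr_natCast hM (charDegree (χ : G → ℂ))))
      (mem_principalBlock_iff.1 hχ (y ^ k))
    rw [charDegree_eq (irr_isCharacter χ), centralChar] at h
    have h1 := irr_one_ne_zero χ.2
    have h2 : ((centralizer ({y ^ k} : Set G)).index : ℂ) ≠ 0 := Nat.cast_ne_zero.2 index_ne_zero_of_finite
    convert h using 1
    field_simp
  have hd := charDegree_eq (irr_isCharacter χ)
  obtain ⟨n, ρ, hρ⟩ := irr_isCharacter χ
  obtain ⟨s, hs⟩ := DefectOne.B43.exists_eigen_det _ (ρ.comp (zpowers y).subtype : Representation ℂ _ _)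
  let y' : zpowers y := ⟨y, mem_zpowers y⟩
  have h1 : ∀ k : ℕ, (χ : G → ℂ) (y ^ k) = ((s.map fun f => f y').map (· ^ k)).sum := fun k => by
    rw [Multiset.map_map, ← hρ]
    have := (hs (y' ^ k)).1
    simp only [map_pow] at this
    exact this
  have h2 : (s.map fun f => f y').prod = 1 := by
    have : y ∈ (LinearMap.det.comp ρ).toHomUnits.ker :=
      Abelianization.commutator_subset_ker _ (hperf ▸ mem_top y)
    exact (hs y').2.symm.trans (congrArg Units.val this)
  have h3 : ∀ ε ∈ s.map fun f => f y', ε ^ q = 1 := fun ε hε => by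
    obtain ⟨f, -, rfl⟩ := Multiset.mem_map.1 hε
    rw [← map_pow, show y' ^ q = 1 from Subtype.ext (hyq ▸ pow_orderOf_eq_one y), map_one]
  generalize (s.map fun f => f y') = t at h1 h2 h3
  have h0 : charDegree (χ : G → ℂ) = t.card := by
    have := h1 0
    simp only [pow_zero, Multiset.map_const', Multiset.sum_replicate, nsmul_eq_mul, mul_one] at this
    exact_mod_cast hd.trans this
  have geo : ∀ δ : ℂ, δ ^ q = 1 → δ ≠ 1 → ∑ k ∈ Finset.range q, δ ^ k = 0 := fun δ h h' =>
    (mul_eq_zero.1 ((mul_geom_sum δ q).trans (by rw [h, sub_self]))).resolve_left (sub_ne_zero.2 h')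
  have h4 : ∀ ε ∈ t, ε ≠ 1 → p ∣ t.count ε := fun ε hε h => by
    have hε0 : ε ≠ 0 := ne_zero_pow hq.ne_zero (by rw [h3 ε hε]; exact one_ne_zero)
    have hε1 : ε⁻¹ ^ q = 1 := by rw [inv_pow, h3 ε hε, inv_one]
    have := li_sum hM (s := Finset.range q) fun k _ => li_mul_right hM (hli k)
      (lr_pow hM (lr_of_isIntegral hM (Block.isIntegral_of_pow_eq_one hq.ne_zero hε1)) k)
    simp only [sub_mul, Finset.sum_sub_distrib, ← Finset.mul_sum] at this
    rw [geo _ hε1 (inv_ne_one.2 h), mul_zero, sub_zero] at this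
    have e : ∑ k ∈ Finset.range q, (χ : G → ℂ) (y ^ k) * ε⁻¹ ^ k = (q * t.count ε : ℕ) := by
      simp only [h1, ← Multiset.sum_map_mul_right, ← mul_pow]
      rw [← Multiset.sum_map_sum, Finset.sum_multiset_map_count, Finset.sum_eq_single ε]
      · simp [mul_inv_cancel₀ hε0, mul_comm]
      · intro δ hδ hne
        rw [geo _ (by rw [mul_pow, hε1, h3 δ (Multiset.mem_toFinset.1 hδ), one_mul])
          (mt (mul_inv_eq_one₀ hε0).1 hne), smul_zero]
      · exact fun h => absurd (Multiset.mem_toFinset.2 hε) h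
    rw [e, li_natCast_iff hM, hM.1.dvd_mul] at this
    exact this.resolve_left fun h => hqp ((Nat.prime_dvd_prime_iff_eq hM.1 hq).1 h).symm
  obtain ⟨ε, hε, hε1⟩ : ∃ ε ∈ t, ε ≠ 1 := by
    by_contra! h
    have := h1 1
    rw [Multiset.map_congr rfl (g := fun _ => 1) fun ε hε => by rw [h ε hε, one_pow], pow_one] at this
    have := hfaith y (by simp [this, ← hd, h0])
    rw [this, orderOf_one] at hyq
    exact hq.ne_one hyq.symm
  have h5 : ∀ δ ∈ t, δ ≠ 1 → p ≤ t.count δ := fun δ h h' =>
    Nat.le_of_dvd (Multiset.count_pos.2 h) (h4 δ h h')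
  have h6 : t.count ε = p := by
    obtain ⟨c, hc⟩ := h4 ε hε hε1
    have := (hc ▸ (Multiset.count_le_card ε t).trans_lt (h0 ▸ hdeg) : p * c < 2 * p)
    have h7 := h5 ε hε hε1
    have : c = 1 := by
      rcases c with _ | _ | c
      · simp [hc, hM.1.ne_zero] at h7
      · rfl
      · nlinarith
    rw [hc, this, mul_one]
  rw [Finset.prod_multiset_count, Finset.prod_eq_single ε, h6] at h2
  · exact hε1 (by
      have := (pow_gcd_eq_one.2 ⟨h2, h3 ε hε⟩)
      rwa [(Nat.coprime_primes hM.1 hq).2 hqp.symm, pow_one] at this)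
  · intro δ hδ hne
    by_contra hc
    have h8 := h5 δ (Multiset.mem_toFinset.1 hδ) fun h => hc (by rw [h, one_pow])
    have h9 := Finset.sum_le_sum_of_subset (f := fun a => t.count a) (show {δ, ε} ⊆ t.toFinset by
      simp [Finset.insert_subset_iff, Multiset.mem_toFinset.1 hδ, hε])
    rw [Finset.sum_pair hne, Multiset.toFinset_sum_count_eq] at h9
    omega
  · exact fun h => absurd (Multiset.mem_toFinset.2 hε) h

end Cfsg.Agent.S4729
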