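import Cfsg.Statements.S4741
import Cfsg.Agent.Lib.Block.Robin

set_option autoImplicit false
open Cfsg

namespace Cfsg.Agent.S4741

attribute [local implicit_reducible] CfsgLib.Block.K

open CfsgLib CfsgLib.Blk CfsgLib.Block CfsgLib.Char CfsgLib.Fusion MonoidAlgebra in

/-- Let p be a prime, M a maximal ideal of the algebraic integers containing p, and D a subgroup of the finite group G. Let x₁, …, x_r be pairwise non-conjugate elements of G such that D is a Sylow p-subgroup of the centralizer of each xᵢ, and such that for any conjugates g of some xᵢ and h of some xⱼ the element g h⁻¹ is never a non-identity p-element. Then there are r distinct p-blocks B₁, …, B_r of G, each having D as a defect group, such that for every choice of characters χᵢ ∈ Bᵢ of height zero the determinant of the r × r matrix (χᵢ(xⱼ)) does not lie in the local ideal at M. -/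
theorem result {G : Type*} [Group G] [Finite G] (p : ℕ) [Fact p.Prime] (M : Ideal Cfsg.AlgInt) (hM : Cfsg.IsPModular p M) (D : Subgroup G) {r : ℕ} (x : Fin r → G) (hx : ∀ i j : Fin r, IsConj (x i) (x j) → i = j) (hD : ∀ i : Fin r, ∃ S : Sylow p ↥(Subgroup.centralizer ({x i} : Set G)), (S : Subgroup ↥(Subgroup.centralizer ({x i} : Set G))).map (Subgroup.centralizer ({x i} : Set G)).subtype = D) (hsep : ∀ i j : Fin r, ∀ g h : G, IsConj (x i) g → IsConj (x j) h → ∀ k : ℕ, 0 < k → orderOf (g * h⁻¹) ≠ p ^ k) : ∃ B : Fin r → Set (Cfsg.IrrCharacter G), Function.Injective B ∧ (∀ i : Fin r, Cfsg.IsPBlock M (B i) ∧ Cfsg.IsDefectGroup p M (B i) D) ∧ ∀ χ : Fin r → Cfsg.IrrCharacter G, (∀ i : Fin r, χ i ∈ B i ∧ Cfsg.blockHeight p (B i) (χ i : G → ℂ) = 0) → ¬ Cfsg.MemLocalIdeal M (Matrix.det (Matrix.of fun i j : Fin r => (χ i : G → ℂ) (x j))) := by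
  classical
  have := Fintype.ofFinite G
  have hp : p.Prime := Fact.out
  have hp0 : (p : ℂ) ≠ 0 := Nat.cast_ne_zero.2 hp.ne_zero
  obtain ⟨S⟩ : Nonempty (Sylow p G) := inferInstance
  obtain ⟨t, ht, hrob⟩ := robinson hM S D
  have hs : ∀ i, SylIn p D (BrPair.Ce (x i)) := fun i => by
    obtain ⟨Q, hQ⟩ := hD i
    exact Block.sylIn_iff_exists_sylow.2 ⟨Q, hQ.symm⟩
  have hone : ∀ i j (g h : G), IsConj (x i) g → IsConj (x j) h → h * g⁻¹ ∈ (S : Subgroup G) →
      h = g := by
    intro i j g h hg hh hm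
    obtain ⟨k, hk⟩ := IsPGroup.iff_orderOf.1 S.2 ⟨_, hm⟩
    rw [← Subgroup.orderOf_coe] at hk
    by_cases hk0 : k = 0
    · rw [hk0, pow_zero, orderOf_eq_one_iff] at hk
      exact mul_inv_eq_one.1 hk
    · exact (hsep j i h g hh hg k (Nat.pos_of_ne_zero hk0) hk).elim
  -- the index of the centralizer
  have hidx : ∀ i, ∃ u : ℕ, ¬ p ∣ u ∧ (BrPair.Ce (x i)).index =
      p ^ ((Nat.card G).factorization p - (Nat.card D).factorization p) * u := by
    intro i
    obtain ⟨c, hc, hcard⟩ := exists_card_Ce (hs i)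
    have h0 : (BrPair.Ce (x i)).index ≠ 0 := Subgroup.index_ne_zero_of_finite
    have h1 := factorization_card_eq_add (p := p) (BrPair.Ce (x i))
    have hc0 : c ≠ 0 := by rintro rfl; exact hc (dvd_zero _)
    rw [hcard, Nat.factorization_mul Nat.card_pos.ne' hc0, Finsupp.add_apply,
      Nat.factorization_eq_zero_of_not_dvd hc] at h1
    refine ⟨ordCompl[p] (BrPair.Ce (x i)).index, Nat.not_dvd_ordCompl hp h0, ?_⟩
    rw [show (Nat.card G).factorization p - (Nat.card D).factorization p =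
      (BrPair.Ce (x i)).index.factorization p by omega, Nat.ordProj_mul_ordCompl_eq_self]
  choose u hu hidx using hidx
  have hcnt : ∀ i j, cnt (S : Subgroup G) (x i) (x j) =
      if i = j then (BrPair.Ce (x i)).index else 0 := by
    intro i j
    split_ifs with h
    · subst h
      have e1 : ((BrPair.Ce (x i)).index : ℂ) = (Nat.card {g : G // IsConj (x i) g} : ℂ) := by
        have := sum_ite_isConj (R := ℂ) (x i) 1
        rw [mul_one, Finset.sum_boole] at this
        rw [← this, Nat.card_eq_fintype_card, Fintype.card_subtype]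
      rw [Nat.cast_inj.1 e1]
      refine Nat.card_congr
        { toFun := fun a => ⟨a.1.1, a.2.1⟩
          invFun := fun a => ⟨(a.1, a.1), a.2, a.2, by simp⟩
          left_inv := fun a => ?_
          right_inv := fun a => rfl }
      ext
      · rfl
      · exact (hone i i _ _ a.2.1 a.2.2.1 a.2.2.2).symm
    · rw [cnt, Nat.card_eq_zero]
      left
      refine ⟨fun a => h (hx i j ?_)⟩
      have := hone i j _ _ a.2.1 a.2.2.1 a.2.2.2
      exact a.2.1.trans (this ▸ a.2.2.1.symm)
  have hA : (Matrix.of fun (i : Fin r) (B : DB p M D) => wB hM B.1 (x i)⁻¹ * t B) *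
      (Matrix.of fun (B : DB p M D) (j : Fin r) => wB hM B.1 (x j)) =
      Matrix.diagonal fun i => ((u i : ℕ) : Block.K hM) := by
    ext i j
    rw [Matrix.mul_apply, Matrix.diagonal_apply]
    simp only [Matrix.of_apply]
    rw [← (hrob _ _ (hs i) (hs j)).2, hcnt]
    split_ifs with h
    · rw [hidx, Nat.mul_div_cancel_left _ (pow_pos hp.pos _)]
    · rw [Nat.zero_div, Nat.cast_zero]
  have hu0 : ∀ i, ((u i : ℕ) : Block.K hM) ≠ 0 := fun i => by
    rw [Ne, CharP.cast_eq_zero_iff (Block.K hM) p]; exact hu i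
  obtain ⟨f, hf, hdet⟩ := exists_rows_of_det_ne_zero _ _ (by
    rw [hA, Matrix.det_diagonal]
    exact Finset.prod_ne_zero_iff.2 fun i _ => hu0 i)
  refine ⟨fun i => (f i).1, Subtype.val_injective.comp hf, fun i => (f i).2, fun χ hχ => ?_⟩
  have hval : ∀ i j, red hM ((χ i : G → ℂ) (x j)) =
      ((rdeg p (f i).1 (χ i : G → ℂ) : ℕ) : Block.K hM) * wB hM (f i).1 (x j) *
        ((u j : ℕ) : Block.K hM)⁻¹ := by
    intro i j
    have hB := (f i).2.1
    have h1 := irr_one_eq_rdeg hp (hχ i).1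
    have h2 := defect_add_minv (p := p) (IsPBlock_nonempty hM hB)
    have h3 := card_eq_pow_blockDefect hM hB (f i).2.2
    have h4 : (Nat.card G).factorization p - (Nat.card D).factorization p = minv p (f i).1 := by
      rw [h3, Nat.factorization_pow, Finsupp.smul_apply, hp.factorization_self, smul_eq_mul,
        mul_one]
      omega
    have h5 := hidx j
    rw [h4] at h5
    have hu1 : ((u j : ℕ) : ℂ) ≠ 0 := Nat.cast_ne_zero.2 (fun h => hu j (h ▸ dvd_zero _))
    have hr0 : ((rdeg p (f i).1 (χ i : G → ℂ) : ℕ) : ℂ) ≠ 0 :=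
      Nat.cast_ne_zero.2 (rdeg_ne_zero hp (hχ i).1)
    have h6 : (χ i : G → ℂ) (x j) = ((rdeg p (f i).1 (χ i : G → ℂ) : ℕ) : ℂ) *
        centralChar (χ i : G → ℂ) (x j) * ((u j : ℕ) : ℂ)⁻¹ := by
      rw [show centralChar (χ i : G → ℂ) (x j) = ((BrPair.Ce (x j)).index : ℂ) *
        (χ i : G → ℂ) (x j) / (χ i : G → ℂ) 1 from rfl, h5, h1]
      push_cast
      field_simp
    have hn : ¬ MemLocalIdeal M ((u j : ℕ) : ℂ) := by
      rw [li_natCast_iff hM]; exact hu j
    rw [h6, red_mul hM (lr_mul hM (lr_natCast hM _) (lr_centralChar hM (χ i).2 _))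
      (lr_inv_nat hM (hu j)), red_mul hM (lr_natCast hM _) (lr_centralChar hM (χ i).2 _),
      red_inv hM (lr_natCast hM _) hn, red_natCast, red_natCast, ← wB_eq hM hB (hχ i).1]
  let A : Matrix (Fin r) (Fin r) (O hM) :=
    Matrix.of fun i j => ⟨(χ i : G → ℂ) (x j), lr_irr hM (χ i) (x j)⟩
  have e1 : (Matrix.of fun i j : Fin r => (χ i : G → ℂ) (x j)).det = (A.det : ℂ) := by
    have := (O hM).subtype.map_det A
    exact this.symm
  rw [e1, ← red_eq_zero_iff hM A.det.2, ← redHom_apply, (redHom hM).map_det]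
  have e2 : (redHom hM).mapMatrix A =
      Matrix.diagonal (fun i => ((rdeg p (f i).1 (χ i : G → ℂ) : ℕ) : Block.K hM)) *
      (Matrix.of fun i j => (Matrix.of fun (B : DB p M D) (j : Fin r) => wB hM B.1 (x j)) (f i) j) *
      Matrix.diagonal (fun j => ((u j : ℕ) : Block.K hM)⁻¹) := by
    ext i j
    rw [Matrix.mul_diagonal, Matrix.diagonal_mul]
    exact hval i j
  rw [e2, Matrix.det_mul, Matrix.det_mul, Matrix.det_diagonal, Matrix.det_diagonal]
  refine mul_ne_zero (mul_ne_zero (Finset.prod_ne_zero_iff.2 fun i _ => ?_) hdet)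
    (Finset.prod_ne_zero_iff.2 fun j _ => inv_ne_zero (hu0 j))
  rw [Ne, CharP.cast_eq_zero_iff (Block.K hM) p]
  exact (not_dvd_rdeg_iff hp (hχ i).1).2 (hχ i).2

end Cfsg.Agent.S4741
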