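import Mathlib
import Cfsg.Statements.S4742
import Cfsg.Agent.Lib.Block.Pair
import Cfsg.Agent.Lib.Block.PPart
-- import your own Cfsg.Agent.* helpers here

set_option autoImplicit false
open Cfsg

namespace Cfsg.Agent.S4742

open CfsgLib.Char CfsgLib.Block

/-- Let p ≠ q be primes dividing the order of the finite group G, and suppose the centralizer of every non-identity p-element of G has order prime to q. Then either G has an irreducible character of p-defect zero, or for every non-identity q-element z of G there are conjugates g, h of z such that g h⁻¹ is a non-identity p-element. -/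
theorem result {G : Type*} [Group G] [Finite G] (p q : ℕ) [Fact p.Prime] [Fact q.Prime] (hppq : p ≠ q) (hpG : p ∣ Nat.card G) (hqG : q ∣ Nat.card G) (hC : ∀ g : G, g ≠ 1 → (∃ k : ℕ, orderOf g = p ^ k) → ¬ q ∣ Nat.card ↥(Subgroup.centralizer ({g} : Set G))) : (∃ χ : Cfsg.IrrCharacter G, (Cfsg.charDegree (χ : G → ℂ)).factorization p = (Nat.card G).factorization p) ∨ ∀ z : G, z ≠ 1 → (∃ k : ℕ, orderOf z = q ^ k) → ∃ g h : G, IsConj z g ∧ IsConj z h ∧ g * h⁻¹ ≠ 1 ∧ ∃ k : ℕ, orderOf (g * h⁻¹) = p ^ k := by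
  by_contra hcon
  push Not at hcon
  obtain ⟨hno, z, hz1, hz, h⟩ := hcon
  have hp : p.Prime := Fact.out
  have hq : q.Prime := Fact.out
  obtain ⟨χ, hχ⟩ := exists_defectZero_of_sep hp (z := z) (fun hd => by
    obtain ⟨y, hy⟩ := exists_prime_orderOf_dvd_card' (G := Subgroup.centralizer ({z} : Set G)) p hd
    rw [← Subgroup.orderOf_coe] at hy
    refine hC y (fun h1 => hp.one_lt.ne' (by rw [← hy, h1, orderOf_one])) ⟨1, by rw [hy, pow_one]⟩ ?_
    have hzy : z ∈ Subgroup.centralizer ({(y : G)} : Set G) :=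
      Subgroup.mem_centralizer_singleton_iff.2 (Subgroup.mem_centralizer_singleton_iff.1 y.2).symm
    obtain ⟨k, hk⟩ := hz
    refine dvd_trans ?_ (Subgroup.orderOf_dvd_natCard _ hzy)
    rw [hk]
    refine dvd_pow_self _ fun h0 => hz1 ?_
    rwa [h0, pow_zero, orderOf_eq_one_iff] at hk) fun x y hx hy ⟨k, hk⟩ => by
      by_contra hne
      exact h x y hx hy hne k hk
  exact hno χ hχ

end Cfsg.Agent.S4742
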