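import Mathlib
import Cfsg.Statements.S4743
import Cfsg.Agent.Lib.Block.DefZero
import Cfsg.Agent.Lib.PLocal.PSolvable
-- import your own Cfsg.Agent.* helpers here

set_option autoImplicit false
open Cfsg

namespace Cfsg.Agent.S4743

open CfsgLib.Char CfsgLib.Block

universe u

theorem sep {G : Type u} [Group G] [Finite G] {p q : ℕ} (hp : p.Prime) (hq : q.Prime) (hpq : p ≠ q)
    (h : ∀ g : G, ¬ p * q ∣ orderOf g) (N : Subgroup G) [hN : N.Normal] (hpN : ¬ p ∣ Nat.card N)
    (hqN : q ∣ Nat.card N) : ∃ χ : Cfsg.IrrCharacter G,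
      (Cfsg.charDegree (χ : G → ℂ)).factorization p = (Nat.card G).factorization p := by
  have := Fact.mk hp
  have := Fact.mk hq
  obtain ⟨z, hz⟩ := exists_prime_orderOf_dvd_card' (G := N) q hqN
  rw [← Subgroup.orderOf_coe] at hz
  refine exists_defectZero_of_sep hp (z := z) (fun hd => ?_) fun x y hx hy ⟨k, hk⟩ => ?_
  · obtain ⟨y, hy⟩ := exists_prime_orderOf_dvd_card' (G := Subgroup.centralizer ({(z : G)} : Set G)) p hd
    rw [← Subgroup.orderOf_coe] at hy
    have hc : Commute (y : G) z := Subgroup.mem_centralizer_singleton_iff.1 y.2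
    refine h (y * z) ?_
    rw [hc.orderOf_mul_eq_mul_orderOf_of_coprime, hy, hz]
    rw [hy, hz]
    exact (Nat.coprime_primes hp hq).2 hpq
  · have hm : ∀ x, IsConj (z : G) x → x ∈ N := fun x hx => by
      obtain ⟨c, rfl⟩ := isConj_iff.1 hx
      exact hN.conj_mem _ z.2 c
    have h1 := Subgroup.orderOf_dvd_natCard N (N.mul_mem (hm x hx) (N.inv_mem (hm y hy)))
    rw [hk] at h1
    rcases k with _ | k
    · rwa [pow_zero, orderOf_eq_one_iff] at hk
    · exact absurd ((dvd_pow_self p k.succ_ne_zero).trans h1) hpN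

theorem aux {p q : ℕ} (hp : p.Prime) (hq : q.Prime) (hpq : p ≠ q) (n : ℕ) :
    ∀ (G : Type u) [Group G] [Finite G], Nat.card G = n → (∀ g : G, ¬ p * q ∣ orderOf g) →
      IsPSolvable p G → (∃ χ : Cfsg.IrrCharacter G,
      (Cfsg.charDegree (χ : G → ℂ)).factorization p = (Nat.card G).factorization p) ∨
      ∃ χ : Cfsg.IrrCharacter G,
      (Cfsg.charDegree (χ : G → ℂ)).factorization q = (Nat.card G).factorization q := by
  induction n using Nat.strong_induction_on with
  | _ n ih =>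
  intro G _ _ hn h hs
  have := Fact.mk hp
  rcases subsingleton_or_nontrivial G with hG | hG
  · refine Or.inl ⟨irrOne G, ?_⟩
    rw [charDegree_eq_of_eq (n := 1) (by simp [irrOne_apply]), Nat.card_of_subsingleton (1 : G)]
  obtain ⟨K, hK, hK1, -, hK2⟩ := CfsgLib.PLocal.PSolv.exists_normal_le hs ⊤ top_ne_bot
  rcases hK2 with hK2 | hK2
  · obtain ⟨k, hk⟩ := IsPGroup.iff_card.1 hK2
    refine Or.inr (sep hq hp hpq.symm (fun g => mul_comm p q ▸ h g) K ?_ ?_)
    · rw [hk]
      exact fun hd => hpq ((Nat.prime_dvd_prime_iff_eq hq hp).1 (hq.dvd_of_dvd_pow hd)).symm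
    · rw [hk]
      refine dvd_pow_self p fun h0 => hK1 ?_
      rwa [h0, pow_zero, Subgroup.card_eq_one] at hk
  have hpK : ¬ p ∣ Nat.card K := (Nat.Prime.coprime_iff_not_dvd hp).1 hK2.symm
  by_cases hqK : q ∣ Nat.card K
  · exact Or.inl (sep hp hq hpq h K hpK hqK)
  have hc := Subgroup.card_eq_card_quotient_mul_card_subgroup K
  have hlt : Nat.card (G ⧸ K) < n := by
    rw [← hn, hc]
    exact lt_mul_of_one_lt_right Nat.card_pos ((Subgroup.one_lt_card_iff_ne_bot K).2 hK1)
  have key : ∀ r : ℕ, ¬ r ∣ Nat.card K → (∃ χ : Cfsg.IrrCharacter (G ⧸ K),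
      (Cfsg.charDegree (χ : G ⧸ K → ℂ)).factorization r = (Nat.card (G ⧸ K)).factorization r) →
      ∃ χ : Cfsg.IrrCharacter G,
      (Cfsg.charDegree (χ : G → ℂ)).factorization r = (Nat.card G).factorization r := by
    rintro r hr ⟨χ, hχ⟩
    refine ⟨⟨_, isIrr_inflate K χ.2⟩, ?_⟩
    rw [hc, Nat.factorization_mul Nat.card_pos.ne' Nat.card_pos.ne', Finsupp.add_apply,
      Nat.factorization_eq_zero_of_not_dvd hr, add_zero, ← hχ]
    rfl
  refine (ih _ hlt (G ⧸ K) rfl (fun g => ?_) (CfsgLib.PLocal.PSolv.quotient hs K)).imp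
    (key p hpK) (key q hqK)
  obtain ⟨g, rfl⟩ := QuotientGroup.mk_surjective g
  exact fun hd => h g (hd.trans (orderOf_map_dvd (QuotientGroup.mk' K) g))

/-- Let p ≠ q be primes dividing the order of the finite group G, suppose the centralizer of every non-identity p-element has order prime to q, and suppose G is p-solvable or q-solvable. Then G has an irreducible character of p-defect zero or an irreducible character of q-defect zero. -/
theorem result {G : Type*} [Group G] [Finite G] (p q : ℕ) [Fact p.Prime] [Fact q.Prime] (hppq : p ≠ q) (hpG : p ∣ Nat.card G) (hqG : q ∣ Nat.card G) (hC : ∀ g : G, g ≠ 1 → (∃ k : ℕ, orderOf g = p ^ k) → ¬ q ∣ Nat.card ↥(Subgroup.centralizer ({g} : Set G))) (hsolv : Cfsg.IsPSolvable p G ∨ Cfsg.IsPSolvable q G) : (∃ χ : Cfsg.IrrCharacter G, (Cfsg.charDegree (χ : G → ℂ)).factorization p = (Nat.card G).factorization p) ∨ (∃ χ : Cfsg.IrrCharacter G, (Cfsg.charDegree (χ : G → ℂ)).factorization q = (Nat.card G).factorization q) := by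
  have hp : p.Prime := Fact.out
  have hq : q.Prime := Fact.out
  have h : ∀ g : G, ¬ p * q ∣ orderOf g := fun g hd => by
    have h0 : orderOf g ≠ 0 := (orderOf_pos g).ne'
    have h1 := orderOf_pow_orderOf_div h0 (dvd_of_mul_right_dvd hd)
    have h2 := orderOf_pow_orderOf_div h0 (dvd_of_mul_left_dvd hd)
    refine hC (g ^ (orderOf g / p)) (fun h => hp.one_lt.ne (by rw [← h1, h, orderOf_one]))
      ⟨1, by rw [h1, pow_one]⟩ ?_
    rw [← h2]
    exact Subgroup.orderOf_dvd_natCard _
      (Subgroup.mem_centralizer_singleton_iff.2 (Commute.pow_pow_self g _ _))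
  rcases hsolv with hs | hs
  · exact aux hp hq hppq _ G rfl h hs
  · exact (aux hq hp hppq.symm _ G rfl (fun g => mul_comm p q ▸ h g) hs).symm

end Cfsg.Agent.S4743
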