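import Mathlib
import Cfsg.Statements.S4746
import Cfsg.Agent.Lib.Block.DefZero
-- import your own Cfsg.Agent.* helpers here

set_option autoImplicit false
open Cfsg

namespace Cfsg.Agent.S4746

open CfsgLib.Char CfsgLib.Block

/-- Let p be an odd prime and G a finite group of even order divisible by p in which the centralizer of every non-identity p-element has odd order. Then G has an irreducible character of p-defect zero or an irreducible character of even degree. -/
theorem result {G : Type*} [Group G] [Finite G] (p : ℕ) [Fact p.Prime] (hp2 : p ≠ 2) (hpG : p ∣ Nat.card G) (h2G : 2 ∣ Nat.card G) (hC : ∀ g : G, g ≠ 1 → (∃ k : ℕ, orderOf g = p ^ k) → Odd (Nat.card ↥(Subgroup.centralizer ({g} : Set G)))) : (∃ χ : Cfsg.IrrCharacter G, (Cfsg.charDegree (χ : G → ℂ)).factorization p = (Nat.card G).factorization p) ∨ ∃ χ : Cfsg.IrrCharacter G, Even (Cfsg.charDegree (χ : G → ℂ)) := by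
  rw [or_iff_not_imp_left]
  intro hno
  push Not at hno
  have h : OddCent p G := hC
  obtain ⟨t, ht⟩ := CfsgLib.Invol.exists_involution_of_even_card (even_iff_two_dvd.2 h2G)
  obtain ⟨P⟩ : Nonempty (Sylow p G) := inferInstance
  obtain ⟨s, -, hs⟩ := h.exists_inverting hno P ht
  obtain ⟨z, hz, hz1⟩ := exists_ne_one_of_no_defectZero hno P
  refine exists_even_degree hz1 (isConj_iff.2 ⟨s, hs z hz⟩) ?_
  rw [sqrtN_eq_one (h z hz1 (pElt_of_mem_isPGroup Fact.out P.isPGroup' hz))]
  exact odd_one

end Cfsg.Agent.S4746
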