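import Mathlib
import Cfsg.Statements.S4748
import Cfsg.Agent.S4446
import Cfsg.Agent.S4451
import Cfsg.Agent.Lib.Glaub.CyclicCorr
import Cfsg.Agent.Lib.PLocal.QuadSep
import Cfsg.Agent.Lib.Coprime.Generation
import Cfsg.Agent.Lib.Frob.Quaternion
import Cfsg.Agent.Lib.Char.Clifford
import Cfsg.Agent.Lib.Char.Kernel

set_option autoImplicit false
open scoped Pointwise
open Cfsg

namespace Cfsg.Agent.S4748

open CfsgLib.Char CfsgLib.Glaub CfsgLib.ChDeg CfsgLib.CharDeep
open scoped commutatorElement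

theorem deg_bound_inv {Γ : Type*} [Group Γ] [Finite Γ] (G S : Subgroup Γ) [hG : G.Normal]
    (hcop : (Nat.card G).Coprime (Nat.card S)) (htop : G ⊔ S = ⊤) (hcyc : IsCyclic S)
    (hfpf : ∀ x ∈ S, x ≠ 1 →
      G ⊓ Subgroup.centralizer ({x} : Set Γ) = G ⊓ Subgroup.centralizer (S : Set Γ))
    {θ : G → ℂ} (hθ : IsIrrCharacter G θ)
    (hinv : ∀ s ∈ S, ∀ g g' : G, (g' : Γ) = s * g * s⁻¹ → θ g' = θ g)
    {k s : Γ} (hs : s ∈ S) (hz : ⁅s, k⁆ ∈ G) (hne : θ ⟨_, hz⟩ ≠ θ 1) :
    Nat.card S ≤ charDegree θ + 1 := by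
  classical
  have := Fintype.ofFinite Γ
  have hnorm : ∀ s ∈ S, ∀ g ∈ G, s * g * s⁻¹ ∈ G := fun s _ g hg => hG.conj_mem g hg s
  have hidx := index_eq_card_of_sup_top hcop htop
  obtain ⟨χh, ⟨hχh, hext, hdet⟩, -⟩ := exists_canonical_of_coprime G (by rw [hidx]; exact hcop) hθ
    (cj_inv_of_sup_top htop (isClassFunction_of_isIrr hθ) hinv)
  have hdet' : (detOrder χh).Coprime (Nat.card S) := by
    rw [hdet]; exact Nat.Coprime.coprime_dvd_left (detOrder_dvd_card θ) hcop
  set C := G ⊓ Subgroup.centralizer (S : Set Γ) with hC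
  have hCG : C ≤ G := inf_le_left
  obtain ⟨⟨⟨β, ε₀⟩, ⟨hε₀, hβ⟩, -⟩, -⟩ := (Cfsg.Agent.S4446.result G S hnorm hcop htop hcyc C hC
    hCG).1 ⟨θ, hθ⟩ ⟨χh, hχh⟩ hinv hext hdet'
  obtain ⟨ε, hε, ⟨μ, hμ, hμ1, hμ2, hμ3⟩, ⟨ϑ, hϑ, hres⟩, -⟩ := Cfsg.Agent.S4451.result G S hnorm hcop
    htop hcyc C hC hCG hfpf ⟨θ, hθ⟩ hinv ⟨χh, hχh⟩ hext hdet' β ε₀ hε₀ hβ
  have hθc : IsCharacter C (fun c : C => θ ⟨c, hCG c.2⟩) :=
    isCharacter_res_le hCG (isCharacter_of_isIrr hθ)
  have h1 : (charDegree θ : ℂ) = Nat.card S * charDegree ϑ + ε * charDegree (β : C → ℂ) := by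
    rw [deg_cast (isCharacter_of_isIrr hθ), deg_cast hϑ, irr_deg_cast]
    exact congrFun hres 1
  have h1' : (charDegree θ : ℤ) = Nat.card S * charDegree ϑ + ε * charDegree (β : C → ℂ) := by
    exact_mod_cast h1
  have hβpos := deg_pos β.2
  have hθpos := deg_pos hθ
  by_cases h0 : charDegree ϑ = 0
  · exfalso
    have hs1 : s ≠ 1 := by
      rintro rfl
      apply hne
      congr 1
      exact Subtype.ext (by simp)
    have hnorm1 : ‖χh s‖ = ‖χh 1‖ := by
      have e1 := hμ3 1 ⟨s, hs⟩ (fun h => hs1 (congrArg Subtype.val h))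
      have e2 : χh s = ε * (β : C → ℂ) 1 * μ ⟨s, hs⟩ := by simpa using e1
      have e3 : χh 1 = ε * (β : C → ℂ) 1 := by
        have := hext 1
        rw [OneMemClass.coe_one] at this
        rw [this, ← deg_cast (isCharacter_of_isIrr hθ), h1, h0, irr_deg_cast]
        simp
      have e4 : ‖μ ⟨s, hs⟩‖ = 1 := by
        rcases mul_self_eq_one_iff.mp (hμ2 ⟨s, hs⟩) with h | h <;> rw [h] <;> simp
      rw [e2, e3, norm_mul, e4, mul_one]
    have hk := commutator_mem_charKer (isClassFunction_of_isIrr hχh)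
      ((mem_charCenter (isCharacter_of_isIrr hχh)).mpr hnorm1) k
    rw [mem_charKer (isCharacter_of_isIrr hχh)] at hk
    apply hne
    rw [← hext, ← hext]
    exact hk
  · rcases hε with rfl | rfl
    · have : 1 ≤ charDegree ϑ := Nat.one_le_iff_ne_zero.mpr h0
      have h2 : (Nat.card S : ℤ) ≤ Nat.card S * charDegree ϑ :=
        le_mul_of_one_le_right (by positivity) (by exact_mod_cast this)
      omega
    · have hin : classInner ϑ (β : C → ℂ) ≠ 0 := by
        intro h
        obtain ⟨n, hn⟩ := exists_classInner_eq_nat hθc (irr_isCharacter β)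
        have e : (fun c : C => θ ⟨c, hCG c.2⟩) = (Nat.card S : ℂ) • ϑ - (β : C → ℂ) := by
          have := hres
          ext c
          have h' := congrFun hres c
          simp only [Pi.sub_apply, Pi.smul_apply, smul_eq_mul]
          simp only [Int.reduceNeg, Int.cast_neg, Int.cast_one] at h'
          rw [h']; ring
        rw [e, classInner_sub_left, classInner_smul_left, h, classInner_irr_self β.2] at hn
        have h3 : ((-1 : ℤ) : ℂ) = ((n : ℤ) : ℂ) := by push_cast; rw [← hn]; ring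
        have h4 : (-1 : ℤ) = n := by exact_mod_cast h3
        omega
      have h2 := deg_le_of_inner_ne_zero hϑ β.2 hin
      have h3 : (Nat.card S : ℤ) * charDegree (β : C → ℂ) ≤ Nat.card S * charDegree ϑ :=
        mul_le_mul_of_nonneg_left (by exact_mod_cast h2) (by positivity)
      have h4 : 1 ≤ Nat.card S := Nat.card_pos
      have h5 : ((Nat.card S : ℤ) - 1) * 1 ≤ (Nat.card S - 1) * charDegree (β : C → ℂ) :=
        mul_le_mul_of_nonneg_left (by exact_mod_cast hβpos) (by omega)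
      have h6 : (Nat.card S : ℤ) ≤ charDegree θ + 1 := by nlinarith
      exact_mod_cast h6

theorem deg_bound {Γ : Type*} [Group Γ] [Finite Γ] (G S : Subgroup Γ) [hG : G.Normal]
    (hcop : (Nat.card G).Coprime (Nat.card S)) (htop : G ⊔ S = ⊤) (hcyc : IsCyclic S)
    (hfpf : ∀ x ∈ S, x ≠ 1 →
      G ⊓ Subgroup.centralizer ({x} : Set Γ) = G ⊓ Subgroup.centralizer (S : Set Γ))
    {χ : Γ → ℂ} (hχ : IsCharacter Γ χ) (hf : ∀ g, χ g = χ 1 → g = 1)
    {k s : Γ} (hk : k ∈ G) (hs : s ∈ S) (hks : ⁅s, k⁆ ≠ 1) :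
    Nat.card S ≤ charDegree χ + 1 := by
  classical
  have := Fintype.ofFinite Γ
  have hnorm : ∀ s ∈ S, ∀ g ∈ G, s * g * s⁻¹ ∈ G := fun s _ g hg => hG.conj_mem g hg s
  have hz : ⁅s, k⁆ ∈ G := by
    rw [commutatorElement_def]
    exact G.mul_mem (hG.conj_mem k hk s) (G.inv_mem hk)
  have hχG : IsCharacter G (fun g : G => χ g) := isCharacter_restrict G hχ
  obtain ⟨θ, hθ, hin, hne⟩ : ∃ θ, IsIrrCharacter G θ ∧ classInner (fun g : G => χ g) θ ≠ 0 ∧
      θ ⟨_, hz⟩ ≠ θ 1 := by
    by_contra hcon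
    push Not at hcon
    have := mem_cker_of_forall hχG (g := ⟨_, hz⟩) fun ψ hψ h =>
      (mem_cker (isCharacter_of_isIrr hψ)).mpr (hcon ψ hψ h)
    rw [mem_cker hχG] at this
    exact hks (hf _ this)
  by_cases hinv : ∀ s ∈ S, ∀ g g' : G, (g' : Γ) = s * g * s⁻¹ → θ g' = θ g
  · have h1 := deg_bound_inv G S hcop htop hcyc hfpf hθ hinv hs hz hne
    have h2 := deg_le_of_inner_ne_zero hχG hθ hin
    rw [deg_res] at h2
    omega
  · -- no non-identity element of `S` fixes `θ`
    have hfree : ∀ x ∈ S, x ∈ inertia G θ → x = 1 := by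
      intro x hx hxθ
      by_contra hx1
      apply hinv
      have hle : Subgroup.zpowers x ≤ S := Subgroup.zpowers_le.mpr hx
      have hnorm' : ∀ s ∈ Subgroup.zpowers x, ∀ g ∈ G, s * g * s⁻¹ ∈ G :=
        fun s _ g hg => hG.conj_mem g hg s
      have hsol : Group.IsSolvable S := by
        have := hcyc.isMulCommutative
        exact CfsgLib.Coprime.isSolvable_of_isMulCommutative S
      have hsol' : Group.IsSolvable (Subgroup.zpowers x) := CfsgLib.Coprime.isSolvable_zpowers x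
      have c1 := card_invIrr_eq (conjAut S G hnorm) hcop
        (Subgroup.inclusion (inf_le_left : G ⊓ Subgroup.centralizer (S : Set Γ) ≤ G))
        (Subgroup.inclusion_injective _) (range_inclusion_iff hnorm rfl _)
      have c2 := card_invIrr_eq (conjAut (Subgroup.zpowers x) G hnorm')
        (Nat.Coprime.coprime_dvd_right (Subgroup.card_dvd_of_le hle) hcop)
        (Subgroup.inclusion (inf_le_left : G ⊓ Subgroup.centralizer (S : Set Γ) ≤ G))
        (Subgroup.inclusion_injective _)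
        (range_inclusion_iff hnorm' (by rw [centralizer_zpowers, hfpf x hx hx1]) _)
      let F : InvIrr (conjAut S G hnorm) → InvIrr (conjAut (Subgroup.zpowers x) G hnorm') :=
        fun ψ => ⟨ψ.1, fun a g => ψ.2 ⟨a, hle a.2⟩ g⟩
      have hF : Function.Injective F := fun a b h =>
        Subtype.ext (congrArg (fun z => z.1) h)
      have hfin := finite_irr (G := G)
      have hFs := (hF.bijective_of_nat_card_le (by rw [c1, c2])).2
      have hθx : Inv (conjAut (Subgroup.zpowers x) G hnorm') θ := by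
        intro a g
        exact (mem_inertia' G).mp ((Subgroup.zpowers_le.mpr hxθ) a.2) g
      obtain ⟨ψ, hψ⟩ := hFs ⟨⟨θ, hθ⟩, hθx⟩
      have hψ' : (ψ.1 : G → ℂ) = θ := congrArg (fun z => (z.1 : G → ℂ)) hψ
      rw [← inv_conjAut_iff S G hnorm, ← hψ']
      exact ψ.2
    obtain ⟨n, hn, hdeg⟩ := exists_deg_eq_sum hχG
    rw [deg_res] at hdeg
    let f : S → IrrCharacter G := fun x => ⟨conjChar G x θ, isIrr_conjChar G _ hθ⟩
    have hfi : Function.Injective f := by
      intro a b h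
      have h1 : conjChar G (a : Γ) θ = conjChar G (b : Γ) θ := congrArg Subtype.val h
      rw [conjChar_eq_iff] at h1
      exact Subtype.ext (mul_inv_eq_one.mp (hfree _ (S.mul_mem a.2 (S.inv_mem b.2)) h1))
    have h1 : ∑ x : S, 1 ≤ ∑ x : S, n (f x) * charDegree (f x : G → ℂ) := by
      refine Finset.sum_le_sum fun x _ => ?_
      have h2 : n (f x) ≠ 0 := by
        intro h
        have h3 := hn (f x)
        rw [h] at h3
        apply hin
        rw [← classInner_res_conjChar G (x : Γ) (isClassFunction_of_isCharacter hχ) θ]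
        exact h3.trans (by simp)
      exact Nat.one_le_iff_ne_zero.mpr (mul_ne_zero h2 (deg_pos (f x).2).ne')
    have h2 : ∑ x : S, n (f x) * charDegree (f x : G → ℂ) ≤
        ∑ ψ : IrrCharacter G, n ψ * charDegree (ψ : G → ℂ) := by
      rw [← Finset.sum_image (s := Finset.univ) (g := f)
        (f := fun ψ : IrrCharacter G => n ψ * charDegree (ψ : G → ℂ)) (fun a _ b _ h => hfi h)]
      exact Finset.sum_le_sum_of_subset (Finset.subset_univ _)
    rw [Finset.sum_const, Finset.card_univ, smul_eq_mul, mul_one, ← Nat.card_eq_fintype_card] at h1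
    omega

theorem deg_bound' {Γ : Type*} [Group Γ] [Finite Γ] (G S : Subgroup Γ) [hG : G.Normal]
    (hcop : (Nat.card G).Coprime (Nat.card S)) (hcyc : IsCyclic S)
    (hfpf : ∀ x ∈ S, x ≠ 1 → ∀ g ∈ G, x * g = g * x → ∀ y ∈ S, y * g = g * y)
    {χ : Γ → ℂ} (hχ : IsCharacter Γ χ) (hf : ∀ g, χ g = χ 1 → g = 1)
    {k s : Γ} (hk : k ∈ G) (hs : s ∈ S) (hks : ⁅s, k⁆ ≠ 1) :
    Nat.card S ≤ charDegree χ + 1 := by
  have e1 : Nat.card (G.subgroupOf (G ⊔ S)) = Nat.card G :=
    Nat.card_congr (Subgroup.subgroupOfEquivOfLe le_sup_left).toEquiv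
  have e2 : Nat.card (S.subgroupOf (G ⊔ S)) = Nat.card S :=
    Nat.card_congr (Subgroup.subgroupOfEquivOfLe le_sup_right).toEquiv
  have h := deg_bound (G.subgroupOf (G ⊔ S)) (S.subgroupOf (G ⊔ S)) (by rw [e1, e2]; exact hcop)
    (by rw [← Subgroup.subgroupOf_sup le_sup_left le_sup_right, Subgroup.subgroupOf_self])
    (isCyclic_of_surjective _ (Subgroup.subgroupOfEquivOfLe le_sup_right).symm.surjective)
    (fun x hx hx1 => by
      refine le_antisymm (fun g hg => ⟨hg.1, ?_⟩) (inf_le_inf_left _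
        (Subgroup.centralizer_le (Set.singleton_subset_iff.mpr hx)))
      refine Subgroup.mem_centralizer_iff.mpr fun y hy => Subtype.ext ?_
      exact hfpf x hx (fun h => hx1 (Subtype.ext h)) g hg.1
        (congrArg Subtype.val (Subgroup.mem_centralizer_iff.mp hg.2 x rfl)) y hy)
    (isCharacter_restrict (G ⊔ S) hχ) (fun g hg => Subtype.ext (hf _ hg))
    (k := ⟨k, Subgroup.mem_sup_left hk⟩) (s := ⟨s, Subgroup.mem_sup_right hs⟩) hk hs
    (fun h => hks (congrArg Subtype.val h))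
  rwa [e2, deg_res] at h

/-- Let G be a finite p-solvable group whose Sylow p-subgroup P meets each conjugate g P g⁻¹ with g outside N_G(P) trivially, and let χ be a faithful character of G (χ g = χ 1 only for g = 1) whose degree d satisfies d² ≤ |P|. Then P is normal in G. -/
theorem result {G : Type*} [Group G] [Finite G] (p : ℕ) [Fact p.Prime] (hsolv : Cfsg.IsPSolvable p G) (P : Sylow p G) (hTI : ∀ g : G, g ∉ Subgroup.normalizer ((P : Subgroup G) : Set G) → (P : Subgroup G) ⊓ (MulAut.conj g • (P : Subgroup G)) = ⊥) (χ : G → ℂ) (hχ : Cfsg.IsCharacter G χ) (hfaith : ∀ g : G, χ g = χ 1 → g = 1) (hdeg : Cfsg.charDegree χ ^ 2 ≤ Nat.card ↥(P : Subgroup G)) : (P : Subgroup G).Normal := by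
  classical
  by_contra hnn
  have := Fintype.ofFinite G
  obtain ⟨g, hg⟩ : ∃ g : G, g ∉ Subgroup.normalizer ((P : Subgroup G) : Set G) := by
    by_contra h
    push Not at h
    exact hnn (Subgroup.normalizer_eq_top_iff.mp (eq_top_iff.mpr fun x _ => h x))
  have hO : pCore p G = ⊥ := by
    rw [eq_bot_iff, ← hTI g hg]
    exact le_inf (CfsgLib.PLocal.PSolv.pCore_le_sylow P)
      (CfsgLib.PLocal.PSolv.pCore_le_sylow (MulAut.conj g • P))
  set K := pPrimeCore p G with hK
  have hKc : (Nat.card K).Coprime p := CfsgLib.PLocal.PSolv.coprime_card_pPrimeCore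
  have hdis : ∀ x ∈ (P : Subgroup G), x ∈ K → x = 1 := fun x h1 h2 =>
    Subgroup.disjoint_def.mp (CfsgLib.PLocal.PSolv.disjoint_of_isPGroup_of_coprime P.2 hKc) h1 h2
  have hcopS : ∀ S : Subgroup G, S ≤ P → (Nat.card K).Coprime (Nat.card S) := fun S hS =>
    CfsgLib.Coprime.coprime_card_of_isPGroup (P.2.to_le hS) hKc
  have hfpf : ∀ x ∈ (P : Subgroup G), x ≠ 1 → ∀ c ∈ K, x * c = c * x →
      ∀ y ∈ (P : Subgroup G), y * c = c * y := by
    intro x hx hx1 c hc hxc y hy
    have hcN : c ∈ Subgroup.normalizer ((P : Subgroup G) : Set G) := by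
      by_contra h
      apply hx1
      have : x ∈ (P : Subgroup G) ⊓ (MulAut.conj c • (P : Subgroup G)) := by
        refine ⟨hx, CfsgLib.Coprime.mem_conj_smul_iff.mpr ?_⟩
        rw [mul_assoc, hxc, inv_mul_cancel_left]; exact hx
      rw [hTI c h] at this
      exact this
    have h1 : c * y * c⁻¹ * y⁻¹ ∈ (P : Subgroup G) :=
      Subgroup.mul_mem _ ((Subgroup.mem_normalizer_iff.mp hcN y).mp hy) (Subgroup.inv_mem _ hy)
    have h2 : c * y * c⁻¹ * y⁻¹ ∈ K := by
      have := K.mul_mem hc ((inferInstance : K.Normal).conj_mem _ (K.inv_mem hc) y)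
      simpa [mul_assoc] using this
    have h3 := hdis _ h1 h2
    rw [mul_inv_eq_one, mul_inv_eq_iff_eq_mul] at h3
    exact h3.symm
  have hnc : ∀ s ∈ (P : Subgroup G), s ≠ 1 → ∃ k ∈ K, ⁅s, k⁆ ≠ 1 := by
    intro s hs hs1
    by_contra h
    push Not at h
    apply hs1
    refine hdis s hs (CfsgLib.PLocal.centralizer_pPrimeCore_le hsolv hO ?_)
    exact Subgroup.mem_centralizer_iff.mpr fun k hk =>
      (commutatorElement_eq_one_iff_mul_comm.mp (h k hk)).symm
  have hbound : ∀ S : Subgroup G, S ≤ P → IsCyclic S → Nat.card S ≤ charDegree χ + 1 := by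
    intro S hS hcyc
    by_cases h1 : S = ⊥
    · rw [h1, Subgroup.card_bot]; omega
    · obtain ⟨⟨s, hs⟩, hs1⟩ := Subgroup.ne_bot_iff_exists_ne_one.mp h1
      obtain ⟨k, hk, hsk⟩ := hnc s (hS hs) fun h => hs1 (Subtype.ext h)
      exact deg_bound' K S (hcopS S hS) hcyc
        (fun x hx hx1 c hc hxc y hy => hfpf x (hS hx) hx1 c hc hxc y (hS hy)) hχ hfaith hk hs hsk
  have hA : ∀ A : Subgroup (P : Subgroup G), A.Normal → IsMulCommutative A → IsCyclic A := by
    intro A _ hA
    by_contra hnc'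
    have hle : A.map (P : Subgroup G).subtype ≤ P := Subgroup.map_subtype_le A
    have hnc'' : ¬ IsCyclic (A.map (P : Subgroup G).subtype) := fun h => hnc'
      (isCyclic_of_surjective _
        (A.equivMapOfInjective _ (P : Subgroup G).subtype_injective).symm.surjective)
    have hKle := CfsgLib.Coprime.le_of_forall_centralizer_le (K := K)
      (H := Subgroup.centralizer ((P : Subgroup G) : Set G)) hnc'' Subgroup.le_normalizer_of_normal
      (hcopS _ hle).symm (fun a ha ha1 c hc => Subgroup.mem_centralizer_iff.mpr fun y hy =>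
        hfpf a (hle ha) ha1 c hc.1 (Subgroup.mem_centralizer_iff.mp hc.2 a rfl) y hy)
    have hP1 : (P : Subgroup G) ≠ ⊥ := fun h => hnn (by rw [h]; infer_instance)
    obtain ⟨⟨s, hs⟩, hs1⟩ := Subgroup.ne_bot_iff_exists_ne_one.mp hP1
    obtain ⟨k, hk, hsk⟩ := hnc s hs fun h => hs1 (Subtype.ext h)
    exact hsk (commutatorElement_eq_one_iff_mul_comm.mpr
      (Subgroup.mem_centralizer_iff.mp (hKle hk) s hs))
  rcases CfsgLib.Frob.exists_gens_of_forall_normal_isCyclic P.2 hA with hc | ⟨-, a, b, m, hi, ha, -, hm⟩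
  · have h1 := hbound P le_rfl hc
    have h2 : charDegree χ ≤ 1 := by nlinarith
    apply hnn
    have hcomm := comm_of_faithful hχ ((cker_eq_bot_iff hχ).mpr hfaith) fun ψ hψ h => by
      have h3 := deg_le_of_inner_ne_zero hχ hψ h
      have h4 := deg_pos hψ
      omega
    exact ⟨fun n hn x => by rw [hcomm x n, mul_inv_cancel_right]; exact hn⟩
  · have hm2 : 2 ≤ m := by
      rcases hm with h | h | h <;> omega
    have h1 := hbound (Subgroup.zpowers (a : G)) (Subgroup.zpowers_le.mpr a.2) inferInstance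
    rw [Nat.card_zpowers, Subgroup.orderOf_coe, ha] at h1
    have h2 := (Subgroup.zpowers a).card_mul_index
    rw [Nat.card_zpowers, ha, hi] at h2
    have h3 : 4 ≤ 2 ^ m := by
      calc 4 = 2 ^ 2 := rfl
        _ ≤ 2 ^ m := Nat.pow_le_pow_right (by norm_num) hm2
    rw [← h2] at hdeg
    nlinarith

end Cfsg.Agent.S4748
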