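import Cfsg.Statements.S4750
import Cfsg.Agent.Lib.ZStar.Val
import Cfsg.Agent.Lib.Perm.PermModule
import Cfsg.Agent.Lib.ChDeg.Deg
import Cfsg.Agent.Lib.InvChar.SylowBasic

set_option autoImplicit false
open scoped Pointwise
open Cfsg

namespace Cfsg.Agent.S4750

open Cfsg CfsgLib.Char CfsgLib.ChDeg
open scoped ComplexConjugate

section

attribute [local instance] Classical.propDecidable

theorem exists_rel {P : Type*} [Group P] [Fintype P] {p : ℕ} [hp : Fact p.Prime] (hP : IsPGroup p P)
    (B : ValuationSubring ℂ) (hB : B.valuation (p : ℂ) < 1) {n : ℕ} (ρ : Representation ℂ P (Fin n → ℂ))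
    (hn : n < Nat.card P) (x : Fin n → ℂ) :
    ∃ c : P → ℂ, ∑ g, c g • ρ g x = 0 ∧ B.valuation (c 1) = 1 ∧ ∀ g, B.valuation (c 1 - c g) < 1 := by
  have hres : ∀ b : B, IsLocalRing.residue B b = 0 ↔ B.valuation b < 1 := fun b =>
    (IsLocalRing.residue_eq_zero_iff b).trans (B.valuation_lt_one_iff b)
  have : CharP (IsLocalRing.ResidueField B) p := (CharP.charP_iff_prime_eq_zero hp.out).2 (by
    rw [← map_natCast (IsLocalRing.residue B), hres]; simpa using hB)
  let W : Submodule (IsLocalRing.ResidueField B) (P → IsLocalRing.ResidueField B) :=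
    { carrier := {w | ∃ c : P → B, ∑ g, (c g : ℂ) • ρ g x = 0 ∧ ∀ g, IsLocalRing.residue B (c g) = w g}
      zero_mem' := ⟨0, by simp, by simp⟩
      add_mem' := by
        rintro _ _ ⟨c, h1, h2⟩ ⟨d, h3, h4⟩
        exact ⟨c + d, by simp [add_smul, Finset.sum_add_distrib, h1, h3], by simp [h2, h4]⟩
      smul_mem' := by
        rintro a _ ⟨c, h1, h2⟩
        obtain ⟨a, rfl⟩ := IsLocalRing.residue_surjective a
        exact ⟨fun g => a * c g, by simp [mul_smul, ← Finset.smul_sum, h1], by simp [h2]⟩ }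
  let σ : Representation (IsLocalRing.ResidueField B) P (P → IsLocalRing.ResidueField B) :=
    { toFun := fun g => LinearMap.funLeft _ _ fun h => g⁻¹ * h
      map_one' := by ext; simp
      map_mul' := fun g h => by ext; simp [mul_assoc] }
  obtain ⟨w, ⟨c, h1, h2⟩, h0, hw⟩ := CfsgLib.Perm.exists_fixed_of_isPGroup hP σ W (by
    rintro g _ ⟨c, h1, h2⟩
    refine ⟨fun h => c (g⁻¹ * h), ?_, fun h => h2 _⟩
    have := congrArg (ρ g) h1
    rw [map_sum, map_zero] at this
    rw [← this]
    exact (Fintype.sum_equiv (Equiv.mulLeft g) _ _ fun h => by simp).symm) (by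
    obtain ⟨c, h1, g, h2⟩ := Fintype.not_linearIndependent_iff.1 (mt
      (LinearIndependent.fintype_card_le_finrank (R := ℂ) (b := fun g : P => ρ g x)) (by
        simpa using hn))
    obtain ⟨k, hk⟩ := Finite.exists_max fun g => B.valuation (c g)
    have h3 : c k ≠ 0 := fun e => h2 (by simpa [e] using hk g)
    refine (Submodule.ne_bot_iff _).2 ⟨_, ⟨fun g => ⟨c g / c k, (B.valuation_le_one_iff _).1 ?_⟩, ?_,
      fun _ => rfl⟩, fun e => ?_⟩
    · rw [map_div₀]; exact div_le_one_of_le₀ (hk g) zero_le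
    · simp [div_eq_inv_mul, mul_smul, ← Finset.smul_sum, h1]
    · have := (hres _).1 (congrFun e k)
      simp [h3] at this)
  have h3 : ∀ g, w g = w 1 := fun g => by simpa [σ] using (congrFun (hw g) g).symm
  refine ⟨fun g => c g, h1, ((B.valuation_le_one _).eq_or_lt).resolve_right fun h => h0 (funext fun g => ?_),
    fun g => ?_⟩
  · rw [h3, ← h2, (hres _).2 h, Pi.zero_apply]
  · have := (hres (c 1 - c g)).1 (by rw [map_sub, h2, h2, h3 g, sub_self])
    simpa using this

theorem fixed_eq_zero {G : Type*} [Group G] [Fintype G] {p : ℕ} [hp : Fact p.Prime] (P H : Subgroup G)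
    (hP : IsPGroup p P) (hfree : ∀ a ∈ P, ∀ g, g⁻¹ * a * g ∈ H → g ∉ H → a = 1) {n : ℕ}
    (ρ : Representation ℂ G (Fin n → ℂ)) (hn : n < Nat.card P) (h0 : ∀ y, (∀ g, ρ g y = y) → y = 0)
    (hPH : P ≤ H) (x : Fin n → ℂ) (hx : ∀ h ∈ H, ρ h x = x) : x = 0 := by
  by_contra hx0
  obtain ⟨B, hB⟩ := CfsgLib.ZStar.exists_valuation p hp.out
  obtain ⟨i, hi⟩ := Function.ne_iff.1 hx0
  have : Nonempty (G × Fin n) := ⟨1, i⟩
  obtain ⟨⟨g₀, i₀⟩, hm⟩ := Finite.exists_max fun t : G × Fin n => B.valuation (ρ t.1 x t.2)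
  set γ := B.valuation (ρ g₀ x i₀) with hγ
  have hγ0 : γ ≠ 0 := fun e => hi (by simpa [e] using hm (1, i))
  let S : AddSubgroup (Fin n → ℂ) :=
    { carrier := {y | ∀ g i, B.valuation (ρ g y i) < γ}
      zero_mem' := fun g i => by simpa using zero_lt_iff.2 hγ0
      add_mem' := fun h1 h2 g i => by simpa using B.valuation.map_add_lt (h1 g i) (h2 g i)
      neg_mem' := fun h1 g i => by simpa using h1 g i }
  have hT : ∀ k, ∑ a : P, ρ (a * k) x ∈ S := fun k => by
    obtain ⟨c, h1, h2, h3⟩ := exists_rel hP B hB (ρ.comp P.subtype) hn (ρ k x)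
    have h4 : ∑ a : P, (c 1 - c a) • ρ (a * k) x ∈ S := sum_mem fun a _ g i => by
      have := hm (g * (a * k), i)
      simp only [map_smul, Pi.smul_apply, smul_eq_mul, map_mul B.valuation]
      rw [← Module.End.mul_apply, ← map_mul ρ]
      exact (mul_le_mul_right this _).trans_lt (mul_lt_of_lt_one_left (zero_lt_iff.2 hγ0) (h3 a))
    have h5 : ∑ a : P, (c 1 - c a) • ρ (a * k) x = c 1 • ∑ a : P, ρ (a * k) x := by
      simp only [sub_smul, Finset.sum_sub_distrib, ← Finset.smul_sum, sub_eq_self]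
      simpa using h1
    intro g i
    have := h4 g i
    rwa [h5, map_smul, Pi.smul_apply, smul_eq_mul, map_mul B.valuation, h2, one_mul] at this
  let F : G ⧸ H → Fin n → ℂ := fun q => ρ q.out x
  have hF : ∀ g : G, F (g : G ⧸ H) = ρ g x := fun g => by
    obtain ⟨h, e⟩ := QuotientGroup.mk_out_eq_mul H g
    simp [F, e, hx h h.2]
  have h1 := h0 (∑ q, F q) fun g => by
    rw [map_sum]
    refine Fintype.sum_equiv (MulAction.toPerm g) _ _ fun q => ?_
    obtain ⟨k, rfl⟩ := QuotientGroup.mk_surjective q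
    simp [hF]
  rw [← Finset.add_sum_erase _ _ (Finset.mem_univ ((1 : G) : G ⧸ H)), hF, map_one, Module.End.one_apply,
    add_eq_zero_iff_eq_neg] at h1
  have h2 : x ∈ S := by
    rw [h1, Finset.sum_partition (MulAction.orbitRel P (G ⧸ H))]
    refine neg_mem (sum_mem fun ω hω => ?_)
    obtain ⟨q, hq, rfl⟩ := Finset.mem_image.1 hω
    obtain ⟨k, rfl⟩ := QuotientGroup.mk_surjective q
    have hk : k ∉ H := fun hk => Finset.ne_of_mem_erase hq (QuotientGroup.eq.2 (by simpa using hk))
    convert hT k using 1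
    refine (Finset.sum_bij (fun (a : P) _ => (((a : G) * k : G) : G ⧸ H)) (fun a _ => ?_)
      (fun a _ b _ e => ?_) (fun q hq => ?_) fun a _ => (hF _).symm).symm
    · refine Finset.mem_filter.2 ⟨Finset.mem_erase.2 ⟨fun e => hk ?_, Finset.mem_univ _⟩,
        Quotient.sound ⟨a, rfl⟩⟩
      have := QuotientGroup.eq.1 e.symm
      rw [inv_one, one_mul] at this
      exact (H.mul_mem_cancel_left (hPH a.2)).1 this
    · have := hfree _ (a⁻¹ * b).2 k (by simpa [mul_assoc] using QuotientGroup.eq.1 e) hk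
      exact inv_mul_eq_one.1 (Subtype.ext this)
    · obtain ⟨a, e⟩ := Quotient.exact (Finset.mem_filter.1 hq).2
      exact ⟨a, Finset.mem_univ _, e⟩
  exact lt_irrefl _ (h2 g₀ i₀)

end

/-- Let P be a Sylow p-subgroup of the finite group G that meets each conjugate g P g⁻¹ with g outside N_G(P) trivially, χ a character of G with χ(1)² ≤ |P|, and H a subgroup of G containing N_G(P). Then the inner product of χ with itself over G equals the inner product over H of the restriction of χ to H. -/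
theorem result {G : Type*} [Group G] [Fintype G] [DecidableEq G] (p : ℕ) [Fact p.Prime] (P : Sylow p G) (hTI : ∀ g : G, g ∉ Subgroup.normalizer ((P : Subgroup G) : Set G) → (P : Subgroup G) ⊓ (MulAut.conj g • (P : Subgroup G)) = ⊥) (χ : G → ℂ) (hχ : Cfsg.IsCharacter G χ) (hdeg : Cfsg.charDegree χ ^ 2 ≤ Nat.card ↥(P : Subgroup G)) (H : Subgroup G) [Fintype ↥H] (hH : Subgroup.normalizer ((P : Subgroup G) : Set G) ≤ H) : Cfsg.classInner χ χ = Cfsg.classInner (fun h : ↥H => χ h) (fun h : ↥H => χ h) := by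
  classical
  have hc := isCharacter_mul hχ (isCharacter_conj hχ)
  by_cases h0 : χ = 0
  · simp [h0, classInner_def]
  have hPH : (P : Subgroup G) ≤ H := Subgroup.le_normalizer.trans hH
  have key : ∀ θ, IsIrrCharacter G θ → classInner (χ * fun g => starRingEnd ℂ (χ g)) θ ≠ 0 →
      classInner θ (fun _ => 1) = classInner (fun h : H => θ h) (fun _ => 1) := fun θ hθ h1 => by
    by_cases h2 : θ = fun _ => 1
    · rw [h2, classInner_one_one, classInner_one_one]
    have h3 := isCharacter_sub_of_inner_ne_zero hc hθ h1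
    have h4 : classInner θ (fun _ => 1) = 0 := classInner_irr_of_ne hθ isIrr_one h2
    have h5 := deg_le_of_inner_ne_zero h3 isIrr_one (by
      rw [classInner_sub_left, h4, sub_zero]
      exact (classInner_mul_conj_one χ χ).trans_ne (mt classInner_self_eq_zero.1 h0))
    have h6 := deg_add h3 (isCharacter_of_isIrr hθ)
    rw [sub_add_cancel, deg_mul hχ (isCharacter_conj hχ),
      deg_congr (χ := fun g => starRingEnd ℂ (χ g)) (conj_char_one hχ), ← sq] at h6
    rw [deg_one] at h5
    obtain ⟨n, ρ, hρ, rfl⟩ := hθ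
    rw [deg_eq_of_eq (χ := ρ.character) (n := n) (by simp)] at h6
    rw [h4]
    rw [classInner_rep_one, Nat.cast_eq_zero, Submodule.finrank_eq_zero] at h4
    refine ((classInner_rep_one (ρ.comp H.subtype)).trans ?_).symm
    rw [Nat.cast_eq_zero, Submodule.finrank_eq_zero, eq_bot_iff]
    refine fun x hx => fixed_eq_zero P H P.isPGroup' (fun a ha g h1 h2 => ?_) ρ (by omega)
      (fun y hy => (Submodule.eq_bot_iff _).1 h4 y hy) hPH x fun h hh => hx ⟨h, hh⟩
    obtain ⟨h, hh, e⟩ := CfsgLib.InvChar.exists_conj_mem_sylow_of_le P hPH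
      (P := (Subgroup.zpowers a).map (MulAut.conj g⁻¹).toMonoidHom)
      ((P.isPGroup'.to_le (Subgroup.zpowers_le_of_mem ha)).map _) (by
        rw [MonoidHom.map_zpowers, Subgroup.zpowers_le]; simpa using h1)
    have h7 := e _ ⟨a, Subgroup.mem_zpowers a, rfl⟩
    have h8 := hTI (g * h⁻¹) fun h9 => h2 (by simpa using mul_mem (hH h9) hh)
    refine Subgroup.mem_bot.1 (h8 ▸ Subgroup.mem_inf.2 ⟨ha, ?_⟩)
    rw [Subgroup.mem_pointwise_smul_iff_inv_smul_mem]
    simpa [mul_assoc] using h7
  rw [← classInner_mul_conj_one χ, ← classInner_mul_conj_one fun h : H => χ h]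
  have h1 := classFun_eq_sum (isClassFunction_of_isCharacter hc)
  change classInner (χ * fun g => starRingEnd ℂ (χ g)) _ =
    classInner (fun h : H => (χ * fun g => starRingEnd ℂ (χ g)) h) _
  rw [h1]
  simp only [Finset.sum_apply]
  rw [classInner_sum_left, ← Finset.sum_fn, classInner_sum_left]
  refine Finset.sum_congr rfl fun θ _ => ?_
  rw [classInner_smul_left]
  refine Eq.trans ?_ (classInner_smul_left _ (fun h : H => (θ : G → ℂ) h) _).symm
  by_cases h2 : classInner (χ * fun g => starRingEnd ℂ (χ g)) θ = 0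
  · simp [h2]
  · rw [key θ θ.2 h2]

end Cfsg.Agent.S4750
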