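import Cfsg.Statements.S4754
import Cfsg.Agent.Lib.ChDeg.Avg

set_option autoImplicit false
open Cfsg

namespace Cfsg.Agent.S4754

/-- For elements x, y of a finite group G, the conjugacy class of x y equals the set of all products of a conjugate of x with a conjugate of y if and only if χ(1) χ(a x a⁻¹ b y b⁻¹) = χ(x) χ(y) for all a, b ∈ G and every irreducible character χ. -/
theorem result {G : Type*} [Group G] [Finite G] (x y : G) : (∀ z : G, IsConj (x * y) z ↔ ∃ a b : G, z = a * x * a⁻¹ * (b * y * b⁻¹)) ↔ ∀ (a b : G) (χ : Cfsg.IrrCharacter G), (χ : G → ℂ) 1 * (χ : G → ℂ) (a * x * a⁻¹ * (b * y * b⁻¹)) = (χ : G → ℂ) x * (χ : G → ℂ) y := by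
  open CfsgLib.Char CfsgLib.ChDeg in
  have : Fintype G := Fintype.ofFinite G
  constructor
  · intro h a b χ
    have hcf := irr_isClassFunction χ
    have key : ∀ a b : G, (χ : G → ℂ) (a * x * a⁻¹ * (b * y * b⁻¹)) = (χ : G → ℂ) (x * y) :=
      fun a b => (classFun_eq_of_isConj hcf ((h _).mpr ⟨a, b, rfl⟩)).symm
    have h1 := sum_irr_conj_mul χ.2 x y
    have h2 : ∀ a : G, (χ : G → ℂ) (a * x * a⁻¹ * y) = (χ : G → ℂ) (x * y) := fun a => by
      simpa using key a 1
    rw [Finset.sum_congr rfl fun a _ => h2 a, Finset.sum_const, Finset.card_univ,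
      ← Nat.card_eq_fintype_card, nsmul_eq_mul] at h1
    have h0 := irr_one_ne_zero χ.2
    have hG : (Nat.card G : ℂ) ≠ 0 := natCard_ne_zero
    rw [key]
    field_simp at h1
    rw [mul_comm, h1]
  · intro h z
    constructor
    · intro hz
      obtain ⟨c, rfl⟩ := isConj_iff.mp hz
      exact ⟨c, c, by group⟩
    · rintro ⟨a, b, rfl⟩
      refine isConj_of_irr_eq fun χ hχ => ?_
      have h1 := h a b ⟨χ, hχ⟩
      have h2 := h 1 1 ⟨χ, hχ⟩
      simp only [one_mul, inv_one, mul_one] at h2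
      exact mul_left_cancel₀ (irr_one_ne_zero hχ) (h2.trans h1.symm)

end Cfsg.Agent.S4754
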