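import Cfsg.Statements.S4755
import Cfsg.Agent.Lib.ChDeg.Avg

set_option autoImplicit false
open Cfsg

namespace Cfsg.Agent.S4755

/-- Let x, y be non-identity elements of the finite group G such that χ(x' y') = χ(x') χ(y') for all conjugates x' of x, y' of y and every irreducible character χ. Then the conjugacy class of x y is the set of all products of a conjugate of x with a conjugate of y; every irreducible character of degree greater than 1 vanishes at x y; and the conjugacy class of x y is the coset of the commutator subgroup containing x y. -/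
theorem result {G : Type*} [Group G] [Finite G] (x y : G) (hx : x ≠ 1) (hy : y ≠ 1) (h : ∀ (a b : G) (χ : Cfsg.IrrCharacter G), (χ : G → ℂ) (a * x * a⁻¹ * (b * y * b⁻¹)) = (χ : G → ℂ) (a * x * a⁻¹) * (χ : G → ℂ) (b * y * b⁻¹)) : (∀ z : G, IsConj (x * y) z ↔ ∃ a b : G, z = a * x * a⁻¹ * (b * y * b⁻¹)) ∧ (∀ χ : Cfsg.IrrCharacter G, (χ : G → ℂ) 1 ≠ 1 → (χ : G → ℂ) (x * y) = 0) ∧ (∀ z : G, IsConj (x * y) z ↔ (x * y)⁻¹ * z ∈ commutator G) := by
  open CfsgLib.Char CfsgLib.ChDeg in
  have : Fintype G := Fintype.ofFinite G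
  have key : ∀ (a b : G) (χ : G → ℂ), IsIrrCharacter G χ →
      χ (a * x * a⁻¹ * (b * y * b⁻¹)) = χ x * χ y := fun a b χ hχ => by
    have := h a b ⟨χ, hχ⟩
    have hcf := isClassFunction_of_isIrr hχ
    change χ _ = χ _ * χ _ at this
    rw [this, hcf, hcf]
  have key1 : ∀ (χ : G → ℂ), IsIrrCharacter G χ → χ (x * y) = χ x * χ y := fun χ hχ => by
    simpa using key 1 1 χ hχ
  have hzero : ∀ χ : G → ℂ, IsIrrCharacter G χ → χ 1 ≠ 1 → χ (x * y) = 0 := fun χ hχ h1 => by
    have h2 := sum_irr_conj_mul hχ x y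
    have h3 : ∀ a : G, χ (a * x * a⁻¹ * y) = χ x * χ y := fun a => by simpa using key a 1 χ hχ
    rw [Finset.sum_congr rfl fun a _ => h3 a, Finset.sum_const, Finset.card_univ,
      ← Nat.card_eq_fintype_card, nsmul_eq_mul] at h2
    have h0 := irr_one_ne_zero hχ
    have hG : (Nat.card G : ℂ) ≠ 0 := natCard_ne_zero
    rw [key1 χ hχ]
    have h4 : (Nat.card G : ℂ) * ((χ 1 - 1) * (χ x * χ y)) = 0 := by
      rw [eq_div_iff h0] at h2
      linear_combination h2
    exact (mul_eq_zero.mp ((mul_eq_zero.mp h4).resolve_left hG)).resolve_left (sub_ne_zero.mpr h1)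
  refine ⟨fun z => ⟨fun hz => ?_, ?_⟩, fun χ h1 => hzero χ χ.2 h1, fun z => ⟨fun hz => ?_, fun hz => ?_⟩⟩
  · obtain ⟨c, rfl⟩ := isConj_iff.mp hz
    exact ⟨c, c, by group⟩
  · rintro ⟨a, b, rfl⟩
    exact isConj_of_irr_eq fun χ hχ => by rw [key a b χ hχ, key1 χ hχ]
  · obtain ⟨c, rfl⟩ := isConj_iff.mp hz
    have := Subgroup.commutator_mem_commutator (Subgroup.mem_top (x * y)⁻¹) (Subgroup.mem_top c)
    rw [commutatorElement_def, inv_inv] at this
    simpa only [commutator_def, mul_assoc] using this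
  · refine isConj_of_forall_zero_or_eq fun χ hχ => ?_
    by_cases h1 : χ 1 = 1
    · right
      have hc := isCharacter_of_isIrr hχ
      have := char_mul_of_mem_cker' hc (commutator_le_cker hc h1 hz) (x * y)
      rwa [mul_inv_cancel_left] at this
    · exact Or.inl (hzero χ hχ h1)

end Cfsg.Agent.S4755
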