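import Cfsg.Statements.S4757
import Cfsg.Agent.Lib.ChDeg.Ito
import Cfsg.Agent.Lib.Core.MinNormal
import Cfsg.Agent.Lib.Core.Commutator

set_option autoImplicit false
open Cfsg

namespace Cfsg.Agent.S4757

open CfsgLib CfsgLib.Char CfsgLib.ChDeg Subgroup

theorem exists_linear {G : Type*} [Group G] [Finite G] (h : _root_.commutator G ≠ ⊤) :
    ∃ χ : G → ℂ, IsIrrCharacter G χ ∧ χ ≠ (fun _ => 1) ∧ χ 1 = 1 := by
  obtain ⟨g, hg⟩ : ∃ g, g ∉ _root_.commutator G := by
    by_contra! e
    exact h ((eq_top_iff' _).mpr e)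
  obtain ⟨χ, hχ, h1, h2⟩ := exists_irr_le_cker_not_mem _ hg
  exact ⟨χ, hχ, fun e => h2 (by rw [e, cker_one]; trivial), one_eq_one_of_commutator_le hχ h1⟩

theorem odd_of_fpf {G : Type*} [Group G] [Finite G] {u : G} (hu : orderOf u = 2) (N : Subgroup G)
    [N.Normal] (h : N ⊓ centralizer {u} = ⊥) : (Nat.card N).Coprime 2 := by
  have hP : IsPGroup 2 (zpowers u) := IsPGroup.of_card (n := 1) (by rw [Nat.card_zpowers, hu]; rfl)
  by_contra e
  obtain ⟨Q⟩ : Nonempty (Sylow 2 N) := inferInstance
  have h2 : 2 ∣ Nat.card N := by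
    by_contra e2
    exact e (Nat.prime_two.coprime_iff_not_dvd.mpr e2).symm
  let _ : MulAction (zpowers u) N :=
    MulAction.compHom N ((MulAut.conjNormal (H := N)).comp (zpowers u).subtype)
  obtain ⟨x, hx, hx1⟩ := hP.exists_fixed_point_of_prime_dvd_card_of_fixed_point N h2 (a := 1)
    (fun g => map_one (MulAut.conjNormal (g : G)))
  have h3 : u * x * u⁻¹ = x := congrArg Subtype.val (hx ⟨u, mem_zpowers u⟩)
  have h4 : (x : G) ∈ N ⊓ centralizer {u} :=
    ⟨x.2, mem_centralizer_singleton_iff.mpr (mul_inv_eq_iff_eq_mul.mp h3).symm⟩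
  exact hx1 (Subtype.ext (mem_bot.mp (h.le h4)).symm)

/-- Let u ≠ 1 be an element of the finite group G and c a complex number such that every non-principal irreducible character χ satisfies χ(1) − χ(u) = c or χ(u) = 0. Then the following are equivalent: (a) u has order 2, G is generated by u together with O(G), the largest normal subgroup of G of odd order, and the centralizer of u is {1, u}; (b) G is not perfect; (c) c = 2. -/
theorem result {G : Type*} [Group G] [Finite G] (u : G) (hu : u ≠ 1) (c : ℂ) (hyp : ∀ χ : Cfsg.IrrCharacter G, (χ : G → ℂ) ≠ (fun _ => (1 : ℂ)) → ((χ : G → ℂ) 1 - (χ : G → ℂ) u = c ∨ (χ : G → ℂ) u = 0)) : ((orderOf u = 2 ∧ Subgroup.zpowers u ⊔ Cfsg.oddCore G = ⊤ ∧ Subgroup.centralizer ({u} : Set G) = Subgroup.zpowers u) ↔ commutator G ≠ ⊤) ∧ (commutator G ≠ ⊤ ↔ c = 2) := by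
  classical
  have hsum := sum_irr_one_mul_of_ne_one hu
  rw [← Finset.add_sum_erase _ _ (Finset.mem_univ (irrOne G)), irrOne_apply, irrOne_apply] at hsum
  have hne : ∀ χ ∈ Finset.univ.erase (irrOne G), (χ : G → ℂ) ≠ fun _ => 1 := fun χ hχ e =>
    Finset.ne_of_mem_erase hχ (Subtype.ext e)
  have hlin : ∀ χ, IsIrrCharacter G χ → χ ≠ (fun _ => 1) → χ 1 = 1 → χ u = 1 - c := by
    intro χ hχ h1 h2
    rcases hyp ⟨χ, hχ⟩ h1 with e | e
    · rw [← e]; simp [h2]
    · have := norm_eq_one_of_linear (isCharacter_of_isIrr hχ) h2 u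
      rw [show χ u = 0 from e, norm_zero] at this
      exact absurd this zero_ne_one
  have hbc : _root_.commutator G ≠ ⊤ → c = 2 := by
    intro h
    obtain ⟨χ, hχ, h1, h2⟩ := exists_linear h
    have e1 := hlin χ hχ h1 h2
    have e2 := hlin _ (isIrr_conj hχ) (fun e => h1 (funext fun g => by
      simpa using congrArg (starRingEnd ℂ) (congrFun e g))) (by simp [h2])
    have e3 : χ u * (starRingEnd ℂ) (χ u) = 1 := by
      rw [Complex.mul_conj, Complex.normSq_eq_norm_sq,
        norm_eq_one_of_linear (isCharacter_of_isIrr hχ) h2 u]; simp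
    rw [e2, e1] at e3
    have e4 : c * (c - 2) = 0 := by linear_combination e3
    refine (mul_eq_zero.mp e4).elim (fun e => ?_) sub_eq_zero.mp
    exfalso
    have := congrArg Complex.re hsum
    rw [Complex.add_re, Complex.re_sum] at this
    have h5 : 0 ≤ ∑ χ ∈ Finset.univ.erase (irrOne G), ((χ : G → ℂ) 1 * (χ : G → ℂ) u).re := by
      refine Finset.sum_nonneg fun χ hχ => ?_
      rcases hyp χ (hne χ hχ) with e' | e'
      · rw [e, sub_eq_zero] at e'
        rw [← e', ← irr_deg_cast, ← Nat.cast_mul, Complex.natCast_re]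
        positivity
      · simp [e']
    simp only [mul_one, Complex.one_re, Complex.zero_re] at this
    linarith
  have hval : c = 2 → ∀ χ ∈ Finset.univ.erase (irrOne G), (χ : G → ℂ) 1 ≠ 1 →
      0 ≤ ((χ : G → ℂ) 1 * (χ : G → ℂ) u).re ∧
      (((χ : G → ℂ) 1 * (χ : G → ℂ) u).re = 0 → (χ : G → ℂ) u = 0) := by
    intro hc χ hχ h1
    rcases hyp χ (hne χ hχ) with e' | e'
    · have h2 : (χ : G → ℂ) u = (χ : G → ℂ) 1 - 2 := by linear_combination -e' - hc
      have h3 : 2 ≤ charDegree (χ : G → ℂ) := by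
        have := deg_pos χ.2
        have := mt (deg_eq_one_iff (irr_isCharacter χ)).mp h1
        omega
      have h4 : (2 : ℝ) ≤ charDegree (χ : G → ℂ) := by exact_mod_cast h3
      rw [h2, ← irr_deg_cast]
      simp only [Complex.mul_re, Complex.natCast_re, Complex.sub_re, Complex.re_ofNat,
        Complex.natCast_im, zero_mul, sub_zero]
      refine ⟨by nlinarith, fun e => ?_⟩
      have : (charDegree (χ : G → ℂ) : ℝ) = 2 := by nlinarith
      have : charDegree (χ : G → ℂ) = 2 := by exact_mod_cast this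
      simp [this]
    · simp [e']
  have hcb : c = 2 → _root_.commutator G ≠ ⊤ := by
    intro hc h
    have := congrArg Complex.re hsum
    rw [Complex.add_re, Complex.re_sum] at this
    have h5 := Finset.sum_nonneg fun χ hχ => (hval hc χ hχ fun e => hne χ hχ
      (irr_eq_one_of_cker_eq_top χ.2 (eq_top_iff.mpr
        (h.ge.trans (commutator_le_cker (irr_isCharacter χ) e))))).1
    simp only [mul_one, Complex.one_re, Complex.zero_re] at this
    linarith
  refine ⟨⟨?_, fun h => ?_⟩, hbc, hcb⟩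
  · rintro ⟨h1, h2, -⟩ h
    have h3 : _root_.commutator G ≤ oddCore G := by
      rw [← QuotientGroup.ker_mk' (oddCore G), _root_.commutator_def, ← h2,
        Core.commutator_le_ker_iff, Subgroup.map_sup, QuotientGroup.map_mk'_self, sup_bot_eq,
        MonoidHom.map_zpowers]
      exact le_centralizer _
    have h4 := Core.subgroup_coprime_card_iff.mp (Core.coprime_card_pPrimeCore 2 G) u
      (h3 (h ▸ mem_top u))
    simp [h1] at h4
  · have hc := hbc h
    obtain ⟨χ, hχ, h1, h2⟩ := exists_linear h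
    have hl : ∀ ψ, IsIrrCharacter G ψ → ψ ≠ (fun _ => 1) → ψ 1 = 1 → ψ u = -1 :=
      fun ψ a b d => by rw [hlin ψ a b d, hc]; norm_num
    have huniq : ∀ ψ, IsIrrCharacter G ψ → ψ ≠ (fun _ => 1) → ψ 1 = 1 → ψ = χ := by
      intro ψ a b d
      have e1 := isIrr_mul_of_one_eq_one a (isCharacter_conj (isCharacter_of_isIrr hχ))
        (by simp [h2])
      have e2 : (ψ * fun g => (starRingEnd ℂ) (χ g)) = fun _ => 1 := by
        by_contra e
        have := hl _ e1 e (by simp [d, h2])
        rw [Pi.mul_apply, hl ψ a b d, hl χ hχ h1 h2] at this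
        norm_num at this
      funext g
      have e3 : χ g * (starRingEnd ℂ) (χ g) = 1 := by
        rw [Complex.mul_conj, Complex.normSq_eq_norm_sq,
          norm_eq_one_of_linear (isCharacter_of_isIrr hχ) h2 g]; simp
      have e4 : ψ g * (starRingEnd ℂ) (χ g) = 1 := congrFun e2 g
      linear_combination χ g * e4 - ψ g * e3
    have hmem : (⟨χ, hχ⟩ : IrrCharacter G) ∈ Finset.univ.erase (irrOne G) :=
      Finset.mem_erase.mpr ⟨fun e => h1 (congrArg Subtype.val e), Finset.mem_univ _⟩
    have hnl : ∀ ψ ∈ (Finset.univ.erase (irrOne G)).erase ⟨χ, hχ⟩, (ψ : G → ℂ) 1 ≠ 1 :=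
      fun ψ hψ e => Finset.ne_of_mem_erase hψ
        (Subtype.ext (huniq _ ψ.2 (hne ψ (Finset.mem_of_mem_erase hψ)) e))
    have hz : ∀ ψ ∈ (Finset.univ.erase (irrOne G)).erase ⟨χ, hχ⟩, (ψ : G → ℂ) u = 0 := by
      rw [← Finset.add_sum_erase _ _ hmem] at hsum
      simp only [h2, hl χ hχ h1 h2] at hsum
      have := congrArg Complex.re hsum
      simp only [Complex.add_re, Complex.re_sum, mul_one, Complex.one_re, one_mul, Complex.neg_re,
        Complex.zero_re] at this
      have h5 := (Finset.sum_eq_zero_iff_of_nonneg fun ψ hψ =>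
        (hval hc ψ (Finset.mem_of_mem_erase hψ) (hnl ψ hψ)).1).mp (by linarith)
      exact fun ψ hψ => (hval hc ψ (Finset.mem_of_mem_erase hψ) (hnl ψ hψ)).2 (h5 ψ hψ)
    have hC : Nat.card (centralizer ({u} : Set G)) = 2 := by
      have := sum_normSq_irr u
      rw [← Finset.add_sum_erase _ _ (Finset.mem_univ (irrOne G)), ← Finset.add_sum_erase _ _ hmem,
        Finset.sum_eq_zero fun ψ hψ => by rw [hz ψ hψ]; simp] at this
      simp only [irrOne_apply, hl χ hχ h1 h2] at this
      norm_num at this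
      exact_mod_cast this.symm
    have hzu : zpowers u ≤ centralizer {u} := zpowers_le.mpr (mem_centralizer_singleton_iff.mpr rfl)
    have ho : orderOf u = 2 := by
      have := card_dvd_of_le hzu
      rw [Nat.card_zpowers, hC] at this
      exact ((Nat.dvd_prime Nat.prime_two).mp this).resolve_left (mt orderOf_eq_one_iff.mp hu)
    have hCu : centralizer {u} = zpowers u :=
      (Core.eq_of_le_of_card_le hzu (by rw [Nat.card_zpowers, hC, ho])).symm
    have huN : u ∉ _root_.commutator G := fun e => by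
      have := (mem_cker (isCharacter_of_isIrr hχ)).mp
        (commutator_le_cker (isCharacter_of_isIrr hχ) h2 e)
      rw [hl χ hχ h1 h2, h2] at this
      norm_num at this
    have hodd := odd_of_fpf ho (_root_.commutator G) (by
      rw [hCu, inf_comm]
      exact Core.zpowers_inf_eq_bot_of_prime_orderOf (ho ▸ Nat.prime_two) huN)
    refine ⟨ho, ?_, hCu⟩
    by_contra e
    have hle : _root_.commutator G ≤ zpowers u ⊔ oddCore G :=
      (Core.le_pPrimeCore hodd).trans le_sup_right
    have := Normal.of_commutator_le G hle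
    obtain ⟨g, hg⟩ : ∃ g, g ∉ zpowers u ⊔ oddCore G := by
      by_contra! e'
      exact e ((eq_top_iff' _).mpr e')
    obtain ⟨ψ, hψ, h3, h4⟩ := exists_irr_le_cker_not_mem _ hg
    have h5 := one_eq_one_of_commutator_le hψ (hle.trans h3)
    have h6 := (mem_cker (isCharacter_of_isIrr hψ)).mp (h3 (mem_sup_left (mem_zpowers u)))
    rw [hl ψ hψ (fun e => h4 (by rw [e, cker_one]; trivial)) h5, h5] at h6
    norm_num at h6

end Cfsg.Agent.S4757
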