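import Cfsg.Statements.S4762
import Cfsg.Agent.Lib.ChDeg.Ito
import Cfsg.Agent.Lib.PGroup.Extraspecial
import Cfsg.Agent.Lib.CharDeep.Extraspecial
import Cfsg.Agent.Lib.Core.Frattini

set_option autoImplicit false
open Cfsg

namespace Cfsg.Agent.S4762

open CfsgLib CfsgLib.Char CfsgLib.ChDeg Subgroup

open Classical in
theorem card_eq {G : Type*} [Group G] [Finite G] {p : ℕ} [hp : Fact p.Prime] (hG : IsPGroup p G) :
    Nat.card G = (_root_.commutator G).index + ∑ χ ∈ Finset.univ.filter
      (fun χ : IrrCharacter G => p ∣ charDegree (χ : G → ℂ)), charDegree (χ : G → ℂ) ^ 2 := by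
  rw [← sum_deg_sq, ← sum_deg_sq_filter_cker, ← Finset.sum_filter_add_sum_filter_not Finset.univ
    (fun χ : IrrCharacter G => _root_.commutator G ≤ cker (χ : G → ℂ))]
  congr 1
  refine Finset.sum_congr (Finset.filter_congr fun χ _ => ?_) fun _ _ => rfl
  rw [← deg_eq_one_iff_commutator_le χ.2]
  exact ⟨fun h => by_contra fun e => h (deg_eq_one_of_isPGroup hG χ.2 e),
    fun h e => hp.out.not_dvd_one (e ▸ h)⟩

/-- Let p be a prime and G a finite nilpotent group. Then G has exactly one irreducible complex character of degree divisible by p if and only if p = 2 and G is an extraspecial 2-group. -/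
theorem result {G : Type*} [Group G] [Finite G] [Group.IsNilpotent G] (p : ℕ) [Fact p.Prime] : Nat.card {χ : Cfsg.IrrCharacter G // p ∣ Cfsg.charDegree (χ : G → ℂ)} = 1 ↔ (p = 2 ∧ Cfsg.IsExtraspecial 2 G) := by
  classical
  have hp : p.Prime := Fact.out
  have := Fintype.ofFinite G
  rw [Nat.subtype_card (Finset.univ.filter
    (fun χ : IrrCharacter G => p ∣ charDegree (χ : G → ℂ))) (by simp)]
  constructor
  · intro h
    obtain ⟨χ, hχ⟩ := Finset.card_eq_one.mp h
    have hd : p ∣ charDegree (χ : G → ℂ) := by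
      have := hχ.ge (Finset.mem_singleton_self χ)
      exact (Finset.mem_filter.mp this).2
    have hu : ∀ ψ, IsIrrCharacter G ψ → p ∣ charDegree ψ → ψ = χ := fun ψ hψ e => by
      have := hχ.le (Finset.mem_filter.mpr ⟨Finset.mem_univ (⟨ψ, hψ⟩ : IrrCharacter G), e⟩)
      rw [← Finset.mem_singleton.mp this]
    have hG : IsPGroup p G := by
      rw [← Core.pCore_eq_top_iff]
      by_contra hP
      have hsup := Core.pCore_sup_pPrimeCore_of_isNilpotent (G := G) hp
      have h1 : pPrimeCore p G ≤ cker (χ : G → ℂ) := by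
        by_contra h1
        have h2 : PD p (G ⧸ pPrimeCore p G) := fun β hβ e =>
          h1 (hu _ (isIrr_infl _ hβ) e ▸ le_cker_infl _ (isCharacter_of_isIrr hβ))
        refine PD.of_comm (pCore p G) (fun a ha b hb => ?_)
          (Core.not_dvd_index_pCore_of_isNilpotent p) _ χ.2 hd
        have h3 := h2.comm_pCore _ (Core.map_pCore_le (QuotientGroup.mk'_surjective _) ⟨a, ha, rfl⟩)
          _ (Core.map_pCore_le (QuotientGroup.mk'_surjective _) ⟨b, hb, rfl⟩)
        rw [← commutatorElement_eq_one_iff_mul_comm, ← map_commutatorElement,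
          QuotientGroup.mk'_apply, QuotientGroup.eq_one_iff] at h3
        rw [← commutatorElement_eq_one_iff_mul_comm]
        exact mem_bot.mp (Core.pCore_inf_pPrimeCore.le
          ⟨commutator_le_self _ (commutator_mem_commutator ha hb), h3⟩)
      have := Normal.of_commutator_le G (le_sup_right : _ ≤ pCore p G ⊔ _root_.commutator G)
      obtain ⟨g, hg⟩ : ∃ g, g ∉ pCore p G ⊔ _root_.commutator G := by
        by_contra! e
        exact hP (Core.eq_top_of_sup_commutator_eq_top ((eq_top_iff' _).mpr e))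
      obtain ⟨l, hl, h2, h3⟩ := exists_irr_le_cker_not_mem _ hg
      have h4 := one_eq_one_of_commutator_le hl (le_sup_right.trans h2)
      have h5 := hu _ (isIrr_mul_of_one_eq_one χ.2 (isCharacter_of_isIrr hl) h4)
        (by rwa [deg_congr (ψ := (χ : G → ℂ)) (by simp [h4])])
      refine h3 (hsup.ge.trans (sup_le (le_sup_left.trans h2) fun x hx => ?_) (mem_top g))
      have h6 := congrFun h5 x
      rw [Pi.mul_apply, (mem_cker (irr_isCharacter χ)).mp (h1 hx)] at h6
      rw [mem_cker (isCharacter_of_isIrr hl), h4]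
      exact mul_left_cancel₀ (irr_one_ne_zero χ.2) (h6.trans (mul_one _).symm)
    have h1 := card_eq hG
    rw [hχ, Finset.sum_singleton, ← (_root_.commutator G).index_mul_card] at h1
    have hna : ¬ IsMulCommutative G := fun e => hp.not_dvd_one
      ((deg_eq_one_iff (irr_isCharacter χ)).mpr (irr_one_eq_one_of_comm χ.2) ▸ hd)
    obtain ⟨k, hk⟩ := exists_deg_eq_pow hG χ.2
    obtain ⟨j, hj⟩ := (hG.to_subgroup (_root_.commutator G)).exists_card_eq
    obtain ⟨m, hm⟩ := Nat.exists_eq_succ_of_ne_zero
      (Nat.card_pos (α := _root_.commutator G)).ne'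
    have h2 : (_root_.commutator G).index * m = (p ^ k) ^ 2 := by
      rw [hm, hk, Nat.mul_succ] at h1
      omega
    have hj0 : j ≠ 0 := by
      rintro rfl
      have : m = 0 := by rw [hm] at hj; simpa using hj
      rw [this, mul_zero] at h2
      exact absurd h2.symm (pow_pos (pow_pos hp.pos k) 2).ne'
    have hm1 : m = 1 := by
      obtain ⟨i, -, hi⟩ := (Nat.dvd_prime_pow hp).mp (pow_mul p k 2 ▸ Dvd.intro_left _ h2)
      rcases i with _ | i
      · simpa using hi
      · have h3 : p ∣ m + 1 := by rw [← Nat.succ_eq_add_one, ← hm, hj]; exact dvd_pow_self p hj0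
        exact absurd ((Nat.dvd_add_right (hi ▸ dvd_pow_self p i.succ_ne_zero)).mp h3)
          hp.not_dvd_one
    have hc2 : Nat.card (_root_.commutator G) = 2 := by rw [hm, hm1]
    obtain rfl : p = 2 := (Nat.prime_dvd_prime_iff_eq hp Nat.prime_two).mp
      (by rw [← hc2, hj]; exact dvd_pow_self p hj0)
    have h3 := PGroup.le_center_of_card_eq_prime hG _ hc2
    have h4 := deg_sq_le_index_of_le_center χ.2 _ le_rfl
    rw [hk, ← h2, hm1, mul_one] at h4
    refine ⟨rfl, PGroup.isExtraspecial_of_commutator_le_center hG ?_ h3 hna⟩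
    rw [← hc2, eq_of_le_of_not_lt h3 fun e => (index_strictAnti e).not_ge h4]
  · rintro ⟨rfl, h⟩
    obtain ⟨n, -, hn⟩ := PGroup.IsExtraspecial.exists_card_eq h
    have h1 := card_eq h.1.1
    have h2 := (_root_.commutator G).index_mul_card
    rw [h.1.2.2, h.2, hn, pow_succ, Nat.mul_left_inj two_ne_zero] at h2
    rw [h.1.2.2, h2, hn, Finset.sum_congr rfl (g := fun _ => 2 ^ (2 * n)) fun χ hχ => by
      have := CharDeep.extraspecial_irr_degree hp h hn χ.2 fun e => hp.not_dvd_one
        ((deg_eq_one_iff (irr_isCharacter χ)).mpr e ▸ (Finset.mem_filter.mp hχ).2)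
      rw [deg_eq_of_eq (n := 2 ^ n) (by rw [this]; simp), ← pow_mul, mul_comm],
      Finset.sum_const, smul_eq_mul] at h1
    have : 0 < 2 ^ (2 * n) := by positivity
    rw [pow_succ] at h1
    exact Nat.eq_of_mul_eq_mul_right this (by omega)

end Cfsg.Agent.S4762
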