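import Cfsg.Statements.S4763
import Cfsg.Agent.Lib.ChDeg.TwoDeg
import Cfsg.Agent.Lib.Glaub.Ext
import Cfsg.Agent.Lib.Glaub.Solvable
import Cfsg.Agent.Lib.Glaub.CyclicCorr

set_option autoImplicit false
open Cfsg

namespace Cfsg.Agent.S4763

open CfsgLib CfsgLib.Char CfsgLib.CharDeep CfsgLib.ChDeg Subgroup
open scoped commutatorElement

theorem card_carrier {G : Type*} [Group G] (h : G) :
    Nat.card (ConjClasses.mk h).carrier = (centralizer ({h} : Set G)).index := by
  rw [← card_isConj_eq_index]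
  refine Nat.card_congr (Equiv.subtypeEquivRight fun g => ?_)
  rw [ConjClasses.mem_carrier_iff_mk_eq, ConjClasses.mk_eq_mk_iff_isConj]

theorem card_split {α : Type*} [Finite α] (P : α → Prop) :
    Nat.card {a // P a} + Nat.card {a // ¬ P a} = Nat.card α := by
  classical
  rw [← Nat.card_sum]
  exact Nat.card_congr (Equiv.sumCompl P)

/-- Let p be a prime and G a finite group that is not nilpotent and has a normal p-complement (a normal subgroup of order prime to p and index a power of p). If G has exactly one irreducible complex character of degree divisible by p, then G has exactly one conjugacy class whose size is divisible by p. -/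
theorem result {G : Type*} [Group G] [Finite G] (p : ℕ) [Fact p.Prime] (hnil : ¬ Group.IsNilpotent G) (N : Subgroup G) [N.Normal] (hN : (Nat.card N).Coprime p) (hidx : ∃ k : ℕ, N.index = p ^ k) (hone : Nat.card {χ : Cfsg.IrrCharacter G // p ∣ Cfsg.charDegree (χ : G → ℂ)} = 1) : Nat.card {C : ConjClasses G // p ∣ Nat.card C.carrier} = 1 := by
  classical
  have hp : p.Prime := Fact.out
  have := Fintype.ofFinite G
  have := Fintype.ofFinite N
  obtain ⟨k, hk⟩ := hidx
  have hQ : IsPGroup p (G ⧸ N) := IsPGroup.of_card hk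
  have hcop : (Nat.card N).Coprime N.index := hk ▸ hN.pow_right k
  obtain ⟨huniq, ⟨χ₀, hχ₀⟩⟩ := Nat.card_eq_one_iff_unique.1 hone
  have hN0 : N ≠ ⊥ := by
    rintro rfl
    rw [index_bot] at hk
    exact hnil (IsPGroup.of_card hk).isNilpotent
  have hab : _root_.commutator (G ⧸ N) = ⊥ := by
    by_contra h0
    obtain ⟨β, hβ, hβ1⟩ := exists_irr_deg_ne_one h0
    have hβp : p ∣ charDegree β := by
      by_contra e
      exact hβ1 (deg_eq_one_of_isPGroup hQ hβ e)
    have hβ' := isIrr_infl N hβ
    have hker := le_cker_infl N (isCharacter_of_isIrr hβ)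
    have key : ∀ ξ, IsIrrCharacter G ξ → p ∣ charDegree ξ → N ≤ cker ξ := by
      intro ξ hξ hd
      have := huniq.elim ⟨⟨ξ, hξ⟩, hd⟩ ⟨⟨_, hβ'⟩, by rwa [deg_infl]⟩
      have e : ξ = fun g : G => β g := congrArg (fun x => (x.1 : G → ℂ)) this
      rwa [e]
    obtain ⟨x, hx⟩ := ne_bot_iff_exists_ne_one.1 hN0
    obtain ⟨θ, hθ, -, hθx⟩ := exists_irr_le_cker_not_mem (G := N) ⊥ (g := x) hx
    have hθ1 : θ ≠ fun _ => 1 := by
      rintro rfl
      rw [cker_one] at hθx
      exact hθx (mem_top _)
    by_cases hT : inertia N θ = ⊤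
    · obtain ⟨χ, ⟨hχ, hext, -⟩, -⟩ := Glaub.exists_canonical_of_coprime N hcop hθ
        ((inv_cj_iff N θ).2 hT)
      have e : (fun n : N => χ n) = θ := funext hext
      have hχc := isCharacter_of_isIrr hχ
      have h1 := gallagher_isIrr N hχc (e ▸ hθ) hβ' fun n hn =>
        (mem_cker (isCharacter_of_isIrr hβ')).1 (hker hn)
      refine not_le_cker_of_over N (isCharacter_of_isIrr h1) hθ hθ1 ?_ (key _ h1 ?_)
      · have : (fun n : N => ((fun g : G => β g) * χ) n) = β 1 • θ := by
          ext n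
          simp [hext, (QuotientGroup.eq_one_iff (n : G)).2 n.2]
        rw [this, classInner_smul_left, classInner_irr_self hθ, mul_one]
        exact irr_one_ne_zero hβ
      · rw [deg_mul (isCharacter_of_isIrr hβ') hχc, deg_infl]
        exact hβp.mul_right _
    · obtain ⟨χ, hχ, hi⟩ := ChDeg.exists_irr_over N hθ
      refine not_le_cker_of_over N (isCharacter_of_isIrr hχ) hθ hθ1 hi (key _ hχ ?_)
      refine dvd_trans ?_ (index_inertia_dvd N hχ hθ hi)
      obtain ⟨j, -, hj⟩ := (Nat.dvd_prime_pow hp).1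
        (hk ▸ index_dvd_of_le (le_inertia N (isClassFunction_of_isIrr hθ)))
      rw [hj]
      refine dvd_pow_self p ?_
      rintro rfl
      exact hT (index_eq_one.1 hj)
  obtain ⟨P⟩ : Nonempty (Sylow p G) := inferInstance
  have hsup := Core.sylow_sup_eq_top_of_isPGroup_quotient P N hQ
  have hdis : (P : Subgroup G) ⊓ N = ⊥ := Core.isPGroup_inf_eq_bot_of_coprime P.isPGroup' hN
  have hPN : (Nat.card P).Coprime (Nat.card N) := Core.isPGroup_coprime_card P.isPGroup' hN
  have hGN := (commutator_quotient_eq_bot_iff N).1 hab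
  have hPc : ∀ a ∈ (P : Subgroup G), ∀ b ∈ (P : Subgroup G), a * b = b * a := by
    intro a ha b hb
    have : ⁅a, b⁆ ∈ (P : Subgroup G) ⊓ N := mem_inf.2 ⟨by
      rw [commutatorElement_def]
      exact mul_mem (mul_mem (mul_mem ha hb) (inv_mem ha)) (inv_mem hb),
      hGN (commutator_mem_commutator (mem_top _) (mem_top _))⟩
    rwa [hdis, mem_bot, commutatorElement_eq_one_iff_mul_comm] at this
  have hPs : Group.IsSolvable P := Coprime.isSolvable_of_isPGroup P.isPGroup'
  set C := N ⊓ centralizer ((P : Subgroup G) : Set G) with hC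
  have hnorm : ∀ s ∈ (P : Subgroup G), ∀ g ∈ N, s * g * s⁻¹ ∈ N :=
    fun s _ g hg => ‹N.Normal›.conj_mem g hg s
  have h1 := Glaub.card_invIrr_eq (Glaub.conjAut P N hnorm) hPN.symm
    (inclusion (inf_le_left : C ≤ N)) (inclusion_injective _)
    (Glaub.range_inclusion_iff hnorm hC _)
  have h2 := Glaub.card_coprime_degree N hcop
  rw [hab, index_bot, ← index_eq_card,
    Glaub.index_eq_card_of_sup_top hPN.symm (by rw [sup_comm]; exact hsup)] at h2
  have h3 : Nat.card {θ : IrrCharacter N // ∀ (g : G) (n : N), (θ : N → ℂ) (cj N g n) =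
      (θ : N → ℂ) n} ≤ Nat.card (Glaub.InvIrr (Glaub.conjAut P N hnorm)) := by
    have := finite_irr (G := N)
    exact Nat.card_le_card_of_injective (fun θ => ⟨θ.1, fun a n => θ.2 a n⟩)
      fun a b e => Subtype.ext (congrArg (·.1) e)
  have := finite_irr (G := G)
  have h4 : Nat.card {χ : IrrCharacter G // ¬ p ∣ charDegree (χ : G → ℂ)} ≤
      Nat.card {χ : IrrCharacter G // (charDegree (χ : G → ℂ)).Coprime (Nat.card P)} :=
    Nat.card_le_card_of_injective (fun χ => ⟨χ.1, (Core.isPGroup_coprime_card P.isPGroup'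
      ((Nat.Prime.coprime_iff_not_dvd hp).2 χ.2).symm).symm⟩)
      fun a b e => Subtype.ext (congrArg (·.1) e)
  have h5 := card_split (fun χ : IrrCharacter G => p ∣ charDegree (χ : G → ℂ))
  have h6 := card_split (fun C : ConjClasses G => p ∣ Nat.card C.carrier)
  have hcent : ∀ (c : C) (x : P), (x : G) * c ∈ centralizer ((P : Subgroup G) : Set G) :=
    fun c x => mul_mem (fun y hy => hPc y hy x x.2) c.2.2
  have h7 : Nat.card (ConjClasses C × P) ≤
      Nat.card {D : ConjClasses G // ¬ p ∣ Nat.card D.carrier} := by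
    refine Nat.card_le_card_of_injective
      (fun a => ⟨ConjClasses.mk ((a.2 : G) * (Quotient.out a.1 : C)), ?_⟩) ?_
    · rw [card_carrier]
      refine fun e => P.not_dvd_index (e.trans (index_dvd_of_le fun y hy => ?_))
      exact mem_centralizer_singleton_iff.2 (hcent _ _ y hy)
    · rintro ⟨c, x⟩ ⟨c', x'⟩ e
      have e1 := ConjClasses.mk_eq_mk_iff_isConj.1 (congrArg Subtype.val e)
      dsimp only at e1
      obtain ⟨g, hg⟩ := isConj_iff.1 e1
      obtain ⟨n, hn, y, hy, rfl⟩ := mem_sup_of_normal_left.1 ((sup_comm _ N ▸ hsup).ge (mem_top g))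
      have e2 : n * ((x : G) * (Quotient.out c : C)) * n⁻¹ = x' * (Quotient.out c' : C) := by
        rw [← hg, mul_assoc n y, hcent _ _ y hy]; group
      obtain ⟨d, hd, e3⟩ := Coprime.exists_centralizer_conj_eq (K := N) (A := P)
        (by rw [normalizer_eq_top]; exact le_top) hPN (Or.inl hPs) hn (hcent _ _)
        (e2 ▸ hcent _ _)
      rw [e2, ← mul_assoc, ← hd.2 x x.2] at e3
      have e4 : (x' : G)⁻¹ * x ∈ (P : Subgroup G) ⊓ N := by
        refine mem_inf.2 ⟨mul_mem (inv_mem x'.2) x.2, ?_⟩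
        have : (x' : G)⁻¹ * x = (Quotient.out c' : C) * (d * (Quotient.out c : C) * d⁻¹)⁻¹ := by
          rw [eq_mul_inv_iff_mul_eq, mul_assoc, inv_mul_eq_iff_eq_mul, ← e3]; group
        rw [this]
        exact N.mul_mem (Quotient.out c').2.1
          (N.inv_mem (N.mul_mem (N.mul_mem hd.1 (Quotient.out c).2.1) (N.inv_mem hd.1)))
      rw [hdis, mem_bot, inv_mul_eq_one] at e4
      rw [e4, mul_assoc, mul_assoc, mul_right_inj, ← mul_assoc] at e3
      refine Prod.ext ?_ (Subtype.ext e4.symm)
      change c = c'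
      rw [← Quotient.out_eq c, ← Quotient.out_eq c']
      exact Quotient.sound (isConj_iff.2 ⟨⟨d, hd⟩, Subtype.ext e3⟩)
  have h8 : Nat.card {C : ConjClasses G // p ∣ Nat.card C.carrier} ≠ 0 := by
    intro e
    have hemp := (Nat.card_eq_zero.1 e).resolve_right (not_infinite_iff_finite.2 inferInstance)
    have htop : centralizer ((P : Subgroup G) : Set G) = ⊤ := by
      refine Count.eq_top_of_forall_exists_conj_mem _ fun x => ?_
      have e1 : ¬ p ∣ (centralizer ({x} : Set G)).index := fun e => hemp.elim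
        ⟨ConjClasses.mk x, by rwa [card_carrier]⟩
      obtain ⟨Q, hQ⟩ := exists_sylow_le e1
      obtain ⟨g, rfl⟩ := MulAction.exists_smul_eq G P Q
      refine ⟨g⁻¹, fun y hy => ?_⟩
      have e2 := mem_centralizer_singleton_iff.1 (hQ (show g * y * g⁻¹ ∈ _ from
        Subgroup.smul_mem_pointwise_smul y (MulAut.conj g) _ hy))
      rw [inv_inv]
      calc y * (g⁻¹ * x * g) = g⁻¹ * (g * y * g⁻¹ * x) * g := by group
        _ = _ := by rw [e2]; group
    have hPn : (P : Subgroup G).Normal :=
      Core.normal_of_le_center (centralizer_eq_top_iff_subset.1 htop)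
    exact P.not_dvd_index (hχ₀.trans (deg_dvd_index_of_comm χ₀.2 _ hPc))
  rw [Nat.card_prod, ← card_irr_eq_card_conjClasses, ← h1] at h7
  rw [card_irr_eq_card_conjClasses] at h5
  have := Nat.mul_le_mul_right (Nat.card P) h3
  omega

end Cfsg.Agent.S4763
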