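import Cfsg.Statements.S4768
import Cfsg.Agent.Lib.ChDeg.Ito
import Cfsg.Agent.Lib.Core.MinNormal

set_option autoImplicit false
open Cfsg

namespace Cfsg.Agent.S4768

open CfsgLib CfsgLib.Char CfsgLib.ChDeg Subgroup

/-- Inflation of characters of degree divisible by `p`. -/
noncomputable def infl {G : Type*} [Group G] [Finite G] (p : ℕ) (N : Subgroup G) [N.Normal]
    (χ : {χ : IrrCharacter (G ⧸ N) // p ∣ charDegree (χ : G ⧸ N → ℂ)}) :
    {χ : IrrCharacter G // p ∣ charDegree (χ : G → ℂ)} :=
  ⟨⟨fun g => (χ.1 : G ⧸ N → ℂ) g, isIrr_infl N χ.1.2⟩, χ.2⟩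

theorem infl_injective {G : Type*} [Group G] [Finite G] (p : ℕ) (N : Subgroup G) [N.Normal] :
    Function.Injective (infl p N) := fun χ ψ e => Subtype.ext (Subtype.ext (funext fun q => by
  obtain ⟨g, rfl⟩ := QuotientGroup.mk_surjective q
  exact congrFun (congrArg (fun x => (x.1 : G → ℂ)) e) g))

theorem derived_le_ker {G : Type*} [Group G] [Finite G] {p : ℕ} [Fact p.Prime] (N : Subgroup G)
    [N.Normal] (P : Sylow p G) {k : ℕ} (h : derivedSeries
      (P.mapSurjective (QuotientGroup.mk'_surjective N) : Subgroup (G ⧸ N)) k = ⊥) :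
    derivedSeries (P : Subgroup G) k ≤ N.subgroupOf P := fun x hx => by
  have := map_derivedSeries_le_derivedSeries
    ((QuotientGroup.mk' N).subgroupMap (P : Subgroup G)) k ⟨x, hx, rfl⟩
  have h2 : (QuotientGroup.mk' N).subgroupMap (P : Subgroup G) x = 1 := h.le this
  exact (QuotientGroup.eq_one_iff (x : G)).mp (congrArg Subtype.val h2)

theorem derived_succ {G : Type*} [Group G] {N P : Subgroup G} {k : ℕ}
    (hN : ∀ a ∈ N, ∀ b ∈ N, a * b = b * a) (h : derivedSeries P k ≤ N.subgroupOf P) :
    derivedSeries P (k + 1) = ⊥ := by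
  rw [derivedSeries_succ, eq_bot_iff, commutator_le]
  intro a ha b hb
  exact commutatorElement_eq_one_iff_mul_comm.mpr (Subtype.ext (hN _ (h ha) _ (h hb)))

/-- Let p be a prime, G a finite p-solvable group and P a Sylow p-subgroup of G. If n is the number of irreducible complex characters of G whose degree is divisible by p, then the (n+1)-st term of the derived series of P is trivial. (The p-solvable case has a direct inductive proof.) -/
theorem result {G : Type*} [Group G] [Finite G] (p : ℕ) [Fact p.Prime] (hG : Cfsg.IsPSolvable p G) (P : Sylow p G) : derivedSeries ↥(P : Subgroup G) (Nat.card {χ : Cfsg.IrrCharacter G // p ∣ Cfsg.charDegree (χ : G → ℂ)} + 1) = ⊥ := by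
  induction hn : Nat.card G using Nat.strong_induction_on generalizing G with
  | _ n ih =>
  subst hn
  rcases subsingleton_or_nontrivial G with _ | _
  · exact Subsingleton.elim _ _
  obtain ⟨K, hK, hK0, -, hKp | hKp⟩ := PLocal.PSolv.exists_normal_le hG ⊤ top_ne_bot
  · have := Coprime.isSolvable_of_isPGroup hKp
    obtain ⟨q, N, -, hN, hN0, hNK, hNe, -⟩ := Core.exists_elementaryAbelian_minimal_normal_le hK0
    have hNc : ∀ a ∈ N, ∀ b ∈ N, a * b = b * a := Core.isMulCommutative_iff_forall.mp hNe.1
    by_cases h : ∀ χ, IsIrrCharacter G χ → ¬ N ≤ cker χ → ¬ p ∣ charDegree χ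
    · rcases Nat.eq_zero_or_pos (Nat.card {χ : IrrCharacter G // p ∣ charDegree (χ : G → ℂ)})
        with h0 | h0
      · have h1 : PD p G := fun χ hχ e => (Nat.card_eq_zero.mp h0).elim
          (fun h => h.false ⟨⟨χ, hχ⟩, e⟩) fun h => h.not_finite inferInstance
        exact derived_succ (h1.comm_of_pSolvable hG P.isPGroup') fun x _ => x.2
      · obtain ⟨Q, hQ⟩ := exists_sylow_commutator_le hG N hN0 (hKp.to_le hNK) hNc h
        have h1 : derivedSeries (Q : Subgroup G) 2 = ⊥ := derived_succ hNc (by
          rw [derivedSeries_one, subgroupOf, ← map_le_iff_le_comap, map_subtype_commutator]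
          exact hQ)
        have h2 := map_derivedSeries_eq (f := (Q.equiv P).toMonoidHom) (Q.equiv P).surjective 2
        rw [h1, Subgroup.map_bot] at h2
        exact eq_bot_iff.mpr ((derivedSeries_antitone _ (by omega)).trans h2.ge)
    · push Not at h
      obtain ⟨χ, hχ, h1, h2⟩ := h
      have h3 := derived_le_ker N P (ih _ (Core.card_quotient_lt_of_ne_bot hN0)
        (PLocal.PSolv.quotient hG N) _ rfl)
      have h4 : Nat.card _ < Nat.card _ := (Nat.card_le_card_of_injective _
          (infl_injective p N)).lt_of_ne fun hc => by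
        have hs := ((infl_injective p N).bijective_of_nat_card_le hc.ge).2
        obtain ⟨ψ, e⟩ := hs ⟨⟨χ, hχ⟩, h2⟩
        have e' : (fun g : G => (ψ.1 : G ⧸ N → ℂ) g) = χ := congrArg (fun x => (x.1 : G → ℂ)) e
        exact h1 (e' ▸ le_cker_infl N (irr_isCharacter ψ.1))
      exact eq_bot_iff.mpr ((derivedSeries_antitone _ (by omega)).trans (derived_succ hNc h3).le)
  · have h3 := derived_le_ker K P (ih _ (Core.card_quotient_lt_of_ne_bot hK0)
      (PLocal.PSolv.quotient hG K) _ rfl)
    have h4 := Nat.card_le_card_of_injective _ (infl_injective p K)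
    rw [subgroupOf_eq_bot.mpr (PLocal.PSolv.disjoint_of_isPGroup_of_coprime P.isPGroup' hKp).symm]
      at h3
    exact eq_bot_iff.mpr ((derivedSeries_antitone _ (by omega)).trans h3)

end Cfsg.Agent.S4768
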