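import Cfsg.Statements.S4782
import Cfsg.Agent.Lib.Char.Burnside
import Cfsg.Agent.Lib.Char.Clifford

set_option autoImplicit false
open Cfsg

namespace Cfsg.Agent.S4782

open CfsgLib.Char Subgroup

theorem two_primes {s : Set ℕ} (hs : ∀ r ∈ s, r.Prime)
    (h : ¬ ∃ p q r : ℕ, p ≠ q ∧ q ≠ r ∧ p ≠ r ∧ p ∈ s ∧ q ∈ s ∧ r ∈ s) :
    ∃ p q : ℕ, p.Prime ∧ q.Prime ∧ p ≠ q ∧ ∀ r ∈ s, r = p ∨ r = q := by
  by_cases h1 : ∃ p ∈ s, ∃ q ∈ s, p ≠ q
  · obtain ⟨p, hp, q, hq, hpq⟩ := h1
    refine ⟨p, q, hs p hp, hs q hq, hpq, fun r hr => ?_⟩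
    by_contra h2
    push Not at h2
    exact h ⟨p, q, r, hpq, h2.2.symm, h2.1.symm, hp, hq, hr⟩
  · push Not at h1
    by_cases h2 : ∃ p ∈ s, p ≠ 2
    · obtain ⟨p, hp, h2⟩ := h2
      exact ⟨p, 2, hs p hp, Nat.prime_two, h2, fun r hr => Or.inl (h1 r hr p hp)⟩
    · push Not at h2
      exact ⟨2, 3, Nat.prime_two, Nat.prime_three, by decide, fun r hr => Or.inl (h2 r hr)⟩

theorem exists_coprime_class (G : Type*) [Group G] [Finite G] [Nontrivial G] {p : ℕ}
    (hp : p.Prime) : ∃ z : G, z ≠ 1 ∧ ¬ p ∣ (centralizer ({z} : Set G)).index := by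
  have := Fact.mk hp
  by_cases h : p ∣ Nat.card G
  · obtain ⟨Q⟩ : Nonempty (Sylow p G) := inferInstance
    have : Nontrivial (Q : Subgroup G) := (nontrivial_iff_ne_bot _).2 (Q.ne_bot_of_dvd_card h)
    have := Q.isPGroup'.center_nontrivial
    obtain ⟨z, hz⟩ := exists_ne (1 : center Q)
    have hle : (Q : Subgroup G) ≤ centralizer {((z : Q) : G)} := fun x hx =>
      mem_centralizer_singleton_iff.mpr (congrArg Subtype.val (mem_center_iff.mp z.2 ⟨x, hx⟩))
    exact ⟨_, fun h => hz (Subtype.ext (Subtype.ext h)),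
      fun h => Q.not_dvd_index (h.trans (index_dvd_of_le hle))⟩
  · obtain ⟨z, hz⟩ := exists_ne (1 : G)
    exact ⟨z, hz, fun h1 => h (h1.trans (index_dvd_card _))⟩

theorem solv {p q : ℕ} (hp : p.Prime) (hq : q.Prime) (G : Type*) [Group G] [Finite G]
    (h : ∀ (χ : G → ℂ) (n r : ℕ), IsIrrCharacter G χ → χ 1 = n → r.Prime → r ∣ n → r = p ∨ r = q) :
    Group.IsSolvable G := by
  refine isSolvable_of_simple_case (fun G _ => ∀ (χ : G → ℂ) (n r : ℕ), IsIrrCharacter G χ →
    χ 1 = n → r.Prime → r ∣ n → r = p ∨ r = q) ?_ ?_ ?_ G h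
  · intro G _ _ N _ h θ n r hθ hn hr hd
    have := Fintype.ofFinite G
    have := Fintype.ofFinite N
    have h1 : classInner (fun a : N => regChar G (N.subtype a)) θ ≠ 0 := by
      have e : (fun a : N => regChar G (N.subtype a)) = (N.index : ℂ) • regChar N := by
        funext a
        by_cases ha : a = 1
        · subst ha
          simp only [map_one, regChar_one, Pi.smul_apply, smul_eq_mul]
          rw [← N.index_mul_card]; push_cast; rfl
        · rw [Pi.smul_apply, regChar_of_ne_one ha, smul_zero]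
          exact regChar_of_ne_one (fun e => ha (Subtype.ext e))
      obtain ⟨m, hm, -, hm'⟩ := exists_irr_degree hθ
      rw [e, classInner_smul_left, classInner_regChar_left, hm']
      simp [index_ne_zero_of_finite, hm.ne']
    obtain ⟨χ, hχ, -, h2⟩ := exists_irr_between N.subtype
      (isClassFunction_of_isCharacter isCharacter_regChar) h1
    have h3 := clifford_degree N hχ hθ h2
    obtain ⟨e, he⟩ := exists_classInner_eq_nat (χ := fun a : N => χ a) (ψ := θ)
      (isCharacter_comp N.subtype (isCharacter_of_isIrr hχ)) (isCharacter_of_isIrr hθ)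
    rw [he, hn] at h3
    exact h χ (e * (inertia N θ).index * n) r hχ (by rw [h3]; push_cast; rfl) hr
      (hd.mul_left _)
  · intro G _ _ N _ h ψ n r hψ hn hr hd
    exact h _ n r (isIrr_inflate N hψ) hn hr hd
  · intro G _ _ _ h
    obtain ⟨z, hz, hz'⟩ := exists_coprime_class G hp
    obtain ⟨χ, n, hχ, h1, hn, hqn, h0⟩ := exists_irr_ne_zero_not_dvd hz hq
    have h2 : z ∈ charCenter χ := by
      refine (mem_charCenter (isCharacter_of_isIrr hχ)).mpr ?_
      refine (irr_eq_zero_or_norm_eq_of_coprime hχ z hn ?_).resolve_left h0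
      refine Nat.coprime_of_dvd fun r hr h3 h4 => ?_
      rcases h χ n r hχ hn hr h3 with rfl | rfl
      · exact hz' h4
      · exact hqn h3
    have h3 := charCenter_le_center_of_faithful (isClassFunction_of_isIrr hχ)
      (charKer_eq_bot_of_simple hχ h1) h2
    have h4 : center G = ⊤ :=
      (Normal.eq_bot_or_eq_top inferInstance).resolve_left (fun h => hz (by
        rwa [h, mem_bot] at h3))
    exact Group.isSolvable_of_comm fun a b => mem_center_iff.mp (h4 ▸ mem_top b) a

/-- If the finite group G is not solvable, then at least three distinct primes each divide some irreducible complex character degree of G. -/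
theorem result {G : Type*} [Group G] [Finite G] (hG : ¬ Group.IsSolvable G) : ∃ p q r : ℕ, p ≠ q ∧ q ≠ r ∧ p ≠ r ∧ p ∈ Cfsg.degreePrimes G ∧ q ∈ Cfsg.degreePrimes G ∧ r ∈ Cfsg.degreePrimes G := by
  by_contra h
  obtain ⟨p, q, hp, hq, -, h1⟩ := two_primes (fun r hr => hr.1) h
  refine hG (solv hp hq G fun χ n r hχ hn hr hd => h1 r ⟨hr, n, ⟨⟨χ, hχ⟩, ?_⟩, hd⟩)
  simp [charDegree, hn]

end Cfsg.Agent.S4782
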