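import Cfsg.Statements.S4784
import Cfsg.Agent.Lib.Char.Square
import Cfsg.Agent.Lib.Char.PermLemma
import Cfsg.Agent.Lib.Char.PermChar
import Cfsg.Agent.Lib.ChDeg.MonoIdx

set_option autoImplicit false
open Cfsg

namespace Cfsg.Agent.S4784

open CfsgLib CfsgLib.Char CfsgLib.ChDeg Subgroup MulAction

/-- Let H be a subgroup of the finite group G and consider the permutation character of G on the cosets of H (the function induced from the principal character of H). Then exactly one irreducible constituent of it is real-valued with Frobenius–Schur indicator +1 (namely the principal character) if and only if the normal core of H has odd index in G. -/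
theorem result {G : Type*} [Group G] [Fintype G] (H : Subgroup G) : Nat.card {χ : Cfsg.IrrCharacter G // Cfsg.classInner (Cfsg.indFun H (fun _ : H => (1 : ℂ))) (χ : G → ℂ) ≠ 0 ∧ (∀ g : G, (starRingEnd ℂ) ((χ : G → ℂ) g) = (χ : G → ℂ) g) ∧ (Nat.card G : ℂ)⁻¹ * ∑ g : G, (χ : G → ℂ) (g * g) = 1} = 1 ↔ Odd H.normalCore.index := by
  classical
  set π := indFun H (fun _ : H => (1 : ℂ)) with hπdef
  have hπ : IsCharacter G π := isCharacter_indFun H isCharacter_one
  have hperm : (fun g : G => (Nat.card (fixedBy (G ⧸ H) g) : ℂ)) = π := by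
    have := perm_char_eq_indFun (G := G) (G ⧸ H) (QuotientGroup.mk (1 : G) : G ⧸ H)
    rwa [stabilizer_quotient] at this
  have h1 : classInner π (fun _ => 1) = 1 := hperm ▸ classInner_perm_one_of_pretransitive _
  have hone : classInner π (irrOne G : G → ℂ) ≠ 0 ∧ (∀ g : G, (starRingEnd ℂ) ((irrOne G : G → ℂ) g)
      = (irrOne G : G → ℂ) g) ∧ (Nat.card G : ℂ)⁻¹ * ∑ g : G, (irrOne G : G → ℂ) (g * g) = 1 :=
    ⟨h1.trans_ne one_ne_zero, by simp [irrOne_apply], by
      simp [irrOne_apply, Fintype.card_ne_zero]⟩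
  constructor
  · intro h
    obtain ⟨hs, -⟩ := Nat.card_eq_one_iff_unique.mp h
    by_contra hodd
    obtain ⟨t, ht⟩ := exists_prime_orderOf_dvd_card' (G := G ⧸ H.normalCore) 2
      (even_iff_two_dvd.mp (Nat.not_odd_iff_even.mp hodd))
    obtain ⟨t, rfl⟩ := QuotientGroup.mk_surjective t
    have ht1 : t ∉ H.normalCore := fun e => by
      rw [(QuotientGroup.eq_one_iff t).mpr e, orderOf_one] at ht
      omega
    have ht2 : t * t ∈ H.normalCore := by
      rw [← QuotientGroup.eq_one_iff, QuotientGroup.mk_mul, ← pow_two, ← ht, pow_orderOf_eq_one]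
    rw [normalCore_eq_ker] at ht1 ht2
    have hlt : ∑ g : G, Nat.card (fixedBy (G ⧸ H) g) < ∑ g : G, Nat.card (fixedBy (G ⧸ H) (g * g)) := by
      have hsub : ∀ g : G, fixedBy (G ⧸ H) g ⊆ fixedBy (G ⧸ H) (g * g) := fun g x hx => by
        rw [mem_fixedBy] at hx ⊢
        rw [mul_smul, hx, hx]
      refine Finset.sum_lt_sum (fun g _ => Set.ncard_le_ncard (hsub g)) ⟨t, Finset.mem_univ _,
        Set.ncard_lt_ncard ((hsub t).ssubset_of_ne fun e => ht1 ?_)⟩
      ext x
      have : x ∈ fixedBy (G ⧸ H) (t * t) := congrArg (fun σ : Equiv.Perm (G ⧸ H) => σ x) ht2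
      rw [← e] at this
      exact this
    obtain ⟨m, hm, hsum⟩ := exists_char_eq_sum_nat hπ
    have h2 : fsInd π = ∑ χ : IrrCharacter G, (m χ : ℂ) * fsInd (χ : G → ℂ) := by
      conv_lhs => rw [hsum]
      simp only [fsInd, Finset.sum_apply, Pi.smul_apply, smul_eq_mul, Finset.mul_sum]
      rw [Finset.sum_comm]
      exact Finset.sum_congr rfl fun _ _ => Finset.sum_congr rfl fun _ _ => by ring
    have h3 : (fsInd π).re ≤ 1 := by
      rw [h2, Complex.re_sum, ← Finset.add_sum_erase _ _ (Finset.mem_univ (irrOne G)), ← hm,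
        show fsInd (irrOne G : G → ℂ) = 1 from hone.2.2, irrOne_coe, h1, mul_one, Complex.one_re,
        add_le_iff_nonpos_right]
      refine Finset.sum_nonpos fun χ hχ => ?_
      rcases eq_or_ne (m χ) 0 with h0 | h0
      · simp [h0]
      rcases fsInd_trichotomy χ.2 with e | e | e
      · simp [e]
      · refine absurd (congrArg Subtype.val (hs.elim ⟨χ, by rw [hm]; exact_mod_cast h0,
          fun g => ?_, e⟩ ⟨irrOne G, hone⟩)) (Finset.ne_of_mem_erase hχ)
        by_contra hc
        rw [(fsInd_eq_zero_iff χ.2).mpr ⟨g, fun e => hc (Complex.conj_eq_iff_im.mpr e)⟩] at e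
        exact zero_ne_one e
      · simp [e]
    rw [← hperm, classInner_one_right, ← Nat.cast_sum,
      inv_mul_eq_iff_eq_mul₀ natCard_ne_zero, mul_one, Nat.cast_inj] at h1
    rw [← hperm, fsInd, ← Nat.cast_sum, ← Complex.ofReal_natCast, ← Complex.ofReal_natCast,
      ← Complex.ofReal_inv, ← Complex.ofReal_mul, Complex.ofReal_re,
      inv_mul_le_iff₀ (by exact_mod_cast Nat.card_pos), mul_one, Nat.cast_le] at h3
    omega
  · intro hodd
    refine Nat.card_eq_one_iff_exists.mpr ⟨⟨irrOne G, hone⟩, ?_⟩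
    rintro ⟨χ, h2, h3, h4⟩
    have hc := irr_isCharacter χ
    have h5 : H.normalCore ≤ cker (χ : G → ℂ) := (le_cker_indFun H isCharacter_one _
      H.normalCore_le fun _ _ => rfl).trans (cker_le_of_inner_ne_zero hπ χ.2 h2)
    have h6 := real_irr_eq_one_of_odd hodd (isIrr_defl χ.2 h5) fun q => by
      obtain ⟨g, rfl⟩ := QuotientGroup.mk_surjective q
      rw [defl_mk hc h5]
      exact Complex.conj_eq_iff_im.mp (h3 g)
    refine Subtype.ext (Subtype.ext (funext fun g => ?_))
    rw [← defl_mk hc h5, h6]; rfl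

end Cfsg.Agent.S4784
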