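import Cfsg.Statements.S4796
import Cfsg.Agent.Lib.ChDeg.Avg
import Cfsg.Agent.Lib.Core.MinNormal
import Cfsg.Agent.Lib.Frob.Semidirect

set_option autoImplicit false
open Cfsg

namespace Cfsg.Agent.S4796

open CfsgLib.Char CfsgLib.ChDeg Cfsg in
theorem exists_normal_selfcent {G : Type*} [Group G] [Finite G] {χ : G → ℂ}
    (hχ : IsIrrCharacter G χ) {p : ℕ} (hp : p.Prime) (hcod : Nat.card G = p * charDegree χ) :
    ∃ P : Subgroup G, P.Normal ∧ Nat.card P = p ∧ P.index = charDegree χ ∧ charDegree χ < p ∧
      Subgroup.centralizer (P : Set G) = P := by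
  classical
  have : Fact p.Prime := ⟨hp⟩
  have hn := deg_pos hχ
  set n := charDegree χ with hnd
  have hlt : n < p := by
    have h1 := deg_sq_le_card hχ
    rw [hcod, pow_two] at h1
    refine lt_of_le_of_ne (Nat.le_of_mul_le_mul_right h1 hn) fun e => ?_
    have hG : IsPGroup p G := IsPGroup.of_card (n := 2) (by rw [hcod, e, pow_two])
    have : Nontrivial G := Finite.one_lt_card_iff_nontrivial.mp (by
      rw [hcod, e]; nlinarith [hp.two_le])
    have hZ := hG.center_nontrivial
    have h2 := deg_sq_le_index_of_le_center hχ _ le_rfl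
    have h3 := (Subgroup.center G).card_mul_index
    have h4 : 1 < Nat.card (Subgroup.center G) := Finite.one_lt_card
    rw [hcod, e] at h3
    rw [← hnd, e] at h2
    nlinarith [hp.two_le]
  have hpn : ¬ p ∣ n := fun e => absurd (Nat.le_of_dvd hn e) (by omega)
  obtain ⟨P⟩ : Nonempty (Sylow p G) := inferInstance
  have hP : Nat.card (P : Subgroup G) = p := by
    rw [P.card_eq_multiplicity, hcod, Nat.factorization_mul hp.ne_zero hn.ne',
      Finsupp.add_apply, hp.factorization_self, Nat.factorization_eq_zero_of_not_dvd hpn, pow_one]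
  have hi : (P : Subgroup G).index = n := by
    have := (P : Subgroup G).card_mul_index
    rw [hP, hcod] at this
    exact Nat.eq_of_mul_eq_mul_left hp.pos this
  have hc1 : Nat.card (Sylow p G) = 1 := by
    have h1 := card_sylow_modEq_one p G
    have h2 := Nat.le_of_dvd hn (hi ▸ P.card_dvd_index)
    exact Nat.ModEq.eq_of_lt_of_lt h1 (by omega) hp.one_lt
  have : Subsingleton (Sylow p G) := (Nat.card_eq_one_iff_unique.mp hc1).1
  have hN : (P : Subgroup G).Normal := Sylow.normal_of_subsingleton P
  refine ⟨P, hN, hP, hi, hlt, ?_⟩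
  have hcyc : IsCyclic (P : Subgroup G) := isCyclic_of_prime_card hP
  have hPC : (P : Subgroup G) ≤ Subgroup.centralizer ((P : Subgroup G) : Set G) :=
    Subgroup.le_centralizer _
  set C := Subgroup.centralizer ((P : Subgroup G) : Set G) with hC
  have : Fintype C := Fintype.ofFinite C
  obtain ⟨ψ, hψ, hne⟩ := exists_irr_under C hχ
  have h1 := deg_le_index_mul_of_inner hχ C (isCharacter_of_isIrr hψ) hne
  have h2 := deg_sq_le_index_of_le_center hψ ((P : Subgroup G).subgroupOf C) (fun x hx => by
    rw [Subgroup.mem_center_iff]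
    intro y
    exact Subtype.ext (y.2 x hx).symm)
  have h3 := Subgroup.relIndex_mul_index hPC
  rw [hi, ← hnd] at *
  change _ ≤ (P : Subgroup G).relIndex C at h2
  have h4 : 0 < C.index := Nat.pos_of_ne_zero Subgroup.index_ne_zero_of_finite
  have h5 : (P : Subgroup G).relIndex C ≤ charDegree ψ := by
    rw [← h3, mul_comm] at h1
    exact Nat.le_of_mul_le_mul_left h1 h4
  have h6 : (P : Subgroup G).relIndex C ≠ 0 := Subgroup.index_ne_zero_of_finite
  have h7 : (P : Subgroup G).relIndex C = 1 := by
    have := Nat.pos_of_ne_zero h6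
    nlinarith
  exact le_antisymm (Subgroup.relIndex_eq_one.mp h7) hPC

/-- Let G be a finite group with a faithful irreducible complex character χ whose codegree #G / χ(1) is a prime p (for a faithful character the kernel is trivial, so the codegree is #G / χ(1)). Then either G is cyclic of order p, or G is a Frobenius group whose Frobenius kernel has order p: some proper non-trivial subgroup H satisfies H ∩ gHg⁻¹ = 1 for every element g outside H, and the set of elements lying in no conjugate of H, together with the identity, has exactly p elements. -/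
theorem result {G : Type*} [Group G] [Finite G] (χ : Cfsg.IrrCharacter G) (hfaith : ∀ g : G, (χ : G → ℂ) g = (χ : G → ℂ) 1 → g = 1) (p : ℕ) (hp : p.Prime) (hcod : Nat.card G = p * Cfsg.charDegree (χ : G → ℂ)) : (IsCyclic G ∧ Nat.card G = p) ∨ ∃ H : Subgroup G, Cfsg.IsFrobeniusComplement H ∧ Nat.card ↥(Cfsg.frobeniusKernel H) = p := by
  obtain ⟨P, hN, hP, hi, hlt, hC⟩ := exists_normal_selfcent χ.2 hp hcod
  have : Fact p.Prime := ⟨hp⟩
  by_cases h1 : Cfsg.charDegree (χ : G → ℂ) = 1
  · rw [h1, mul_one] at hcod
    exact Or.inl ⟨isCyclic_of_prime_card hcod, hcod⟩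
  · right
    have hn := CfsgLib.ChDeg.deg_pos χ.2
    obtain ⟨H, hH⟩ := Subgroup.exists_right_complement'_of_coprime (N := P) (by
      rw [hP, hi]
      exact (hp.coprime_iff_not_dvd).mpr fun e => absurd (Nat.le_of_dvd hn e) (by omega))
    have hHc : Nat.card H = Cfsg.charDegree (χ : G → ℂ) := by rw [← hi, hH.symm.index_eq_card]
    have hfrob : Cfsg.IsFrobeniusComplement H := by
      refine CfsgLib.Frob.frob_of_fpf hH ?_ ?_ fun h hh hh1 => ?_
      · rintro rfl
        rw [Subgroup.card_bot] at hP
        exact hp.one_lt.ne hP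
      · rintro rfl
        rw [Subgroup.card_bot] at hHc
        exact h1 hHc.symm
      · refine CfsgLib.Core.inf_eq_bot_of_prime_card_of_not_le (hP ▸ hp) fun e => hh1 ?_
        refine CfsgLib.Frob.eq_one_of_mem_of_isComplement' hH ?_ hh
        rw [← hC]
        intro x hx
        exact (e hx h rfl).symm
    refine ⟨H, hfrob, ?_⟩
    rw [← CfsgLib.Frob.coe_eq_kernel hH hfrob]
    exact hP

end Cfsg.Agent.S4796
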