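import Cfsg.Statements.S4797
import Cfsg.Agent.S4796
import Cfsg.Agent.Lib.SolvStruct.Util

set_option autoImplicit false
open Cfsg

namespace Cfsg.Agent.S4797

/-- The codegree of an irreducible complex character χ of a finite group G is [G : ker χ] / χ(1), where ker χ is the set of elements at which χ takes the value χ(1). A non-trivial finite group is perfect if and only if no irreducible complex character of it has prime codegree. -/
theorem result {G : Type*} [Group G] [Finite G] [Nontrivial G] : commutator G = ⊤ ↔ ∀ χ : Cfsg.IrrCharacter G, ¬ ((Nat.card G / (Nat.card {g : G // (χ : G → ℂ) g = (χ : G → ℂ) 1} * Cfsg.charDegree (χ : G → ℂ)))).Prime := by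
  open CfsgLib.Char CfsgLib.ChDeg in
  classical
  constructor
  · intro hG χ hp
    have hc := irr_isCharacter χ
    have h1 := codeg_mul_deg χ.2
    set p := Nat.card G / (Nat.card {g : G // (χ : G → ℂ) g = (χ : G → ℂ) 1} *
      Cfsg.charDegree (χ : G → ℂ))
    have hψ := isIrr_defl χ.2 (le_refl (cker (χ : G → ℂ)))
    obtain ⟨P, hN, hP, -, -, hC⟩ := Cfsg.Agent.S4796.exists_normal_selfcent hψ hp
      (by rw [deg_defl hc le_rfl, h1]; rfl)
    have : Fact p.Prime := ⟨hp⟩
    have hcyc : IsCyclic P := isCyclic_of_prime_card hP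
    have hQ : commutator (G ⧸ cker (χ : G → ℂ)) = ⊤ := by
      have := Subgroup.map_commutator ⊤ ⊤ (QuotientGroup.mk' (cker (χ : G → ℂ)))
      rw [← commutator_def, hG, Subgroup.map_top_of_surjective _ (QuotientGroup.mk'_surjective _),
        ← commutator_def] at this
      exact this.symm
    have h2 := CfsgLib.SolvStruct.commutator_le_centralizer_of_cyclic P
    rw [hQ, hC, top_le_iff] at h2
    have h3 : commutator (G ⧸ cker (χ : G → ℂ)) = ⊥ := by
      rw [commutator_def, Subgroup.commutator_eq_bot_iff_le_centralizer, ← h2, hC]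
    rw [h2, ← hQ, h3, Subgroup.card_bot] at hP
    exact hp.one_lt.ne hP
  · intro h
    by_contra hG
    have : IsMulCommutative (G ⧸ commutator G) :=
      Subgroup.Normal.quotient_commutative_iff_commutator_le.mpr le_rfl
    have : Group.IsSolvable (G ⧸ commutator G) := CfsgLib.Core.isSolvable_of_isMulCommutative
    obtain ⟨N, hN, hle, hp⟩ := CfsgLib.Core.exists_normal_prime_index_ge (K := commutator G) hG
    have hNt : N ≠ ⊤ := by rintro rfl; rw [Subgroup.index_top] at hp; exact Nat.not_prime_one hp
    obtain ⟨g, hg⟩ : ∃ g, g ∉ N := by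
      by_contra hc
      push Not at hc
      exact hNt (eq_top_iff.mpr fun g _ => hc g)
    obtain ⟨χ, hχ, hNk, hgk⟩ := exists_irr_le_cker_not_mem N hg
    apply h ⟨χ, hχ⟩
    have h1 := codeg_mul_deg hχ
    have h2 := (deg_eq_one_iff_commutator_le hχ).mpr (hle.trans hNk)
    have h3 : (cker χ).index = N.index := by
      rcases (Nat.dvd_prime hp).mp (Subgroup.index_dvd_of_le hNk) with e | e
      · rw [Subgroup.index_eq_one] at e
        exact absurd (e ▸ Subgroup.mem_top g) hgk
      · exact e
    conv_lhs at h1 => rhs; rw [h2]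
    rw [mul_one, h3] at h1
    exact h1 ▸ hp

end Cfsg.Agent.S4797
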