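import Cfsg.Statements.S4798
import Cfsg.Agent.Lib.ChDeg.Avg

set_option autoImplicit false
open Cfsg

namespace Cfsg.Agent.S4798

/-- Let p be a prime and χ a faithful irreducible complex character of the finite group G (χ(g) = χ(1) only for g = 1), so that its codegree is #G / χ(1). Then #G / χ(1) is a power of p if and only if χ is induced from a character of a Sylow p-subgroup of G. -/
theorem result {G : Type*} [Group G] [Fintype G] (p : ℕ) [Fact p.Prime] (χ : Cfsg.IrrCharacter G) (hfaith : ∀ g : G, (χ : G → ℂ) g = (χ : G → ℂ) 1 → g = 1) : (∃ k : ℕ, Nat.card G = p ^ k * Cfsg.charDegree (χ : G → ℂ)) ↔ ∃ (P : Sylow p G) (θ : ↥(P : Subgroup G) → ℂ), Cfsg.IsCharacter ↥(P : Subgroup G) θ ∧ (χ : G → ℂ) = Cfsg.indFun (P : Subgroup G) θ := by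
  open CfsgLib.Char CfsgLib.ChDeg in
  classical
  have hp : p.Prime := Fact.out
  have hc := irr_isCharacter χ
  constructor
  · rintro ⟨k, hk⟩
    obtain ⟨P⟩ : Nonempty (Sylow p G) := inferInstance
    obtain ⟨n, hn⟩ := P.isPGroup'.exists_card_eq
    have hi : (P : Subgroup G).index ∣ charDegree (χ : G → ℂ) := by
      refine Nat.Coprime.dvd_of_dvd_mul_left (m := p ^ k) ?_ (hk ▸ Subgroup.index_dvd_card _)
      exact Nat.Coprime.pow_right _ ((hp.coprime_iff_not_dvd.mpr P.not_dvd_index).symm)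
    obtain ⟨m, hm⟩ := hi
    have hi0 : 0 < (P : Subgroup G).index := Nat.pos_of_ne_zero Subgroup.index_ne_zero_of_finite
    have hm' : m ∣ p ^ n := by
      have := (P : Subgroup G).card_mul_index
      rw [hk, hm, hn, mul_left_comm, mul_comm] at this
      exact Dvd.intro_left _ (Nat.eq_of_mul_eq_mul_left hi0 this).symm
    obtain ⟨a, -, rfl⟩ := (Nat.dvd_prime_pow hp).mp hm'
    by_contra hcon
    push Not at hcon
    have hdvd : p ^ (a + 1) ∣ charDegree (fun h : (P : Subgroup G) => (χ : G → ℂ) h) := by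
      refine dvd_deg_of_forall (isCharacter_restrict _ hc) fun θ hθ hne => ?_
      have h1 := deg_dvd_card hθ
      rw [hn] at h1
      obtain ⟨b, -, hb⟩ := (Nat.dvd_prime_pow hp).mp h1
      rw [hb]
      refine pow_dvd_pow p ?_
      by_contra hlt
      refine hcon P θ (isCharacter_of_isIrr hθ) (ind_eq_of_inner_of_deg_le χ.2 _
        (isCharacter_of_isIrr hθ) hne ?_).symm
      rw [hm, hb]
      exact Nat.mul_le_mul_left _ (Nat.pow_le_pow_right hp.pos (by omega))
    rw [deg_res, hm, pow_succ, mul_comm] at hdvd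
    exact P.not_dvd_index (Nat.dvd_of_mul_dvd_mul_right (pow_pos hp.pos a) hdvd)
  · rintro ⟨P, θ, hθ, e⟩
    have hθ' := isIrr_of_isIrr_indFun _ hθ (e ▸ χ.2)
    obtain ⟨n, hn⟩ := P.isPGroup'.exists_card_eq
    obtain ⟨m, hm⟩ := deg_dvd_card hθ'
    obtain ⟨a, -, rfl⟩ := (Nat.dvd_prime_pow hp).mp (Dvd.intro_left _ (hm.symm.trans hn))
    refine ⟨a, ?_⟩
    rw [e, deg_ind _ hθ, ← (P : Subgroup G).card_mul_index, hm]
    ring

end Cfsg.Agent.S4798
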