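import Cfsg.Statements.S4801
import Cfsg.Agent.Lib.ChDeg.Avg

set_option autoImplicit false
open Cfsg

namespace Cfsg.Agent.S4801

/-- The codegree of an irreducible complex character χ of a finite group G is [G : ker χ] / χ(1), where ker χ is the set of elements at which χ takes the value χ(1). Let S be a finite simple group and G a finite group such that every codegree of an irreducible character of S is a codegree of an irreducible character of G. Then the order of S divides the order of G. -/
theorem result {S : Type*} [Group S] [Finite S] (hS : IsSimpleGroup S) {G : Type*} [Group G] [Finite G] (hsub : ∀ χ : Cfsg.IrrCharacter S, ∃ ψ : Cfsg.IrrCharacter G, (Nat.card S / (Nat.card {g : S // (χ : S → ℂ) g = (χ : S → ℂ) 1} * Cfsg.charDegree (χ : S → ℂ))) = (Nat.card G / (Nat.card {g : G // (ψ : G → ℂ) g = (ψ : G → ℂ) 1} * Cfsg.charDegree (ψ : G → ℂ)))) : Nat.card S ∣ Nat.card G := by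
  open CfsgLib.Char CfsgLib.ChDeg in
  classical
  have key : ∀ χ : IrrCharacter S, χ ≠ irrOne S →
      Nat.card S ∣ Nat.card G * charDegree (χ : S → ℂ) ^ 2 := fun χ h1 => by
    obtain ⟨ψ, hψ⟩ := hsub χ
    have hk : cker (χ : S → ℂ) = ⊥ := by
      refine (hS.eq_bot_or_eq_top_of_normal _ inferInstance).resolve_right fun e => h1 ?_
      exact Subtype.ext (irr_eq_one_of_cker_eq_top χ.2 e)
    have h2 := codeg_mul_deg χ.2
    rw [hk, Subgroup.index_bot, hψ] at h2
    rw [← h2, pow_two, ← mul_assoc]
    exact Nat.mul_dvd_mul (Dvd.dvd.mul_right (codeg_dvd_card ψ.2) _) dvd_rfl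
  have hs := sum_deg_sq (G := S)
  rw [← Finset.add_sum_erase _ _ (Finset.mem_univ (irrOne S)), irrOne_coe, deg_one] at hs
  have h3 : Nat.card S ∣ Nat.card G * ∑ χ ∈ Finset.univ.erase (irrOne S),
      charDegree (χ : S → ℂ) ^ 2 := by
    rw [Finset.mul_sum]
    exact Finset.dvd_sum fun χ hχ => key χ (Finset.ne_of_mem_erase hχ)
  have h4 : Nat.card G * Nat.card S = Nat.card G + Nat.card G * ∑ χ ∈ Finset.univ.erase (irrOne S),
      charDegree (χ : S → ℂ) ^ 2 := by rw [← hs]; ring
  exact (Nat.dvd_add_left h3).mp (h4 ▸ Dvd.intro_left _ rfl)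

end Cfsg.Agent.S4801
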