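import Cfsg.Statements.S4802
import Cfsg.Agent.Lib.ChDeg.Avg

set_option autoImplicit false
open Cfsg

namespace Cfsg.Agent.S4802

/-- Let N < M be normal subgroups of the finite group G and g ∈ M ∖ N. Then the conjugacy class of g is exactly M ∖ N if and only if every irreducible complex character of G whose kernel contains N takes the same value at all elements of M ∖ N, and every irreducible complex character of G whose kernel does not contain N vanishes at g. -/
theorem result {G : Type*} [Group G] [Finite G] (N M : Subgroup G) [N.Normal] [M.Normal] (hNM : N < M) (g : G) (hgM : g ∈ M) (hgN : g ∉ N) : {h : G | IsConj g h} = (M : Set G) \ (N : Set G) ↔ ((∀ χ : Cfsg.IrrCharacter G, (∀ x ∈ N, (χ : G → ℂ) x = (χ : G → ℂ) 1) → ∀ x ∈ M, x ∉ N → ∀ y ∈ M, y ∉ N → (χ : G → ℂ) x = (χ : G → ℂ) y) ∧ (∀ χ : Cfsg.IrrCharacter G, (∃ x ∈ N, (χ : G → ℂ) x ≠ (χ : G → ℂ) 1) → (χ : G → ℂ) g = 0)) := by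
  open CfsgLib.Char CfsgLib.ChDeg in
  constructor
  · intro h
    have hconj : ∀ x ∈ M, x ∉ N → IsConj g x := fun x hx hxN => by
      have : x ∈ {h : G | IsConj g h} := by rw [h]; exact ⟨hx, hxN⟩
      exact this
    refine ⟨fun χ _ x hx hxN y hy hyN => ?_, fun χ hχ => ?_⟩
    · exact classFun_eq_of_isConj (irr_isClassFunction χ)
        ((hconj x hx hxN).symm.trans (hconj y hy hyN))
    · refine eq_zero_of_forall_isConj χ.2 N ((not_le_cker_iff (irr_isCharacter χ)).mpr hχ)
        fun n hn => hconj _ (M.mul_mem (hNM.le hn) hgM) fun e => hgN ?_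
      simpa using N.mul_mem (N.inv_mem hn) e
  · rintro ⟨h1, h2⟩
    ext x
    constructor
    · intro hx
      obtain ⟨c, rfl⟩ := isConj_iff.mp hx
      refine ⟨Subgroup.Normal.conj_mem inferInstance g hgM c, fun e => hgN ?_⟩
      have := Subgroup.Normal.conj_mem (H := N) inferInstance _ e c⁻¹
      simpa [mul_assoc] using this
    · rintro ⟨hx, hxN⟩
      refine isConj_of_forall_zero_or_eq fun χ hχ => ?_
      by_cases h : ∀ x ∈ N, χ x = χ 1
      · exact Or.inr (h1 ⟨χ, hχ⟩ h x hx hxN g hgM hgN)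
      · push Not at h
        exact Or.inl (h2 ⟨χ, hχ⟩ h)

end Cfsg.Agent.S4802
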