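import Cfsg.Statements.S4805
import Cfsg.Agent.Lib.CamOdd.Main
import Cfsg.Agent.Lib.Char.Clifford

set_option autoImplicit false
open Cfsg

namespace Cfsg.Agent.S4805

open Subgroup CfsgLib.Char CfsgLib.ChDeg CfsgLib.CamOdd
open scoped commutatorElement ComplexConjugate

open Classical in
theorem lin {G : Type*} [Group G] [Finite G] (x y : G) :
    ∑ ψ ∈ Finset.univ.filter (fun ψ : IrrCharacter G => _root_.commutator G ≤ cker (ψ : G → ℂ)),
      (ψ : G → ℂ) x * conj ((ψ : G → ℂ) y) =
      if x⁻¹ * y ∈ _root_.commutator G then ((_root_.commutator G).index : ℂ) else 0 := by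
  rw [sum_filter_cker _ (fun ψ : G → ℂ => ψ x * conj (ψ y))]
  beta_reduce
  have hc : ∀ a b : G ⧸ _root_.commutator G, a * b = b * a := fun a b =>
    mul_comm (G := Abelianization G) a b
  split_ifs with h
  · have e : centralizer {(x : G ⧸ _root_.commutator G)} = ⊤ :=
      eq_top_iff.2 fun b _ => mem_centralizer_singleton_iff.2 (hc b _)
    rw [← QuotientGroup.eq.2 h, column_orthogonality_self, index_eq_card, e, card_top]
  · refine column_orthogonality_of_not_isConj fun e => h (QuotientGroup.eq.1 ?_)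
    obtain ⟨c, e⟩ := isConj_iff.1 e
    rw [← e, conj_eq (hc _ _)]

open Classical in
theorem split {G : Type*} [Group G] [Finite G] (N : Subgroup G) (hN : N ≤ _root_.commutator G)
    (χ : IrrCharacter G) (hχ1 : charDegree (χ : G → ℂ) ≠ 1) (hNχ : N ≤ cker (χ : G → ℂ)) (x y : G)
    (h : ∀ ψ : IrrCharacter G, N ≤ cker (ψ : G → ℂ) → charDegree (ψ : G → ℂ) ≠ 1 → ψ ≠ χ →
      (ψ : G → ℂ) x = 0) :
    ∑ ψ ∈ Finset.univ.filter (fun ψ : IrrCharacter G => N ≤ cker (ψ : G → ℂ)),
      (ψ : G → ℂ) x * conj ((ψ : G → ℂ) y) =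
      (if x⁻¹ * y ∈ _root_.commutator G then ((_root_.commutator G).index : ℂ) else 0) +
        (χ : G → ℂ) x * conj ((χ : G → ℂ) y) := by
  rw [← lin, ← Finset.sum_filter_add_sum_filter_not _
    (fun ψ : IrrCharacter G => _root_.commutator G ≤ cker (ψ : G → ℂ)), Finset.filter_filter]
  congr 1
  · exact Finset.sum_congr (Finset.filter_congr fun ψ _ => ⟨fun h => h.2, fun h => ⟨hN.trans h, h⟩⟩)
      fun _ _ => rfl
  · refine Finset.sum_eq_single_of_mem χ ?_ fun ψ hψ hne => ?_
    · simp only [Finset.mem_filter, Finset.mem_univ, true_and]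
      exact ⟨hNχ, fun e => hχ1 ((deg_eq_one_iff_commutator_le χ.2).2 e)⟩
    · simp only [Finset.mem_filter, Finset.mem_univ, true_and] at hψ
      rw [h ψ hψ.1 (fun e => hψ.2 ((deg_eq_one_iff_commutator_le ψ.2).1 e)) hne, zero_mul]

/-- Let G be a finite group, g an element outside the centre of G, and χ an irreducible complex character of degree greater than one with χ(g) ≠ 0 such that every other irreducible character of degree greater than one vanishes at g. Then g lies in the derived subgroup G′ and χ(g) = −[G : G′]/χ(1); G′ is the union of the kernel of χ (the elements where χ takes the value χ(1)) and the conjugacy class of g, and χ vanishes outside G′; every irreducible character of degree greater than one whose kernel contains that of χ equals χ; and G is solvable. -/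
theorem result {G : Type*} [Group G] [Finite G] (g : G) (hg : g ∉ Subgroup.center G) (χ : Cfsg.IrrCharacter G) (hχ1 : Cfsg.charDegree (χ : G → ℂ) ≠ 1) (hχg : (χ : G → ℂ) g ≠ 0) (hother : ∀ ψ : Cfsg.IrrCharacter G, Cfsg.charDegree (ψ : G → ℂ) ≠ 1 → ψ ≠ χ → (ψ : G → ℂ) g = 0) : g ∈ commutator G ∧ (χ : G → ℂ) g = -(((commutator G).index : ℂ) / (χ : G → ℂ) 1) ∧ ((commutator G : Set G) = {x : G | (χ : G → ℂ) x = (χ : G → ℂ) 1} ∪ {h : G | IsConj g h}) ∧ (∀ x : G, x ∉ commutator G → (χ : G → ℂ) x = 0) ∧ (∀ ψ : Cfsg.IrrCharacter G, Cfsg.charDegree (ψ : G → ℂ) ≠ 1 → (∀ x : G, (χ : G → ℂ) x = (χ : G → ℂ) 1 → (ψ : G → ℂ) x = (ψ : G → ℂ) 1) → ψ = χ) ∧ Group.IsSolvable G := by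
  classical
  have := Fintype.ofFinite G
  set M := _root_.commutator G with hM
  have hχ := irr_isCharacter χ
  have hd : (χ : G → ℂ) 1 ≠ 0 := irr_one_ne_zero χ.2
  have hm : (M.index : ℂ) ≠ 0 := Nat.cast_ne_zero.2 index_ne_zero_of_finite
  have col : ∀ y, ∑ ψ : IrrCharacter G, (ψ : G → ℂ) g * conj ((ψ : G → ℂ) y) =
      (if g⁻¹ * y ∈ M then (M.index : ℂ) else 0) + (χ : G → ℂ) g * conj ((χ : G → ℂ) y) := by
    intro y
    rw [← split ⊥ bot_le χ hχ1 bot_le g y fun ψ _ => hother ψ,
      Finset.filter_true_of_mem fun _ _ => bot_le]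
  have hg1 : ¬ IsConj g 1 := fun e => hg (isConj_one_left.1 e ▸ one_mem _)
  have c1 := col 1
  rw [column_orthogonality_of_not_isConj hg1, conj_char_one hχ, mul_one] at c1
  have f1 : g ∈ M := by
    by_contra h
    rw [if_neg (fun e => h (inv_mem_iff.1 e)), zero_add] at c1
    exact mul_ne_zero hχg hd c1.symm
  rw [if_pos (inv_mem f1)] at c1
  have f2 : (χ : G → ℂ) g = -((M.index : ℂ) / (χ : G → ℂ) 1) := by
    field_simp
    linear_combination -c1
  have f3 : ∀ y ∈ M, ¬ IsConj g y → (χ : G → ℂ) y = (χ : G → ℂ) 1 := by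
    intro y hy h
    have c := col y
    rw [column_orthogonality_of_not_isConj h, if_pos (mul_mem (inv_mem f1) hy)] at c
    have : conj ((χ : G → ℂ) y) = (χ : G → ℂ) 1 :=
      mul_left_cancel₀ hχg (by linear_combination c1 - c)
    rw [← conj_char_one hχ] at this
    exact (starRingEnd ℂ).injective this
  have conjM : ∀ y, IsConj g y → y ∈ M := fun y h => by
    obtain ⟨c, rfl⟩ := isConj_iff.1 h
    exact Normal.conj_mem inferInstance g f1 c
  have f4 : ∀ y, y ∉ M → (χ : G → ℂ) y = 0 := by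
    intro y hy
    have c := col y
    rw [column_orthogonality_of_not_isConj (fun e => hy (conjM y e)),
      if_neg (fun e => hy ((mul_mem_cancel_left (inv_mem f1)).1 e)), zero_add] at c
    simpa [hχg] using c.symm
  set K := cker (χ : G → ℂ) with hK
  have hKM : K ≤ M := fun y hy => by
    by_contra h
    exact hd (((mem_cker hχ).1 hy).symm.trans (f4 y h))
  have hgK : g ∉ K := fun e => by
    rw [(mem_cker hχ).1 e, ← deg_cast hχ] at c1
    have : M.index + charDegree (χ : G → ℂ) * charDegree (χ : G → ℂ) = 0 := by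
      exact_mod_cast c1.symm
    exact index_ne_zero_of_finite (H := M) (by omega)
  have hc : ∀ y ∈ M, y ∉ K → IsConj g y := fun y hy h => by
    by_contra h1
    exact h ((mem_cker hχ).2 (f3 y hy h1))
  have f5 : ∀ ψ : IrrCharacter G, charDegree (ψ : G → ℂ) ≠ 1 → K ≤ cker (ψ : G → ℂ) → ψ = χ := by
    intro ψ h1 h2
    by_contra hne
    have hψ := irr_isCharacter ψ
    have h3 : classInner (fun n : M => (ψ : G → ℂ) n) (fun _ => 1) ≠ 0 := by
      have e : ∀ n : M, (ψ : G → ℂ) n = (ψ : G → ℂ) 1 * if (n : G) ∈ K then 1 else 0 := by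
        intro n
        split_ifs with h
        · rw [mul_one, (mem_cker hψ).1 (h2 h)]
        · rw [mul_zero, ← classFun_eq_of_isConj (irr_isClassFunction ψ) (hc n n.2 h),
            hother ψ h1 hne]
      rw [classInner_one_right, Finset.sum_congr rfl fun n _ => e n, ← Finset.mul_sum,
        Finset.sum_boole]
      refine mul_ne_zero (inv_ne_zero natCard_ne_zero) (mul_ne_zero (irr_one_ne_zero ψ.2) ?_)
      exact Nat.cast_ne_zero.2 (Finset.card_ne_zero.2 ⟨1, by simp⟩)
    have h4 := clifford_invariant M ψ.2 isIrr_one h3 fun _ => rfl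
    refine h1 ((deg_eq_one_iff_commutator_le ψ.2).2 fun n hn => (mem_cker hψ).2 ?_)
    exact (congrFun h4 ⟨n, hn⟩).trans (congrFun h4 1).symm
  refine ⟨f1, f2, ?_, f4, fun ψ h1 h2 => f5 ψ h1 fun x hx =>
    (mem_cker (irr_isCharacter ψ)).2 (h2 x ((mem_cker hχ).1 hx)), ?_⟩
  · ext y
    constructor
    · intro hy
      by_cases h : IsConj g y
      · exact Or.inr h
      · exact Or.inl (f3 y hy h)
    · rintro (h | h)
      · exact hKM ((mem_cker hχ).2 h)
      · exact conjM y h
  have cq : ∀ x : G, (Nat.card (centralizer ({(x : G ⧸ K)} : Set (G ⧸ K))) : ℂ) =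
      M.index + (χ : G → ℂ) x * conj ((χ : G → ℂ) x) := by
    intro x
    have h1 := split K hKM χ hχ1 le_rfl x x fun ψ h1 h2 h3 => absurd (f5 ψ h2 h1) h3
    rw [sum_filter_cker _ (fun ψ : G → ℂ => ψ x * conj (ψ x)), column_orthogonality_self,
      if_pos (by simp)] at h1
    exact h1
  obtain ⟨p, j, hp, hgp, hgj⟩ := exists_prime_elt f1 hgK hc
  have := Fact.mk hp
  have hs := QuotientGroup.mk'_surjective K
  set A := M.map (QuotientGroup.mk' K) with hA
  have : A.Normal := Normal.map inferInstance _ hs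
  have a1 : (g : G ⧸ K) ∈ A := ⟨g, f1, rfl⟩
  have a2 : (g : G ⧸ K) ≠ 1 := fun e => hgK ((QuotientGroup.eq_one_iff g).1 e)
  have a3 : ∀ y ∈ A, y ≠ 1 → IsConj (g : G ⧸ K) y := by
    rintro _ ⟨y, hy, rfl⟩ h
    exact (QuotientGroup.mk' K).map_isConj (hc y hy fun e => h ((QuotientGroup.eq_one_iff y).2 e))
  have a4 : (g : G ⧸ K) ^ p = 1 := (QuotientGroup.eq_one_iff _).2 hgp
  have a5 := comm_of_one_class a1 a2 a3 a4
  rcases two_or_le a1 a2 a3 a5 (by
      rintro ⟨x⟩ ⟨y⟩
      exact ⟨⁅x, y⁆, commutator_mem_commutator (mem_top _) (mem_top _), rfl⟩) (by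
      rintro ⟨x⟩ hx
      have h1 := cq x
      rw [f4 x fun e => hx ⟨x, e, rfl⟩, zero_mul, add_zero] at h1
      rw [hA, index_map_eq _ hs (by rwa [QuotientGroup.ker_mk'])]
      exact_mod_cast h1) with h | h
  · obtain rfl : p = 2 := by
      by_contra hp2
      obtain ⟨i, hi⟩ := h g
      have h4 := Nat.dvd_gcd (orderOf_dvd_of_pow_eq_one a4) (orderOf_dvd_of_pow_eq_one hi)
      rw [(((Nat.coprime_primes hp Nat.prime_two).2 hp2).pow_right i : Nat.gcd _ _ = 1),
        Nat.dvd_one, orderOf_eq_one_iff] at h4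
      exact a2 h4
    refine solv_of_two fun ψ hψ h1 => ?_
    by_cases e : (⟨ψ, hψ⟩ : IrrCharacter G) = χ
    · obtain ⟨k, hk⟩ := IsPGroup.iff_card.1 h
      have h2 := deg_dvd_index_of_le_cker χ.2 K le_rfl
      rw [index_eq_card, hk, ← e] at h2
      obtain ⟨i, -, hi⟩ := (Nat.dvd_prime_pow Nat.prime_two).1 h2
      change charDegree ψ = _ at hi
      rw [hi] at h1 ⊢
      exact dvd_pow_self 2 fun e => h1 (by rw [e, pow_zero])
    · exact dvd_deg_of_eq_zero hp (isCharacter_of_isIrr hψ) hgj (hother ⟨ψ, hψ⟩ h1 e)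
  · refine solv_of_cam hKM f1 hgK hc (fun x hx y hy => (QuotientGroup.eq_one_iff _).1 ?_) ?_
    · exact (map_commutatorElement (QuotientGroup.mk' K) x y).trans
        (cm_eq_one (a5 _ ⟨x, hx, rfl⟩ _ ⟨y, hy, rfl⟩))
    · have h1 := col g
      rw [column_orthogonality_self, if_pos (by simp), ← cq, Nat.cast_inj] at h1
      have h2 := relIndex_ker M (QuotientGroup.mk' K)
      rw [QuotientGroup.ker_mk'] at h2
      rw [h1, h2]
      exact card_le_of_le h

end Cfsg.Agent.S4805
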