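import Mathlib
import Cfsg.Statements.S4807
import Cfsg.Agent.Lib.McKay.Final

set_option autoImplicit false
open Cfsg

namespace Cfsg.Agent.S4807

open CfsgLib.McKay Subgroup in

/-- Let p be a prime and G a finite p-solvable group, L a normal subgroup of G, S a Sylow p-subgroup of G and P the subgroup generated by L and S (so P/L is a Sylow p-subgroup of G/L), and let ν be an irreducible complex character of L that is invariant under conjugation by every element of P. Let N be the normalizer of P in G (it contains L). Then the number of irreducible characters of G of degree prime to p lying over ν (restriction to L not orthogonal to ν) equals the number of irreducible characters of N of degree prime to p lying over ν. -/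
theorem result {G : Type*} [Group G] [Finite G] (p : ℕ) [Fact p.Prime] (hG : Cfsg.IsPSolvable p G) (L : Subgroup G) [L.Normal] (S : Sylow p G) (P : Subgroup G) (hP : P = L ⊔ (S : Subgroup G)) (hLN : L ≤ (Subgroup.normalizer ((P : Subgroup G) : Set G))) (ν : Cfsg.IrrCharacter ↥L) (hν : ∀ x ∈ P, Cfsg.IsConjCharOf L x (ν : ↥L → ℂ) (ν : ↥L → ℂ)) : Nat.card {χ : Cfsg.IrrCharacter G // ¬ p ∣ Cfsg.charDegree (χ : G → ℂ) ∧ (∑ᶠ l : ↥L, (χ : G → ℂ) (l : G) * (starRingEnd ℂ) ((ν : ↥L → ℂ) l)) ≠ 0} = Nat.card {ψ : Cfsg.IrrCharacter ↥(Subgroup.normalizer ((P : Subgroup G) : Set G)) // ¬ p ∣ Cfsg.charDegree (ψ : ↥(Subgroup.normalizer ((P : Subgroup G) : Set G)) → ℂ) ∧ (∑ᶠ l : ↥L, (ψ : ↥(Subgroup.normalizer ((P : Subgroup G) : Set G)) → ℂ) (Subgroup.inclusion hLN l) * (starRingEnd ℂ) ((ν : ↥L → ℂ) l)) ≠ 0} := by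
  have hS : ¬ p ∣ (S : Subgroup G).relIndex ⊤ := by
    rw [relIndex_top_right]; exact S.not_dvd_index
  have hN : normalizer (P : Set G) = L ⊔ (⊤ ⊓ normalizer ((S : Subgroup G) : Set G)) := by
    have h := comap_normalizer_map (QuotientGroup.mk' L) S.isPGroup' S.not_dvd_index
    rw [QuotientGroup.ker_mk', comap_normalizer_eq_of_surjective _ (QuotientGroup.mk'_surjective L),
      comap_map_eq, QuotientGroup.ker_mk', sup_comm] at h
    rw [hP, top_inf_eq, h]
  have h := mckay_rel hG S.isPGroup' L ⊤ _ le_top hLN ν ν.2 (normalizer_eq_top L).ge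
    (fun g hg => ⟨(normalizer_eq_top L).ge trivial, hν g (hP ▸ mem_sup_right hg)⟩) le_top hS hN
  rw [← cnt_congr (κ := L.subtype) (κ' := inclusion (le_top : L ≤ ⊤)) topEquiv.symm (Equiv.refl _)
    (fun _ => rfl) (θ := ν) (θ' := ν) (fun _ => rfl)] at h
  simp only [cnt, good_one] at h
  exact h

end Cfsg.Agent.S4807
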