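import Cfsg.Statements.S4808
import Cfsg.Agent.Lib.ChDeg.Avg
import Cfsg.Agent.Lib.Core.Basic

set_option autoImplicit false
open Cfsg

namespace Cfsg.Agent.S4808

/-- The codegree of an irreducible complex character χ of a finite group G is [G : ker χ] / χ(1), where ker χ is the set of elements at which χ takes the value χ(1). A prime divides the order of G if and only if it divides the codegree of some irreducible complex character of G. -/
theorem result {G : Type*} [Group G] [Finite G] (p : ℕ) (hp : p.Prime) : p ∣ Nat.card G ↔ ∃ χ : Cfsg.IrrCharacter G, p ∣ (Nat.card G / (Nat.card {g : G // (χ : G → ℂ) g = (χ : G → ℂ) 1} * Cfsg.charDegree (χ : G → ℂ))) := by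
  open CfsgLib.Char CfsgLib.ChDeg in
  classical
  refine ⟨fun hG => ?_, fun ⟨χ, hχ⟩ => hχ.trans (codeg_dvd_card χ.2)⟩
  have : Fact p.Prime := ⟨hp⟩
  obtain ⟨P⟩ : Nonempty (Sylow p G) := inferInstance
  let M : Subgroup G := Subgroup.normalClosure (P : Set G)
  have hPM : (P : Subgroup G) ≤ M := Subgroup.le_normalClosure
  have hM : ¬ p ∣ M.index := fun e => P.not_dvd_index (e.trans (Subgroup.index_dvd_of_le hPM))
  by_contra hc
  push Not at hc
  apply hM
  have h1 := sum_deg_sq (G := G)
  rw [← Finset.sum_filter_add_sum_filter_not Finset.univ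
    (fun χ : IrrCharacter G => M ≤ cker (χ : G → ℂ)), sum_deg_sq_filter_cker] at h1
  rw [← h1] at hG
  refine (Nat.dvd_add_left (Finset.dvd_sum fun χ hχ => ?_)).mp hG
  rw [Finset.mem_filter] at hχ
  by_contra hd
  apply hχ.2
  have h2 : ¬ p ∣ (cker (χ : G → ℂ)).index := by
    rw [← codeg_mul_deg χ.2, hp.dvd_mul]
    rintro (e | e)
    · exact hc χ e
    · exact hd (e.trans (dvd_pow_self _ two_ne_zero))
  refine Subgroup.normalClosure_le_normal (CfsgLib.Core.le_of_coprime_card_index ?_)
  exact CfsgLib.Core.isPGroup_coprime_card P.isPGroup' ((hp.coprime_iff_not_dvd.mpr h2).symm)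

end Cfsg.Agent.S4808
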