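import Cfsg.Statements.S4814
import Cfsg.Agent.Lib.ChDeg.Avg

set_option autoImplicit false
open Cfsg

namespace Cfsg.Agent.S4814

/-- Let G be a finite group such that the sum, over the irreducible complex characters χ of G, of 1/χ(1)² is less than 2. Then every element of G is a product of two commutators. -/
theorem result {G : Type*} [Group G] [Finite G]
    (h : ∑ᶠ χ : Cfsg.IrrCharacter G, 1 / ‖(χ : G → ℂ) 1‖ ^ 2 < (2 : ℝ)) (g : G) :
    ∃ a b c d : G, (a * b * a⁻¹ * b⁻¹) * (c * d * c⁻¹ * d⁻¹) = g := by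
  open CfsgLib.Char CfsgLib.ChDeg in
  classical
  have : Fintype G := Fintype.ofFinite G
  by_contra hc
  push Not at hc
  have hG : (Nat.card G : ℂ) ≠ 0 := natCard_ne_zero
  have key : ∀ χ : IrrCharacter G, ∑ c : G, ∑ d : G, ∑ a : G, ∑ b : G, (χ : G → ℂ) 1 *
      (χ : G → ℂ) (a * b * a⁻¹ * b⁻¹ * (c * d * c⁻¹ * d⁻¹ * g⁻¹)) =
      (Nat.card G : ℂ) ^ 4 * ((χ : G → ℂ) g⁻¹ / (χ : G → ℂ) 1 ^ 3) := fun χ => by
    simp_rw [← Finset.mul_sum, sum_irr_commutator_mul χ.2, mul_div_assoc, div_eq_mul_inv,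
      ← Finset.mul_sum, ← Finset.sum_mul, sum_irr_commutator_mul χ.2]
    have := irr_one_ne_zero χ.2
    field_simp
  have h0 : ∑ χ : IrrCharacter G, (Nat.card G : ℂ) ^ 4 * ((χ : G → ℂ) g⁻¹ / (χ : G → ℂ) 1 ^ 3) = 0 := by
    rw [← Finset.sum_congr rfl fun χ _ => key χ, Finset.sum_comm]
    refine Finset.sum_eq_zero fun c _ => ?_
    rw [Finset.sum_comm]
    refine Finset.sum_eq_zero fun d _ => ?_
    rw [Finset.sum_comm]
    refine Finset.sum_eq_zero fun a _ => ?_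
    rw [Finset.sum_comm]
    refine Finset.sum_eq_zero fun b _ => ?_
    refine sum_irr_one_mul_of_ne_one fun e => hc a b c d ?_
    rw [← mul_assoc, mul_inv_eq_one] at e
    exact e
  rw [← Finset.mul_sum, mul_eq_zero, ← Finset.add_sum_erase _ _ (Finset.mem_univ (irrOne G))] at h0
  have h1 := h0.resolve_left (pow_ne_zero _ hG)
  rw [finsum_eq_sum_of_fintype, ← Finset.add_sum_erase _ _ (Finset.mem_univ (irrOne G))] at h
  simp only [irrOne_apply, one_pow, div_one, norm_one] at h h1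
  have h2 : ‖∑ χ ∈ Finset.univ.erase (irrOne G), (χ : G → ℂ) g⁻¹ / (χ : G → ℂ) 1 ^ 3‖ ≤
      ∑ χ ∈ Finset.univ.erase (irrOne G), 1 / ‖(χ : G → ℂ) 1‖ ^ 2 := by
    refine (norm_sum_le _ _).trans (Finset.sum_le_sum fun χ _ => ?_)
    have h3 := norm_char_le (irr_isCharacter χ) g⁻¹
    have h4 : 0 < ‖(χ : G → ℂ) 1‖ := norm_pos_iff.mpr (irr_one_ne_zero χ.2)
    rw [norm_div, norm_pow, div_le_div_iff₀ (by positivity) (by positivity)]
    nlinarith [mul_le_mul_of_nonneg_right h3 (sq_nonneg ‖(χ : G → ℂ) 1‖)]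
  rw [eq_neg_of_add_eq_zero_right h1, norm_neg, norm_one] at h2
  linarith

end Cfsg.Agent.S4814
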