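import Cfsg.Statements.S4823
import Cfsg.Agent.Lib.B0Lat.Key
import Cfsg.Agent.Lib.B0Lat.Lat

set_option autoImplicit false
universe u
open Cfsg CfsgLib.Char

namespace Cfsg.Agent.S4823

/-- For every prime p and every natural number k there is a bound N such that, for every finite group G and every maximal ideal M of the algebraic integers containing p, if the principal p-block of G has at most k irreducible characters then the p-part of the order of G (the order of a defect group of the principal block) is at most p ^ N. -/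
theorem result (p : ℕ) [Fact p.Prime] (k : ℕ) : ∃ N : ℕ, ∀ (G : Type u) [Group G] [Finite G] (M : Ideal Cfsg.AlgInt), Cfsg.IsPModular p M → Nat.card (Cfsg.principalBlock M G) ≤ k → (Nat.card G).factorization p ≤ N := by
  refine ⟨CfsgLib.B0Lat.sc p k k ^ k, fun G _ _ M hM hk => ?_⟩
  classical
  have : Fintype (principalBlock M G) := Fintype.ofFinite _
  have hp : (0 : ℤ) < (p : ℤ) ^ (Nat.card G).factorization p := by
    have := hM.1.pos
    positivity
  let Λ : AddSubgroup (principalBlock M G → ℤ) :=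
    { carrier := {v | ∃ (c : ℕ → ℤ) (l : ℤ), (∀ n : ℕ, (p : ℤ) ^ (Nat.card G).factorization p ∣ c n - l * n) ∧
        v = fun χ => c (charDegree (χ.1 : G → ℂ))}
      zero_mem' := ⟨0, 0, by simp, rfl⟩
      add_mem' := by
        rintro _ _ ⟨c, l, h, rfl⟩ ⟨c', l', h', rfl⟩
        exact ⟨c + c', l + l', fun n => (dvd_add (h n) (h' n)).trans (dvd_of_eq (by simp; ring)), rfl⟩
      neg_mem' := by
        rintro _ ⟨c, l, h, rfl⟩
        exact ⟨-c, -l, fun n => (dvd_neg.2 (h n)).trans (dvd_of_eq (by simp; ring)), rfl⟩ }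
  have h1 : charDegree (CfsgLib.Char.irrOne G : G → ℂ) = 1 :=
    CfsgLib.Block.charDegree_eq_of_eq (n := 1) (by simp [CfsgLib.Char.irrOne_coe])
  refine CfsgLib.B0Lat.lat (Λ := Λ) (i0 := ⟨_, CfsgLib.Block.irrOne_mem_principalBlock hM⟩) hM.1.one_lt
    (by rwa [Fintype.card_eq_nat_card]) (fun l => ?_) ?_
  · refine ⟨_, ⟨fun n => l * n % (p : ℤ) ^ (Nat.card G).factorization p, l,
      fun n => Int.emod_emod_of_dvd _ dvd_rfl |> Int.ModEq.symm |> Int.ModEq.dvd, rfl⟩, ?_,
      fun i => ⟨Int.emod_nonneg _ hp.ne', Int.emod_lt_of_pos _ hp⟩⟩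
    simp only [h1, Nat.cast_one, mul_one]
    exact Int.emod_emod_of_dvd _ dvd_rfl |> Int.ModEq.symm |> Int.ModEq.dvd
  · rintro _ ⟨c, l, h, rfl⟩
    have := CfsgLib.B0Lat.key hM h
    simp only [h1]
    refine this.trans (le_of_eq ?_)
    rw [← Finset.sum_subtype (Finset.univ.filter (· ∈ principalBlock M G)) (by simp)
      (fun χ : IrrCharacter G => c (charDegree (χ : G → ℂ)) ^ 2), Finset.sum_filter]
    refine Finset.sum_congr rfl fun χ _ => ?_
    unfold CfsgLib.B0Lat.cf
    split_ifs <;> simp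

end Cfsg.Agent.S4823
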