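import Cfsg.Statements.S4825
import Cfsg.Agent.Lib.BlkSq.Main

set_option autoImplicit false
open Cfsg

namespace Cfsg.Agent.S4825

open CfsgLib CfsgLib.Char CfsgLib.Block

/-- Let p be a prime, G a finite group with Sylow p-subgroup P, M a maximal ideal of the algebraic integers containing p, and B a p-block of G with defect group P. Let N be a normal subgroup of G not containing P and θ an irreducible character of N. Then the number of irreducible characters in B of degree prime to p lying over θ (having θ as a constituent on restriction to N) is either 0 or at least 2, and when p ≤ 3 it is divisible by p. -/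
theorem result {G : Type*} [Group G] [Fintype G] (p : ℕ) [Fact p.Prime] (P : Sylow p G) (M : Ideal Cfsg.AlgInt) (hM : Cfsg.IsPModular p M) (B : Set (Cfsg.IrrCharacter G)) (hB : Cfsg.IsPBlock M B) (hBP : Cfsg.IsDefectGroup p M B P) (N : Subgroup G) [N.Normal] [Fintype N] (hPN : ¬ (P : Subgroup G) ≤ N) (θ : Cfsg.IrrCharacter N) :
    (Nat.card {χ : Cfsg.IrrCharacter G // χ ∈ B ∧ ¬ p ∣ Cfsg.charDegree (χ : G → ℂ) ∧ Cfsg.classInner (fun n : N => (χ : G → ℂ) n) (θ : N → ℂ) ≠ 0} = 0 ∨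
      2 ≤ Nat.card {χ : Cfsg.IrrCharacter G // χ ∈ B ∧ ¬ p ∣ Cfsg.charDegree (χ : G → ℂ) ∧ Cfsg.classInner (fun n : N => (χ : G → ℂ) n) (θ : N → ℂ) ≠ 0}) ∧
    (p ≤ 3 → p ∣ Nat.card {χ : Cfsg.IrrCharacter G // χ ∈ B ∧ ¬ p ∣ Cfsg.charDegree (χ : G → ℂ) ∧ Cfsg.classInner (fun n : N => (χ : G → ℂ) n) (θ : N → ℂ) ≠ 0}) := by
  obtain ⟨g, hg, hgN⟩ := SetLike.not_le_iff_exists.1 hPN
  have hA : ∀ x : G, ∀ φ ∈ Set.range fun y : G => Cover.conjIrr N y θ,
      Cover.conjIrr N x φ ∈ Set.range fun y : G => Cover.conjIrr N y θ := by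
    rintro x _ ⟨y, rfl⟩
    exact ⟨y * x, (Cover.conjIrr_conjIrr N x y θ).symm⟩
  have h := BlkSq.card_cases hM.1 (BlkSq.dvd_sum_sq hM (pElt_of_mem_isPGroup hM.1 P.isPGroup' hg)
    (BlkSq.blockCoeff_inter_overSet hM hB N hA (pElt_of_mem_isPGroup hM.1 P.isPGroup' hg) hgN))
  have e : ∀ χ : IrrCharacter G, (χ ∈ Cover.overSet N (Set.range fun y : G => Cover.conjIrr N y θ) ∩ B ∧
      ¬ p ∣ charDegree (χ : G → ℂ)) ↔ χ ∈ B ∧ ¬ p ∣ charDegree (χ : G → ℂ) ∧
      classInner (fun n : N => (χ : G → ℂ) n) (θ : N → ℂ) ≠ 0 := fun χ => by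
    constructor
    · rintro ⟨⟨⟨_, ⟨y, rfl⟩, h1⟩, h2⟩, h3⟩
      rw [Cover.classInner_res_conjIrr N (irr_isClassFunction χ)] at h1
      exact ⟨h2, h3, h1⟩
    · rintro ⟨h1, h2, h3⟩
      exact ⟨⟨⟨θ, ⟨1, Cover.conjIrr_one N θ⟩, h3⟩, h1⟩, h2⟩
  rw [Nat.card_congr (Equiv.subtypeEquivRight e)] at h
  exact ⟨by omega, h.2⟩

end Cfsg.Agent.S4825
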