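import Mathlib
import Cfsg.Statements.S4828
import Cfsg.Agent.Lib.BrPair.Dict2
import Cfsg.Agent.Lib.Cover.Twist

set_option autoImplicit false
open Cfsg

namespace Cfsg.Agent.S4828

open MonoidAlgebra CfsgLib.BrPair CfsgLib.Block CfsgLib.Char CfsgLib.Fusion

attribute [local implicit_reducible] CfsgLib.Block.K

theorem le_center {G : Type*} [Group G] (Q : Subgroup G) :
    (Q ⊓ Cz Q).subgroupOf (Cz Q) ≤ Subgroup.center (Cz Q) := fun z hz => by
  rw [Subgroup.mem_center_iff]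
  intro c
  exact Subtype.ext (mem_Cz.1 c.2 z (Subgroup.mem_subgroupOf.1 hz).1).symm

theorem fact_eq {G : Type*} [Group G] [Finite G] (p : ℕ) (Q : Subgroup G) :
    (Nat.card (Cz Q)).factorization p = (Nat.card (Q ⊓ Cz Q : Subgroup G)).factorization p +
      ((Q ⊓ Cz Q).subgroupOf (Cz Q)).index.factorization p := by
  rw [factorization_card_eq_add ((Q ⊓ Cz Q).subgroupOf (Cz Q)),
    Nat.card_congr (Subgroup.subgroupOfEquivOfLe inf_le_right).toEquiv]

/-- Let p be a prime, M a maximal ideal of the algebraic integers containing p, and (Q, e) a Brauer pair of the finite group G (Q a p-subgroup, e a block of C_G(Q)). Then (Q, e) is a maximal Brauer pair of some block of G if and only if e contains an irreducible character θ such that θ takes the value θ(1) at every element of Z(Q) = Q ∩ C_G(Q), the p-part of θ(1) times the p-part of the order of Z(Q) equals the p-part of the order of C_G(Q) (θ has defect zero as a character of C_G(Q)/Z(Q)), and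 every element of N_G(Q) of p-power order that stabilizes e lies in Q·C_G(Q) (the stabilizer of e in N_G(Q) has index prime to p over Q·C_G(Q)). -/
theorem result {G : Type*} [Group G] [Finite G] (p : ℕ) [Fact p.Prime] (M : Ideal Cfsg.AlgInt) (hM : Cfsg.IsPModular p M) (Q : Subgroup G) (e : Set (Cfsg.IrrCharacter (Subgroup.centralizer (Q : Set G)))) (he : Cfsg.IsBrauerPair p M Q e) :
    (∃ B : Set (Cfsg.IrrCharacter G), Cfsg.IsMaximalBrauerPair p M B Q e) ↔
      ∃ θ ∈ e, (∀ z : Subgroup.centralizer (Q : Set G), (z : G) ∈ Q → (θ : Subgroup.centralizer (Q : Set G) → ℂ) z = (θ : Subgroup.centralizer (Q : Set G) → ℂ) 1) ∧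
        (Cfsg.charDegree (θ : Subgroup.centralizer (Q : Set G) → ℂ)).factorization p + (Nat.card ↥(Q ⊓ Subgroup.centralizer (Q : Set G))).factorization p = (Nat.card (Subgroup.centralizer (Q : Set G))).factorization p ∧
        (∀ g : G, g ∈ Subgroup.normalizer (Q : Set G) → Cfsg.StabilizesBlock (Subgroup.centralizer (Q : Set G)) e g → (∃ k : ℕ, orderOf g = p ^ k) → g ∈ Q ⊔ Subgroup.centralizer (Q : Set G)) := by
  obtain ⟨hQ, hb⟩ := he
  have hZ : IsPGroup p ((Q ⊓ Cz Q).subgroupOf (Cz Q)) :=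
    (hQ.to_le inf_le_left).comap_subtype
  have hZn : ((Q ⊓ Cz Q).subgroupOf (Cz Q)).Normal := ⟨fun n hn g => by
    rw [Subgroup.mem_center_iff.1 (le_center Q hn) g, mul_inv_cancel_right]; exact hn⟩
  constructor
  · rintro ⟨B, hmax⟩
    obtain ⟨-, -, MP⟩ := (maxPair_iff hM).1 hmax
    have h1 := MP.pair.isDef_stab le_rfl MP.prim MP.isDef (T := stN ⊤ Q (sB hM (Cz Q) e))
      (le_sup_left.trans (sup_Cz_le_stN MP.blk)) le_rfl
    have h2 := (MP.isDef_stC_of_isDef MP.pair stC_le_stN le_rfl h1).1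
    rw [stC_top hM hb] at h2
    have h3 := (isDefectGroup_subgroupOf_iff hM hb inf_le_right).2 h2
    obtain ⟨θ, hθ, hker⟩ := CfsgLib.Cover.exists_mem_ker_of_isPGroup hM _ hZ hb
    refine ⟨θ, hθ, fun z hz => hker z ⟨hz, z.2⟩, ?_, fun g hg hs ⟨n, hn⟩ => ?_⟩
    · rw [(CfsgLib.Cover.factorization_charDegree_of_ker hM hb h3 hθ hker).1, fact_eq, add_comm]
    · have := MP.mem_sup_of_pow_eq_one ((mem_stN_iff hM hb).2 ⟨hg, hs⟩) (n := n)
        (by rw [← hn, pow_orderOf_eq_one])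
      rwa [stC_top hM hb] at this
  · rintro ⟨θ, hθ, -, hdeg, hst⟩
    have h1 := (CfsgLib.Cover.laradji hM hZ (le_center Q) θ (by
      rw [fact_eq, add_comm] at hdeg; exact (Nat.add_left_cancel hdeg).ge)).1
    rw [← eq_blockOf_of_mem hM hb hθ] at h1
    have h2 := (isDefectGroup_subgroupOf_iff hM hb inf_le_right).1 h1
    obtain ⟨b, hb1, hb2⟩ := exists_isPrim_isPair (H := ⊤) le_rfl le_top hQ (isBlk_sB' hM hb)
    obtain ⟨B, hB, rfl⟩ := exists_eB hM hb1
    refine ⟨B, (isMaximalBrauerPair_iff hM).2 ⟨hB, hb, hb2, ?_⟩⟩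
    by_contra hn
    obtain ⟨R, g, hlt, -, hR⟩ := hb2.exists_nsub_of_not_isDef le_rfl top_le_Nz_top hb1 hn
    have h3 : R ⊓ Cz Q ≤ Q := by
      obtain ⟨x, hx, hle⟩ := h2.inI (R ⊓ Cz Q) inf_le_right (hR.pgroup.to_le inf_le_left)
        (br_ne_zero_of_le inf_le_left hR.br_ne)
      rw [mem_Nz_iff_cS.1 (inf_Nz_le_Nz_inf _ _ ⟨Cz_le_Nz Q hx, Subgroup.le_normalizer hx⟩)] at hle
      exact hle.trans inf_le_left
    refine hlt.not_ge fun x hx => ?_
    have hx' : x ∈ Q ⊔ Cz Q := by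
      have := (mem_stN_iff hM hb).1 ⟨⟨trivial, hR.norm hx⟩, hR.fixed x hx⟩
      exact hst x this.1 this.2 (pElt_of_mem_isPGroup Fact.out hR.pgroup hx)
    obtain ⟨d, hd, c, hc, rfl⟩ := (mem_sup_iff_of_le_Nz
      (Subgroup.le_normalizer.trans (Nz_le_Nz_Cz Q))).1 hx'
    exact Q.mul_mem hd (h3 ⟨by simpa using R.mul_mem (R.inv_mem (hlt.le hd)) hx, hc⟩)

end Cfsg.Agent.S4828
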