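import Cfsg.Statements.S4837
import Cfsg.Agent.Lib.ChDeg.Gagola

set_option autoImplicit false
open Cfsg

namespace Cfsg.Agent.S4837

/-- Let G be a finite group of order greater than 2 with an irreducible character χ nonzero on exactly two conjugacy classes, and let N be the set of elements where χ is nonzero, given as a nontrivial normal p-subgroup of G for the prime p. Then for every nonidentity x in N the centralizer C_G(x) is a Sylow p-subgroup of G, and for every irreducible character λ ≠ 1 of N the stabilizer of λ in G (its inertia group) is a Sylow p-subgroup of G. -/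
theorem result {G : Type*} [Group G] [Finite G] (hG : 2 < Nat.card G) (χ : Cfsg.IrrCharacter G) (hχ : Nat.card {C : ConjClasses G // ∃ g ∈ C.carrier, (χ : G → ℂ) g ≠ 0} = 2) (p : ℕ) [Fact p.Prime] (N : Subgroup G) [N.Normal] (hN : ∀ g : G, g ∈ N ↔ (χ : G → ℂ) g ≠ 0) (hNp : IsPGroup p N) (hN1 : N ≠ ⊥) :
    (∀ x ∈ N, x ≠ 1 → ∃ P : Sylow p G, Subgroup.centralizer ({x} : Set G) = P) ∧
      (∀ μ : Cfsg.IrrCharacter N, (μ : N → ℂ) ≠ (fun _ => (1 : ℂ)) → ∃ P : Sylow p G, ∀ g : G, g ∈ (P : Subgroup G) ↔ ∀ n n' : N, (n' : G) = g * n * g⁻¹ → (μ : N → ℂ) n' = (μ : N → ℂ) n) := by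
  open CfsgLib.Char CfsgLib.ChDeg in
  classical
  have hp : p.Prime := Fact.out
  have : Fintype G := Fintype.ofFinite G
  obtain ⟨N', h⟩ := exists_isGagola hG χ.2 hχ
  obtain rfl := h.eq_of_mem_iff hN
  have hC := fun x hx hx1 => camina_isPGroup_centralizer hp hNp (fun g hg n hn => h.isConj_mul hg hn)
    (x := x) hx hx1
  have hpN : p ∣ Nat.card N' := CfsgLib.Core.dvd_card_of_isPGroup_of_ne_bot hNp hN1
  have hnd : ∀ k, k + 1 = Nat.card N' → ¬ p ∣ k := fun k hk e =>
    hp.one_lt.ne' (Nat.dvd_one.mp ((Nat.dvd_add_right e).mp (hk ▸ hpN)))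
  constructor
  · intro x hx hx1
    refine ⟨(hC x hx hx1).toSylow (hnd _ ?_), rfl⟩
    rw [← card_isConj_eq_index_centralizer, Nat.card_eq_fintype_card, Fintype.card_subtype,
      Nat.card_eq_fintype_card, Fintype.card_subtype,
      ← Finset.card_erase_add_one (s := Finset.univ.filter (· ∈ N')) (a := 1) (by simp)]
    congr 2
    ext y
    simp only [Finset.mem_filter, Finset.mem_univ, true_and, Finset.mem_erase]
    constructor
    · intro hy
      obtain ⟨c, rfl⟩ := isConj_iff.mp hy
      exact ⟨by simpa using hx1, h.normal.conj_mem x hx c⟩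
    · exact fun hy => h.isConj x hx y hy.2 hx1 hy.1
  · intro μ hμ
    have hT : IsPGroup p (inertia N' (μ : N' → ℂ)) := by
      rw [IsPGroup.iff_card]
      refine ⟨_, Nat.eq_prime_pow_of_unique_prime_dvd Nat.card_pos.ne' fun {q} hq hd => ?_⟩
      by_contra hqp
      obtain ⟨y, hy, hyq⟩ := CfsgLib.Core.exists_mem_orderOf_eq_of_dvd_card hq hd
      have hcop : ∀ (H : Subgroup G), IsPGroup p H → ∀ z ∈ H, orderOf z ≠ q := fun H hH z hz e => by
        obtain ⟨k, hk⟩ := CfsgLib.Core.isPGroup_subgroup_iff.mp hH z hz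
        exact hqp ((Nat.prime_dvd_prime_iff_eq hq hp).mp
          (hq.dvd_of_dvd_pow (e ▸ orderOf_dvd_of_pow_eq_one hk)))
      have hyN : y ∉ N' := fun e => hcop _ hNp y e hyq
      refine not_mem_inertia_of_fpf N' (fun k hk x hx e => ?_) μ.2 hμ hy
      by_contra hx1
      refine hcop _ (hC x hx hx1) (k * y) (by rintro _ rfl; exact e.symm) ?_
      obtain ⟨c, hc⟩ := isConj_iff.mp (h.isConj_mul hyN hk)
      rw [← hc, ← hyq]
      exact (MulAut.conj c).orderOf_eq y
    obtain ⟨q, -, hq⟩ := h.exists_elementary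
    have hcomm : IsMulCommutative N' := hq.1
    have hover : ∀ ν : N' → ℂ, IsIrrCharacter N' ν → (ν ≠ fun _ => 1) →
        classInner (fun n : N' => (χ : G → ℂ) n) ν ≠ 0 := fun ν hν hν1 => by
      obtain ⟨ψ, hψ, hne⟩ := exists_irr_over N' hν
      rw [← h.eq_of_not_le hψ (fun e => hν1 ?_)]
      · exact hne
      · have h1 := cker_le_of_inner_ne_zero (isCharacter_restrict N' (isCharacter_of_isIrr hψ)) hν hne
        refine irr_eq_one_of_cker_eq_top hν (eq_top_iff.mpr fun n _ => h1 ?_)
        rw [cker_res _ (isCharacter_of_isIrr hψ)]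
        exact e n.2
    refine ⟨hT.toSylow (hnd _ ?_), fun g => ?_⟩
    · rw [← card_conjSet, ← card_irr_of_comm, Nat.card_eq_fintype_card,
        ← Finset.card_univ, ← Finset.card_erase_add_one (Finset.mem_univ (irrOne N'))]
      congr 1
      symm
      refine Finset.card_bij (fun ν _ => (ν : N' → ℂ)) (fun ν hν => ?_)
        (fun a _ b _ e => Subtype.ext e) (fun ν hν => ?_)
      · rw [mem_conjSet]
        exact clifford_conj N' χ.2 μ.2 ν.2 (hover _ μ.2 hμ)
          (hover _ ν.2 fun e => Finset.ne_of_mem_erase hν (Subtype.ext e))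
      · obtain ⟨g, rfl⟩ := (mem_conjSet N').mp hν
        refine ⟨⟨_, isIrr_conjChar N' g μ.2⟩, Finset.mem_erase.mpr ⟨fun e => hμ ?_,
          Finset.mem_univ _⟩, rfl⟩
        have e' : conjChar N' g (μ : N' → ℂ) = fun _ => 1 := congrArg Subtype.val e
        have := congrArg (conjChar N' g⁻¹) e'
        rw [conjChar_conjChar, mul_inv_cancel, conjChar_one] at this
        exact this
    · change g ∈ inertia N' (μ : N' → ℂ) ↔ _
      rw [mem_inertia']
      constructor
      · intro H n n' e
        rw [← H n]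
        exact congrArg _ (Subtype.ext e)
      · exact fun H n => H n _ rfl

end Cfsg.Agent.S4837
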