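import Cfsg.Statements.S4838
import Cfsg.Agent.Lib.ChDeg.Gagola

set_option autoImplicit false
open Cfsg

namespace Cfsg.Agent.S4838

/-- Let G be a finite group of order greater than 2 with an irreducible character χ nonzero on exactly two conjugacy classes, N the normal p-subgroup of elements where χ is nonzero, and P a Sylow p-subgroup of G. Then (a) for every x outside N the centralizer of x in G has the same order as the centralizer of xN in G/N; (b) the centre of P lies in N, and equals N exactly when P is normal in G; (c) N, viewed inside P, is a term of the upper central series of P. -/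
theorem result {G : Type*} [Group G] [Finite G] (hG : 2 < Nat.card G) (χ : Cfsg.IrrCharacter G) (hχ : Nat.card {C : ConjClasses G // ∃ g ∈ C.carrier, (χ : G → ℂ) g ≠ 0} = 2) (p : ℕ) [Fact p.Prime] (N : Subgroup G) [N.Normal] (hN : ∀ g : G, g ∈ N ↔ (χ : G → ℂ) g ≠ 0) (hNp : IsPGroup p N) (hN1 : N ≠ ⊥) (P : Sylow p G) :
    (∀ x : G, x ∉ N → Nat.card (Subgroup.centralizer ({x} : Set G)) = Nat.card (Subgroup.centralizer ({(x : G ⧸ N)} : Set (G ⧸ N)))) ∧
      ((Subgroup.center ↥(P : Subgroup G)).map (P : Subgroup G).subtype ≤ N ∧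
        ((Subgroup.center ↥(P : Subgroup G)).map (P : Subgroup G).subtype = N ↔ (P : Subgroup G).Normal)) ∧
      (∃ i : ℕ, Subgroup.upperCentralSeries ↥(P : Subgroup G) i = N.subgroupOf (P : Subgroup G)) := by
  open CfsgLib.Char CfsgLib.ChDeg in
  classical
  have hp : p.Prime := Fact.out
  obtain ⟨N', h⟩ := exists_isGagola hG χ.2 hχ
  obtain rfl := h.eq_of_mem_iff hN
  have ha : ∀ x : G, x ∉ N' → Nat.card (Subgroup.centralizer ({x} : Set G)) =
      Nat.card (Subgroup.centralizer ({(x : G ⧸ N')} : Set (G ⧸ N'))) := fun x hx =>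
    (card_centralizer_quot_eq_iff N' x).mpr (h.vanish hx)
  have hNP : N' ≤ P := hNp.le_sylow_of_normal P
  have hZ : (Subgroup.center ↥(P : Subgroup G)).map (P : Subgroup G).subtype ≤ N' := by
    rintro _ ⟨z, hz, rfl⟩
    by_contra hzN
    have := camina_card_le hNp P z ⊥ (ha _ hzN) (fun g => by
      rw [Subgroup.mem_center_iff.mp hz g]; simp)
    rw [Subgroup.card_bot] at this
    exact hN1 (Subgroup.card_eq_one.mp (le_antisymm this Nat.card_pos))
  refine ⟨ha, ⟨hZ, fun e => ?_, fun hP => ?_⟩, ?_⟩
  · obtain ⟨⟨x, hx⟩, hx1⟩ := Subgroup.ne_bot_iff_exists_ne_one.mp hN1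
    have hC := camina_isPGroup_centralizer hp hNp (fun g hg n hn => h.isConj_mul hg hn) hx
      (fun e => hx1 (Subtype.ext e))
    have h1 : (P : Subgroup G) ≤ Subgroup.centralizer (N' : Set G) := by
      rw [Subgroup.le_centralizer_iff, ← e, CfsgLib.Core.map_subtype_center]
      exact inf_le_right
    have h2 : IsPGroup p (Subgroup.centralizer (N' : Set G)) :=
      hC.to_le (Subgroup.centralizer_le (Set.singleton_subset_iff.mpr hx))
    rw [← P.is_maximal' h2 h1]
    infer_instance
  · refine le_antisymm hZ ?_
    have := CfsgLib.Core.normal_map_subtype_of_characteristic (Subgroup.center (P : Subgroup G))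
    refine h.le_of_ne_bot fun e => ?_
    have : Nontrivial (P : Subgroup G) := (Subgroup.nontrivial_iff_ne_bot _).mpr fun e' =>
      hN1 (by rwa [e', le_bot_iff] at hNP)
    have h3 := P.isPGroup'.center_nontrivial
    rw [Subgroup.map_eq_bot_iff_of_injective _ (Subgroup.subtype_injective _)] at e
    exact (Subgroup.nontrivial_iff_ne_bot _).mp h3 e
  · have := P.isPGroup'.isNilpotent
    by_contra hc
    push Not at hc
    have key : ∀ i, Subgroup.upperCentralSeries (P : Subgroup G) i ≤ N'.subgroupOf P := by
      intro i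
      induction i with
      | zero => simp
      | succ i ih =>
        intro z hz
        by_contra hzN
        refine hc i (CfsgLib.Core.eq_of_le_of_card_le ih ?_)
        rw [CfsgLib.Core.card_subgroupOf_of_le hNP]
        refine camina_card_le hNp P z _ (ha _ hzN) fun g => ?_
        have := Subgroup.inv_mem _ (Subgroup.mem_upperCentralSeries_succ_iff.mp hz g)
        simpa [mul_assoc, commutatorElement_def] using this
    refine hc _ (le_antisymm (key (Group.nilpotencyClass (P : Subgroup G))) ?_)
    rw [Subgroup.upperCentralSeries_nilpotencyClass]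
    exact le_top

end Cfsg.Agent.S4838
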