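import Cfsg.Statements.S4839
import Cfsg.Agent.Lib.ChDeg.Gagola
import Cfsg.Agent.Lib.Frob.Zipper
import Cfsg.Agent.Lib.Frob.Nilpotent
import Cfsg.Agent.Lib.Frob.Semidirect
import Cfsg.Agent.Lib.Core.Fitting

set_option autoImplicit false
open Cfsg

namespace Cfsg.Agent.S4839

open CfsgLib.Char CfsgLib.ChDeg Cfsg Subgroup
open scoped Pointwise

variable {G : Type*} [Group G] [Finite G]

theorem index_centralizer {N : Subgroup G} [hN : N.Normal]
    (h : ∀ x ∈ N, ∀ y ∈ N, x ≠ 1 → y ≠ 1 → IsConj x y) {x : G} (hx : x ∈ N) (hx1 : x ≠ 1) :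
    (centralizer ({x} : Set G)).index + 1 = Nat.card N := by
  classical
  have : Fintype G := Fintype.ofFinite G
  rw [← card_isConj_eq_index_centralizer, Nat.card_eq_fintype_card, Fintype.card_subtype,
    Nat.card_eq_fintype_card, Fintype.card_subtype,
    ← Finset.card_erase_add_one (s := Finset.univ.filter (· ∈ N)) (a := 1) (by simp)]
  congr 2
  ext y
  simp only [Finset.mem_filter, Finset.mem_univ, true_and, Finset.mem_erase]
  constructor
  · intro hy
    obtain ⟨c, rfl⟩ := isConj_iff.mp hy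
    exact ⟨by simpa using hx1, hN.conj_mem x hx c⟩
  · exact fun hy => h x hx y hy.2 hx1 hy.1

theorem odd_case {N : Subgroup G} [hN : N.Normal] {p : ℕ} [hp : Fact p.Prime] (hNp : IsPGroup p N)
    (hN1 : N ≠ ⊥) (hcam : ∀ g, g ∉ N → ∀ n ∈ N, IsConj g (n * g))
    (hCN : centralizer (N : Set G) ≤ N) (hp2 : p ≠ 2) {t : G} (ht : orderOf t = 2)
    {y : G} (hy : y ^ p ∈ N) : y ∈ N := by
  by_contra hyN
  have hC := fun x hx hx1 => camina_isPGroup_centralizer hp.out hNp hcam (x := x) hx hx1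
  have hfpf : ∀ s : G, orderOf s = 2 → N ⊓ centralizer {s} = ⊥ := fun s hs => by
    rw [CfsgLib.Frob.fpf_iff]
    intro k hk e
    by_contra hk1
    obtain ⟨j, hj⟩ := CfsgLib.Core.isPGroup_subgroup_iff.mp (hC k hk hk1) s
      (by rintro _ rfl; exact e)
    exact hp2 ((Nat.prime_dvd_prime_iff_eq Nat.prime_two hp.out).mp
      (Nat.prime_two.dvd_of_dvd_pow (hs ▸ orderOf_dvd_of_pow_eq_one hj))).symm
  have hinv : ∀ s : G, orderOf s = 2 → ∀ k ∈ N, s * k * s⁻¹ = k⁻¹ := fun s hs k hk =>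
    CfsgLib.Frob.conj_eq_inv_of_fpf (by rw [normalizer_eq_top]; trivial) (hfpf s hs)
      (by rw [← pow_two, ← hs, pow_orderOf_eq_one]; exact one_mem _) hk
  have hdec : ∀ g : G, ∃ n ∈ N, n⁻¹ * g ∈ centralizer ({t} : Set G) := fun g => by
    have h1 : orderOf (g * t * g⁻¹) = 2 := by rw [← ht]; exact (MulAut.conj g).orderOf_eq t
    have h2 : g * t * g⁻¹ * t⁻¹ ∈ N := hCN fun k hk => by
      have e1 := hinv _ h1 _ (hN.conj_mem k hk t⁻¹)
      have e2 := hinv t ht _ (hN.conj_mem k hk t⁻¹)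
      rw [← e2] at e1
      calc k * (g * t * g⁻¹ * t⁻¹) = (t * (t⁻¹ * k * t⁻¹⁻¹) * t⁻¹) * (g * t * g⁻¹ * t⁻¹) := by group
        _ = _ := by rw [← e1]; group
    obtain ⟨n, hn, e⟩ := CfsgLib.Frob.exists_conj_eq_mul_of_fpf
      (by rw [normalizer_eq_top]; trivial) (hfpf t ht) h2
    refine ⟨n, hn, mem_centralizer_singleton_iff.mpr (Eq.symm ?_)⟩
    rw [inv_mul_cancel_right] at e
    calc t * (n⁻¹ * g) = n⁻¹ * (n * t * n⁻¹) * g := by group
      _ = _ := by rw [e]; group
  have hone : ∀ z ∈ N, z ∈ centralizer ({t} : Set G) → z = 1 := fun z h1 h2 => by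
    have : z ∈ N ⊓ centralizer {t} := ⟨h1, h2⟩
    rwa [hfpf t ht] at this
  obtain ⟨m, hm, hy0⟩ := hdec y
  set y0 := m⁻¹ * y with hy0def
  have hy0N : y0 ∉ N := fun e => hyN (by simpa [hy0def] using N.mul_mem hm e)
  have hy0p : y0 ^ p = 1 := by
    refine hone _ ?_ (Subgroup.pow_mem _ hy0 p)
    rw [← QuotientGroup.eq_one_iff] at hy hm ⊢
    rw [QuotientGroup.mk_pow] at hy ⊢
    rw [hy0def, QuotientGroup.mk_mul, QuotientGroup.mk_inv, hm, inv_one, one_mul, hy]
  obtain ⟨x, hx, hx1, hxc⟩ := CfsgLib.Frob.exists_ne_one_mem_centralizer_of_isPGroup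
    (P := zpowers y0) (CfsgLib.Core.isPGroup_zpowers_iff.mpr ⟨1, by rwa [pow_one]⟩) hNp hN1
    (by rw [normalizer_eq_top]; exact le_top)
  let f : N → N := fun n => ⟨n * y0 * (n : G)⁻¹ * y0⁻¹, by
    have := N.mul_mem n.2 (hN.conj_mem _ (N.inv_mem n.2) y0)
    simpa only [mul_assoc] using this⟩
  have hf : Function.Surjective f := fun k => by
    obtain ⟨c, hc⟩ := isConj_iff.mp (hcam y0 hy0N k k.2)
    obtain ⟨n, hn, hh⟩ := hdec c
    have h1 : (n⁻¹ * c) * y0 * (n⁻¹ * c)⁻¹ * y0⁻¹ = 1 := by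
      refine hone _ ?_ (mul_mem (mul_mem (mul_mem hh hy0) (inv_mem hh)) (inv_mem hy0))
      have : (n⁻¹ * c) * y0 * (n⁻¹ * c)⁻¹ * y0⁻¹ = n⁻¹ * (c * y0 * c⁻¹) * n * y0⁻¹ := by group
      rw [this, hc]
      have := N.mul_mem (N.mul_mem (N.inv_mem hn) k.2) (hN.conj_mem _ hn y0)
      simpa only [mul_assoc] using this
    refine ⟨⟨n, hn⟩, Subtype.ext ?_⟩
    change n * y0 * n⁻¹ * y0⁻¹ = k
    calc n * y0 * n⁻¹ * y0⁻¹
        = n * ((n⁻¹ * c) * y0 * (n⁻¹ * c)⁻¹ * y0⁻¹) * y0 * n⁻¹ * y0⁻¹ := by rw [h1]; group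
      _ = (c * y0 * c⁻¹) * y0⁻¹ := by group
      _ = k := by rw [hc]; group
  have hinj := Finite.injective_iff_surjective.mpr hf
  have : f ⟨x, hx⟩ = f 1 := Subtype.ext (by
    change x * y0 * x⁻¹ * y0⁻¹ = ((1 : N) : G) * y0 * ((1 : N) : G)⁻¹ * y0⁻¹
    rw [← hxc y0 (mem_zpowers y0)]
    simp)
  exact hx1 (congrArg Subtype.val (hinj this))

theorem card_lt_sq {N : Subgroup G} [hN : N.Normal] (hE : IsElementaryAbelian 2 N)
    (hcam : ∀ g, g ∉ N → ∀ n ∈ N, IsConj g (n * g))
    (hCN : centralizer (N : Set G) ≤ N) {y : G} (hy : y ^ 2 ∈ N) (hyN : y ∉ N) :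
    Nat.card N < Nat.card (N ⊓ centralizer {y} : Subgroup G) ^ 2 := by
  have hcomm : ∀ a ∈ N, ∀ b ∈ N, a * b = b * a := CfsgLib.Core.isMulCommutative_iff_forall.mp hE.1
  have hsq : ∀ a ∈ N, a * a = 1 := fun a ha => by rw [← pow_two]; exact hE.2 a ha
  have hinv : ∀ a ∈ N, a⁻¹ = a := fun a ha => inv_eq_of_mul_eq_one_right (hsq a ha)
  let φ : N →* G := MonoidHom.mk' (fun n => n * (y * n * y⁻¹)) (fun a b => by
    have := hcomm _ b.2 _ (hN.conj_mem _ a.2 y)
    calc ((a * b : N) : G) * (y * (a * b : N) * y⁻¹) = a * (b * (y * a * y⁻¹)) * (y * b * y⁻¹) := by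
          push_cast; group
      _ = _ := by rw [this]; group)
  have hφ : ∀ n : N, φ n = n * (y * n * y⁻¹) := fun n => rfl
  have hker : φ.ker.map N.subtype = N ⊓ centralizer {y} := by
    ext x
    constructor
    · rintro ⟨n, hn, rfl⟩
      refine ⟨n.2, mem_centralizer_singleton_iff.mpr (Eq.symm ?_)⟩
      have h1 : (n : G) * (y * n * y⁻¹) = 1 := hn
      rw [mul_eq_one_iff_inv_eq, hinv _ n.2, eq_mul_inv_iff_mul_eq] at h1
      exact h1.symm
    · rintro ⟨h1, h2⟩
      refine ⟨⟨x, h1⟩, ?_, rfl⟩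
      change x * (y * x * y⁻¹) = 1
      rw [h2 y rfl, mul_inv_cancel_right, hsq x h1]
  have hlt : φ.range < N ⊓ centralizer {y} := by
    refine lt_of_le_of_ne ?_ fun e => ?_
    · rintro _ ⟨n, rfl⟩
      refine ⟨N.mul_mem n.2 (hN.conj_mem _ n.2 y),
        mem_centralizer_singleton_iff.mpr (Eq.symm ?_)⟩
      have h1 := hcomm _ hy _ n.2
      have h2 := hcomm _ n.2 _ (hN.conj_mem _ n.2 y)
      rw [hφ]
      calc y * (n * (y * n * y⁻¹)) = (y * n * y⁻¹) * (y ^ 2 * n) * y⁻¹ := by rw [pow_two]; group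
        _ = ((y * n * y⁻¹) * n) * y := by rw [h1, pow_two]; group
        _ = _ := by rw [← h2]
    · have h1 : y ^ 2 ∈ φ.range := by
        rw [e]
        exact ⟨hy, by rintro _ rfl; rw [← pow_succ, ← pow_succ']⟩
      obtain ⟨n, hn⟩ := h1
      rw [hφ] at hn
      have h2 : (n * y) ^ 2 = 1 := by
        calc ((n : G) * y) ^ 2 = n * (y * n * y⁻¹) * y ^ 2 := by rw [pow_two, pow_two]; group
          _ = 1 := by rw [hn, hsq _ hy]
      have h3 : (n : G) * y ∉ N := fun e => hyN (by simpa using N.mul_mem (N.inv_mem n.2) e)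
      refine h3 (hCN fun k hk => ?_)
      obtain ⟨c, hc⟩ := isConj_iff.mp (hcam _ h3 k hk)
      have h4 : (k * (n * y)) ^ 2 = 1 := by rw [← hc, conj_pow, h2, mul_one, mul_inv_cancel]
      rw [pow_two] at h2 h4
      rw [← inv_eq_of_mul_eq_one_right h4, mul_inv_rev, hinv k hk, inv_eq_of_mul_eq_one_right h2]
  have h1 := CfsgLib.Core.card_lt_of_lt hlt
  have h2 : Nat.card φ.ker * Nat.card φ.range = Nat.card N := by
    rw [← φ.ker.card_mul_index, index_ker]
  rw [← h2, pow_two, ← hker, CfsgLib.Core.card_map_subtype]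
  rw [← hker, CfsgLib.Core.card_map_subtype] at h1
  exact Nat.mul_lt_mul_of_pos_left h1 Nat.card_pos

theorem even_case {N : Subgroup G} [hN : N.Normal] (hE : IsElementaryAbelian 2 N)
    (hcam : ∀ g, g ∉ N → ∀ n ∈ N, IsConj g (n * g)) (hO : N = pCore 2 G)
    (hCN : centralizer (N : Set G) ≤ N) {y : G} (hy : y ^ 2 ∈ N) : y ∈ N := by
  by_contra hyN
  have hNp := CfsgLib.Core.isElementaryAbelian_isPGroup hE
  have hC := fun x hx hx1 => camina_isPGroup_centralizer Nat.prime_two hNp hcam (x := x) hx hx1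
  have hcomm : ∀ a ∈ N, ∀ b ∈ N, a * b = b * a := CfsgLib.Core.isMulCommutative_iff_forall.mp hE.1
  have key : ∀ g : G, Group.IsNilpotent (zpowers y ⊔ MulAut.conj g • zpowers y : Subgroup G) := by
    intro g
    have h1 := card_lt_sq hE hcam hCN hy hyN
    have h2 := card_lt_sq hE hcam hCN (y := g * y * g⁻¹) (by
      rw [conj_pow]; exact hN.conj_mem _ hy g) (fun e => hyN (by
        simpa [mul_assoc] using hN.conj_mem _ e g⁻¹))
    set A : Subgroup G := N ⊓ centralizer {y}
    set B : Subgroup G := N ⊓ centralizer {g * y * g⁻¹}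
    have h3 := CfsgLib.Core.card_sup_mul_card_inf_of_le_normalizer (H := A) (N := B)
      (le_trans (b := centralizer (B : Set G)) (fun a ha b hb => hcomm b hb.1 a ha.1)
        (centralizer_le_normalizer _))
    have h4 : Nat.card (A ⊔ B : Subgroup G) ≤ Nat.card N :=
      card_le_of_le (sup_le inf_le_left inf_le_left)
    have h5 : A ⊓ B ≠ ⊥ := fun e => by
      rw [e, card_bot, mul_one] at h3
      rw [h3] at h4
      have := Nat.mul_lt_mul'' h1 h2
      nlinarith [Nat.mul_le_mul h4 h4]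
    obtain ⟨⟨x, hx⟩, hx1⟩ := ne_bot_iff_exists_ne_one.mp h5
    have h6 := hC x hx.1.1 fun e => hx1 (Subtype.ext e)
    have h7 : zpowers y ⊔ MulAut.conj g • zpowers y ≤ centralizer {x} := by
      refine sup_le ?_ ?_
      · rw [zpowers_le]
        rintro _ rfl
        exact (hx.1.2 y rfl).symm
      · rw [CfsgLib.Core.conj_smul_eq_map, MonoidHom.map_zpowers, zpowers_le]
        rintro _ rfl
        exact (hx.2.2 _ rfl).symm
    exact (h6.to_le h7).isNilpotent
  have h1 := (CfsgLib.Frob.le_fittingSubgroup_of_forall_conj key).2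
  have h2 := CfsgLib.Core.le_pCore_of_le_fittingSubgroup h1 (p := 2)
    (CfsgLib.Core.isPGroup_zpowers_iff.mpr ⟨2, by
      rw [show 2 ^ 2 = 2 * 2 from rfl, pow_mul]; exact hE.2 _ hy⟩)
  exact hyN (hO ▸ h2 (mem_zpowers y))

/-- Let G be a finite group of order greater than 2 with an irreducible character χ nonzero on exactly two conjugacy classes, and let N be the normal p-subgroup of elements where χ is nonzero. Then N is the whole p-core O_p(G) if and only if G is a doubly transitive Frobenius group with kernel N: G has a Frobenius complement H whose Frobenius kernel is N and whose order is one less than that of N. -/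
theorem result {G : Type*} [Group G] [Finite G] (hG : 2 < Nat.card G) (χ : Cfsg.IrrCharacter G) (hχ : Nat.card {C : ConjClasses G // ∃ g ∈ C.carrier, (χ : G → ℂ) g ≠ 0} = 2) (p : ℕ) [Fact p.Prime] (N : Subgroup G) [N.Normal] (hN : ∀ g : G, g ∈ N ↔ (χ : G → ℂ) g ≠ 0) (hNp : IsPGroup p N) (hN1 : N ≠ ⊥) :
    N = Cfsg.pCore p G ↔ ∃ H : Subgroup G, Cfsg.IsFrobeniusComplement H ∧ Cfsg.frobeniusKernel H = (N : Set G) ∧ Nat.card H + 1 = Nat.card N := by
  have hp : p.Prime := Fact.out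
  obtain ⟨N', h⟩ := exists_isGagola hG χ.2 hχ
  obtain rfl := h.eq_of_mem_iff hN
  have hcam : ∀ g, g ∉ N' → ∀ n ∈ N', IsConj g (n * g) := fun g hg n hn => h.isConj_mul hg hn
  have hC := fun x hx hx1 => camina_isPGroup_centralizer hp hNp hcam (x := x) hx hx1
  obtain ⟨⟨x, hx⟩, hx1'⟩ := ne_bot_iff_exists_ne_one.mp hN1
  have hx1 : x ≠ 1 := fun e => hx1' (Subtype.ext e)
  have hidx := index_centralizer h.isConj hx hx1
  have hpN : p ∣ Nat.card N' := CfsgLib.Core.dvd_card_of_isPGroup_of_ne_bot hNp hN1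
  have hnd : ∀ k, k + 1 = Nat.card N' → ¬ p ∣ k := fun k hk e =>
    hp.one_lt.ne' (Nat.dvd_one.mp ((Nat.dvd_add_right e).mp (hk ▸ hpN)))
  constructor
  · intro hO
    have hCN : centralizer (N' : Set G) ≤ N' := by
      conv_rhs => rw [hO]
      exact CfsgLib.Core.le_pCore ((hC x hx hx1).to_le
        (centralizer_le (Set.singleton_subset_iff.mpr hx)))
    have hi : ¬ p ∣ N'.index := fun e => by
      obtain ⟨y, hy⟩ := exists_prime_orderOf_dvd_card' (G := G ⧸ N') p e
      obtain ⟨y, rfl⟩ := QuotientGroup.mk_surjective y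
      have hyp : y ^ p ∈ N' := by
        rw [← QuotientGroup.eq_one_iff, QuotientGroup.mk_pow, ← hy, pow_orderOf_eq_one]
      have hyN : y ∈ N' := by
        by_cases hp2 : p = 2
        · subst hp2
          obtain ⟨q, hq, hE⟩ := h.exists_elementary
          have hq2 : q = 2 := by
            obtain ⟨k, hk⟩ := CfsgLib.Core.isPGroup_subgroup_iff.mp hNp x hx
            have h1 : orderOf x = q := by
              have : Fact q.Prime := ⟨hq⟩
              exact orderOf_eq_prime (hE.2 x hx) hx1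
            exact (Nat.prime_dvd_prime_iff_eq hq Nat.prime_two).mp
              (hq.dvd_of_dvd_pow (h1 ▸ orderOf_dvd_of_pow_eq_one hk))
          exact even_case (hq2 ▸ hE) hcam hO hCN hyp
        · have h2 : 2 ∣ Nat.card G := by
            refine Dvd.dvd.trans ?_ (index_dvd_card (centralizer ({x} : Set G)))
            obtain ⟨k, hk⟩ := hNp.exists_card_eq
            have h3 : Odd (Nat.card N') := hk ▸ (hp.odd_of_ne_two hp2).pow
            rw [← hidx, Nat.odd_add_one, Nat.not_odd_iff_even] at h3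
            exact h3.two_dvd
          obtain ⟨t, ht⟩ := exists_prime_orderOf_dvd_card' (G := G) 2 h2
          exact odd_case hNp hN1 hcam hCN hp2 ht hyp
      rw [(QuotientGroup.eq_one_iff y).mpr hyN, orderOf_one] at hy
      exact hp.one_lt.ne hy
    obtain ⟨H, hH⟩ := exists_right_complement'_of_coprime (N := N')
      (CfsgLib.Core.isPGroup_coprime_card hNp ((hp.coprime_iff_not_dvd.mpr hi).symm))
    have hHc : Nat.card H = N'.index := hH.symm.index_eq_card.symm
    have hNC : N' = centralizer {x} := by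
      obtain ⟨q, -, hE⟩ := h.exists_elementary
      refine ((hNp.toSylow hi).is_maximal' (hC x hx hx1) ?_).symm
      rintro a ha _ rfl
      exact CfsgLib.Core.isMulCommutative_iff_forall.mp hE.1 _ hx _ ha
    have hcard : Nat.card H + 1 = Nat.card N' := by rw [hHc, ← hidx, ← hNC]
    have hfrob : IsFrobeniusComplement H := by
      refine CfsgLib.Frob.frob_of_fpf hH hN1 ?_ fun a ha ha1 => ?_
      · rintro rfl
        have := N'.card_mul_index
        rw [← hHc, ← hcard, card_bot] at this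
        omega
      · rw [CfsgLib.Frob.fpf_iff]
        intro k hk e
        by_contra hk1
        have h1 := CfsgLib.Core.isPGroup_inf_eq_bot_of_coprime (hC k hk hk1) (H := H)
          (by rw [hHc]; exact (hp.coprime_iff_not_dvd.mpr hi).symm)
        have : a ∈ centralizer ({k} : Set G) ⊓ H := ⟨by rintro _ rfl; exact e, ha⟩
        rw [h1] at this
        exact ha1 this
    exact ⟨H, hfrob, (CfsgLib.Frob.coe_eq_kernel hH hfrob).symm, hcard⟩
  · rintro ⟨H, hH, hK, hc⟩
    have h1 := CfsgLib.Frob.isComplement'_of_coe_eq_kernel hH hK.symm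
    have hi : ¬ p ∣ N'.index := by
      rw [h1.symm.index_eq_card]
      exact hnd _ hc
    have : ((hNp.toSylow hi : Sylow p G) : Subgroup G).Normal := h.normal
    exact (CfsgLib.Core.pCore_eq_sylow_of_normal (hNp.toSylow hi)).symm

end Cfsg.Agent.S4839
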