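import Cfsg.Statements.S4840
import Cfsg.Agent.S4837
import Cfsg.Agent.S3742
import Cfsg.Agent.Lib.FrobCompl.Struct
import Cfsg.Agent.Lib.Frob.Action
import Cfsg.Agent.Lib.SolvStruct.Util
import Cfsg.Agent.Lib.Transfer.Focal
import Cfsg.Agent.Lib.Transfer.Residual
import Cfsg.Agent.Lib.Core.Fitting

set_option autoImplicit false
open Cfsg

namespace Cfsg.Agent.S4840

open CfsgLib.Core CfsgLib.Frob CfsgLib.ChDeg CfsgLib.Char Subgroup
open scoped Classical commutatorElement

theorem arith {n m : ℕ} (hn : 3 ^ n ≠ 1) (h : 3 ^ n - 1 = 4 * (3 ^ m - 1)) : 3 ^ n = 9 := by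
  have h1 : 0 < 3 ^ n := by positivity
  have h2 : 0 < 3 ^ m := by positivity
  have h3 : 3 ^ n + 3 = 4 * 3 ^ m := by omega
  rcases m with _ | _ | m
  · omega
  · omega
  · rcases n with _ | _ | n
    · omega
    · omega
    · rw [pow_add, pow_add, pow_add, pow_add] at h3
      omega

theorem count {K V : Type*} [Group K] [Finite K] [Group V] [Finite V] (φ : K →* MulAut V) (p : ℕ)
    [Fact p.Prime] (hV : IsPGroup p V)
    (hst : ∀ v : V, v ≠ 1 → ∃ P : Sylow p K, ∀ g, g ∈ (P : Subgroup K) ↔ φ g v = v) :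
    ∃ m : ℕ, Nat.card V - 1 = Nat.card (Sylow p K) * (p ^ m - 1) := by
  have := Fintype.ofFinite V
  have := Fintype.ofFinite (Sylow p K)
  let Fx : Sylow p K → Subgroup V := fun T =>
    { carrier := {v | ∀ t ∈ (T : Subgroup K), φ t v = v}
      mul_mem' := fun ha hb t ht => by rw [map_mul, ha t ht, hb t ht]
      one_mem' := fun t _ => map_one _
      inv_mem' := fun ha t ht => by rw [map_inv, ha t ht] }
  obtain ⟨T₀⟩ : Nonempty (Sylow p K) := inferInstance
  obtain ⟨m, hm⟩ := IsPGroup.iff_card.1 (hV.to_subgroup (Fx T₀))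
  have hle : ∀ T T' : Sylow p K, Nat.card (Fx T) ≤ Nat.card (Fx T') := by
    intro T T'
    obtain ⟨g, rfl⟩ := MulAction.exists_smul_eq K T T'
    refine Nat.card_le_card_of_injective (fun v => (⟨φ g v.1, fun t ht => ?_⟩ : Fx (g • T))) ?_
    · have h1 : g⁻¹ * t * g ∈ (T : Subgroup K) := by
        rw [Sylow.coe_subgroup_smul, mem_pointwise_smul_iff_inv_smul_mem] at ht
        simpa using ht
      have h2 := v.2 _ h1
      rw [map_mul, map_mul, MulAut.mul_apply, MulAut.mul_apply, map_inv] at h2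
      have h3 := congrArg (φ g) h2
      simpa using h3
    · intro a b h
      exact Subtype.ext ((φ g).injective (congrArg Subtype.val h))
  refine ⟨m, ?_⟩
  have h1 : (Finset.univ.erase (1 : V)) = Finset.univ.biUnion
      fun T : Sylow p K => (Finset.univ.filter (· ∈ Fx T)).erase 1 := by
    ext v
    simp only [Finset.mem_erase, Finset.mem_univ, and_true, Finset.mem_biUnion, Finset.mem_filter,
      true_and]
    constructor
    · intro hv
      obtain ⟨P, hP⟩ := hst v hv
      exact ⟨P, hv, fun t ht => (hP t).1 ht⟩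
    · rintro ⟨_, h, -⟩; exact h
  have h2 := congrArg Finset.card h1
  rw [Finset.card_erase_of_mem (Finset.mem_univ _), Finset.card_univ, Finset.card_biUnion,
    Finset.sum_congr rfl (g := fun _ => p ^ m - 1), Finset.sum_const, Finset.card_univ,
    smul_eq_mul] at h2
  · rwa [Nat.card_eq_fintype_card, Nat.card_eq_fintype_card]
  · intro T _
    rw [Finset.card_erase_of_mem (by simp), ← hm, le_antisymm (hle T₀ T) (hle T T₀),
      Nat.card_eq_fintype_card, Fintype.card_subtype]
  · intro T _ T' _ hne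
    refine Finset.disjoint_left.2 fun v h h' => hne ?_
    simp only [Finset.mem_erase, Finset.mem_filter, Finset.mem_univ, true_and] at h h'
    obtain ⟨P, hP⟩ := hst v h.1
    have e1 : ∀ S : Sylow p K, v ∈ Fx S → S = P := fun S hS =>
      Sylow.ext (S.is_maximal' P.isPGroup' fun t ht => (hP t).2 (hS t ht)).symm
    rw [e1 T h.2, e1 T' h'.2]

theorem main {Γ V : Type*} [Group Γ] [Finite Γ] [Group.IsSolvable Γ] [Group V] [Finite V]
    [Nontrivial V] (φ : Γ →* MulAut V) (p : ℕ) [hp : Fact p.Prime] (hO : pCore p Γ = ⊥)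
    (hV : IsPGroup p V)
    (hst : ∀ v : V, v ≠ 1 → ∃ P : Sylow p Γ, ∀ g, g ∈ (P : Subgroup Γ) ↔ φ g v = v)
    (hcard : ∀ P : Sylow p Γ, Nat.card V = (P : Subgroup Γ).index + 1) :
    ¬ p ∣ Nat.card (commutator Γ) := by
  intro hd
  obtain ⟨y, hyK, hy⟩ := exists_mem_orderOf_eq_of_dvd_card hp.out hd
  have hF := fittingSubgroup_normal Γ
  have hFp : ∀ x ∈ fittingSubgroup Γ, ∀ k, x ^ p ^ k = 1 → x = 1 := by
    intro x hx k hk
    have h1 : zpowers x ≤ pCore p Γ := le_pCore_of_le_fittingSubgroup (zpowers_le.2 hx)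
      (isPGroup_subgroup_iff.2 fun z ⟨i, hi⟩ => ⟨k, by
        rw [← hi, ← zpow_natCast, ← zpow_mul, mul_comm, zpow_mul, zpow_natCast, hk, one_zpow]⟩)
    rw [hO] at h1
    exact h1 (mem_zpowers x)
  have hPQ : PQCond (fittingSubgroup Γ) := by
    refine pqCond_of_action (φ.comp (fittingSubgroup Γ).subtype) fun a ha v hv => ?_
    by_contra hv1
    obtain ⟨P, hP⟩ := hst v hv1
    obtain ⟨k, hk⟩ := isPGroup_subgroup_iff.1 P.isPGroup' _ ((hP a).2 hv)
    exact ha (Subtype.ext (hFp _ a.2 k hk))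
  have hy1 : y ≠ 1 := by
    rintro rfl
    rw [orderOf_one] at hy
    exact hp.out.ne_one hy.symm
  have hyp : y ^ p = 1 := hy ▸ pow_orderOf_eq_one y
  -- elements of the derived subgroup centralising `O₂` lie in the centraliser of `F`
  have hcent : ∀ x ∈ commutator Γ, x ∈ centralizer (pCore 2 Γ : Set Γ) →
      x ∈ centralizer (fittingSubgroup Γ : Set Γ) := by
    intro x hx h2
    have : fittingSubgroup Γ ≤ centralizer ({x} : Set Γ) := by
      rw [fittingSubgroup_eq_iSup_pCore]
      refine iSup_le fun q z hz => ?_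
      rw [mem_centralizer_singleton_iff]
      by_cases hq : (q : ℕ) = 2
      · rw [hq] at hz
        exact h2 z hz
      · have := Fact.mk q.2
        have : IsCyclic (pCore (q : ℕ) Γ) :=
          (hPQ.of_le (pCore_le_fittingSubgroup q.2)).isCyclic_of_odd (isPGroup_pCore _ _) hq
        exact CfsgLib.SolvStruct.commutator_le_centralizer_of_cyclic _ hx z hz
    exact fun z hz => mem_centralizer_singleton_iff.1 (this hz)
  have hyQ : y ∉ centralizer (pCore 2 Γ : Set Γ) := fun h =>
    hy1 (hFp y (centralizer_fittingSubgroup_le (hcent y hyK h)) 1 (by rwa [pow_one]))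
  have hp2 : p ≠ 2 := by
    rintro rfl
    rw [hO] at hyQ
    exact hyQ fun z hz => by rw [mem_bot.1 hz]; simp
  let Q := pCore 2 Γ
  let α : Γ →* MulAut Q := MulAut.conjNormal
  have hker : ∀ x, α x = 1 ↔ x ∈ centralizer (Q : Set Γ) := by
    intro x
    constructor
    · intro h z hz
      have := congrArg Subtype.val (DFunLike.congr_fun h ⟨z, hz⟩)
      simp only [α, MulAut.conjNormal_apply, MulAut.one_apply] at this
      exact (mul_inv_eq_iff_eq_mul.1 this).symm
    · intro h
      ext z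
      simp only [α, MulAut.conjNormal_apply, MulAut.one_apply]
      rw [← h z z.2, mul_inv_cancel_right]
  have hαy : orderOf (α y) = p :=
    orderOf_eq_prime (by rw [← map_pow, hyp, map_one]) fun h => hyQ ((hker y).1 h)
  have hPQQ : PQCond Q := hPQ.of_le (pCore_le_fittingSubgroup Nat.prime_two)
  obtain ⟨e⟩ : Nonempty (Q ≃* CfsgLib.FrobCompl.Q8) := by
    refine (CfsgLib.FrobCompl.isPGroup_mulAut_or_Q8 hPQQ (isPGroup_pCore _ _)).resolve_left
      fun h => hp2 ?_
    obtain ⟨k, hk⟩ := h (α y)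
    exact (Nat.prime_dvd_prime_iff_eq hp.out Nat.prime_two).1
      (hp.out.dvd_of_dvd_pow (hαy ▸ orderOf_dvd_of_pow_eq_one hk))
  have hp3 : p = 3 := by
    rcases CfsgLib.FrobCompl.mulAut_pow_of_equiv e (α y) with h | h
    · exact (Nat.prime_dvd_prime_iff_eq hp.out Nat.prime_three).1
        (hαy ▸ orderOf_dvd_of_pow_eq_one h)
    · exact absurd ((Nat.prime_dvd_prime_iff_eq hp.out Nat.prime_two).1
        (hp.out.dvd_of_dvd_pow (n := 2) (hαy ▸ orderOf_dvd_of_pow_eq_one h))) hp2
  subst hp3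
  have hQ8 : Nat.card Q = 8 := by
    rw [Nat.card_congr e.toEquiv, Nat.card_eq_fintype_card, QuaternionGroup.card]
  have hA : Nat.card (MulAut Q) = 24 := by
    obtain ⟨f⟩ := Cfsg.Agent.S3742.result
    rw [Nat.card_congr (MulAut.congr e).toEquiv, Nat.card_congr f.toEquiv, Nat.card_perm]
    simp [Nat.factorial]
  let K := commutator Γ
  -- number of Sylow `3`-subgroups of `K`
  obtain ⟨T⟩ : Nonempty (Sylow 3 K) := inferInstance
  have hn24 : Nat.card (Sylow 3 K) ∣ 24 := by
    rw [T.card_eq_index_normalizer, ← hA]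
    refine (index_dvd_of_le (H := (α.comp K.subtype).ker) fun x hx => ?_).trans ?_
    · have h1 := hcent x x.2 ((hker x).1 hx)
      let Z := centralizer (fittingSubgroup Γ : Set Γ)
      have hZ : Z ≤ fittingSubgroup Γ := centralizer_fittingSubgroup_le
      have : IsCyclic Z := (hPQ.of_le hZ).isCyclic_of_comm
        ⟨⟨fun a b => Subtype.ext (b.2 a (hZ a.2))⟩⟩
      refine center_le_normalizer _ (mem_center_iff.2 fun g => Subtype.ext ?_)
      exact (CfsgLib.SolvStruct.commutator_le_centralizer_of_cyclic Z g.2 x h1).symm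
    · rw [index_ker]
      exact card_subgroup_dvd_card _
  have hn1 : Nat.card (Sylow 3 K) ≠ 1 := by
    intro h
    have : Subsingleton (Sylow 3 K) := (Nat.card_eq_one_iff_unique.1 h).1
    have := T.normal_of_subsingleton
    have := T.characteristic_of_normal this
    have h1 : (T : Subgroup K).map K.subtype ≤ pCore 3 Γ := le_pCore (T.isPGroup'.map _)
    rw [hO, le_bot_iff, map_eq_bot_iff_of_injective _ K.subtype_injective] at h1
    have h2 := T.not_dvd_index
    rw [h1, index_bot] at h2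
    exact h2 hd
  have hn4 : Nat.card (Sylow 3 K) = 4 := by
    have h1 := card_sylow_modEq_one 3 K
    have h2 := Nat.le_of_dvd (by norm_num) hn24
    unfold Nat.ModEq at h1
    generalize Nat.card (Sylow 3 K) = n at *
    interval_cases n <;> omega
  obtain ⟨m, hm⟩ := count (φ.comp K.subtype) 3 hV fun v hv => by
    obtain ⟨P, hP⟩ := hst v hv
    exact ⟨(P.isPGroup'.comap_subtype (K := K)).toSylow
      (CfsgLib.Transfer.not_dvd_relIndex_sylow_of_normal P K), fun g => hP g⟩
  obtain ⟨n, hn⟩ := IsPGroup.iff_card.1 hV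
  rw [hn4, hn] at hm
  have h9 := arith (hn ▸ Finite.one_lt_card.ne') hm
  obtain ⟨P⟩ : Nonempty (Sylow 3 Γ) := inferInstance
  have h8 : (P : Subgroup Γ).index = 8 := by
    have := hcard P
    omega
  obtain ⟨k, hk⟩ := IsPGroup.iff_card.1 P.isPGroup'
  have hQi : Q.index = 3 ^ k := by
    have h1 := card_mul_index Q
    have h2 := card_mul_index (P : Subgroup Γ)
    rw [hQ8] at h1
    rw [h8, hk] at h2
    omega
  let M := α.ker ⊔ Q
  have hM : M.index ∣ 3 := by
    have h1 : M.index ∣ 3 ^ k := hQi ▸ index_dvd_of_le le_sup_right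
    have h2 : M.index ∣ 24 := by
      refine (index_dvd_of_le le_sup_left).trans ?_
      rw [index_ker, ← hA]
      exact card_subgroup_dvd_card _
    have h3 : M.index.Coprime 8 :=
      Nat.Coprime.coprime_dvd_left h1 (Nat.Coprime.pow_left k (by norm_num))
    exact h3.dvd_of_dvd_mul_right (show M.index ∣ 3 * 8 from h2)
  have hcyc : IsCyclic (Γ ⧸ M) := isCyclic_of_card_dvd_prime (p := 3) hM
  have hKM : commutator Γ ≤ M := by
    rw [← Subgroup.Normal.quotient_commutative_iff_commutator_le]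
    exact IsCyclic.isMulCommutative
  have hyM := hKM hyK
  rw [← SetLike.mem_coe, normal_mul] at hyM
  obtain ⟨c, hc, q, hq, rfl⟩ := hyM
  have h1 : α (c * q) ^ 8 = 1 := by
    have h2 : q ^ 8 = 1 := congrArg Subtype.val (hQ8 ▸ pow_card_eq_one' (x := (⟨q, hq⟩ : Q)))
    rw [map_mul, show α c = 1 from hc, one_mul, ← map_pow, h2, map_one]
  have := orderOf_dvd_of_pow_eq_one h1
  rw [hαy] at this
  omega

/-- Let G be a finite solvable group of order greater than 2 with an irreducible character nonzero on exactly two conjugacy classes. Then there is exactly one prime p with O_p(G) ≠ 1, and the quotient G/O_p(G) has a normal p-complement and commutative Sylow p-subgroups. -/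
theorem result {G : Type*} [Group G] [Finite G] [hs : Group.IsSolvable G] (hG : 2 < Nat.card G) (χ : Cfsg.IrrCharacter G) (hχ : Nat.card {C : ConjClasses G // ∃ g ∈ C.carrier, (χ : G → ℂ) g ≠ 0} = 2) :
    ∃ p : ℕ, p.Prime ∧ (∀ q : ℕ, q.Prime → (Cfsg.pCore q G ≠ ⊥ ↔ q = p)) ∧
      Cfsg.HasNormalPComplement p (G ⧸ Cfsg.pCore p G) ∧ ∀ Q : Sylow p (G ⧸ Cfsg.pCore p G), IsMulCommutative (Q : Subgroup (G ⧸ Cfsg.pCore p G)) := by
  obtain ⟨N, h⟩ := exists_isGagola hG χ.2 hχ
  have := h.normal
  obtain ⟨p, hp, hNp⟩ := h.exists_isPGroup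
  have := Fact.mk hp
  have : Nontrivial N := (nontrivial_iff_ne_bot N).2 h.ne_bot
  have hNO : N ≤ pCore p G := le_pCore hNp
  obtain ⟨hC, -⟩ := Cfsg.Agent.S4837.result hG χ hχ p N h.mem_iff hNp h.ne_bot
  have hON : ∀ g ∈ pCore p G, (MulAut.conjNormal g : MulAut N) = 1 := by
    intro g hg
    ext x
    by_cases hx : (x : G) = 1
    · simp [hx]
    · obtain ⟨P, hP⟩ := hC x x.2 hx
      have h1 : g ∈ centralizer ({(x : G)} : Set G) := hP ▸ pCore_le_sylow P hg
      simp only [MulAut.conjNormal_apply, MulAut.one_apply]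
      rw [mem_centralizer_singleton_iff.1 h1, mul_inv_cancel_right]
  let φ : G ⧸ pCore p G →* MulAut N := QuotientGroup.lift _ MulAut.conjNormal hON
  have hst : ∀ v : N, v ≠ 1 → ∃ P : Sylow p (G ⧸ pCore p G),
      (∀ g, g ∈ (P : Subgroup (G ⧸ pCore p G)) ↔ φ g v = v) ∧
        Nat.card N = (P : Subgroup (G ⧸ pCore p G)).index + 1 := by
    intro v hv
    have hv1 : (v : G) ≠ 1 := fun e => hv (Subtype.ext e)
    obtain ⟨P, hP⟩ := hC v v.2 hv1
    have hcm : ((P : Subgroup G).map (QuotientGroup.mk' (pCore p G))).comap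
        (QuotientGroup.mk' (pCore p G)) = P := by
      rw [comap_map_eq, QuotientGroup.ker_mk', sup_eq_left.2 (pCore_le_sylow P)]
    refine ⟨P.mapSurjective (QuotientGroup.mk'_surjective (pCore p G)), fun g => ?_, ?_⟩
    · obtain ⟨g, rfl⟩ := QuotientGroup.mk_surjective g
      rw [Sylow.coe_mapSurjective]
      change g ∈ ((P : Subgroup G).map (QuotientGroup.mk' (pCore p G))).comap
        (QuotientGroup.mk' (pCore p G)) ↔ _
      rw [hcm, ← hP, mem_centralizer_singleton_iff, Subtype.ext_iff]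
      change _ ↔ g * v * g⁻¹ = v
      rw [mul_inv_eq_iff_eq_mul]
    · have := Fintype.ofFinite G
      rw [Sylow.coe_mapSurjective, ← index_comap_of_surjective _
        (QuotientGroup.mk'_surjective (pCore p G)), hcm, ← hP,
        ← card_isConj_eq_index_centralizer, Nat.card_eq_fintype_card, Fintype.card_subtype,
        Nat.card_eq_fintype_card, Fintype.card_subtype,
        ← Finset.card_erase_add_one (s := Finset.univ.filter (· ∈ N)) (a := 1) (by simp)]
      congr 2
      ext y
      simp only [Finset.mem_filter, Finset.mem_univ, true_and, Finset.mem_erase]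
      constructor
      · exact fun hy => h.isConj v v.2 y hy.2 hv1 hy.1
      · intro hy
        obtain ⟨c, rfl⟩ := isConj_iff.mp hy
        exact ⟨by simpa using hv1, h.normal.conj_mem v v.2 c⟩
  have hm := main φ p (pCore_quotient_pCore p G) hNp (fun v hv => (hst v hv).imp fun _ h => h.1)
    (fun P => by
      obtain ⟨v, hv⟩ := exists_ne (1 : N)
      obtain ⟨P', -, h2⟩ := hst v hv
      have h3 := card_mul_index (P : Subgroup (G ⧸ pCore p G))
      have h4 := card_mul_index (P' : Subgroup (G ⧸ pCore p G))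
      rw [Nat.card_congr (Sylow.equiv P P').toEquiv, ← h4] at h3
      rw [h2, Nat.eq_of_mul_eq_mul_left Nat.card_pos h3])
  have hinf : ∀ (P : Sylow p (G ⧸ pCore p G)) (x), x ∈ (P : Subgroup (G ⧸ pCore p G)) →
      x ∈ commutator (G ⧸ pCore p G) → x = 1 := by
    intro P x hx hx'
    obtain ⟨k, hk⟩ := isPGroup_subgroup_iff.1 P.isPGroup' x hx
    exact orderOf_eq_one_iff.1 (Nat.eq_one_of_dvd_coprimes
      (Nat.Coprime.pow_left k ((Nat.Prime.coprime_iff_not_dvd hp).2 hm))
      (orderOf_dvd_of_pow_eq_one hk) (orderOf_dvd_natCard _ hx'))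
  refine ⟨p, hp, fun q hq => ⟨fun hne => ?_, fun e => e ▸ fun hb => h.ne_bot (le_bot_iff.1 (hb ▸ hNO))⟩,
    ?_, fun Q => ⟨⟨fun a b => Subtype.ext ?_⟩⟩⟩
  · by_contra hqp
    have := Fact.mk hq
    have h1 := IsPGroup.disjoint_of_ne q p hqp _ _ (isPGroup_pCore q G) hNp
    exact h.ne_bot (h1.symm.eq_bot_of_le (h.le_of_ne_bot hne))
  · obtain ⟨P⟩ : Nonempty (Sylow p (G ⧸ pCore p G)) := inferInstance
    refine (CfsgLib.Transfer.hasNormalPComplement_iff_control P).2 fun x hx g hg => ⟨1, one_mem _, ?_⟩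
    have := hinf P ⁅g, x⁆ (mul_mem hg (inv_mem hx))
      (commutator_mem_commutator (mem_top g) (mem_top x))
    rw [commutatorElement_def, mul_inv_eq_one] at this
    simpa using this
  · have := hinf Q ⁅(a : G ⧸ pCore p G), b⁆
      (mul_mem (mul_mem (mul_mem a.2 b.2) (inv_mem a.2)) (inv_mem b.2))
      (commutator_mem_commutator (mem_top _) (mem_top _))
    exact commutatorElement_eq_one_iff_mul_comm.1 this

end Cfsg.Agent.S4840
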