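import Cfsg.Statements.S4843
import Cfsg.Agent.Lib.Char.Integral
import Cfsg.Agent.Lib.Char.Kernel
import Cfsg.Agent.Lib.Core.Fitting

set_option autoImplicit false
open Cfsg

namespace Cfsg.Agent.S4843

open Cfsg CfsgLib.Char
open scoped ComplexConjugate

section

attribute [local instance] Classical.propDecidable

theorem key {G : Type*} [Group G] [Fintype G] {χ ψ : G → ℂ} (hχ : IsCharacter G χ) (hψ : IsCharacter G ψ)
    (h : IsIrrCharacter G fun g => χ g * ψ g) (k : ℕ) (N : Subgroup G) [hN : N.Normal] :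
    ∃ c : ℂ, ∀ u w, ∑ n : N, χ (n ^ k * u) * ψ (n⁻¹ * w) = c * (χ u * ψ w) := by
  obtain ⟨_, ρ, rfl⟩ := hχ
  obtain ⟨_, σ, rfl⟩ := hψ
  have := isIrreducible_of_isIrr_character (ρ.tprod σ) (by rw [Representation.char_tensor]; exact h)
  obtain ⟨c, hc⟩ := exists_eq_smul_of_comm (ρ.tprod σ)
    (∑ n : N, TensorProduct.map (ρ (n ^ k)) (σ n⁻¹)) fun g => by
      rw [← Module.End.mul_eq_comp, ← Module.End.mul_eq_comp, Finset.sum_mul, Finset.mul_sum]
      refine (Fintype.sum_equiv (MulAut.conjNormal g).toEquiv _ _ fun n => ?_).symm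
      simp [← TensorProduct.map_mul, ← map_mul, ← map_pow]
      simp [mul_assoc]
  refine ⟨c, fun u w => ?_⟩
  have := congrArg (fun T => LinearMap.trace ℂ _ (T * TensorProduct.map (ρ u) (σ w))) hc
  simpa [Finset.sum_mul, ← TensorProduct.map_mul, ← map_mul, ← map_pow, LinearMap.trace_tensorProduct',
    Representation.character, ← Module.End.one_eq_id] using this

end

/-- Let G be a finite group with a faithful irreducible character χ (taking the value χ(1) only at the identity) and let k be prime to the order of G, so that g ↦ χ(g^k) is a Galois conjugate of χ. If the pointwise product g ↦ χ(g)·χ(g^k) is again an irreducible character, then the Fitting subgroup of G equals its centre. -/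
theorem result {G : Type*} [Group G] [Finite G] (χ : Cfsg.IrrCharacter G) (hfaith : ∀ g : G, (χ : G → ℂ) g = (χ : G → ℂ) 1 → g = 1) (k : ℕ) (hk : Nat.Coprime k (Nat.card G)) (hirr : Cfsg.IsIrrCharacter G (fun g => (χ : G → ℂ) g * (χ : G → ℂ) (g ^ k))) : Cfsg.fittingSubgroup G = Subgroup.center G := by
  classical
  have := Fintype.ofFinite G
  have hc := irr_isCharacter χ
  have hcf := irr_isClassFunction χ
  have hker : charKer (χ : G → ℂ) = ⊥ := eq_bot_iff.2 fun g hg => hfaith g ((mem_charKer hc).1 hg)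
  have hK := key hc (isCharacter_pow_of_coprime hc hk) hirr k
  have hpow : ∀ m : G, m ^ k ∈ Subgroup.center G → m ∈ Subgroup.center G := fun m hm => by
    obtain ⟨j, hj⟩ := exists_pow_eq_self_of_coprime (hk.coprime_dvd_right (orderOf_dvd_natCard m))
    exact hj ▸ pow_mem hm j
  have h1 : (χ : G → ℂ) 1 ≠ 0 := irr_one_ne_zero χ.2
  have hsq : ∀ g, (χ : G → ℂ) g * (χ : G → ℂ) g⁻¹ = (‖(χ : G → ℂ) g‖ ^ 2 : ℝ) := fun g => by
    rw [char_inv hc, Complex.mul_conj', Complex.ofReal_pow]
  have hab : ∀ N : Subgroup G, N.Normal → (∀ a ∈ N, ∀ b ∈ N, Commute a b) → N ≤ Subgroup.center G :=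
    fun N _ hN m hm => by
    obtain ⟨c, h⟩ := hK N
    have h2 := h (m ^ k)⁻¹ m
    have h3 := h 1 1
    rw [← Fintype.sum_equiv (Equiv.mulRight ⟨m, hm⟩) _ _ (fun n => ?_), h3] at h2
    · have h4 : c ≠ 0 := by
        rintro rfl
        simp only [mul_one, Subgroup.coe_inv, inv_pow, hsq, zero_mul, ← Complex.ofReal_sum, Complex.ofReal_eq_zero] at h3
        simpa [h1] using (Finset.sum_eq_zero_iff_of_nonneg fun _ _ => sq_nonneg _).1 h3 1 (Finset.mem_univ _)
      have h5 := mul_left_cancel₀ h4 h2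
      rw [mul_comm ((χ : G → ℂ) _⁻¹), hsq, show (1 : G) ^ k = 1⁻¹ by simp, hsq, Complex.ofReal_inj,
        sq_eq_sq₀ (norm_nonneg _) (norm_nonneg _)] at h5
      exact hpow m (charCenter_le_center_of_faithful hcf hker ((mem_charCenter hc).2 h5.symm))
    · simp [(hN _ n.2 _ hm).mul_pow, (hN _ hm _ (inv_mem n.2)).eq, mul_assoc,
        ((hN _ (inv_mem hm) _ (inv_mem n.2))).eq]
  refine le_antisymm ?_ CfsgLib.Core.center_le_fittingSubgroup
  have := CfsgLib.Core.fittingSubgroup_normal G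
  have := CfsgLib.Core.isNilpotent_fittingSubgroup G
  set F := fittingSubgroup G
  have hZ := hab ((Subgroup.center F).map F.subtype) inferInstance (by
    rintro _ ⟨a, ha, rfl⟩ _ ⟨b, -, rfl⟩
    exact congrArg Subtype.val (Subgroup.mem_center_iff.1 ha b).symm)
  by_contra h0
  have h2 : ¬ Subgroup.upperCentralSeries F 2 ≤ Subgroup.center F := fun h => h0 fun x hx => by
    have h3 : Subgroup.upperCentralSeries F 1 = Subgroup.upperCentralSeries F (1 + 1) :=
      le_antisymm (Subgroup.upperCentralSeries_mono _ (by norm_num))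
        (by rwa [Subgroup.upperCentralSeries_one])
    have h4 := Subgroup.upperCentralSeries.eq_top (G := F) (a := 1) (b := 2) (by norm_num) h3
    rw [Subgroup.upperCentralSeries_one] at h4
    exact hZ ⟨⟨x, hx⟩, h4 ▸ Subgroup.mem_top _, rfl⟩
  obtain ⟨m, hm, hm'⟩ := SetLike.not_le_iff_exists.1 h2
  set N := (Subgroup.upperCentralSeries F 2).map F.subtype with hN
  have hv : ∀ n ∈ N, n ∉ Subgroup.center G → (χ : G → ℂ) (n ^ k) = 0 := fun n hn hn' => by
    obtain ⟨x, hx, e⟩ := pow_mem hn k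
    by_contra h3
    refine hn' (hpow n (hZ ⟨x, Subgroup.mem_center_iff.2 fun y => ?_, e⟩))
    have h4 := Subgroup.mem_upperCentralSeries_succ_iff.1 hx y⁻¹
    rw [Subgroup.upperCentralSeries_one] at h4
    have h5 := char_mul_of_norm_eq hc (norm_irr_of_mem_center χ.2 (inv_mem (hZ ⟨_, h4, rfl⟩))) x
    rw [show _ * (x : G) = (y : G)⁻¹ * x * y by simp [commutatorElement_def, mul_assoc], classFun_conj' hcf, eq_comm,
      mul_eq_right₀ (show (χ : G → ℂ) x ≠ 0 from fun h => h3 (e ▸ h)), div_eq_one_iff_eq h1] at h5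
    exact (Commute.inv_right_iff.1 ((commutatorElement_eq_one_iff_commute (g₁ := x)).1
      (F.subtype_injective ((inv_eq_one.1 (hfaith _ h5)).trans (map_one _).symm)))).symm
  obtain ⟨c, h⟩ := hK N
  have h3 := h (m ^ k)⁻¹ m
  have hmN : (m : G) ∈ N := ⟨m, hm, rfl⟩
  rw [hv m hmN fun h => hm' (Subgroup.mem_center_iff.2 fun y => Subtype.ext
    (Subgroup.mem_center_iff.1 h y)), mul_zero, mul_zero,
    ← Fintype.sum_equiv (Equiv.mulLeft (⟨m, hmN⟩ : N))
      (fun n : N => ((‖(χ : G → ℂ) ((n : G)⁻¹ ^ k)‖ ^ 2 : ℝ) : ℂ)) _ (fun n => ?_)] at h3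
  · simp only [← Complex.ofReal_sum, Complex.ofReal_eq_zero] at h3
    simpa [h1] using (Finset.sum_eq_zero_iff_of_nonneg fun _ _ => sq_nonneg _).1 h3 1 (Finset.mem_univ _)
  · by_cases hn : (n : G) ∈ Subgroup.center G
    · have h4 : Commute (m : G) n := Subgroup.mem_center_iff.1 hn m
      rw [← hsq, mul_comm]
      simp [h4.mul_pow, (h4.pow_pow k k).eq]
    · simp [-inv_pow, hv _ (inv_mem n.2) (by simpa using hn)]

end Cfsg.Agent.S4843
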