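import Cfsg.Statements.S4845
import Cfsg.Agent.Lib.ChDeg.TwoDeg
import Cfsg.Agent.Lib.Core.Commutator

set_option autoImplicit false
open Cfsg

namespace Cfsg.Agent.S4845

open CfsgLib CfsgLib.Char CfsgLib.CharDeep CfsgLib.ChDeg Subgroup
open scoped commutatorElement

universe u

/-- The central character. -/
noncomputable def cchar {G : Type*} [Group G] [Finite G] {χ : G → ℂ} (hχ : IsIrrCharacter G χ) :
    center G →* ℂ where
  toFun := fun z => χ z / χ 1
  map_one' := by simpa using irr_one_ne_zero hχ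
  map_mul' := fun a b => by rw [coe_mul, irr_mul_of_mem_center hχ a.2]; ring

theorem cchar_inj {G : Type*} [Group G] [Finite G] {χ : G → ℂ} (hχ : IsIrrCharacter G χ)
    (hf : cker χ = ⊥) : Function.Injective (cchar hχ) := by
  rw [injective_iff_map_eq_one]
  intro a ha
  change χ a / χ 1 = 1 at ha
  rw [div_eq_one_iff_eq (irr_one_ne_zero hχ), ← mem_cker (isCharacter_of_isIrr hχ), hf,
    mem_bot] at ha
  exact Subtype.ext ha

def Gal (G : Type*) [Group G] : Prop :=
  ∀ χ ψ : G → ℂ, IsIrrCharacter G χ → IsIrrCharacter G ψ → charDegree χ ≠ 1 →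
    charDegree χ = charDegree ψ → ∃ k : ℕ, Nat.Coprime k (Nat.card G) ∧ ∀ g, ψ g = χ (g ^ k)

theorem Gal.cker_le {G : Type*} [Group G] [Finite G] (h : Gal G) {χ ψ : G → ℂ}
    (hχ : IsIrrCharacter G χ) (hψ : IsIrrCharacter G ψ) (h1 : charDegree χ ≠ 1)
    (h2 : charDegree χ = charDegree ψ) : cker χ ≤ cker ψ := by
  obtain ⟨k, -, hk⟩ := h χ ψ hχ hψ h1 h2
  intro x hx
  rw [mem_cker (isCharacter_of_isIrr hψ), hk, hk, one_pow, ← mem_cker (isCharacter_of_isIrr hχ)]
  exact pow_mem hx k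

theorem Gal.quotient {G : Type*} [Group G] [Finite G] (h : Gal G) (K : Subgroup G) [K.Normal] :
    Gal (G ⧸ K) := by
  intro χ ψ hχ hψ h1 h2
  obtain ⟨k, hk, e⟩ := h _ _ (isIrr_infl K hχ) (isIrr_infl K hψ) (by rwa [deg_infl])
    (by rwa [deg_infl, deg_infl])
  refine ⟨k, hk.coprime_dvd_right (card_quotient_dvd_card K), fun g => ?_⟩
  obtain ⟨g, rfl⟩ := QuotientGroup.mk_surjective g
  exact e g

theorem Gal.cyclic {G : Type*} [Group G] [Finite G] (h : Gal G) {p : ℕ} (hp : p.Prime)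
    (hc : Nat.card (_root_.commutator G) = p) : IsCyclic (center G) := by
  have hne : _root_.commutator G ≠ ⊥ := fun e => by
    rw [e, card_bot] at hc; exact hp.one_lt.ne hc
  obtain ⟨χ, hχ, h1⟩ := exists_irr_deg_ne_one hne
  have hχc := isCharacter_of_isIrr hχ
  have h2 : cker χ ≤ _root_.commutator G := by
    intro x hx
    by_contra hx'
    obtain ⟨μ, hμ, hk, hxμ⟩ := exists_irr_le_cker_not_mem _ hx'
    have hμc := isCharacter_of_isIrr hμ
    have hμ1 := one_eq_one_of_commutator_le hμ hk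
    have h3 := isIrr_mul_of_one_eq_one hχ hμc hμ1
    have h4 := h.cker_le hχ h3 h1 (by rw [deg_mul hχc hμc, (deg_eq_one_iff hμc).2 hμ1, mul_one]) hx
    rw [mem_cker (isCharacter_of_isIrr h3), Pi.mul_apply, Pi.mul_apply, (mem_cker hχc).1 hx,
      mul_right_inj' (irr_one_ne_zero hχ)] at h4
    exact hxμ ((mem_cker hμc).2 h4)
  have h3 := Core.inf_eq_bot_of_prime_card_of_not_le (hc ▸ hp)
    (fun e => h1 ((deg_eq_one_iff_commutator_le hχ).2 e))
  rw [inf_eq_right.2 h2] at h3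
  exact isCyclic_of_injective_ringHom _ (cchar_inj hχ h3)

theorem jna {G : Type*} [Group G] [Finite G] {p : ℕ} [hp : Fact p.Prime] (hG : IsPGroup p G)
    (hc : Nat.card (_root_.commutator G) = p) (hZ : IsCyclic (center G)) :
    JNA G ∧ _root_.commutator G ≤ center G := by
  classical
  have hne : _root_.commutator G ≠ ⊥ := fun e => by
    rw [e, card_bot] at hc; exact hp.out.one_lt.ne hc
  obtain ⟨y, hy, hyZ, hyo⟩ := Core.exists_mem_center_orderOf_eq hG hne
  have h1 : zpowers y = _root_.commutator G :=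
    Core.eq_of_le_of_card_le (zpowers_le.2 hy) (by rw [hc, Nat.card_zpowers, hyo])
  refine ⟨⟨hne, fun N hN hN0 => ?_⟩, h1 ▸ zpowers_le.2 hyZ⟩
  obtain ⟨x, hx, hxZ, hxo⟩ := Core.exists_mem_center_orderOf_eq hG hN0
  have := Fintype.ofFinite (center G)
  have h2 := IsCyclic.card_pow_eq_one_le (α := center G) hp.out.pos
  have key : ∀ z : center G, orderOf (z : G) = p → ∀ w : center G, w ^ p = 1 → w ∈ zpowers z := by
    intro z hz w hw
    rw [orderOf_coe] at hz
    have e : (Finset.univ.filter (· ∈ zpowers z)) =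
        Finset.univ.filter (fun a : center G => a ^ p = 1) := by
      refine Finset.eq_of_subset_of_card_le (fun a ha => ?_) (h2.trans ?_)
      · simp only [Finset.mem_filter, Finset.mem_univ, true_and] at ha ⊢
        rw [← hz, ← orderOf_dvd_iff_pow_eq_one]
        exact orderOf_dvd_of_mem_zpowers ha
      · rw [← Nat.subtype_card (Finset.univ.filter (· ∈ zpowers z)) (p := (· ∈ zpowers z))
          (by simp), Nat.card_zpowers, hz]
    have : w ∈ Finset.univ.filter (fun a : center G => a ^ p = 1) := by simpa using hw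
    rw [← e] at this
    simpa using this
  obtain ⟨k, hk⟩ := key ⟨x, hxZ⟩ hxo ⟨y, hyZ⟩ (Subtype.ext (by
    rw [coe_pow, ← hyo]; exact pow_orderOf_eq_one y))
  rw [← h1, zpowers_le, ← show x ^ k = y from congrArg Subtype.val hk]
  exact zpow_mem hx k

theorem geom_lt {p : ℕ} (hp : 2 ≤ p) (n : ℕ) :
    p * ∑ m ∈ Finset.range n, (p ^ m) ^ 2 < (p ^ n) ^ 2 := by
  induction n with
  | zero => simp
  | succ n ih =>
    rw [Finset.sum_range_succ, mul_add, pow_succ p n, mul_pow]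
    have h1 : 1 + p ≤ p ^ 2 := by nlinarith
    have := Nat.mul_le_mul_left ((p ^ n) ^ 2) h1
    nlinarith

theorem card_le_totient {G : Type*} [Group G] [Finite G] (h : Gal G) {e : ℕ} (he0 : e ≠ 0)
    (hcop : ∀ k : ℕ, k.Coprime (Nat.card G) → k.Coprime e) (he : ∀ g : G, g ^ e = 1)
    (S : Finset (IrrCharacter G)) {d : ℕ} (hd : d ≠ 1)
    (hS : ∀ χ ∈ S, charDegree (χ : G → ℂ) = d) : S.card ≤ e.totient := by
  classical
  rcases S.eq_empty_or_nonempty with rfl | ⟨χ, hχ⟩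
  · simp
  have key : ∀ ψ : IrrCharacter G, ∃ k, ψ ∈ S → (k < e ∧ e.Coprime k) ∧
      ∀ g, (ψ : G → ℂ) g = (χ : G → ℂ) (g ^ k) := by
    intro ψ
    by_cases hψ : ψ ∈ S
    · obtain ⟨k, hk, e1⟩ := h _ _ χ.2 ψ.2 (by rwa [hS χ hχ]) (by rw [hS χ hχ, hS ψ hψ])
      refine ⟨k % e, fun _ => ⟨⟨Nat.mod_lt _ (Nat.pos_of_ne_zero he0), ?_⟩, fun g => ?_⟩⟩
      · have := (hcop k hk).symm
        rwa [Nat.Coprime, Nat.gcd_rec, Nat.gcd_comm] at this
      · rw [e1, ← pow_eq_pow_mod k (he g)]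
    · exact ⟨0, fun h => absurd h hψ⟩
  choose f hf using key
  rw [Nat.totient_eq_card_coprime]
  refine Finset.card_le_card_of_injOn f (fun ψ hψ => ?_) fun a ha b hb e => ?_
  · simpa using (hf ψ hψ).1
  · exact Subtype.ext (funext fun g => by rw [(hf a ha).2, (hf b hb).2, e])

theorem main {p : ℕ} [hp : Fact p.Prime] (G : Type u) [Group G] [Finite G] (hG : IsPGroup p G)
    (hna : _root_.commutator G ≠ ⊥) (h : Gal G) : Nat.card (_root_.commutator G) = p := by
  classical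
  induction hn : Nat.card G using Nat.strong_induction_on generalizing G with
  | _ n ih =>
  subst hn
  by_contra hc
  obtain ⟨x, hx, hxZ, hxo⟩ := Core.exists_mem_center_orderOf_eq hG hna
  set K := zpowers x with hK
  have hKZ : K ≤ center G := zpowers_le.2 hxZ
  have hKn : K.Normal := Core.normal_of_le_center hKZ
  have hKc : Nat.card K = p := by rw [hK, Nat.card_zpowers, hxo]
  have hK0 : K ≠ ⊥ := fun e => by rw [e, card_bot] at hKc; exact hp.out.one_lt.ne hKc
  have hQ := hG.to_quotient K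
  have hQna : _root_.commutator (G ⧸ K) ≠ ⊥ := fun e => hc (by
    rw [le_antisymm ((commutator_quotient_eq_bot_iff K).1 e) (zpowers_le.2 hx), hKc])
  have hQc := ih _ (Core.card_quotient_lt_of_ne_bot hK0) (G ⧸ K) hQ hQna (h.quotient K) rfl
  have hQZ := (h.quotient K).cyclic hp.out hQc
  obtain ⟨hJ, hcZ⟩ := jna hQ hQc hQZ
  have := hJ.nontrivial
  obtain ⟨-, -, -, -, -, hdeg⟩ := hJ.caseA hQ.bot_lt_center.ne'
  obtain ⟨β, hβ, hβ1⟩ := exists_irr_deg_ne_one hQna
  obtain ⟨-, hβd⟩ := hdeg β hβ hβ1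
  obtain ⟨n, hn⟩ := exists_deg_eq_pow hQ hβ
  obtain ⟨j, hj⟩ := (hQ.to_subgroup (center (G ⧸ K))).exists_card_eq
  have hKp : ∀ k ∈ K, k ^ p = 1 := fun k hk => by
    rw [← hxo, ← orderOf_dvd_iff_pow_eq_one]; exact orderOf_dvd_of_mem_zpowers hk
  have he : ∀ g : G, g ^ p ^ (j + 2) = 1 := by
    intro g
    have e1 : (g : G ⧸ K) ^ p ∈ center (G ⧸ K) := by
      rw [mem_center_iff]
      intro y
      have hm : ⁅(g : G ⧸ K), y⁆ ∈ _root_.commutator (G ⧸ K) :=
        commutator_mem_commutator (mem_top _) (mem_top _)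
      refine (commutatorElement_eq_one_iff_mul_comm.1 ?_).symm
      rw [Core.commutatorElement_pow_left_of_commute (mem_center_iff.1 (hcZ hm) _), ← hQc]
      exact congrArg Subtype.val (pow_card_eq_one' (x := (⟨_, hm⟩ : _root_.commutator (G ⧸ K))))
    have e2 : ((g : G ⧸ K) ^ p) ^ p ^ j = 1 := by
      rw [← hj]
      exact congrArg Subtype.val (pow_card_eq_one' (x := (⟨_, e1⟩ : center (G ⧸ K))))
    rw [← QuotientGroup.mk_pow, ← QuotientGroup.mk_pow, QuotientGroup.eq_one_iff] at e2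
    rw [← hKp _ e2, ← pow_mul, ← pow_mul]
    congr 1; ring
  obtain ⟨⟨y, hyZ⟩, hy⟩ := IsCyclic.exists_ofOrder_eq_natCard (α := center (G ⧸ K))
  obtain ⟨y, rfl⟩ := QuotientGroup.mk_surjective y
  rw [← orderOf_coe, hj] at hy
  set Z₀ := (zpowers ((y : G ⧸ K) ^ p)).comap (QuotientGroup.mk' K) with hZ₀
  have hZ₀c : Z₀ ≤ center G := by
    rw [hZ₀, ← QuotientGroup.mk_pow, ← QuotientGroup.mk'_apply, ← MonoidHom.map_zpowers,
      SolvStruct.comap_map_mk']
    refine sup_le (zpowers_le.2 ?_) hKZ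
    rw [mem_center_iff]
    intro g
    have hm : ⁅y, g⁆ ∈ K := (commutator_mem_iff_commute K y g).2 (mem_center_iff.1 hyZ _).symm
    refine (commutatorElement_eq_one_iff_mul_comm.1 ?_).symm
    rw [Core.commutatorElement_pow_left_of_commute (mem_center_iff.1 (hKZ hm) _), hKp _ hm]
  have hQcard : Nat.card (G ⧸ K) = (p ^ n) ^ 2 * p ^ j := by
    rw [← hn, hβd, ← hj, index_mul_card]
  have hZ₀i : Z₀.index ≤ p * (p ^ n) ^ 2 := by
    rw [hZ₀, SolvStruct.index_comap_mk']
    have e1 := (zpowers ((y : G ⧸ K) ^ p)).index_mul_card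
    rw [Nat.card_zpowers, hQcard] at e1
    have e2 : p ^ j ≤ p * orderOf ((y : G ⧸ K) ^ p) := by
      refine Nat.le_of_dvd (Nat.mul_pos hp.out.pos (orderOf_pos _)) ?_
      change orderOf (y : G ⧸ K) = _ at hy
      rw [← hy, orderOf_dvd_iff_pow_eq_one, pow_mul, pow_orderOf_eq_one]
    refine Nat.le_of_mul_le_mul_right ?_ (orderOf_pos ((y : G ⧸ K) ^ p))
    rw [e1]
    calc _ ≤ (p ^ n) ^ 2 * (p * orderOf ((y : G ⧸ K) ^ p)) := Nat.mul_le_mul_left _ e2
      _ = _ := by ring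
  set S := Finset.univ.filter (fun χ : IrrCharacter G => ¬ K ≤ cker (χ : G → ℂ)) with hS
  have hSd : ∀ χ ∈ S, ∃ m ∈ Finset.range n, charDegree (χ : G → ℂ) = p ^ m ∧ m ≠ 0 := by
    intro χ hχ
    have hχK := (Finset.mem_filter.1 hχ).2
    obtain ⟨m, hm⟩ := exists_deg_eq_pow hG χ.2
    refine ⟨m, Finset.mem_range.2 ?_, hm, ?_⟩
    · have e1 := (deg_sq_le_index_of_le_center χ.2 Z₀ hZ₀c).trans hZ₀i
      rw [hm, ← pow_mul, ← pow_mul, ← pow_succ', Nat.pow_le_pow_iff_right hp.out.one_lt] at e1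
      have e2 : m ≠ n := by
        rintro rfl
        exact hχK ((le_cker_infl K (isCharacter_of_isIrr hβ)).trans (h.cker_le (isIrr_infl K hβ)
          χ.2 (by rwa [deg_infl]) (by rw [deg_infl, hn, hm])))
      omega
    · rintro rfl
      exact hχK ((zpowers_le.2 hx).trans ((deg_eq_one_iff_commutator_le χ.2).1 hm))
  have hG0 : p ∣ Nat.card G := hKc ▸ card_subgroup_dvd_card K
  choose! f hf1 hf2 hf3 using hSd
  have h1 : ∑ χ ∈ S, charDegree (χ : G → ℂ) ^ 2 ≤
      ∑ m ∈ Finset.range n, (p ^ (j + 2)).totient * (p ^ m) ^ 2 := by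
    rw [← Finset.sum_fiberwise_of_maps_to hf1]
    refine Finset.sum_le_sum fun m _ => ?_
    rw [Finset.sum_congr rfl (g := fun _ => (p ^ m) ^ 2) fun χ hχ => by
      rw [hf2 χ (Finset.mem_filter.1 hχ).1, (Finset.mem_filter.1 hχ).2], Finset.sum_const,
      smul_eq_mul]
    refine Nat.mul_le_mul_right _ ?_
    rcases eq_or_ne m 0 with rfl | hm
    · rw [Finset.filter_eq_empty_iff.2 fun χ hχ => hf3 χ hχ]; simp
    · refine card_le_totient h (pow_ne_zero _ hp.out.ne_zero)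
        (fun k hk => (hk.coprime_dvd_right hG0).pow_right _) he _ (d := p ^ m)
        (Nat.one_lt_pow hm hp.out.one_lt).ne' fun χ hχ => ?_
      rw [hf2 χ (Finset.mem_filter.1 hχ).1, (Finset.mem_filter.1 hχ).2]
  have h2 := sum_deg_sq (G := G)
  rw [← Finset.sum_filter_add_sum_filter_not _ (fun χ : IrrCharacter G => K ≤ cker (χ : G → ℂ)),
    sum_deg_sq_filter_cker, ← hS, ← K.index_mul_card, hKc, index_eq_card, hQcard] at h2
  rw [← Finset.mul_sum, Nat.totient_prime_pow_succ hp.out] at h1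
  have h3 := geom_lt hp.out.two_le n
  obtain ⟨q, hq⟩ : ∃ q, p = q + 1 := ⟨p - 1, by have := hp.out.pos; omega⟩
  have hq0 : 0 < q := by have := hp.out.two_le; omega
  have h4 : ∑ χ ∈ S, charDegree (χ : G → ℂ) ^ 2 = (p ^ n) ^ 2 * p ^ j * q := by
    have : (p ^ n) ^ 2 * p ^ j * p = (p ^ n) ^ 2 * p ^ j + (p ^ n) ^ 2 * p ^ j * q := by
      conv_lhs => enter [2]; rw [hq]
      ring
    omega
  rw [h4, show p - 1 = q by omega] at h1
  have h5 := Nat.mul_lt_mul_of_pos_left h3 (Nat.mul_pos (pow_pos hp.out.pos j) hq0)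
  have h6 : p ^ (j + 1) * q * ∑ m ∈ Finset.range n, (p ^ m) ^ 2 =
    p ^ j * q * (p * ∑ m ∈ Finset.range n, (p ^ m) ^ 2) := by ring
  nlinarith

/-- Let p be a prime and P a finite non-commutative p-group. Then every two irreducible characters of P of the same degree greater than 1 are Galois conjugate (one is obtained from the other by composing with g ↦ g^k for some k prime to the order of P) if and only if the centre of P is cyclic and the derived subgroup of P has order p. -/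
theorem result {P : Type*} [Group P] [Finite P] (p : ℕ) [Fact p.Prime] (hP : IsPGroup p P) (hna : ¬ IsMulCommutative P) :
    (∀ χ ψ : Cfsg.IrrCharacter P, Cfsg.charDegree (χ : P → ℂ) ≠ 1 → Cfsg.charDegree (χ : P → ℂ) = Cfsg.charDegree (ψ : P → ℂ) → ∃ k : ℕ, Nat.Coprime k (Nat.card P) ∧ ∀ g : P, (ψ : P → ℂ) g = (χ : P → ℂ) (g ^ k)) ↔
      (IsCyclic (Subgroup.center P) ∧ Nat.card (commutator P) = p) := by
  have hp : p.Prime := Fact.out
  have hne : _root_.commutator P ≠ ⊥ := fun e => hna ((_root_.commutator_eq_bot_iff _).1 e)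
  constructor
  · intro h
    have h' : Gal P := fun χ ψ hχ hψ => h ⟨χ, hχ⟩ ⟨ψ, hψ⟩
    have h1 := main P hP hne h'
    exact ⟨h'.cyclic hp h1, h1⟩
  · rintro ⟨hZ, hc⟩ χ ψ h1 h2
    obtain ⟨hJ, hcZ⟩ := jna hP hc hZ
    have hχf := hJ.cker_eq_bot χ.2 h1
    have hψf := hJ.cker_eq_bot ψ.2 (h2 ▸ h1)
    obtain ⟨z, hz⟩ := IsCyclic.exists_generator (α := center P)
    have : NeZero (orderOf z) := ⟨(orderOf_pos z).ne'⟩
    let _ : CommGroup (center P) := { (inferInstance : Group (center P)) with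
      mul_comm := fun a b => Subtype.ext (mem_center_iff.1 b.2 a) }
    have e1 := (IsPrimitiveRoot.orderOf z).map_of_injective (cchar_inj χ.2 hχf)
    have e2 := (IsPrimitiveRoot.orderOf z).map_of_injective (cchar_inj ψ.2 hψf)
    obtain ⟨k, -, hk, e⟩ := e1.isPrimitiveRoot_iff.1 e2
    have hkp : k.Coprime p := by
      refine hk.coprime_dvd_right ?_
      rw [orderOf_eq_card_of_forall_mem_zpowers hz]
      exact hc ▸ card_dvd_of_le hcZ
    have hkP : k.Coprime (Nat.card P) := (Core.isPGroup_coprime_card hP hkp).symm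
    refine ⟨k, hkP, fun g => ?_⟩
    by_cases hg : g ∈ center P
    · obtain ⟨i, hi⟩ := (mem_powers_iff_mem_zpowers.2 (hz ⟨g, hg⟩))
      have e3 : cchar ψ.2 ⟨g, hg⟩ = cchar χ.2 (⟨g, hg⟩ ^ k) := by
        dsimp only at hi
        rw [← hi, map_pow, ← e, map_pow, map_pow, ← pow_mul, ← pow_mul, mul_comm]
      change (ψ : P → ℂ) g / (ψ : P → ℂ) 1 = (χ : P → ℂ) (g ^ k) / (χ : P → ℂ) 1 at e3
      rw [← irr_deg_cast ψ, ← h2, irr_deg_cast] at e3
      exact (div_left_inj' (irr_one_ne_zero χ.2)).1 e3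
    · rw [eq_zero_of_class_two hcZ ψ.2 hψf hg, eq_zero_of_class_two hcZ χ.2 hχf
        fun e => hg (mem_of_pow_mem_of_coprime hkP e)]

end Cfsg.Agent.S4845
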