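import Cfsg.Statements.S4848
import Cfsg.Agent.Lib.VanP.D

set_option autoImplicit false
open Cfsg

namespace Cfsg.Agent.S4848

/-- Let p be a prime and G a finite non-commutative group in which every vanishing element (an element at which some irreducible character is zero) has order a positive power of p. Then either G is a p-group, or the centre of G equals O_p(G) and G/Z(G) is a Frobenius group with a Frobenius complement of p-power order. -/
theorem result {G : Type*} [Group G] [Finite G] (hna : ¬ IsMulCommutative G) (p : ℕ) [Fact p.Prime] (hvan : ∀ g : G, (∃ χ : Cfsg.IrrCharacter G, (χ : G → ℂ) g = 0) → ∃ m : ℕ, 1 ≤ m ∧ orderOf g = p ^ m) :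
    IsPGroup p G ∨ (Subgroup.center G = Cfsg.pCore p G ∧ ∃ H : Subgroup (G ⧸ Subgroup.center G), Cfsg.IsFrobeniusComplement H ∧ IsPGroup p H) := by
    exact CfsgLib.VanP.main_pel hna fun g ⟨χ, hχ, e⟩ => by
      obtain ⟨m, -, hm⟩ := hvan g ⟨⟨χ, hχ⟩, e⟩
      exact ⟨m, by rw [← hm, pow_orderOf_eq_one]⟩

end Cfsg.Agent.S4848
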