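import Cfsg.Statements.S4850
import Cfsg.Agent.Lib.VanP.C

set_option autoImplicit false
open Cfsg

namespace Cfsg.Agent.S4850

/-- Let p be a prime and G a finite solvable group whose vanishing elements (elements at which some irreducible character is zero) of order divisible by p all have the same order, with at least one such element. Let P be a Sylow p-subgroup of G. Then the derived subgroup of P is subnormal in G and the image of P in G/O_p(G) is cyclic. -/
theorem result {G : Type*} [Group G] [Finite G] [hs : Group.IsSolvable G] (p : ℕ) [Fact p.Prime] (b : ℕ) (hvo : {n : ℕ | p ∣ n ∧ ∃ (g : G) (χ : Cfsg.IrrCharacter G), orderOf g = n ∧ (χ : G → ℂ) g = 0} = {b}) (P : Sylow p G) :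
    ((commutator ↥(P : Subgroup G)).map (P : Subgroup G).subtype).IsSubnormal ∧ IsCyclic ↥((P : Subgroup G).map (QuotientGroup.mk' (Cfsg.pCore p G))) := by
  have hp : p.Prime := Fact.out
  have h := CfsgLib.VanP.main (p := p) (G := G) (fun g h ⟨χ, hχ, e⟩ ⟨ψ, hψ, e'⟩ pg ph =>
    (hvo.le ⟨pg, g, ⟨χ, hχ⟩, rfl, e⟩).trans (hvo.le ⟨ph, h, ⟨ψ, hψ⟩, rfl, e'⟩).symm) P
  have hc : IsCyclic ↥((P : Subgroup G).map (QuotientGroup.mk' (Cfsg.pCore p G))) := by
    rcases (P.2.map (QuotientGroup.mk' (Cfsg.pCore p G))).card_eq_or_dvd with h1 | h1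
    · have := (Nat.card_eq_one_iff_unique.1 h1).1
      infer_instance
    · exact isCyclic_of_prime_card (le_antisymm h (Nat.le_of_dvd Nat.card_pos h1))
  refine ⟨CfsgLib.Core.isSubnormal_of_le_fittingSubgroup
    (le_trans ?_ (CfsgLib.Core.pCore_le_fittingSubgroup hp)), hc⟩
  rw [Subgroup.map_subtype_commutator]
  refine Subgroup.commutator_le.2 fun a ha b hb => (QuotientGroup.eq_one_iff _).1 ?_
  change QuotientGroup.mk' (Cfsg.pCore p G) _ = 1
  rw [map_commutatorElement, commutatorElement_eq_one_iff_mul_comm]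
  exact congrArg Subtype.val (mul_comm' (M := (P : Subgroup G).map (QuotientGroup.mk' (Cfsg.pCore p G)))
    ⟨_, Subgroup.mem_map_of_mem _ ha⟩ ⟨_, Subgroup.mem_map_of_mem _ hb⟩)

end Cfsg.Agent.S4850
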