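import Cfsg.Statements.S4866
import Cfsg.Agent.Lib.Char.PermLemma

set_option autoImplicit false
open Cfsg

namespace Cfsg.Agent.S4866

open Cfsg CfsgLib.Char MulAction
open scoped ComplexConjugate

section

attribute [local instance] Classical.propDecidable

variable {G : Type*} [Group G] [Finite G] (K : Subgroup G) [K.Normal]

theorem isConj_map_iff {X : Type*} [Group X] (e : X ≃* X) {a b : X} : IsConj (e a) (e b) ↔ IsConj a b :=
  ⟨fun h => by simpa using e.symm.toMonoidHom.map_isConj h, e.toMonoidHom.map_isConj⟩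

theorem isConj_inv_iff {X : Type*} [Group X] {a b : X} : IsConj a⁻¹ b⁻¹ ↔ IsConj a b := by
  have : ∀ a b : X, IsConj a b → IsConj a⁻¹ b⁻¹ := fun a b h => by
    obtain ⟨c, rfl⟩ := isConj_iff.1 h
    exact isConj_iff.2 ⟨c, by group⟩
  exact ⟨fun h => by simpa using this _ _ h, this a b⟩

@[reducible] def actX : MulAction G {θ : IrrCharacter K // ∀ k : K, ((θ : K → ℂ) k).im = 0} where
  smul g θ := ⟨⟨_, isIrr_comp_mulEquiv (MulAut.conjNormal g⁻¹) θ.1.2⟩, fun k => θ.2 _⟩
  one_smul θ := Subtype.ext (Subtype.ext (funext fun k => by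
    change θ.1.1 (MulAut.conjNormal 1⁻¹ k) = _
    simp))
  mul_smul g h θ := Subtype.ext (Subtype.ext (funext fun k => by
    change θ.1.1 (MulAut.conjNormal (g * h)⁻¹ k) = θ.1.1 (MulAut.conjNormal h⁻¹ (MulAut.conjNormal g⁻¹ k))
    rw [mul_inv_rev, map_mul, MulAut.mul_apply]))

@[reducible] def actY : MulAction G {C : ConjClasses K // ∀ x, ConjClasses.mk x = C → IsConj x x⁻¹} where
  smul g C := ⟨ConjClasses.map (MulAut.conjNormal g).toMonoidHom C.1, by
    obtain ⟨C, hC⟩ := C
    obtain ⟨y, rfl⟩ := ConjClasses.mk_surjective C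
    intro x hx
    have h : IsConj x (MulAut.conjNormal g y) := ConjClasses.mk_eq_mk_iff_isConj.1 hx
    refine h.trans (IsConj.trans ?_ (isConj_inv_iff.2 h.symm))
    rw [← map_inv, isConj_map_iff]
    exact hC y rfl⟩
  one_smul := by
    rintro ⟨C, hC⟩
    obtain ⟨y, rfl⟩ := ConjClasses.mk_surjective C
    exact Subtype.ext (congrArg ConjClasses.mk (by simp))
  mul_smul g h := by
    rintro ⟨C, hC⟩
    obtain ⟨y, rfl⟩ := ConjClasses.mk_surjective C
    exact Subtype.ext (congrArg ConjClasses.mk (by simp))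

theorem odd_aux {X : Type*} {r : X → X → Prop} (hr : Equivalence r) (a : MulAut K → X → X) (hodd : Odd K.index)
    (ha : ∀ s t x, a (s * t) x = a s (a t x)) (ha1 : ∀ (k : K) x, r (a (MulAut.conjNormal (k : G)) x) x)
    (har : ∀ s x y, r x y → r (a s x) (a s y)) {g : G} {x : X}
    (h : r (a (MulAut.conjNormal g) (a (MulAut.conjNormal g) x)) x) : r (a (MulAut.conjNormal g) x) x := by
  obtain ⟨m, hm⟩ := hodd
  have h1 := ha1 ⟨_, K.pow_index_mem g⟩ x
  have h2 : ∀ n : ℕ, r (a (MulAut.conjNormal (g ^ (2 * n + 1))) x) (a (MulAut.conjNormal g) x) := fun n => by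
    induction n with
    | zero => simpa using hr.refl _
    | succ n ih =>
      rw [show g ^ (2 * (n + 1) + 1) = g ^ (2 * n + 1) * (g * g) by group, map_mul, map_mul, ha, ha]
      exact hr.trans (har _ _ _ h) ih
  simp only [hm] at h1
  exact hr.trans (hr.symm (h2 m)) h1

theorem card_fixed (hodd : Odd K.index) (g : G) :
    Nat.card (@fixedBy G _ _ (actX K) g⁻¹) = Nat.card (@fixedBy G _ _ (actY K) g) := by
  have h := brauer_perm_lemma (fun x : K => (MulAut.conjNormal g x)⁻¹)
    (fun χ hχ => isIrr_comp_mulEquiv (MulAut.conjNormal g) (isIrr_inv hχ))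
    (fun C => ∀ x, ConjClasses.mk x = C → IsConj (MulAut.conjNormal g x)⁻¹ x) fun y => ⟨fun h => h y rfl,
      fun h x hx => by
        have h1 := ConjClasses.mk_eq_mk_iff_isConj.1 hx
        exact ((isConj_inv_iff.2 ((isConj_map_iff _).2 h1)).trans h).trans h1.symm⟩
  refine Eq.trans ?_ (h.trans ?_)
  · refine Nat.card_congr ((Equiv.subtypeSubtypeEquivSubtypeExists _ _).trans (Equiv.subtypeEquivRight
      fun χ => ⟨fun ⟨h1, h2⟩ => funext fun x => ?_, fun h1 => ?_⟩))
    · have := congrFun (congrArg (fun t => t.1.1) h2) x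
      rw [char_inv (irr_isCharacter χ), Complex.conj_eq_iff_im.2 (h1 _), ← this]
      change _ = χ.1 (MulAut.conjNormal g⁻¹⁻¹ x)
      rw [inv_inv]
    · have h2 : ∀ x, χ.1 (MulAut.conjNormal g x)⁻¹ = χ.1 x := congrFun h1
      have h3 : (fun x => χ.1 (MulAut.conjNormal g x)) = χ.1 := by
        have := odd_aux K (r := Eq) eq_equivalence (fun s (f : IrrCharacter K) => ⟨_, isIrr_comp_mulEquiv s⁻¹ f.2⟩)
          hodd (fun s t f => by simp) (fun k f => Subtype.ext (funext fun x => ?_)) (fun _ _ _ h => h ▸ rfl)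
          (g := g⁻¹) (x := χ) (Subtype.ext (funext fun x => ?_))
        · simpa using congrArg Subtype.val this
        · exact classFun_eq_of_isConj (irr_isClassFunction f) (isConj_iff.2 ⟨k, Subtype.ext (by simp [mul_assoc])⟩)
        · simp only [map_inv, inv_inv]
          rw [← h2 x, ← h2 (MulAut.conjNormal g x)⁻¹, map_inv, inv_inv]
      refine ⟨fun x => ?_, Subtype.ext (Subtype.ext (funext fun x => ?_))⟩
      · rw [← Complex.conj_eq_iff_im, ← congrFun h3 x, ← char_inv (irr_isCharacter χ), h2, congrFun h3 x]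
      · change χ.1 (MulAut.conjNormal g⁻¹⁻¹ x) = _
        rw [inv_inv, congrFun h3 x]
  · refine (Nat.card_congr ((Equiv.subtypeSubtypeEquivSubtypeExists _ _).trans (Equiv.subtypeEquivRight
      fun C => ?_))).symm
    obtain ⟨y, rfl⟩ := ConjClasses.mk_surjective C
    refine ⟨fun ⟨h1, h2⟩ x hx => ?_, fun h1 => ?_⟩
    · have h3 : IsConj (MulAut.conjNormal g y) y := ConjClasses.mk_eq_mk_iff_isConj.1 (congrArg Subtype.val h2)
      have h4 := ConjClasses.mk_eq_mk_iff_isConj.1 hx
      exact (isConj_inv_iff.2 ((((isConj_map_iff _).2 h4).trans h3).trans h4.symm)).trans (h1 x hx).symm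
    · have h3 : ∀ x, ConjClasses.mk x = ConjClasses.mk y → IsConj (MulAut.conjNormal g x) x := fun x hx =>
        odd_aux K (r := IsConj) ⟨IsConj.refl, IsConj.symm, IsConj.trans⟩ (fun s x => s x) hodd (fun _ _ _ => rfl)
          (fun k x => (isConj_iff.2 ⟨k, rfl⟩).symm) (fun s _ _ h => (isConj_map_iff s).2 h) (by
            have h4 := h1 x hx
            have h5 := isConj_inv_iff.2 ((isConj_map_iff (MulAut.conjNormal g)).2 h4)
            rw [map_inv, inv_inv] at h5
            exact h5.trans h4)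
      exact ⟨fun x hx => (h1 x hx).symm.trans (isConj_inv_iff.2 (h3 x hx)),
        Subtype.ext (ConjClasses.mk_eq_mk_iff_isConj.2 (h3 y rfl))⟩

end

/-- Let K be a normal subgroup of odd index in the finite group G. Then G has as many orbits on the real-valued irreducible complex characters of K (acting by conjugation) as it has orbits on the conjugacy classes of K that are real in K; equivalently, the number of G-orbits of real-valued irreducible characters of K equals the number of G-conjugacy classes of elements of K that are conjugate in K to their inverses. -/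
theorem result {G : Type*} [Group G] [Finite G] (K : Subgroup G) [K.Normal] (hodd : Odd K.index) : Nat.card (Quot (fun θ η : {θ : Cfsg.IrrCharacter ↥K // (∀ k : ↥K, ((θ : ↥K → ℂ) k).im = 0)} => ∃ g : G, ∀ k k' : ↥K, (k' : G) = g * (k : G) * g⁻¹ → (η.1 : ↥K → ℂ) k' = (θ.1 : ↥K → ℂ) k)) = Nat.card (Quot (fun x y : {x : ↥K // IsConj x x⁻¹} => ∃ g : G, (y.1 : G) = g * x.1 * g⁻¹)) := by
  classical
  letI := actX K
  letI := actY K
  have := Fintype.ofFinite G
  have := finite_irr (G := K)
  letI : ∀ g : G, Fintype (fixedBy {C : ConjClasses K // ∀ x, ConjClasses.mk x = C → IsConj x x⁻¹} g) :=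
    fun g => Fintype.ofFinite _
  letI := Fintype.ofFinite (Quotient (orbitRel G {C : ConjClasses K // ∀ x, ConjClasses.mk x = C → IsConj x x⁻¹}))
  have h1 := sum_card_fixedBy_eq_card_orbits_mul_card_group G {θ : IrrCharacter K // ∀ k : K, ((θ : K → ℂ) k).im = 0}
  have h2 := sum_card_fixedBy_eq_card_orbits_mul_card_group G
    {C : ConjClasses K // ∀ x, ConjClasses.mk x = C → IsConj x x⁻¹}
  simp only [← Nat.card_eq_fintype_card] at h1 h2
  rw [← Fintype.sum_equiv (Equiv.inv G) _ _ (fun g => (card_fixed K hodd g).symm), h2] at h1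
  refine Eq.trans ?_ ((Nat.eq_of_mul_eq_mul_right Nat.card_pos h1).symm.trans ?_)
  · refine Nat.card_congr (Quot.congrRight fun θ η => ⟨fun ⟨g, h⟩ => ⟨g⁻¹, Subtype.ext (Subtype.ext
      (funext fun k => h k _ ?_))⟩, fun ⟨g, h⟩ => ⟨g⁻¹, fun k k' e => ?_⟩⟩)
    · simp
    · rw [← h]
      exact congrArg η.1.1 (Subtype.ext e)
  · let f : {x : K // IsConj x x⁻¹} → {C : ConjClasses K // ∀ x, ConjClasses.mk x = C → IsConj x x⁻¹} :=
      fun x => ⟨ConjClasses.mk x.1, fun y hy => by
        have h := ConjClasses.mk_eq_mk_iff_isConj.1 hy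
        exact (h.trans x.2).trans (isConj_inv_iff.2 h.symm)⟩
    refine (Nat.card_eq_of_bijective (Quot.lift (fun x => Quotient.mk (orbitRel G _) (f x)) ?_) ⟨?_, ?_⟩).symm
    · rintro x y ⟨g, h⟩
      exact (Quotient.sound (s := orbitRel G _) ⟨g, Subtype.ext
        (congrArg ConjClasses.mk (Subtype.ext h.symm))⟩).symm
    · rintro ⟨x⟩ ⟨y⟩ h
      obtain ⟨g, h⟩ := Quotient.exact h
      obtain ⟨k, hk⟩ := isConj_iff.1 (ConjClasses.mk_eq_mk_iff_isConj.1 (congrArg Subtype.val h))
      exact (Quot.sound ⟨k * g, by simp [← hk, mul_assoc]⟩).symm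
    · rintro ⟨C, hC⟩
      obtain ⟨y, rfl⟩ := ConjClasses.mk_surjective C
      exact ⟨Quot.mk _ ⟨y, hC y rfl⟩, rfl⟩

end Cfsg.Agent.S4866
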