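import Cfsg.Statements.S4870
import Cfsg.Agent.Lib.CharDeep.Gallagher
import Cfsg.Agent.Lib.Char.Clifford
import Cfsg.Agent.Lib.Char.Kernel
import Cfsg.Agent.Lib.Block.Omega

set_option autoImplicit false
open Cfsg

namespace Cfsg.Agent.S4870

open CfsgLib CfsgLib.Char CfsgLib.Block
open scoped commutatorElement

/-- Let G be a finite group with a non-abelian minimal normal subgroup N, and let φ be an irreducible complex character of N with stabilizer I in G (the elements g with φ(g n g⁻¹) = φ(n) for all n ∈ N) such that φ extends to an irreducible character of I. Put d = φ(1)·[G : I]. Then the number of linear characters of G is at most [G : I] times the number of irreducible characters of G of degree d. -/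
theorem result {G : Type*} [Group G] [Finite G] (N : Subgroup G) (hN : N.Normal) (hN1 : N ≠ ⊥) (hmin : ∀ M : Subgroup G, M.Normal → M ≤ N → M = ⊥ ∨ M = N) (hna : ¬ IsMulCommutative ↥N) (φ : Cfsg.IrrCharacter ↥N) (I : Subgroup G) (hI : ∀ g : G, g ∈ I ↔ ∀ n n' : ↥N, (n' : G) = g * (n : G) * g⁻¹ → (φ : ↥N → ℂ) n' = (φ : ↥N → ℂ) n) (hNI : N ≤ I) (hext : ∃ ψ : Cfsg.IrrCharacter ↥I, ∀ n : ↥N, (ψ : ↥I → ℂ) (Subgroup.inclusion hNI n) = (φ : ↥N → ℂ) n) : Nat.card {χ : Cfsg.IrrCharacter G // Cfsg.charDegree (χ : G → ℂ) = 1} ≤ I.index * Nat.card {χ : Cfsg.IrrCharacter G // Cfsg.charDegree (χ : G → ℂ) = Cfsg.charDegree (φ : ↥N → ℂ) * I.index} := by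
  classical
  have := Fintype.ofFinite G
  obtain ⟨ψ, hψ⟩ := hext
  have hT : I = inertia N (φ : N → ℂ) := by
    ext g
    rw [hI, mem_inertia']
    exact ⟨fun h n => h n _ rfl, fun h n n' e => (congrArg (φ : N → ℂ) (Subtype.ext e)).trans (h n)⟩
  have hp : ⁅N, N⁆ = N := (hmin _ inferInstance (Subgroup.commutator_le_left N N)).resolve_left
    fun h => hna ⟨⟨fun a b => Subtype.ext (by
      have := Subgroup.commutator_mem_commutator a.2 b.2
      rw [h, Subgroup.mem_bot, commutatorElement_eq_one_iff_mul_comm] at this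
      exact this)⟩⟩
  have hle : N.subgroupOf I ≤ commutator I := by
    rw [← Subgroup.map_le_map_iff_of_injective I.subtype_injective, Subgroup.map_subtype_commutator,
      Subgroup.subgroupOf_map_subtype]
    exact inf_le_left.trans (hp.ge.trans (Subgroup.commutator_mono hNI hNI))
  have e1 : ∀ (X : Type _) [Group X] [Finite X] (χ : IrrCharacter X),
      charDegree (χ : X → ℂ) = 1 ↔ (χ : X → ℂ) 1 = 1 := fun X _ _ χ => by
    rw [← charDegree_eq (irr_isCharacter χ), Nat.cast_eq_one]
  rw [Nat.card_congr (Equiv.subtypeEquivRight (e1 G)), card_linear_irr]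
  have h1 : (commutator G).index ≤ I.index * (commutator I).index := by
    rw [mul_comm, ← Subgroup.index_map_subtype]
    refine Nat.le_of_dvd (Nat.pos_of_ne_zero Subgroup.index_ne_zero_of_finite)
      (Subgroup.index_dvd_of_le ?_)
    rw [Subgroup.map_subtype_commutator]
    exact Subgroup.commutator_mono le_top le_top
  refine h1.trans (Nat.mul_le_mul_left _ ?_)
  rw [← card_linear_irr]
  have hres : IsIrrCharacter (N.subgroupOf I) fun n : N.subgroupOf I => (ψ : I → ℂ) n := by
    have := isIrr_comp_mulEquiv (Subgroup.subgroupOfEquivOfLe hNI) φ.2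
    convert this using 2 with n
    rw [← hψ]
    rfl
  have hker : ∀ l : {χ : IrrCharacter I // (χ : I → ℂ) 1 = 1}, ∀ n ∈ N.subgroupOf I,
      (l.1 : I → ℂ) n = (l.1 : I → ℂ) 1 := fun l n hn =>
    (mem_charKer (irr_isCharacter l.1)).1 ((irr_one_eq_one_iff l.1.2).1 l.2 (hle hn))
  have hirr := fun l : {χ : IrrCharacter I // (χ : I → ℂ) 1 = 1} =>
    CharDeep.gallagher_isIrr _ (irr_isCharacter ψ) hres l.1.2 (hker l)
  have hover : ∀ l : {χ : IrrCharacter I // (χ : I → ℂ) 1 = 1},
      classInner (fun n : N => ((l.1 : I → ℂ) * (ψ : I → ℂ)) ⟨n, hNI n.2⟩) (φ : N → ℂ) ≠ 0 := by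
    intro l
    have : (fun n : N => ((l.1 : I → ℂ) * (ψ : I → ℂ)) ⟨n, hNI n.2⟩) = (φ : N → ℂ) := by
      ext n
      rw [Pi.mul_apply, hker l _ n.2, l.2, one_mul, ← hψ]
      rfl
    rw [this, classInner_irr_self φ.2]
    exact one_ne_zero
  refine Nat.card_le_card_of_injective (fun l => ⟨⟨indFun I ((l.1 : I → ℂ) * (ψ : I → ℂ)),
    isIrr_indFun_inertia N I hNI φ.2 hT (hirr l) (hover l)⟩, charDegree_eq_of_eq ?_⟩)
    fun l l' e => ?_
  · have := hψ 1
    rw [map_one] at this
    change indFun I _ 1 = _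
    rw [indFun_one, Pi.mul_apply, l.2, one_mul, this, Nat.cast_mul,
      charDegree_eq (irr_isCharacter φ), mul_comm]
  · exact Subtype.ext (Subtype.ext (CharDeep.gallagher_inj _ (irr_isCharacter ψ) hres l.1.2 (hker l)
      l'.1.2 (hker l') (clifford_corr_inj N I hNI φ.2 hT (hirr l) (hirr l') (hover l) (hover l')
        (congrArg (fun x => (x.1 : G → ℂ)) e))))

end Cfsg.Agent.S4870
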