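import Mathlib
import Cfsg.Statements.S4886
import Cfsg.Agent.Lib.McKay.NW
import Cfsg.Agent.Lib.Cover.PSolvHt

set_option autoImplicit false
open Cfsg

namespace Cfsg.Agent.S4886

open CfsgLib.Char CfsgLib.ChDeg CfsgLib.McKay CfsgLib.Coprime CfsgLib.PLocal Subgroup
open scoped commutatorElement

theorem not_dvd_index_of_norm {G : Type*} [Group G] [Finite G] {p q : ℕ} [hp : Fact p.Prime]
    [hq : Fact q.Prime] (hpq : p ≠ q) (hps : IsPSolvable p G) (P : Sylow p (G ⧸ pPrimeCore p G))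
    (Q : Sylow q (G ⧸ pPrimeCore p G))
    (h : (P : Subgroup (G ⧸ pPrimeCore p G)) ≤
      normalizer ((Q : Subgroup (G ⧸ pPrimeCore p G)) : Set (G ⧸ pPrimeCore p G))) :
    ¬ q ∣ (pPrimeCore p G).index := by
  have hdisj : Disjoint (pCore p (G ⧸ pPrimeCore p G)) (Q : Subgroup (G ⧸ pPrimeCore p G)) :=
    IsPGroup.disjoint_of_ne p q hpq _ _ PSolv.isPGroup_pCore Q.isPGroup'
  have h1 : (Q : Subgroup (G ⧸ pPrimeCore p G)) ≤ pCore p (G ⧸ pPrimeCore p G) := by
    refine le_trans ?_ (PSolv.centralizer_pCore_le (PSolv.quotient hps _) PSolv.pPrimeCore_quotient)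
    rw [← commutator_eq_bot_iff_le_centralizer, eq_bot_iff, ← disjoint_iff.1 hdisj]
    exact le_inf (commutator_le_right _ _)
      (commutator_le_of_le_normalizer ((PSolv.pCore_le_sylow P).trans h))
  have h2 : (Q : Subgroup (G ⧸ pPrimeCore p G)) = ⊥ := by
    rw [eq_bot_iff, ← disjoint_iff.1 hdisj]
    exact le_inf h1 le_rfl
  have h3 := Q.not_dvd_index
  rwa [h2, index_bot] at h3

theorem not_dvd_index_of_deg {G : Type*} [Group G] [Finite G] {p q : ℕ} [hp : Fact p.Prime]
    [hq : Fact q.Prime] (hpq : p ≠ q) {M : Ideal AlgInt} (hM : IsPModular p M)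
    (hps : IsPSolvable p G) (hqs : IsPSolvable q G)
    (h : ∀ χ : IrrCharacter G, χ ∈ principalBlock M G → ¬ p ∣ charDegree (χ : G → ℂ) →
      ¬ q ∣ charDegree (χ : G → ℂ)) : ¬ q ∣ (pPrimeCore p G).index := by
  obtain ⟨P⟩ := (inferInstance : Nonempty (Sylow p (G ⧸ pPrimeCore p G)))
  obtain ⟨Q, hQ, -⟩ := nw hpq (PSolv.quotient hps _) (PSolv.quotient hqs (pPrimeCore p G))
    (fun χ hχ => h ⟨_, isIrr_infl _ hχ⟩
      ((CfsgLib.Cover.principalBlock_eq_of_isPSolvable hM hps _).2 fun n hn => by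
        change χ (n : G ⧸ pPrimeCore p G) = χ ((1 : G) : G ⧸ pPrimeCore p G)
        rw [(QuotientGroup.eq_one_iff n).2 hn, QuotientGroup.mk_one])) P
  exact not_dvd_index_of_norm hpq hps P Q hQ

theorem le_of_not_dvd_index {G : Type*} [Group G] [Finite G] {q : ℕ} [hq : Fact q.Prime]
    {N Q : Subgroup G} [N.Normal] (hN : ¬ q ∣ N.index) (hQ : IsPGroup q Q) : Q ≤ N := by
  obtain ⟨a, ha⟩ := (hQ.map (QuotientGroup.mk' N)).exists_card_eq
  have h1 : q ^ a ∣ N.index := ha ▸ card_subgroup_dvd_card _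
  have h2 : a = 0 := by
    by_contra h
    exact hN ((dvd_pow_self q h).trans h1)
  rw [h2, pow_zero, card_eq_one, Subgroup.map_eq_bot_iff, QuotientGroup.ker_mk'] at ha
  exact ha

theorem deg_of_comm {G : Type*} [Group G] [Finite G] {p q : ℕ} [hp : Fact p.Prime]
    [hq : Fact q.Prime] (hpq : p ≠ q) {M : Ideal AlgInt} (hM : IsPModular p M)
    (hps : IsPSolvable p G) (P : Sylow p G) (Q : Sylow q G)
    (h : ∀ x ∈ (P : Subgroup G), ∀ y ∈ (Q : Subgroup G), x * y = y * x) (χ : IrrCharacter G)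
    (hχ : χ ∈ principalBlock M G) : ¬ q ∣ charDegree (χ : G → ℂ) := by
  have hf := QuotientGroup.mk'_surjective (pPrimeCore p G)
  have h0 : (P : Subgroup G) ≤ centralizer ((Q : Subgroup G) : Set G) :=
    fun x hx y hy => (h x hx y hy).symm
  have h1 := not_dvd_index_of_norm hpq hps (P.mapSurjective hf) (Q.mapSurjective hf)
    (le_normalizer_map_of_le _ (h0.trans (centralizer_le_normalizer _)))
  refine fun h2 => h1 (h2.trans (deg_dvd_index_of_le_cker χ.2 _ fun n hn => ?_))
  exact (mem_cker (isCharacter_of_isIrr χ.2)).2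
    ((CfsgLib.Cover.principalBlock_eq_of_isPSolvable hM hps _).1 hχ n hn)


/-- Let p ≠ q be primes and G a finite group that is p-solvable and q-solvable. Fix maximal ideals of the algebraic integers containing p and q, defining the principal p-block and the principal q-block. Then every irreducible character of degree prime to p in the principal p-block has degree prime to q and every irreducible character of degree prime to q in the principal q-block has degree prime to p, if and only if some Sylow p-subgroup of G commutes elementwise with some Sylow q-subgroup. -/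
theorem result {G : Type*} [Group G] [Finite G] (p q : ℕ) [Fact p.Prime] [Fact q.Prime] (hpq : p ≠ q) (Mp Mq : Ideal Cfsg.AlgInt) (hMp : Cfsg.IsPModular p Mp) (hMq : Cfsg.IsPModular q Mq) (hps : Cfsg.IsPSolvable p G) (hqs : Cfsg.IsPSolvable q G) : ((∀ χ : Cfsg.IrrCharacter G, χ ∈ Cfsg.principalBlock Mp G → ¬ p ∣ Cfsg.charDegree (χ : G → ℂ) → ¬ q ∣ Cfsg.charDegree (χ : G → ℂ)) ∧ (∀ χ : Cfsg.IrrCharacter G, χ ∈ Cfsg.principalBlock Mq G → ¬ q ∣ Cfsg.charDegree (χ : G → ℂ) → ¬ p ∣ Cfsg.charDegree (χ : G → ℂ))) ↔ ∃ (P : Sylow p G) (Q : Sylow q G), ∀ x ∈ (P : Subgroup G), ∀ y ∈ (Q : Subgroup G), x * y = y * x := by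
  constructor
  · rintro ⟨h1, h2⟩
    have h3 := not_dvd_index_of_deg hpq hMp hps hqs h1
    have h4 := not_dvd_index_of_deg hpq.symm hMq hqs hps h2
    obtain ⟨P⟩ := (inferInstance : Nonempty (Sylow p G))
    obtain ⟨U, hU, hPU⟩ := (hallGood_pq hps hqs).exists_isPiHall_ge
      (isPiNum_card_of_isPGroup (Fact.out : p.Prime) P.isPGroup' (by simp))
    obtain ⟨R, -, hRU, hR, hRi⟩ := exists_le_sylow_relIndex (p := q) (K := U) bot_le IsPGroup.of_bot
    have hRi' : ¬ q ∣ R.index := by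
      rw [← relIndex_mul_index hRU]
      intro h
      rcases (Nat.Prime.dvd_mul Fact.out).1 h with h | h
      · exact hRi h
      · exact (isPiHall_iff.1 hU).2 q Fact.out h (by simp)
    refine ⟨P, hR.toSylow hRi', fun x hx y hy => ?_⟩
    have hy' : y ∈ R := hy
    have hx1 : x ∈ pPrimeCore q G := le_of_not_dvd_index h4 P.isPGroup' hx
    have hy1 : y ∈ pPrimeCore p G := le_of_not_dvd_index h3 hR hy'
    have hm : ⁅x, y⁆ ∈ U ⊓ (pPrimeCore p G ⊓ pPrimeCore q G) := by
      refine ⟨?_, ?_, ?_⟩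
      · exact U.mul_mem (U.mul_mem (U.mul_mem (hPU hx) (hRU hy')) (U.inv_mem (hPU hx)))
          (U.inv_mem (hRU hy'))
      · exact commutator_le_right ⊤ _ (commutator_mem_commutator (mem_top x) hy1)
      · exact commutator_le_left _ ⊤ (commutator_mem_commutator hx1 (mem_top y))
    have hbot : U ⊓ (pPrimeCore p G ⊓ pPrimeCore q G) = ⊥ := by
      refine disjoint_iff.1 (disjoint_of_coprime_natCard (Nat.coprime_of_dvd fun r hr h5 h6 => ?_))
      rcases (isPiHall_iff.1 hU).1 r hr h5 with rfl | rfl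
      · exact (Nat.Prime.coprime_iff_not_dvd hr).1 PSolv.coprime_card_pPrimeCore.symm
          (h6.trans (card_dvd_of_le inf_le_left))
      · exact (Nat.Prime.coprime_iff_not_dvd hr).1 PSolv.coprime_card_pPrimeCore.symm
          (h6.trans (card_dvd_of_le inf_le_right))
    rw [hbot, mem_bot] at hm
    exact commutatorElement_eq_one_iff_mul_comm.1 hm
  · rintro ⟨P, Q, h⟩
    exact ⟨fun χ hχ _ => deg_of_comm hpq hMp hps P Q h χ hχ,
      fun χ hχ _ => deg_of_comm hpq.symm hMq hqs Q P (fun y hy x hx => (h x hx y hy).symm) χ hχ⟩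

end Cfsg.Agent.S4886
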