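import Mathlib
import Cfsg.Statements.S4885
import Cfsg.Agent.S4886

set_option autoImplicit false
open Cfsg

namespace Cfsg.Agent.S4885

open CfsgLib.Char CfsgLib.ChDeg CfsgLib.McKay CfsgLib.Coprime CfsgLib.PLocal Subgroup

/-- Let p and q be primes dividing the order of the finite group G, and suppose G is p-solvable and q-solvable. Fix maximal ideals of the algebraic integers containing p and q, defining the principal p-block and the principal q-block. If the irreducible characters of degree prime to p in the principal p-block are exactly the irreducible characters of degree prime to q in the principal q-block, then p = q. -/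
theorem result {G : Type*} [Group G] [Finite G] (p q : ℕ) [Fact p.Prime] [Fact q.Prime] (hp : p ∣ Nat.card G) (hq : q ∣ Nat.card G) (hps : Cfsg.IsPSolvable p G) (hqs : Cfsg.IsPSolvable q G) (Mp Mq : Ideal Cfsg.AlgInt) (hMp : Cfsg.IsPModular p Mp) (hMq : Cfsg.IsPModular q Mq) (h : ∀ χ : Cfsg.IrrCharacter G, (χ ∈ Cfsg.principalBlock Mp G ∧ ¬ p ∣ Cfsg.charDegree (χ : G → ℂ)) ↔ (χ ∈ Cfsg.principalBlock Mq G ∧ ¬ q ∣ Cfsg.charDegree (χ : G → ℂ))) : p = q := by
  by_contra hpq
  have h3 := S4886.not_dvd_index_of_deg hpq hMp hps hqs fun χ h1 h2 => ((h χ).1 ⟨h1, h2⟩).2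
  have h4 := S4886.not_dvd_index_of_deg (Ne.symm hpq) hMq hqs hps
    fun χ h1 h2 => ((h χ).2 ⟨h1, h2⟩).2
  have hf := QuotientGroup.mk'_surjective (pPrimeCore p G)
  obtain ⟨P⟩ := (inferInstance : Nonempty (Sylow p G))
  set P' := P.mapSurjective hf with hP'
  have hpi : p ∣ (pPrimeCore p G).index := by
    rw [← card_mul_index (pPrimeCore p G)] at hp
    exact (PSolv.coprime_card_pPrimeCore.symm).dvd_of_dvd_mul_left hp
  have hne : (P' : Subgroup (G ⧸ pPrimeCore p G)) ≠ ⊥ := by
    intro h0
    have := P'.not_dvd_index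
    rw [h0, index_bot] at this
    exact this hpi
  have hnt : Nontrivial P' := (nontrivial_iff_ne_bot _).2 hne
  have hsol := isSolvable_of_isPGroup P'.isPGroup'
  have hlt : _root_.commutator P' < ⊤ := Group.IsSolvable.commutator_lt_top_of_nontrivial _
  obtain ⟨x, -, hx⟩ := SetLike.exists_of_lt hlt
  have hne' : Abelianization.of x ≠ 1 := by
    intro h0
    exact hx (by rw [← Abelianization.ker_of]; exact h0)
  obtain ⟨φ, hφ⟩ := CommGroup.exists_apply_ne_one_of_hasEnoughRootsOfUnity _ ℂ hne'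
  obtain ⟨χ, hχ, ho, hd⟩ := exists_over_not_dvd (Fact.out : p.Prime) _ P'.not_dvd_index
    (isIrr_unitsHom (φ.comp Abelianization.of)) (by
      rw [deg_eq_of_eq (n := 1) (by simp)]
      exact (Fact.out : p.Prime).not_dvd_one)
  have := Fintype.ofFinite P'
  refine not_le_cker_of_over _ (isCharacter_of_isIrr hχ) (isIrr_unitsHom (φ.comp Abelianization.of))
    (fun h0 => hφ (Units.ext (congrFun h0 x))) (over_iff.mp ho :) ?_
  have h5 := ((h ⟨_, isIrr_infl _ hχ⟩).1
    ⟨(CfsgLib.Cover.principalBlock_eq_of_isPSolvable hMp hps _).2 fun n hn => by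
        change χ (n : G ⧸ pPrimeCore p G) = χ ((1 : G) : G ⧸ pPrimeCore p G)
        rw [(QuotientGroup.eq_one_iff n).2 hn, QuotientGroup.mk_one], hd⟩).1
  rintro _ ⟨y, hy, rfl⟩
  exact (mem_cker (isCharacter_of_isIrr hχ)).2
    ((CfsgLib.Cover.principalBlock_eq_of_isPSolvable hMq hqs _).1 h5 y
      (S4886.le_of_not_dvd_index h4 P.isPGroup' hy))

end Cfsg.Agent.S4885
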