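import Cfsg.Statements.S4889
import Cfsg.Agent.Lib.Star.EqDeg

set_option autoImplicit false
open Cfsg

namespace Cfsg.Agent.S4889

open CfsgLib CfsgLib.Star CfsgLib.Blk CfsgLib.Block CfsgLib.Char CfsgLib.BrPair MonoidAlgebra in

/-- Let G be a finite group, p a prime, M a maximal ideal of the algebraic integers containing p, and B a p-block of G that has an abelian defect group and in which every irreducible character has height zero. Then all irreducible characters of B have the same degree if and only if B is a nilpotent block. -/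
theorem result {G : Type*} [Group G] [Finite G] (p : ℕ) [Fact p.Prime] (M : Ideal Cfsg.AlgInt) (hM : Cfsg.IsPModular p M) (B : Set (Cfsg.IrrCharacter G)) (hB : Cfsg.IsPBlock M B) (D : Subgroup G) (hD : Cfsg.IsDefectGroup p M B D) (hDab : IsMulCommutative ↥D) (h0 : ∀ χ : Cfsg.IrrCharacter G, χ ∈ B → Cfsg.blockHeight p B (χ : G → ℂ) = 0) : (∃ d : ℕ, ∀ χ : Cfsg.IrrCharacter G, χ ∈ B → Cfsg.charDegree (χ : G → ℂ) = d) ↔ Cfsg.IsNilpotentBlock p M B := by
  classical
  have := Fintype.ofFinite G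
  have : ∀ u : G, Fintype (Cu u) := fun u => Fintype.ofFinite _
  obtain ⟨e, h⟩ := exists_maxPair_of_isDef le_rfl top_le_Nz_top (isBlk_eB hM hB)
    ((isDefectGroup_iff hM hB).1 hD)
  have hab := le_Cz_of_isMulCommutative hDab
  rw [isNilpotentBlock_iff hM]
  refine ⟨fun ⟨d, hd⟩ => ⟨hB, isNil_of_eq_deg h hB hab hd⟩, fun hn => ⟨mdeg B, fun χ hχ => ?_⟩⟩
  obtain ⟨-, -, -, -, -, -, h1⟩ := nil_cols h hab hB hn.2
  exact charDegree_eq_of_eq (h1 χ hχ)

end Cfsg.Agent.S4889
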