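import Cfsg.Statements.S4890
import Cfsg.Agent.Lib.NDef.Main

set_option autoImplicit false
open Cfsg

namespace Cfsg.Agent.S4890

/-- Let G be a finite group, p a prime, M a maximal ideal of the algebraic integers containing p, and B a p-block of G with a defect group that is normal in G. Then all height-zero irreducible characters of B have the same degree if and only if B is a nilpotent block. -/
theorem result {G : Type*} [Group G] [Finite G] (p : ℕ) [Fact p.Prime] (M : Ideal Cfsg.AlgInt) (hM : Cfsg.IsPModular p M) (B : Set (Cfsg.IrrCharacter G)) (hB : Cfsg.IsPBlock M B) (D : Subgroup G) (hD : Cfsg.IsDefectGroup p M B D) (hDn : D.Normal) : (∃ d : ℕ, ∀ χ : Cfsg.IrrCharacter G, χ ∈ B → Cfsg.blockHeight p B (χ : G → ℂ) = 0 → Cfsg.charDegree (χ : G → ℂ) = d) ↔ Cfsg.IsNilpotentBlock p M B := by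
  open CfsgLib CfsgLib.Star CfsgLib.Blk CfsgLib.Block CfsgLib.Char in
  classical
  have := Fintype.ofFinite G
  have := Fintype.ofFinite (G ⧸ ⁅D, D⁆)
  have : ∀ u : G, Fintype (Cu u) := fun u => Fintype.ofFinite _
  rw [BrPair.isNilpotentBlock_iff hM]
  refine ⟨fun ⟨d, hd⟩ => ⟨hB, NDef.isNil_of_eq_deg hM (QuotientGroup.mk'_surjective ⁅D, D⁆)
    (QuotientGroup.ker_mk' _) hB hD hd⟩, fun ⟨_, hn⟩ => ?_⟩
  obtain ⟨e, h⟩ := BrPair.exists_maxPair_of_isDef le_rfl BrPair.top_le_Nz_top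
    (BrPair.isBlk_eB hM hB) ((BrPair.isDefectGroup_iff hM hB).1 hD)
  obtain ⟨χ, hχ, h0⟩ := exists_height_zero (p := p) (IsPBlock_nonempty hM hB)
  obtain ⟨Φ, hΦ⟩ := exists_nil_equiv h hn hB hχ h0
  refine ⟨charDegree (χ : G → ℂ), fun ψ hψ hψ0 => ?_⟩
  obtain ⟨θ, hθ⟩ := Φ.surjective ⟨ψ, hψ⟩
  obtain rfl : (Φ θ : IrrCharacter G) = ψ := congrArg Subtype.val hθ
  have h1 : charDegree ((Φ θ : IrrCharacter G) : G → ℂ) =
      charDegree (θ : D → ℂ) * charDegree (χ : G → ℂ) := by
    apply charDegree_eq_of_eq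
    rw [hΦ, ast_apply_one h hB (irr_isClassFunction χ) (nil_stable h hn (irr_isClassFunction θ)),
      blockPart_irr_of_mem hχ, extendByZero_one, Nat.cast_mul, charDegree_eq (irr_isCharacter θ),
      charDegree_eq (irr_isCharacter χ)]
  have h2 := minv_add_height (p := p) hψ
  have h3 := minv_add_height (p := p) hχ
  rw [h1, Nat.factorization_mul (charDegree_ne_zero θ.2) (charDegree_ne_zero χ.2),
    Finsupp.add_apply] at h2
  have h4 := charDegree_dvd_card θ.2
  rw [card_eq_pow_blockDefect hM hB hD] at h4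
  obtain ⟨i, -, hi⟩ := (Nat.dvd_prime_pow hM.1).1 h4
  rw [hi, Nat.Prime.factorization_pow hM.1, Finsupp.single_eq_same] at h2
  rw [h1, hi, show i = 0 by omega, pow_zero, one_mul]

end Cfsg.Agent.S4890
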