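import Mathlib
import Cfsg.Statements.S4914
import Cfsg.Agent.Lib.Glaub.RelSylow

set_option autoImplicit false
open Cfsg

namespace Cfsg.Agent.S4914

open CfsgLib.Glaub CfsgLib.Char CfsgLib.CharDeep Finset


/-- Let P and K be subgroups of a finite group G with P a p-group normalizing K, and suppose K has a normal Sylow p-subgroup Q. Let C be the subgroup of those k ∈ K whose commutator with every element of P lies in Q (so that C/Q is the fixed-point subgroup of P on K/Q). Then there is a bijection f from the P-invariant irreducible complex characters of K onto the P-invariant irreducible complex characters of C such that, for every P-invariant irreducible character χ of K, the multiplicity of f(χ) in the restriction of χ to C is a natural number congruent to 1 or to −1 modulo p, every other P-invariant irreducible character of C occurs in that restriction with multiplicity divisible by p, and the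 degrees of χ and f(χ) are congruent modulo p up to sign. -/
theorem result {G : Type*} [Group G] [Finite G] (p : ℕ) [Fact p.Prime] (P K Q C : Subgroup G) (hP : IsPGroup p ↥P) (hPK : P ≤ Subgroup.normalizer (K : Set G)) (hQK : Q ≤ K) (hQn : ∀ k ∈ K, ∀ q ∈ Q, k * q * k⁻¹ ∈ Q) (hQp : ∃ a : ℕ, Nat.card ↥Q = p ^ a) (hQsyl : ¬ p ∣ Q.relIndex K) (hCK : C ≤ K) (hC : ∀ k : G, k ∈ C ↔ (k ∈ K ∧ ∀ x ∈ P, x * k * x⁻¹ * k⁻¹ ∈ Q)) : ∃ f : {χ : Cfsg.IrrCharacter ↥K // (∀ x ∈ P, ∀ k k' : ↥K, (k' : G) = x * (k : G) * x⁻¹ → (χ : ↥K → ℂ) k' = (χ : ↥K → ℂ) k)} → {ξ : Cfsg.IrrCharacter ↥C // (∀ x ∈ P, ∀ k k' : ↥C, (k' : G) = x * (k : G) * x⁻¹ → (ξ : ↥C → ℂ) k' = (ξ : ↥C → ℂ) k)}, Function.Bijective f ∧ ∀ χ, (∀ ξ : {ξ : Cfsg.IrrCharacter ↥C // (∀ x ∈ P, ∀ k k' : ↥C, (k' : G) = x * (k : G) * x⁻¹ → (ξ : ↥C → ℂ) k' = (ξ : ↥C → ℂ) k)}, ∃ m : ℕ, (Nat.card ↥C : ℂ)⁻¹ * ∑ᶠ c : ↥C, (χ.1 : ↥K → ℂ) (Subgroup.inclusion hCK c) * (starRingEnd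 ℂ) ((ξ.1 : ↥C → ℂ) c) = (m : ℂ) ∧ (ξ = f χ → ((m : ZMod p) = 1 ∨ (m : ZMod p) = -1)) ∧ (ξ ≠ f χ → p ∣ m)) ∧ ((Cfsg.charDegree ((f χ).1 : ↥C → ℂ) : ZMod p) = (Cfsg.charDegree (χ.1 : ↥K → ℂ) : ZMod p) ∨ (Cfsg.charDegree ((f χ).1 : ↥C → ℂ) : ZMod p) = -(Cfsg.charDegree (χ.1 : ↥K → ℂ) : ZMod p)) := by
  classical
  have := Fintype.ofFinite G
  have hPK' : ∀ s ∈ P, ∀ g ∈ K, s * g * s⁻¹ ∈ K := fun s hs g hg =>
    (Subgroup.mem_normalizer_iff.mp (hPK hs) g).mp hg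
  obtain ⟨a, ha⟩ := hQp
  have hQn' : (Q.subgroupOf K).Normal := ⟨fun q hq k => hQn k k.2 q hq⟩
  have hQc : Nat.card (Q.subgroupOf K) = p ^ a := by
    rw [Nat.card_congr (Subgroup.subgroupOfEquivOfLe hQK).toEquiv, ha]
  have hQp' : IsPGroup p (Q.subgroupOf K) := IsPGroup.of_card hQc
  have hchar : (Q.subgroupOf K).Characteristic :=
    Sylow.characteristic_of_normal (hQp'.toSylow hQsyl) hQn'
  have hN : ∀ s, ∀ n ∈ Q.subgroupOf K, conjAut P K hPK' s n ∈ Q.subgroupOf K := fun s n hn =>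
    Subgroup.characteristic_iff_le_comap.mp hchar (conjAut P K hPK' s) hn
  have hPC : ∀ s ∈ P, ∀ g ∈ C, s * g * s⁻¹ ∈ C := by
    intro s hs g hg
    obtain ⟨h1, h2⟩ := (hC g).mp hg
    refine (hC _).mpr ⟨hPK' s hs g h1, fun x hx => ?_⟩
    have h3 := h2 (s⁻¹ * x * s) (P.mul_mem (P.mul_mem (P.inv_mem hs) hx) hs)
    have h4 : s * (s⁻¹ * x * s * g * (s⁻¹ * x * s)⁻¹ * g⁻¹) * s⁻¹ ∈ Q :=
      hN ⟨s, hs⟩ ⟨_, hQK h3⟩ h3
    convert h4 using 1
    group
  obtain ⟨e, he⟩ := glauberman_hall hP (conjAut P K hPK') (Q.subgroupOf K) hN hQsyl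
    (by rw [hQc]; exact Nat.Coprime.pow_left _ ((Nat.Prime.coprime_iff_not_dvd Fact.out).mpr hQsyl))
    (Subgroup.inclusion hCK) (Subgroup.inclusion_injective hCK) (by
      intro g
      rw [Subgroup.inclusion_range, Subgroup.mem_subgroupOf, hC]
      exact ⟨fun h s => h.2 s s.2, fun h => ⟨g.2, fun x hx => h ⟨x, hx⟩⟩⟩)
    (conjAut P C hPC) (fun _ _ => Subtype.ext rfl)
  let e1 := Equiv.subtypeEquivRight fun χ : IrrCharacter K => (inv_conjAut_iff P K hPK' χ).symm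
  let e2 := Equiv.subtypeEquivRight fun χ : IrrCharacter C => inv_conjAut_iff P C hPC χ
  refine ⟨e1.trans (e.trans e2), Equiv.bijective _, fun χ => ⟨fun ξ => ?_, ?_⟩⟩
  · have h1 := he (e1 χ) (e2.symm ξ)
    have h2 : e2.symm ξ = e (e1 χ) ↔ ξ = (e1.trans (e.trans e2)) χ := Equiv.symm_apply_eq e2
    rw [Ne, h2] at h1
    refine ⟨mult (Subgroup.inclusion hCK) χ.1 ξ.1, ?_, h1⟩
    rw [finsum_eq_sum_of_fintype]
    exact mult_spec (Subgroup.inclusion hCK) (irr_isCharacter χ.1) (irr_isCharacter ξ.1)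
  · have h1 := degree_cong hP (conjAut P K hPK') (Subgroup.inclusion hCK) (conjAut P C hPC)
      (fun _ _ => Subtype.ext rfl) (irr_isCharacter (e1 χ).1) (e1 χ).2
    rw [sum_eq_single (e (e1 χ)) (fun ξ _ h => by
      rw [(ZMod.natCast_eq_zero_iff _ _).mpr ((he (e1 χ) ξ).2 h), zero_mul]) (by simp)] at h1
    rcases (he (e1 χ) _).1 rfl with h | h
    · left
      rw [h, one_mul] at h1
      exact h1.symm
    · right
      rw [h, neg_one_mul] at h1
      exact neg_eq_iff_eq_neg.mp h1.symm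

end Cfsg.Agent.S4914
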