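import Cfsg.Statements.S4916
import Cfsg.Agent.Lib.BlkSq.Main
import Cfsg.Agent.Lib.Char.Kernel

set_option autoImplicit false
open Cfsg

namespace Cfsg.Agent.S4916

open CfsgLib CfsgLib.Char CfsgLib.Block

/-- Let G be a finite group, p a prime and M a maximal ideal of the algebraic integers containing p. Then the principal character is the only irreducible character of degree prime to p in the principal p-block of G if and only if p does not divide the order of G. -/
theorem result {G : Type*} [Group G] [Finite G] (p : ℕ) [Fact p.Prime] (M : Ideal Cfsg.AlgInt) (hM : Cfsg.IsPModular p M) : (∀ χ : Cfsg.IrrCharacter G, χ ∈ Cfsg.principalBlock M G → ¬ p ∣ Cfsg.charDegree (χ : G → ℂ) → (χ : G → ℂ) = fun _ => (1 : ℂ)) ↔ ¬ p ∣ Nat.card G := by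
  constructor
  · intro h hG
    refine (BlkSq.card_cases_block hM (isPBlock_principalBlock (M := M)) hG).1 ?_
    rw [Nat.card_eq_one_iff_exists]
    refine ⟨⟨irrOne G, irrOne_mem_principalBlock hM, ?_⟩, fun χ => Subtype.ext (Subtype.ext
      (h χ.1 χ.2.1 χ.2.2))⟩
    rw [charDegree_eq_of_eq (n := 1) (by simp [irrOne_apply])]
    exact hM.1.one_lt.ne' ∘ Nat.dvd_one.1
  · intro hG χ hχ _
    refine irr_eq_one_of_charKer_eq_top χ.2 (top_le_iff.1 fun g hg => ?_)
    exact (mem_charKer (irr_isCharacter χ)).2 (Cover.ker_of_sameBlock_of_not_dvd ⊤ hM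
      (by rwa [Subgroup.card_top]) (χ := irrOne G) hχ (fun _ _ => rfl) g hg)

end Cfsg.Agent.S4916
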