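import Mathlib
import Cfsg.Statements.S4923
import Cfsg.Agent.Lib.CharGal.Basic
import Cfsg.Agent.Lib.PGroup.MaxClass
import Cfsg.Agent.Lib.ChDeg.Avg

set_option autoImplicit false
open Cfsg

namespace Cfsg.Agent.S4923

open CfsgLib.Char CfsgLib.ChDeg CfsgLib.CharGal CfsgLib.PGroup Subgroup
open scoped commutatorElement

theorem fix_adjoin (τ : ℂ ≃+* ℂ) {S : Set ℂ} (h : ∀ z ∈ S, τ z = z) {x : ℂ}
    (hx : x ∈ IntermediateField.adjoin ℚ S) : τ x = x := by
  induction hx using IntermediateField.adjoin_induction with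
  | mem x hx => exact h x hx
  | algebraMap q => simp
  | add x y _ _ hx hy => rw [map_add, hx, hy]
  | inv x _ hx => rw [map_inv₀, hx]
  | mul x y _ _ hx hy => rw [map_mul, hx, hy]

theorem adjoin_le_of_fix {S T : Set ℂ} (hS : ∀ z ∈ S, IsIntegral ℚ z)
    (h : ∀ τ : ℂ ≃+* ℂ, (∀ z ∈ T, τ z = z) → ∀ z ∈ S, τ z = z) :
    IntermediateField.adjoin ℚ S ≤ IntermediateField.adjoin ℚ T := by
  rw [IntermediateField.adjoin_le_iff]
  intro z hz
  obtain ⟨y, hy⟩ := mem_range_of_forall_fixed (K := IntermediateField.adjoin ℚ T)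
    ((hS z hz).tower_top) fun σ => h σ.toRingEquiv
      (fun t ht => σ.commutes ⟨t, IntermediateField.subset_adjoin ℚ T ht⟩) z hz
  rw [← hy]
  exact y.2

variable {G : Type*} [Group G] [Finite G]

theorem fix_iff_isConj (τ : ℂ ≃+* ℂ) {N m : ℕ} (hτ : ∀ ε : ℂ, ε ^ N = 1 → τ ε = ε ^ m) {g : G}
    (hg : g ^ N = 1) : (∀ z ∈ {z : ℂ | ∃ χ : IrrCharacter G, (χ : G → ℂ) g = z}, τ z = z) ↔
      IsConj g (g ^ m) := by
  have h1 : ∀ χ : G → ℂ, IsIrrCharacter G χ → τ (χ g) = χ (g ^ m) := fun χ hχ =>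
    gal_char_eq_char_pow (isCharacter_of_isIrr hχ) (τ : ℂ →+* ℂ) hτ hg
  constructor
  · intro h
    exact isConj_of_forall_zero_or_eq fun χ hχ => Or.inr ((h1 χ hχ).symm.trans (h _ ⟨⟨χ, hχ⟩, rfl⟩))
  · rintro h _ ⟨χ, rfl⟩
    rw [h1 χ χ.2]
    exact ((isClassFunction_iff_isConj.1 (isClassFunction_of_isIrr χ.2)) _ _ h).symm

theorem fix_iff_root (τ : ℂ ≃+* ℂ) {N m : ℕ} (hN : N ≠ 0)
    (hτ : ∀ ε : ℂ, ε ^ N = 1 → τ ε = ε ^ m) {ζ s : ℂ} (hζ : ζ ^ N = 1) (hs : s = 1 ∨ s = -1) :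
    (∀ z ∈ ({ζ + s * ζ⁻¹} : Set ℂ), τ z = z) ↔ ζ ^ m = ζ ∨ ζ ^ m = s * ζ⁻¹ := by
  have h0 : ζ ≠ 0 := by
    rintro rfl
    rw [zero_pow hN] at hζ
    exact zero_ne_one hζ
  have hs' : τ s = s := by rcases hs with rfl | rfl <;> simp
  have hm : ζ ^ m ≠ 0 := pow_ne_zero _ h0
  simp only [Set.mem_singleton_iff, forall_eq, map_add, map_mul, map_inv₀, hs', hτ ζ hζ]
  generalize ζ ^ m = w at hm
  constructor
  · intro h
    have h1 : (w - ζ) * (w - s * ζ⁻¹) = 0 := by
      field_simp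
      field_simp at h
      linear_combination h
    rcases mul_eq_zero.1 h1 with h2 | h2
    · exact Or.inl (sub_eq_zero.1 h2)
    · exact Or.inr (sub_eq_zero.1 h2)
  · rintro (rfl | rfl)
    · rfl
    · rcases hs with rfl | rfl
      · simp [add_comm]
      · simp [add_comm]

theorem conj_cases (P : Sylow 2 G) {a b : (P : Subgroup G)} (ha : (zpowers a).index = 2) (hb : b ∉ zpowers a)
    {x : G} (hx : x * a * x⁻¹ ∈ zpowers (a : G)) :
    (x * a * x⁻¹ = a ∨ x * a * x⁻¹ = b * a * (b : G)⁻¹) ∧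
      ((b : G) * a * (b : G)⁻¹ ≠ a → 2 ∣ (centralizer ({(a : G)} : Set G)).index) := by
  have hn : (zpowers a).Normal := normal_of_index_eq_two ha
  have hnorm : ∀ x : G, x * a * x⁻¹ ∈ zpowers (a : G) →
      x ∈ normalizer ((zpowers (a : G) : Subgroup G) : Set G) := by
    intro x hx
    refine mem_normalizer_fintype fun y hy => ?_
    obtain ⟨k, rfl⟩ := mem_zpowers_iff.1 hy
    rw [← conj_zpow]
    exact zpow_mem hx k
  set N := normalizer ((zpowers (a : G) : Subgroup G) : Set G) with hN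
  have hPN : (P : Subgroup G) ≤ N := fun y hy => hnorm y (by
    obtain ⟨k, hk⟩ := mem_zpowers_iff.1 (hn.conj_mem a (mem_zpowers a) ⟨y, hy⟩)
    exact mem_zpowers_iff.2 ⟨k, congrArg Subtype.val hk⟩)
  let f := (zpowers (a : G)).normalizerMonoidHom
  have hker : ∀ c : N, c ∈ f.ker ↔ (c : G) * a * (c : G)⁻¹ = a := fun c => by
    have e : centralizer ((zpowers (a : G) : Subgroup G) : Set G) = centralizer {(a : G)} := by
      rw [zpowers_eq_closure, centralizer_closure]
    rw [normalizerMonoidHom_ker, mem_subgroupOf, e, mem_centralizer_singleton_iff,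
      mul_inv_eq_iff_eq_mul]
  obtain ⟨j, hj⟩ : ∃ j, f.ker.index = 2 ^ j := by
    obtain ⟨e, he⟩ := P.isPGroup'.exists_orderOf_eq_pow a
    have h1 : f.ker.index ∣ 2 ^ e := by
      rw [index_ker]
      refine (card_subgroup_dvd_card _).trans ?_
      rw [IsCyclic.card_mulAut, Nat.card_zpowers, orderOf_coe, he]
      rcases e with _ | e
      · simp
      · rw [Nat.totient_prime_pow Nat.prime_two (Nat.succ_pos e)]
        simp [pow_succ]
    obtain ⟨j, -, hj⟩ := (Nat.dvd_prime_pow Nat.prime_two).1 h1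
    exact ⟨j, hj⟩
  constructor
  · have htop : (P : Subgroup G).subgroupOf N ⊔ f.ker = ⊤ := by
      rw [← index_eq_one]
      refine Nat.eq_one_of_dvd_coprimes ?_ (index_dvd_of_le le_sup_left)
        (index_dvd_of_le le_sup_right)
      rw [hj]
      refine Nat.Coprime.pow_right _ ((Nat.Prime.coprime_iff_not_dvd Nat.prime_two).2 ?_).symm
      exact fun h => P.not_dvd_index (h.trans (relIndex_dvd_index_of_le hPN))
    obtain ⟨y, hy, c, hc, hyc⟩ := mem_sup_of_normal_right.1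
      (htop ▸ mem_top (⟨x, hnorm x hx⟩ : N))
    have hx' : x = y * c := (congrArg Subtype.val hyc).symm
    have h1 : x * a * x⁻¹ = y * a * (y : G)⁻¹ := by
      rw [hx']
      calc (y : G) * c * a * ((y : G) * c)⁻¹ = y * (c * a * (c : G)⁻¹) * (y : G)⁻¹ := by group
        _ = _ := by rw [(hker c).1 hc]
    have hz : ∀ z : (P : Subgroup G), z ∈ zpowers a → (z : G) * a * (z : G)⁻¹ = a := by
      intro z hz
      obtain ⟨k, rfl⟩ := mem_zpowers_iff.1 hz
      simp only [SubgroupClass.coe_zpow]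
      group
    rw [h1]
    by_cases hya : (⟨y, hy⟩ : (P : Subgroup G)) ∈ zpowers a
    · exact Or.inl (hz _ hya)
    · right
      have h2 : b⁻¹ * ⟨y, hy⟩ ∈ zpowers a := by
        rw [mul_mem_iff_of_index_two ha, inv_mem_iff]
        exact iff_of_false hb hya
      have h3 := hz _ h2
      calc (y : G) * a * (y : G)⁻¹ = b * (((b : G)⁻¹ * y) * a * ((b : G)⁻¹ * y)⁻¹) * (b : G)⁻¹ := by
            group
        _ = _ := by rw [show ((b : G)⁻¹ * y) * a * ((b : G)⁻¹ * y)⁻¹ = a from h3]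
  · intro hne
    have h1 : f.ker = (centralizer ({(a : G)} : Set G)).subgroupOf N := by
      ext c
      rw [hker, mem_subgroupOf, mem_centralizer_singleton_iff, mul_inv_eq_iff_eq_mul]
    have h2 : j ≠ 0 := by
      rintro rfl
      rw [pow_zero, index_eq_one] at hj
      exact hne ((hker ⟨b, hPN b.2⟩).1 (hj ▸ mem_top _))
    refine ((dvd_pow_self 2 h2).trans hj.symm.dvd).trans ?_
    rw [h1]
    refine relIndex_dvd_index_of_le fun c hc => hnorm c ?_
    rw [mem_centralizer_singleton_iff.1 hc, mul_inv_cancel_right]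
    exact mem_zpowers _

theorem key {g : G} {N k : ℕ} (hg : orderOf g = N) {ζ s : ℂ} (hζ : IsPrimitiveRoot ζ N)
    (hs : s = 1 ∨ s = -1) (hk : ζ ^ k = s * ζ⁻¹)
    (h : ∀ m : ℕ, IsConj g (g ^ m) ↔ g ^ m = g ∨ g ^ m = g ^ k) :
    IntermediateField.adjoin ℚ {z : ℂ | ∃ χ : IrrCharacter G, (χ : G → ℂ) g = z} =
      IntermediateField.adjoin ℚ ({ζ + s * ζ⁻¹} : Set ℂ) := by
  have hN : N ≠ 0 := hg ▸ (orderOf_pos g).ne'
  have hpow : ∀ m j : ℕ, g ^ m = g ^ j ↔ ζ ^ m = ζ ^ j := fun m j => by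
    rw [pow_eq_pow_iff_modEq, hg, hζ.eq_orderOf,
      (hζ.isOfFinOrder hN).pow_eq_pow_iff_modEq]
  have hiff : ∀ τ : ℂ ≃+* ℂ,
      (∀ z ∈ {z : ℂ | ∃ χ : IrrCharacter G, (χ : G → ℂ) g = z}, τ z = z) ↔
        (∀ z ∈ ({ζ + s * ζ⁻¹} : Set ℂ), τ z = z) := fun τ => by
    obtain ⟨m, -, hm⟩ := exists_pow_of_ringHom hN (τ : ℂ →+* ℂ)
    rw [fix_iff_isConj τ hm (hg ▸ pow_orderOf_eq_one g), fix_iff_root τ hN hm hζ.pow_eq_one hs, h,
      hpow, ← hk]
    have := hpow m 1
    rw [pow_one, pow_one] at this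
    rw [this]
  refine le_antisymm (adjoin_le_of_fix ?_ fun τ => (hiff τ).2) (adjoin_le_of_fix ?_ fun τ => (hiff τ).1)
  · rintro _ ⟨χ, rfl⟩
    exact (isIntegral_char (isCharacter_of_isIrr χ.2) g).tower_top
  · rintro _ rfl
    have h1 : IsIntegral ℚ ζ := (hζ.isIntegral (Nat.pos_of_ne_zero hN)).tower_top
    rw [← hk]
    exact h1.add (h1.pow k)


/-- Let G be a finite group with Sylow 2-subgroup P of order 2^n ≥ 8, and let ζ be a primitive 2^(n−1)-th root of unity in ℂ. Then the commutator subgroup of P has index 4 in P if and only if there is an element g of P whose conjugacy class in G has even size and such that the field generated over ℚ by the values at g of all irreducible complex characters of G equals ℚ(ζ + ζ⁻¹) or ℚ(ζ − ζ⁻¹). -/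
theorem result {G : Type*} [Group G] [Finite G] (P : Sylow 2 G) (n : ℕ) (hn : 3 ≤ n) (hP : Nat.card P = 2 ^ n) (ζ : ℂ) (hζ : IsPrimitiveRoot ζ (2 ^ (n - 1))) :
    (commutator ↥P).index = 4 ↔
      ∃ g : G, g ∈ (P : Subgroup G) ∧ 2 ∣ (Subgroup.centralizer ({g} : Set G)).index ∧
        (IntermediateField.adjoin ℚ {z : ℂ | ∃ χ : Cfsg.IrrCharacter G, (χ : G → ℂ) g = z} = IntermediateField.adjoin ℚ ({ζ + ζ⁻¹} : Set ℂ) ∨
          IntermediateField.adjoin ℚ {z : ℂ | ∃ χ : Cfsg.IrrCharacter G, (χ : G → ℂ) g = z} = IntermediateField.adjoin ℚ ({ζ - ζ⁻¹} : Set ℂ)) := by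
  have hN : 2 ^ (n - 1) ≠ 0 := by positivity
  have hζ0 : ζ ≠ 0 := hζ.ne_zero hN
  have hhalf : ζ ^ 2 ^ (n - 2) = -1 := by
    refine (IsPrimitiveRoot.pow (Nat.pos_of_ne_zero hN) hζ (b := 2) ?_).eq_neg_one_of_two_right
    rw [← pow_succ]
    congr 1
    omega
  change (_root_.commutator (P : Subgroup G)).index = 4 ↔ _
  constructor
  · intro hc
    obtain ⟨a, b, ha, hoa, hb, hcase⟩ := exists_gens_of_index_commutator_eq_four hn hP hc
    have hog : orderOf (a : G) = 2 ^ (n - 1) := by rw [orderOf_coe, hoa]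
    obtain ⟨k, s, hs, hk, hba⟩ : ∃ (k : ℕ) (s : ℂ), (s = 1 ∨ s = -1) ∧ ζ ^ k = s * ζ⁻¹ ∧
        b * a * b⁻¹ = a ^ k := by
      have h1 : a⁻¹ = a ^ (2 ^ (n - 1) - 1) := by
        rw [eq_comm, eq_inv_iff_mul_eq_one, ← pow_succ, Nat.sub_add_cancel (Nat.pos_of_ne_zero hN),
          ← hoa, pow_orderOf_eq_one]
      have h2 : ζ ^ (2 ^ (n - 1) - 1) = 1 * ζ⁻¹ := by
        rw [eq_mul_inv_iff_mul_eq₀ hζ0, ← pow_succ, Nat.sub_add_cancel (Nat.pos_of_ne_zero hN),
          hζ.pow_eq_one]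
      rcases hcase with ⟨-, h⟩ | ⟨-, h⟩ | ⟨-, -, h⟩
      · exact ⟨_, 1, Or.inl rfl, h2, h.trans h1⟩
      · exact ⟨_, 1, Or.inl rfl, h2, h.trans h1⟩
      · refine ⟨_, -1, Or.inr rfl, ?_, h⟩
        rw [eq_mul_inv_iff_mul_eq₀ hζ0, ← pow_succ, Nat.sub_add_cancel Nat.one_le_two_pow, hhalf]
    have hba' : (b : G) * a * (b : G)⁻¹ = (a : G) ^ k := congrArg Subtype.val hba
    have hne : (b : G) * a * (b : G)⁻¹ ≠ a := by
      intro h0
      have h0' : b * a * b⁻¹ = a := Subtype.ext h0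
      have hn' : (zpowers a).Normal := normal_of_index_eq_two ha
      have hcomm : ∀ x y : (P : Subgroup G), x * y = y * x := by
        have hcen : centralizer ({a} : Set (P : Subgroup G)) = ⊤ := by
          by_contra hne
          have h1 : zpowers a ≤ centralizer ({a} : Set (P : Subgroup G)) :=
            zpowers_le.2 (mem_centralizer_singleton_iff.2 rfl)
          have h2 := index_dvd_of_le h1
          rw [ha] at h2
          rcases (Nat.dvd_prime Nat.prime_two).1 h2 with h3 | h3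
          · exact hne (index_eq_one.1 h3)
          · have h4 : zpowers a = centralizer ({a} : Set (P : Subgroup G)) := by
              refine le_antisymm h1 (le_of_eq (eq_of_le_of_card_ge h1 (le_of_eq ?_)).symm)
              have e1 := card_mul_index (zpowers a)
              have e2 := card_mul_index (centralizer ({a} : Set (P : Subgroup G)))
              rw [ha] at e1
              rw [h3] at e2
              omega
            exact hb (h4 ▸ mem_centralizer_singleton_iff.2 (mul_inv_eq_iff_eq_mul.1 h0'))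
        have hz : zpowers a ≤ center (P : Subgroup G) := zpowers_le.2 (mem_center_iff.2 fun y =>
          mem_centralizer_singleton_iff.1 (hcen ▸ mem_top y))
        have : IsCyclic ((P : Subgroup G) ⧸ zpowers a) := isCyclic_of_prime_card (p := 2) ha
        exact (MonoidHom.isMulCommutative_of_isCyclic_of_ker_le_center
          (QuotientGroup.mk' (zpowers a)) (by rwa [QuotientGroup.ker_mk'])).is_comm.comm
      have hbot : _root_.commutator (P : Subgroup G) = ⊥ := by
        rw [eq_bot_iff, _root_.commutator_def, commutator_le]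
        intro x _ y _
        exact commutatorElement_eq_one_iff_mul_comm.2 (hcomm x y)
      rw [hbot, index_bot, hP] at hc
      have := Nat.pow_le_pow_right two_pos hn
      omega
    have hkey := key hog hζ hs hk fun m => ⟨fun h => by
        obtain ⟨x, hx⟩ := isConj_iff.1 h
        have := (conj_cases P ha hb (x := x) (hx ▸ pow_mem (mem_zpowers _) m)).1
        rwa [hx, hba'] at this, by
      rintro (h | h)
      · rw [h]
      · rw [h]
        exact isConj_iff.2 ⟨b, hba'⟩⟩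
    refine ⟨a, a.2, (conj_cases P ha hb (x := 1) (by simp)).2 hne, ?_⟩
    rcases hs with rfl | rfl
    · exact Or.inl (by rw [hkey, one_mul])
    · exact Or.inr (by rw [hkey, neg_one_mul, sub_eq_add_neg])
  · rintro ⟨g, hg, heven, hf⟩
    obtain ⟨s, hs, hf⟩ : ∃ s : ℂ, (s = 1 ∨ s = -1) ∧
        IntermediateField.adjoin ℚ {z : ℂ | ∃ χ : IrrCharacter G, (χ : G → ℂ) g = z} =
          IntermediateField.adjoin ℚ ({ζ + s * ζ⁻¹} : Set ℂ) := by
      rcases hf with h | h
      · exact ⟨1, Or.inl rfl, by rw [h, one_mul]⟩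
      · exact ⟨-1, Or.inr rfl, by rw [h, neg_one_mul, sub_eq_add_neg]⟩
    obtain ⟨b, hb, hbg⟩ : ∃ b ∈ (P : Subgroup G), b * g * b⁻¹ ≠ g := by
      by_contra hcon
      push Not at hcon
      refine P.not_dvd_index (heven.trans (index_dvd_of_le fun b hb => ?_))
      exact mem_centralizer_singleton_iff.2 (mul_inv_eq_iff_eq_mul.1 (hcon b hb))
    set a : (P : Subgroup G) := ⟨g, hg⟩ with ha
    have hnc : ¬ IsCyclic (P : Subgroup G) := fun h => hbg (by
      have := congrArg Subtype.val (h.isMulCommutative.is_comm.comm (⟨b, hb⟩ : (P : Subgroup G)) a)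
      exact mul_inv_eq_iff_eq_mul.2 this)
    have h4 := sq_le_index_commutator P.isPGroup' hnc
    have hmem : (⟨b, hb⟩ : (P : Subgroup G)) * a * (⟨b, hb⟩ : (P : Subgroup G))⁻¹ * a⁻¹ ∈ _root_.commutator (P : Subgroup G) :=
      commutator_mem_commutator (mem_top _) (mem_top _)
    have hcard := card_mul_index (_root_.commutator (P : Subgroup G))
    suffices h : 2 ^ (n - 2) ≤ Nat.card (_root_.commutator (P : Subgroup G)) by
      have e : 2 ^ n = 2 ^ (n - 2) * 4 := by
        rw [show 4 = 2 ^ 2 from rfl, ← pow_add]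
        congr 1
        omega
      rw [hP, e] at hcard
      refine le_antisymm (Nat.le_of_mul_le_mul_left (c := 2 ^ (n - 2)) ?_ (by positivity)) h4
      rw [← hcard]
      exact Nat.mul_le_mul_right _ h
    rcases hn.eq_or_lt with rfl | hn4
    · refine (one_lt_card_iff_ne_bot _).2 fun h0 => hbg ?_
      rw [h0, mem_bot, mul_inv_eq_one] at hmem
      exact congrArg Subtype.val hmem
    have hfix : ∀ m : ℕ, m.Coprime (2 ^ (n - 1)) → g ^ 2 ^ (n - 1) = 1 → IsConj g (g ^ m) →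
        ζ ^ m = ζ ∨ ζ ^ m = s * ζ⁻¹ := by
      intro m hm hg1 hc
      obtain ⟨τ, hτ⟩ := exists_ringEquiv_pow hN hm
      rw [← fix_iff_root τ hN hτ hζ.pow_eq_one hs]
      intro z hz
      refine fix_adjoin τ ((fix_iff_isConj τ hτ hg1).2 hc) ?_
      rw [hf]
      exact IntermediateField.subset_adjoin _ _ hz
    have hs2 : s ^ 2 = 1 := by rcases hs with rfl | rfl <;> norm_num
    obtain ⟨j, hj⟩ := P.isPGroup'.exists_orderOf_eq_pow a
    have hjn : j ≤ n := by
      have := orderOf_dvd_natCard a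
      rwa [hj, hP, Nat.pow_dvd_pow_iff_le_right one_lt_two] at this
    have hjn' : j ≠ n := fun h => hnc (isCyclic_of_orderOf_eq_card a (by rw [hj, hP, h]))
    have hog : orderOf g = 2 ^ j := by rw [← hj, ← orderOf_coe]
    have hj1 : j = n - 1 := by
      by_contra hne
      have h1 : g ^ 2 ^ (n - 2) = 1 := orderOf_dvd_iff_pow_eq_one.1
        (hog ▸ pow_dvd_pow 2 (by omega))
      have h2 : g ^ 2 ^ (n - 1) = 1 := orderOf_dvd_iff_pow_eq_one.1
        (hog ▸ pow_dvd_pow 2 (by omega))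
      have h3 := hfix (2 ^ (n - 2) + 1) (Nat.Coprime.pow_right _ (by
        rw [Nat.coprime_two_right]
        exact (Nat.even_pow.2 ⟨even_two, by omega⟩).add_one)) h2 (by rw [pow_succ, h1, one_mul])
      rw [pow_succ, hhalf] at h3
      rcases h3 with h3 | h3
      · exact hζ0 (by linear_combination (-1 / 2 : ℂ) * h3)
      · rw [eq_mul_inv_iff_mul_eq₀ hζ0] at h3
        have h5 : ζ ^ 2 ^ 2 = 1 := by
          rw [← hs2, ← h3]
          ring
        have h6 := hζ.dvd_of_pow_eq_one _ h5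
        rw [Nat.pow_dvd_pow_iff_le_right one_lt_two] at h6
        omega
    subst hj1
    have hi : (zpowers a).index = 2 := by
      have e := card_mul_index (zpowers a)
      rw [Nat.card_zpowers, hj, hP, show 2 ^ n = 2 ^ (n - 1) * 2 by
        rw [← pow_succ]; congr 1; omega] at e
      exact Nat.eq_of_mul_eq_mul_left (by positivity) e
    have hn' : (zpowers a).Normal := normal_of_index_eq_two hi
    obtain ⟨k, hk⟩ := (mem_powers_iff_mem_zpowers.2 (hn'.conj_mem a (mem_zpowers a) ⟨b, hb⟩))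
    have hk' : g ^ k = b * g * b⁻¹ := congrArg Subtype.val hk
    have hcop : k.Coprime (2 ^ (n - 1)) := by
      have h1 : orderOf (g ^ k) = orderOf g := by
        rw [hk']
        exact (SemiconjBy.orderOf_eq b (by simp [SemiconjBy])).symm
      rw [orderOf_pow, hog, Nat.div_eq_self] at h1
      exact Nat.Coprime.symm (h1.resolve_left hN)
    rcases hfix k hcop (hog ▸ pow_orderOf_eq_one g) (isConj_iff.2 ⟨b, hk'.symm⟩) with h3 | h3
    · refine absurd ?_ hbg
      rw [← hk']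
      nth_rewrite 2 [← pow_one g]
      nth_rewrite 2 [← pow_one ζ] at h3
      rw [pow_eq_pow_iff_modEq, hog, hζ.eq_orderOf, ← (hζ.isOfFinOrder hN).pow_eq_pow_iff_modEq]
      exact h3
    rw [eq_mul_inv_iff_mul_eq₀ hζ0, ← pow_succ] at h3
    have h5 : ζ ^ ((k + 1) * 2) = 1 := by rw [pow_mul, h3, hs2]
    have h6 : 2 ^ 3 ∣ (k + 1) * 2 := (pow_dvd_pow 2 (by omega)).trans (hζ.dvd_of_pow_eq_one _ h5)
    obtain ⟨u, hu⟩ : ∃ u, k = 2 * (2 * u + 1) + 1 := ⟨(k - 3) / 4, by omega⟩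
    have h7 : (a ^ 2) ^ (2 * u + 1) ∈ _root_.commutator (P : Subgroup G) := by
      have hk2 : a ^ k = ⟨b, hb⟩ * a * (⟨b, hb⟩ : (P : Subgroup G))⁻¹ := hk
      rwa [← hk2, hu, pow_succ, mul_inv_cancel_right, pow_mul] at hmem
    have h8 : orderOf (a ^ 2) = 2 ^ (n - 2) := by
      rw [orderOf_pow_of_dvd two_ne_zero (hj ▸ dvd_pow_self 2 (by omega)), hj,
        show 2 ^ (n - 1) = 2 ^ (n - 2) * 2 by rw [← pow_succ]; congr 1; omega]
      simp
    have h9 : orderOf ((a ^ 2) ^ (2 * u + 1)) = 2 ^ (n - 2) := by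
      rw [Nat.Coprime.orderOf_pow, h8]
      rw [h8]
      exact Nat.Coprime.pow_left _ (Nat.coprime_two_left.2 (odd_two_mul_add_one u))
    rw [← h9, ← Nat.card_zpowers]
    exact card_le_of_le (zpowers_le.2 h7)

end Cfsg.Agent.S4923
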