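import Cfsg.Statements.S4931
import Cfsg.Agent.Lib.ChDeg.Deg
import Cfsg.Agent.Lib.Char.Monomial
import Cfsg.Agent.Lib.Transfer.Tate
import Cfsg.Agent.Lib.Tech.SylowIn
import Cfsg.Agent.Lib.Core.Frattini

set_option autoImplicit false
open Cfsg

namespace Cfsg.Agent.S4931

open Subgroup CfsgLib CfsgLib.ChDeg CfsgLib.Char CfsgLib.Transfer

variable {G : Type*} [Group G] [Finite G] {p : ℕ} [hp : Fact p.Prime]

omit hp in
theorem not_dvd {A M : Subgroup G} [A.Normal] [M.Normal] (hA : ¬ p ∣ A.index) (hM : ⁅A, A⁆ ≤ M) {θ : G → ℂ}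
    (hθ : IsIrrCharacter G θ) (h : M ≤ cker θ) : ¬ p ∣ charDegree θ := fun h1 => by
  have hf := QuotientGroup.mk'_surjective M
  have : (A.map (QuotientGroup.mk' M)).Normal := .map inferInstance _ hf
  refine hA ((h1.trans (ito_degree (isIrr_defl hθ h) (A.map (QuotientGroup.mk' M)) ?_
    ((defl_one (isCharacter_of_isIrr hθ) h).trans (deg_cast (isCharacter_of_isIrr hθ)).symm))).trans (index_map_dvd _ hf))
  rintro _ ⟨a, ha, rfl⟩ _ ⟨b, hb, rfl⟩
  rw [← commutatorElement_eq_one_iff_mul_comm, ← map_commutatorElement]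
  exact (QuotientGroup.eq_one_iff _).2 (hM (commutator_mem_commutator ha hb))

omit hp in
theorem exists_normal {N : Subgroup G} (M : Subgroup N) [M.Normal] (h : ∀ θ : IrrCharacter N, M ≤ cker (θ : N → ℂ) →
    ∃ χ : IrrCharacter G, ∀ x : N, (χ : G → ℂ) x = (θ : N → ℂ) x) :
    ∃ K : Subgroup G, K.Normal ∧ ∀ x : N, (x : G) ∈ K ↔ x ∈ M := by
  refine ⟨⨅ χ : {χ : IrrCharacter G // ∀ x ∈ M, (x : G) ∈ cker (χ : G → ℂ)}, cker (χ.1 : G → ℂ),
    normal_iInf_normal fun _ => inferInstance, fun x => ⟨fun hx => by_contra fun h1 => ?_, fun hx => mem_iInf.2 fun χ => χ.2 x hx⟩⟩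
  obtain ⟨θ, hθ, h2, h3⟩ := exists_irr_le_cker_not_mem M h1
  obtain ⟨χ, e⟩ := h ⟨θ, hθ⟩ h2
  have h4 : ∀ y : N, (y : G) ∈ cker (χ : G → ℂ) ↔ y ∈ cker θ := fun y => by
    rw [mem_cker (irr_isCharacter χ), mem_cker (isCharacter_of_isIrr hθ), e y, ← OneMemClass.coe_one N, e 1]
  exact h3 ((h4 x).1 (mem_iInf.1 hx ⟨χ, fun y hy => (h4 y).2 (h2 hy)⟩))

theorem npc (P : Sylow p G) (hP : normalizer (P : Set G) ≤ P) {Q : Type*} [Group Q] (f : G →* Q)
    (hf : Function.Surjective f) (h : ∀ x ∈ (P : Subgroup G), f x = 1 ↔ x ∈ ⁅(P : Subgroup G), (P : Subgroup G)⁆) :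
    HasNormalPComplement p G := by
  have : Finite Q := .of_surjective f hf
  have h1 := burnside_normal_complement (P.mapSurjective hf) fun y hy => by
    obtain ⟨g, rfl⟩ := hf y
    obtain ⟨n, ⟨x, hx, e1⟩, e⟩ := (Tech.IsSylowIn.of_sylow P (le_comap_map f _)).frattini' (le_normalizer_comap _ hy)
    rintro _ ⟨z, hz, rfl⟩
    rw [show f g = f (g * n * x⁻¹) by simp [e1], ← commutatorElement_eq_one_iff_mul_comm, ← map_commutatorElement]
    have h2 := commutator_mem_commutator hz (mul_mem (hP e) (inv_mem hx))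
    exact (h _ (commutator_le_self _ h2)).2 h2
  refine hasNormalPComplement_pResidual_iff.1 (hasNormalPComplement_of_inf_le_frattini P _ fun x hx =>
    Core.commutator_le_map_frattini P.isPGroup' ((h x hx.2).1 ?_))
  obtain ⟨k, hk⟩ := IsPGroup.iff_orderOf.1 P.isPGroup' ⟨x, hx.2⟩
  rw [orderOf_mk] at hk
  exact orderOf_eq_one_iff.1 (Nat.eq_one_of_dvd_coprimes (((mem_pResidual_iff_coprime h1 _).1
    (map_pResidual_le f (mem_map_of_mem f hx.1))).pow_right k) dvd_rfl (hk ▸ orderOf_map_dvd f x))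


/-- Let G be a finite group, p a prime and P a Sylow p-subgroup of G with normalizer N. Then every irreducible complex character of N of degree not divisible by p is the restriction of an irreducible character of G if and only if there is a normal subgroup K of G with KN = G and K ∩ N = 1. -/
theorem result {G : Type*} [Group G] [Finite G] (p : ℕ) [Fact p.Prime] (P : Sylow p G) :
    (∀ θ : Cfsg.IrrCharacter ↥(Subgroup.normalizer ((P : Subgroup G) : Set G)), ¬ p ∣ Cfsg.charDegree (θ : ↥(Subgroup.normalizer ((P : Subgroup G) : Set G)) → ℂ) →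
        ∃ χ : Cfsg.IrrCharacter G, ∀ x : ↥(Subgroup.normalizer ((P : Subgroup G) : Set G)), (χ : G → ℂ) x = (θ : ↥(Subgroup.normalizer ((P : Subgroup G) : Set G)) → ℂ) x) ↔
      ∃ K : Subgroup G, K.Normal ∧ K ⊔ Subgroup.normalizer ((P : Subgroup G) : Set G) = ⊤ ∧ K ⊓ Subgroup.normalizer ((P : Subgroup G) : Set G) = ⊥ := by
  set N := normalizer ((P : Subgroup G) : Set G) with hN
  have hP : (P : Subgroup G) ≤ N := le_normalizer
  refine ⟨fun h => ?_, fun ⟨K, _, h1, h2⟩ θ _ => ?_⟩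
  · have hA : ¬ p ∣ ((P : Subgroup G).subgroupOf N).index := fun e =>
      P.not_dvd_index (e.trans (relIndex_dvd_index_of_le hP))
    obtain ⟨H, _, hH⟩ := exists_normal ((P : Subgroup G).subgroupOf N) fun θ hθ =>
      h θ (not_dvd hA (commutator_le_left _ _) θ.2 hθ)
    obtain ⟨K, _, hK⟩ := exists_normal _ fun θ hθ => h θ (not_dvd hA le_rfl θ.2 hθ)
    have hPH : (P : Subgroup G) ≤ H := fun x hx => (hH ⟨x, hP hx⟩).2 hx
    have e : ∀ {L : Subgroup G}, (P : Subgroup G) ≤ L → ∀ x : L, x ∈ ⁅(P : Subgroup G).subgroupOf L,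
        (P : Subgroup G).subgroupOf L⁆ ↔ (x : G) ∈ ⁅(P : Subgroup G), (P : Subgroup G)⁆ := fun {L} hL x => by
      rw [← mem_map_iff_mem L.subtype_injective, map_commutator, map_subgroupOf_eq_of_le hL]; rfl
    have h1 := npc (P.subtype hPH) (fun x hx => (hH ⟨x, (subgroupOf_normalizer_eq hPH).ge hx⟩).1 x.2)
      ((QuotientGroup.mk' K).comp H.subtype).rangeRestrict (MonoidHom.rangeRestrict_surjective _) fun x hx => by
        rw [Sylow.coe_subtype, e hPH, ← e hP ⟨x, hP hx⟩, ← hK, ← QuotientGroup.eq_one_iff]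
        exact Subtype.ext_iff
    have h2 := isComplement'_pResidual h1 (P.subtype hPH)
    refine ⟨_, map_pResidual_normal (p := p) H, ?_, eq_bot_iff.2 ?_⟩
    · rw [eq_top_iff, ← P.normalizer_sup_eq_top' hPH]
      refine sup_le le_sup_right ((range_subtype H).ge.trans ?_)
      rw [MonoidHom.range_eq_map, ← h2.sup_eq_top, Subgroup.map_sup]
      exact sup_le_sup_left (((map_subgroupOf_eq_of_le hPH).le).trans hP) _
    · rintro _ ⟨⟨x, hx, rfl⟩, h3⟩
      exact congrArg Subtype.val (disjoint_def.1 h2.disjoint hx ((hH ⟨x, h3⟩).1 x.2))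
  · have h3 : N.IsComplement' K := isComplement'_of_disjoint_and_mul_eq_univ (disjoint_iff.2 (inf_comm N K ▸ h2))
      (by rw [← mul_normal, sup_comm, h1, coe_top])
    refine ⟨⟨_, isIrr_comp_of_surjective (h3.QuotientMulEquiv.toMonoidHom.comp (QuotientGroup.mk' K))
      (h3.QuotientMulEquiv.surjective.comp (QuotientGroup.mk'_surjective K)) θ.2⟩, fun x => ?_⟩
    exact congrArg θ.1 (h3.QuotientMulEquiv.apply_symm_apply x)

end Cfsg.Agent.S4931
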