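import Mathlib
import Cfsg.Statements.S4949
import Cfsg.Agent.Lib.SymChar.AltBlk
-- import your own Cfsg.Agent.* helpers here

set_option autoImplicit false
open Cfsg

namespace Cfsg.Agent.S4949

open CfsgLib.SymChar CfsgLib.Block CfsgLib.Blk CfsgLib.Char CfsgLib.Cover

/-- Let n be a natural number, p a prime, M a maximal ideal of the algebraic integers containing p, B a p-block of the alternating group of degree n and D a defect group of B. Then either B contains an irreducible character of height 1 and D has an irreducible complex character of degree p, or every irreducible character of B has height zero and D is commutative (so the least positive height in B and the least positive exponent of a character degree of D are both 1 or both absent). -/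
theorem result (n : ℕ) (p : ℕ) [Fact p.Prime] (M : Ideal Cfsg.AlgInt) (hM : Cfsg.IsPModular p M) (B : Set (Cfsg.IrrCharacter ↥(alternatingGroup (Fin n)))) (hB : Cfsg.IsPBlock M B) (D : Subgroup ↥(alternatingGroup (Fin n))) (hD : Cfsg.IsDefectGroup p M B D) :
    ((∃ χ : Cfsg.IrrCharacter ↥(alternatingGroup (Fin n)), χ ∈ B ∧ Cfsg.blockHeight p B (χ : ↥(alternatingGroup (Fin n)) → ℂ) = 1) ∧ (∃ φ : Cfsg.IrrCharacter ↥D, Cfsg.charDegree (φ : ↥D → ℂ) = p)) ∨
    ((∀ χ : Cfsg.IrrCharacter ↥(alternatingGroup (Fin n)), χ ∈ B → Cfsg.blockHeight p B (χ : ↥(alternatingGroup (Fin n)) → ℂ) = 0) ∧ IsMulCommutative D) := by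
  have hp := hM.1
  have hc' := card_eq_pow_blockDefect hM hB hD
  rcases le_or_gt (blockDefect p B) 2 with hd | hd
  · refine Or.inr ⟨fun χ hχ => height_eq_zero_of_defect_le hM hB hd hχ, ?_⟩
    generalize blockDefect p B = d at hd hc'
    interval_cases d
    · have := (Nat.card_eq_one_iff_unique.1 hc').1
      exact ⟨⟨fun a b => Subsingleton.elim _ _⟩⟩
    · have := isCyclic_of_prime_card (hc'.trans (pow_one p))
      infer_instance
    · exact IsPGroup.isMulCommutative_of_card_eq_prime_sq hc'
  obtain ⟨B', P, χ, β, T, hB', hc, hP, hχ, h, h1, h2, h3, h4, h5⟩ := exists_setup hM hB hD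
  have hι : Function.Injective ((alternatingGroup (Fin n)).subtype.comp D.subtype) :=
    (Subgroup.subtype_injective _).comp (Subgroup.subtype_injective _)
  rcases subsingleton_or_nontrivial (Fin n) with _ | _
  · exact absurd ((blockDefect_eq_zero_iff_eq_bot hM hB hD).2 (Subsingleton.elim _ _)) (by omega)
  rcases eq_or_ne p 2 with rfl | hp2
  · have h6 := h5 rfl
    have hw : 3 ≤ hk 2 β := by
      by_contra h7
      generalize hk 2 β = w at h3 h7
      have h8 : (Nat.factorial w).factorization 2 ≤ 1 := by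
        have : w ≤ 2 := by omega
        interval_cases w <;> simp [hp.factorization_self]
      omega
    obtain ⟨ψ, hψ, h7, h8⟩ := h.exists_height_one_two hM le_rfl hB' hχ hw h3
    obtain ⟨θ, hθ, h9⟩ := exists_under_of_covers _ hM hB' hB hc hψ
    exact Or.inl ⟨⟨θ, hθ, (height_eq_of_two (by omega) hψ hθ
      (irr_eq_of_classInner_ne_zero h8 θ.2 h9)).trans h7⟩, exists_irr_two h2 (by omega) hι hP⟩
  obtain ⟨h6, h7⟩ := h4 hp2
  rw [inf_eq_left.2 h6] at hP
  rcases le_or_gt p (hk p β) with hw | hw
  · obtain ⟨ψ, hψ, h8⟩ := h.exists_height_one hM (by omega) hp2 hB' hχ hw h3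
    obtain ⟨θ, hθ, h9⟩ := exists_under_of_covers _ hM hB' hB hc hψ
    exact Or.inl ⟨⟨θ, hθ, (height_eq_of_ne_two hp hp2 h7 hψ hθ h9).trans h8⟩,
      exists_irr_of_sq_le h2 (by rw [h1, sq]; gcongr) hι hP⟩
  rw [Nat.factorization_factorial_eq_zero_of_lt hw, add_zero] at h3
  refine Or.inr ⟨fun θ hθ => ?_, ?_⟩
  · obtain ⟨ψ, hψ, h8⟩ := exists_over_of_covers _ hM hB' hB hc hθ
    obtain ⟨γ, hγ⟩ := exists_lab (N := Fintype.card (Fin n) + 2 * p) (by omega) ψ
    have h9 := hγ.height_add hp hψ
    have h10 := hk_le_factorization hp γ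
    rw [(h.sim hM (by omega) hγ (sameBlock_of_mem hM hB' hχ hψ)).hk_eq hp.pos h.good hγ.good
      (hγ.lvl_eq.trans h.lvl_eq.symm)] at h10
    rw [height_eq_of_ne_two hp hp2 h7 hψ hθ h8]
    rw [nu] at h9
    omega
  · have h8 := isMulCommutative_of_card h2 h1.ge (by
      rw [← hP, MonoidHom.range_eq_map, Subgroup.card_map_of_injective hι, Subgroup.card_top, hc',
        h7, h3])
    refine ⟨⟨fun a b => hι ?_⟩⟩
    rw [map_mul, map_mul]
    exact congrArg Subtype.val (h8.is_comm.comm ⟨_, hP.le ⟨a, rfl⟩⟩ ⟨_, hP.le ⟨b, rfl⟩⟩)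

end Cfsg.Agent.S4949
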