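import Cfsg.Statements.S4989
import Cfsg.Agent.Lib.ChDeg.Avg

set_option autoImplicit false
open Cfsg

namespace Cfsg.Agent.S4989

/-- Let H be a subgroup of the finite group G and χ an irreducible complex character of G. Then the inner product of the restriction of χ to H with itself, (1/#H)·Σ_{h ∈ H} |χ(h)|², is at most 1 + #(Z ∖ H)/#H, where Z is the set of zeros of χ in G. -/
theorem result {G : Type*} [Group G] [Finite G] (H : Subgroup G) (χ : Cfsg.IrrCharacter G) : (Nat.card ↥H : ℝ)⁻¹ * ∑ᶠ h : ↥H, ‖(χ : G → ℂ) h‖ ^ 2 ≤ 1 + (Set.ncard ({x : G | (χ : G → ℂ) x = 0} \ (H : Set G)) : ℝ) / (Nat.card ↥H : ℝ) := by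
  open CfsgLib.Char CfsgLib.ChDeg in
  classical
  have : Fintype G := Fintype.ofFinite G
  have hc := irr_isCharacter χ
  have hH : (0 : ℝ) < Nat.card H := by exact_mod_cast Nat.card_pos
  rw [finsum_eq_sum_of_fintype, inv_mul_le_iff₀ hH, mul_add, mul_one, mul_div_cancel₀ _ hH.ne']
  have h1 := sum_norm_sq_irr χ.2
  rw [← Finset.sum_filter_add_sum_filter_not Finset.univ (· ∈ H),
    Finset.sum_subtype (Finset.univ.filter (· ∈ H)) (p := fun x => x ∈ H) (by simp)
      (fun g => ‖(χ : G → ℂ) g‖ ^ 2)] at h1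
  let S : Finset G := Finset.univ.filter (fun g => g ∉ H ∧ (χ : G → ℂ) g ≠ 0)
  have h2 := card_le_sum_norm_sq hc S (fun m hm g hg => by
    simp only [S, Finset.mem_filter, Finset.mem_univ, true_and] at hg ⊢
    exact ⟨fun e => hg.1 (mem_of_pow_mem_of_coprime hm e), char_pow_ne_zero hc hm hg.2⟩)
    (fun g hg => (Finset.mem_filter.mp hg).2.2)
  have h3 : ∑ g ∈ S, ‖(χ : G → ℂ) g‖ ^ 2 ≤
      ∑ g ∈ Finset.univ.filter (fun g => ¬ g ∈ H), ‖(χ : G → ℂ) g‖ ^ 2 :=
    Finset.sum_le_sum_of_subset_of_nonneg (fun g hg => by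
      simp only [S, Finset.mem_filter, Finset.mem_univ, true_and] at hg ⊢
      exact hg.1) fun _ _ _ => by positivity
  have h4 : Nat.card G = Nat.card H + S.card +
      Set.ncard ({x : G | (χ : G → ℂ) x = 0} \ (H : Set G)) := by
    have e1 : Nat.card H = (Finset.univ.filter (· ∈ H)).card := by
      rw [Nat.card_eq_fintype_card, Fintype.card_subtype]
    have e2 : ({x : G | (χ : G → ℂ) x = 0} \ (H : Set G)) =
        ((Finset.univ.filter (fun g => g ∉ H ∧ ¬ (χ : G → ℂ) g ≠ 0) : Finset G) : Set G) := by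
      ext x; simp [and_comm]
    rw [e1, e2, Set.ncard_coe_finset, Nat.card_eq_fintype_card, ← Finset.card_univ,
      ← Finset.card_filter_add_card_filter_not (s := Finset.univ) (· ∈ H), add_assoc,
      ← Finset.card_filter_add_card_filter_not (s := Finset.univ.filter (fun g => ¬ g ∈ H))
        (fun g => (χ : G → ℂ) g ≠ 0), Finset.filter_filter, Finset.filter_filter]
  have h5 : (Nat.card G : ℝ) = Nat.card H + S.card +
      Set.ncard ({x : G | (χ : G → ℂ) x = 0} \ (H : Set G)) := by exact_mod_cast h4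
  linarith

end Cfsg.Agent.S4989
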