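import Cfsg.Statements.S4993
import Cfsg.Agent.Lib.PrimCh.Main
import Cfsg.Agent.Lib.Char.Burnside
import Cfsg.Agent.Lib.Core.Fitting

set_option autoImplicit false
open Cfsg

namespace Cfsg.Agent.S4993

open Subgroup CfsgLib.PrimCh

theorem hyp {G : Type*} [Group G] [Finite G] [hF : (Cfsg.fittingSubgroup G).Normal]
    (p : ℕ) [Fact p.Prime] (P : Subgroup (G ⧸ Cfsg.fittingSubgroup G)) [P.Normal]
    (hP : IsPGroup p P) (N : Subgroup G) [N.Normal] (V : Subgroup (G ⧸ N)) (_ : V.Normal)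
    (hV : IsPGroup p V) (hmin : ∀ M : Subgroup (G ⧸ N), M.Normal → M ≤ V → M = ⊥ ∨ M = V) :
    ∀ h ∈ P.comap (QuotientGroup.mk' _), (h : G ⧸ N) ∈ centralizer (V : Set (G ⧸ N)) := by
  intro h hh
  have hs := QuotientGroup.mk'_surjective N
  have : ((P.comap (QuotientGroup.mk' _)).map (QuotientGroup.mk' N)).Normal :=
    Subgroup.Normal.map inferInstance _ hs
  have : ((Cfsg.fittingSubgroup G).map (QuotientGroup.mk' N)).Normal :=
    Subgroup.Normal.map inferInstance _ hs
  have := CfsgLib.Core.isNilpotent_fittingSubgroup G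
  have : Group.IsNilpotent ((Cfsg.fittingSubgroup G).map (QuotientGroup.mk' N)) :=
    Group.nilpotent_of_surjective _ ((QuotientGroup.mk' N).subgroupMap_surjective _)
  have hc := CfsgLib.Core.le_centralizer_of_minimal_normal_of_isNilpotent
    (K := (Cfsg.fittingSubgroup G).map (QuotientGroup.mk' N)) hmin
  refine le_centralizer_of_pgroup hV hmin ((P.comap (QuotientGroup.mk' _)).map
    (QuotientGroup.mk' N)) ?_ ⟨h, hh, rfl⟩
  rintro _ ⟨x, hx, rfl⟩
  obtain ⟨k, hk⟩ := hP ⟨_, hx⟩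
  refine ⟨k, hc ⟨x ^ p ^ k, ?_, map_pow _ _ _⟩⟩
  rw [SetLike.mem_coe, ← QuotientGroup.eq_one_iff, QuotientGroup.mk_pow]
  exact congrArg Subtype.val hk

/-- Let G be a group of odd order whose order has exactly two prime divisors and whose quotient by its Fitting subgroup is nilpotent (G is metanilpotent), and let χ be a primitive irreducible complex character of G (not induced from a character of any proper subgroup). Then χ(1) divides the size of some conjugacy class of G. -/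
theorem result {G : Type*} [Group G] [Fintype G] (hodd : Odd (Nat.card G)) (h2 : (Nat.card G).primeFactors.card = 2) [hF : (Cfsg.fittingSubgroup G).Normal] (hmeta : Group.IsNilpotent (G ⧸ Cfsg.fittingSubgroup G)) (χ : Cfsg.IrrCharacter G) (hprim : ¬ ∃ (H : Subgroup G), H ≠ ⊤ ∧ ∃ θ : ↥H → ℂ, Cfsg.IsCharacter ↥H θ ∧ Cfsg.indFun H θ = (χ : G → ℂ)) : ∃ g : G, Cfsg.charDegree (χ : G → ℂ) ∣ (Subgroup.centralizer ({g} : Set G)).index := by
  classical
  have := CfsgLib.Char.isSolvable_of_card_primeFactors_le_two (G := G) h2.le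
  obtain ⟨p, q, hpq, hs⟩ := Finset.card_eq_two.1 h2
  have hp : p.Prime := Nat.prime_of_mem_primeFactors (n := Nat.card G) (by rw [hs]; simp)
  have hq : q.Prime := Nat.prime_of_mem_primeFactors (n := Nat.card G) (by rw [hs]; simp)
  have := Fact.mk hp
  have := Fact.mk hq
  have hr : ∀ r : ℕ, r.Prime → r ∣ Nat.card G → r = p ∨ r = q := by
    intro r hr hd
    have : r ∈ (Nat.card G).primeFactors := Nat.mem_primeFactors.2 ⟨hr, hd, Nat.card_pos.ne'⟩
    rw [hs] at this
    simpa using this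
  obtain ⟨P⟩ : Nonempty (Sylow p (G ⧸ Cfsg.fittingSubgroup G)) := inferInstance
  obtain ⟨Q⟩ : Nonempty (Sylow q (G ⧸ Cfsg.fittingSubgroup G)) := inferInstance
  set π := QuotientGroup.mk' (Cfsg.fittingSubgroup G)
  have hsup : (P : Subgroup (G ⧸ Cfsg.fittingSubgroup G)) ⊔ Q = ⊤ := by
    rw [← index_eq_one]
    by_contra h
    obtain ⟨r, hr1, hr2⟩ := Nat.exists_prime_and_dvd h
    rcases hr r hr1 ((hr2.trans (index_dvd_card _)).trans (card_quotient_dvd_card _)) with e | e
    · subst e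
      exact P.not_dvd_index (hr2.trans (index_dvd_of_le le_sup_left))
    · subst e
      exact Q.not_dvd_index (hr2.trans (index_dvd_of_le le_sup_right))
  have hsup' : (P : Subgroup (G ⧸ Cfsg.fittingSubgroup G)).comap π ⊔
      (Q : Subgroup (G ⧸ Cfsg.fittingSubgroup G)).comap π = ⊤ := by
    rw [comap_sup_eq _ _ _ (QuotientGroup.mk'_surjective _), hsup, comap_top]
  obtain ⟨g₁, h₁⟩ := exists_bound χ.2 hprim p _ (hyp p P P.2)
  obtain ⟨g₂, h₂⟩ := exists_bound χ.2 hprim q _ (hyp q Q Q.2)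
  obtain ⟨a, ha, b, hb, e⟩ := mem_sup_of_normal_left.1 (hsup' ▸ mem_top (g₁⁻¹ * g₂))
  have e' : g₁ * a = g₂ * b⁻¹ := by
    rw [eq_mul_inv_iff_mul_eq, mul_assoc, e, mul_inv_cancel_left]
  refine ⟨g₁ * a, (Nat.factorization_prime_le_iff_dvd (CfsgLib.ChDeg.deg_pos χ.2).ne'
    FiniteIndex.index_ne_zero).1 fun r hr1 => ?_⟩
  by_cases hd : r ∣ Cfsg.charDegree (χ : G → ℂ)
  · rcases hr r hr1 (hd.trans (CfsgLib.ChDeg.deg_dvd_card χ.2)) with rfl | rfl
    · exact h₁ a ha
    · rw [e']; exact h₂ _ (inv_mem hb)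
  · rw [Nat.factorization_eq_zero_of_not_dvd hd]
    exact Nat.zero_le _

end Cfsg.Agent.S4993
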