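import Cfsg.Statements.S4996
import Cfsg.Agent.Lib.ChDeg.Avg

set_option autoImplicit false
open Cfsg

namespace Cfsg.Agent.S4996

/-- Let N be a normal subgroup of the finite group G and χ an irreducible complex character of G. Then the restriction of χ to N is not irreducible if and only if χ vanishes on some whole coset Nx of N in G. -/
theorem result {G : Type*} [Group G] [Finite G] (N : Subgroup G) [N.Normal] (χ : Cfsg.IrrCharacter G) : ¬ Cfsg.IsIrrCharacter ↥N (fun n : ↥N => (χ : G → ℂ) n) ↔ ∃ x : G, ∀ n : ↥N, (χ : G → ℂ) ((n : G) * x) = 0 := by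
  open CfsgLib.Char CfsgLib.ChDeg ComplexConjugate in
  classical
  have : Fintype G := Fintype.ofFinite G
  have hc := irr_isCharacter χ
  have hΘ := isCharacter_mul hc (isCharacter_conj hc)
  obtain ⟨F, hF, hNF, hsum, hin⟩ := exists_char_coset_avg hΘ N
  have hN : (Nat.card N : ℂ) ≠ 0 := natCard_ne_zero
  have hNr : (0 : ℝ) < Nat.card N := by exact_mod_cast Nat.card_pos
  have hF1 : classInner F (fun _ => 1) = 1 := by
    rw [hin _ isIrr_one (by rw [cker_one]; exact le_top)]
    exact (classInner_mul_conj_one _ _).trans (classInner_irr_self χ.2)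
  have hval : ∀ g, F g = (((Nat.card N : ℝ)⁻¹ * ∑ n : N, ‖(χ : G → ℂ) (n * g)‖ ^ 2 : ℝ) : ℂ) := by
    intro g
    have h := hsum g
    simp only [Pi.mul_apply, Complex.mul_conj, Complex.normSq_eq_norm_sq] at h
    push_cast at h ⊢
    rw [h]; field_simp
  have hone : F 1 = classInner (fun n : N => (χ : G → ℂ) n) (fun n : N => (χ : G → ℂ) n) := by
    rw [hval, classInner_self_eq]; simp
  constructor
  · intro hirr
    by_contra hx
    push Not at hx
    have hpos : ∀ g, ∃ r : ℝ, 0 < r ∧ F g = r := fun g => by
      refine ⟨_, ?_, hval g⟩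
      obtain ⟨n, hn⟩ := hx g
      refine mul_pos (inv_pos.mpr hNr) (Finset.sum_pos' (fun _ _ => by positivity)
        ⟨n, Finset.mem_univ _, by positivity⟩)
    have h1 := card_le_sum_re hF (Finset.univ.erase 1) (fun m hm g hg => by
      rw [Finset.mem_erase] at hg ⊢
      refine ⟨fun e => hg.1 ((powCoprime hm.symm).injective ?_), Finset.mem_univ _⟩
      simpa using e) (fun g _ => hpos g)
    have h2 : ∑ g, F g = Nat.card G := by
      rw [classInner_one_right, inv_mul_eq_one₀ natCard_ne_zero] at hF1
      exact hF1.symm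
    have h3 : ∑ g, (F g).re = Nat.card G := by
      rw [← Complex.re_sum, h2, Complex.natCast_re]
    rw [← Finset.add_sum_erase _ _ (Finset.mem_univ (1 : G))] at h3
    rw [Finset.card_erase_of_mem (Finset.mem_univ _), Finset.card_univ, ← Nat.card_eq_fintype_card,
      Nat.cast_sub Nat.card_pos] at h1
    obtain ⟨k, hk⟩ := exists_char_one_eq_nat hF
    obtain ⟨r, hr, hr'⟩ := hpos 1
    have hk1 : k = 1 := by
      rw [hk, Complex.natCast_re] at h3
      have h5 : (k : ℝ) ≤ 1 := by push_cast at h1; linarith
      have h6 : (k : ℝ) = r := by rw [hk] at hr'; exact_mod_cast hr'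
      have h7 : 0 < k := by rw [← h6] at hr; exact_mod_cast hr
      have h8 : k ≤ 1 := by exact_mod_cast h5
      omega
    exact hirr (isIrr_of_inner_self_eq_one (isCharacter_restrict N hc)
      (by rw [← hone, hk, hk1, Nat.cast_one]))
  · rintro ⟨x, hx⟩ hirr
    have h1 : F 1 = 1 := by rw [hone, classInner_irr_self hirr]
    have h2 := irr_eq_of_classInner_ne_zero (isIrr_of_one_eq_one hF h1) isIrr_one
      (by rw [hF1]; exact one_ne_zero)
    have h3 := hval x
    rw [h2] at h3
    simp [hx] at h3

end Cfsg.Agent.S4996
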