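import Mathlib
import Cfsg.Statements.S5001
import Cfsg.Agent.Lib.Cover.Twist

set_option autoImplicit false
open Cfsg

namespace Cfsg.Agent.S5001

open CfsgLib CfsgLib.Cover CfsgLib.Block CfsgLib.Char in
open scoped ComplexConjugate in

/-- Let p be a prime, G a finite group and B a p-block of G (relative to a maximal ideal M of the algebraic integers containing p) with defect group D. Let Z be a central p-subgroup of G contained in D and λ a linear character of Z (a homomorphism to the nonzero complex numbers). Say an irreducible character χ of G lies over λ when χ(z) = χ(1)λ(z) for all z ∈ Z. If some irreducible character in B lying over λ has height zero, then λ extends to a linear character of D. -/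
theorem result {G : Type*} [Group G] [Finite G] (p : ℕ) [Fact p.Prime] (M : Ideal Cfsg.AlgInt) (hM : Cfsg.IsPModular p M) (B : Set (Cfsg.IrrCharacter G)) (hB : Cfsg.IsPBlock M B) (D : Subgroup G) (hD : Cfsg.IsDefectGroup p M B D) (Z : Subgroup G) (hZc : Z ≤ Subgroup.center G) (hZp : IsPGroup p ↥Z) (hZD : Z ≤ D) (lam : ↥Z →* ℂˣ) (χ : Cfsg.IrrCharacter G) (hχ : χ ∈ B) (hover : (∀ z : ↥Z, (χ : G → ℂ) z = (χ : G → ℂ) 1 * (lam z : ℂ))) (h0 : Cfsg.blockHeight p B (χ : G → ℂ) = 0) : (∃ μ : ↥D →* ℂˣ, ∀ z : ↥Z, μ ⟨(z : G), hZD z.2⟩ = lam z) := by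
  haveI := Fintype.ofFinite D
  have hp := hM.1
  obtain ⟨y, hy, hyD⟩ := exists_isDefectClass_sylIn hD
  have hyC : y ∈ BrPair.Cz D := BrPair.le_Ce_iff.1 hyD.le
  have hf : IsClassFunction D (fun d : D => (χ : G → ℂ) (d * y)) := by
    intro g h
    have := BrPair.mem_Cz.1 hyC _ (D.inv_mem h.2)
    simp only [Subgroup.coe_mul, Subgroup.coe_inv]
    rw [mul_assoc, this, ← mul_assoc, mul_assoc (h : G)]
    exact irr_isClassFunction χ _ _
  have hint : ∀ ζ : IrrCharacter D,
      IsIntegral ℤ (classInner (fun d : D => (χ : G → ℂ) (d * y)) (ζ : D → ℂ)) := fun ζ =>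
    isIntegral_avg_prod (isCharacter_mul (isCharacter_comp (mulCz D) (irr_isCharacter χ))
      (isCharacter_comp (MonoidHom.fst D (BrPair.Cz D)) (isCharacter_conj (irr_isCharacter ζ))))
      ⟨y, hyC⟩
  have h1 := not_li_of_isDefectClass hM hB hy hχ h0
  have h2 := classFun_apply_eq_sum hf 1
  simp only [Subgroup.coe_one, one_mul] at h2
  obtain ⟨ζ, hζ⟩ : ∃ ζ : IrrCharacter D, ¬ MemLocalIdeal M
      (classInner (fun d : D => (χ : G → ℂ) (d * y)) (ζ : D → ℂ) * (ζ : D → ℂ) 1) := by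
    by_contra h
    push Not at h
    exact h1 (h2 ▸ li_sum hM fun ζ _ => h ζ)
  have h3 : (ζ : D → ℂ) 1 = 1 := by
    obtain ⟨n, -, hn, h⟩ := exists_irr_degree ζ.2
    rw [card_eq_pow_blockDefect hM hB hD, Nat.dvd_prime_pow hp] at hn
    obtain ⟨j, -, rfl⟩ := hn
    rcases j with _ | j
    · simpa using h
    · refine absurd (li_mul_left hM (lr_of_isIntegral hM (hint ζ)) ?_) hζ
      rw [h, li_natCast_iff hM]
      exact dvd_pow_self p j.succ_ne_zero
  obtain ⟨μ, hμ⟩ := exists_unitsHom_of_one_eq_one (irr_isCharacter ζ) h3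
  refine ⟨μ, fun z => ?_⟩
  have h4 : classInner (fun d : D => (χ : G → ℂ) (d * y)) (ζ : D → ℂ) ≠ 0 := fun h => by
    rw [h, zero_mul] at hζ
    exact hζ (li_zero hM)
  have h5 : ∀ g, (χ : G → ℂ) (z * g) = lam z * (χ : G → ℂ) g := fun g => by
    rw [char_mul_of_norm_eq (irr_isCharacter χ) (norm_irr_of_mem_center χ.2 (hZc z.2)), hover,
      mul_div_cancel_left₀ _ (irr_one_ne_zero χ.2)]
  set w : D := ⟨z, hZD z.2⟩ with hw
  have h6 : classInner (fun d : D => (χ : G → ℂ) (d * y)) (ζ : D → ℂ) =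
      (lam z : ℂ) * (μ w⁻¹ : ℂ) * classInner (fun d : D => (χ : G → ℂ) (d * y)) (ζ : D → ℂ) := by
    conv_lhs => rw [← classInner_comp_equiv (Equiv.mulLeft w)]
    rw [classInner_def, classInner_def, mul_left_comm]
    congr 1
    rw [Finset.mul_sum]
    refine Finset.sum_congr rfl fun d _ => ?_
    simp only [Equiv.coe_mulLeft, Subgroup.coe_mul]
    rw [mul_assoc, h5, char_mul_of_one_eq_one (irr_isCharacter ζ) h3, map_mul,
      ← char_inv (irr_isCharacter ζ) w, hμ]
    ring
  have h7 : (lam z : ℂ) * (μ w⁻¹ : ℂ) = 1 := mul_right_cancel₀ h4 (by rw [← h6, one_mul])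
  rw [← Units.val_mul, Units.val_eq_one, map_inv, mul_inv_eq_one] at h7
  exact h7.symm

end Cfsg.Agent.S5001
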