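import Mathlib
import Cfsg.Statements.S5011


set_option autoImplicit false
open Cfsg

namespace Cfsg.Agent.S5011


/-- Let G be a finite non-abelian simple group and ρ an irreducible complex representation of G on a space of dimension greater than one (irreducible in the sense that the only subspaces invariant under every ρ(x) are 0 and the whole space). Then for every non-identity element g of G, the centralizer of g does not act irreducibly: there is a non-zero proper subspace invariant under ρ(c) for every c commuting with g. -/
theorem result {G : Type*} [Group G] [Finite G] [IsSimpleGroup G]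
    (hG : ¬ IsMulCommutative G) {V : Type*} [AddCommGroup V] [Module ℂ V] [FiniteDimensional ℂ V]
    (ρ : Representation ℂ G V)
    (hirr : ∀ W : Submodule ℂ V, (∀ x : G, ∀ v ∈ W, ρ x v ∈ W) → W = ⊥ ∨ W = ⊤)
    (hdim : 1 < Module.finrank ℂ V) (g : G) (hg : g ≠ 1) :
    ∃ W : Submodule ℂ V, W ≠ ⊥ ∧ W ≠ ⊤ ∧ ∀ c ∈ Subgroup.centralizer ({g} : Set G), ∀ v ∈ W, ρ c v ∈ W := by
  classical
  have hnt : Nontrivial V := Module.nontrivial_of_finrank_pos (R := ℂ) (by omega)
  obtain ⟨c, hc⟩ := Module.End.exists_eigenvalue (ρ g)
  refine ⟨Module.End.eigenspace (ρ g) c, hc, ?_, ?_⟩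
  · intro htop
    let N : Subgroup G :=
      { carrier := {x | ∃ a : ℂ, ∀ v, ρ x v = a • v}
        mul_mem' := by
          rintro x y ⟨a, ha⟩ ⟨b, hb⟩
          refine ⟨a * b, fun v => ?_⟩
          rw [map_mul, Module.End.mul_apply, hb, map_smul, ha, smul_smul, mul_comm]
        one_mem' := ⟨1, fun v => by simp⟩
        inv_mem' := by
          rintro x ⟨a, ha⟩
          by_cases h0 : a = 0
          · exfalso
            obtain ⟨v, hv⟩ := exists_ne (0 : V)
            apply hv
            have h1 : ρ x⁻¹ (ρ x v) = v := by
              rw [← Module.End.mul_apply, ← map_mul, inv_mul_cancel, map_one, Module.End.one_apply]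
            rw [ha, h0, zero_smul, map_zero] at h1
            exact h1.symm
          · refine ⟨a⁻¹, fun v => ?_⟩
            have h1 : ρ x⁻¹ (ρ x v) = v := by
              rw [← Module.End.mul_apply, ← map_mul, inv_mul_cancel, map_one, Module.End.one_apply]
            rw [ha, map_smul] at h1
            rw [← h1, smul_smul, inv_mul_cancel₀ h0, one_smul, h1] }
    have hN : N.Normal := ⟨by
      rintro x ⟨a, ha⟩ y
      refine ⟨a, fun v => ?_⟩
      rw [map_mul, map_mul, Module.End.mul_apply, Module.End.mul_apply, ha, map_smul,
        ← Module.End.mul_apply, ← map_mul, mul_inv_cancel, map_one, Module.End.one_apply]⟩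
    have hgN : g ∈ N := ⟨c, fun v => by
      have hv : v ∈ Module.End.eigenspace (ρ g) c := by rw [htop]; trivial
      exact Module.End.mem_eigenspace_iff.mp hv⟩
    have hNtop : N = ⊤ := by
      rcases hN.eq_bot_or_eq_top with h | h
      · rw [h] at hgN; exact absurd (Subgroup.mem_bot.mp hgN) hg
      · exact h
    obtain ⟨v, hv⟩ := exists_ne (0 : V)
    rcases hirr (Submodule.span ℂ {v}) (fun x w hw => by
      have hx : x ∈ N := by rw [hNtop]; trivial
      obtain ⟨a, ha⟩ := hx
      rw [ha]; exact Submodule.smul_mem _ _ hw) with h | h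
    · exact hv (Submodule.span_singleton_eq_bot.mp h)
    · have h1 := finrank_span_singleton (K := ℂ) hv
      rw [h, finrank_top] at h1
      omega
  · intro x hx v hv
    rw [Module.End.mem_eigenspace_iff] at hv ⊢
    have hcomm : g * x = x * g := (Subgroup.mem_centralizer_iff.mp hx) g rfl
    rw [← Module.End.mul_apply, ← map_mul, hcomm, map_mul, Module.End.mul_apply, hv, map_smul]

end Cfsg.Agent.S5011
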