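import Cfsg.Statements.S5075
import Cfsg.Agent.Lib.TvGen.Dec

set_option autoImplicit false
open Cfsg

namespace Cfsg.Agent.S5075

open CfsgLib CfsgLib.TvGen
open scoped commutatorElement

open Module

section Aux

variable {p : ℕ} [Fact p.Prime] {V : Type*} [AddCommGroup V] [Module (ZMod p) V]

/-- The subgroup generated by the transvections of a class. -/
def KK (H : Subgroup (V ≃ₗ[ZMod p] V)) (M : Submodule (ZMod p) V) : Subgroup (V ≃ₗ[ZMod p] V) :=
  Subgroup.closure {g | ∃ v φ, Nd (SM H M) v φ ∧ ∀ x, g x = x + φ x • v}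

variable {H : Subgroup (V ≃ₗ[ZMod p] V)}

theorem KK_le (M : Submodule (ZMod p) V) : KK H M ≤ H := by
  refine (Subgroup.closure_le _).2 ?_
  rintro g ⟨v, φ, ⟨⟨⟨-, g', hg', e⟩, -⟩, -⟩, hg⟩
  have : g = g' := LinearEquiv.ext fun x => by rw [hg, e]
  rw [this]; exact hg'

theorem KK_fix {M : Submodule (ZMod p) V} {x : V} (hx : ∀ φ ∈ Phi H M, φ x = 0)
    {g : V ≃ₗ[ZMod p] V} (hg : g ∈ KK H M) : g x = x := by
  have : KK H M ≤ MulAction.stabilizer (V ≃ₗ[ZMod p] V) x := by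
    refine (Subgroup.closure_le _).2 ?_
    rintro g ⟨v, φ, hv, hg⟩
    show g x = x
    rw [hg, hx φ (Submodule.subset_span ⟨v, hv⟩), zero_smul, add_zero]
  exact this hg

theorem KK_normal (h : Hyp H) {M : Submodule (ZMod p) V} (hM : IsCl H M) :
    ((KK H M).subgroupOf H).Normal := by
  refine (Subgroup.normal_subgroupOf_iff (KK_le M)).2 ?_
  intro k g hk hg
  refine Subgroup.closure_induction (p := fun k _ => g * k * g⁻¹ ∈ KK H M) ?_ ?_ ?_ ?_ hk
  · rintro t ⟨v, φ, hv, ht⟩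
    refine Subgroup.subset_closure ⟨g v, φ ∘ₗ (g⁻¹ : V ≃ₗ[ZMod p] V), ⟨⟨hv.1.1.conj_mem hg,
      h.apply_mem hM.inv hg v hv.1.2⟩, by simpa using hv.2.1, fun h0 => hv.2.2 ?_⟩, fun x => ?_⟩
    · ext x
      have := LinearMap.congr_fun h0 (g x)
      simpa using this
    · rw [LinearEquiv.mul_apply, LinearEquiv.mul_apply, ht, map_add, map_smul,
        ← LinearEquiv.mul_apply, mul_inv_cancel]
      rfl
  · simp
  · intro a b _ _ ha hb
    have := Subgroup.mul_mem _ ha hb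
    simpa [mul_assoc] using this
  · intro a _ ha
    have := Subgroup.inv_mem _ ha
    simpa [mul_assoc] using this

/-- Restriction to the subspace of a class. -/
def rho (h : Hyp H) {M : Submodule (ZMod p) V} (hM : IsCl H M) :
    ↥(KK H M) →* (↥M ≃ₗ[ZMod p] ↥M) where
  toFun g := LinearEquiv.ofSubmodules (g : V ≃ₗ[ZMod p] V) M M (h.map_eq hM.inv (KK_le M g.2))
  map_one' := LinearEquiv.ext fun _ => rfl
  map_mul' _ _ := LinearEquiv.ext fun _ => rfl

theorem rho_apply (h : Hyp H) {M : Submodule (ZMod p) V} (hM : IsCl H M) (g : ↥(KK H M))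
    (v : ↥M) : ((rho h hM g v : ↥M) : V) = (g : V ≃ₗ[ZMod p] V) (v : V) := rfl

theorem nd_rho (h : Hyp H) {M : Submodule (ZMod p) V} (hM : IsCl H M) {v : V}
    {φ : Dual (ZMod p) V} (hv : Nd (SM H M) v φ) :
    Nd (Tv (rho h hM).range) ⟨v, hv.1.2⟩ (φ ∘ₗ M.subtype) := by
  obtain ⟨h0, g, hg, hg'⟩ := hv.1.1
  refine ⟨⟨h0, rho h hM ⟨g, Subgroup.subset_closure ⟨v, φ, hv, hg'⟩⟩, ⟨_, rfl⟩,
    fun x => Subtype.ext (hg' x)⟩, fun e => hv.2.1 (congrArg Subtype.val e), fun e => hv.2.2 ?_⟩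
  exact h.eq_zero_right hM (Submodule.subset_span ⟨v, hv⟩) fun w hw =>
    LinearMap.congr_fun e ⟨w, hw⟩

theorem irr_rho [Finite V] (h : Hyp H) {M : Submodule (ZMod p) V} (hM : IsCl H M) :
    Irr (Tv (rho h hM).range) := by
  have ax : ∀ ξ : Dual (ZMod p) M, ξ ≠ 0 → ∃ v φ, Nd (SM H M) v φ ∧ ξ = φ ∘ₗ M.subtype := by
    intro ξ hξ
    obtain ⟨φ, hφ, e⟩ := (h.perfect hM).1 ξ
    have e' : ξ = φ ∘ₗ M.subtype := LinearMap.ext fun m => (e m).symm
    obtain ⟨v, hv⟩ := h.axis hM hφ (by rintro rfl; exact hξ (by simpa using e'))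
    exact ⟨v, φ, hv, e'⟩
  refine ⟨ts_tv h.two _, Tv.zl _, Tv.zr _, fun v hv => ?_, fun ξ hξ => ?_, fun w ξ hw hξ => ?_⟩
  · obtain ⟨φ, hφ⟩ := h.centre hM v.2 (fun e => hv (Subtype.ext e))
    exact ⟨_, nd_rho h hM hφ⟩
  · obtain ⟨v, φ, hv, rfl⟩ := ax ξ hξ
    exact ⟨_, nd_rho h hM hv⟩
  · obtain ⟨v, φ, hv, rfl⟩ := ax ξ hξ
    obtain ⟨ψ, hψ⟩ := h.centre hM w.2 (fun e => hw (Subtype.ext e))
    obtain ⟨y, η, hy, a, b⟩ := (h.con_SM hM).exists_opp (h.ts_SM M) h.two hψ hv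
    exact ⟨_, _, (nd_rho h hM hy).1, a, b⟩

theorem gen_rho (h : Hyp H) {M : Submodule (ZMod p) V} (hM : IsCl H M) :
    (rho h hM).range ≤ Subgroup.closure
      {g | ∃ v φ, Nd (Tv (rho h hM).range) v φ ∧ ∀ x, g x = x + φ x • v} := by
  rintro _ ⟨⟨g, hg⟩, rfl⟩
  induction hg using Subgroup.closure_induction with
  | mem g hg =>
    obtain ⟨v, φ, hv, hg'⟩ := hg
    exact Subgroup.subset_closure ⟨_, _, nd_rho h hM hv, fun x => Subtype.ext (hg' x)⟩
  | one => exact (map_one (rho h hM)).symm ▸ Subgroup.one_mem _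
  | mul a b ha hb iha ihb =>
    exact (map_mul (rho h hM) ⟨a, ha⟩ ⟨b, hb⟩).symm ▸ Subgroup.mul_mem _ iha ihb
  | inv a ha ih => exact (map_inv (rho h hM) ⟨a, ha⟩).symm ▸ Subgroup.inv_mem _ ih

end Aux

/-- Let p be an odd prime, V a finite-dimensional vector space over the field with p elements, and H a group of linear automorphisms of V generated by transvections (elements of order p fixing a hyperplane pointwise) and having no nontrivial normal p-subgroup. Then for some n ≥ 1 there are a decomposition V = V₀ ⊕ V₁ ⊕ ⋯ ⊕ Vₙ into H-invariant subspaces and a decomposition of H as the internal direct product of normal subgroups H₁, …, Hₙ such that Hⱼ acts trivially on every Vᵢ with i ≠ j, and Hⱼ induces on Vⱼ exactly the special linear group of Vⱼ or exactly the isometry group of a non-degenerate alternating form on Vⱼ. -/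
theorem result {p : ℕ} [Fact p.Prime] (hp : Odd p) {V : Type*} [AddCommGroup V] [Module (ZMod p) V] [Finite V]
    (H : Subgroup (V ≃ₗ[ZMod p] V)) (T : Set (V ≃ₗ[ZMod p] V)) (hHT : H = Subgroup.closure T)
    (hT : ∀ t ∈ T, orderOf t = p ∧
      Module.finrank (ZMod p) ↥(LinearMap.ker ((t : V →ₗ[ZMod p] V) - LinearMap.id)) + 1 =
        Module.finrank (ZMod p) V)
    (hOp : Cfsg.pCore p ↥H = ⊥) :
    ∃ (n : ℕ) (W : Fin (n + 1) → Submodule (ZMod p) V) (K : Fin n → Subgroup (V ≃ₗ[ZMod p] V)),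
      1 ≤ n ∧ DirectSum.IsInternal W ∧
      (∀ h ∈ H, ∀ i, (W i).map (h : V →ₗ[ZMod p] V) = W i) ∧
      (∀ j, K j ≤ H ∧ ((K j).subgroupOf H).Normal) ∧ ⨆ j, K j = H ∧
      (∀ j, K j ⊓ (⨆ j' ∈ {j' : Fin n | j' ≠ j}, K j') = ⊥) ∧
      (∀ j j', j ≠ j' → ∀ a ∈ K j, ∀ b ∈ K j', a * b = b * a) ∧
      (∀ j, ∀ h ∈ K j, ∀ i : Fin (n + 1), i ≠ j.succ → ∀ v ∈ W i, h v = v) ∧
      (∀ j, ∃ ρ : ↥(K j) →* (↥(W j.succ) ≃ₗ[ZMod p] ↥(W j.succ)),
        (∀ (h : ↥(K j)) (v : ↥(W j.succ)), ((ρ h v : ↥(W j.succ)) : V) = (h : V ≃ₗ[ZMod p] V) (v : V)) ∧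
        ((ρ.range : Set (↥(W j.succ) ≃ₗ[ZMod p] ↥(W j.succ))) =
            {f : ↥(W j.succ) ≃ₗ[ZMod p] ↥(W j.succ) | LinearMap.det (f : ↥(W j.succ) →ₗ[ZMod p] ↥(W j.succ)) = 1} ∨
          ∃ B : LinearMap.BilinForm (ZMod p) ↥(W j.succ), B.IsAlt ∧ B.Nondegenerate ∧
            (ρ.range : Set (↥(W j.succ) ≃ₗ[ZMod p] ↥(W j.succ))) = {f : ↥(W j.succ) ≃ₗ[ZMod p] ↥(W j.succ) | ∀ x y, B (f x) (f y) = B x y})) := by
  classical
  have h : Hyp H := by
    refine ⟨two_ne_zero_of_odd hp, ?_, hOp⟩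
    refine hHT.le.trans (Subgroup.closure_mono fun t ht => ?_)
    obtain ⟨v, φ, a1, a2, a3, a4⟩ := exists_tv_of_order (hT t ht).1 (hT t ht).2
    exact ⟨v, φ, ⟨⟨a1, t, hHT ▸ Subgroup.subset_closure ht, a4⟩, a2, a3⟩, a4⟩
  let ι := {M : Submodule (ZMod p) V // IsCl H M}
  haveI : Finite (Submodule (ZMod p) V) :=
    Finite.of_injective (fun M : Submodule (ZMod p) V => (M : Set V)) SetLike.coe_injective
  haveI : Nonempty ι := ⟨⟨⊥, Or.inl rfl⟩⟩
  let e : Fin (Nat.card ι) ≃ ι := (Finite.equivFin ι).symm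
  let C : Submodule (ZMod p) V := ⨅ η ∈ {η | ∃ y, Nd (Tv H) y η}, LinearMap.ker η
  have hC : ∀ x, x ∈ C ↔ ∀ y η, Nd (Tv H) y η → η x = 0 := by
    intro x
    simp only [C, Submodule.mem_iInf, LinearMap.mem_ker, Set.mem_setOf_eq]
    exact ⟨fun a y η b => a η ⟨y, b⟩, fun a η ⟨y, b⟩ => a y η b⟩
  let W : Fin (Nat.card ι + 1) → Submodule (ZMod p) V := Fin.cons C fun j => (e j).1
  have W0 : W 0 = C := rfl
  have Ws : ∀ j, W j.succ = (e j).1 := fun j => rfl
  have hinv : ∀ i, Inv H (W i) := by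
    intro i
    refine Fin.cases ?_ (fun j => (e j).2.inv) i
    exact fun u χ hu x hx hne => absurd ((hC x).1 hx u χ hu) hne
  have horth : ∀ j i, i ≠ Fin.succ j → ∀ x ∈ W i, ∀ φ ∈ Phi H (e j).1, φ x = 0 := by
    intro j i
    refine Fin.cases ?_ (fun j' => ?_) i
    · intro _ x hx φ hφ
      have : Phi H (e j).1 ≤ LinearMap.ker (Dual.eval (ZMod p) V x) := by
        refine Submodule.span_le.2 ?_
        rintro η ⟨y, hy⟩
        exact (hC x).1 hx y η (nd_SM.1 hy).1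
      exact this hφ
    · intro hne x hx φ hφ
      refine h.orth (e j).2 (e j').2 (fun e0 => hne ?_) hφ hx
      rw [e.injective (Subtype.ext e0)]
  have hcl : ∀ v φ, Nd (Tv H) v φ → ∃ j, Nd (SM H (e j).1) v φ := by
    intro v φ hv
    refine ⟨e.symm ⟨Msp H (v, φ), Or.inr ⟨v, φ, hv, rfl⟩⟩, ?_⟩
    rw [Equiv.apply_symm_apply]
    exact nd_SM.2 ⟨hv, self_mem_Msp hv⟩
  have htop : ⨆ i, W i = ⊤ := by
    refine eq_top_iff.2 fun x _ => ?_
    choose m hm hm' using fun j => (h.perfect (e j).2).2 x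
    have h1 : x - ∑ j, m j ∈ W 0 := by
      refine (hC _).2 fun y η hy => ?_
      obtain ⟨j, hj⟩ := hcl y η hy
      have hη : η ∈ Phi H (e j).1 := Submodule.subset_span ⟨y, hj⟩
      rw [map_sub, map_sum, Finset.sum_eq_single j, hm' j η hη, sub_self]
      · intro j' _ hne
        exact horth j j'.succ (fun e0 => hne (Fin.succ_injective _ e0)) _ (hm j') η hη
      · simp
    have h2 : ∑ j, m j ∈ ⨆ i, W i :=
      Submodule.sum_mem _ fun j _ => Submodule.mem_iSup_of_mem j.succ (hm j)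
    simpa using Submodule.add_mem _ (Submodule.mem_iSup_of_mem 0 h1) h2
  have hind : iSupIndep W := by
    rw [iSupIndep_iff_finsetSum_eq_zero_imp_eq_zero]
    intro s v hv h0
    have h1 : ∀ j : Fin (Nat.card ι), j.succ ∈ s → v j.succ = 0 := by
      intro j hj
      refine h.eq_zero_left (e j).2 (hv _ hj) fun φ hφ => ?_
      have := congrArg φ h0
      rwa [map_sum, Finset.sum_eq_single_of_mem _ hj
        (fun i hi hne => horth j i hne _ (hv i hi) φ hφ), map_zero] at this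
    intro i
    refine Fin.cases (fun hi => ?_) h1 i
    rwa [Finset.sum_eq_single_of_mem _ hi] at h0
    intro i
    exact Fin.cases (fun _ hne => absurd rfl hne) (fun j hj _ => h1 j hj) i
  have hext : ∀ g g' : V ≃ₗ[ZMod p] V, (∀ i, ∀ x ∈ W i, g x = g' x) → g = g' := by
    intro g g' hg
    have : ⨆ i, W i ≤ LinearMap.eqLocus (g : V →ₗ[ZMod p] V) (g' : V →ₗ[ZMod p] V) :=
      iSup_le fun i x hx => hg i x hx
    exact LinearEquiv.ext fun x => this (htop ▸ Submodule.mem_top)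
  have hfix : ∀ j, ∀ g ∈ KK H (e j).1, ∀ i : Fin (Nat.card ι + 1), i ≠ j.succ →
      ∀ v ∈ W i, g v = v := fun j g hg i hi v hv => KK_fix (horth j i hi v hv) hg
  refine ⟨Nat.card ι, W, fun j => KK H (e j).1, Nat.card_pos,
    (DirectSum.isInternal_submodule_iff_iSupIndep_and_iSup_eq_top W).2 ⟨hind, htop⟩,
    fun g hg i => h.map_eq (hinv i) hg, fun j => ⟨KK_le _, KK_normal h (e j).2⟩, ?_, ?_, ?_,
    hfix, fun j => ⟨rho h (e j).2, rho_apply h (e j).2,
      eq_sl_or_sp h.two _ (irr_rho h (e j).2) (gen_rho h (e j).2)⟩⟩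
  · refine le_antisymm (iSup_le fun j => KK_le _) (h.gen.trans ((Subgroup.closure_le _).2 ?_))
    rintro g ⟨v, φ, hv, hg⟩
    obtain ⟨j, hj⟩ := hcl v φ hv
    exact Subgroup.mem_iSup_of_mem j (Subgroup.subset_closure ⟨v, φ, hj, hg⟩)
  · intro j
    refine eq_bot_iff.2 fun g hg => Subgroup.mem_bot.2 (hext g 1 fun i x hx => ?_)
    by_cases hi : i = j.succ
    · subst hi
      have : (⨆ j' ∈ {j' : Fin (Nat.card ι) | j' ≠ j}, KK H (e j').1) ≤
          MulAction.stabilizer (V ≃ₗ[ZMod p] V) x :=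
        iSup₂_le fun j' hj' g hg =>
          hfix j' g hg j.succ (fun e0 => hj' (Fin.succ_injective _ e0).symm) x hx
      exact this hg.2
    · exact hfix j g hg.1 i hi x hx
  · intro j j' hne a ha b hb
    refine hext _ _ fun i x hx => ?_
    rw [LinearEquiv.mul_apply, LinearEquiv.mul_apply]
    by_cases hi : i = j.succ
    · have hi' : i ≠ j'.succ := fun e0 => hne (Fin.succ_injective _ (hi.symm.trans e0))
      rw [hfix j' b hb i hi' x hx,
        hfix j' b hb i hi' _ (h.apply_mem (hinv i) (KK_le _ ha) x hx)]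
    · rw [hfix j a ha i hi x hx, hfix j a ha i hi _ (h.apply_mem (hinv i) (KK_le _ hb) x hx)]

end Cfsg.Agent.S5075
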