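import Mathlib
import Cfsg.Statements.S5089
import Cfsg.Agent.Lib.Fusion.Normal

set_option autoImplicit false
open Cfsg

namespace Cfsg.Agent.S5089

open CfsgLib.Fusion Cfsg.FusionSystem



/-- A saturated fusion system over a finite p-group has a nontrivial subgroup that is normal in the system (O_p(F) ≠ 1) if and only if some nontrivial abelian subgroup is strongly closed in the system. -/
theorem result {Ω : Type*} [Group Ω] {S : Subgroup Ω} [Finite S] (p : ℕ) [Fact p.Prime] (hS : IsPGroup p S) (F : Cfsg.FusionSystem S) (hF : F.IsSaturated p) : F.core ≠ ⊥ ↔ ∃ Q : Subgroup Ω, Q ≠ ⊥ ∧ IsMulCommutative Q ∧ F.StronglyClosed Q := by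
  constructor
  · intro h
    have hn := isNormal_core F
    have := finite_of_le_S hn.1
    have hp := hS.to_le hn.1
    refine ⟨ucs F.core 1, fun h1 => ?_, ⟨⟨fun x y => Subtype.ext ?_⟩⟩, stronglyClosed_of_isNormal (isNormal_ucs hn 1)⟩
    · have : Nontrivial F.core := (Subgroup.nontrivial_iff_ne_bot _).2 h
      have h2 := hp.center_nontrivial
      rw [Subgroup.nontrivial_iff_ne_bot] at h2
      apply h2
      rw [ucs, Subgroup.upperCentralSeries_one, Subgroup.map_eq_bot_iff_of_injective _ (Subgroup.subtype_injective _)] at h1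
      exact h1
    · have := (mem_ucs_succ.1 x.2).2 y (ucs_le _ _ y.2)
      rw [ucs_zero, Subgroup.mem_bot, commutatorElement_eq_one_iff_mul_comm] at this
      exact this
  · rintro ⟨Q, hQ, hc, hs⟩ h
    have := le_core (isNormal_of_comm hS hF hs fun x hx y hy => congrArg Subtype.val (hc.is_comm.comm ⟨x, hx⟩ ⟨y, hy⟩))
    rw [h] at this
    exact hQ (le_bot_iff.1 this)

end Cfsg.Agent.S5089
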