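import Mathlib
import Cfsg.Statements.S5125
import Cfsg.Agent.Lib.Fusion.Normal

set_option autoImplicit false
open Cfsg

namespace Cfsg.Agent.S5125

open CfsgLib.Fusion Cfsg.FusionSystem



/-- Let F be a saturated fusion system over a finite p-group S and Q a subgroup strongly closed in F. If Q has a subgroup Q₁ that is normal in F, with Q/Q₁ abelian and Aut_F(Q₁) a p-group, then Q is normal in F. -/
theorem result {Ω : Type*} [Group Ω] {S : Subgroup Ω} [Finite S] (p : ℕ) [Fact p.Prime] (hS : IsPGroup p S) (F : Cfsg.FusionSystem S) (hF : F.IsSaturated p) (Q Q₁ : Subgroup Ω) (hQ : F.StronglyClosed Q) (hQ₁Q : Q₁ ≤ Q) (hQ₁ : F.IsNormal Q₁) (hab : ⁅Q, Q⁆ ≤ Q₁) (hAut : IsPGroup p ↥(F.autGroup Q₁)) : F.IsNormal Q := by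
  have hn := le_normalizer_of_isNormal hQ₁
  have hA : F.autGroup Q₁ = autInducedBy S Q₁ :=
    ((sat_sylIn hS hF (fullyNormalized_of_le_normalizer hQ₁.1 hn)).eq_of_isPGroup hAut).symm
  obtain ⟨n, hn'⟩ := exists_ucs_eq hS
  have hsc : ∀ i, F.StronglyClosed (Q₁ ⊓ ucs S i) := fun i => by
    refine stronglyClosed_of_isNormal (isNormal_of_invariant hQ₁ inf_le_left fun g hg e => ?_)
    have := finite_of_le_S (inf_le_left.trans hQ₁.1 : Q₁ ⊓ ucs S i ≤ S)
    refine (hg.mono inf_le_left).img_eq_self fun x hx => ?_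
    obtain ⟨α, hα, e'⟩ := hg.exists_aut e
    rw [hA] at hα
    obtain ⟨s, hs, e''⟩ := mem_autInducedBy.1 hα
    rw [← e' x hx.1, e'' x hx.1]
    exact ⟨conj_mem_of_mem_normalizer (hn hs) hx.1, conj_mem_ucs (Subgroup.le_normalizer hs) hx.2⟩
  refine isNormal_of_chain hS hF hQ (fun i => if i ≤ n then Q₁ ⊓ ucs S i else Q) (n + 1) (fun i hi => ?_) ?_ ?_ fun a ha i hi x hx => ?_
  · simp only [show i ≤ n by omega, if_true]; exact hsc i
  · simp [ucs_zero]
  · simp
  · have hi' : i ≤ n := by omega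
    simp only [hi', if_true]
    rcases hi'.lt_or_eq with hi' | rfl
    · have : i + 1 ≤ n := hi'
      simp only [this, if_true] at hx
      exact ⟨Q₁.mul_mem (Q₁.inv_mem hx.1) (conj_mem_of_mem_normalizer (hn (hQ.1 ha)) hx.1), ucs_step hx.2 (hQ.1 ha)⟩
    · have hxQ : x ∈ Q := by simpa using hx
      rw [hn', inf_eq_left.2 hQ₁.1]
      exact step_of_commutator_le hab hxQ ha

end Cfsg.Agent.S5125
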