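import Mathlib
import Cfsg.Statements.S5126
import Cfsg.Agent.Lib.Fusion.KNorm
import Cfsg.Agent.Lib.Fusion.Sat2
import Cfsg.Agent.Lib.Fusion.ModelDefs

set_option autoImplicit false
open Cfsg

namespace Cfsg.Agent.S5126

open CfsgLib.Fusion Cfsg.FusionSystem in
theorem core_le {Ω : Type*} [Group Ω] {S : Subgroup Ω} {p : ℕ} (hS : IsPGroup p S)
    {F : Cfsg.FusionSystem S} {O R : Subgroup Ω} (hO : F.IsNormal O) (hc : centralizerIn S R ≤ R)
    (hn : S ≤ Subgroup.normalizer (R : Set Ω)) (hr : F.IsRadical p R) : O ≤ R := by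
  intro a ha
  have haS := hO.1 ha
  refine mem_of_conjAut_mem_pCore hc hr haS (hn haS) ?_
  have hle : autInducedBy O R ≤ F.autGroup R :=
    (autInducedBy_mono hO.1 R).trans (autInducedBy_le_autGroup F hr.1)
  have hN : ((autInducedBy O R).subgroupOf (F.autGroup R)).Normal := by
    refine ⟨fun β hβ α => ?_⟩
    rw [Subgroup.mem_subgroupOf] at hβ ⊢
    obtain ⟨b, hb, e⟩ := mem_autInducedBy.1 hβ
    obtain ⟨g, hg, hge, hgO⟩ := ((mem_autGroup hr.1).1 α.2).extend_normal hO
    refine mem_autInducedBy.2 ⟨g b, hgO ▸ mem_img_of_mem g hb, fun x hx => ?_⟩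
    have h1 := extAut_mem (α : MulAut R)⁻¹ hx
    simp only [Subgroup.coe_mul, Subgroup.coe_inv, extAut_mul_apply]
    rw [e _ h1, ← hge _ (conj_mem_of_mem_normalizer (hn (hO.1 hb)) h1),
      hg.map_conj (Subgroup.mem_sup_right hb) (Subgroup.mem_sup_left h1), hge _ h1, extAut_apply_inv]
  have hP : IsPGroup p ((autInducedBy O R).subgroupOf (F.autGroup R)) :=
    (isPGroup_autInducedBy (hS.to_le hO.1) R).comap_subtype
  have hmem := conjAut_mem_autInducedBy (hn haS) ha
  exact ⟨⟨_, hle hmem⟩, CfsgLib.Core.le_pCore hP hmem, rfl⟩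


/-- In a saturated fusion system over a finite p-group S, the normalizer system of a fully normalized, centric, radical subgroup R is constrained, and in every model of that normalizer system the largest normal p-subgroup is the image of R. -/
theorem result {Ω : Type*} [Group Ω] {S : Subgroup Ω} [Finite S] (p : ℕ) [Fact p.Prime] (hS : IsPGroup p S) (F : Cfsg.FusionSystem S) (hF : F.IsSaturated p) (R : Subgroup Ω) (hRn : F.IsFullyNormalized R) (hRc : F.IsCentric R) (hRr : F.IsRadical p R) (E : Cfsg.FusionSystem (Cfsg.FusionSystem.normalizerIn S R)) (hE : F.IsNormalizerSystem R E) {G : Type*} [Group G] (ι : ↥(Cfsg.FusionSystem.normalizerIn S R) →* G) : E.IsConstrained p ∧ (E.IsModel p G ι → (Cfsg.pCore p G : Subgroup G) = (R.subgroupOf (Cfsg.FusionSystem.normalizerIn S R)).map ι) := by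
  open CfsgLib.Fusion Cfsg.FusionSystem in
  obtain rfl := eq_normSys hRn.1 hE
  have := finite_normalizerIn S R
  have hN := isNormal_normSys F hRn.1
  have hT : IsPGroup p (normalizerIn S R) := hS.to_le (normalizerIn_le S R)
  have hc : centralizerIn (normalizerIn S R) R ≤ R := fun x hx =>
    centric_centralizerIn_le hRc ⟨hx.1.1, hx.2⟩
  have hcen : (normSys F R hRn.1).IsCentric R := ⟨hN.1, fun Q hQ => by
    rw [(weaklyClosed_iff_isConj.1 (weaklyClosed_of_isNormal hN)).2 Q hQ]; exact hc⟩
  refine ⟨⟨normSys_saturated hS hF hRn, R, hN, hcen⟩, fun hG => ?_⟩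
  have hr : (normSys F R hRn.1).IsRadical p R := ⟨hN.1, by rw [autGroup_normSys]; exact hRr.2⟩
  have e : (normSys F R hRn.1).core = R :=
    le_antisymm (core_le hT (isNormal_core _) hc inf_le_right hr) (le_core hN)
  rw [← isModel_img_core hT hG, e, map_subgroupOf_eq_img ι (fun x => coe_eq_extFun ι x) hN.1]

end Cfsg.Agent.S5126
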