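import Mathlib
import Cfsg.Statements.S5135
import Cfsg.Agent.Lib.Fusion.Factor

set_option autoImplicit false
open Cfsg

namespace Cfsg.Agent.S5135

/-- Let G be a finite group, S a Sylow p-subgroup and H a normal subgroup of G. Then the fusion system of G/H on the image SH/H of S is the factor system of the fusion system of G on S modulo S ∩ H, read through the quotient map restricted to S: for each subgroup P' of SH/H, the conjugation maps by elements of G/H defined on P' with values in SH/H are exactly the homomorphisms induced by the conjugation maps by elements of G defined on the full preimage of P' in S with values in S. -/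
theorem result {G : Type*} [Group G] [Finite G] (p : ℕ) [Fact p.Prime] (S : Sylow p G) (H : Subgroup G) [H.Normal] : (Cfsg.groupFusionSystem (S : Subgroup G)).IsFactorSystem ((S : Subgroup G) ⊓ H) ((QuotientGroup.mk' H).comp (S : Subgroup G).subtype) (Cfsg.groupFusionSystem ((S : Subgroup G).map (QuotientGroup.mk' H))) := by
  open CfsgLib.Fusion in
  refine (isFactorSystem_iff_of_eq (t := QuotientGroup.mk' H) fun _ => rfl).2
    ⟨isHomOn_coe _ _, inf_le_left, fun x hx => ?_, img_coe _ _, fun P' f' => ?_⟩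
  · rw [QuotientGroup.mk'_apply, QuotientGroup.eq_one_iff]
    exact ⟨fun h => ⟨hx, h⟩, fun h => h.2⟩
  have ht := isHomOn_coe (S : Subgroup G) (QuotientGroup.mk' H)
  have hex : P' ≤ (S : Subgroup G).map (QuotientGroup.mk' H) → ∀ y ∈ P',
      ∃ x ∈ pre (S : Subgroup G) (QuotientGroup.mk' H) P', QuotientGroup.mk' H x = y := fun hP' y hy => by
    obtain ⟨x, hx, rfl⟩ := hP' hy
    exact ⟨x, mem_pre_of_mem hx hy, rfl⟩
  rw [mor_group_iff]
  refine and_congr_right fun hP' => ⟨?_, ?_⟩
  · rintro ⟨h2, g', hg'⟩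
    obtain ⟨g, rfl⟩ := QuotientGroup.mk'_surjective H g'
    set P := pre (S : Subgroup G) (QuotientGroup.mk' H) P' with hP
    have hPS : P ≤ S := pre_le _ _ _
    obtain ⟨h, hh, hc⟩ := (sylIn_top S).exists_conj_of_normal (C := H) le_top
      (by rw [Subgroup.normalizer_eq_top]; exact le_top)
      ((S.2.to_le hPS).map (MulAut.conj g).toMonoidHom) (by
        rintro _ ⟨x, hx, rfl⟩
        obtain ⟨s, hs, e⟩ := h2 _ (ht.mem_pre.1 hx).2
        refine ⟨s, hs, ?_⟩
        rw [hg' _ (ht.mem_pre.1 hx).2, ← map_inv, ← map_mul, ← map_mul] at e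
        exact QuotientGroup.eq.1 e)
    refine ⟨fun x => h * g * x * (h * g)⁻¹, mor_group_iff.2 ⟨hPS, fun x hx => ?_, h * g, fun _ _ => rfl⟩,
      fun x hx => ?_⟩
    · have := hc _ ⟨x, hx, rfl⟩
      simpa [mul_assoc] using this
    · have h1 : QuotientGroup.mk' H h = 1 := (QuotientGroup.eq_one_iff h).2 hh
      rw [hg' _ (ht.mem_pre.1 hx).2]
      simp only [map_mul, map_inv, h1, one_mul]
  · rintro ⟨f, hf, e⟩
    obtain ⟨-, h2, g, hg⟩ := mor_group_iff.1 hf
    refine ⟨fun y hy => ?_, QuotientGroup.mk' H g, fun y hy => ?_⟩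
    · obtain ⟨x, hx, rfl⟩ := hex hP' y hy
      rw [e x hx]
      exact ⟨_, h2 x hx, rfl⟩
    · obtain ⟨x, hx, rfl⟩ := hex hP' y hy
      rw [e x hx, hg x hx, map_mul, map_mul, map_inv]

end Cfsg.Agent.S5135
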