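import Mathlib
import Cfsg.Statements.S5143
import Cfsg.Agent.Lib.Fusion.CentE

set_option autoImplicit false
open Cfsg

namespace Cfsg.Agent.S5143

section Aux

open CfsgLib.Fusion Cfsg.FusionSystem
open scoped commutatorElement



end Aux

/-- Let F be a saturated fusion system over a finite p-group S, E a normal subsystem over T, and R a subgroup with T ≤ R ≤ S. Then there is exactly one saturated subsystem D of F over R (exactly one family of map sets) whose p-residual subsystem is that of E: the hyperfocal subgroups of D and E coincide and the p-residual subsystems of D and of E have the same maps. -/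
theorem result {Ω : Type*} [Group Ω] {S : Subgroup Ω} [Finite S] (p : ℕ) [Fact p.Prime] (hS : IsPGroup p S) (F : Cfsg.FusionSystem S) (hF : F.IsSaturated p) {T : Subgroup Ω} (E : Cfsg.FusionSystem T) (hE : E.IsNormalIn F p) (R : Subgroup Ω) (hTR : T ≤ R) (hRS : R ≤ S) : ∃ D : Cfsg.FusionSystem R, (D.IsSaturated p ∧ D.IsSubsystemOf F ∧ D.hyperfocalSubgroup p = E.hyperfocalSubgroup p ∧ ∀ (D₁ : Cfsg.FusionSystem (D.hyperfocalSubgroup p)) (E₁ : Cfsg.FusionSystem (E.hyperfocalSubgroup p)), D.IsPResidual p D₁ → E.IsPResidual p E₁ → ∀ P : Subgroup Ω, D₁.Hom P = E₁.Hom P) ∧ ∀ D' : Cfsg.FusionSystem R, D'.IsSaturated p → D'.IsSubsystemOf F → D'.hyperfocalSubgroup p = E.hyperfocalSubgroup p → (∀ (D₁ : Cfsg.FusionSystem (D'.hyperfocalSubgroup p)) (E₁ : Cfsg.FusionSystem (E.hyperfocalSubgroup p)), D'.IsPResidual p D₁ → E.IsPResidual p E₁ → ∀ P : Subgroup Ω, D₁.Hom P = E₁.Hom P) → ∀ P : Subgroup Ω, D'.Hom P = D.Hom P := by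
  open CfsgLib.Fusion Cfsg.FusionSystem in
  have hT := normalIn_stronglyClosed hE
  have := finite_of_le hT.1
  have := finite_of_le hRS
  have hg := glueData_of_normal hS hE
  have h1 := hasPPowerIndexIn_prodSub hS hE (hR := hRS) hTR
  have h2 := hg.prodSub_saturated (hR := hRS) hTR
  have hRp := hS.to_le hRS
  have hE₁ := isPResidual_opSys (hS.to_le hT.1) hE.1.1
  have hn := isNormalIn_of_isPResidual_of_normal hS hE hE₁
  have key : ∀ D' : FusionSystem R, D'.IsSaturated p → ∀ hD' : D'.IsSubsystemOf F,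
      (∀ (D₁ : FusionSystem (D'.hyperfocalSubgroup p)) (E₁ : FusionSystem (E.hyperfocalSubgroup p)),
        D'.IsPResidual p D₁ → E.IsPResidual p E₁ → ∀ P : Subgroup Ω, D₁.Hom P = E₁.Hom P) →
      D' = prodSub p _ F (normalIn_stronglyClosed hn) (fun P => (opSys E p (hyperfocal_le E p)).IsCentric
        (P ⊓ E.hyperfocalSubgroup p)) hRS := fun D' h3 h4 h5 => by
    have h6 := isPResidual_opSys hRp h3
    have h7 : SameMor (opSys E p (hyperfocal_le E p)) (opSys D' p (hyperfocal_le D' p)) :=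
      fun P f => (hom_eq_iff.1 (h5 _ _ h6 hE₁ P) f).symm
    exact eq_prodSub_of_pPowerIndex hS hn h3 h4 (h7.ind (fun X => X.HasPPowerIndexIn D' p) h6.2)
  have h3 := fun D₁ E₁ (h4 : IsPResidual _ p D₁) (h5 : E.IsPResidual p E₁) (P : Subgroup Ω) =>
    hom_eq_iff.2 fun f => mor_iff_of_isPResidual (P := P) (f := f) hRp h1 h4 h5
  refine ⟨_, ⟨h2, prodSub_sub, (hyperfocal_eq_of_pPowerIndex hRp h1).symm, h3⟩, fun D' h4 h5 _ h6 P => ?_⟩
  rw [key D' h4 h5 h6, key _ h2 prodSub_sub h3]

end Cfsg.Agent.S5143
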