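import Mathlib
import Cfsg.Statements.S5147
import Cfsg.Agent.Lib.Fusion.Constr
import Cfsg.Agent.S5135

set_option autoImplicit false
open Cfsg

namespace Cfsg.Agent.S5147

open CfsgLib.Fusion Cfsg.FusionSystem

/-- Let G be a finite group with Sylow 2-subgroup S whose 2-fusion system on S is constrained, and L a component of G (a subnormal quasisimple subgroup). Then the 2-fusion system of L/Z(L) on the image of S ∩ L is constrained. -/
theorem result {G : Type*} [Group G] [Finite G] (S : Sylow 2 G) (hF : (Cfsg.groupFusionSystem (S : Subgroup G)).IsConstrained 2) (L : Subgroup G) (hL : Cfsg.IsComponent L) : (Cfsg.groupFusionSystem (((S : Subgroup G).subgroupOf L).map (QuotientGroup.mk' (Subgroup.center L)))).IsConstrained 2 := by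
  obtain ⟨h1, h2⟩ := constrained_group_of_isSubnormal (sylIn_top S) hF hL.1
  obtain ⟨R, hR'⟩ := h1.exists_sylow
  rw [← hR'] at h2 ⊢
  have h3 := (isFactorSystem_iff_of_eq (t := QuotientGroup.mk' (Subgroup.center L))
    fun _ => rfl).1 (Cfsg.Agent.S5135.result 2 R (Subgroup.center L))
  refine h3.constrained_of_isCentral R.2 h2 (isCentral_of_fixed R.2 h2.1 inf_le_left
    fun P f hf x hx hxZ => ?_)
  obtain ⟨-, -, g, hg⟩ := mor_group_iff.1 hf
  rw [hg x hx, Subgroup.mem_center_iff.1 hxZ.2 g, mul_inv_cancel_right]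

end Cfsg.Agent.S5147
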