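import Mathlib
import Cfsg.Statements.S5196
import Cfsg.Agent.Lib.Fusion.Apps

set_option autoImplicit false
universe u
open Cfsg

namespace Cfsg.Agent.S5196


/-- Let p be an odd prime and W a positive characteristic p-functor: W assigns to every finite p-group Q (in a fixed universe) a subgroup W(Q), nontrivial when Q is, carried to W(R) by every isomorphism Q ≅ R; assume also Z(Q) ≤ W(Q) for every finite p-group Q. Suppose W satisfies the local condition: for every finite group G with Sylow p-subgroup P, O_p(G) ∩ Z(G) = O_p(G) ∩ Z(N_G(W(P))). Then W controls weak closure of elements in every saturated fusion system F over a finite p-group S: the centre of the normalizer fusion system of W(S) in F equals the centre of F. (For p = 2 no functor satisfies the local condition, so p is taken odd.) -/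
theorem result {p : ℕ} [Fact p.Prime] (hp : p ≠ 2) (W : ∀ (Q : Type u) [Group Q], Subgroup Q) (hW1 : ∀ (Q : Type u) [Group Q] [Finite Q], IsPGroup p Q → Nontrivial Q → W Q ≠ ⊥) (hW2 : ∀ (Q R : Type u) [Group Q] [Group R] [Finite Q], IsPGroup p Q → ∀ φ : Q ≃* R, (W Q).map φ.toMonoidHom = W R) (hWZ : ∀ (Q : Type u) [Group Q] [Finite Q], IsPGroup p Q → Subgroup.center Q ≤ W Q) (hC : ∀ (G : Type u) [Group G] [Finite G] (P : Sylow p G), Cfsg.pCore p G ⊓ Subgroup.center G = Cfsg.pCore p G ⊓ (Subgroup.center ↥(Subgroup.normalizer (((W ↥(P : Subgroup G)).map (P : Subgroup G).subtype : Subgroup G) : Set G))).map (Subgroup.normalizer (((W ↥(P : Subgroup G)).map (P : Subgroup G).subtype : Subgroup G) : Set G)).subtype) {Ω : Type u} [Group Ω] {S : Subgroup Ω} [Finite S] (hS : IsPGroup p S) (F : Cfsg.FusionSystem S) (hF : F.IsSaturated p) (N : Cfsg.FusionSystem (Cfsg.FusionSystem.normalizerIn S ((W ↥S).map S.subtype))) (hN : F.IsNormalizerSystem ((W ↥S).map S.subtype) N) : N.center = F.center := by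
  open CfsgLib.Fusion in
  have hW := fFunctor_of_char hW1 hW2
  have hn : S ≤ FusionSystem.normalizerIn S ((W S).map S.subtype) :=
    le_inf le_rfl (Subgroup.le_normalizer.trans (hW.le_normalizer hS))
  obtain rfl := eq_normSys (hW.le S) hN
  have := finite_of_le (normalizerIn_le S ((W S).map S.subtype))
  refine le_antisymm (fun z hz => ?_) (center_le_center_sub hS (normSys_saturated hS hF
    (fullyNormalized_of_le_normalizer (hW.le S) (hn.trans inf_le_right))) (normSys_sub F _) ((center_le F).trans hn))
  have hz' := center_le_centralizerIn _ hz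
  refine hW.isCentral_of_class (𝒞 := fun _ _ _ _ _ => True) (fun _ _ _ => trivial) (fun _ _ => trivial) ?_ hS hF
    ⟨hz'.1.1, fun a ha => hz'.2 a (hn ha)⟩ trivial hz
  intro Ω _ S _ F z G _ ι hz _ hG h
  have := hG.1
  obtain ⟨T, hT⟩ := hG.2.2.1
  have hzT : extFun ι z ∈ (T : Subgroup G) ⊓ Subgroup.centralizer (T : Set G) := by
    have := realized_img_center hG.2.1
    rw [← hT] at this
    exact this.le (mem_img_of_mem _ hz)
  have h1 : extFun ι z ∈ pCore p G := hG.2.2.2 (Subgroup.centralizer_le (CfsgLib.Core.pCore_le_sylow T) hzT.2)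
  refine ((hC G T).ge ⟨h1, ⟨extFun ι z, ?_⟩, Subgroup.mem_center_iff.2 fun g => Subtype.ext (h g ?_), rfl⟩).2
  · exact (Subgroup.le_normalizer.trans (hW.le_normalizer T.isPGroup')) hzT.1
  · rw [← hT]
    exact g.2

end Cfsg.Agent.S5196
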