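import Mathlib
import Cfsg.Statements.S5202
import Cfsg.Agent.Lib.Fusion.Reduct

set_option autoImplicit false
open Cfsg

namespace Cfsg.Agent.S5202

open CfsgLib.Fusion Cfsg.FusionSystem



/-- Let F be a saturated fusion system over a finite p-group S and E a normal subsystem of F over T such that Aut_F(T)/Aut_E(T) is p-solvable. Then there is a normal subsystem F₀ of F over T·C_S(T) containing E, with Aut_{F₀}(T) = Aut_E(T), containing every residual limit of F, and whose residual limits have the same maps as those of F. -/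
theorem result {Ω : Type*} [Group Ω] {S : Subgroup Ω} [Finite S] (p : ℕ) [Fact p.Prime] (hS : IsPGroup p S) (F : Cfsg.FusionSystem S) (hF : F.IsSaturated p) {T : Subgroup Ω} (E : Cfsg.FusionSystem T) (hE : E.IsNormalIn F p) [hn : ((E.autGroup T).subgroupOf (F.autGroup T)).Normal] (hsolv : Cfsg.IsPSolvable p (↥(F.autGroup T) ⧸ (E.autGroup T).subgroupOf (F.autGroup T))) : ∃ F₀ : Cfsg.FusionSystem (T ⊔ Cfsg.FusionSystem.centralizerIn S T), F₀.IsNormalIn F p ∧ E.IsSubsystemOf F₀ ∧ F₀.autGroup T = E.autGroup T ∧ ∀ {U : Subgroup Ω} (Finf : Cfsg.FusionSystem U), Finf.IsResidualLimitOf F p → Finf.IsSubsystemOf F₀ ∧ ∀ {V : Subgroup Ω} (L : Cfsg.FusionSystem V), L.IsResidualLimitOf F₀ p → ∀ P : Subgroup Ω, L.Hom P = Finf.Hom P := by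
    obtain ⟨F₀, h1, h2, h3, h4⟩ := exists_reduction hS hE.1 (redAt_of_isPSolvable hS hE.1 hsolv)
    refine ⟨F₀, h1, h2, h3, fun Finf hinf => ?_⟩
    have hsub := h4 _ Finf (limit_resPerfect hinf)
      (limit_isWeaklyNormalIn hinf hS (isNormalIn_refl hF).1)
    exact ⟨hsub, fun L hL P => (sameMor_limit_of_sub hS h1.1 hinf hsub hL).hom_eq P⟩

end Cfsg.Agent.S5202
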