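import Mathlib
import Cfsg.Statements.S5214
import Cfsg.Agent.Lib.Fusion.SemiEx
import Cfsg.Agent.Lib.Suz2.Higman

set_option autoImplicit false
open Cfsg

namespace Cfsg.Agent.S5214

open CfsgLib CfsgLib.Fusion Cfsg.FusionSystem

/-- Let S be a Suzuki 2-group (a finite nonabelian 2-group with more than one involution admitting a cyclic group of automorphisms permuting its involutions regularly). Then S is normal in every saturated fusion system over S (such a group is resistant). -/
theorem result {Ω : Type*} [Group Ω] {S : Subgroup Ω} [Finite S] (hS : IsPGroup 2 S) (F : Cfsg.FusionSystem S) (hF : F.IsSaturated 2) (hsz : Cfsg.IsSuzukiTwoGroup ↥S) : F.IsNormal S := by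
  obtain ⟨_, h1, h2, h3, K, h4, h5⟩ := hsz
  obtain ⟨hZ, -, hc, -⟩ := Suz2.higman h1 h2 h3 h4 h5
  have hZ' : ∀ x ∈ S, x ∈ centralizerIn S S ↔ x * x = 1 := fun x hx =>
    (mem_center_iff_centralizerIn (x := ⟨x, hx⟩)).symm.trans ((hZ _).trans Subtype.ext_iff)
  refine isNormal_of_chain hS hF (stronglyClosed_top F)
    (fun i => match i with | 0 => ⊥ | 1 => centralizerIn S S | _ => S) 2 (fun i hi => ?_) rfl rfl
    fun a ha i hi x hx => ?_
  · interval_cases i
    · exact stronglyClosed_bot F
    · refine stronglyClosed_iff.2 ⟨centralizerIn_le S S, fun P f hf x hx hxZ =>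
        (hZ' _ (hf.mem hx)).2 ?_⟩
      rw [← hf.map_mul hx hx, (hZ' x hxZ.1).1 hxZ, hf.map_one]
  · interval_cases i
    · rw [hx.2 a ha, mul_inv_cancel_right, inv_mul_cancel]
      exact Subgroup.one_mem _
    · simpa [commutatorElement_def, mul_assoc] using
        mem_center_iff_centralizerIn.1 (hc ⟨x, hx⟩⁻¹ ⟨a, ha⟩)

end Cfsg.Agent.S5214
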