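import Mathlib
import Cfsg.Statements.S5222
import Cfsg.Agent.Lib.Fusion.TrApps

set_option autoImplicit false
open Cfsg

namespace Cfsg.Agent.S5222


/-- Let F be a saturated fusion system over a finite p-group S whose normalizer fusion system of S is the inner fusion system of S (Aut_F(S) is a p-group). Then for every subgroup Q of S with [S, S] ≤ Q ≤ Φ(S), the normalizer fusion system of Q in F is the inner fusion system of N_S(Q) = S. -/
theorem result {Ω : Type*} [Group Ω] {S : Subgroup Ω} [Finite S] (p : ℕ) [Fact p.Prime] (hS : IsPGroup p S) (F : Cfsg.FusionSystem S) (hF : F.IsSaturated p) (hN : ∀ N : Cfsg.FusionSystem (Cfsg.FusionSystem.normalizerIn S S), F.IsNormalizerSystem S N → ∀ P : Subgroup Ω, N.Hom P = (Cfsg.innerFusionSystem (Cfsg.FusionSystem.normalizerIn S S)).Hom P) (Q : Subgroup Ω) (h1 : (commutator ↥S).map S.subtype ≤ Q) (h2 : Q ≤ (frattini ↥S).map S.subtype) : ∀ N : Cfsg.FusionSystem (Cfsg.FusionSystem.normalizerIn S Q), F.IsNormalizerSystem Q N → ∀ P : Subgroup Ω, N.Hom P = (Cfsg.innerFusionSystem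 (Cfsg.FusionSystem.normalizerIn S Q)).Hom P := by
  open CfsgLib.Fusion in
  have hQ : Q ≤ S := h2.trans (Subgroup.map_subtype_le _)
  rw [Subgroup.map_subtype_commutator] at h1
  have hn : S ≤ Subgroup.normalizer (Q : Set Ω) := Subgroup.le_normalizer_iff_commutator_le_left.2
    ((Subgroup.commutator_mono hQ le_rfl).trans h1)
  rw [normSys_inner_iff hS hF le_rfl Subgroup.le_normalizer] at hN
  rw [normSys_inner_iff hS hF hQ hn]
  obtain ⟨D, hD, hDs, hDn⟩ := exists_normSys_on hS hF hQ hn
  have hDF : D.IsSubsystemOf F := isSubsystemOf_iff.2 fun P f hf => ((hD P f).1 hf).mor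
  refine (isNil_of_focal_le_frattini hS hDs ((focal_le_of_commutator_le hS hDs ?_
    (stronglyClosed_of_isNormal hDn) h1).trans h2)).sub
    (isSubsystemOf_iff.2 fun P f hf => (hD P f).2 ((mor_normSys hQ).1 hf))
  refine IsPGroup.to_le ?_ (autGroup_mono hDF S)
  rw [← autGroup_normSys F le_rfl]
  exact hN S

end Cfsg.Agent.S5222
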