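import Mathlib
import Cfsg.Statements.S5223
import Cfsg.Agent.Lib.Fusion.SubNormal

set_option autoImplicit false
open Cfsg

namespace Cfsg.Agent.S5223

/-- Let F be a saturated fusion system over a finite p-group S. Suppose there are subgroups Q₀ = S, Q₁, …, Qₙ = 1 (not required to be nested) such that for each i < n the focal subgroup of Qᵢ (generated by the elements x⁻¹φ(x), x ∈ Qᵢ, φ a map of F defined on the cyclic group generated by x) lies in Qᵢ₊₁. Then F is the inner fusion system of S. -/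
theorem result {Ω : Type*} [Group Ω] {S : Subgroup Ω} [Finite S] (p : ℕ) [Fact p.Prime] (hS : IsPGroup p S) (F : Cfsg.FusionSystem S) (hF : F.IsSaturated p) (n : ℕ) (Q : Fin (n + 1) → Subgroup Ω) (hQ0 : Q 0 = S) (hQn : Q (Fin.last n) = ⊥) (hstep : ∀ i : Fin n, Subgroup.closure {y : Ω | ∃ x ∈ Q i.castSucc, ∃ φ ∈ F.Hom (Subgroup.zpowers x), y = x⁻¹ * φ ⟨x, Subgroup.mem_zpowers x⟩} ≤ Q i.succ) : ∀ P : Subgroup Ω, F.Hom P = (Cfsg.innerFusionSystem S).Hom P := by
  let foc : Subgroup Ω → Subgroup Ω := fun R =>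
    Subgroup.closure {y : Ω | ∃ x ∈ R, ∃ φ ∈ F.Hom (Subgroup.zpowers x), y = x⁻¹ * φ ⟨x, Subgroup.mem_zpowers x⟩}
  have hmono : Monotone foc := fun A B h => Subgroup.closure_mono fun y ⟨x, hx, h'⟩ => ⟨x, h hx, h'⟩
  have hmem : ∀ R P f, CfsgLib.Fusion.Mor F P f → ∀ x ∈ P, x ∈ R → x⁻¹ * f x ∈ foc R := fun R P f hf x hx hR =>
    Subgroup.subset_closure ⟨x, hR, _, (hf.mono (Subgroup.zpowers_le.2 hx)).toHom_mem, rfl⟩
  let R : ℕ → Subgroup Ω := fun i => foc^[i] S
  have hR : ∀ i, R (i + 1) = foc (R i) := fun i => Function.iterate_succ_apply' foc i S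
  have h1 : ∀ i, R (i + 1) ≤ R i := by
    intro i
    induction i with
    | zero =>
      refine (Subgroup.closure_le _).2 ?_
      rintro _ ⟨x, hx, φ, hφ, rfl⟩
      exact S.mul_mem (S.inv_mem hx) ((F.le_of_mem hφ).2 _)
    | succ i ih => rw [hR (i + 1), hR i]; exact hmono (hR i ▸ ih)
  have h2 : ∀ i : Fin (n + 1), R i ≤ Q i := by
    intro i
    induction i using Fin.induction with
    | zero => exact hQ0.ge
    | succ i ih => exact (hR i).le.trans ((hmono ih).trans (hstep i))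
  have h3 : R n = ⊥ := eq_bot_iff.2 (hQn ▸ h2 (Fin.last n))
  open CfsgLib.Fusion in
  rw [eq_inner_of_isPGroup hS hF fun P hP => ?_]
  · exact fun _ => rfl
  open CfsgLib.Fusion in
  have hPS : P ≤ S := (top_or_essential_crf hS hF hP).1.1
  open CfsgLib.Fusion in
  have := finite_of_le hPS
  have hinv : ∀ α ∈ F.autGroup P, ∀ i, ∀ x ∈ P, x ∈ R (n - i) → CfsgLib.Fusion.extAut α x ∈ R (n - i) := by
    intro α hα i x hx hxR
    open CfsgLib.Fusion in
    have := (R (n - i)).mul_mem hxR (h1 _ (hR _ ▸ hmem _ P _ ((mem_autGroup hPS).1 hα) x hx hxR))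
    rwa [mul_inv_cancel_left] at this
  open CfsgLib.Fusion in
  refine (isPGroup_chainStab (hS.to_le hPS) (F.autGroup P) (fun i => R (n - i)) n hinv
    (fun x _ hx => by rwa [Nat.sub_zero, h3, Subgroup.mem_bot] at hx) (by rw [Nat.sub_self]; exact hPS)).to_le
    fun α hα => ⟨hα, fun i hi x hx hxR => ?_⟩
  show _ ∈ R (n - i)
  rw [show n - i = n - (i + 1) + 1 by omega, hR]
  open CfsgLib.Fusion in
  exact hmem _ P _ ((mem_autGroup hPS).1 hα) x hx hxR

end Cfsg.Agent.S5223
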