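import Mathlib
import Cfsg.Statements.S5226
import Cfsg.Agent.Lib.Fusion.Normal

set_option autoImplicit false
open Cfsg

namespace Cfsg.Agent.S5226

open CfsgLib.Fusion Cfsg.FusionSystem



/-- Let F be a saturated fusion system over a finite p-group S and Q a subgroup of S. Then Q is normal in F (F equals the normalizer system of Q) if and only if Q is strongly closed in F and admits a central series 1 = Q₀ ≤ Q₁ ≤ ⋯ ≤ Qₙ = Q ([Qᵢ₊₁, Q] ≤ Qᵢ) all of whose proper terms are weakly closed in F. -/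
theorem result {Ω : Type*} [Group Ω] {S : Subgroup Ω} [Finite S] (p : ℕ) [Fact p.Prime] (hS : IsPGroup p S) (F : Cfsg.FusionSystem S) (hF : F.IsSaturated p) (Q : Subgroup Ω) : F.IsNormal Q ↔ F.StronglyClosed Q ∧ ∃ (n : ℕ) (C : Fin (n + 1) → Subgroup Ω), C 0 = ⊥ ∧ C (Fin.last n) = Q ∧ Monotone C ∧ (∀ i : Fin n, ⁅C i.succ, Q⁆ ≤ C i.castSucc) ∧ ∀ i : Fin n, F.WeaklyClosed (C i.castSucc) := by
  constructor
  · intro h
    have := finite_of_le_S h.1
    obtain ⟨n, hn⟩ := exists_ucs_eq (hS.to_le h.1)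
    exact ⟨stronglyClosed_of_isNormal h, n, fun i => ucs Q i, ucs_zero Q, hn, fun i j hij => ucs_mono Q hij, fun i => commutator_ucs_le Q i, fun i => weaklyClosed_of_isNormal (isNormal_ucs h _)⟩
  · rintro ⟨hQ, n, C, h0, hn, hm, h, hw⟩
    refine isNormal_of_weak_chain hS hF hQ (fun i => if hi : i < n + 1 then C ⟨i, hi⟩ else Q) n (fun i hi => ?_) ?_ ?_ (fun i hi => ?_) fun a ha i hi x hx => ?_
    · simp only [show i < n + 1 by omega, dif_pos]; exact hw ⟨i, hi⟩
    · simp only [show 0 < n + 1 by omega, dif_pos]; exact h0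
    · simp only [show n < n + 1 by omega, dif_pos]; exact hn
    · simp only [show i < n + 1 by omega, dif_pos]
      rw [← hn]; exact hm (Fin.le_last _)
    · simp only [show i < n + 1 by omega, show i + 1 < n + 1 by omega, dif_pos] at hx ⊢
      exact step_of_commutator_le (h ⟨i, hi⟩) hx ha

end Cfsg.Agent.S5226
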