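import Mathlib
import Cfsg.Statements.S5227
import Cfsg.Agent.Lib.Cf3.Main

set_option autoImplicit false
open Cfsg

namespace Cfsg.Agent.S5227

/-- Let S be a finite 3-group isomorphic to a Sylow 3-subgroup of the Conway group Co₁ and F a saturated fusion system over S with no nontrivial normal subgroup (O₃(F) = 1). Then F is realizable: it is the fusion system of a finite group on a Sylow 3-subgroup. -/
theorem result {Ω : Type*} [Group Ω] {S : Subgroup Ω} [Finite S] (hS : IsPGroup 3 S) (F : Cfsg.FusionSystem S) (hF : F.IsSaturated 3) [Fact (Nat.Prime 3)] (T : Sylow 3 Cfsg.Spor.Co1) (e : ↥S ≃* ↥(T : Subgroup Cfsg.Spor.Co1)) (hcore : F.core = ⊥) : F.IsRealizable 3 := by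
  exact CfsgLib.Cf3.realizable hS hF T e hcore

end Cfsg.Agent.S5227
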