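import Cfsg.Statements.S5228
import Cfsg.Agent.Lib.Th3.Main
import Cfsg.Agent.Lib.Th3.Ess
import Cfsg.Agent.Lib.Th3.Emb

set_option autoImplicit false
open Cfsg

namespace Cfsg.Agent.S5228

/-- Let S be a finite 3-group isomorphic to a Sylow 3-subgroup of the Thompson sporadic group and F a saturated fusion system over S with no nontrivial normal subgroup (O₃(F) = 1). Then F is a simple fusion system. -/
theorem result {Ω : Type*} [Group Ω] {S : Subgroup Ω} [Finite S] (hS : IsPGroup 3 S) (F : Cfsg.FusionSystem S) (hF : F.IsSaturated 3) [Fact (Nat.Prime 3)] (T : Sylow 3 Cfsg.Spor.Th) (e : ↥S ≃* ↥(T : Subgroup Cfsg.Spor.Th)) (hcore : F.core = ⊥) : F.IsSimple 3 := by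
  obtain ⟨ν, h⟩ := CfsgLib.Th3.exists_mod T e
  exact CfsgLib.Th3.simple_of_ctx (h.ctx hF) hcore

end Cfsg.Agent.S5228
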