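import Mathlib
import Cfsg.Statements.S5236
import Cfsg.Agent.Lib.Fusion.Normal
import Cfsg.Agent.Lib.Core.MinNormal

set_option autoImplicit false
open Cfsg

namespace Cfsg.Agent.S5236

open CfsgLib.Fusion Cfsg.FusionSystem



/-- Let p be an odd prime, F a saturated fusion system over a finite p-group S and P a subgroup of S strongly closed in F. Then P is normal in F if and only if Ω₁(P) (the subgroup generated by the elements of order p of P) has a chain of subgroups 1 = Q₀ ≤ Q₁ ≤ ⋯ ≤ Qₙ = Ω₁(P), each strongly closed in F, with [Qᵢ₊₁, P] ≤ Qᵢ for all i. -/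
theorem result {Ω : Type*} [Group Ω] {S : Subgroup Ω} [Finite S] (p : ℕ) [Fact p.Prime] (hS : IsPGroup p S) (F : Cfsg.FusionSystem S) (hF : F.IsSaturated p) (hp : p ≠ 2) (P : Subgroup Ω) (hP : F.StronglyClosed P) : F.IsNormal P ↔ ∃ (n : ℕ) (Q : Fin (n + 1) → Subgroup Ω), Q 0 = ⊥ ∧ Q (Fin.last n) = Cfsg.omegaOne p P ∧ Monotone Q ∧ (∀ i : Fin (n + 1), F.StronglyClosed (Q i)) ∧ ∀ i : Fin n, ⁅Q i.succ, P⁆ ≤ Q i.castSucc := by
  have hfin := finite_of_le_S hP.1
  constructor
  · intro h
    obtain ⟨n, hn⟩ := exists_ucs_eq (hS.to_le h.1)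
    have hO : F.StronglyClosed (Cfsg.omegaOne p P) := by
      refine stronglyClosed_of_isNormal (isNormal_of_invariant h (CfsgLib.Core.omegaOne_le p P) fun g hg e => ?_)
      have := finite_of_le (CfsgLib.Core.omegaOne_le p P)
      refine (hg.mono (CfsgLib.Core.omegaOne_le p P)).img_eq_self ((hg.mono (CfsgLib.Core.omegaOne_le p P)).hom.mem_of_closure fun x hx => ?_)
      exact CfsgLib.Core.mem_omegaOne (e ▸ mem_img_of_mem g hx.1) (by rw [← hg.hom.map_pow hx.1, hx.2, hg.map_one])
    refine ⟨n, fun i => Cfsg.omegaOne p P ⊓ ucs P i, by simp [ucs_zero], ?_, fun i j hij => inf_le_inf_left _ (ucs_mono P hij), fun i => stronglyClosed_inf hO (stronglyClosed_of_isNormal (isNormal_ucs h i)), fun i => le_inf ?_ ?_⟩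
    · simp only [Fin.val_last, hn]; exact inf_eq_left.2 (CfsgLib.Core.omegaOne_le p P)
    · refine Subgroup.commutator_le.2 fun x hx y hy => ?_
      have := (Cfsg.omegaOne p P).mul_mem hx.1 (conj_mem_of_stronglyClosed hO (hP.1 hy) ((Cfsg.omegaOne p P).inv_mem hx.1))
      simpa [commutatorElement_def, mul_assoc] using this
    · exact (Subgroup.commutator_mono inf_le_right le_rfl).trans (commutator_ucs_le P i)
  · rintro ⟨n, Q, h0, hn, -, hsc, h⟩
    refine isNormal_of_le_crf hS hF (weaklyClosed_of_stronglyClosed hP) fun R hc hr _ => ?_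
    have := finite_of_le_S hc.1
    have hRp := hS.to_le hc.1
    refine le_of_conjAut_mem_pCore hS (centric_centralizerIn_le hc) hr hP.1 (hc.1.trans (le_normalizer_of_stronglyClosed hP)) fun a haP ha => ?_
    let K : ℕ → Subgroup Ω := fun i => if hi : i < n + 1 then Q ⟨i, hi⟩ else ⊤
    have hinv : ∀ α ∈ F.autGroup R, ∀ i, ∀ x ∈ R, x ∈ K i → extAut α x ∈ K i := by
      intro α hα i x hx hxK
      by_cases hi : i < n + 1
      · simp only [K, hi, dif_pos] at hxK ⊢
        exact ((mem_autGroup hc.1).1 hα).mem_of_stronglyClosed (hsc _) hx hxK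
      · simp only [K, hi, dif_neg, not_false_eq_true]; trivial
    refine CfsgLib.Core.le_map_pCore (N := chainStab (F.autGroup R) K n hinv ⊓ stabMod R P) (fun _ h => h.1.1) ?_ ?_ ⟨⟨autInducedBy_le_autGroup F hc.1 (conjAut_mem_autInducedBy ha (hP.1 haP)), fun i hi x hx hxK => ?_⟩, fun x hx => ?_⟩
    · intro α hα
      refine mem_normalizer_inf ?_ (autGroup_le_normalizer_stabMod hP hc.1 hα)
      have key : ∀ α ∈ F.autGroup R, ∀ γ ∈ chainStab (F.autGroup R) K n hinv, α * γ * α⁻¹ ∈ chainStab (F.autGroup R) K n hinv := by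
        intro α hα γ hγ
        refine ⟨Subgroup.mul_mem _ (Subgroup.mul_mem _ hα hγ.1) (Subgroup.inv_mem _ hα), fun i hi x hx hxK => ?_⟩
        have hy := extAut_mem α⁻¹ hx
        have h1 := hγ.2 i hi _ hy (hinv _ (Subgroup.inv_mem _ hα) _ x hx hxK)
        have h2 := hinv α hα i _ (R.mul_mem (R.inv_mem hy) (extAut_mem γ hy)) h1
        rwa [(isHomOn_extAut α).map_mul (R.inv_mem hy) (extAut_mem γ hy), (isHomOn_extAut α).map_inv hy,
          extAut_apply_inv, ← extAut_mul_apply, ← extAut_mul_apply] at h2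
      rw [Subgroup.mem_normalizer_iff]
      refine fun γ => ⟨key α hα γ, fun h => ?_⟩
      have := key _ (Subgroup.inv_mem _ hα) _ h
      simpa [mul_assoc] using this
    · have := finite_mulAut R
      refine CfsgLib.Core.isPGroup_subgroup_iff.2 fun β hβ => ?_
      obtain ⟨k, m, hm, hkm⟩ := Nat.exists_eq_pow_mul_and_not_dvd (orderOf_pos β).ne' p (Fact.out : p.Prime).ne_one
      refine ⟨k, ?_⟩
      have hγ := Subgroup.pow_mem _ hβ (p ^ k)
      have hco : (orderOf (β ^ p ^ k)).Coprime p := by
        have : orderOf (β ^ p ^ k) ∣ m := orderOf_dvd_of_pow_eq_one (by rw [← pow_mul, ← hkm, pow_orderOf_eq_one])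
        exact Nat.Coprime.coprime_dvd_left this ((Nat.Prime.coprime_iff_not_dvd Fact.out).2 hm).symm
      generalize β ^ p ^ k = γ at hγ hco
      have h1 : ∀ i ≤ n, ∀ x : R, (x : Ω) ∈ K i → γ x = x := by
        intro i
        induction i with
        | zero =>
          intro _ x hx
          have : (x : Ω) = 1 := by simpa [K, h0] using hx
          rw [show x = 1 from Subtype.ext this, map_one]
        | succ i ih =>
          intro hi x hx
          refine CfsgLib.PGroup.aut_apply_eq_of_fix' hRp hco (ih (by omega) _ ?_)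
          have := hγ.1.2 i (by omega) x x.2 hx
          rwa [extAut_coe] at this
      have h2 : ∀ x ∈ P.subgroupOf R, γ x = x := by
        refine CfsgLib.PGroup.aut_apply_eq_of_fix_pow_eq_one (n := 1) one_ne_zero (by simpa using hp) hco (hRp.to_subgroup _) (fun x hx => ?_) fun x hx hxp => h1 n le_rfl x ?_
        · have := ((mem_autGroup hc.1).1 hγ.1.1).mem_of_stronglyClosed hP x.2 hx
          rwa [extAut_coe] at this
        · simp only [K, show n < n + 1 by omega, dif_pos]
          rw [show Q ⟨n, by omega⟩ = _ from hn]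
          exact CfsgLib.Core.mem_omegaOne hx (by simpa using congrArg Subtype.val hxp)
      ext x
      congr 1
      refine CfsgLib.PGroup.aut_apply_eq_of_fix' hRp hco (h2 _ ?_)
      have := hγ.2 x x.2
      rwa [extAut_coe] at this
    · simp only [K, show i < n + 1 by omega, show i + 1 < n + 1 by omega, dif_pos] at hxK ⊢
      rw [extAut_conjAut ha hx]
      exact step_of_commutator_le (h ⟨i, hi⟩) hxK haP
    · rw [extAut_conjAut ha hx]
      exact step_of_normalizer_right (le_normalizer_of_stronglyClosed hP (hc.1 hx)) haP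

end Cfsg.Agent.S5236
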