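import Mathlib
import Cfsg.Statements.S5243
import Cfsg.Agent.Lib.Fusion.OppRes2

set_option autoImplicit false
open Cfsg

namespace Cfsg.Agent.S5243

open CfsgLib.Fusion Cfsg.FusionSystem



/-- Let F be a saturated fusion system over a finite p-group S, E a normal subsystem of F over T ≤ S, and χ a surjective homomorphism from Aut_F(T) onto a nontrivial finite group Δ of order prime to p whose kernel contains Aut_E(T). Then there is a proper normal subsystem F₀ of F over S containing E such that Aut_{F₀}(S) consists of those α ∈ Aut_F(S) whose restriction to T is an element of Aut_F(T) in the kernel of χ; moreover every p'-residual subsystem O^{p'}(F) of F is contained in F₀. -/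
theorem result {Ω : Type*} [Group Ω] {S : Subgroup Ω} [Finite S] (p : ℕ) [Fact p.Prime] (hS : IsPGroup p S) (F : Cfsg.FusionSystem S) (hF : F.IsSaturated p) {T : Subgroup Ω} (hTS : T ≤ S) (E : Cfsg.FusionSystem T) (hE : E.IsNormalIn F p) {Δ : Type*} [Group Δ] [Finite Δ] [Nontrivial Δ] (hΔ : (Nat.card Δ).Coprime p) (χ : ↥(F.autGroup T) →* Δ) (hχ : Function.Surjective χ) (hker : (E.autGroup T).subgroupOf (F.autGroup T) ≤ χ.ker) : ∃ F₀ : Cfsg.FusionSystem S, F₀.IsNormalIn F p ∧ ¬ (∀ P : Subgroup Ω, F₀.Hom P = F.Hom P) ∧ E.IsSubsystemOf F₀ ∧ (∀ α : MulAut ↥S, α ∈ F₀.autGroup S ↔ α ∈ F.autGroup S ∧ ∃ β : ↥(F.autGroup T), χ β = 1 ∧ ∀ t : ↥T, (((β : MulAut ↥T) t : ↥T) : Ω) = ((α ⟨(t : Ω), hTS t.2⟩ : ↥S) : Ω)) ∧ ∀ R : Cfsg.FusionSystem S, F.IsPPrimeResidual p R → R.IsSubsystemOf F₀ := by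
  have hT := normalIn_stronglyClosed hE
  have := finite_of_le_S hTS
  have hmem : ∀ {α : MulAut T} (hα : α ∈ F.autGroup T),
      α ∈ χ.ker.map (F.autGroup T).subtype ↔ χ ⟨α, hα⟩ = 1 := fun {α} hα =>
    ⟨fun ⟨β, hβ, e⟩ => by
      obtain rfl : α = β := e.symm
      exact hβ, fun h => ⟨⟨α, hα⟩, h, rfl⟩⟩
  have hn : ∀ β ∈ F.autGroup T, ∀ α ∈ χ.ker.map (F.autGroup T).subtype,
      β * α * β⁻¹ ∈ χ.ker.map (F.autGroup T).subtype := by
    rintro β hβ _ ⟨α, hα, rfl⟩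
    exact ⟨_, χ.normal_ker.conj_mem α hα ⟨β, hβ⟩, rfl⟩
  have hp : oppRes p (F.autGroup T) ≤ χ.ker.map (F.autGroup T).subtype :=
    oppRes_le_iff.2 fun α hα ⟨k, hk⟩ => (hmem hα).2 (by
      have h1 := orderOf_map_dvd χ ⟨α, hα⟩
      rw [Subgroup.orderOf_mk, hk] at h1
      exact orderOf_eq_one_iff.1 (Nat.eq_one_of_dvd_coprimes (hΔ.pow_right k)
        (orderOf_dvd_natCard _) h1))
  obtain ⟨F₀, h1, h2, h3, h4⟩ := exists_normal_of_autSubgroup hS hE.1
    (Subgroup.map_subtype_le χ.ker) (fun α hα => (hmem (autGroup_mono (normalIn_sub hE) T hα)).2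
      (hker (show (⟨α, _⟩ : F.autGroup T) ∈ (E.autGroup T).subgroupOf _ from hα))) hp hn
  refine ⟨F₀, h1, fun h => ?_, h3, fun α => ?_, fun R hR => hR.2.2 F₀ (normalIn_saturated h1) h2⟩
  · obtain rfl := fs_ext_hom h
    obtain ⟨d, hd⟩ := exists_ne (1 : Δ)
    obtain ⟨β, rfl⟩ := hχ d
    have hn' := le_normalizer_of_stronglyClosed hT
    obtain ⟨κ, hκ, ψ, hψ, e⟩ := sat_frattini_aut hS hF (fullyNormalized_of_le_normalizer hTS hn')
      (le_normalizer_of_conj_mem_sub hn) (N := S) (le_inf le_rfl hn')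
      ((le_oppRes_of_isPGroup (isPGroup_autInducedBy hS T) (autInducedBy_le_autGroup _ hTS)).trans hp)
      β.2
    rw [sup_eq_right.2 hTS] at hψ
    obtain ⟨α, hα, e'⟩ := hψ.exists_aut hψ.img_top
    obtain ⟨γ, hγ, e''⟩ := (h4.le hα).2
    have h5 : γ = κ * β := aut_ext fun x hx => by
      rw [← e'' x hx, e' x (hTS hx), e x hx, extAut_mul_apply]
    exact hd ((hmem β.2).1 (by simpa [h5] using Subgroup.mul_mem _ (Subgroup.inv_mem _ hκ.2) hγ))
  · rw [h4]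
    refine and_congr_right fun _ => ⟨?_, ?_⟩
    · rintro ⟨_, ⟨β, hβ, rfl⟩, e⟩
      exact ⟨β, hβ, fun t => by rw [coe_eq_extAut, ← extAut_apply α]; exact (e t t.2).symm⟩
    · rintro ⟨β, hβ, e⟩
      exact ⟨_, ⟨β, hβ, rfl⟩, fun t ht => by
        rw [extAut_apply α (hTS ht), ← e ⟨t, ht⟩, coe_eq_extAut]; rfl⟩

end Cfsg.Agent.S5243
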