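import Mathlib
import Cfsg.Statements.S5244
import Cfsg.Agent.Lib.Fusion.AbIdx

set_option autoImplicit false
open Cfsg

namespace Cfsg.Agent.S5244

open CfsgLib.Fusion Cfsg.FusionSystem

/-- Let p be an odd prime, S a finite nonabelian p-group with a unique abelian subgroup A of index p, and F a saturated fusion system over S with no nontrivial normal subgroup (O_p(F) = 1) in which A is not F-essential. Then some subgroup Z(S)⟨x⟩ with x ∈ S outside A is F-essential, the centre Z(S) is contained in the commutator subgroup of S, and S has maximal nilpotency class (if S has order pⁿ with n ≥ 3, the term of index n − 2 of its lower central series, counting S itself as the term of index 0, is nontrivial). -/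
theorem result {Ω : Type*} [Group Ω] {S : Subgroup Ω} [Finite S] (p : ℕ) [Fact p.Prime] (hS : IsPGroup p S) (F : Cfsg.FusionSystem S) (hF : F.IsSaturated p) (hp : p ≠ 2) (hna : ¬ IsMulCommutative ↥S) (A : Subgroup Ω) (hA : A ≤ S ∧ IsMulCommutative ↥A ∧ (A.subgroupOf S).index = p) (huniq : ∀ B : Subgroup Ω, B ≤ S → IsMulCommutative ↥B → (B.subgroupOf S).index = p → B = A) (hcore : F.core = ⊥) (hAe : ¬ F.IsEssential p A) : (∃ x ∈ S, x ∉ A ∧ F.IsEssential p ((S ⊓ Subgroup.centralizer (S : Set Ω)) ⊔ Subgroup.zpowers x)) ∧ (S ⊓ Subgroup.centralizer (S : Set Ω)) ≤ (commutator ↥S).map S.subtype ∧ ∀ n : ℕ, Nat.card S = p ^ n → 3 ≤ n → Subgroup.lowerCentralSeries S (n - 2) ≠ ⊥ := by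
  obtain ⟨F', hT⟩ := exists_isTopOf F
  have hF' := hT.saturated hS hF
  have h : AbIdx p (A.subgroupOf S) := ⟨hS, (isMulCommutative_subgroupOf_iff hA.1).2 hA.2.1, hA.2.2, hna⟩
  have hAm := Subgroup.map_subgroupOf_eq_of_le hA.1
  obtain ⟨⟨P, x, hP, hxP, hx, e⟩, h1, h2⟩ := h.center_le_commutator hF' hp (hT.core_eq_bot hcore)
    fun H => hAe (hAm ▸ hT.essential_up H)
  rw [← map_center_subtype]
  refine ⟨⟨x, x.2, hx, ?_⟩, Subgroup.map_mono h2, fun n hn hn3 hb => ?_⟩
  · have := hT.essential_up hP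
    rwa [h.eq_inf_sup_zpowers hxP hx, e, Subgroup.map_sup, MonoidHom.map_zpowers] at this
  · obtain ⟨k, rfl⟩ : ∃ k, n = k + 3 := ⟨n - 3, by omega⟩
    have h4 := h.pow_le_card_lowerCentralSeries (by rw [inf_eq_left.2 h2, h1]) k
    rw [← map_lowerCentralSeries_subtype,
      Subgroup.map_eq_bot_iff_of_injective _ S.subtype_injective] at hb
    rw [show (⊤ : Subgroup S).lowerCentralSeries (k + 1) = ⊥ from hb, Subgroup.card_bot, one_mul,
      index_eq_pow_of_card (i := 1) (j := k + 2) (by rw [hn]; ring_nf) (by rw [h1, pow_one])] at h4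
    exact absurd ((Nat.pow_le_pow_iff_right (Fact.out : p.Prime).one_lt).1 h4) (by omega)

end Cfsg.Agent.S5244
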