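import Mathlib
import Cfsg.Statements.S5245
import Cfsg.Agent.Lib.Fusion.OpRes
import Cfsg.Agent.Lib.Fusion.SubNormal

set_option autoImplicit false
open Cfsg

namespace Cfsg.Agent.S5245

open CfsgLib.Fusion Cfsg.FusionSystem



/-- Let F be an extremely sparse fusion system over a finite p-group S (saturated, not the inner system, and every saturated fusion system over any subgroup T of S contained in F is F itself or the inner system of T). Then S is normal in F, the focal and hyperfocal subgroups of F are both S, and Aut_F(S) is generated by the inner automorphisms of S together with a single automorphism of prime order q ≠ p (F is the fusion system of the semidirect product of S by a cyclic group of prime order). -/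
theorem result {Ω : Type*} [Group Ω] {S : Subgroup Ω} [Finite S] (p : ℕ) [Fact p.Prime] (hS : IsPGroup p S) (F : Cfsg.FusionSystem S) (hF : F.IsSaturated p) (hxs : ¬ (∀ P : Subgroup Ω, F.Hom P = (Cfsg.innerFusionSystem S).Hom P) ∧ ∀ (T : Subgroup Ω) (E : Cfsg.FusionSystem T), E.IsSaturated p → E.IsSubsystemOf F → (T = S ∧ ∀ P : Subgroup Ω, E.Hom P = F.Hom P) ∨ (∀ P : Subgroup Ω, E.Hom P = (Cfsg.innerFusionSystem T).Hom P)) : F.IsNormal S ∧ F.focalSubgroup = S ∧ F.hyperfocalSubgroup p = S ∧ ∃ (q : ℕ) (β : MulAut ↥S), q.Prime ∧ q ≠ p ∧ β ∈ F.autGroup S ∧ orderOf β = q ∧ (F.autGroup S : Subgroup (MulAut ↥S)) = Cfsg.Inn ↥S ⊔ Subgroup.zpowers β := by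
    obtain ⟨hni, hsp⟩ := hxs
    have hni' : F ≠ innerFusionSystem S := fun e => hni fun P => by rw [← e]
    have key : ∀ Q (hQ : F.IsFullyNormalized Q), ∀ β ∈ F.autGroup Q, (orderOf β).Prime →
        orderOf β ≠ p → S ≤ Q ⊔ centralizerIn S Q ∧
          ∀ P f, Mor F P f → KMor F Q (Inn Q ⊔ Subgroup.zpowers β) P f := by
      intro Q hQ β hβ hq hqp
      have := finite_of_le_S hQ.1
      have := finite_mulAut Q
      have hco : Nat.Coprime (orderOf β) p := (Nat.coprime_primes hq Fact.out).2 hqp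
      have hI : IsPGroup p (Inn Q) := Inn_eq_autInducedBy Q ▸ isPGroup_autInducedBy (hS.to_le hQ.1) Q
      have hKF : Inn Q ⊔ Subgroup.zpowers β ≤ F.autGroup Q :=
        sup_le (Inn_le_autGroup F hQ.1) (Subgroup.zpowers_le.2 hβ)
      have hIn : (Inn Q).Normal := inferInstance
      have hsyl : SylIn p (Inn Q) (Inn Q ⊔ Subgroup.zpowers β) :=
        sylIn_of_not_dvd le_sup_left hI fun hd => by
          rw [Subgroup.relIndex_sup_left] at hd
          have := hd.trans (Subgroup.relIndex_dvd_card _ _)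
          rw [Nat.card_zpowers] at this
          exact hqp ((Nat.prime_dvd_prime_iff_eq Fact.out hq).1 this).symm
      have e : autInducedBy S Q ⊓ (Inn Q ⊔ Subgroup.zpowers β) = Inn Q :=
        hsyl.eq_of_le ((isPGroup_autInducedBy hS Q).to_le inf_le_left)
          (le_inf (Inn_le_autInducedBy hQ.1) le_sup_left) inf_le_right
      have hs := kNormSys_saturated (K := Inn Q ⊔ Subgroup.zpowers β) hS hF
        (sat_fullyCentralized hS hF hQ) (by rw [e, inf_eq_right.2 hKF]; exact hsyl)
      have hQK : Q ≤ kNormIn S Q (Inn Q ⊔ Subgroup.zpowers β) :=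
        le_sup_left.trans ((kNormIn_Inn hQ.1).ge.trans (kNormIn_mono le_sup_left))
      rcases hsp _ _ hs (kNormSys_sub F hQ.1 _) with ⟨h1, h2⟩ | h2
      · refine ⟨fun s hs => ?_, fun P f hf => (mor_kNormSys hQ.1).1 ((hom_eq_iff.1 (h2 P) f).2 hf)⟩
        obtain ⟨-, α, hα, eα⟩ := mem_kNormIn.1 (h1.ge hs)
        exact (kNormIn_Inn hQ.1).le ⟨hs, α, e.le ⟨mem_autInducedBy.2 ⟨s, hs, eα⟩, hα⟩, eα⟩
      · exfalso
        obtain ⟨-, g, hg, eg⟩ := mor_inner_iff.1 ((hom_eq_iff.1 (h2 Q) _).1 ((mor_kNormSys hQ.1).2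
          (kMor_of ((mem_autGroup hQ.1).1 hβ) le_rfl le_rfl hQK
            (Subgroup.mem_sup_right (Subgroup.mem_zpowers β)) fun _ _ => rfl)))
        have := eq_one_of_coprime_of_mem_pGroup (isPGroup_autInducedBy hS Q)
          (mem_autInducedBy.2 ⟨g, kNormIn_le _ _ _ hg, eg⟩) hco
        exact hq.ne_one (by rw [this, orderOf_one])
    have prime : ∀ Q, Q ≤ S → ∀ α ∈ F.autGroup Q, α ≠ 1 → Nat.Coprime (orderOf α) p →
        ∃ β ∈ F.autGroup Q, (orderOf β).Prime ∧ orderOf β ≠ p := fun Q hQ α hα h1 hc => by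
      have := finite_of_le_S hQ
      have := finite_mulAut Q
      obtain ⟨q, hq, hd⟩ := Nat.exists_prime_and_dvd (mt orderOf_eq_one_iff.1 h1)
      have e := orderOf_pow_orderOf_div (orderOf_pos α).ne' hd
      refine ⟨_, pow_mem hα (orderOf α / q), e.symm ▸ hq, fun h => ?_⟩
      rw [e] at h
      exact (Nat.Prime.coprime_iff_not_dvd Fact.out).1 hc.symm (h ▸ hd)
    have ex : ∃ Q, F.IsFullyNormalized Q ∧ ∃ α ∈ F.autGroup Q, α ≠ 1 ∧ Nat.Coprime (orderOf α) p := by
      by_contra hc
      push Not at hc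
      refine hni' (eq_inner_of_isPGroup hS hF fun P hP => ?_)
      have := finite_autGroup F P
      exact isPGroup_of_coprime_eq_one fun α hα hco => by_contra fun h1 =>
        hc P (top_or_essential_crf hS hF hP).2.2 α hα h1 hco
    obtain ⟨Q, hQ, α, hα, h1, hco⟩ := ex
    have hhyp : F.hyperfocalSubgroup p = S := by
      have hr := isPResidual_opSys hS hF
      rcases hsp _ _ hr.1 hr.2.1 with h | h
      · exact h.1
      · have := finite_of_le_S (hyperfocal_le F p)
        have := finite_of_le_S hQ.1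
        have e := hyperfocal_eq_of_pPowerIndex hS hr.2
        rw [fs_ext_hom h, hyperfocal_innerFS (hS.to_le (hyperfocal_le F p))] at e
        refine absurd (aut_eq_one fun x hx => ?_) h1
        have := mem_hyperfocal_of_coprime hQ.1 hα hco hx
        rw [← e, Subgroup.mem_bot, inv_mul_eq_one] at this
        exact this.symm
    obtain ⟨β, hβ, hq, hqp⟩ := prime Q hQ.1 α hα h1 hco
    have hQS : Q ⊔ centralizerIn S Q = S :=
      le_antisymm (sup_le hQ.1 (centralizerIn_le _ _)) (key Q hQ β hβ hq hqp).1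
    obtain ⟨γ, hγ, hc, e⟩ := exists_coprime_extension hS hF (sat_fullyCentralized hS hF hQ) hα hco
    obtain ⟨δ, hδ, hr, hrp⟩ := prime _ hQS.le γ hγ
      (fun h => h1 (aut_eq_one fun x hx => by rw [← e x hx, h, extAut_one_apply])) hc
    clear e hc hγ γ
    generalize Q ⊔ centralizerIn S Q = U at δ hδ hr hrp hQS
    subst hQS
    have h2 := (key U (fullyNormalized_top F) δ hδ hr hrp).2
    refine ⟨isNormal_iff.2 ⟨le_rfl, fun P f hf => ?_⟩,
      le_antisymm (focal_le F) (hhyp.ge.trans (hyperfocal_le_focal F p)), hhyp, _, δ, hr, hrp, hδ, rfl,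
      le_antisymm (fun κ hκ => ?_) (sup_le (Inn_le_autGroup F le_rfl) (Subgroup.zpowers_le.2 hδ))⟩
    · obtain ⟨-, g, hg, e, -⟩ := h2 P f hf
      exact ⟨g, hg, e, (hg.mono le_sup_right).img_top⟩
    · obtain ⟨-, g, -, e, μ, hμ, e'⟩ := h2 U _ ((mem_autGroup le_rfl).1 hκ)
      rwa [aut_ext (α := κ) (β := μ) fun x hx => (e x hx).symm.trans (e' x hx)]

end Cfsg.Agent.S5245
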