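import Mathlib
import Cfsg.Statements.S5247
import Cfsg.Agent.Lib.Fusion.CRExt

set_option autoImplicit false
open Cfsg

namespace Cfsg.Agent.S5247

open CfsgLib.Fusion Cfsg.FusionSystem

/-- Let p be an odd prime and F a saturated fusion system over a finite p-group S. Call a fusion system E (over any subgroup) p-stable when, for every fully E-normalized subgroup Q and every χ ∈ Aut_E(Q) with χ(a⁻¹)·a·χ(a⁻¹)·χ(χ(a)) = 1 for all a ∈ Q (χ acts quadratically), χ lies in O_p(Aut_E(Q)). Then F is p-stable if and only if every normalizer fusion system N_F(R) of every non-cyclic fully F-normalized subgroup R of S is p-stable. -/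
theorem result {Ω : Type*} [Group Ω] {S : Subgroup Ω} [Finite S] (p : ℕ) [Fact p.Prime] (hS : IsPGroup p S) (F : Cfsg.FusionSystem S) (hF : F.IsSaturated p) (hp : p ≠ 2) : (∀ Q : Subgroup Ω, F.IsFullyNormalized Q → ∀ χ : MulAut ↥Q, χ ∈ F.autGroup Q → (∀ a : ↥Q, (χ a⁻¹) * a * (χ a⁻¹) * (χ (χ a)) = 1) → χ ∈ ((Cfsg.pCore p ↥(F.autGroup Q)).map (F.autGroup Q).subtype : Subgroup (MulAut ↥Q))) ↔ ∀ R : Subgroup Ω, F.IsFullyNormalized R → ¬ IsCyclic ↥R → ∀ N : Cfsg.FusionSystem (Cfsg.FusionSystem.normalizerIn S R), F.IsNormalizerSystem R N → (∀ Q : Subgroup Ω, N.IsFullyNormalized Q → ∀ χ : MulAut ↥Q, χ ∈ N.autGroup Q → (∀ a : ↥Q, (χ a⁻¹) * a * (χ a⁻¹) * (χ (χ a)) = 1) → χ ∈ ((Cfsg.pCore p ↥(N.autGroup Q)).map (N.autGroup Q).subtype : Subgroup (MulAut ↥Q))) := by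
  constructor
  · intro h R hR _ N hN Q hQ
    rw [eq_normSys hR.1 hN] at hQ ⊢
    exact quadStable_of_sub (normSys_sub F hR.1) h hQ.1
  · intro h Q hQ
    have : Finite Q := finite_of_le hQ.1
    by_cases hc : IsCyclic Q
    · exact quadStable_of_isCyclic (hS.to_le hQ.1) _
    have : Finite (normalizerIn S Q) := finite_normalizerIn S Q
    have h7 : QuadStable p ((normSys F Q hQ.1).autGroup Q) :=
      quadStable_of_forall_fullyNormalized (h Q hQ hc _ (isNormalizerSystem_normSys F hQ.1))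
        (le_normalizerIn hQ.1)
    rwa [autGroup_normSys] at h7

end Cfsg.Agent.S5247
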