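import Mathlib
import Cfsg.Statements.S5249
import Cfsg.Agent.Lib.Fusion.Apps

set_option autoImplicit false
open Cfsg

namespace Cfsg.Agent.S5249


/-- Let p be an odd prime, G a finite group in which Qd(p) (the natural semidirect product of an elementary abelian group of order p² by SL₂(p)) is not involved, and P a Sylow p-subgroup of G. Then the fusion system of G on P is a solvable fusion system. -/
theorem result {G : Type*} [Group G] [Finite G] {p : ℕ} [Fact p.Prime] (hp : p ≠ 2) (hqd : ¬ Cfsg.Involves ↥(Cfsg.qd p) G) (P : Sylow p G) : (Cfsg.groupFusionSystem (P : Subgroup G)).IsSolvableSystem := by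
  open CfsgLib.Fusion in
  exact isSolvableSystem_of_not_fSec_qd hp P.isPGroup' (groupFusion_saturated P) fun h => hqd
    (((affType_qd p).involves_iff_fSec (groupFusion_isRealizedBy _)
      (by rw [Subgroup.range_subtype]; exact sylIn_top P)).2 h)

end Cfsg.Agent.S5249
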