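import Mathlib
import Cfsg.Statements.S5254
import Cfsg.Agent.Lib.Fusion.AbIdx

set_option autoImplicit false
open Cfsg

namespace Cfsg.Agent.S5254

open CfsgLib.Fusion Cfsg.FusionSystem

/-- Let p be an odd prime, S a finite nonabelian p-group with a unique abelian subgroup A of index p, and F a saturated fusion system over S. Then every F-essential subgroup P is A, or Z(S)⟨x⟩ for some x ∈ S outside A, or (when the second centre Z₂(S) lies in A) Z₂(S)⟨x⟩ for some x ∈ S outside A; and P has index p in its normalizer in S. -/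
theorem result {Ω : Type*} [Group Ω] {S : Subgroup Ω} [Finite S] (p : ℕ) [Fact p.Prime] (hS : IsPGroup p S) (F : Cfsg.FusionSystem S) (hF : F.IsSaturated p) (hp : p ≠ 2) (hna : ¬ IsMulCommutative ↥S) (A : Subgroup Ω) (hA : A ≤ S ∧ IsMulCommutative ↥A ∧ (A.subgroupOf S).index = p) (huniq : ∀ B : Subgroup Ω, B ≤ S → IsMulCommutative ↥B → (B.subgroupOf S).index = p → B = A) (P : Subgroup Ω) (hP : F.IsEssential p P) : (P = A ∨ (∃ x ∈ S, x ∉ A ∧ P = (S ⊓ Subgroup.centralizer (S : Set Ω)) ⊔ Subgroup.zpowers x) ∨ (((upperCentralSeries ↥S 2).map S.subtype) ≤ A ∧ ∃ x ∈ S, x ∉ A ∧ P = ((upperCentralSeries ↥S 2).map S.subtype) ⊔ Subgroup.zpowers x)) ∧ (P.subgroupOf (S ⊓ Subgroup.normalizer (P : Set Ω))).index = p := by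
  obtain ⟨F', hT⟩ := exists_isTopOf F
  have hF' := hT.saturated hS hF
  have h : AbIdx p (A.subgroupOf S) := ⟨hS, (isMulCommutative_subgroupOf_iff hA.1).2 hA.2.1, hA.2.2, hna⟩
  have hAm := Subgroup.map_subgroupOf_eq_of_le hA.1
  have hP' := hT.essential hP
  have hm := Subgroup.map_subgroupOf_eq_of_le hP.1.1
  have hi : (P.subgroupOf (S ⊓ Subgroup.normalizer (P : Set Ω))).index =
      (P.subgroupOf S).relIndex (Subgroup.normalizer ((P.subgroupOf S : Subgroup S) : Set S)) := by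
    rw [← Subgroup.relIndex_map_map_of_injective _ _ S.subtype_injective, map_normalizer_subtype, hm]
    rfl
  rw [hi]
  by_cases hPA : P = A
  · subst hPA
    have := h.normal
    exact ⟨Or.inl rfl, by rw [Subgroup.normalizer_eq_top, Subgroup.relIndex_top_right, h.idx]⟩
  obtain ⟨x, hxP, hx⟩ := h.exists_notMem hP' fun e => hPA (by rw [← hm, e, hAm])
  have e := congrArg (Subgroup.map S.subtype) (h.eq_inf_sup_zpowers hxP hx)
  rw [hm, Subgroup.map_sup, MonoidHom.map_zpowers] at e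
  obtain ⟨h1, ⟨-, h2⟩ | ⟨-, h2, -⟩⟩ := h.essential hF' hP' hxP hx
  · exact ⟨Or.inr (Or.inl ⟨x, x.2, hx, by rwa [h2, map_center_subtype] at e⟩), h1⟩
  · refine ⟨Or.inr (Or.inr ⟨?_, x, x.2, hx, by rwa [h2] at e⟩), h1⟩
    exact hAm ▸ Subgroup.map_mono (h2.ge.trans inf_le_left)

end Cfsg.Agent.S5254
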