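import Mathlib
import Cfsg.Statements.S5257
import Cfsg.Agent.Lib.Fusion.AbIdx

set_option autoImplicit false
open Cfsg

namespace Cfsg.Agent.S5257

open CfsgLib.Fusion Cfsg.FusionSystem

/-- Let p be an odd prime, S a finite nonabelian p-group with a unique abelian subgroup A of index p, and F a saturated fusion system over S having an F-essential subgroup other than A. Then the second centre Z₂(S) lies in A; Z(S) ∩ [S, S] has order p; Z(S)[S, S] has index p in A; Z(S) has index p in Z₂(S); and S/Z(S) has maximal nilpotency class (if S/Z(S) has order pᵐ with m ≥ 3 then the term of index m − 2 of the lower central series of S, counting S as index 0, is not contained in Z(S)). -/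
theorem result {Ω : Type*} [Group Ω] {S : Subgroup Ω} [Finite S] (p : ℕ) [Fact p.Prime] (hS : IsPGroup p S) (F : Cfsg.FusionSystem S) (hF : F.IsSaturated p) (hp : p ≠ 2) (hna : ¬ IsMulCommutative ↥S) (A : Subgroup Ω) (hA : A ≤ S ∧ IsMulCommutative ↥A ∧ (A.subgroupOf S).index = p) (huniq : ∀ B : Subgroup Ω, B ≤ S → IsMulCommutative ↥B → (B.subgroupOf S).index = p → B = A) (P : Subgroup Ω) (hP : F.IsEssential p P) (hPA : P ≠ A) : ((upperCentralSeries ↥S 2).map S.subtype) ≤ A ∧ Nat.card ↥((S ⊓ Subgroup.centralizer (S : Set Ω)) ⊓ ((commutator ↥S).map S.subtype)) = p ∧ (((S ⊓ Subgroup.centralizer (S : Set Ω)) ⊔ ((commutator ↥S).map S.subtype)).subgroupOf A).index = p ∧ (((S ⊓ Subgroup.centralizer (S : Set Ω))).subgroupOf ((upperCentralSeries ↥S 2).map S.subtype)).index = p ∧ ∀ m : ℕ, ((S ⊓ Subgroup.centralizer (S : Set Ω)).subgroupOf S).index = p ^ m → 3 ≤ m → ¬ Subgroup.lowerCentralSeries S (m - 2) ≤ (S ⊓ Subgroup.centralizer (S : Set Ω)) := by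
  obtain ⟨F', hT⟩ := exists_isTopOf F
  have hF' := hT.saturated hS hF
  have h : AbIdx p (A.subgroupOf S) := ⟨hS, (isMulCommutative_subgroupOf_iff hA.1).2 hA.2.1, hA.2.2, hna⟩
  have hAm := Subgroup.map_subgroupOf_eq_of_le hA.1
  have hu : ∀ B : Subgroup S, IsMulCommutative B → B.index = p → B = A.subgroupOf S := fun B h1 h2 => by
    have e : (B.map S.subtype).subgroupOf S = B :=
      Subgroup.comap_map_eq_self_of_injective S.subtype_injective B
    rw [← huniq (B.map S.subtype) (Subgroup.map_subtype_le B)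
      ((isMulCommutative_subgroupOf_iff (Subgroup.map_subtype_le B)).1 (e.symm ▸ h1)) (e.symm ▸ h2), e]
  have hP' := hT.essential hP
  have hm := Subgroup.map_subgroupOf_eq_of_le hP.1.1
  obtain ⟨x, hxP, hx⟩ := h.exists_notMem hP' fun e => hPA (by rw [← hm, e, hAm])
  have h1 := h.ucs_two_le hu hF' hP' hxP hx
  have h2 := h.relIndex_center_ucs hF' hP' hxP hx
  have h3 := (h.card_center_inf_commutator hx).trans h2
  have hinj := S.subtype_injective
  rw [← map_center_subtype]
  refine ⟨hAm ▸ Subgroup.map_mono h1, ?_, ?_, ?_, fun m hm hm3 hle => ?_⟩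
  · rw [← Subgroup.map_inf _ _ _ hinj, Subgroup.card_map_of_injective hinj, h3]
  · rw [← Subgroup.map_sup, ← h3, ← h.relIndex_center_sup_commutator,
      ← Subgroup.relIndex_map_map_of_injective _ _ hinj, hAm]
    rfl
  · rw [inf_eq_right.2 h1, ← Subgroup.relIndex_map_map_of_injective _ _ hinj] at h2
    exact h2
  · obtain ⟨k, rfl⟩ : ∃ k, m = k + 3 := ⟨m - 3, by omega⟩
    have h4 := h.pow_le_card_lowerCentralSeries h3 k
    rw [show (Subgroup.map S.subtype (Subgroup.center S)).subgroupOf S = Subgroup.center S from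
      Subgroup.comap_map_eq_self_of_injective hinj _] at hm
    rw [← map_lowerCentralSeries_subtype, Subgroup.map_le_map_iff_of_injective hinj] at hle
    have h5 : Nat.card ((⊤ : Subgroup S).lowerCentralSeries (k + 1)) ≤ p :=
      h3 ▸ Subgroup.card_le_of_le (le_inf hle
        (Subgroup.lowerCentralSeries_antitone ⊤ (Nat.le_add_left 1 k)))
    have h6 : p ^ (k + 3) ≤ p ^ (k + 2) := by
      calc _ ≤ _ := hm ▸ h4
        _ ≤ p * p ^ (k + 1) := by gcongr
        _ = _ := by ring
    exact absurd ((Nat.pow_le_pow_iff_right (Fact.out : p.Prime).one_lt).1 h6) (by omega)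

end Cfsg.Agent.S5257
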