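import Mathlib
import Cfsg.Statements.S5271
import Cfsg.Agent.Lib.PGroup.Basic
import Cfsg.Agent.Lib.Fusion.FusTransfer
import Cfsg.Agent.Lib.Fusion.Factor2
import Cfsg.Agent.Lib.Fusion.SubNormal

set_option autoImplicit false
open Cfsg

namespace Cfsg.Agent.S5271

open CfsgLib.Fusion Cfsg.FusionSystem

section

variable {Ω : Type*} [Group Ω] {S : Subgroup Ω} [Finite S] {p : ℕ} [Fact p.Prime]
  {F : FusionSystem S}

theorem exists_between (hS : IsPGroup p S) {A B : Subgroup Ω} (hA : A ≤ B) (hB : B ≤ S) {d : ℕ}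
    (h1 : Nat.card A ≤ p ^ d) (h2 : p ^ d ≤ Nat.card B) :
    ∃ Q, A ≤ Q ∧ Q ≤ B ∧ Nat.card Q = p ^ d := by
  have := finite_of_le_S hB
  have := finite_of_le hA
  have hp := (Fact.out : p.Prime).one_lt
  obtain ⟨a, ha⟩ := (hS.to_le (hA.trans hB)).exists_card_eq
  obtain ⟨b, hb⟩ := (hS.to_le hB).exists_card_eq
  rw [ha, Nat.pow_le_pow_iff_right hp] at h1
  rw [hb, Nat.pow_le_pow_iff_right hp] at h2
  obtain ⟨K, hK, hle⟩ := Sylow.exists_subgroup_card_pow_prime_le p (hb ▸ pow_dvd_pow p h2)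
    (A.subgroupOf B) ((Nat.card_congr (Subgroup.subgroupOfEquivOfLe hA).toEquiv).trans ha) h1
  exact ⟨K.map B.subtype, fun x hx => ⟨⟨x, hA hx⟩, hle hx, rfl⟩, Subgroup.map_subtype_le K,
    (Subgroup.card_map_of_injective B.subtype_injective).trans hK⟩

omit [Fact p.Prime] in
theorem card_pre {Ω' : Type*} [Group Ω'] {S' : Subgroup Ω'} {E : FusionSystem S'} {T : Subgroup Ω}
    {t : Ω → Ω'} (h : IsFactor F T t E) {Q : Subgroup Ω'} (hQ : Q ≤ S') :
    Nat.card (pre S t Q) = Nat.card Q * Nat.card T := by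
  have hh := h.hom.mono (pre_le S t Q)
  have e : hh.toHom.ker = T.subgroupOf _ := by
    ext x
    exact h.ker x (pre_le S t Q x.2)
  rw [← hh.toHom.ker.index_mul_card, Subgroup.index_ker, hh.range_toHom, h.img_pre hQ, e,
    Nat.card_congr (Subgroup.subgroupOfEquivOfLe (h.ker_le_pre Q)).toEquiv]

theorem exists_central (hS : IsPGroup p S) {T : Subgroup Ω} (hT : F.StronglyClosed T) (h : T ≠ ⊥) :
    ∃ z ∈ T, z ∈ centralizerIn S S ∧ orderOf z = p := by
  have := normal_subgroupOf_of_stronglyClosed hT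
  obtain ⟨z, h1, h2, h3⟩ := CfsgLib.PGroup.exists_mem_center_orderOf_eq hS (T.subgroupOf S)
    fun e => h (by rw [← Subgroup.map_subgroupOf_eq_of_le hT.1, e, Subgroup.map_bot])
  exact ⟨z, h1, mem_centralizerIn'.2 ⟨z.2, fun x hx =>
    congrArg Subtype.val (Subgroup.mem_center_iff.1 h2 ⟨x, hx⟩)⟩, (Subgroup.orderOf_coe z).trans h3⟩

theorem hyp_eq_bot (h : ∀ P, P ≤ S → ∀ α ∈ F.autGroup P, Nat.Coprime (orderOf α) p → α = 1) :
    F.hyperfocalSubgroup p = ⊥ :=
  le_bot_iff.1 (hyperfocal_le_iff.2 fun P hP α hα hc x _ => by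
    rw [h P hP α hα hc, extAut_one_apply, inv_mul_cancel]; exact one_mem _)

end

universe u in
theorem aux {p : ℕ} [Fact p.Prime] (n : ℕ) : ∀ {Ω : Type u} [Group Ω] {S : Subgroup Ω} [Finite S],
    Nat.card S = n → IsPGroup p S → ∀ F : FusionSystem S, F.IsSaturated p → ∀ d, 0 < d →
    p ^ d < n → (∀ Q ≤ S, Nat.card Q = p ^ d → ∃ P, F.StronglyClosed P ∧
      F.StronglyClosed (Q ⊔ P) ∧ F.StronglyClosed (Q ⊓ P)) →
    (∀ H ≤ S, Nat.card H = p ^ d → ∀ α ∈ F.autGroup H, Nat.Coprime (orderOf α) p → α = 1) →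
    (∀ T, F.StronglyClosed T → Nat.card T = p ^ d → ∀ R f, T ≤ R → Mor F R f →
      ∃ s ∈ S, ∀ x ∈ R, f x = s * x * s⁻¹) → F.hyperfocalSubgroup p = ⊥ := by
  induction n using Nat.strong_induction_on with
  | _ n ih =>
  intro Ω _ S _ hn hS F hF d hd hdn h1 ha hb
  by_contra hH
  have hp := (Fact.out : p.Prime).one_lt
  have hpd : 1 < p ^ d := Nat.one_lt_pow hd.ne' hp
  have hHs := stronglyClosed_hyperfocal hS hF
  set H := F.hyperfocalSubgroup p with hHdef
  have := finite_of_le_S hHs.1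
  have q1 : ∀ T, F.StronglyClosed T → T ≠ ⊥ → Nat.card T < p ^ d → H ≤ T := fun T hT h0 hlt => by
    have := normal_subgroupOf_of_stronglyClosed hT
    have := finite_of_le_S hT.1
    obtain ⟨E, hE⟩ := exists_isFactor_quotient hT
    obtain ⟨k, hk⟩ := (hS.to_le hT.1).exists_card_eq
    rw [hk, Nat.pow_lt_pow_iff_right hp] at hlt
    obtain ⟨e, rfl⟩ : ∃ e, d = e + k := ⟨d - k, by omega⟩
    have c1 := card_pre hE le_rfl
    rw [hE.pre_top, hn, hk] at c1
    have c2 : ∀ Q : Subgroup (S ⧸ T.subgroupOf S), Nat.card Q = p ^ e →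
        Nat.card (pre S (extFun (QuotientGroup.mk' (T.subgroupOf S))) Q) = p ^ (e + k) := fun Q hQ => by
      rw [card_pre hE le_top, hQ, hk, pow_add]
    have := ih _ (by
        rw [c1]
        exact lt_mul_of_one_lt_right Nat.card_pos
          (hk ▸ (Subgroup.one_lt_card_iff_ne_bot _).2 h0)) rfl (hE.isPGroup hS) E
      (hE.saturated hS hF hT) e (by omega)
      (lt_of_mul_lt_mul_right (a := p ^ k) (by rwa [← pow_add, ← c1]) (Nat.zero_le _))
      (fun Q _ hQ => ?_) (fun Q _ hQ β hβ hc => ?_) fun U hU hc R f hUR hf => ?_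
    · rw [hE.hyperfocal_eq hS hF hT] at this
      exact fun x hx => (hE.ker x (hHs.1 hx)).1 (Subgroup.mem_bot.1 (this.le (mem_img_of_mem _ hx)))
    · obtain ⟨P, p1, p2, p3⟩ := h1 _ (pre_le _ _ _) (c2 Q hQ)
      refine ⟨_, hE.stronglyClosed_img hS hF hT p1, ?_, ?_⟩
      · have := hE.stronglyClosed_img hS hF hT p2
        rwa [(hE.hom.mono p2.1).img_sup, hE.img_pre le_top] at this
      · convert hE.stronglyClosed_img hS hF hT p3 using 1
        refine le_antisymm (fun y hy => ?_) (img_le_iff.2 fun x hx =>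
          ⟨(hE.mem_pre.1 hx.1).2, mem_img_of_mem _ hx.2⟩)
        obtain ⟨x, hx, rfl⟩ := (hE.hom.mono p1.1).mem_img.1 hy.2
        exact mem_img_of_mem _ ⟨hE.mem_pre.2 ⟨p1.1 hx, hy.1⟩, hx⟩
    · obtain ⟨α, hα, hc', e⟩ := hE.exists_lift_aut_coprime le_top hβ hc
      rw [ha _ (pre_le _ _ _) (c2 Q hQ) α hα hc'] at e
      refine aut_eq_one fun y hy => ?_
      obtain ⟨x, hx, rfl⟩ := hE.exists_pre le_top hy
      rw [e x hx, extAut_one_apply]
    · obtain ⟨g, hg, e⟩ := hE.lift hf
      obtain ⟨s, hs, e'⟩ := hb _ (hE.stronglyClosed_pre hS hF hT hU) (c2 U hc) _ g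
        (pre_mono _ _ hUR) hg
      refine ⟨_, hE.mem hs, fun y hy => ?_⟩
      obtain ⟨x, hx, rfl⟩ := hE.exists_pre le_top hy
      rw [e x hx, e' x hx, hE.hom.map_conj hs (pre_le _ _ _ hx)]
  have qN : ∀ T, F.IsNormal T → Nat.card T ≠ p ^ d := fun T hT hc =>
    hH (hyp_eq_bot fun P hP α hα hco => by
      obtain ⟨g, hg, e, -⟩ := ((mem_autGroup hP).1 hα).extend_normal hT
      obtain ⟨s, hs, e'⟩ := hb T (stronglyClosed_of_isNormal hT) hc _ g le_sup_right hg
      exact eq_one_of_coprime_of_mem_pGroup (isPGroup_autInducedBy hS P) (mem_autInducedBy.2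
        ⟨s, hs, fun x hx => (e x hx).symm.trans (e' x (Subgroup.mem_sup_left hx))⟩) hco)
  have qC : ∀ T, F.StronglyClosed T → T ≠ ⊥ → ¬ ∀ P f, Mor F P f → ∀ x ∈ P, x ∈ T →
      x ∈ centralizerIn S S → f x = x := fun T hT h0 h => by
    obtain ⟨z, z1, z2, z3⟩ := exists_central hS hT h0
    have hZ : F.IsCentral (Subgroup.zpowers z) :=
      isCentral_of_fixed hS hF (Subgroup.zpowers_le.2 z2.1) fun P f hf x hx hxz =>
        h P f hf x hx (Subgroup.zpowers_le.2 z1 hxz) (Subgroup.zpowers_le.2 z2 hxz)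
    have hN := isNormal_of_isCentral hZ
    have hc : Nat.card (Subgroup.zpowers z) = p := by rw [Nat.card_zpowers, z3]
    have := finite_of_le_S hZ.1
    have h5 := q1 _ (stronglyClosed_of_isNormal hN)
      ((Subgroup.one_lt_card_iff_ne_bot _).1 (hc.symm ▸ hp))
      (lt_of_le_of_ne (hc.symm ▸ Nat.le_self_pow hd.ne' p) (qN _ hN))
    refine hH (hyp_eq_bot fun P hP α hα hco => aut_eq_one fun x hx => ?_)
    have := finite_of_le_S hP
    exact fix_of_coprime_of_step (hS.to_le hP) hco hx (((mem_autGroup hP).1 hα).eq_of_isCentral hZ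
      (P.mul_mem (P.inv_mem hx) (extAut_mem α hx)) (h5 (mem_hyperfocal_of_coprime hP hα hco hx)))
  have q2 : ∀ T, F.StronglyClosed T → T ≠ ⊥ → T ⊓ H ≠ ⊥ := fun T hT h0 e =>
    qC T hT h0 fun P f hf => alperin_induction_op hS hF
      (Φ := fun P f => ∀ x ∈ P, x ∈ T → x ∈ centralizerIn S S → f x = x)
      (fun P _ s hs x _ _ hx => by simp [(mem_centralizerIn'.1 hx).2 s hs])
      (fun R hc _ _ α hα hco P hP x hx hxT _ => by
        have : x⁻¹ * extAut α x ∈ T ⊓ H := ⟨T.mul_mem (T.inv_mem hxT)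
          (((mem_autGroup hc.1).1 hα).mem_of_stronglyClosed hT (hP hx) hxT),
          mem_hyperfocal_of_coprime hc.1 hα hco (hP hx)⟩
        rw [e, Subgroup.mem_bot, inv_mul_eq_one] at this
        exact this.symm)
      (fun P f g _ h e x hx h1 h2 => (e x hx).symm.trans (h x hx h1 h2))
      (fun P Q f g _ _ h h' hm x hx h1 h2 => by
        have := hm x hx
        rw [h x hx h1 h2] at this
        rw [Function.comp, h x hx h1 h2, h' x this h1 h2]) hf
  have hne : ∀ Q : Subgroup Ω, Nat.card Q = p ^ d → Q ≠ ⊥ := fun Q hQ e => by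
    rw [e, Subgroup.card_bot] at hQ; omega
  rcases lt_or_ge (Nat.card H) (p ^ d) with hlt | hge
  · have q3 : ∀ T, F.StronglyClosed T → T ≠ ⊥ → H ≤ T := fun T hT h0 =>
      (q1 _ (stronglyClosed_inf hT hHs) (q2 T hT h0)
        ((card_le_of_le inf_le_right).trans_lt hlt)).trans inf_le_left
    have hΦ : ¬ H ≤ (frattini S).map S.subtype := fun h => hH (by
      have hi := innerFS_sub F (le_refl S)
      rw [hHdef, ← fus_tate hS hF (inner_saturated hS) hi (focal_eq_of_frattini hS hF hi ?_),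
        hyperfocal_innerFS hS]
      rw [focal_eq_hyperfocal_sup hS hF, focal_eq_hyperfocal_sup hS (inner_saturated hS)]
      exact sup_le (h.trans le_sup_left) (le_sup_right.trans le_sup_right))
    obtain ⟨M, hM, hHM⟩ : ∃ M : Subgroup S, IsCoatom M ∧ ¬ H ≤ M.map S.subtype := by
      by_contra hc
      push Not at hc
      refine hΦ fun x hx => ⟨⟨x, hHs.1 hx⟩, ?_, rfl⟩
      simp only [frattini, Order.radical, SetLike.mem_coe, Subgroup.mem_iInf]
      intro M hM
      obtain ⟨y, hy, e⟩ := hc M hM hx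
      exact (show y = ⟨x, hHs.1 hx⟩ from Subtype.ext e) ▸ hy
    obtain ⟨Q, Q1, Q2, Q3⟩ := exists_between hS (A := M.map S.subtype ⊓ H) inf_le_left
      (Subgroup.map_subtype_le M) ((card_le_of_le inf_le_right).trans hlt.le) (by
        obtain ⟨s, hs⟩ := hS.exists_card_eq
        have h2 := M.card_mul_index
        rw [CfsgLib.PGroup.index_eq_prime_of_isCoatom hS hM, hs] at h2
        rw [← hn, hs, Nat.pow_lt_pow_iff_right hp] at hdn
        rw [Subgroup.card_map_of_injective S.subtype_injective]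
        refine le_of_mul_le_mul_right ?_ (zero_lt_one.trans hp)
        rw [h2, ← pow_succ]
        exact Nat.pow_le_pow_right hp.le hdn)
    obtain ⟨P, p1, p2, p3⟩ := h1 Q (Q2.trans (Subgroup.map_subtype_le M)) Q3
    have e1 : Q ⊓ P = ⊥ := by_contra fun h0 => hHM ((q3 _ p3 h0).trans (inf_le_left.trans Q2))
    have e2 : P ≠ ⊥ := fun e => hHM ((q3 Q (by simpa [e] using p2) (hne Q Q3)).trans Q2)
    have e3 : M.map S.subtype ⊓ H = ⊥ :=
      le_bot_iff.1 (e1 ▸ le_inf Q1 (inf_le_right.trans (q3 P p1 e2)))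
    have hZ : H ≤ centralizerIn S S := fun x hx => mem_centralizerIn'.2 ⟨hHs.1 hx, fun s hs => by
      have : s * x * s⁻¹ * x⁻¹ ∈ M.map S.subtype ⊓ H := ⟨⟨_, frattini_le_coatom hM
        (CfsgLib.PGroup.commutator_le_frattini hS (Subgroup.commutator_mem_commutator
          (Subgroup.mem_top ⟨s, hs⟩) (Subgroup.mem_top ⟨x, hHs.1 hx⟩))), rfl⟩,
        H.mul_mem (conj_mem_of_stronglyClosed hHs hs hx) (H.inv_mem hx)⟩
      rwa [e3, Subgroup.mem_bot, mul_inv_eq_one, mul_inv_eq_iff_eq_mul] at this⟩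
    obtain ⟨K, K1, K2, K3⟩ := exists_between hS hHs.1 le_rfl hlt.le (hn ▸ hdn.le)
    refine hH (hyp_eq_bot fun P hP α hα hco => aut_eq_one fun x hx => ?_)
    have := finite_of_le_S hP
    have := finite_of_le_S K2
    have : Finite (P ⊓ H : Subgroup Ω) := finite_of_le inf_le_left
    obtain ⟨γ, hγ, d1, eγ⟩ := exists_restrict_aut hP (inf_le_left : P ⊓ H ≤ P) hα fun y hy =>
      ⟨extAut_mem α hy.1, ((mem_autGroup hP).1 hα).mem_of_stronglyClosed hHs hy.1 hy.2⟩
    have hc : S ≤ Subgroup.centralizer ((P ⊓ H : Subgroup Ω) : Set Ω) := fun s hs y hy =>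
      ((mem_centralizerIn'.1 (hZ hy.2)).2 s hs).symm
    obtain ⟨β, hβ, d2, eβ⟩ := exists_coprime_extension hS hF
      (fullyCentralized_of_le_centralizer (inf_le_left.trans hP) hc) hγ (hco.coprime_dvd_left d1)
    have hU : P ⊓ H ⊔ centralizerIn S (P ⊓ H) ≤ S :=
      sup_le (inf_le_left.trans hP) (centralizerIn_le _ _)
    have hKU := K2.trans ((le_inf le_rfl hc).trans (le_sup_right (a := P ⊓ H)))
    obtain ⟨δ, hδ, d3, eδ⟩ := exists_restrict_aut hU hKU hβ fun y hy =>
      (K.mul_mem_cancel_left (K.inv_mem hy)).1 (K1 (mem_hyperfocal_of_coprime hU hβ d2 (hKU hy)))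
    have hy : x⁻¹ * extAut α x ∈ P ⊓ H :=
      ⟨P.mul_mem (P.inv_mem hx) (extAut_mem α hx), mem_hyperfocal_of_coprime hP hα hco hx⟩
    refine fix_of_coprime_of_step (hS.to_le hP) hco hx ?_
    rw [← eγ _ hy, ← eβ _ hy, ← eδ _ (K1 hy.2), ha K K2 K3 δ hδ (d2.coprime_dvd_left d3),
      extAut_one_apply]
  · have q3 : ∀ T, F.StronglyClosed T → T ≠ ⊥ → p ^ d ≤ Nat.card T := fun T hT h0 =>
      not_lt.1 fun hlt => by
        have := finite_of_le_S hT.1
        exact (hge.trans (card_le_of_le (q1 T hT h0 hlt))).not_gt hlt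
    have q4 : ∀ Q ≤ S, Nat.card Q = p ^ d → ∀ P, F.StronglyClosed (Q ⊓ P) → Q ⊓ P ≠ ⊥ →
        F.StronglyClosed Q := fun Q hQ hc P hP h0 => by
      have := finite_of_le_S hQ
      rwa [eq_of_le_of_card_le inf_le_left (hc.trans_le (q3 _ hP h0))] at hP
    obtain ⟨T, ⟨hT, hT0⟩, hmin⟩ := exists_minimalFor_of_wellFoundedLT
      (fun T : Subgroup Ω => F.StronglyClosed T ∧ T ≠ ⊥) (fun T => Nat.card T) ⟨H, hHs, hH⟩
    have := finite_of_le_S hT.1
    have hmin' : ∀ U, F.StronglyClosed U → U ⊓ T ≠ ⊥ → T ≤ U := fun U hU h0 =>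
      (eq_of_le_of_card_le inf_le_right (hmin ⟨stronglyClosed_inf hU hT, h0⟩ (card_le_of_le inf_le_right))).ge.trans
        inf_le_left
    have hTc : Nat.card T = p ^ d := by
      obtain ⟨Q, -, Q2, Q3⟩ := exists_between hS (A := ⊥) bot_le hT.1 (by simpa using hpd.le)
        (q3 T hT hT0)
      suffices T ≤ Q by rw [le_antisymm this Q2, Q3]
      obtain ⟨P, p1, p2, p3⟩ := h1 Q (Q2.trans hT.1) Q3
      by_cases e1 : Q ⊓ P = ⊥
      · have h2 := hmin' _ p2 fun e => hne Q Q3 (le_bot_iff.1 (e ▸ le_inf le_sup_left Q2))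
        have h3 : P ⊓ T = ⊥ := by_contra fun h0 =>
          hne Q Q3 (le_bot_iff.1 (e1 ▸ le_inf le_rfl (Q2.trans (hmin' P p1 h0))))
        intro t ht
        have := normal_subgroupOf_of_stronglyClosed p1
        have h4 : (⟨t, hT.1 ht⟩ : S) ∈ Q.subgroupOf S ⊔ P.subgroupOf S := by
          rw [← Subgroup.subgroupOf_sup (Q2.trans hT.1) p1.1]; exact h2 ht
        rw [← SetLike.mem_coe, Subgroup.mul_normal] at h4
        obtain ⟨a, ha, b, hb, e⟩ := h4
        have e' : (a : Ω) * b = t := congrArg Subtype.val e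
        have : (b : Ω) ∈ P ⊓ T := ⟨hb, (T.mul_mem_cancel_left (Q2 ha)).1 (e' ▸ ht)⟩
        rw [h3, Subgroup.mem_bot] at this
        rw [← e', this, mul_one]
        exact ha
      · exact hmin' Q (q4 Q (Q2.trans hT.1) Q3 P p3 e1) (by rw [inf_eq_left.2 Q2]; exact hne Q Q3)
    have q5 : ∀ P, F.StronglyClosed P → P ≠ ⊥ → T ≤ P := fun P hP h0 => by_contra fun hc => by
      have e : P ⊓ T = ⊥ := by_contra fun h => hc (hmin' P hP h)
      refine qC P hP h0 fun R f hf x hx hxP hxZ => ?_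
      have hf' := hf.mono (Subgroup.zpowers_le.2 hx)
      obtain ⟨k, hk, k1, -, -, k4⟩ := hf'.exists_inv
      obtain ⟨g, hg, eg⟩ := sat_extend_centralizer hS hF hk (k4.symm ▸
        fullyCentralized_of_le_centralizer (Subgroup.zpowers_le.2 hxZ.1) fun s hs y hy =>
          ((mem_centralizerIn'.1 (Subgroup.zpowers_le.2 hxZ hy)).2 s hs).symm)
      obtain ⟨s, hs, es⟩ := hb T hT hTc _ g (le_sup_of_le_right fun t ht =>
        mem_centralizerIn'.2 ⟨hT.1 ht, fun y hy => by
          have hy' := hf'.img_le_of_stronglyClosed hP (Subgroup.zpowers_le.2 hxP) hy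
          have : y * t * y⁻¹ * t⁻¹ ∈ P ⊓ T := ⟨by
            simpa [mul_assoc] using P.mul_mem hy' (conj_mem_of_stronglyClosed hP (hT.1 ht)
              (P.inv_mem hy')), T.mul_mem (conj_mem_of_stronglyClosed hT (hP.1 hy') ht) (T.inv_mem ht)⟩
          rwa [e, Subgroup.mem_bot, mul_inv_eq_one, mul_inv_eq_iff_eq_mul] at this⟩) hg
      have hm := mem_img_of_mem f (Subgroup.mem_zpowers x)
      have := es _ (Subgroup.mem_sup_left hm)
      rw [eg _ hm, k1 x (Subgroup.mem_zpowers x), eq_mul_inv_iff_mul_eq,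
        ← (mem_centralizerIn'.1 hxZ).2 s hs] at this
      exact (mul_left_cancel this).symm
    have q6 : ∀ Q ≤ S, Nat.card Q = p ^ d → Q ⊓ T ≠ ⊥ → T = Q := fun Q hQ hc h0 => by
      have := finite_of_le_S hQ
      refine eq_of_le_of_card_le (q5 Q ?_ (hne Q hc)) (hc.trans hTc.symm).le
      obtain ⟨P, p1, p2, p3⟩ := h1 Q hQ hc
      by_cases e : P = ⊥
      · simpa [e] using p2
      · exact q4 Q hQ hc P p3 fun e' => h0 (le_bot_iff.1 (e' ▸ inf_le_inf_left Q (q5 P p1 e)))
    obtain ⟨z, z1, z2, z3⟩ := exists_central hS hT hT0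
    have := normal_subgroupOf_of_stronglyClosed hT
    obtain ⟨x, -, x1, x2, -⟩ := CfsgLib.PGroup.exists_central_mod_pow_mem hS (M := ⊤)
      (N := T.subgroupOf S) fun h => by
        have := card_le_of_le (show S ≤ T from fun y hy => h (Subgroup.mem_top ⟨y, hy⟩))
        omega
    have hA : Subgroup.zpowers z ⊔ Subgroup.zpowers (x : Ω) ≤ T ⊔ Subgroup.zpowers (x : Ω) :=
      sup_le_sup_right (Subgroup.zpowers_le.2 z1) _
    have hB : T ⊔ Subgroup.zpowers (x : Ω) ≤ S := sup_le hT.1 (Subgroup.zpowers_le.2 x.2)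
    have := finite_of_le_S hB
    rcases le_or_gt (Nat.card (Subgroup.zpowers z ⊔ Subgroup.zpowers (x : Ω) : Subgroup Ω)) (p ^ d)
      with hle | hgt
    · obtain ⟨Q, Q1, Q2, Q3⟩ := exists_between hS (hA.trans hB) le_rfl hle (hn ▸ hdn.le)
      refine x1 (show (x : Ω) ∈ T from (q6 Q Q2 Q3 fun e => ?_).ge
        (Q1 (Subgroup.mem_sup_right (Subgroup.mem_zpowers _))))
      have : z ∈ Q ⊓ T := ⟨Q1 (Subgroup.mem_sup_left (Subgroup.mem_zpowers _)), z1⟩
      rw [e, Subgroup.mem_bot] at this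
      rw [this, orderOf_one] at z3
      omega
    · have c1 := CfsgLib.PGroup.card_sup_zpowers x1 x2
      rw [← Subgroup.card_map_of_injective S.subtype_injective, Subgroup.map_sup,
        Subgroup.map_subgroupOf_eq_of_le hT.1, MonoidHom.map_zpowers,
        Nat.card_congr (Subgroup.subgroupOfEquivOfLe hT.1).toEquiv, hTc, ← pow_succ] at c1
      have := finite_of_le hA
      obtain ⟨a, ha⟩ := (hS.to_le (hA.trans hB)).exists_card_eq
      have e := eq_of_le_of_card_le hA (c1.trans_le (by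
        rw [ha] at hgt ⊢
        exact Nat.pow_le_pow_right hp.le ((Nat.pow_lt_pow_iff_right hp).1 hgt)))
      have hc := CfsgLib.PGroup.isMulCommutative_iff.1 (CfsgLib.PGroup.isMulCommutative_sup_zpowers
        (A := Subgroup.zpowers z) inferInstance (x := x) fun y hy =>
          ((mem_centralizerIn'.1 (Subgroup.zpowers_le.2 z2 hy)).2 x x.2).symm)
      exact qN T (isNormal_of_comm hS hF hT fun a ha b hb =>
        hc a (e.ge (Subgroup.mem_sup_left ha)) b (e.ge (Subgroup.mem_sup_left hb))) hTc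

/-- A nilpotency criterion for fusion systems. Let F be a saturated fusion system over a finite p-group S of order at least p². Call a subgroup Q of S weakly embedded in F when there is a subgroup P of S strongly closed in F such that both the product QP and the intersection Q ∩ P are strongly closed in F. Then F is the inner fusion system of S if and only if there is a subgroup D of S with 1 < D < S such that every subgroup of S of the same order as D is weakly embedded in F and, for every fully normalized subgroup H of S of that order, the normalizer fusion system of H in F is the inner fusion system of N_S(H). -/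
theorem result {Ω : Type*} [Group Ω] {S : Subgroup Ω} [Finite S] (p : ℕ) [Fact p.Prime] (hS : IsPGroup p ↥S) (F : Cfsg.FusionSystem S) (hF : F.IsSaturated p) (hcard : p ^ 2 ≤ Nat.card S) : (∀ P : Subgroup Ω, F.Hom P = (Cfsg.innerFusionSystem S).Hom P) ↔ ∃ D : Subgroup Ω, ⊥ < D ∧ D < S ∧ (∀ Q : Subgroup Ω, Q ≤ S → Nat.card ↥Q = Nat.card ↥D → ∃ P : Subgroup Ω, F.StronglyClosed P ∧ F.StronglyClosed (Q ⊔ P) ∧ F.StronglyClosed (Q ⊓ P)) ∧ (∀ H : Subgroup Ω, F.IsFullyNormalized H → Nat.card ↥H = Nat.card ↥D → ∀ N : Cfsg.FusionSystem (Cfsg.FusionSystem.normalizerIn S H), F.IsNormalizerSystem H N → ∀ P : Subgroup Ω, N.Hom P = (Cfsg.innerFusionSystem (Cfsg.FusionSystem.normalizerIn S H)).Hom P) := by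
    have hp := (Fact.out : p.Prime).one_lt
    constructor
    · intro h
      obtain rfl := fs_ext_hom h
      have hnt : Nontrivial S := Finite.one_lt_card_iff_nontrivial.1
        ((Nat.one_lt_pow two_ne_zero hp).trans_le hcard)
      obtain ⟨M, hM, -⟩ := CfsgLib.PGroup.exists_isCoatom_ge (G := S) bot_ne_top
      have h2 := M.card_mul_index
      rw [CfsgLib.PGroup.index_eq_prime_of_isCoatom hS hM,
        ← Subgroup.card_map_of_injective S.subtype_injective] at h2
      have := finite_of_le_S (Subgroup.map_subtype_le M)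
      refine ⟨M.map S.subtype, bot_lt_iff_ne_bot.2 fun e => ?_,
        lt_of_le_of_ne (Subgroup.map_subtype_le M) fun e => ?_, fun Q hQ hc => ⟨Q, ?_⟩,
        fun H hH _ N hN P => hom_eq_iff.2 fun f => ?_⟩
      · rw [e, Subgroup.card_bot] at h2
        nlinarith
      · rw [e] at h2
        nlinarith [Nat.card_pos (α := S)]
      · rw [sup_idem, inf_idem, and_self, and_self]
        refine stronglyClosed_of_isNormal (isNormal_innerFS hQ
          ((Subgroup.normal_subgroupOf_iff_le_normalizer hQ).1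
            (CfsgLib.PGroup.normal_of_index_eq_prime hS ?_)))
        have h3 := (Q.subgroupOf S).card_mul_index
        rw [Nat.card_congr (Subgroup.subgroupOfEquivOfLe hQ).toEquiv, hc, ← h2] at h3
        exact Nat.eq_of_mul_eq_mul_left Nat.card_pos h3
      · rw [isNormalizerSystem_iff.1 hN, mor_inner_iff]
        constructor
        · rintro ⟨hP, g, hg, e, hi⟩
          obtain ⟨-, s, hs, es⟩ := mor_inner_iff.1 hg
          exact ⟨hP, s, ⟨hs, mem_normalizer_of_img_conj
            ((img_congr fun x hx => (es x (Subgroup.mem_sup_right hx)).symm).trans hi)⟩,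
            fun x hx => (e x hx).symm.trans (es x (Subgroup.mem_sup_left hx))⟩
        · rintro ⟨hP, s, hs, es⟩
          exact ⟨hP, _, Mor.conj _ (sup_le (hP.trans (normalizerIn_le _ _)) hH.1) hs.1,
            fun x hx => (es x hx).symm, img_conj_of_mem_normalizer hs.2⟩
    · rintro ⟨D, h0, hD, h1, h2⟩
      have := finite_of_le_S hD.le
      obtain ⟨d, hd⟩ := (hS.to_le hD.le).exists_card_eq
      rw [hd] at h1 h2
      have key : ∀ H (hH : F.IsFullyNormalized H), Nat.card H = p ^ d → ∀ R f, NMor F H R f →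
          ∃ s ∈ S, ∀ x ∈ R, f x = s * x * s⁻¹ := fun H hH hc R f hf => by
        obtain ⟨-, s, hs, e⟩ := mor_inner_iff.1 ((hom_eq_iff.1
          (h2 H hH hc _ (isNormalizerSystem_normSys F hH.1) R) f).1 ((mor_normSys hH.1).2 hf))
        exact ⟨s, hs.1, e⟩
      have hH := aux _ rfl hS F hF d (Nat.pos_of_ne_zero fun e => by
          rw [e, pow_zero, Subgroup.card_eq_one] at hd
          exact h0.ne' hd) (hd ▸ card_lt_of_lt hD) h1 (fun H hH hc α hα hco => ?_)
        fun T hT hc R f hTR hf => ?_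
      · suffices H : F = innerFusionSystem S from fun P => by rw [← H]
        refine eq_inner_of_isPGroup hS hF fun P hP => ?_
        have hPS : P ≤ S := hP.elim le_of_eq essential_le
        have := finite_autGroup F P
        refine isPGroup_of_coprime_eq_one fun α hα hc => aut_eq_one fun x hx => ?_
        have := mem_hyperfocal_of_coprime hPS hα hc hx
        rw [hH, Subgroup.mem_bot, inv_mul_eq_one] at this
        exact this.symm
      · obtain ⟨Q, hHQ, hQ⟩ := exists_fullyNormalized F hH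
        obtain ⟨f, hf, e⟩ := isConj_iff.1 hHQ
        have hβ := (hf.autCongr_mem_iff e).2 hα
        obtain ⟨s, hs, es⟩ := key Q hQ ((isConj_card hHQ).trans hc) Q _
          (nMor_of ((mem_autGroup hQ.1).1 hβ) le_rfl le_rfl (le_normalizerIn hQ.1) (img_extAut _))
        exact (MulEquiv.map_eq_one_iff _).1 (eq_one_of_coprime_of_mem_pGroup
          (isPGroup_autInducedBy hS Q) (mem_autInducedBy.2 ⟨s, hs, es⟩) (by rwa [MulEquiv.orderOf_eq]))
      · have := finite_of_le_S hT.1
        have hn := le_normalizer_of_stronglyClosed hT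
        exact key T (fullyNormalized_of_le_normalizer hT.1 hn) hc R f
          (nMor_of hf hTR le_rfl (le_inf hf.le (hf.le.trans hn))
            ((hf.mono hTR).img_eq_of_stronglyClosed hT))

end Cfsg.Agent.S5271
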