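import Mathlib
import Cfsg.Statements.S5272
import Cfsg.Agent.Lib.Fusion.AxZJ

set_option autoImplicit false
open Cfsg

namespace Cfsg.Agent.S5272


/-- An axiomatic Glauberman–Thompson nilpotency criterion for fusion systems. Let p be an odd prime, F a saturated fusion system over a finite p-group S, and 𝒜 a nonempty family of abelian subgroups of S. For Q ≤ S write I(Q) for the intersection of the members of 𝒜 contained in Q. Assume (invariance) that for every Q ≤ S containing a member of 𝒜, every F-automorphism of Q maps I(Q) into itself, and (replacement) that for every subgroup B of S of nilpotency class at most 2, if some member of 𝒜 contains [B,B] but not B, then B normalizes some member of 𝒜 that contains [B,B] but not B. Then F is the inner fusion system of S if and only if the normalizer fusion system of I(S) in F is the inner fusion system of N_S(I(S)). -/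
theorem result {Ω : Type*} [Group Ω] {S : Subgroup Ω} [Finite S] (p : ℕ) [Fact p.Prime] (hS : IsPGroup p ↥S) (F : Cfsg.FusionSystem S) (hF : F.IsSaturated p) (hp : p ≠ 2) (𝒜 : Set (Subgroup Ω)) (h𝒜 : ∀ A ∈ 𝒜, A ≤ S ∧ IsMulCommutative ↥A) (hne : 𝒜.Nonempty) (hinv : ∀ Q : Subgroup Ω, Q ≤ S → (∃ A ∈ 𝒜, A ≤ Q) → ∀ α ∈ F.autGroup Q, ∀ x : ↥Q, (x : Ω) ∈ (⨅ A ∈ {A : Subgroup Ω | A ∈ 𝒜 ∧ A ≤ Q}, A) → (((α : MulAut ↥Q) x : ↥Q) : Ω) ∈ (⨅ A ∈ {A : Subgroup Ω | A ∈ 𝒜 ∧ A ≤ Q}, A)) (hrep : ∀ B : Subgroup Ω, B ≤ S → ⁅⁅B, B⁆, B⁆ = ⊥ → (∃ A ∈ 𝒜, ⁅B, B⁆ ≤ A ∧ ¬ B ≤ A) → ∃ A ∈ 𝒜, ⁅B, B⁆ ≤ A ∧ ¬ B ≤ A ∧ B ≤ Subgroup.normalizer (A : Set Ω)) : (∀ P : Subgroup Ω, F.Hom P = (Cfsg.innerFusionSystem S).Hom P) ↔ ∀ N : Cfsg.FusionSystem (Cfsg.FusionSystem.normalizerIn S (⨅ A ∈ 𝒜, A)), F.IsNormalizerSystem (⨅ A ∈ 𝒜, A) N → ∀ P : Subgroup Ω, N.Hom P = (Cfsg.innerFusionSystem (Cfsg.FusionSystem.normalizerIn S (⨅ A ∈ 𝒜,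 A))).Hom P := by
  open CfsgLib.Fusion in
  have h : AxFam F 𝒜 := ⟨fun A hA => (h𝒜 A hA).1, fun A hA => (h𝒜 A hA).2, hne, fun Q hQ hA α hα x hx h1 A hA1 hA2 => by
      have := hinv Q hQ hA α hα ⟨x, hx⟩ (by
        simp only [Subgroup.mem_iInf]
        exact fun B hB => h1 B hB.1 hB.2)
      simp only [Subgroup.mem_iInf] at this
      rw [extAut_apply α hx]
      exact this A ⟨hA1, hA2⟩,
    fun B hB h1 h2 => let ⟨A, a1, _, a3, a4⟩ := hrep B hB h1 h2; ⟨A, a1, a3, a4⟩⟩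
  rw [← sInf_eq_iInf, hom_eq_inner_iff hS hF, normSys_inner_iff hS hF h.sInf_le h.le_normalizer]
  exact ⟨fun h' => h'.sub (normSys_sub F _), fun h' => h.isNil hp hS hF h' (nLe_normSys F _)⟩

end Cfsg.Agent.S5272
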