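import Mathlib
import Cfsg.Statements.S5274
import Cfsg.Agent.Lib.Fusion.Agemo
import Cfsg.Agent.Lib.Fusion.Factor2

set_option autoImplicit false
open Cfsg

namespace Cfsg.Agent.S5274

open CfsgLib.Fusion Cfsg.FusionSystem



/-- Let F be a saturated fusion system over a finite 2-group S. Suppose that every element of S is F-conjugate to an element of the centre Z(S) (some map of F defined on the cyclic subgroup it generates sends it into Z(S)). Then S is abelian. -/
theorem result {Ω : Type*} [Group Ω] {S : Subgroup Ω} [Finite S] (hS : IsPGroup 2 ↥S) (F : Cfsg.FusionSystem S) (hF : F.IsSaturated 2) (h : ∀ x ∈ S, ∃ z ∈ S ⊓ Subgroup.centralizer (S : Set Ω), F.IsConjElt x z) : IsMulCommutative ↥S := by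
    suffices H : ∀ n, ∀ {Ω : Type _} [Group Ω] {S : Subgroup Ω} [Finite S], Nat.card S = n →
        IsPGroup 2 S → ∀ F : FusionSystem S, F.IsSaturated 2 →
        (∀ x ∈ S, ∃ z ∈ centralizerIn S S, F.IsConjElt x z) → ∀ x ∈ S, ∀ y ∈ S, x * y = y * x from
      CfsgLib.PGroup.isMulCommutative_iff.2 (H _ rfl hS F hF h)
    intro n
    induction n using Nat.strong_induction_on with
    | _ n ih =>
    intro Ω _ S _ hn hS F hF h
    classical
    obtain ⟨e, he⟩ := exists_pow_eq_one_of_isPGroup hS
    have hex : ∃ e, ∀ z ∈ centralizerIn S S, z ^ 2 ^ e = 1 := ⟨e, fun z hz => he z hz.1⟩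
    have hexp : ∀ x ∈ S, x ^ 2 ^ Nat.find hex = 1 := fun x hx => by
      obtain ⟨z, hz, hxz⟩ := h x hx
      obtain ⟨P, f, hf, hxP, rfl⟩ := isConjElt_iff.1 hxz
      exact hf.eq_one (P.pow_mem hxP _) (by rw [hf.hom.map_pow hxP, Nat.find_spec hex _ hz])
    rcases h0 : Nat.find hex with _ | m
    · intro x hx y hy
      rw [h0] at hexp
      simp [show x = 1 by simpa using hexp x hx]
    rw [h0] at hexp
    have hU : F.IsNormal (agZ 2 m S) := by
      have hA := agZ_le (p := 2) m S
      have hn : S ≤ FusionSystem.normalizerIn S (agZ 2 m S) :=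
        le_inf le_rfl ((le_centralizer_agZ m S).trans (Subgroup.centralizer_le_normalizer _))
      refine isNormal_of_sub_normSys hA (alperin_sub_ih hS hF (fun f hf => (mor_normSys hA).2
        (nMor_of hf hA le_rfl hn (hf.img_agZ hf.img_top m))) fun P hP ih α hα => ?_)
      have hPS := essential_le hP
      have hZ : centralizerIn S S ≤ P :=
        (centralizerIn_anti hPS).trans (centric_centralizerIn_le (essential_centric hP))
      obtain ⟨g, hg, hgn, hgP⟩ := exists_mem_normalizer_notMem hS (essential_lt hS hF hP)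
      obtain ⟨j, h1, h2⟩ := exists_pow_notMem_pow_mem (p := 2) hgP (k := m + 1) (by
        rw [hexp g hg]; exact P.one_mem)
      have htS := S.pow_mem hg (2 ^ j)
      have htn := Subgroup.pow_mem _ hgn (2 ^ j)
      generalize g ^ 2 ^ j = t at h1 h2 htS htn
      refine mor_of_fix_of_ih hS hF (essential_fullyNormalized hP) (agZ_le (p := 2) m P)
        (fun β hβ => ((mem_autGroup hPS).1 hβ).img_agZ (img_extAut β) m) ih
        (fun β hβ e => (mor_normSys hA).2 (nMor_of ((mem_autGroup hPS).1 hβ)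
          ((agZ_le_center m S).trans hZ) le_rfl (hPS.trans hn)
            ((img_congr fun x hx => e x (agZ_mono hPS hZ hx)).trans (img_id _))))
        ⟨htS, htn⟩ h1 (mem_centralizer_agZ fun v hv => ?_) hα
      have hv' := mem_centralizerIn'.1 hv
      have hw : t⁻¹ * v * t ∈ P := conj_inv_mem_of_mem_normalizer htn hv'.1
      have c1 : Commute (t⁻¹ * v * t) v := hv'.2 _ hw
      have c2 : Commute (t ^ 2) v := hv'.2 _ h2
      have c3 : Commute (t ^ 2) (t⁻¹ * v * t) := by
        have := c2.eq
        change _ = _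
        calc _ = t⁻¹ * (t ^ 2 * v) * t := by group
          _ = _ := by rw [this]; group
      have e1 := hexp _ (S.mul_mem htS (hPS hv'.1))
      have e2 := hexp _ htS
      have e3 := hexp _ (hPS hv'.1)
      rw [pow_succ', pow_mul] at e1 e2
      rw [show (t * v) ^ 2 = t ^ 2 * (t⁻¹ * v * t * v) by rw [pow_two, pow_two]; group,
        (c3.mul_right c2).mul_pow, e2, one_mul, c1.mul_pow] at e1
      rw [pow_succ, pow_mul, pow_two] at e3
      have e4 : (t⁻¹ * v * t) ^ 2 ^ m = v ^ 2 ^ m := mul_right_cancel (e1.trans e3.symm)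
      have e5 : (t⁻¹ * v * t) ^ 2 ^ m = t⁻¹ * v ^ 2 ^ m * t := by
        simpa using conj_pow (a := t⁻¹) (b := v) (i := 2 ^ m)
      calc _ = t * (t⁻¹ * v ^ 2 ^ m * t) := by rw [← e5, e4]
        _ = _ := by group
    have hUs := stronglyClosed_of_isNormal hU
    have hne : agZ 2 m S ≠ ⊥ := fun e => Nat.find_min hex (m := m) (by omega) fun z hz =>
      Subgroup.mem_bot.1 (e.le (Subgroup.subset_closure ⟨z, hz, rfl⟩))
    have := normal_subgroupOf_of_stronglyClosed hUs
    obtain ⟨E, hE⟩ := exists_isFactor_quotient hUs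
    have hcomm := ih _ (by
        rw [← hn, Subgroup.card_top, ← Subgroup.index_eq_card, ← Subgroup.index_mul_card
          ((agZ 2 m S).subgroupOf S), Nat.card_congr (Subgroup.subgroupOfEquivOfLe hUs.1).toEquiv]
        have := finite_of_le_S hUs.1
        exact lt_mul_of_one_lt_right (Nat.pos_of_ne_zero Subgroup.FiniteIndex.index_ne_zero)
          ((Subgroup.one_lt_card_iff_ne_bot _).2 hne)) rfl (hE.isPGroup hS) E (hE.saturated hS hF hUs)
      fun y hy => by
        obtain ⟨x, hx, rfl⟩ := hE.exists_eq hy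
        obtain ⟨z, hz, hxz⟩ := h x hx
        obtain ⟨P, f, hf, hxP, rfl⟩ := isConjElt_iff.1 hxz
        obtain ⟨f', hf', e⟩ := hE.ind hS hF hUs hf
        refine ⟨_, mem_centralizerIn'.2 ⟨trivial, fun w hw => ?_⟩,
          isConjElt_iff.2 ⟨_, f', hf', mem_img_of_mem _ hxP, e x hxP⟩⟩
        obtain ⟨u, hu, rfl⟩ := hE.exists_eq hw
        rw [← hE.hom.map_mul hu hz.1, ← hE.hom.map_mul hz.1 hu, (mem_centralizerIn'.1 hz).2 u hu]
    have hN : F.IsNormal S := by
      refine isNormal_of_chain hS hF (stronglyClosed_top F)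
        (fun i => if i = 0 then ⊥ else if i = 1 then agZ 2 m S else S) 2 (fun i hi => ?_) rfl rfl
        fun a ha i hi x hx => ?_
      · obtain rfl | rfl : i = 0 ∨ i = 1 := by omega
        exacts [stronglyClosed_bot F, hUs]
      · obtain rfl | rfl : i = 0 ∨ i = 1 := by omega
        · change _ = 1
          rw [(mem_centralizerIn'.1 (agZ_le_center m S hx)).2 a ha]; group
        · have hx' : x ∈ S := hx
          refine (hE.eq_iff hx' (S.mul_mem (S.mul_mem ha hx') (S.inv_mem ha))).1 ?_
          rw [hE.hom.map_conj ha hx', hcomm _ (hE.mem ha) _ (hE.mem hx')]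
          group
    intro x hx y hy
    obtain ⟨z, hz, hxz⟩ := h y hy
    obtain ⟨P, f, hf, hyP, rfl⟩ := isConjElt_iff.1 hxz
    obtain ⟨g, hg, -, e⟩ := hf.exists_ext_of_le_normal hN hf.le
    refine hg.inj (S.mul_mem hx hy) (S.mul_mem hy hx) ?_
    rw [hg.map_mul hx hy, hg.map_mul hy hx, e y hyP, (mem_centralizerIn'.1 hz).2 _ (hg.mem hx)]

end Cfsg.Agent.S5274
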