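import Mathlib
import Cfsg.Statements.S5276
import Cfsg.Agent.Lib.Fusion.TrApps

set_option autoImplicit false
open Cfsg

namespace Cfsg.Agent.S5276


/-- Let p be a prime and F a saturated fusion system over a finite p-group S. Then F is the inner fusion system of S if and only if the normalizer fusion system of S itself in F is the inner fusion system (equivalently, Aut_F(S) is induced by S) and the Frattini subgroup Φ(S) is strongly closed in F. -/
theorem result {Ω : Type*} [Group Ω] {S : Subgroup Ω} [Finite S] (p : ℕ) [Fact p.Prime] (hS : IsPGroup p ↥S) (F : Cfsg.FusionSystem S) (hF : F.IsSaturated p) : (∀ P : Subgroup Ω, F.Hom P = (Cfsg.innerFusionSystem S).Hom P) ↔ (∀ N : Cfsg.FusionSystem (Cfsg.FusionSystem.normalizerIn S S), F.IsNormalizerSystem S N → ∀ P : Subgroup Ω, N.Hom P = (Cfsg.innerFusionSystem (Cfsg.FusionSystem.normalizerIn S S)).Hom P) ∧ F.StronglyClosed ((frattini ↥S).map S.subtype) := by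
  open CfsgLib.Fusion in
  rw [hom_eq_inner_iff hS hF, normSys_inner_iff hS hF le_rfl Subgroup.le_normalizer]
  constructor
  · intro h
    refine ⟨h.sub (normSys_sub F _), ?_⟩
    rw [h.eq_inner hS hF]
    exact stronglyClosed_of_isNormal (isNormal_innerFS (Subgroup.map_subtype_le _)
      (CfsgLib.LAE.le_normalizer_map_subtype _))
  · rintro ⟨h1, h2⟩
    refine isNil_of_focal_le_frattini hS hF (focal_le_of_commutator_le hS hF ?_ h2 ?_)
    · rw [← autGroup_normSys F le_rfl]
      exact h1 S
    · rw [← Subgroup.map_subtype_commutator]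
      exact Subgroup.map_mono (CfsgLib.Core.commutator_le_frattini_of_isPGroup hS)

end Cfsg.Agent.S5276
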