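import Mathlib
import Cfsg.Statements.S5287
import Cfsg.Agent.Lib.Fusion.MaxClassReal

set_option autoImplicit false
open Cfsg

namespace Cfsg.Agent.S5287

open CfsgLib CfsgLib.Fusion Cfsg.FusionSystem

/-- Let S be a finite metacyclic p-group (an extension of a cyclic group by a cyclic group). Every saturated fusion system over S is supersoluble (S has a chain of F-strongly closed subgroups from 1 to S with cyclic steps) if and only if S is not homocyclic of rank two (isomorphic to Z/p^n × Z/p^n with n ≥ 1) and, when p = 2, S is not dihedral of order at least 4, not quasi-dihedral (semidihedral) and not generalized quaternion of order at least 8. -/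
theorem result {Ω : Type*} [Group Ω] {S : Subgroup Ω} [Finite S] (p : ℕ) [Fact p.Prime] (hS : IsPGroup p ↥S) (hm : Cfsg.IsMetacyclic ↥S) : (∀ F : Cfsg.FusionSystem S, F.IsSaturated p → (∃ (m : ℕ) (c : Fin (m + 1) → Subgroup Ω), c 0 = ⊥ ∧ c (Fin.last m) = S ∧ (∀ i : Fin (m + 1), F.StronglyClosed (c i)) ∧ ∀ i : Fin m, c i.castSucc ≤ c i.succ ∧ ∃ x ∈ S, c i.succ = c i.castSucc ⊔ Subgroup.zpowers x)) ↔ ¬ ((∃ n : ℕ, 0 < n ∧ Nonempty (↥S ≃* Multiplicative (ZMod (p ^ n)) × Multiplicative (ZMod (p ^ n)))) ∨ (p = 2 ∧ ((∃ n : ℕ, 2 ≤ n ∧ Nonempty (↥S ≃* DihedralGroup n)) ∨ Cfsg.IsQuasiDihedral ↥S ∨ (∃ n : ℕ, 2 ≤ n ∧ Nonempty (↥S ≃* QuaternionGroup n))))) := by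
  refine ⟨fun h => ?_, fun h => (supersol_type_iff hS).2 ⟨fun F hF => ?_, ?_⟩⟩
  · rintro (⟨n, hn, ⟨e⟩⟩ | ⟨rfl, h2⟩)
    · exact not_autDiag_of_equiv hn (K := Unit) (e.trans MulEquiv.prodUnique.symm)
        ((supersol_type_iff hS).1 h).2
    · obtain ⟨F, hF, hn⟩ := (sylNotNil_of_maxClass hS h2).exists_not_isNil
      exact hn (Supersol.isNil (h F hF) hS)
  · by_cases h2 : p = 2
    · subst h2
      have h1 : ∀ k, 2 ≤ 2 ^ (k + 1) := fun k => Nat.le_self_pow k.succ_ne_zero 2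
      exact isNormal_of_isMetacyclic_two hS hF (stronglyClosed_top F) hm
        (fun ⟨k, e⟩ => h (Or.inr ⟨rfl, Or.inl ⟨_, h1 _, e⟩⟩))
        (fun ⟨k, e⟩ => h (Or.inr ⟨rfl, Or.inr (Or.inr ⟨_, h1 _, e⟩)⟩))
        fun e => h (Or.inr ⟨rfl, Or.inr (Or.inl e)⟩)
    · exact isNormal_of_isMetacyclic_odd hS hF (stronglyClosed_top F) h2 hm
  · rcases autDiag_of_isMetacyclic hS hm with h1 | ⟨h1, e⟩ | h1
    · exact absurd (Or.inl h1) h
    · exact absurd (Or.inr ⟨h1, Or.inr (Or.inr ⟨2, le_rfl, e⟩)⟩) h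
    · exact h1

end Cfsg.Agent.S5287
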