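import Mathlib
import Cfsg.Statements.S5290
import Cfsg.Agent.Lib.Fusion.Frattini

set_option autoImplicit false
open Cfsg

namespace Cfsg.Agent.S5290

open CfsgLib.Fusion Cfsg.FusionSystem



/-- Let F be a saturated fusion system over a finite p-group S and Q a subgroup of S. Then Q is normal in F (F = N_F(Q)) if and only if the inner fusion system of Q, consisting of the conjugations by elements of Q on subgroups of Q, is a weakly normal subsystem of F (both saturated, Q strongly closed, invariant under F-conjugation, with the Frattini property). -/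
theorem result {Ω : Type*} [Group Ω] {S : Subgroup Ω} [Finite S] (p : ℕ) [Fact p.Prime] (hS : IsPGroup p S)
    (F : Cfsg.FusionSystem S) (hF : F.IsSaturated p)
    (Q : Subgroup Ω) (hQ : Q ≤ S) :
    F.IsNormal Q ↔ (Cfsg.innerFusionSystem Q).IsWeaklyNormalIn F p := by
  have := finite_of_le_S hQ
  exact ⟨fun h => ⟨inner_saturated (hS.to_le hQ), hF, inner_isInvariantIn h⟩, fun h => isNormal_of_inner_isInvariantIn hS hF h.2.2⟩

end Cfsg.Agent.S5290
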