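import Mathlib
import Cfsg.Statements.S5291
import Cfsg.Agent.Lib.Fusion.Frattini

set_option autoImplicit false
open Cfsg

namespace Cfsg.Agent.S5291

open CfsgLib.Fusion Cfsg.FusionSystem



/-- Let F be a saturated fusion system over a finite p-group S and E a weakly normal subsystem of F over a subgroup T. Suppose a subgroup R of T is normal in E (E = N_E(R)), and let R* be the subgroup of T generated by the images of R under all maps of F with source R. Then R* is normal in F (F = N_F(R*)). -/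
theorem result {Ω : Type*} [Group Ω] {S : Subgroup Ω} [Finite S] (p : ℕ) [Fact p.Prime] (hS : IsPGroup p S)
    (F : Cfsg.FusionSystem S) (hF : F.IsSaturated p)
    {T : Subgroup Ω} (E : Cfsg.FusionSystem T) (hE : E.IsWeaklyNormalIn F p)
    (R : Subgroup Ω) (hR : E.IsNormal R) :
    F.IsNormal (Subgroup.closure {x : Ω | ∃ φ ∈ F.Hom R, ∃ r : R, x = φ r}) := by
  have h := hE.2.2
  have hTS := (inv_stronglyClosed h).1
  have := finite_of_le_S hTS
  have key : Subgroup.closure {x : Ω | ∃ φ ∈ F.Hom R, ∃ r : R, x = φ r} =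
      sSup {X | E.IsNormal X ∧ X ≤ Subgroup.closure {x : Ω | ∃ φ ∈ F.Hom R, ∃ r : R, x = φ r}} := by
    refine le_antisymm ((Subgroup.closure_le _).2 ?_) (sSup_le fun X hX => hX.2)
    rintro _ ⟨φ, hφ, r, rfl⟩
    obtain ⟨a, f₀, ha, haT, hf₀, e⟩ := inv_frattini h hR.1 (mor_of_mem hφ)
    have h1 : img R a ≤ Subgroup.closure {x : Ω | ∃ φ ∈ F.Hom R, ∃ r : R, x = φ r} :=
      img_le_iff.2 fun x hx => Subgroup.subset_closure ⟨_, (ha.mono hR.1).toHom_mem, ⟨x, hx⟩, rfl⟩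
    refine le_sSup (s := {X | E.IsNormal X ∧ X ≤ Subgroup.closure {x : Ω | ∃ φ ∈ F.Hom R, ∃ r : R, x = φ r}}) ⟨isNormal_img_of_invariant h hR ha haT, h1⟩ ?_
    rw [coe_eq_extFun φ, e r r.2]
    exact mem_img_of_mem a (hf₀.mem_of_stronglyClosed (stronglyClosed_of_isNormal hR) r.2 r.2)
  have hn : E.IsNormal (Subgroup.closure {x : Ω | ∃ φ ∈ F.Hom R, ∃ r : R, x = φ r}) := by
    rw [key]
    exact (sSup_mem_of_sup_closed (S := T) (X := {X | E.IsNormal X ∧ X ≤ Subgroup.closure {x : Ω | ∃ φ ∈ F.Hom R, ∃ r : R, x = φ r}}) (fun Q hQ => hQ.1.1) ⟨isNormal_bot E, bot_le⟩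
      fun Q hQ Q' hQ' => ⟨isNormal_sup hQ.1 hQ'.1, sup_le hQ.2 hQ'.2⟩).1
  refine isNormal_of_invariant_sub hS hF h hn fun a ha haT => ?_
  have := finite_of_le_S hn.1
  refine (ha.mono hn.1).img_eq_self ((ha.mono hn.1).hom.mem_of_closure ?_)
  rintro _ ⟨φ, hφ, r, rfl⟩
  have hm : ∀ x ∈ R, extFun φ x ∈ T := fun x hx => (mor_of_mem hφ).mem_of_stronglyClosed (inv_stronglyClosed h) hx (hR.1 hx)
  exact Subgroup.subset_closure ⟨_, ((mor_of_mem hφ).comp ha hm).toHom_mem, r, by rw [IsHomOn.toHom_apply, coe_eq_extFun φ]; rfl⟩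

end Cfsg.Agent.S5291
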