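import Mathlib
import Cfsg.Statements.S5292
import Cfsg.Agent.Lib.Fusion.GroupFactor
import Cfsg.Agent.Lib.Fusion.Model
import Cfsg.Agent.Lib.PLocal.PSolvable

set_option autoImplicit false
universe u
open Cfsg

namespace Cfsg.Agent.S5292

section Aux

open CfsgLib.Fusion Cfsg.FusionSystem
open scoped commutatorElement

theorem psolv_iff {Ω : Type*} [Group Ω] {S : Subgroup Ω} [Finite S] {p : ℕ} [Fact p.Prime] (hS : IsPGroup p S)
    {F : FusionSystem S} {G : Type*} [Group G] {ι : S →* G} (hG : F.IsModel p G ι) :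
    IsPSolvable p G ↔ IsPSolvable p (F.autGroup F.core) := by
  have := hG.1
  have hn := isNormal_core F
  obtain ⟨ρ, hρ, -⟩ := realized_modelExt hG.2.1 hn.1 (le_normalizer_of_isNormal hn) (isModel_normal_img hG hn)
    (isModel_centralizer_le hG hn (centric_core_of_constrained (isModel_constrained hG)))
  refine ⟨fun h => CfsgLib.PLocal.PSolv.of_surjective h ρ hρ.surj, fun h =>
    CfsgLib.PLocal.PSolv.of_ker_of_range ρ (CfsgLib.PLocal.PSolv.of_isPGroup ?_)
      (CfsgLib.PLocal.PSolv.subgroup h _)⟩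
  refine (isModel_sylIn hG).isPGroup.to_le fun g hg => ?_
  obtain ⟨z, -, rfl⟩ := hρ.ker g hg
  exact ⟨z, rfl⟩

theorem exists_model_of_psolv {Ω : Type*} [Group Ω] {S : Subgroup Ω} {p : ℕ} [Fact p.Prime]
    {F : FusionSystem S} {G : Type*} [Group G] [Finite G] {ι : S →* G} (hG : IsPSolvable p G)
    (hι : F.IsRealizedBy ι) (hT : SylIn p ι.range ⊤) :
    F.IsModel p (G ⧸ pPrimeCore p G) ((QuotientGroup.mk' _).comp ι) := by
  obtain ⟨h1, h2⟩ := realized_comp hι hT (QuotientGroup.mk' (pPrimeCore p G)) (QuotientGroup.mk'_surjective _) (by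
    rw [QuotientGroup.ker_mk']
    exact (CfsgLib.PLocal.PSolv.disjoint_of_isPGroup_of_coprime hT.isPGroup
      CfsgLib.PLocal.PSolv.coprime_card_pPrimeCore).eq_bot)
  exact ⟨inferInstance, h1, h2.exists_sylow, CfsgLib.PLocal.PSolv.centralizer_pCore_le
    (CfsgLib.PLocal.PSolv.quotient hG _) CfsgLib.PLocal.PSolv.pPrimeCore_quotient⟩

end Aux

/-- Let F be a saturated fusion system over a finite p-group S. Then F is the fusion system of some finite p-solvable group on a Sylow p-subgroup if and only if F is constrained (some subgroup normal in F is centric in F) and the group of automorphisms that F induces on its largest normal subgroup O_p(F) is p-solvable. -/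
theorem result {Ω : Type u} [Group Ω] {S : Subgroup Ω} [Finite S] (p : ℕ) [Fact p.Prime] (hS : IsPGroup p S)
    (F : Cfsg.FusionSystem S) (hF : F.IsSaturated p) :
    (∃ (G : Type u) (_ : Group G) (_ : Finite G) (ι : S →* G), Cfsg.IsPSolvable p G ∧ F.IsRealizedBy ι ∧
        ∃ T : Sylow p G, (T : Subgroup G) = ι.range) ↔
      (F.IsConstrained p ∧ Cfsg.IsPSolvable p ↥(F.autGroup F.core)) := by
  constructor
  · rintro ⟨G, _, _, ι, hG, hι, hT⟩
    have h := exists_model_of_psolv hG hι (CfsgLib.Fusion.sylIn_top_iff.2 hT)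
    exact ⟨CfsgLib.Fusion.isModel_constrained h, (psolv_iff hS h).1 (CfsgLib.PLocal.PSolv.quotient hG _)⟩
  · rintro ⟨h1, h2⟩
    obtain ⟨G, _, ι, hG⟩ := CfsgLib.Fusion.exists_model hS h1
    exact ⟨G, inferInstance, hG.1, ι, (psolv_iff hS hG).2 h2, hG.2.1, hG.2.2.1⟩

end Cfsg.Agent.S5292
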