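import Mathlib
import Cfsg.Statements.S5294
import Cfsg.Agent.Lib.Fusion.SubNormal

set_option autoImplicit false
universe u
open Cfsg

namespace Cfsg.Agent.S5294

section Aux

open CfsgLib.Fusion Cfsg.FusionSystem
open scoped commutatorElement

theorem exists_trace {A V : Type*} [Group A] [Finite A] [CommGroup V] (r : A →* MulAut V) (U : Subgroup A) :
    ∃ tr : V →* V, (∀ x, (∀ u ∈ U, r u x = x) → ∀ a, r a (tr x) = tr x) ∧
      ∀ x, (∀ a, r a x = x) → tr x = x ^ U.index := by
  classical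
  have := Fintype.ofFinite (A ⧸ U)
  refine ⟨MonoidHom.mk' (fun x => ∏ c : A ⧸ U, r c.out x) (fun x y => by simp [Finset.prod_mul_distrib]),
    fun x hx a => ?_, fun x hx => ?_⟩
  · simp only [MonoidHom.mk'_apply, map_prod]
    refine Fintype.prod_equiv (MulAction.toPerm a) _ _ fun c => ?_
    obtain ⟨u, hu⟩ := QuotientGroup.mk_out_eq_mul U (a * c.out)
    have : (MulAction.toPerm a c : A ⧸ U) = ((a * c.out : A) : A ⧸ U) := by
      conv_lhs => rw [← c.out_eq]
      rfl
    rw [this, hu, map_mul, map_mul, MulAut.mul_apply, MulAut.mul_apply, hx u u.2]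
  · simp [hx, Subgroup.index_eq_card]

open scoped IsMulCommutative in
theorem aux {Ω : Type*} [Group Ω] {S : Subgroup Ω} [Finite S] (p : ℕ) [Fact p.Prime] (hS : IsPGroup p S)
    (F : FusionSystem S) (hF : F.IsSaturated p) {Q : Subgroup Ω} (hQ : F.IsNormal Q)
    (hZ : (S ⊓ Subgroup.centralizer (S : Set Ω)) ≤ Q) :
    ∃ K : Subgroup Ω, K ≤ (S ⊓ Subgroup.centralizer (S : Set Ω)) ∧ F.center ⊓ K = ⊥ ∧
      F.center ⊔ K = (S ⊓ Subgroup.centralizer (S : Set Ω)) := by
  have := finite_autGroup F Q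
  have := finite_of_le hQ.1
  have hsyl := sat_sylIn hS hF (fullyNormalized_of_le_normalizer hQ.1 (le_normalizer_of_isNormal hQ))
  obtain ⟨tr, h1, h2⟩ := exists_trace
    ((MulAut.characteristic (Subgroup.center Q)).comp (F.autGroup Q).subtype)
    ((autInducedBy S Q).subgroupOf (F.autGroup Q))
  set m := ((autInducedBy S Q).subgroupOf (F.autGroup Q)).index with hm
  have hmp : ¬ p ∣ m := hsyl.not_dvd_relIndex
  let j : Subgroup.center Q →* Ω := Q.subtype.comp (Subgroup.center Q).subtype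
  have hj : Function.Injective j := Q.subtype_injective.comp (Subgroup.center Q).subtype_injective
  have ej : ∀ (a : F.autGroup Q) (x : Subgroup.center Q),
      j (((MulAut.characteristic (Subgroup.center Q)).comp (F.autGroup Q).subtype) a x) =
        extAut (a : MulAut Q) (j x) := fun a x => coe_eq_extAut (a : MulAut Q) x
  have hZF : F.center ≤ S ⊓ Subgroup.centralizer (S : Set Ω) := le_inf (center_le F) F.center_le_centralizer
  have hlift : ∀ x ∈ S ⊓ Subgroup.centralizer (S : Set Ω), ∃ y, j y = x := fun x hx =>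
    ⟨⟨⟨x, hZ hx⟩, Subgroup.mem_center_iff.2 fun g => Subtype.ext (hx.2 g (hQ.1 g.2))⟩, rfl⟩
  have hfix : ∀ y, j y ∈ F.center ↔ ∀ a : F.autGroup Q,
      ((MulAut.characteristic (Subgroup.center Q)).comp (F.autGroup Q).subtype) a y = y := fun y => by
    constructor
    · intro hy a
      refine hj ?_
      rw [ej]
      exact ((mem_autGroup hQ.1).1 a.2).eq_of_isCentral (isCentral_center F) y.1.2 hy
    · intro hy
      refine le_center (isCentral_of_fixed hS hF (Q := Subgroup.zpowers (j y))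
        (Subgroup.zpowers_le_of_mem (hQ.1 y.1.2)) fun P f hf x hx hx' => ?_) (Subgroup.mem_zpowers _)
      obtain ⟨g, hg, e, eQ⟩ := hf.extend_normal hQ
      obtain ⟨α, hα, eα⟩ := (hg.mono le_sup_right).exists_aut eQ
      obtain ⟨n, rfl⟩ := Subgroup.mem_zpowers_iff.1 hx'
      have h3 : g (j y) = j y := by
        rw [← eα (j y) y.1.2, ← ej ⟨α, hα⟩, hy]
      rw [← e _ hx, hg.hom.map_zpow (x := j y) (Subgroup.mem_sup_right y.1.2), h3]
  have hpow : Function.Bijective (fun y : F.center => y ^ m) := by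
    have := finite_of_le (center_le F)
    have hc : (Nat.card F.center).Coprime m := by
      obtain ⟨k, hk⟩ := (IsPGroup.iff_card).1 (hS.to_le (center_le F))
      rw [hk]
      exact Nat.Coprime.pow_left _ ((Nat.Prime.coprime_iff_not_dvd Fact.out).2 hmp)
    exact (powCoprime hc).bijective
  refine ⟨(S ⊓ Subgroup.centralizer (S : Set Ω)) ⊓ tr.ker.map j, inf_le_left, ?_, ?_⟩
  · rw [eq_bot_iff]
    rintro _ ⟨hx, -, y, hy, rfl⟩
    have h3 : y ^ m = 1 := by rw [← h2 y ((hfix y).1 hx)]; exact hy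
    have h4 : (⟨j y, hx⟩ : F.center) = 1 := hpow.1 (Subtype.ext (by simp [← map_pow, h3]))
    exact congrArg Subtype.val h4
  · refine le_antisymm (sup_le hZF inf_le_left) fun x hx => ?_
    obtain ⟨y, rfl⟩ := hlift x hx
    have h3 : j (tr y) ∈ F.center := (hfix _).2 (h1 y fun u hu => hj (by
      obtain ⟨s, hs, e⟩ := mem_autInducedBy.1 (Subgroup.mem_subgroupOf.1 hu)
      rw [ej, e (j y) y.1.2, hx.2 s hs]
      simp))
    obtain ⟨z, hz⟩ := hpow.2 ⟨_, h3⟩
    obtain ⟨w, hw⟩ := hlift z (hZF z.2)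
    have h4 : tr w = tr y := by
      rw [h2 w ((hfix w).1 (hw ▸ z.2))]
      refine hj ?_
      rw [map_pow, hw]
      exact congrArg Subtype.val hz
    have h5 : j y = z * j (w⁻¹ * y) := by rw [map_mul, map_inv, hw]; simp
    rw [h5]
    refine Subgroup.mul_mem_sup z.2 ⟨?_, w⁻¹ * y, ?_, rfl⟩
    · rw [map_mul, map_inv, hw]
      exact Subgroup.mul_mem _ (Subgroup.inv_mem _ (hZF z.2)) hx
    · rw [SetLike.mem_coe, MonoidHom.mem_ker, map_mul, map_inv, h4, inv_mul_cancel]

end Aux

/-- Let F be a saturated fusion system over a finite p-group S whose centre Z(S) lies in the largest subgroup O_p(F) normal in F. Then the centre Z(F) of F is a direct factor of Z(S): there is a subgroup K of Z(S) with Z(F) ∩ K = 1 and Z(F)K = Z(S). -/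
theorem result {Ω : Type u} [Group Ω] {S : Subgroup Ω} [Finite S] (p : ℕ) [Fact p.Prime] (hS : IsPGroup p S)
    (F : Cfsg.FusionSystem S) (hF : F.IsSaturated p) (hZ : (S ⊓ Subgroup.centralizer (S : Set Ω)) ≤ F.core) :
    ∃ K : Subgroup Ω, K ≤ (S ⊓ Subgroup.centralizer (S : Set Ω)) ∧ F.center ⊓ K = ⊥ ∧ F.center ⊔ K = (S ⊓ Subgroup.centralizer (S : Set Ω)) := by
  exact aux p hS F hF (CfsgLib.Fusion.isNormal_core F) hZ

end Cfsg.Agent.S5294
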