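import Mathlib
import Cfsg.Statements.S5295
import Cfsg.Agent.Lib.Fusion.Agemo
import Cfsg.Agent.S5294

set_option autoImplicit false
universe u
open Cfsg

namespace Cfsg.Agent.S5295


/-- Let F be a saturated fusion system over a finite p-group S with p odd. Then the centre Z(F) of F is a direct factor of Z(S): there is a subgroup K of Z(S) with Z(F) ∩ K = 1 and Z(F)K = Z(S). (At the prime 2 this can fail.) -/
theorem result {Ω : Type u} [Group Ω] {S : Subgroup Ω} [Finite S] (p : ℕ) [Fact p.Prime] (hp : p ≠ 2) (hS : IsPGroup p S)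
    (F : Cfsg.FusionSystem S) (hF : F.IsSaturated p) :
    ∃ K : Subgroup Ω, K ≤ (S ⊓ Subgroup.centralizer (S : Set Ω)) ∧ F.center ⊓ K = ⊥ ∧ F.center ⊔ K = (S ⊓ Subgroup.centralizer (S : Set Ω)) := by
  open CfsgLib.Fusion in
  have hW := fFunctor_thompsonA (p := p)
  have hn : FusionSystem.normalizerIn S (thompsonSubgroupAOf S) = S :=
    inf_eq_left.2 (Subgroup.le_normalizer.trans (hW.le_normalizer hS))
  have hs := normSys_saturated hS hF (fullyNormalized_of_le_normalizer (hW.le S) (hn.ge.trans inf_le_right))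
  have := finite_normalizerIn S (thompsonSubgroupAOf S)
  have hJ : S ⊓ Subgroup.centralizer (S : Set Ω) ≤ thompsonSubgroupAOf S := fun x hx =>
    ⟨⟨x, hx.1⟩, by
      have := center_le_thompsonA (⊤ : Subgroup S) (x := ⟨x, hx.1⟩) ⟨trivial, fun y _ => Subtype.ext (hx.2 y y.2)⟩
      rwa [CfsgLib.ZJ.thompsonSubgroupAOf_eq, CfsgLib.PLocal.thompsonSubgroupOf_top,
        ← CfsgLib.ZJ.thompsonSubgroupA_eq] at this, rfl⟩
  obtain ⟨K, h⟩ := Cfsg.Agent.S5294.result p (hS.to_le hn.le) _ hs
    (((inf_le_inf hn.le (Subgroup.centralizer_le hn.ge)).trans hJ).trans (le_core (isNormal_normSys F (hW.le S))))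
  rw [le_antisymm (center_normSys_thompsonA_le hS hF (.inl hp)) (center_le_center_sub hS hs (normSys_sub F _)
    ((center_le F).trans hn.ge)), hn] at h
  exact ⟨K, h⟩

end Cfsg.Agent.S5295
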