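import Mathlib
import Cfsg.Statements.S5298
import Cfsg.Agent.Lib.Fusion.Small

set_option autoImplicit false
universe u
open Cfsg

namespace Cfsg.Agent.S5298

open CfsgLib.Fusion Cfsg.FusionSystem



/-- Let F be a saturated fusion system over a finite p-group S. If every map of F between cyclic subgroups of the hyperfocal subgroup of F of order p or 4 is conjugation by an element of S, then F is the inner fusion system of S. -/
theorem result {Ω : Type u} [Group Ω] {S : Subgroup Ω} [Finite S] (p : ℕ) [Fact p.Prime] (hS : IsPGroup p S)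
    (F : Cfsg.FusionSystem S) (hF : F.IsSaturated p)
    (h : ∀ A B : Subgroup Ω, A ≤ (F.hyperfocalSubgroup p) → B ≤ (F.hyperfocalSubgroup p) → IsCyclic ↥A → (Nat.card ↥A = p ∨ Nat.card ↥A = 4) → IsCyclic ↥B → (Nat.card ↥B = p ∨ Nat.card ↥B = 4) →
      F.homSet A B ⊆ (Cfsg.innerFusionSystem S).Hom A) :
    ∀ P : Subgroup Ω, F.Hom P = (Cfsg.innerFusionSystem S).Hom P := by
    suffices H : F = innerFusionSystem S from fun P => congrArg (fun E : FusionSystem S => E.Hom P) H
    refine eq_inner_of_isPGroup hS hF fun P hP => ?_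
    have hPS : P ≤ S := hP.elim le_of_eq essential_le
    have := finite_of_le_S hPS
    have := finite_autGroup F P
    obtain ⟨D, h1, h2, h3, h4⟩ := exists_detect_fus hS hF hPS
    obtain ⟨n, hn⟩ := exists_ucs_eq hS
    refine isPGroup_of_coprime_eq_one fun α hα hc => h4 α hα hc fun x hx => ?_
    suffices H : ∀ i, ∀ x ∈ D, x ∈ ucs S i → extAut α x = x from H n x hx (hn.ge (hPS (h1 hx).1))
    intro i
    induction i with
    | zero => intro x _ h; rw [ucs_zero, Subgroup.mem_bot] at h; rw [h, (isHomOn_extAut α).map_one]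
    | succ i ih =>
      intro x hx hi
      by_cases hx1 : x = 1
      · rw [hx1, (isHomOn_extAut α).map_one]
      have hf := ((mem_autGroup hPS).1 hα).mono (Subgroup.zpowers_le.2 (h1 hx).1)
      obtain ⟨-, s, hs, e⟩ := mor_inner_iff.1 ((mem_hom_iff_of_eq (f := extAut α) fun _ => rfl).1
        (mor_of_cyclic_small hS hF (X := fun A => (innerFusionSystem S).Hom A) h (h1 hx).2
          (h2 x hx) hx1 hf))
      refine fix_of_coprime_of_step (hS.to_le hPS) hc (h1 hx).1
        (ih _ (D.mul_mem (D.inv_mem hx) (h3 α hα x hx)) ?_)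
      rw [e x (Subgroup.mem_zpowers x)]
      exact ucs_step hi hs

end Cfsg.Agent.S5298
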