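import Mathlib
import Cfsg.Statements.S5300
import Cfsg.Agent.Lib.Fusion.Small

set_option autoImplicit false
universe u
open Cfsg

namespace Cfsg.Agent.S5300

open CfsgLib.Fusion Cfsg.FusionSystem



/-- Let F be a saturated fusion system over a finite p-group S. If every cyclic subgroup of the focal subgroup of F of order p (of order 2 or 4 when p = 2) is normal in S, then S is normal in F. -/
theorem result {Ω : Type u} [Group Ω] {S : Subgroup Ω} [Finite S] (p : ℕ) [Fact p.Prime] (hS : IsPGroup p S)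
    (F : Cfsg.FusionSystem S) (hF : F.IsSaturated p)
    (hnorm : ∀ x ∈ F.focalSubgroup, (x ^ p = 1 ∨ (p = 2 ∧ x ^ 4 = 1)) → ∀ s ∈ S, s * x * s⁻¹ ∈ Subgroup.zpowers x) :
    F.IsNormal S := by
    refine isNormal_top_of_small_chain hS hF fun P D hP hD he hinv => ?_
    have hDf : ∀ x ∈ D, x ∈ F.focalSubgroup := fun x hx => hyperfocal_le_focal F p (hD hx).2
    have hc : ∀ x ∈ D, x ^ p = 1 → ∀ s ∈ S, s * x = x * s := fun x hx hxp s hs => by
      have hxS := hP (hD hx).1
      by_cases h1 : x = 1
      · simp [h1]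
      have hn : (Subgroup.zpowers (⟨x, hxS⟩ : S)).Normal := ⟨fun y hy g => by
        obtain ⟨k, rfl⟩ := hy
        obtain ⟨l, hl⟩ := hnorm x (hDf x hx) (Or.inl hxp) g g.2
        refine ⟨l * k, Subtype.ext ?_⟩
        simp only at hl
        simp only [zpow_mul, Subgroup.coe_zpow, Subgroup.coe_mul, Subgroup.coe_inv, hl, conj_zpow]⟩
      have := CfsgLib.PGroup.le_center_of_card_eq_prime hS (Subgroup.zpowers (⟨x, hxS⟩ : S)) (by
        rw [Nat.card_zpowers]
        exact orderOf_eq_prime (Subtype.ext hxp) fun e => h1 (congrArg Subtype.val e))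
        (Subgroup.mem_zpowers _)
      exact congrArg Subtype.val (Subgroup.mem_center_iff.1 this ⟨s, hs⟩)
    let D₁ : Subgroup Ω :=
      { carrier := {x | x ∈ D ∧ x ^ p = 1}
        one_mem' := ⟨D.one_mem, one_pow _⟩
        inv_mem' := fun h => ⟨D.inv_mem h.1, by rw [inv_pow, h.2, inv_one]⟩
        mul_mem' := fun {x y} hx hy => ⟨D.mul_mem hx.1 hy.1, by
          rw [(show Commute x y from hc y hy.1 hy.2 x (hP (hD hx.1).1)).mul_pow, hx.2, hy.2, mul_one]⟩ }
    refine ⟨fun i => if i = 0 then ⊥ else if i = 1 then D₁ else D, 2, fun α hα i x hx h => ?_,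
      fun x _ h => h, le_rfl, fun a ha i hi x hx h => ?_⟩
    · beta_reduce at h ⊢
      split_ifs at h ⊢
      · rw [Subgroup.mem_bot.1 h]; exact (isHomOn_extAut α).map_one
      · exact ⟨hinv α hα x hx, by
          rw [← (isHomOn_extAut α).map_pow (hD hx).1, h.2, (isHomOn_extAut α).map_one]⟩
      · exact hinv α hα x hx
    · obtain rfl | rfl : i = 0 ∨ i = 1 := by omega
      · change _ = 1
        rw [hc x hx h.2 a ha]; group
      · by_cases hxp : x ^ p = 1
        · rw [hc x hx hxp a ha]
          simpa using D₁.one_mem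
        · have hp : p = 2 := by_contra fun hp => hxp (qexp_of_ne hp ▸ he x hx)
          subst hp
          have h4 : x ^ 4 = 1 := he x hx
          obtain ⟨l, hl⟩ := hnorm x (hDf x hx) (Or.inr ⟨rfl, h4⟩) a ha
          simp only at hl
          have h2 := hc _ (D.pow_mem hx 2) (by rw [← pow_mul]; exact h4) a ha
          rw [← hl]
          refine ⟨D.mul_mem (D.inv_mem hx) (D.zpow_mem hx l), ?_⟩
          rw [((Commute.refl x).zpow_right l).inv_left.mul_pow, hl, conj_pow, h2]
          group

end Cfsg.Agent.S5300
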