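import Mathlib
import Cfsg.Statements.S5301
import Cfsg.Agent.Lib.Fusion.Normal

set_option autoImplicit false
universe u
open Cfsg

namespace Cfsg.Agent.S5301

open CfsgLib.Fusion Cfsg.FusionSystem



/-- Let F be a saturated fusion system over a finite p-group S. If for every subgroup P of S that is fully normalized, centric and radical in F the automorphism group that F induces on P has a normal Sylow p-subgroup, then S is normal in F. -/
theorem result {Ω : Type u} [Group Ω] {S : Subgroup Ω} [Finite S] (p : ℕ) [Fact p.Prime] (hS : IsPGroup p S)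
    (F : Cfsg.FusionSystem S) (hF : F.IsSaturated p)
    (hcl : ∀ P : Subgroup Ω, F.IsFullyNormalized P → F.IsCentric P → F.IsRadical p P →
      ∃ R : Sylow p ↥(F.autGroup P), (R : Subgroup ↥(F.autGroup P)).Normal) :
    F.IsNormal S := by
  refine isNormal_top_of_no_essential hS hF fun P hP => ?_
  have hc := essential_centric hP
  have hr := essential_radical hS hP
  obtain ⟨R, hR⟩ := hcl P (essential_fullyNormalized hP) hc hr
  obtain ⟨a, haS, haN, haP⟩ := exists_mem_normalizer_notMem hS (essential_lt hS hF hP)
  have := finite_autGroup F P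
  refine haP (mem_of_conjAut_mem_pCore (centric_centralizerIn_le hc) hr haS haN ?_)
  have hm := conjAut_mem_autInducedBy haN haS
  have h1 : IsPGroup p ((autInducedBy S P).subgroupOf (F.autGroup P)) :=
    (isPGroup_autInducedBy hS P).of_equiv (Subgroup.subgroupOfEquivOfLe (autInducedBy_le_autGroup F hc.1)).symm
  have h2 : (autInducedBy S P).subgroupOf (F.autGroup P) ≤ R := by
    obtain ⟨T, hT⟩ := h1.exists_le_sylow
    have := Sylow.unique_of_normal R hR
    rw [Subsingleton.elim R T]; exact hT
  exact ⟨⟨_, autInducedBy_le_autGroup F hc.1 hm⟩, CfsgLib.Core.le_pCore R.isPGroup' (h2 hm), rfl⟩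

end Cfsg.Agent.S5301
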