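import Mathlib
import Cfsg.Statements.S5317
import Cfsg.Agent.Lib.Fusion.TwoSimple
import Cfsg.Agent.Lib.Classical.SLBasic
import Cfsg.Agent.Lib.Classical.SL2Torus
import Cfsg.Agent.Lib.SL2.SylowTwo
import Cfsg.Agent.S0809

set_option autoImplicit false
open Cfsg

namespace Cfsg.Agent.S5317

open CfsgLib CfsgLib.Fusion Cfsg.FusionSystem

/-- Let F be a finite field of odd order q with q² ≡ 1 mod 16 (so that a Sylow 2-subgroup of PSL(2,q), dihedral of order the 2-part of (q²−1)/2, has order at least 8). Then the 2-fusion system of PSL(2,F) on a Sylow 2-subgroup is simple: saturated, over a nontrivial 2-group, with no normal subsystem other than the trivial one and itself. -/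
theorem result {F : Type*} [Field F] [Fintype F] (hodd : Fintype.card F % 2 = 1) (h16 : 16 ∣ Fintype.card F ^ 2 - 1)
    (S : Sylow 2 (Matrix.ProjectiveSpecialLinearGroup (Fin 2) F)) :
    (Cfsg.groupFusionSystem (S : Subgroup (Matrix.ProjectiveSpecialLinearGroup (Fin 2) F))).IsSimple 2 := by
  obtain ⟨Q⟩ : Nonempty (Sylow 2 (Matrix.SpecialLinearGroup (Fin 2) F)) := inferInstance
  have ho : Odd (Fintype.card F) := Nat.odd_iff.2 hodd
  have h4 : 4 ≤ Fintype.card F := by
    have := Fintype.one_lt_card (α := F)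
    by_contra H
    have : Fintype.card F = 3 := by omega
    rw [this] at h16
    omega
  let π := QuotientGroup.mk' (Subgroup.center (Matrix.SpecialLinearGroup (Fin 2) F))
  have hπ : Function.Surjective π := QuotientGroup.mk'_surjective _
  obtain ⟨k, hk, ⟨e⟩⟩ := Classical.sl2_sylow_two_quaternion ho Q
  obtain ⟨a, b, h1, h2, h3, h5, h6⟩ := TwoGrp.exists_gens_of_quaternion e
  have hZ : π.ker ≤ Q := by
    rw [QuotientGroup.ker_mk']
    refine IsPGroup.le_sylow_of_normal (IsPGroup.of_card (n := 1) ?_) Q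
    rw [Classical.sl_card_center, Fintype.card_fin, Nat.gcd_eq_left (by omega), pow_one]
  have ha : a ∈ (Q : Subgroup _) := (h6 a).2 ⟨1, Or.inl (zpow_one a).symm⟩
  have hb : b ∈ (Q : Subgroup _) := (h6 b).2 ⟨0, Or.inr (by simp)⟩
  have hb2 : orderOf (π b) = 2 := by
    refine orderOf_eq_prime ?_ fun H => ?_
    · rw [← map_pow, pow_two, QuotientGroup.mk'_apply, QuotientGroup.eq_one_iff,
        ← SL2.centralizer_sylow_two ho Q]
      intro g hg
      obtain ⟨i, rfl | rfl⟩ := (h6 g).1 hg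
      · rw [h2, ← zpow_natCast]; exact (Commute.zpow_zpow_self a _ _).eq
      · rw [mul_assoc, mul_assoc b b, ← mul_assoc b, ← mul_assoc b, ← mul_assoc (a ^ i), ← mul_assoc,
          ← mul_assoc, mul_left_inj, mul_assoc, h2, ← zpow_natCast]
        exact (Commute.zpow_zpow_self a _ _).eq
    · rw [QuotientGroup.mk'_apply, QuotientGroup.eq_one_iff, Subgroup.mem_center_iff] at H
      rw [← H a, mul_inv_cancel_right, eq_inv_iff_mul_eq_one, ← pow_two, ← orderOf_dvd_iff_pow_eq_one, h1] at h3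
      have := Nat.le_of_dvd two_pos h3
      have : 2 ^ 1 ≤ 2 ^ k := Nat.pow_le_pow_right two_pos hk
      omega
  refine group_simple_sylow (sylIn_top (Q.mapSurjective hπ)) (group_simple_of_one_class
    (QDFus.index_ne_two_of_surjective π hπ (index_ne_two_of_perfect
      (Classical.sl_fin_commutator_eq_top 2 le_rfl fun _ => h4))) _ (fun H => ?_) ?_
      (g := π a) ⟨a, ha, rfl⟩ ?_ fun g hg _ => Subgroup.mem_sup_left ?_) S
  · have : π b ∈ (Q.mapSurjective hπ : Subgroup _) := ⟨b, hb, rfl⟩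
    rw [H, Subgroup.mem_bot] at this
    simp [this] at hb2
  · obtain ⟨A, hA⟩ := Sylow.exists_subgroup_card_pow_prime (G := Matrix.SpecialLinearGroup (Fin 2) F) 2 (n := 2)
      (by rw [Classical.sl2_card]; exact Dvd.dvd.mul_left (Dvd.dvd.trans (by norm_num) h16) _)
    exact (S0809.result rfl ho A hA).2.2.2
  · rintro _ ⟨g, hg, rfl⟩
    obtain ⟨i, rfl | rfl⟩ := (h6 g).1 hg
    · exact Subgroup.mem_sup_right ⟨i, (map_zpow π a i).symm⟩
    · exact map_mul π _ b ▸ mul_mem (Subgroup.mem_sup_right ⟨i, (map_zpow π a i).symm⟩)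
        (Subgroup.mem_sup_left (Subgroup.subset_closure ⟨⟨b, hb, rfl⟩, hb2⟩))
  · obtain ⟨g, rfl⟩ := hπ g
    refine ⟨g, SL2.normalizer_sylow_two_eq ho Q (by rw [Classical.sl2_card]; exact h16.mul_left _) ▸
      Subgroup.mem_normalizer_fintype fun x hx => ?_, rfl⟩
    obtain ⟨y, hy, e⟩ := conj_mem_of_mem_normalizer hg (show π x ∈ (Q.mapSurjective hπ : Subgroup _) from ⟨x, hx, rfl⟩)
    rw [← map_inv, ← map_mul, ← map_mul, ← MonoidHom.div_mem_ker_iff] at e
    have := mul_mem (Subgroup.inv_mem _ (hZ e)) hy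
    rwa [inv_div, div_mul_cancel] at this
end Cfsg.Agent.S5317
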