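import Mathlib
import Cfsg.Statements.S5318
import Cfsg.Agent.Lib.Fusion.TwoSimple
import Cfsg.Agent.Lib.Classical.SLBasic

set_option autoImplicit false
open Cfsg

namespace Cfsg.Agent.S5318

open CfsgLib CfsgLib.Fusion Cfsg.FusionSystem

/-- For a finite field F of odd order, the 2-fusion system of PSL(3,F) on a Sylow 2-subgroup (semidihedral or wreathed according as |F| ≡ 3 or 1 mod 4) is simple. -/
theorem result {F : Type*} [Field F] [Fintype F] (hodd : Fintype.card F % 2 = 1) (S : Sylow 2 (Matrix.ProjectiveSpecialLinearGroup (Fin 3) F)) :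
    (Cfsg.groupFusionSystem (S : Subgroup (Matrix.ProjectiveSpecialLinearGroup (Fin 3) F))).IsSimple 2 := by
  obtain ⟨P⟩ : Nonempty (Sylow 2 (Matrix.SpecialLinearGroup (Fin 3) F)) := inferInstance
  refine group_simple_quotient _ (fun h => ?_) P (group_simple_of_qd_or_wr (index_ne_two_of_perfect
    (Classical.sl_commutator_eq_top (by simp))) P (sl3_sylow_two hodd P)) S
  rw [Classical.sl_card_center] at h
  simpa using h.trans (Nat.gcd_dvd_left _ _)
end Cfsg.Agent.S5318
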