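import Mathlib
import Cfsg.Statements.S5319
import Cfsg.Agent.Lib.Fusion.TwoSimple

set_option autoImplicit false
open Cfsg

namespace Cfsg.Agent.S5319

open CfsgLib CfsgLib.Fusion Cfsg.FusionSystem

/-- Let q be an odd prime power and F a field with q² elements. Then the 2-fusion system of PSU(3,q) (realised as the special unitary group of the standard Hermitian form over F modulo its centre) on a Sylow 2-subgroup is simple. -/
theorem result {F : Type*} [Field F] [Fintype F] (q : ℕ) (hq : Fintype.card F = q ^ 2) (hodd : q % 2 = 1) (S : Sylow 2 (Cfsg.PSU 3 F q)) :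
    (Cfsg.groupFusionSystem (S : Subgroup (Cfsg.PSU 3 F q))).IsSimple 2 := by
  obtain ⟨P⟩ : Nonempty (Sylow 2 (SU 3 F q)) := inferInstance
  refine group_simple_quotient _ (fun h => ?_) P (group_simple_of_qd_or_wr (index_ne_two_of_perfect
    (Unitary.su_commutator_eq_top hq le_rfl (by omega))) P (su3_sylow_two hq hodd P)) S
  rw [Unitary.card_center_SU hq (by omega)] at h
  simpa using h.trans (Nat.gcd_dvd_left _ _)
end Cfsg.Agent.S5319
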