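import Mathlib
import Cfsg.Statements.S5328
import Cfsg.Agent.Lib.Fusion.Biset
import Cfsg.Agent.Lib.Fusion.GroupFactor

set_option autoImplicit false
universe u
open Cfsg

namespace Cfsg.Agent.S5328


/-- Every fusion system over a finite p-group S, saturated or not, is realized inside some finite group: there is a finite group G and an injective homomorphism ι of S into G such that the maps of the system are exactly the homomorphisms between subgroups of S that become conjugations by elements of G (the image of S need not be a Sylow p-subgroup of G). -/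
theorem result {Ω : Type u} [Group Ω] {S : Subgroup Ω} [Finite S] (p : ℕ) [Fact p.Prime] (hS : IsPGroup p S) (F : Cfsg.FusionSystem S) : ∃ (G : Type u) (_ : Group G) (_ : Finite G) (ι : ↥S →* G), F.IsRealizedBy ι := by
  open CfsgLib.Fusion in
  obtain ⟨X, _, a, h1, ⟨x₀, h2⟩, h3⟩ := exists_biset_any F
  have mul : ∀ g h t t' x, a (g, t) (a (h, t') x) = a (g * h, t * t') x := fun g h t t' x => by
    rw [← Equiv.Perm.mul_apply, ← map_mul]; rfl
  let G : Subgroup (Equiv.Perm X) := Subgroup.centralizer (Set.range fun t : S => a (1, t))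
  have hG : ∀ e : Equiv.Perm X, e ∈ G ↔ ∀ t x, a (1, t) (e x) = e (a (1, t) x) := fun e =>
    ⟨fun h t x => congrArg (fun σ : Equiv.Perm X => σ x) (h _ ⟨t, rfl⟩), fun h => by
      rintro _ ⟨t, rfl⟩
      exact Equiv.ext (h t)⟩
  let ι : S →* G := (a.comp (MonoidHom.inl S S)).codRestrict G fun g => (hG _).2 fun t x => by
    show a (1, t) (a (g, 1) x) = a (g, 1) (a (1, t) x)
    rw [mul, mul, one_mul, one_mul, mul_one, mul_one]
  have hι : ∀ (g : S) x, (ι g : Equiv.Perm X) x = a (g, 1) x := fun _ _ => rfl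
  refine ⟨G, inferInstance, inferInstance, ι, isRealizedBy_of_mor ?_ fun P f hP hf hm => ⟨fun h => ?_, ?_⟩⟩
  · refine (injective_iff_map_eq_one _).2 fun g hg => ?_
    obtain ⟨f, hf, e⟩ := h1 x₀
    have h4 : (g, 1) ∈ stabOf a x₀ := by rw [mem_stabOf, ← hι, hg]; rfl
    exact Subtype.ext (hf.eq_one (fst_mem_gdom h4) (e _ h4).symm)
  · obtain ⟨e, he⟩ := h3 P f h
    refine ⟨⟨e, (hG e).2 fun t x => (he 1 1 t (one_mem _) hf.map_one.symm x).symm⟩, fun x hx => ?_⟩
    rw [eq_mul_inv_iff_mul_eq, extFun_apply ι (hm x hx), extFun_apply ι (hP hx)]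
    exact Subtype.ext (Equiv.ext fun y => (he ⟨x, hP hx⟩ ⟨f x, hm x hx⟩ 1 hx rfl y).symm)
  · rintro ⟨g, hg⟩
    obtain ⟨k, hk, e⟩ := h1 (g.1 x₀)
    have h4 : ∀ x (hx : x ∈ P), ((⟨f x, hm x hx⟩ : S), (⟨x, hP hx⟩ : S)) ∈ stabOf a (g.1 x₀) := by
      intro x hx
      have h5 := hg x hx
      rw [eq_mul_inv_iff_mul_eq, extFun_apply ι (hm x hx), extFun_apply ι (hP hx)] at h5
      have h6 : a (⟨f x, hm x hx⟩, 1) (g.1 x₀) = g.1 (a (⟨x, hP hx⟩, 1) x₀) :=
        congrArg (fun σ : G => σ.1 x₀) h5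
      have h7 := congrArg (a (1, ⟨x, hP hx⟩)) h6
      rwa [mul, (hG _).1 g.2, mul, one_mul, one_mul, mul_one, h2] at h7
    obtain ⟨l, hl, e1, -⟩ := hk.exists_inv
    have h5 : ∀ x ∈ P, k (f x) = x := fun x hx => (e _ (h4 x hx)).symm
    refine (hl.mono fun x hx => ?_).congr fun x hx => ?_
    · rw [← h5 x hx]
      exact mem_img_of_mem k (fst_mem_gdom (h4 x hx))
    · conv_lhs => rw [← h5 x hx]
      exact e1 _ (fst_mem_gdom (h4 x hx))

end Cfsg.Agent.S5328
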