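import Mathlib
import Cfsg.Statements.S5330
import Cfsg.Agent.Lib.Fusion.TrApps

set_option autoImplicit false
open Cfsg

namespace Cfsg.Agent.S5330


/-- Let F be a saturated fusion system over a finite abelian p-group S. Then S is the internal direct product of the centre of the system and the focal subgroup: Z(F) ∩ foc(F) = 1 and Z(F)·foc(F) = S. -/
theorem result {Ω : Type*} [Group Ω] {S : Subgroup Ω} [Finite S] (p : ℕ) [Fact p.Prime] (hS : IsPGroup p S) (F : Cfsg.FusionSystem S) (hF : F.IsSaturated p) (hab : ∀ x ∈ S, ∀ y ∈ S, x * y = y * x) : F.center ⊓ F.focalSubgroup = ⊥ ∧ F.center ⊔ F.focalSubgroup = S := by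
  open CfsgLib.Fusion in
  classical
  have hc : ⁅S, S⁆ = ⊥ := eq_bot_iff.2 (Subgroup.commutator_le.2 fun a ha b hb =>
    Subgroup.mem_bot.2 (commutatorElement_eq_one_iff_mul_comm.2 (hab a ha b hb)))
  refine ⟨eq_bot_iff.2 (by rw [inf_comm, ← hc]; exact focal_inf_center_le hS hF),
    le_antisymm (sup_le (center_le F) (focal_le F)) fun x hx => ?_⟩
  let : CommGroup S := { mul_comm := fun a b => Subtype.ext (hab a a.2 b b.2) }
  have := finite_autGroup F S
  have := Fintype.ofFinite (F.autGroup S)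
  have hN := isNormal_of_comm hS hF (stronglyClosed_top F) hab
  let y : S := ∏ α : F.autGroup S, (α : MulAut S) ⟨x, hx⟩
  have h1 : ∀ β ∈ F.autGroup S, β y = y := fun β hβ => by
    rw [map_prod]
    exact Equiv.prod_comp (Equiv.mulLeft (⟨β, hβ⟩ : F.autGroup S)) fun α => (α : MulAut S) ⟨x, hx⟩
  have h2 : (y : Ω) ∈ F.center := by
    refine le_center (isCentral_of_fixed hS hF (Subgroup.zpowers_le.2 y.2) fun P f hf z hz hzy => ?_)
      (Subgroup.mem_zpowers _)
    obtain ⟨g, hg, eg, e⟩ := hf.exists_ext_of_le_normal hN hf.le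
    obtain ⟨β, hβ, eβ⟩ := hg.exists_aut eg
    obtain ⟨n, rfl⟩ := hzy
    rw [← e _ hz, hg.hom.map_zpow y.2, ← eβ _ y.2, extAut_coe, h1 β hβ]
  have h3 : (⟨x, hx⟩ ^ Fintype.card (F.autGroup S))⁻¹ * y ∈ F.focalSubgroup.subgroupOf S := by
    rw [← Finset.card_univ, ← Finset.prod_const, ← Finset.prod_inv_distrib, ← Finset.prod_mul_distrib]
    refine prod_mem fun α _ => ?_
    have := ((mem_autGroup le_rfl).1 α.2).mem_focal hx
    rwa [extAut_apply _ hx] at this
  have h4 : x ^ Fintype.card (F.autGroup S) ∈ F.center ⊔ F.focalSubgroup := by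
    have := mul_mem (Subgroup.mem_sup_left h2 : _ ∈ F.center ⊔ F.focalSubgroup)
      (inv_mem (Subgroup.mem_sup_right h3))
    simpa using this
  have h5 : ¬ p ∣ Fintype.card (F.autGroup S) := by
    have := (sat_sylIn_top hS hF).not_dvd_relIndex
    rwa [show Inn S = ⊥ from eq_bot_iff.2 fun α hα => by
      obtain ⟨g, hg, e⟩ := mem_Inn.1 hα
      exact aut_eq_one fun z hz => by rw [e z hz, hab g hg z hz, mul_inv_cancel_right],
      Subgroup.relIndex_bot_left, Nat.card_eq_fintype_card] at this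
  obtain ⟨k, hk⟩ := hS ⟨x, hx⟩
  have h6 : orderOf x ∣ p ^ k := orderOf_dvd_of_pow_eq_one (congrArg Subtype.val hk)
  obtain ⟨m, hm⟩ := exists_pow_eq_self_of_coprime (x := x) (Nat.Coprime.coprime_dvd_right h6
    (Nat.Coprime.pow_right k ((Nat.Prime.coprime_iff_not_dvd Fact.out).2 h5).symm))
  rw [← hm]
  exact pow_mem h4 m

end Cfsg.Agent.S5330
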