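import Mathlib
import Cfsg.Statements.S5331
import Cfsg.Agent.Lib.Fusion.Supersol

set_option autoImplicit false
open Cfsg

namespace Cfsg.Agent.S5331

open CfsgLib CfsgLib.Fusion Cfsg.FusionSystem

/-- Let S be a finite abelian 2-group that is a direct product of cyclic groups of pairwise distinct orders 2^{a_1} < 2^{a_2} < ⋯ < 2^{a_n} (all a_i ≥ 1). Then every saturated fusion system over S is the inner one: its maps are exactly the conjugations by elements of S. -/
theorem result {Ω : Type*} [Group Ω] {S : Subgroup Ω} [Finite S] (n : ℕ) (a : Fin n → ℕ) (ha : StrictMono a) (ha1 : ∀ i, 1 ≤ a i) (e : ↥S ≃* Multiplicative ((i : Fin n) → ZMod (2 ^ a i))) (F : Cfsg.FusionSystem S) (hF : F.IsSaturated 2) (P : Subgroup Ω) : F.Hom P = (Cfsg.innerFusionSystem S).Hom P := by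
  have e' := e.trans (MulEquiv.piMultiplicative _)
  have hA : AutDiag 2 S := (autDiag_pi _ a (fun i => by simp) ha.injective).of_equiv e'
  have hc : ∀ x y : S, x * y = y * x := fun x y => e.injective (by rw [map_mul, map_mul, mul_comm])
  have hS : IsPGroup 2 S := IsPGroup.of_card (n := ∑ i, a i) (by
    rw [Nat.card_congr e'.toEquiv, Nat.card_pi]
    simp [Finset.prod_pow_eq_pow_sum])
  rw [isNil_of_isNormal_top hS hF (isNormal_of_comm hS hF (stronglyClosed_top F)
    fun x hx y hy => congrArg Subtype.val (hc ⟨x, hx⟩ ⟨y, hy⟩)) hA.isPGroup]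

end Cfsg.Agent.S5331
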