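import Cfsg.Statements.S5381
import Cfsg.Agent.Lib.Co1Loc.Three
import Cfsg.Agent.Lib.Co1Rec.Close
import Cfsg.Agent.Lib.LargeExtra.Sub

set_option autoImplicit false
open Cfsg

namespace Cfsg.Agent.S5381

open CfsgLib CfsgLib.Co1Loc Subgroup

/-- Let G be a finite group of Conway type (involution z with generalized Fitting subgroup Q of its centralizer C extraspecial of order 2^9, C/Q the commutator subgroup of the isometry group of the hyperbolic quadratic form in dimension 8 over the field with two elements, z not weakly closed in Q), and let X be a subgroup of C of order 3 whose commutator subgroup with Q is non-abelian of order 8, contained in an elementary abelian subgroup Y of C of order 9 whose centralizer in Q is extraspecial of order 32 containing an elementary abelian subgroup of order 8. Then the centralizer of X in G is quasisimple and its quotient by X is isomorphic to the presented sporadic Suzuki group. -/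
theorem result {G : Type*} [Group G] [Finite G] (z : G) (hz : orderOf z = 2) (Q : Subgroup (Subgroup.centralizer ({z} : Set G))) [Q.Normal] (hF : Cfsg.generalizedFittingSubgroup (Subgroup.centralizer ({z} : Set G)) = Q) (hQ : Cfsg.IsExtraspecial 2 Q) (hcard : Nat.card Q = 2 ^ 9) (e : (Subgroup.centralizer ({z} : Set G)) ⧸ Q ≃* Cfsg.Omega (ZMod 2) (Cfsg.quadFormPlus 4 (ZMod 2))) (hnwc : ∃ g : G, (∃ hq : g * z * g⁻¹ ∈ Subgroup.centralizer ({z} : Set G), (⟨g * z * g⁻¹, hq⟩ : Subgroup.centralizer ({z} : Set G)) ∈ Q) ∧ g * z * g⁻¹ ≠ z) (X : Subgroup (Subgroup.centralizer ({z} : Set G))) (hX : Nat.card X = 3) (hQX : Nat.card ↥⁅Q, X⁆ = 8) (hQXna : ¬ IsMulCommutative ↥⁅Q, X⁆) (Y₉ : Subgroup (Subgroup.centralizer ({z} : Set G))) (hXY : X ≤ Y₉) (hY₉ : Nat.card Y₉ = 9) (hY₉e : ∀ y ∈ Y₉, y ^ 3 = 1) (hCQ₉ : Cfsg.IsExtraspecial 2 ↥(Q ⊓ Subgroup.centralizer (Y₉ : Set (Subgroup.centralizer ({z} : Set G))))) (hCQ₉c : Nat.card ↥(Q ⊓ Subgroup.centralizer (Y₉ : Set (Subgroup.centralizer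 ({z} : Set G)))) = 32) (hCQ₉p : ∃ A : Subgroup (Subgroup.centralizer ({z} : Set G)), A ≤ Q ⊓ Subgroup.centralizer (Y₉ : Set (Subgroup.centralizer ({z} : Set G))) ∧ Cfsg.IsElementaryAbelian 2 A ∧ Nat.card A = 8) [((X.map (Subgroup.subtype (Subgroup.centralizer ({z} : Set G)))).subgroupOf (Subgroup.centralizer ((X.map (Subgroup.subtype (Subgroup.centralizer ({z} : Set G)))) : Set G))).Normal] : Cfsg.IsQuasisimple ↥(Subgroup.centralizer ((X.map (Subgroup.subtype (Subgroup.centralizer ({z} : Set G)))) : Set G)) ∧ Cfsg.Spor.IsoSuz (↥(Subgroup.centralizer ((X.map (Subgroup.subtype (Subgroup.centralizer ({z} : Set G)))) : Set G)) ⧸ (X.map (Subgroup.subtype (Subgroup.centralizer ({z} : Set G)))).subgroupOf (Subgroup.centralizer ((X.map (Subgroup.subtype (Subgroup.centralizer ({z} : Set G)))) : Set G))) := by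
  obtain ⟨ψ, rfl, hψ⟩ := Co1Rec.exists_iso hz Q hF hQ hcard e hnwc
  obtain ⟨f, f1, f2, -, f3⟩ := Three.exists_suz
  obtain ⟨b, hb⟩ := (isCyclic_of_prime_card hX).exists_generator
  have h1 : orderOf (ψ.symm b) = 3 := by
    rw [MulEquiv.orderOf_eq, orderOf_coe, orderOf_coe, orderOf_eq_card_of_forall_mem_zpowers hb, hX]
  have h2 : ψ.symm b * Co1Rec.zz = Co1Rec.zz * ψ.symm b :=
    ψ.injective (by simpa using mem_centralizer_singleton_iff.1 b.1.2)
  let j := ψ.symm.toMonoidHom.comp (centralizer {ψ Co1Rec.zz}).subtype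
  have hj : Function.Injective j := ψ.symm.injective.comp (subtype_injective _)
  obtain ⟨u, v, huv⟩ : ∃ u v : ↥⁅Q, X⁆, u * v ≠ v * u := by
    by_contra h
    push Not at h
    exact hQXna ⟨⟨h⟩⟩
  obtain ⟨s, t, r⟩ := rot_of_card Co1Rec.ct0 h2 h1 (R := ⁅Q, X⁆.map j) (by
      rintro _ ⟨x, hx, rfl⟩
      exact (hψ _).1 ⟨x, commutator_le_left Q X hx, by simp [j]⟩)
    ((card_map_of_injective hj).trans hQX) (mem_map_of_mem j u.2) (mem_map_of_mem j v.2)
    (fun h => huv (Subtype.ext (hj (by simpa using h)))) fun q hq => by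
      obtain ⟨x, hx, e⟩ := (hψ q).2 hq
      exact ⟨_, commutator_mem_commutator hx b.2, by
        simp [j, commutatorElement_def, ψ.symm_apply_eq.2 (show (x : G) = ψ q from e)]⟩
  obtain ⟨g, hg⟩ := conj_of_rot Co1Rec.ct_QQ h2 (Co1Rec.comm_zz.2 Three.act3.1)
    (h1 ▸ pow_orderOf_eq_one _) (Three.ord3 ▸ pow_orderOf_eq_one _) r Three.rot
  let χ := (MulAut.conj g).symm.trans ψ
  have h3 := eq_of_le_of_card_ge (show (zpowers (mE Five.AL 1 : Spor.Co1)).map (χ : Spor.Co1 →* G) ≤
      X.map (Subgroup.subtype _) by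
    rw [MonoidHom.map_zpowers, ← hg]
    exact zpowers_le.2 ⟨b, b.2, by simp [χ, mul_assoc]⟩) (by
    rw [card_map_of_injective (subtype_injective _), card_map_of_injective χ.injective, Nat.card_zpowers,
      Three.ord3, hX])
  let e3 := (χ.subgroupMap Three.CC).trans (MulEquiv.subgroupCongr ((Core.map_equiv_centralizer χ _).trans (by rw [h3])))
  have := Suz.simple
  refine ⟨Comp.qs_of_mulEquiv (Comp.qs_of_ker_le_center f3 f f1 (fun w hw => mem_center_iff.2 fun g =>
    Subtype.ext (g.2 _ ((f2 w).1 hw)).symm) (Comp.qs_of_isSimpleGroup fun _ => ?_)) e3, ?_⟩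
  · open scoped IsMulCommutative in
    exact absurd (IsSimpleGroup.prime_card (α := Spor.Suz)) (by rw [Suz.card_eq]; norm_num)
  · exact ⟨(LargeExtra.exists_quot_equiv e3.toMonoidHom e3.surjective _ f f1 fun d =>
      (f2 d).trans ((mem_map_iff_mem χ.injective).symm.trans (SetLike.ext_iff.1 h3 _))).choose⟩

end Cfsg.Agent.S5381
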