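import Cfsg.Statements.S5385
import Cfsg.Agent.Lib.Co1Loc.Five
import Cfsg.Agent.Lib.Co1Rec.Close

set_option autoImplicit false
open Cfsg

namespace Cfsg.Agent.S5385

open CfsgLib CfsgLib.Co1Loc Subgroup

/-- Let G be a finite group of Conway type (involution z with generalized Fitting subgroup Q of its centralizer C extraspecial of order 2^9, C/Q the commutator subgroup of the isometry group of the hyperbolic quadratic form in dimension 8 over the field with two elements, z not weakly closed in Q), and let B be a subgroup of C of order 5 such that the centralizer of B in Q is extraspecial of order 32 containing no elementary abelian subgroup of order 8 (the quaternion-times-dihedral type). Then the layer L of the centralizer of B in G is isomorphic to the Hall–Janko group and the centralizer of L is isomorphic to the alternating group of degree 5. -/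
theorem result {G : Type*} [Group G] [Finite G] (z : G) (hz : orderOf z = 2) (Q : Subgroup (Subgroup.centralizer ({z} : Set G))) [Q.Normal] (hF : Cfsg.generalizedFittingSubgroup (Subgroup.centralizer ({z} : Set G)) = Q) (hQ : Cfsg.IsExtraspecial 2 Q) (hcard : Nat.card Q = 2 ^ 9) (e : (Subgroup.centralizer ({z} : Set G)) ⧸ Q ≃* Cfsg.Omega (ZMod 2) (Cfsg.quadFormPlus 4 (ZMod 2))) (hnwc : ∃ g : G, (∃ hq : g * z * g⁻¹ ∈ Subgroup.centralizer ({z} : Set G), (⟨g * z * g⁻¹, hq⟩ : Subgroup.centralizer ({z} : Set G)) ∈ Q) ∧ g * z * g⁻¹ ≠ z) (B : Subgroup (Subgroup.centralizer ({z} : Set G))) (hB : Nat.card B = 5) (hCQ : Cfsg.IsExtraspecial 2 ↥(Q ⊓ Subgroup.centralizer (B : Set (Subgroup.centralizer ({z} : Set G))))) (hCQcard : Nat.card ↥(Q ⊓ Subgroup.centralizer (B : Set (Subgroup.centralizer ({z} : Set G)))) = 32) (hminus : ∀ A : Subgroup (Subgroup.centralizer ({z} : Set G)), A ≤ Q ⊓ Subgroup.centralizer (B : Set (Subgroup.centralizer ({z} : Set G))) → Cfsg.IsElementaryAbelian 2 A → Nat.card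 A ≤ 4) : Cfsg.Spor.IsoJ2 ↥(Cfsg.layer ↥(Subgroup.centralizer ((B.map (Subgroup.subtype (Subgroup.centralizer ({z} : Set G)))) : Set G))) ∧ Nonempty (↥(Subgroup.centralizer (((Cfsg.layer ↥(Subgroup.centralizer ((B.map (Subgroup.subtype (Subgroup.centralizer ({z} : Set G)))) : Set G))).map (Subgroup.subtype _)) : Set G)) ≃* alternatingGroup (Fin 5)) := by
  classical
  have : Fact (Nat.Prime 5) := ⟨by norm_num⟩
  obtain ⟨ψ, rfl, hψ⟩ := Co1Rec.exists_iso hz Q hF hQ hcard e hnwc
  obtain ⟨φ, ⟨e1, h1⟩, ⟨e2⟩⟩ := Five.exists_J2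
  obtain ⟨b, hb⟩ := (isCyclic_of_prime_card hB).exists_generator
  have h2 : zpowers (b : G) = B.map (Subgroup.subtype _) := le_antisymm (zpowers_le.2 ⟨_, b.2, rfl⟩) (by
    rintro _ ⟨c, hc, rfl⟩
    obtain ⟨k, hk⟩ := hb ⟨c, hc⟩
    exact ⟨k, congrArg (fun x : B => (x : G)) hk⟩)
  obtain ⟨x, hx, x1, x2⟩ : ∃ x ∈ Q ⊓ centralizer (B : Set (centralizer {ψ Co1Rec.zz})),
      (x : G) ≠ 1 ∧ (x : G) ≠ ψ Co1Rec.zz := by
    by_contra h
    push Not at h
    have := Nat.card_le_card_of_injective (fun x : ↥(Q ⊓ centralizer (B : Set (centralizer {ψ Co1Rec.zz}))) =>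
      decide (x.1.1 = 1)) fun x y e => Subtype.ext (Subtype.ext (by
        have e := decide_eq_decide.1 e
        by_cases h1 : x.1.1 = 1
        exacts [h1.trans (e.1 h1).symm, (h x x.2 h1).trans (h y y.2 (mt e.2 h1)).symm]))
    rw [hCQcard] at this
    simp at this
  obtain ⟨g, hg⟩ := Five.exists_conj (b := ψ.symm b) (x := ψ.symm x)
    (by rw [← map_pow, ← coe_pow, ← coe_pow, ← hB, pow_card_eq_one']; exact map_one _)
    (ψ.injective (by simpa using mem_centralizer_singleton_iff.1 b.1.2))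
    ((hψ _).1 (by rw [ψ.apply_symm_apply]; exact ⟨x, hx.1, rfl⟩)) (by simpa using x1)
    (fun h => x2 (ψ.symm_apply_eq.1 h)) (ψ.injective (by simpa using congrArg Subtype.val (hx.2 b b.2)))
  let χ := (MulAut.conj g).symm.trans ψ
  have h3 := eq_of_le_of_card_ge (h2 ▸ zpowers_le.2 (mem_map.2 ⟨_, hg, by simp [χ, mul_assoc]⟩) :
      B.map (Subgroup.subtype _) ≤ (zpowers _).map (χ : Spor.Co1 →* G)) (by
    rw [card_map_of_injective χ.injective, card_map_of_injective (subtype_injective _), Nat.card_zpowers,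
      Five.ord5, hB])
  rw [h3]
  let e3 := (e1.trans (χ.subgroupMap _)).trans (MulEquiv.subgroupCongr (Core.map_equiv_centralizer χ _))
  rw [layer_prod Five.nc e3]
  refine ⟨⟨(MonoidHom.ofInjective (e3.injective.comp fun _ _ e => congrArg Prod.snd e)).symm.trans
    J2.iso.symm⟩, ?_⟩
  rw [← MonoidHom.range_comp, show (Subgroup.subtype _).comp (e3.toMonoidHom.comp (MonoidHom.inr _ _)) =
    (χ : Spor.Co1 →* G).comp φ from MonoidHom.ext fun b => congrArg χ (h1 b), MonoidHom.range_comp]
  exact ⟨((MulEquiv.subgroupCongr (Core.map_equiv_centralizer χ _)).symm.trans (χ.subgroupMap _).symm).trans e2⟩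

end Cfsg.Agent.S5385
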