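import Cfsg.Statements.S5389
import Cfsg.Agent.Lib.Co1Loc.Three
import Cfsg.Agent.Lib.Co1Loc.Sect
import Cfsg.Agent.Lib.Co1Loc.SuzC

set_option autoImplicit false
open Cfsg

namespace Cfsg.Agent.S5389

open CfsgLib CfsgLib.Co1Loc Subgroup

/-- A simple section of the automorphism group of the Leech lattice satisfying the Suzuki-sporadic-type hypothesis (the group so obtained is the sporadic Suzuki group; that identification is not part of this statement): there is a subgroup A of order 3 of that automorphism group such that the centralizer of A modulo the subgroup generated by A and the centre of the automorphism group is a non-abelian simple group satisfying the large extraspecial hypothesis of minus type in dimension 6 — an involution whose centralizer has extraspecial generalized Fitting subgroup of order 2^7 with quotient the commutator subgroup of the isometry group of the elliptic quadratic form in dimension 6 over the field with two elements, the involution not weakly closed in that extraspecial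 group. -/
theorem result : ∃ A : Subgroup ↥Cfsg.Co0, Nat.card A = 3 ∧ ∃ (hn : ((A ⊔ Subgroup.center ↥Cfsg.Co0).subgroupOf (Subgroup.centralizer (A : Set ↥Cfsg.Co0))).Normal), ∃ (S : Type) (_ : Group S) (_ : Finite S), Nonempty (S ≃* ↥(Subgroup.centralizer (A : Set ↥Cfsg.Co0)) ⧸ (A ⊔ Subgroup.center ↥Cfsg.Co0).subgroupOf (Subgroup.centralizer (A : Set ↥Cfsg.Co0))) ∧ IsSimpleGroup S ∧ ¬ IsMulCommutative S ∧ ∃ z : S, orderOf z = 2 ∧ ∃ (Q : Subgroup (Subgroup.centralizer ({z} : Set S))) (_ : Q.Normal), Cfsg.generalizedFittingSubgroup (Subgroup.centralizer ({z} : Set S)) = Q ∧ Cfsg.IsExtraspecial 2 Q ∧ Nat.card Q = 2 ^ 7 ∧ Nonempty ((Subgroup.centralizer ({z} : Set S)) ⧸ Q ≃* Cfsg.Omega (ZMod 2) (Cfsg.quadFormMinus 2 (ZMod 2) 1 1)) ∧ ∃ g : S, (∃ hq : g * z * g⁻¹ ∈ Subgroup.centralizer ({z} : Set S), (⟨g * z * g⁻¹, hq⟩ : Subgroup.centralizer ({z} : Set S)) ∈ Q) ∧ g * z * g⁻¹ ≠ z := by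
  have : Fact (Nat.Prime 3) := ⟨by norm_num⟩
  obtain ⟨f, f1, f2, -⟩ := Three.exists_suz
  have h1 : (mE Five.AL 1 : Spor.Co1) ≠ 1 := fun h => by simpa [h] using Three.ord3
  obtain ⟨hn, e1⟩ := exists_sect (by decide) Three.pow3 f f1 f2
  have := SuzRec.sm.finite
  have h := SuzC.hyp
  have := h.pre.normal_subgroupOf
  obtain ⟨e⟩ := SuzC.exists_equiv h
  have h3 := SuzC.nw.symm ▸ SuzRec.tH.qm.mem (n := 73) (by norm_num)
  refine ⟨_, by rw [Nat.card_zpowers, orderOf_eq_prime Three.pow3 fun e => h1 (by rw [e]; rfl)], hn,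
    Spor.Suz, inferInstance, inferInstance, e1, Suz.simple, fun _ => ?_, _, h.pre.es.orderOf_eq, _, this,
    h.pre.fstar_eq (LargeExtra.pCore_le_of_equiv e SuzC.two_eq_bot),
    (h.pre.es.subgroupOf h.pre.le_cent).isExtraspecial,
    (Nat.card_congr (subgroupOfEquivOfLe h.pre.le_cent).toEquiv).trans h.cQ,
    ⟨e.trans (OrthE.omegaEquiv (OrthE.qMinus_eq 2 1 1) ((OrthE.nondeg_qMinus 2
      ExtraTwo.anisotropic_zmod_two).E_eq_commutator_of_finite (by simp))).symm⟩,
    _, ⟨h.pre.le_cent h3, h3⟩, fun e => ?_⟩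
  · have := Suz.simple
    open scoped IsMulCommutative in
    exact absurd (IsSimpleGroup.prime_card (α := Spor.Suz)) (by rw [Suz.card_eq]; norm_num)
  · exact absurd (SuzRec.tH.qm.inj _ (by norm_num) _ (by norm_num)
      ((SuzC.nw.symm.trans e).trans SuzRec.tH.z_eq.symm)) (by norm_num)

end Cfsg.Agent.S5389
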