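import Cfsg.Statements.S5403
import Cfsg.Agent.Lib.Co1Loc.Five
import Cfsg.Agent.Lib.Co1Loc.Sect
import Cfsg.Agent.Lib.HJC.J2

set_option autoImplicit false
open Cfsg

namespace Cfsg.Agent.S5403

open CfsgLib CfsgLib.Co1Loc Subgroup

/-- A simple section of the automorphism group of the Leech lattice satisfying the Hall–Janko-type hypothesis (the group so obtained is the Hall–Janko group; that identification is not part of this statement): there is a subgroup A of order 5 of that automorphism group such that the centralizer of A modulo the subgroup generated by A and the centre of the automorphism group is a non-abelian simple group satisfying the large extraspecial hypothesis of minus type in dimension 4 — an involution whose centralizer has extraspecial generalized Fitting subgroup of order 32 with quotient the commutator subgroup of the isometry group of the elliptic quadratic form in dimension 4 over the field with two elements (the alternating group of degree 5), the involution not weakly closed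 in that extraspecial group. -/
theorem result : ∃ A : Subgroup ↥Cfsg.Co0, Nat.card A = 5 ∧ ∃ (hn : ((A ⊔ Subgroup.center ↥Cfsg.Co0).subgroupOf (Subgroup.centralizer (A : Set ↥Cfsg.Co0))).Normal), ∃ (S : Type) (_ : Group S) (_ : Finite S), Nonempty (S ≃* ↥(Subgroup.centralizer (A : Set ↥Cfsg.Co0)) ⧸ (A ⊔ Subgroup.center ↥Cfsg.Co0).subgroupOf (Subgroup.centralizer (A : Set ↥Cfsg.Co0))) ∧ IsSimpleGroup S ∧ ¬ IsMulCommutative S ∧ ∃ z : S, orderOf z = 2 ∧ ∃ (Q : Subgroup (Subgroup.centralizer ({z} : Set S))) (_ : Q.Normal), Cfsg.generalizedFittingSubgroup (Subgroup.centralizer ({z} : Set S)) = Q ∧ Cfsg.IsExtraspecial 2 Q ∧ Nat.card Q = 2 ^ 5 ∧ Nonempty ((Subgroup.centralizer ({z} : Set S)) ⧸ Q ≃* Cfsg.Omega (ZMod 2) (Cfsg.quadFormMinus 1 (ZMod 2) 1 1)) ∧ ∃ g : S, (∃ hq : g * z * g⁻¹ ∈ Subgroup.centralizer ({z} : Set S), (⟨g * z * g⁻¹, hq⟩ : Subgroup.centralizer ({z} : Set S)) ∈ Q) ∧ g * z * g⁻¹ ≠ z := by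
  have : Fact (Nat.Prime 5) := ⟨by norm_num⟩
  obtain ⟨φ, ⟨e, -⟩, -⟩ := Five.exists_J2
  have h1 : (mE Five.AL 4 : Spor.Co1) ≠ 1 := fun h => by simpa [h] using Five.ord5
  obtain ⟨hn, e1⟩ := exists_sect (by decide) Five.pow5 ((MonoidHom.snd _ _).comp e.symm.toMonoidHom)
    (Prod.snd_surjective.comp e.symm.surjective) (ker_snd h1 e (center_simple fun _ => Five.nc inferInstance))
  obtain ⟨Q, q, u, n, y, r, A⟩ := HJC.amal_J2 (MulEquiv.refl J2.PG)
  generalize (MulEquiv.refl J2.PG).symm _ = z at A
  have h := A.pre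
  have := h.normal_subgroupOf
  obtain ⟨σ, -, h2⟩ := A.fr.five.exists_sigma h
  have hk : Q.subgroupOf _ = σ.ker := by ext c; exact (h2 c).symm
  have e2 := ((QuotientGroup.quotientMulEquivOfEq hk).trans (QuotientGroup.quotientKerEquivRange σ)).trans
    (MulEquiv.subgroupCongr (HJ.Five.range_eq h A.cardQ A.card h2))
  obtain ⟨e3⟩ := Cfsg.Agent.S0824.result (F := ZMod 2) (ZMod.card 2)
  have e4 := (e3.subgroupMap (commutator _)).trans (MulEquiv.subgroupCongr (by
    rw [commutator_def, map_commutator, map_top_of_surjective _ e3.surjective, ← commutator_def,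
      alternatingGroup.commutator_perm_eq (by simp)]))
  have h3 : r * z * r⁻¹ ∈ Q := A.rz ▸ mul_mem h.es.mem (A.fr.five.mem 4)
  refine ⟨_, by rw [Nat.card_zpowers, orderOf_eq_prime Five.pow5 fun e => h1 (by rw [e]; rfl)], hn, J2.PG,
    inferInstance, inferInstance, e1, inferInstance, Five.nc, z, h.es.orderOf_eq, _, this,
    h.fstar_eq (LargeExtra.pCore_le_of_equiv e2 fun K hK h2 => (hK.eq_bot_or_eq_top).resolve_right ?_),
    (h.es.subgroupOf h.le_cent).isExtraspecial, ?_, ⟨e2.trans e4.symm⟩, r, ⟨h.le_cent h3, h3⟩, ?_⟩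
  · rintro rfl
    obtain ⟨k, hk⟩ := h2.exists_card_eq
    rw [card_top, card_alt (n := 3) (k := 60) rfl] at hk
    exact absurd ((Nat.prime_three.dvd_of_dvd_pow (hk ▸ by norm_num : 3 ∣ 2 ^ k))) (by norm_num)
  · exact (Nat.card_congr (subgroupOfEquivOfLe h.le_cent).toEquiv).trans A.cardQ
  · rw [A.rz]
    simpa using A.fr.five.ne_one h 4

end Cfsg.Agent.S5403
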