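import Mathlib
import Cfsg.Statements.S5521
import Cfsg.Agent.Lib.M24E.Tools

set_option autoImplicit false
open Cfsg

namespace Cfsg.Agent.S5521

open CfsgLib.M24E CfsgLib.Golay
open scoped Pointwise


/-- The Mathieu group M₂₄ in its natural action on the 24 coordinate positions of the binary Golay code has minimal base size exactly 7: every set of at most 6 positions is fixed pointwise by some non-identity element of M₂₄, while some set of 7 positions is fixed pointwise only by the identity. -/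
theorem result :
    (∀ B : Finset Cfsg.GolayPt, B.card ≤ 6 → ∃ g ∈ Cfsg.M24, g ≠ 1 ∧ ∀ b ∈ B, g b = b) ∧
    (∃ B : Finset Cfsg.GolayPt, B.card = 7 ∧ ∀ g ∈ Cfsg.M24, (∀ b ∈ B, g b = b) → g = 1) := by
  refine ⟨fun B hB => ?_, ofMask 191, by rw [card_ofMask (by norm_num)]; decide +kernel,
    fun g hg h => eq_one_of_fix_base hg h⟩
  obtain ⟨E, hBE, -, hE⟩ := Finset.exists_subsuperset_card_eq (Finset.subset_univ B) hB
    (by rw [Finset.card_univ, card_golayPt]; norm_num)
  have key : ∀ (q : ℕ) (k : P24), isM q = true → pm q ≠ 1 → k ∈ Cfsg.M24 → E ⊆ k • fixS (pm q) →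
      ∃ g ∈ Cfsg.M24, g ≠ 1 ∧ ∀ b ∈ B, g b = b := by
    intro q k hq h1 hk hs
    refine ⟨k * pm q * k⁻¹, mul_mem (mul_mem hk (pm_mem hq)) (inv_mem hk), fun h => h1 (by simpa using h),
      fun b hb => ?_⟩
    rw [← mem_fixS, fixS_conj]; exact hs (hBE hb)
  obtain ⟨k, hk, h1 | h1⟩ := exists_map_sixset hE
  · refine key q2a k isM_q2a (ne_one_of_orderOf orderOf_q2a (by norm_num)) hk ?_
    rw [fixS_q2a, ← h1.2]
    exact Finset.smul_finset_subset_smul_finset (ofMask_subset (by decide))
  · refine key q3a k isM_q3a (ne_one_of_orderOf orderOf_q3a (by norm_num)) hk ?_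
    rw [fixS_q3a, ← h1.2]

end Cfsg.Agent.S5521
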