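import Mathlib
import Cfsg.Statements.S5562

set_option autoImplicit false
open Cfsg

namespace Cfsg.Agent.S5562

theorem conj_pow_inv {G : Type*} [Group G] (u y : G) (h : u * y * u⁻¹ = y⁻¹) (n : ℕ) :
    u * y ^ n * u⁻¹ = (y ^ n)⁻¹ := by
  rw [← conj_pow, h, inv_pow]

theorem sq_of_mem {G : Type*} [Group G] {d : G} (hd : orderOf d = 2) {a : G}
    (ha : a ∈ conjugatesOf d) : a * a = 1 := by
  obtain ⟨c, hc⟩ := isConj_iff.1 ha
  have h2 : d * d = 1 := by
    have := pow_orderOf_eq_one d
    rwa [hd, pow_two] at this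
  rw [← hc]
  calc c * d * c⁻¹ * (c * d * c⁻¹) = c * (d * d) * c⁻¹ := by group
    _ = 1 := by rw [h2]; group

/-- Let G be a finite group, d an involution of G whose conjugates pairwise have products of odd order, and x any involution of G. Then the conjugacy class of d is the disjoint union, over the conjugates a of d commuting with x, of the sets of conjugates of d commuting with ax: every conjugate of d commutes with ax for exactly one conjugate a of d that commutes with x. -/
theorem result {G : Type*} [Group G] [Finite G] (d : G) (hd : orderOf d = 2)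
    (hodd : ∀ a ∈ conjugatesOf d, ∀ b ∈ conjugatesOf d, Odd (orderOf (a * b)))
    (x : G) (hx : orderOf x = 2) :
    ∀ e ∈ conjugatesOf d,
      ∃! a : G, a ∈ conjugatesOf d ∧ Commute a x ∧ Commute e (a * x) := by
  intro e he
  have hx2 : x * x = 1 := by
    have := pow_orderOf_eq_one x
    rwa [hx, pow_two] at this
  have he2 : e * e = 1 := sq_of_mem hd he
  have hxi : x⁻¹ = x := inv_eq_of_mul_eq_one_right hx2
  have hei : e⁻¹ = e := inv_eq_of_mul_eq_one_right he2
  have hxex : x * e * x⁻¹ ∈ conjugatesOf d :=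
    IsConj.trans he (isConj_iff.2 ⟨x, rfl⟩)
  set y := e * x with hy
  obtain ⟨k, hk⟩ := hodd e he _ hxex
  have hy2 : e * (x * e * x⁻¹) = y ^ 2 := by rw [hxi, hy, pow_two]; group
  rw [hy2] at hk
  set m := 2 * k + 1 with hm
  have hym : y ^ m * y ^ m = 1 := by
    have := pow_orderOf_eq_one (y ^ 2)
    rw [hk, ← pow_mul] at this
    rw [← pow_add, ← two_mul, this]
  have hymi : (y ^ m)⁻¹ = y ^ m := inv_eq_of_mul_eq_one_right hym
  have hxy : x * y * x⁻¹ = y⁻¹ := by
    rw [hy, mul_inv_rev, hxi, hei]
    calc x * (e * x) * x = x * e * (x * x) := by group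
      _ = x * e := by rw [hx2, mul_one]
  have hey : e * y * e⁻¹ = y⁻¹ := by
    rw [hy, mul_inv_rev, hxi, hei]
    calc e * (e * x) * e = (e * e) * x * e := by group
      _ = x * e := by rw [he2, one_mul]
  have hxm : Commute x (y ^ m) := by
    have := conj_pow_inv x y hxy m
    rw [hymi] at this
    calc x * y ^ m = x * y ^ m * x⁻¹ * x := by group
      _ = y ^ m * x := by rw [this]
  have hem : Commute e (y ^ m) := by
    have := conj_pow_inv e y hey m
    rw [hymi] at this
    calc e * y ^ m = e * y ^ m * e⁻¹ * e := by group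
      _ = y ^ m * e := by rw [this]
  have ha0 : y ^ m * x ∈ conjugatesOf d := by
    refine IsConj.trans he (isConj_iff.2 ⟨y ^ k, ?_⟩)
    have h1 : e * (y ^ k)⁻¹ * e⁻¹ = y ^ k := by
      have := conj_pow_inv e y hey k
      calc e * (y ^ k)⁻¹ * e⁻¹ = (e * y ^ k * e⁻¹)⁻¹ := by group
        _ = y ^ k := by rw [this, inv_inv]
    have h2 : e = y * x := by rw [hy, mul_assoc, hx2, mul_one]
    calc y ^ k * e * (y ^ k)⁻¹ = y ^ k * (e * (y ^ k)⁻¹ * e⁻¹) * e := by group
      _ = y ^ k * y ^ k * e := by rw [h1]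
      _ = y ^ k * y ^ k * (y * x) := by rw [← h2]
      _ = y ^ m * x := by rw [hm, pow_succ, two_mul, pow_add]; group
  have ha0x : y ^ m * x * x = y ^ m := by rw [mul_assoc, hx2, mul_one]
  refine ⟨y ^ m * x, ⟨ha0, ?_, ?_⟩, ?_⟩
  · exact hxm.symm.mul_left (Commute.refl x)
  · rw [ha0x]; exact hem
  · rintro a ⟨ha, hax, hea⟩
    have ha2 : a * a = 1 := sq_of_mem hd ha
    have hzx : Commute (a * x) x := hax.mul_left (Commute.refl x)
    have hzy : Commute (a * x) (y ^ m) := (hea.symm.mul_right hzx).pow_right m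
    have hz2 : (a * x) * (a * x) = 1 := by
      calc (a * x) * (a * x) = a * (x * a) * x := by group
        _ = a * (a * x) * x := by rw [hax.eq]
        _ = (a * a) * (x * x) := by group
        _ = 1 := by rw [ha2, hx2, mul_one]
    have hprod : a * (y ^ m * x) = (a * x) * y ^ m := by
      rw [← hxm.eq]; group
    have hsq : (a * (y ^ m * x)) ^ 2 = 1 := by
      rw [hprod, hzy.mul_pow, pow_two, pow_two, hz2, hym, mul_one]
    have ho := hodd a ha _ ha0
    have h1 : orderOf (a * (y ^ m * x)) ∣ 2 := orderOf_dvd_of_pow_eq_one hsq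
    have h2 : orderOf (a * (y ^ m * x)) = 1 := by
      rcases (Nat.dvd_prime Nat.prime_two).1 h1 with h | h
      · exact h
      · rw [h] at ho; exact absurd ho (by decide)
    rw [orderOf_eq_one_iff] at h2
    calc a = a * (a * (y ^ m * x)) := by rw [h2, mul_one]
      _ = (a * a) * (y ^ m * x) := by group
      _ = y ^ m * x := by rw [ha2, one_mul]

end Cfsg.Agent.S5562
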