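import Mathlib
import Cfsg.Statements.S5595
import Cfsg.Agent.Lib.SingInv.Basic

set_option autoImplicit false
open Cfsg

namespace Cfsg.Agent.S5595

open CfsgLib.SingInv

theorem closure_pair {G : Type*} [Group G] {a y : G} (ha : a * a = 1) (hy2 : y * y = 1)
    (hcom : y * a = a * y) : ∀ w ∈ Subgroup.closure (insert a ({y} : Set G)),
      w = 1 ∨ w = a ∨ w = y ∨ w = a * y := by
  have hyi : y⁻¹ = y := inv_eq_of_mul_eq_one_right hy2
  have hai : a⁻¹ = a := inv_eq_of_mul_eq_one_right ha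
  intro w hw
  induction hw using Subgroup.closure_induction with
  | mem x hx =>
    rcases hx with rfl | hx
    · simp
    · simp [Set.mem_singleton_iff.1 hx]
  | one => simp
  | inv x _ ih =>
    rcases ih with h | h | h | h
    · simp [h]
    · simp [h, hai]
    · simp [h, hyi]
    · simp [h, hai, hyi, hcom]
  | mul u v _ _ ihu ihv =>
    have e1 : a * (a * y) = y := by rw [← mul_assoc, ha, one_mul]
    have e2 : y * (a * y) = a := by rw [← hcom, ← mul_assoc, hy2, one_mul]
    have e3 : a * y * a = y := by rw [mul_assoc, hcom, e1]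
    have e4 : a * y * y = a := by rw [mul_assoc, hy2, mul_one]
    have e5 : a * y * (a * y) = 1 := by rw [mul_assoc, e2, ha]
    rcases ihu with h | h | h | h <;> rcases ihv with h' | h' | h' | h' <;>
      simp [h, h', e1, e2, e3, e4, e5, hcom, hy2, ha]

theorem comm_of_iff {G : Type*} [Group G] {R : Subgroup G} {t : G} (e : ES R t) {a c b : G}
    (ha : a ∈ R) (hc : c ∈ R) (hb : b ∈ R) (h : Commute a b ↔ Commute c b) :
    Commute (a * c) b := by
  by_cases h1 : Commute a b
  · exact h1.mul_left (h.1 h1)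
  · exact e.mul_comm_of_not_comm ha hc hb h1 (fun h2 => h1 (h.2 h2))

theorem commute_conj_iff {G : Type*} [Group G] (p r s : G) :
    Commute (p * r * p⁻¹) s ↔ Commute r (p⁻¹ * s * p) := by
  constructor
  · intro h
    have := h.eq
    calc r * (p⁻¹ * s * p) = p⁻¹ * (p * r * p⁻¹ * s) * p := by group
      _ = (p⁻¹ * s * p) * r := by rw [this]; group
  · intro h
    have := h.eq
    calc p * r * p⁻¹ * s = p * (r * (p⁻¹ * s * p)) * p⁻¹ := by group
      _ = s * (p * r * p⁻¹) := by rw [this]; group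

theorem commute_mul_iff {G : Type*} [Group G] {r c : G} (s : G) (h : Commute r c) :
    Commute r (s * c) ↔ Commute r s := by
  constructor
  · intro h1
    have := h1.mul_right h.inv_right
    simpa using this
  · intro h1
    exact h1.mul_right h

/-- The small case: `Q` dihedral of order eight, then the centralizer is a 2-group. -/
theorem pow_eight {G : Type*} [Group G] {Q : Subgroup G} {z t q₀ : G} (e : ES Q z) (ht : t ∈ Q)
    (ht2 : t * t = 1) (hq₀ : q₀ ∈ Q) (hq2 : q₀ * q₀ = z) (hn : q₀ * t ≠ t * q₀)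
    (hP : ∀ p ∈ Q, p * t = t * p → p = 1 ∨ p = z ∨ p = t ∨ p = z * t)
    (hN : ∀ h : G, h * z = z * h → ∀ y ∈ Q, h * y * h⁻¹ ∈ Q)
    (h : G) (hh : h * z = z * h) : h ^ 8 = 1 := by
  have hz2 := e.sq
  have hzt : t * z = z * t := e.ucomm t ht
  have hzq : q₀ * z = z * q₀ := e.ucomm q₀ hq₀
  have hqt : q₀ * t * q₀⁻¹ = t * z := e.conj_of_not_comm hq₀ ht hn
  have hall : ∀ y ∈ Q, (y = 1 ∨ y = z ∨ y = t ∨ y = z * t) ∨
      (y = q₀ ∨ y = q₀ * z ∨ y = q₀ * t ∨ y = q₀ * (z * t)) := by
    intro y hy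
    by_cases h1 : y * t = t * y
    · exact Or.inl (hP y hy h1)
    · right
      have hn' : q₀⁻¹ * t ≠ t * q₀⁻¹ := by
        intro h2; apply hn
        calc q₀ * t = q₀ * (t * q₀⁻¹) * q₀ := by group
          _ = t * q₀ := by rw [← h2]; group
      have h3 := e.mul_comm_of_not_comm (inv_mem hq₀) hy ht hn' h1
      have e0 : y = q₀ * (q₀⁻¹ * y) := by group
      rcases hP _ (mul_mem (inv_mem hq₀) hy) h3 with h4 | h4 | h4 | h4 <;> rw [h4] at e0 <;>
        simp [e0]
  have hzt2 : z * t * (z * t) = 1 := by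
    calc z * t * (z * t) = z * (t * z) * t := by group
      _ = (z * z) * (t * t) := by rw [hzt]; group
      _ = 1 := by rw [hz2, ht2, mul_one]
  have hqt2 : q₀ * t * (q₀ * t) = 1 := by
    calc q₀ * t * (q₀ * t) = (q₀ * t * q₀⁻¹) * (q₀ * q₀) * t := by group
      _ = t * (z * z) * t := by rw [hqt, hq2]; group
      _ = 1 := by rw [hz2, mul_one, ht2]
  have hqzt2 : q₀ * (z * t) * (q₀ * (z * t)) = 1 := by
    calc q₀ * (z * t) * (q₀ * (z * t)) = (q₀ * z) * t * (q₀ * z) * t := by group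
      _ = z * (q₀ * t * q₀⁻¹) * q₀ * (q₀ * z) * t := by rw [hzq]; group
      _ = z * t * z * (q₀ * q₀) * z * t := by rw [hqt]; group
      _ = z * t * (z * z) * (z * t) := by rw [hq2]; group
      _ = 1 := by rw [hz2, mul_one, hzt2]
  have hσ : ∀ h : G, h * z = z * h → (h * q₀ * h⁻¹ = q₀ ∨ h * q₀ * h⁻¹ = q₀ * z) ∧
      (h * t * h⁻¹ = t ∨ h * t * h⁻¹ = z * t ∨ h * t * h⁻¹ = q₀ * t ∨
        h * t * h⁻¹ = q₀ * (z * t)) := by
    intro h hh
    have hz' : h * z * h⁻¹ = z := by rw [hh]; group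
    have s1 : (h * q₀ * h⁻¹) * (h * q₀ * h⁻¹) = z := by
      calc (h * q₀ * h⁻¹) * (h * q₀ * h⁻¹) = h * (q₀ * q₀) * h⁻¹ := by group
        _ = z := by rw [hq2, hz']
    have s2 : (h * t * h⁻¹) * (h * t * h⁻¹) = 1 := by
      calc (h * t * h⁻¹) * (h * t * h⁻¹) = h * (t * t) * h⁻¹ := by group
        _ = 1 := by rw [ht2]; group
    constructor
    · rcases hall _ (hN h hh q₀ hq₀) with (h1 | h1 | h1 | h1) | (h1 | h1 | h1 | h1)
      · rw [h1, mul_one] at s1; exact absurd s1.symm e.ne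
      · rw [h1, hz2] at s1; exact absurd s1.symm e.ne
      · rw [h1, ht2] at s1; exact absurd s1.symm e.ne
      · rw [h1, hzt2] at s1; exact absurd s1.symm e.ne
      · exact Or.inl h1
      · exact Or.inr h1
      · rw [h1, hqt2] at s1; exact absurd s1.symm e.ne
      · rw [h1, hqzt2] at s1; exact absurd s1.symm e.ne
    · rcases hall _ (hN h hh t ht) with (h1 | h1 | h1 | h1) | (h1 | h1 | h1 | h1)
      · exfalso; apply hn
        have : t = 1 := by
          calc t = h⁻¹ * (h * t * h⁻¹) * h := by group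
            _ = 1 := by rw [h1]; group
        rw [this]; simp
      · exfalso; apply hn
        have : t = z := by
          calc t = h⁻¹ * (h * t * h⁻¹) * h := by group
            _ = h⁻¹ * (h * z * h⁻¹) * h := by rw [h1, hz']
            _ = z := by group
        rw [this, hzq]
      · exact Or.inl h1
      · exact Or.inr (Or.inl h1)
      · rw [h1, hq2] at s2; exact absurd s2 e.ne
      · exfalso
        rw [h1] at s2
        apply e.ne
        calc z = (q₀ * q₀) * (z * z) := by rw [hq2, hz2, mul_one]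
          _ = q₀ * (q₀ * z) * z := by group
          _ = q₀ * z * (q₀ * z) := by
              conv_lhs => rw [hzq]
              group
          _ = 1 := s2
      · exact Or.inr (Or.inr (Or.inl h1))
      · exact Or.inr (Or.inr (Or.inr h1))
  have hτ : ∀ h : G, h * z = z * h → (h * h) * q₀ * (h * h)⁻¹ = q₀ ∧
      ((h * h) * t * (h * h)⁻¹ = t ∨ (h * h) * t * (h * h)⁻¹ = z * t) := by
    intro h hh
    have hz' : h * z * h⁻¹ = z := by rw [hh]; group
    obtain ⟨h1, h2⟩ := hσ h hh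
    constructor
    · rcases h1 with h1 | h1
      · calc (h * h) * q₀ * (h * h)⁻¹ = h * (h * q₀ * h⁻¹) * h⁻¹ := by group
          _ = q₀ := by rw [h1, h1]
      · calc (h * h) * q₀ * (h * h)⁻¹ = h * (h * q₀ * h⁻¹) * h⁻¹ := by group
          _ = h * (q₀ * z) * h⁻¹ := by rw [h1]
          _ = (h * q₀ * h⁻¹) * (h * z * h⁻¹) := by group
          _ = q₀ := by rw [h1, hz', mul_assoc, hz2, mul_one]
    · have e0 : (h * h) * t * (h * h)⁻¹ = h * (h * t * h⁻¹) * h⁻¹ := by group
      have e1 : h * (z * t) * h⁻¹ = z * (h * t * h⁻¹) := by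
        calc h * (z * t) * h⁻¹ = (h * z * h⁻¹) * (h * t * h⁻¹) := by group
          _ = z * (h * t * h⁻¹) := by rw [hz']
      have e2 : ∀ y, h * (q₀ * y) * h⁻¹ = (h * q₀ * h⁻¹) * (h * y * h⁻¹) := by intro y; group
      have f1 : q₀ * (q₀ * t) = z * t := by rw [← mul_assoc, hq2]
      have f2 : ∀ y, q₀ * (z * y) = z * (q₀ * y) := by
        intro y; rw [← mul_assoc, hzq, mul_assoc]
      have f3 : ∀ y, z * (z * y) = y := by intro y; rw [← mul_assoc, hz2, one_mul]
      rw [e0]
      rcases h2 with h2 | h2 | h2 | h2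
      · left; rw [h2, h2]
      · left; rw [h2, e1, h2, f3]
      · rw [h2, e2, h2]
        rcases h1 with h1 | h1 <;> rw [h1] <;> simp [mul_assoc, f1, f2, f3]
      · rw [h2, e2, e1, h2]
        rcases h1 with h1 | h1 <;> rw [h1] <;> simp [mul_assoc, f1, f2, f3]
  have hh2 : (h * h) * z = z * (h * h) := by
    rw [mul_assoc, hh, ← mul_assoc, hh, mul_assoc]
  set k := h * h with hk
  have hkz : k * z * k⁻¹ = z := by rw [hh2]; group
  obtain ⟨a1, a2⟩ := hτ h hh
  rw [← hk] at a1 a2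
  have b1 : Commute (k * k) q₀ := by
    have : Commute k q₀ := by
      calc k * q₀ = k * q₀ * k⁻¹ * k := by group
        _ = q₀ * k := by rw [a1]
    exact this.mul_left this
  have b2 : Commute (k * k) z := (show Commute k z from hh2).mul_left hh2
  have b3 : Commute (k * k) t := by
    have : (k * k) * t * (k * k)⁻¹ = t := by
      rcases a2 with a2 | a2
      · calc (k * k) * t * (k * k)⁻¹ = k * (k * t * k⁻¹) * k⁻¹ := by group
          _ = t := by rw [a2, a2]
      · calc (k * k) * t * (k * k)⁻¹ = k * (k * t * k⁻¹) * k⁻¹ := by group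
          _ = k * (z * t) * k⁻¹ := by rw [a2]
          _ = (k * z * k⁻¹) * (k * t * k⁻¹) := by group
          _ = t := by rw [a2, hkz, ← mul_assoc, hz2, one_mul]
    calc k * k * t = k * k * t * (k * k)⁻¹ * (k * k) := by group
      _ = t * (k * k) := by rw [this]
  have b4 := e.cent (k * k) (by
    intro y hy
    show Commute (k * k) y
    rcases hall y hy with (h1 | h1 | h1 | h1) | (h1 | h1 | h1 | h1) <;> rw [h1]
    · exact Commute.one_right _
    · exact b2
    · exact b3
    · exact b2.mul_right b3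
    · exact b1
    · exact b1.mul_right b2
    · exact b1.mul_right b3
    · exact b1.mul_right (b2.mul_right b3))
  have e8 : h ^ 8 = (k * k) * (k * k) := by rw [hk]; simp only [pow_succ, pow_zero]; group
  rw [e8]
  rcases b4 with b4 | b4 <;> rw [b4]
  · simp
  · exact hz2


/-- Setting: `z` is an involution of the finite group `G`; for each element `x`, `Q x` denotes the largest normal 2-subgroup of the centralizer of `x`; `Q z` is extraspecial and contains its own centralizer in `G` (a large extraspecial 2-subgroup in this sense). Call the conjugates of `z` singular, and say that singular `x` is orthogonal to singular `y` when `x ∈ Q y`. Then orthogonality is symmetric: if a conjugate `x` of `z` lies in `Q z`, then `z` lies in `Q x`. -/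
theorem result {G : Type*} [Group G] [Finite G]
    (Q : G → Subgroup G)
    (hQ : ∀ x : G, Q x = (Cfsg.pCore 2 ↥(Subgroup.centralizer ({x} : Set G))).map (Subgroup.centralizer ({x} : Set G)).subtype)
    (z : G) (hz : orderOf z = 2) (hE : Cfsg.IsExtraspecial 2 ↥(Q z))
    (hC : Subgroup.centralizer ((Q z : Subgroup G) : Set G) ≤ Q z)
    (g : G) (hx : g * z * g⁻¹ ∈ Q z) : z ∈ Q (g * z * g⁻¹) := by
  have eQ : ES (Q z) z := es_base Q hQ z hz hE hC
  have eR : ES (Q (g * z * g⁻¹)) (g * z * g⁻¹) := es_conj Q hQ eQ g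
  generalize ht : g * z * g⁻¹ = t at hx eR ⊢
  by_contra hzR
  have hzi : z⁻¹ = z := inv_eq_of_mul_eq_one_right eQ.sq
  have htz : t * z = z * t := eQ.ucomm t hx
  have hne : t ≠ z := by rintro rfl; exact hzR eR.mem
  obtain ⟨q₀, hq₀, hn⟩ : ∃ q₀ ∈ Q z, q₀ * t ≠ t * q₀ := by
    by_contra h
    push Not at h
    rcases eQ.cent t (fun b hb => (h b hb).symm) with h1 | h1
    · exact eR.ne h1
    · exact hne h1
  have hqt : q₀ * t * q₀⁻¹ = t * z := eQ.conj_of_not_comm hq₀ hx hn
  have hqz : q₀ * z * q₀⁻¹ = z := by rw [eQ.ucomm q₀ hq₀]; group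
  by_cases hA : ∃ r ∈ Q t, r * z * r⁻¹ = z * t
  · obtain ⟨r, hr, hrz⟩ := hA
    have hrt : r * t * r⁻¹ = t := by rw [eR.ucomm r hr]; group
    have h1 := conj_mem_Q Q hQ (q₀ * r) z (mul_mem hx eQ.mem)
    have e1 : q₀ * r * (t * z) * (q₀ * r)⁻¹ = z := by
      calc q₀ * r * (t * z) * (q₀ * r)⁻¹ = q₀ * ((r * t * r⁻¹) * (r * z * r⁻¹)) * q₀⁻¹ := by group
        _ = q₀ * (t * (t * z)) * q₀⁻¹ := by rw [hrt, hrz, htz]
        _ = z := by rw [← mul_assoc t t z, eR.sq, one_mul, hqz]
    have e2 : q₀ * r * z * (q₀ * r)⁻¹ = t := by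
      calc q₀ * r * z * (q₀ * r)⁻¹ = q₀ * (r * z * r⁻¹) * q₀⁻¹ := by group
        _ = (q₀ * z * q₀⁻¹) * (q₀ * t * q₀⁻¹) := by rw [hrz]; group
        _ = z * (z * t) := by rw [hqz, hqt, htz]
        _ = t := by rw [← mul_assoc, eQ.sq, one_mul]
    rw [e1, e2] at h1
    exact hzR h1
  push Not at hA
  have nR : ∀ p : G, p * t = t * p → ∀ y ∈ Q t, p * y * p⁻¹ ∈ Q t :=
    fun p hp y hy => conj_mem_Q_of_comm Q hQ hp hy
  have nQ : ∀ p : G, p * z = z * p → ∀ y ∈ Q z, p * y * p⁻¹ ∈ Q z :=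
    fun p hp y hy => conj_mem_Q_of_comm Q hQ hp hy
  have hZP : ∀ e ∈ Q z, (∀ p ∈ Q z, p * t = t * p → p * e = e * p) →
      e = 1 ∨ e = z ∨ e = t ∨ e = z * t := by
    intro e he h
    apply closure_pair eQ.sq eR.sq htz
    apply eQ.double_cent {t} (Set.finite_singleton t)
      (by intro w hw; rw [Set.mem_singleton_iff.1 hw]; exact hx) e he
    intro q hq hq'
    exact h q hq (hq' t rfl)
  have hE' : ∀ e ∈ Q z, e ∈ Q t → e = 1 ∨ e = t := by
    intro e he he'
    have := hZP e he (by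
      intro p hp hpt
      by_contra hc
      have h1 := eQ.conj_of_not_comm hp he hc
      have h2 := nR p hpt e he'
      rw [h1] at h2
      apply hzR
      simpa using mul_mem (inv_mem he') h2)
    rcases this with h | h | h | h
    · exact Or.inl h
    · exact absurd (h ▸ he') hzR
    · exact Or.inr h
    · exfalso; apply hzR
      rw [h] at he'
      simpa using mul_mem he' (inv_mem eR.mem)
  have S1 : ∀ r ∈ Q t, (r * z * r⁻¹ * z⁻¹ = 1 ∨ r * z * r⁻¹ * z⁻¹ = t) → r * z = z * r := by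
    intro r hr h
    rcases h with h | h
    · calc r * z = (r * z * r⁻¹ * z⁻¹) * (z * r) := by group
        _ = z * r := by rw [h, one_mul]
    · exfalso; apply hA r hr
      calc r * z * r⁻¹ = (r * z * r⁻¹ * z⁻¹) * z := by group
        _ = z * t := by rw [h, htz]
  have S2m : ∀ r ∈ Q t, r⁻¹ * (z * r * z⁻¹) ∈ Q t :=
    fun r hr => mul_mem (inv_mem hr) (nR z htz.symm r hr)
  have S2 : ∀ r ∈ Q t, (r⁻¹ * (z * r * z⁻¹)) * z = z * (r⁻¹ * (z * r * z⁻¹)) := by
    intro r hr
    apply S1 _ (S2m r hr)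
    have : r⁻¹ * (z * r * z⁻¹) * z * (r⁻¹ * (z * r * z⁻¹))⁻¹ * z⁻¹ =
        (r⁻¹ * (z * r * z⁻¹)) * (r⁻¹ * (z * r * z⁻¹)) := by
      calc r⁻¹ * (z * r * z⁻¹) * z * (r⁻¹ * (z * r * z⁻¹))⁻¹ * z⁻¹
          = (r⁻¹ * (z * r * z⁻¹)) * ((z * z) * r⁻¹ * z⁻¹ * r * z⁻¹) := by group
        _ = (r⁻¹ * (z * r * z⁻¹)) * (r⁻¹ * (z * r * z⁻¹)) := by rw [eQ.sq, hzi]; group
    rw [this]
    exact eR.sq_cases (S2m r hr)
  have S3 : ∀ p ∈ Q z, p * t = t * p → ∀ s ∈ Q t, s * z = z * s →
      p * s * p⁻¹ = s ∨ p * s * p⁻¹ = s * t := by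
    intro p hp hpt s hs hsz
    have h1 : p * s * p⁻¹ * s⁻¹ ∈ Q t := mul_mem (nR p hpt s hs) (inv_mem hs)
    have h2 : p * s * p⁻¹ * s⁻¹ ∈ Q z := by
      have := mul_mem hp (nQ s hsz _ (inv_mem hp))
      simpa [mul_assoc] using this
    rcases hE' _ h2 h1 with h | h
    · left
      calc p * s * p⁻¹ = (p * s * p⁻¹ * s⁻¹) * s := by group
        _ = s := by rw [h, one_mul]
    · right
      calc p * s * p⁻¹ = (p * s * p⁻¹ * s⁻¹) * s := by group
        _ = s * t := by rw [h, eR.ucomm s hs]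
  have S4 : ∀ u ∈ Q t, (∀ s ∈ Q t, s * z = z * s → Commute u s) → u * z = z * u := by
    intro u hu h
    have h1 := eR.cent (u⁻¹ * (z * u * z⁻¹)) (by
      intro r hr
      apply comm_of_iff eR (inv_mem hu) (nR z htz.symm u hu) hr
      rw [commute_conj_iff, Commute.inv_left_iff]
      have e1 : z⁻¹ * r * z = r * (r⁻¹ * (z * r * z⁻¹)) := by rw [hzi]; group
      rw [e1, commute_mul_iff r (h _ (S2m r hr) (S2 r hr))])
    have h2 := S1 u⁻¹ (inv_mem hu) (by simpa [mul_assoc] using h1)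
    exact (Commute.inv_left_iff.1 h2).eq
  have S5 : ∀ p ∈ Q z, p * t = t * p → ∀ r ∈ Q t,
      (r⁻¹ * (p * r * p⁻¹)) * z = z * (r⁻¹ * (p * r * p⁻¹)) := by
    intro p hp hpt r hr
    apply S4 _ (mul_mem (inv_mem hr) (nR p hpt r hr))
    intro s hs hsz
    apply comm_of_iff eR (inv_mem hr) (nR p hpt r hr) hs
    rw [commute_conj_iff, Commute.inv_left_iff]
    have hpt' : p⁻¹ * t = t * p⁻¹ := (Commute.inv_left hpt).eq
    have := S3 p⁻¹ (inv_mem hp) hpt' s hs hsz
    rw [inv_inv] at this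
    rcases this with h | h
    · rw [h]
    · rw [h, commute_mul_iff s (eR.ucomm r hr)]
  have S6 : ∀ p ∈ Q z, p * t = t * p → p * p = 1 := by
    intro p hp hpt
    refine (eQ.sq_cases hp).resolve_right fun hp2 => ?_
    have := eR.cent z (by
      intro r hr
      have hu : r⁻¹ * (p * r * p⁻¹) ∈ Q t := mul_mem (inv_mem hr) (nR p hpt r hr)
      have h5 := S5 p hp hpt r hr
      set u := r⁻¹ * (p * r * p⁻¹) with hudef
      have e1 : r⁻¹ * z * r⁻¹⁻¹ * z⁻¹ = u * (p * u * p⁻¹) := by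
        rw [hudef, ← hp2]; group
      have h6 := S1 r⁻¹ (inv_mem hr) (by
        rw [e1]
        rcases S3 p hp hpt u hu h5 with h | h <;> rw [h]
        · exact eR.sq_cases hu
        · rw [← mul_assoc]
          rcases eR.sq_cases hu with h' | h' <;> rw [h']
          · right; simp
          · left; exact eR.sq)
      exact (Commute.inv_left_iff.1 h6).eq.symm)
    rcases this with h | h
    · exact eQ.ne h
    · exact hne h.symm
  have S7 : ∀ p ∈ Q z, p * t = t * p → p = 1 ∨ p = z ∨ p = t ∨ p = z * t := by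
    intro p hp hpt
    apply hZP p hp
    intro a ha hat
    have h1 := S6 (a * p) (mul_mem ha hp) ((show Commute a t from hat).mul_left hpt).eq
    rw [← inv_eq_of_mul_eq_one_right h1, mul_inv_rev, inv_eq_of_mul_eq_one_right (S6 a ha hat),
      inv_eq_of_mul_eq_one_right (S6 p hp hpt)]
  have S8 : ∀ h : G, h * z = z * h → h ^ 8 = 1 := by
    intro h hh
    rcases eQ.sq_cases hq₀ with h2 | h2
    · refine pow_eight eQ hx eR.sq (mul_mem hq₀ hx) ?_ ?_ S7 nQ h hh
      · calc q₀ * t * (q₀ * t) = (q₀ * t * q₀⁻¹) * (q₀ * q₀) * t := by group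
          _ = (t * z) * t := by rw [hqt, h2, mul_one]
          _ = z := by rw [htz, mul_assoc, eR.sq, mul_one]
      · intro h3
        apply hn
        rw [← mul_assoc] at h3
        exact mul_right_cancel h3
    · exact pow_eight eQ hx eR.sq hq₀ h2 hn S7 nQ h hh
  have hp : IsPGroup 2 (⊤ : Subgroup (Subgroup.centralizer ({z} : Set G))) := by
    intro a
    refine ⟨3, ?_⟩
    apply Subtype.ext
    apply Subtype.ext
    exact S8 _ (Subgroup.mem_centralizer_singleton_iff.1 a.1.2)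
  have hall : ∀ h : G, h * z = z * h → h ∈ Q z := by
    intro h hh
    rw [hQ]
    refine ⟨⟨h, Subgroup.mem_centralizer_singleton_iff.2 hh⟩, ?_, rfl⟩
    exact (le_sSup (s := {N : Subgroup (Subgroup.centralizer ({z} : Set G)) |
      N.Normal ∧ IsPGroup 2 N}) ⟨inferInstance, hp⟩ : ⊤ ≤ _) (Subgroup.mem_top _)
  have h1 := conj_mem_Q Q hQ g z (hall (g⁻¹ * z * g) (by
    calc g⁻¹ * z * g * z = g⁻¹ * (z * t) * g := by rw [← ht]; group
      _ = z * (g⁻¹ * z * g) := by rw [← htz, ← ht]; group))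
  rw [ht] at h1
  apply hzR
  simpa [mul_assoc] using h1

end Cfsg.Agent.S5595
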