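import Mathlib
import Cfsg.Statements.S5596
import Cfsg.Agent.Lib.SingInv.Basic

set_option autoImplicit false
open Cfsg

namespace Cfsg.Agent.S5596

open CfsgLib.SingInv

/-- Setting: `z` is an involution of the finite group `G`; for each element `x`, `Q x` is the largest normal 2-subgroup of the centralizer of `x`; `Q z` is extraspecial and contains its own centralizer in `G`. A subgroup `U` is singular when it is elementary abelian, every non-identity element of `U` is conjugate to `z`, and any two non-identity elements `u`, `v` of `U` are orthogonal (`v ∈ Q u`). Write `QU` for the intersection of the `Q u` and `LU` for the join of the `Q u` over the non-identity `u` in `U`. If `U` is singular of order `2 ^ n` with `n ≥ 2`, then `U ≤ QU ≤ LU`, `LU` normalizes `U`, and `LU` induces on `U` its full automorphism group (the general linear group of dimension `n` over the field with two elements): every automorphism of `U` is conjugation by some element of `LU`. -/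
theorem result {G : Type*} [Group G] [Finite G]
    (Q : G → Subgroup G)
    (hQ : ∀ x : G, Q x = (Cfsg.pCore 2 ↥(Subgroup.centralizer ({x} : Set G))).map (Subgroup.centralizer ({x} : Set G)).subtype)
    (z : G) (hz : orderOf z = 2) (hE : Cfsg.IsExtraspecial 2 ↥(Q z))
    (hC : Subgroup.centralizer ((Q z : Subgroup G) : Set G) ≤ Q z)
    (U : Subgroup G) (hU2 : ∀ u ∈ U, u * u = 1)
    (hS : ∀ u ∈ U, u ≠ 1 → ∃ g : G, g * z * g⁻¹ = u)
    (hO : ∀ u ∈ U, ∀ v ∈ U, u ≠ 1 → v ≠ 1 → v ∈ Q u)
    (QU LU : Subgroup G) (hQU : QU = ⨅ u ∈ ((U : Set G) \ {1}), Q u) (hLU : LU = ⨆ u ∈ ((U : Set G) \ {1}), Q u)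
    (n : ℕ) (hn : 2 ≤ n) (hcard : Nat.card ↥U = 2 ^ n) :
    U ≤ QU ∧ QU ≤ LU ∧ LU ≤ Subgroup.normalizer (U : Set G) ∧
      ∀ φ : ↥U ≃* ↥U, ∃ g ∈ LU, ∀ u : ↥U, g * (u : G) * g⁻¹ = ((φ u : ↥U) : G) := by
  classical
  have hes : ∀ u ∈ U, u ≠ 1 → ES (Q u) u := by
    intro u hu hu1
    obtain ⟨g, rfl⟩ := hS u hu hu1
    exact es_conj Q hQ (es_base Q hQ z hz hE hC) g
  have hUQ : ∀ u ∈ U, u ≠ 1 → ∀ v ∈ U, v ∈ Q u := by
    intro u hu hu1 v hv
    by_cases hv1 : v = 1
    · rw [hv1]; exact one_mem _
    · exact hO u hu v hv hu1 hv1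
  have hQle : ∀ u ∈ U, u ≠ 1 → Q u ≤ LU := by
    intro u hu hu1
    rw [hLU]
    exact le_iSup₂_of_le (f := fun u (_ : u ∈ ((U : Set G) \ {1})) => Q u) u ⟨hu, hu1⟩ le_rfl
  have hinv : ∀ u ∈ U, u⁻¹ = u := fun u hu => inv_eq_of_mul_eq_one_right (hU2 u hu)
  have hcomm : ∀ u ∈ U, ∀ v ∈ U, u * v = v * u := by
    intro u hu v hv
    rw [← hinv _ (mul_mem hu hv), mul_inv_rev, hinv u hu, hinv v hv]
  have hnorm : LU ≤ Subgroup.normalizer (U : Set G) := by
    rw [hLU]
    refine iSup₂_le ?_
    rintro u ⟨hu, hu1⟩ q hq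
    have eu := hes u hu hu1
    have hn : ∀ q ∈ Q u, ∀ v ∈ U, q * v * q⁻¹ ∈ U := by
      intro q hq v hv
      rcases eu.conj_cases hq (hUQ u hu hu1 v hv) with h | h
      · rw [h]; exact hv
      · rw [h]; exact mul_mem hv hu
    rw [Subgroup.mem_normalizer_iff]
    intro v
    refine ⟨hn q hq v, fun h => ?_⟩
    have := hn q⁻¹ (inv_mem hq) _ h
    simpa [mul_assoc] using this
  refine ⟨?_, ?_, hnorm, ?_⟩
  · intro v hv
    rw [hQU]
    simp only [Subgroup.mem_iInf]
    rintro u ⟨hu, hu1⟩
    exact hUQ u hu hu1 v hv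
  · have hnt : Nontrivial U := by
      rw [← Finite.one_lt_card_iff_nontrivial, hcard]
      exact Nat.one_lt_two_pow (by omega)
    obtain ⟨u, hu1⟩ := exists_ne (1 : U)
    have hu1' : (u : G) ≠ 1 := fun h => hu1 (Subtype.ext h)
    refine le_trans ?_ (hQle u u.2 hu1')
    rw [hQU]
    exact iInf₂_le (f := fun u (_ : u ∈ ((U : Set G) \ {1})) => Q u) (u : G) ⟨u.2, hu1'⟩
  · intro φ
    have key : ∀ S : Finset U, ∃ g ∈ LU, ∀ s ∈ S, g * (s : G) * g⁻¹ = ((φ s : U) : G) := by
      intro S
      induction S using Finset.induction_on with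
      | empty => exact ⟨1, one_mem _, by simp⟩
      | insert v S _ ih =>
        obtain ⟨g, hg, hgS⟩ := ih
        by_cases hv : g * (v : G) * g⁻¹ = ((φ v : U) : G)
        · refine ⟨g, hg, fun s hs => ?_⟩
          rcases Finset.mem_insert.1 hs with rfl | hs
          · exact hv
          · exact hgS s hs
        have hv' : g * (v : G) * g⁻¹ ∈ U := (Subgroup.mem_normalizer_iff.1 (hnorm hg) _).1 v.2
        set v' := g * (v : G) * g⁻¹ with hv'def
        set w : G := ((φ v : U) : G) with hw
        have hwU : w ∈ U := (φ v).2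
        let W : Set G := {y | ∃ x : U, g * (x : G) * g⁻¹ = ((φ x : U) : G) ∧ y = ((φ x : U) : G)}
        have hWU : ∀ y ∈ W, y ∈ U := by
          rintro y ⟨x, -, rfl⟩
          exact (φ x).2
        have hWmul : ∀ a ∈ W, ∀ b ∈ W, a * b ∈ W := by
          rintro a ⟨x, hx, rfl⟩ b ⟨y, hy, rfl⟩
          refine ⟨x * y, ?_, by simp⟩
          rw [map_mul, Subgroup.coe_mul, Subgroup.coe_mul, ← hx, ← hy]; group
        have hv'W : v' ∉ W := by
          rintro ⟨x, hx, hx'⟩
          have : x = v := by
            apply Subtype.ext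
            rw [← hx', hv'def] at hx
            exact mul_left_cancel (mul_right_cancel hx)
          rw [this] at hx
          exact hv hx
        have hwW : w ∉ W := by
          rintro ⟨x, hx, hx'⟩
          have : v = x := φ.injective (Subtype.ext hx')
          rw [← this] at hx
          exact hv hx
        have hu : v' * w ∈ U := mul_mem hv' hwU
        have hu1 : v' * w ≠ 1 := by
          intro h
          apply hv
          rw [← hinv w hwU]
          exact eq_inv_of_mul_eq_one_left h
        have eu := hes _ hu hu1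
        have e0 : v' * (v' * w) = w := by rw [← mul_assoc, hU2 v' hv', one_mul]
        have hnot : v' ∉ Subgroup.closure (insert (v' * w) W) := by
          intro hmem
          have : ∀ y ∈ Subgroup.closure (insert (v' * w) W),
              y ∈ U ∧ (y ∈ W ∨ y * (v' * w) ∈ W) := by
            intro y hy
            induction hy using Subgroup.closure_induction with
            | mem x hx =>
              rcases hx with rfl | hx
              · refine ⟨hu, Or.inr ?_⟩
                rw [eu.sq]
                exact ⟨1, by simp, by simp⟩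
              · exact ⟨hWU x hx, Or.inl hx⟩
            | one => exact ⟨one_mem _, Or.inl ⟨1, by simp, by simp⟩⟩
            | inv x _ ih => rw [hinv x ih.1]; exact ih
            | mul a b _ _ iha ihb =>
              obtain ⟨ha, iha⟩ := iha
              obtain ⟨hb, ihb⟩ := ihb
              refine ⟨mul_mem ha hb, ?_⟩
              rcases iha with h | h <;> rcases ihb with h' | h'
              · exact Or.inl (hWmul _ h _ h')
              · right; rw [mul_assoc]; exact hWmul _ h _ h'
              · right
                rw [mul_assoc, hcomm b hb _ hu, ← mul_assoc]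
                exact hWmul _ h _ h'
              · left
                have := hWmul _ h _ h'
                rwa [hcomm b hb _ hu, mul_assoc, ← mul_assoc (v' * w), eu.sq, one_mul] at this
          rcases (this v' hmem).2 with h | h
          · exact hv'W h
          · rw [e0] at h; exact hwW h
        obtain ⟨q, hq, hq1, hq2⟩ := eu.exists_conj W (Set.toFinite _)
          (fun y hy => hUQ _ hu hu1 y (hWU y hy)) (hUQ _ hu hu1 v' hv') hnot
        refine ⟨q * g, mul_mem (hQle _ hu hu1 hq) hg, fun s hs => ?_⟩
        have e1 : q * g * (s : G) * (q * g)⁻¹ = q * (g * (s : G) * g⁻¹) * q⁻¹ := by group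
        rw [e1]
        rcases Finset.mem_insert.1 hs with rfl | hs
        · rw [← hv'def, hq2, e0]
        · rw [hgS s hs, hq1 _ ⟨s, hgS s hs, rfl⟩, mul_inv_cancel_right]
    haveI : Fintype U := Fintype.ofFinite U
    obtain ⟨g, hg, h⟩ := key Finset.univ
    exact ⟨g, hg, fun u => h u (Finset.mem_univ u)⟩

end Cfsg.Agent.S5596
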