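import Mathlib
import Cfsg.Statements.S5597
import Cfsg.Agent.Lib.SingInv.Basic

set_option autoImplicit false
open Cfsg

namespace Cfsg.Agent.S5597

open CfsgLib.SingInv

/-- Setting: `z` is an involution of the finite group `G`; for each element `x`, `Q x` is the largest normal 2-subgroup of the centralizer of `x`; `Q z` is extraspecial and contains its own centralizer in `G`. A subgroup `U` is singular when it is elementary abelian, every non-identity element of `U` is conjugate to `z`, and any two non-identity elements `u`, `v` of `U` are orthogonal (`v ∈ Q u`). Write `QU` for the intersection of the `Q u` and `LU` for the join of the `Q u` over the non-identity `u` in `U`. If `U` is a non-trivial singular subgroup, then `LU` acts trivially on `QU / U` (every commutator of an element of `LU` with an element of `QU` lies in `U`), and for every `x` in `QU` outside `U` the centralizer of `U` in `LU` permutes the coset `x U` transitively: each `x u` with `u ∈ U` is a conjugate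 of `x` by an element of `LU` centralizing `U`. -/
theorem result {G : Type*} [Group G] [Finite G]
    (Q : G → Subgroup G)
    (hQ : ∀ x : G, Q x = (Cfsg.pCore 2 ↥(Subgroup.centralizer ({x} : Set G))).map (Subgroup.centralizer ({x} : Set G)).subtype)
    (z : G) (hz : orderOf z = 2) (hE : Cfsg.IsExtraspecial 2 ↥(Q z))
    (hC : Subgroup.centralizer ((Q z : Subgroup G) : Set G) ≤ Q z)
    (U : Subgroup G) (hU2 : ∀ u ∈ U, u * u = 1)
    (hS : ∀ u ∈ U, u ≠ 1 → ∃ g : G, g * z * g⁻¹ = u)
    (hO : ∀ u ∈ U, ∀ v ∈ U, u ≠ 1 → v ≠ 1 → v ∈ Q u)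
    (QU LU : Subgroup G) (hQU : QU = ⨅ u ∈ ((U : Set G) \ {1}), Q u) (hLU : LU = ⨆ u ∈ ((U : Set G) \ {1}), Q u)
    (hU : U ≠ ⊥) :
    (∀ g ∈ LU, ∀ x ∈ QU, g * x * g⁻¹ * x⁻¹ ∈ U) ∧
      ∀ x ∈ QU, x ∉ U → ∀ u ∈ U, ∃ g ∈ LU ⊓ Subgroup.centralizer (U : Set G), g * x * g⁻¹ = x * u := by
  have hes : ∀ u ∈ U, u ≠ 1 → ES (Q u) u := by
    intro u hu hu1
    obtain ⟨g, rfl⟩ := hS u hu hu1
    exact es_conj Q hQ (es_base Q hQ z hz hE hC) g
  have hUQ : ∀ u ∈ U, u ≠ 1 → ∀ v ∈ U, v ∈ Q u := by
    intro u hu hu1 v hv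
    by_cases hv1 : v = 1
    · rw [hv1]; exact one_mem _
    · exact hO u hu v hv hu1 hv1
  have hQUle : ∀ u ∈ U, u ≠ 1 → ∀ x ∈ QU, x ∈ Q u := by
    intro u hu hu1 x hx
    rw [hQU] at hx
    simp only [Subgroup.mem_iInf] at hx
    exact hx u ⟨hu, hu1⟩
  constructor
  · let K : Subgroup G :=
      { carrier := {g | g ∈ Subgroup.normalizer (U : Set G) ∧ ∀ x ∈ QU, g * x * g⁻¹ * x⁻¹ ∈ U}
        one_mem' := ⟨one_mem _, fun x _ => by simp⟩
        mul_mem' := by
          rintro a b ⟨ha, ha'⟩ ⟨hb, hb'⟩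
          refine ⟨mul_mem ha hb, fun x hx => ?_⟩
          have e : a * b * x * (a * b)⁻¹ * x⁻¹ =
              (a * (b * x * b⁻¹ * x⁻¹) * a⁻¹) * (a * x * a⁻¹ * x⁻¹) := by group
          rw [e]
          exact mul_mem ((Subgroup.mem_normalizer_iff.1 ha _).1 (hb' x hx)) (ha' x hx)
        inv_mem' := by
          rintro a ⟨ha, ha'⟩
          refine ⟨inv_mem ha, fun x hx => ?_⟩
          have e : a⁻¹ * x * a⁻¹⁻¹ * x⁻¹ = a⁻¹ * (a * x * a⁻¹ * x⁻¹)⁻¹ * a⁻¹⁻¹ := by group
          rw [e]
          exact (Subgroup.mem_normalizer_iff.1 (inv_mem ha) _).1 (inv_mem (ha' x hx)) }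
    have hle : LU ≤ K := by
      rw [hLU]
      refine iSup₂_le ?_
      rintro u ⟨hu, hu1⟩ q hq
      have eu := hes u hu hu1
      have hn : ∀ q ∈ Q u, ∀ v ∈ U, q * v * q⁻¹ ∈ U := by
        intro q hq v hv
        rcases eu.conj_cases hq (hUQ u hu hu1 v hv) with h | h
        · rw [h]; exact hv
        · rw [h]; exact mul_mem hv hu
      refine ⟨?_, fun x hx => ?_⟩
      · rw [Subgroup.mem_normalizer_iff]
        intro v
        refine ⟨hn q hq v, fun h => ?_⟩
        have := hn q⁻¹ (inv_mem hq) _ h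
        simpa [mul_assoc] using this
      · have hxq := hQUle u hu hu1 x hx
        rcases eu.conj_cases hq hxq with h | h
        · rw [h]; simp
        · rw [h, eu.ucomm x hxq]; simpa using hu
    intro g hg
    exact (hle hg).2
  · intro x hx hxU u hu
    by_cases hu1 : u = 1
    · exact ⟨1, one_mem _, by simp [hu1]⟩
    have eu := hes u hu hu1
    obtain ⟨q, hq, hq1, hq2⟩ := eu.exists_conj (U : Set G) (Set.toFinite _) (hUQ u hu hu1)
      (hQUle u hu hu1 x hx) (by
        rw [Set.insert_eq_of_mem hu, Subgroup.closure_eq]; exact hxU)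
    refine ⟨q, ⟨?_, ?_⟩, hq2⟩
    · rw [hLU]
      exact (le_iSup₂_of_le (f := fun u (_ : u ∈ ((U : Set G) \ {1})) => Q u) u ⟨hu, hu1⟩ le_rfl :
        Q u ≤ _) hq
    · show q ∈ Subgroup.centralizer (U : Set G)
      rw [Subgroup.mem_centralizer_iff]
      intro v hv
      exact (hq1 v hv).symm

end Cfsg.Agent.S5597
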