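import Mathlib
import Cfsg.Statements.S5598
import Cfsg.Agent.Lib.SingInv.Basic

set_option autoImplicit false
open Cfsg

namespace Cfsg.Agent.S5598

open CfsgLib.SingInv

/-- Setting: `z` is an involution of the finite group `G`; for each element `x`, `Q x` is the largest normal 2-subgroup of the centralizer of `x`; `Q z` is extraspecial and contains its own centralizer in `G`. A subgroup `U` is singular when it is elementary abelian, every non-identity element of `U` is conjugate to `z`, and any two non-identity elements `u`, `v` of `U` are orthogonal (`v ∈ Q u`). Write `QU` for the intersection of the `Q u` and `LU` for the join of the `Q u` over the non-identity `u` in `U`. If the singular subgroup `U` is generated by a set `T` of non-identity elements, then `QU` is already the intersection of the `Q t` over `t ∈ T`. -/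
theorem result {G : Type*} [Group G] [Finite G]
    (Q : G → Subgroup G)
    (hQ : ∀ x : G, Q x = (Cfsg.pCore 2 ↥(Subgroup.centralizer ({x} : Set G))).map (Subgroup.centralizer ({x} : Set G)).subtype)
    (z : G) (hz : orderOf z = 2) (hE : Cfsg.IsExtraspecial 2 ↥(Q z))
    (hC : Subgroup.centralizer ((Q z : Subgroup G) : Set G) ≤ Q z)
    (U : Subgroup G) (hU2 : ∀ u ∈ U, u * u = 1)
    (hS : ∀ u ∈ U, u ≠ 1 → ∃ g : G, g * z * g⁻¹ = u)
    (hO : ∀ u ∈ U, ∀ v ∈ U, u ≠ 1 → v ≠ 1 → v ∈ Q u)
    (QU LU : Subgroup G) (hQU : QU = ⨅ u ∈ ((U : Set G) \ {1}), Q u) (hLU : LU = ⨆ u ∈ ((U : Set G) \ {1}), Q u)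
    (T : Set G) (hT : Subgroup.closure T = U) (hT1 : (1 : G) ∉ T) :
    QU = ⨅ t ∈ T, Q t := by
  have hes : ∀ u ∈ U, u ≠ 1 → ES (Q u) u := by
    intro u hu hu1
    obtain ⟨g, rfl⟩ := hS u hu hu1
    exact es_conj Q hQ (es_base Q hQ z hz hE hC) g
  have hTU : ∀ t ∈ T, t ∈ U := fun t ht => hT ▸ Subgroup.subset_closure ht
  subst hQU
  apply le_antisymm
  · intro y hy
    simp only [Subgroup.mem_iInf] at hy ⊢
    intro t ht
    exact hy t ⟨hTU t ht, fun h => hT1 (by rw [← Set.mem_singleton_iff.1 h]; exact ht)⟩
  · intro y hy
    simp only [Subgroup.mem_iInf] at hy ⊢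
    have key : ∀ u ∈ Subgroup.closure T, u = 1 ∨ y ∈ Q u := by
      intro u hu
      induction hu using Subgroup.closure_induction with
      | mem x hx => exact Or.inr (hy x hx)
      | one => exact Or.inl rfl
      | inv x hx ih =>
        have : x⁻¹ = x := inv_eq_of_mul_eq_one_right (hU2 x (hT ▸ hx))
        rw [this]; exact ih
      | mul a b ha hb iha ihb =>
        rw [hT] at ha hb
        by_cases hab : a * b = 1
        · exact Or.inl hab
        right
        by_cases ha1 : a = 1
        · rw [ha1, one_mul] at hab ⊢
          exact ihb.resolve_left hab
        by_cases hb1 : b = 1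
        · rw [hb1, mul_one]
          exact iha.resolve_left ha1
        have hya := iha.resolve_left ha1
        have hyb := ihb.resolve_left hb1
        by_cases hyU : y ∈ U
        · by_cases hy1 : y = 1
          · rw [hy1]; exact one_mem _
          · exact hO _ (mul_mem ha hb) y hyU hab hy1
        have ea := hes a ha ha1
        have eb := hes b hb hb1
        have hne : a ≠ b := by
          rintro rfl
          exact hab (hU2 a ha)
        have hy2 : y * y = 1 := by
          rcases ea.sq_cases hya with h | h
          · exact h
          · rcases eb.sq_cases hyb with h' | h'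
            · exact h'
            · exact absurd (h.symm.trans h') hne
        have hyi : y⁻¹ = y := inv_eq_of_mul_eq_one_right hy2
        have hai : a⁻¹ = a := inv_eq_of_mul_eq_one_right (hU2 a ha)
        have hcom : y * a = a * y := ea.ucomm y hya
        have hb_not : b ∉ Subgroup.closure (insert a ({y} : Set G)) := by
          intro hb'
          have : ∀ w ∈ Subgroup.closure (insert a ({y} : Set G)),
              w = 1 ∨ w = a ∨ w = y ∨ w = a * y := by
            intro w hw
            induction hw using Subgroup.closure_induction with
            | mem x hx =>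
              rcases hx with rfl | hx
              · simp
              · simp [Set.mem_singleton_iff.1 hx]
            | one => simp
            | inv x _ ih =>
              rcases ih with h | h | h | h
              · simp [h]
              · simp [h, hai]
              · simp [h, hyi]
              · simp [h, hai, hyi, hcom]
            | mul u v _ _ ihu ihv =>
              have e1 : a * (a * y) = y := by rw [← mul_assoc, ea.sq, one_mul]
              have e2 : y * (a * y) = a := by rw [← hcom, ← mul_assoc, hy2, one_mul]
              have e3 : a * y * a = y := by rw [mul_assoc, hcom, e1]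
              have e4 : a * y * y = a := by rw [mul_assoc, hy2, mul_one]
              have e5 : a * y * (a * y) = 1 := by rw [mul_assoc, e2, ea.sq]
              rcases ihu with h | h | h | h <;> rcases ihv with h' | h' | h' | h' <;>
                simp [h, h', e1, e2, e3, e4, e5, hcom, hy2, ea.sq]
          rcases this b hb' with h | h | h | h
          · exact hb1 h
          · exact hne h.symm
          · exact hyU (h ▸ hb)
          · apply hyU
            have : y = a⁻¹ * b := by rw [h]; group
            rw [this]; exact mul_mem (inv_mem ha) hb
        obtain ⟨q, -, hq1, hq2⟩ := ea.exists_conj {y} (Set.finite_singleton y)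
          (by intro w hw; rw [Set.mem_singleton_iff.1 hw]; exact hya) (hO a ha b hb ha1 hb1) hb_not
        have h1 := conj_mem_Q Q hQ q b hyb
        rw [hq2, hq1 y rfl, mul_inv_cancel_right, ea.ucomm b (hO a ha b hb ha1 hb1)] at h1
        exact h1
    rintro u ⟨hu, hu1⟩
    exact (key u (hT ▸ hu)).resolve_left hu1

end Cfsg.Agent.S5598
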