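import Cfsg.Statements.S5945
import Cfsg.Agent.Lib.SymMax.SmallIndex

set_option autoImplicit false
open Cfsg

namespace Cfsg.Agent.S5945

/-- The symmetric group S_6 has exactly 12 subgroups of index 6; each of them is isomorphic to S_5, and at least one of them is not the stabilizer of any point. -/
theorem result : Nat.card {H : Subgroup (Equiv.Perm (Fin 6)) // H.index = 6} = 12 ∧ (∀ H : Subgroup (Equiv.Perm (Fin 6)), H.index = 6 → Nonempty (H ≃* Equiv.Perm (Fin 5))) ∧ ∃ H : Subgroup (Equiv.Perm (Fin 6)), H.index = 6 ∧ ∀ a : Fin 6, H ≠ MulAction.stabilizer (Equiv.Perm (Fin 6)) a := by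
  obtain ⟨ψ, hψ, hall⟩ := CfsgLib.SymMax.exists_outer_six (Ω := Fin 6) (by simp)
  have hidx : ∀ x : Fin 6, (MulAction.stabilizer (Equiv.Perm (Fin 6)) x).index = 6 := by
    intro x
    rw [MulAction.index_stabilizer_of_transitive]; simp
  have hidx' : ∀ x : Fin 6, ((MulAction.stabilizer (Equiv.Perm (Fin 6)) x).map ψ.toMonoidHom).index = 6 := by
    intro x
    exact (Subgroup.index_map_of_bijective ψ.bijective _).trans (hidx x)
  have hinj : Function.Injective (fun x : Fin 6 => MulAction.stabilizer (Equiv.Perm (Fin 6)) x) := by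
    intro x y hxy
    by_contra hne
    obtain ⟨z, hz1, hz2⟩ : ∃ z : Fin 6, x ≠ z ∧ y ≠ z :=
      (by decide : ∀ x y : Fin 6, ∃ z : Fin 6, x ≠ z ∧ y ≠ z) x y
    have h1 : Equiv.swap y z ∈ MulAction.stabilizer (Equiv.Perm (Fin 6)) x :=
      Equiv.swap_apply_of_ne_of_ne hne hz1
    simp only at hxy
    rw [hxy] at h1
    have h2 : Equiv.swap y z y = y := h1
    rw [Equiv.swap_apply_left] at h2
    exact hz2 h2.symm
  have hne : ∀ x y : Fin 6, (MulAction.stabilizer (Equiv.Perm (Fin 6)) x).map ψ.toMonoidHom ≠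
      MulAction.stabilizer (Equiv.Perm (Fin 6)) y := by
    intro x y hg
    obtain ⟨u, v, huv, hu, hv⟩ : ∃ u v : Fin 6, u ≠ v ∧ x ≠ u ∧ x ≠ v :=
      (by decide : ∀ x : Fin 6, ∃ u v : Fin 6, u ≠ v ∧ x ≠ u ∧ x ≠ v) x
    have : ψ (Equiv.swap u v) ∈ MulAction.stabilizer (Equiv.Perm (Fin 6)) y := by
      rw [← hg]
      exact ⟨_, Equiv.swap_apply_of_ne_of_ne hu hv, rfl⟩
    exact hψ _ (Equiv.Perm.swap_isSwap_iff.2 huv) _ this
  have hiso : ∀ x : Fin 6, Nonempty (MulAction.stabilizer (Equiv.Perm (Fin 6)) x ≃* Equiv.Perm (Fin 5)) := by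
    intro x
    obtain ⟨e⟩ : Nonempty ({y : Fin 6 // y ≠ x} ≃ Fin 5) := by
      rw [← Fintype.card_eq]; simp
    exact ⟨(CfsgLib.SymMax.stabilizerEquiv x).symm.trans e.permCongrHom⟩
  refine ⟨?_, fun H hH => ?_, _, hidx' 0, hne 0⟩
  · let f : Fin 6 ⊕ Fin 6 → {H : Subgroup (Equiv.Perm (Fin 6)) // H.index = 6} :=
      Sum.elim (fun x => ⟨_, hidx x⟩) (fun x => ⟨_, hidx' x⟩)
    have hf : Function.Bijective f := by
      constructor
      · rintro (x | x) (y | y) h
        · exact congrArg Sum.inl (hinj (congrArg Subtype.val h))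
        · exact absurd (congrArg Subtype.val h).symm (hne y x)
        · exact absurd (congrArg Subtype.val h) (hne x y)
        · exact congrArg Sum.inr (hinj (Subgroup.map_injective ψ.injective (congrArg Subtype.val h)))
      · rintro ⟨H, hH⟩
        obtain ⟨x, rfl | rfl⟩ := hall H hH
        · exact ⟨Sum.inl x, rfl⟩
        · exact ⟨Sum.inr x, rfl⟩
    rw [← Nat.card_eq_of_bijective f hf]
    simp
  · obtain ⟨x, rfl | rfl⟩ := hall H hH
    · exact hiso x
    · obtain ⟨e⟩ := hiso x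
      exact ⟨(ψ.subgroupMap _).symm.trans e⟩

end Cfsg.Agent.S5945
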