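import Cfsg.Statements.S5712
import Cfsg.Agent.Lib.Sp2Root.Core
import Cfsg.Agent.Lib.Core.Cores
import Cfsg.Agent.S0247
import Cfsg.Agent.S5945

set_option autoImplicit false
open Cfsg

namespace Cfsg.Agent.S5712

open CfsgLib.Forms CfsgLib.ClMax CfsgLib.Sp2Root

theorem perm_six (K : Subgroup (Equiv.Perm (Fin 6))) (h : 120 ∣ Nat.card K) :
    K = ⊤ ∨ K = alternatingGroup (Fin 6) ∨ Nonempty (K ≃* Equiv.Perm (Fin 5)) := by
  have h1 := K.card_mul_index
  rw [Nat.card_perm, Nat.card_fin] at h1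
  obtain ⟨m, hm⟩ := h
  have h2 : K.index ∣ 6 := by
    refine ⟨m, ?_⟩
    rw [hm, show Nat.factorial 6 = 120 * 6 by rfl, mul_assoc] at h1
    have := Nat.eq_of_mul_eq_mul_left (by norm_num) h1
    exact this.symm.trans (mul_comm _ _)
  have h3 : K.index ≤ 6 := Nat.le_of_dvd (by norm_num) h2
  have h4 : K.index ≠ 3 := by
    intro h5
    have h6 : K.normalCore.index ∣ 6 := by
      rw [Subgroup.normalCore_eq_ker, Subgroup.index_ker]
      have := Subgroup.card_subgroup_dvd_card (MulAction.toPermHom (Equiv.Perm (Fin 6))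
        (Equiv.Perm (Fin 6) ⧸ K)).range
      rwa [Nat.card_perm, ← Subgroup.index_eq_card, h5] at this
    have h7 : Nontrivial K.normalCore := by
      rw [Subgroup.nontrivial_iff_ne_bot]
      intro h8
      rw [h8, Subgroup.index_bot, Nat.card_perm, Nat.card_fin] at h6
      revert h6
      decide
    have h8 := Subgroup.index_dvd_of_le
      ((Equiv.Perm.alternatingGroup_le_of_normal (by simp) h7).trans K.normalCore_le)
    rw [h5, alternatingGroup.index_eq_two] at h8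
    revert h8
    decide
  interval_cases h5 : K.index
  · simp at h2
  · exact Or.inl (Subgroup.index_eq_one.1 h5)
  · exact Or.inr (Or.inl (Equiv.Perm.eq_alternatingGroup_of_index_eq_two h5))
  · exact (h4 rfl).elim
  · simp at h2
  · simp at h2
  · exact Or.inr (Or.inr (Cfsg.Agent.S5945.result.2.1 K h5))

theorem rk_eq {F : Type*} [Field F] {ι : Type*} [Fintype ι] [DecidableEq ι] (g : GL ι F) :
    rk (glEquiv g) = ((g : Matrix ι ι F) - 1).rank := by
  have : ((glEquiv g : (ι → F) ≃ₗ[F] (ι → F)) : (ι → F) →ₗ[F] (ι → F)) - LinearMap.id =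
      ((g : Matrix ι ι F) - 1).mulVecLin :=
    LinearMap.ext fun v => by simp [glEquiv_apply]
  rw [rk, Matrix.rank, this]


/-- Let F be a finite field of characteristic two, n ≥ 2, V = F^{2n} with the non-degenerate alternating form f(u, v) = Σ (u_i v_{n+i} + u_{n+i} v_i), and G the group of invertible matrices preserving f. Let a ≠ 0 be a vector, H its stabilizer in G, and X a subgroup of O₂(H) of order |F|^{2n−2} no element of which is a transvection (no element g has g − 1 of rank one). If L is a subgroup of G containing X that acts irreducibly on V (no proper non-zero L-invariant subspace), then L = G, or, for some quadratic form Q on V whose polar form is f, L is the isometry group of Q or its subgroup of the isometries g for which g − 1 has even rank, or |F| = 2, n = 2 and L is isomorphic to the alternating group of degree 6 or to the symmetric group of degree 5. -/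
theorem result {F : Type*} [Field F] [Fintype F] [CharP F 2] {n : ℕ} (hn : 2 ≤ n) (a : (Fin n ⊕ Fin n → F)) (ha : a ≠ 0)
    (X : Subgroup (GL (Fin n ⊕ Fin n) F)) (hXG : X ≤ Cfsg.preserving (Units.coeHom (Matrix (Fin n ⊕ Fin n) (Fin n ⊕ Fin n) F)) (fun u v : (Fin n ⊕ Fin n → F) => ∑ i : Fin n, (u (Sum.inl i) * v (Sum.inr i) + u (Sum.inr i) * v (Sum.inl i))))
    (hXO : ∀ H : Subgroup (GL (Fin n ⊕ Fin n) F),
      (∀ g : GL (Fin n ⊕ Fin n) F, g ∈ H ↔ (g ∈ Cfsg.preserving (Units.coeHom (Matrix (Fin n ⊕ Fin n) (Fin n ⊕ Fin n) F)) (fun u v : (Fin n ⊕ Fin n → F) => ∑ i : Fin n, (u (Sum.inl i) * v (Sum.inr i) + u (Sum.inr i) * v (Sum.inl i))) ∧ Matrix.mulVec (g : Matrix (Fin n ⊕ Fin n) (Fin n ⊕ Fin n) F) a = a)) →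
      X ≤ (Cfsg.pCore 2 ↥H).map H.subtype)
    (hcard : Nat.card ↥X = Fintype.card F ^ (2 * n - 2))
    (hntv : ∀ x ∈ X, ((x : Matrix (Fin n ⊕ Fin n) (Fin n ⊕ Fin n) F) - 1).rank ≠ 1)
    (L : Subgroup (GL (Fin n ⊕ Fin n) F)) (hXL : X ≤ L) (hLG : L ≤ Cfsg.preserving (Units.coeHom (Matrix (Fin n ⊕ Fin n) (Fin n ⊕ Fin n) F)) (fun u v : (Fin n ⊕ Fin n → F) => ∑ i : Fin n, (u (Sum.inl i) * v (Sum.inr i) + u (Sum.inr i) * v (Sum.inl i))))
    (hirr : ∀ W : Submodule F (Fin n ⊕ Fin n → F), (∀ g ∈ L, ∀ w ∈ W, Matrix.mulVec (g : Matrix (Fin n ⊕ Fin n) (Fin n ⊕ Fin n) F) w ∈ W) → W = ⊥ ∨ W = ⊤) :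
    L = Cfsg.preserving (Units.coeHom (Matrix (Fin n ⊕ Fin n) (Fin n ⊕ Fin n) F)) (fun u v : (Fin n ⊕ Fin n → F) => ∑ i : Fin n, (u (Sum.inl i) * v (Sum.inr i) + u (Sum.inr i) * v (Sum.inl i))) ∨
    (∃ Q : QuadraticForm F (Fin n ⊕ Fin n → F), (∀ u v, QuadraticMap.polar ⇑Q u v = (fun u v : (Fin n ⊕ Fin n → F) => ∑ i : Fin n, (u (Sum.inl i) * v (Sum.inr i) + u (Sum.inr i) * v (Sum.inl i))) u v) ∧
      (L = Cfsg.isometryGroup F ⇑Q ∨
        ∀ g : GL (Fin n ⊕ Fin n) F, g ∈ L ↔ (g ∈ Cfsg.isometryGroup F ⇑Q ∧ Even ((g : Matrix (Fin n ⊕ Fin n) (Fin n ⊕ Fin n) F) - 1).rank))) ∨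
    (Fintype.card F = 2 ∧ n = 2 ∧ (Nonempty (↥L ≃* ↥(alternatingGroup (Fin 6))) ∨ Nonempty (↥L ≃* Equiv.Perm (Fin 5)))) := by
  set G := Cfsg.preserving (Units.coeHom (Matrix (Fin n ⊕ Fin n) (Fin n ⊕ Fin n) F))
    (fun u v : (Fin n ⊕ Fin n → F) => ∑ i : Fin n, (u (Sum.inl i) * v (Sum.inr i) +
      u (Sum.inr i) * v (Sum.inl i))) with hGdef
  let B := spB (Fin n) F
  have hA : B.IsAlt := spB_isAlt _ _
  have hB : B.Nondegenerate := spB_nondegenerate _ _
  have hf : ∀ u v, B u v = ∑ i : Fin n, (u (Sum.inl i) * v (Sum.inr i) +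
      u (Sum.inr i) * v (Sum.inl i)) := fun u v => by
    rw [spB_eq_sum]
    exact Finset.sum_congr rfl fun i _ => by rw [CharTwo.sub_eq_add, add_comm]
  have hG : ∀ g, g ∈ G ↔ glEquiv g ∈ spIso B := fun g => by
    simp only [mem_spIso, hf]
    rfl
  have hd : Module.finrank F (Fin n ⊕ Fin n → F) = 2 * n := by
    simp [two_mul]
  let e := (glEquiv (F := F) (ι := Fin n ⊕ Fin n)).toMonoidHom
  have he : Function.Injective e := glEquiv.injective
  let H := (spIso B ⊓ MulAction.stabilizer _ a).comap e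
  have hX := hXO H fun g => by rw [hG]; rfl
  have hpt : Pt B (X.map e) a := by
    refine exists_isX (P := ((Cfsg.pCore 2 H).map H.subtype).map e) hA ?_ ?_ ?_ hB ha
      (Subgroup.map_mono hX) ?_ ?_
    · rintro _ ⟨_, ⟨h, -, rfl⟩, rfl⟩
      exact h.2
    · rintro _ ⟨_, ⟨h, hh, rfl⟩, rfl⟩ t ht hta
      obtain ⟨t, rfl⟩ := glEquiv.surjective t
      exact ⟨_, ⟨_, (Cfsg.pCore_normal 2 H).conj_mem h hh ⟨t, ht, hta⟩, rfl⟩, by simp [e]⟩
    · rintro _ ⟨_, ⟨h, hh, rfl⟩, rfl⟩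
      obtain ⟨k, hk⟩ := CfsgLib.Core.isPGroup_pCore 2 H ⟨h, hh⟩
      refine ⟨k, ?_⟩
      have h1 : h ^ 2 ^ k = 1 := congrArg Subtype.val hk
      rw [← map_pow, ← map_pow, h1, map_one, map_one]
    · rw [Subgroup.card_map_of_injective he, hcard, hd, Nat.card_eq_fintype_card]
    · rintro d ⟨_, ⟨x, hx, rfl⟩, hxv⟩
      by_contra hd0
      apply hntv x hx
      rw [← rk_eq, rk, ← finrank_span_singleton (K := F) ha]
      refine congrArg (fun W : Submodule F (Fin n ⊕ Fin n → F) => Module.finrank F W) ?_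
      obtain ⟨b, hb⟩ := exists_B_eq_one hA hB ha
      ext v
      rw [Submodule.mem_span_singleton]
      have hxv' : ∀ v, glEquiv x v = v + (d * B a v) • a := hxv
      constructor
      · rintro ⟨u, rfl⟩
        exact ⟨d * B a u, by simp [hxv']⟩
      · rintro ⟨c, rfl⟩
        exact ⟨(d⁻¹ * c) • b, by simp [hxv', B_comm hA a b, hb, smul_smul, hd0, mul_right_comm]⟩
  have hM : L.map e ≤ spIso B := by
    rintro _ ⟨g, hg, rfl⟩
    exact (hG g).1 (hLG hg)
  have hL : ∀ g, g ∈ L ↔ glEquiv g ∈ L.map e := fun g =>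
    (Subgroup.mem_map_iff_mem he).symm
  have htop : L.map e = spIso B → L = G := fun h => by
    ext g
    rw [hL, h, hG]
  rcases classification hA hB hM (by omega) ⟨_, hpt.choose_spec.mono (Subgroup.map_mono hXL)⟩
    (fun W hW => hirr W fun g hg w hw => hW _ ⟨g, hg, rfl⟩ w hw) with
    h | ⟨Q, hQ, h⟩ | ⟨hF, h4, h⟩
  · exact Or.inl (htop h)
  · refine Or.inr (Or.inl ⟨Q, fun u v => (hQ u v).trans (hf u v), ?_⟩)
    have hO : ∀ g, g ∈ Cfsg.isometryGroup F ⇑Q ↔ glEquiv g ∈ CfsgLib.OrthE.O Q := fun g =>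
      ⟨fun h x => h x x, fun h x _ => h x⟩
    rcases h with h | h
    · left
      ext g
      rw [hL, h, hO]
    · right
      intro g
      rw [hL, h, hO, rk_eq]
  · obtain rfl : n = 2 := by omega
    rw [Nat.card_eq_fintype_card] at hF
    obtain ⟨σ⟩ := Cfsg.Agent.S0247.result (F := F) hF
    have hiso : (spPQ (Fin 2) F).isom = spIso B := by
      ext g
      exact spPQ_isIso _ _ _
    let τ : spIso B ≃* Equiv.Perm (Fin 6) :=
      ((MulEquiv.subgroupCongr hiso).symm.trans (spEquiv (Fin 2) F).symm).trans σ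
    let K := ((L.map e).subgroupOf (spIso B)).map τ.toMonoidHom
    let ρ : L ≃* K := ((L.equivMapOfInjective e he).trans
      (Subgroup.subgroupOfEquivOfLe hM).symm).trans
      (Subgroup.equivMapOfInjective _ τ.toMonoidHom τ.injective)
    have hK : 120 ∣ Nat.card K := by
      rw [← Nat.card_congr ρ.toEquiv, ← Subgroup.card_map_of_injective he]
      exact h hd
    rcases perm_six K hK with h1 | h1 | ⟨⟨h1⟩⟩
    · refine Or.inl (htop (le_antisymm hM fun g hg => ?_))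
      have : τ.toMonoidHom ⟨g, hg⟩ ∈ K := h1 ▸ Subgroup.mem_top _
      exact (Subgroup.mem_map_iff_mem (K := (L.map e).subgroupOf (spIso B)) τ.injective).1 this
    · exact Or.inr (Or.inr ⟨hF, rfl, Or.inl ⟨ρ.trans (MulEquiv.subgroupCongr h1)⟩⟩)
    · exact Or.inr (Or.inr ⟨hF, rfl, Or.inr ⟨ρ.trans h1⟩⟩)

end Cfsg.Agent.S5712
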