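import Cfsg.Statements.S5713
-- import your own Cfsg.Agent.* helpers here

set_option autoImplicit false
open Cfsg

namespace Cfsg.Agent.S5713

open MulAction Finset

section aux

variable {G Ω : Type*} [Group G] [MulAction G Ω]

theorem isThreeCycle_comm [Fintype Ω] [DecidableEq Ω] (g h : Equiv.Perm Ω) (a : Ω) (hg : g a ≠ a)
    (hh : h a ≠ a) (H : ∀ x, g x ≠ x → h x ≠ x → x = a) : (g * h * g⁻¹ * h⁻¹).IsThreeCycle := by
  have H1 : ∀ x, h x ≠ x → x ≠ a → g x = x := fun x h1 h2 => by
    by_contra h3; exact h2 (H x h3 h1)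
  have H2 : ∀ x, g x ≠ x → x ≠ a → h x = x := fun x h1 h2 => by
    by_contra h3; exact h2 (H x h1 h3)
  have h1 : g (h a) = h a := H1 _ (fun e => hh (h.injective e)) hh
  have h2 : h (g a) = g a := H2 _ (fun e => hg (g.injective e)) hg
  have hne : h a ≠ g a := fun e => hg (g.injective (by rw [← e, h1]))
  have : g * h * g⁻¹ * h⁻¹ = Equiv.swap a (h a) * Equiv.swap a (g a) := by
    rw [mul_inv_eq_iff_eq_mul, mul_inv_eq_iff_eq_mul]
    ext x
    simp only [Equiv.Perm.coe_mul, Function.comp_apply]
    by_cases hx : x = a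
    · rw [hx, h1, h2, Equiv.swap_apply_right, Equiv.swap_apply_left]
    by_cases hgx : g x = x
    · rw [hgx]
      by_cases hxa : h x = a
      · rw [hxa, Equiv.swap_apply_left, Equiv.swap_apply_of_ne_of_ne hg hne.symm]
      have h3 : g (h x) = h x := by
        by_cases h4 : h x = x
        · rw [h4, hgx]
        · exact H1 _ (fun e => h4 (h.injective e)) hxa
      have h4 : h x ≠ g a := fun e => hxa (g.injective (by rw [h3, e]))
      rw [h3, Equiv.swap_apply_of_ne_of_ne hxa h4,
        Equiv.swap_apply_of_ne_of_ne hxa fun e => hx (h.injective e)]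
    · rw [H2 x hgx hx]
      by_cases hxa : g x = a
      · rw [hxa, Equiv.swap_apply_of_ne_of_ne hh hne, Equiv.swap_apply_right]
      have h3 : h (g x) = g x := H2 _ (fun e => hgx (g.injective e)) hxa
      have h4 : g x ≠ h a := fun e => hxa (h.injective (by rw [h3, e]))
      rw [h3, Equiv.swap_apply_of_ne_of_ne hxa fun e => hx (g.injective e),
        Equiv.swap_apply_of_ne_of_ne hxa h4]
  rw [this]
  exact Equiv.Perm.isThreeCycle_swap_mul_swap_same hh.symm hg.symm hne

theorem all_of_closed [Finite G] (hprim : IsPreprimitive G Ω) (r : Ω → Ω → Prop)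
    (hinv : ∀ (g : G) x y, r x y → r (g • x) (g • y)) (hrefl : ∀ x, r x x)
    (htrans : ∀ x y z, r x y → r y z → r x z) {a b : Ω} (hab : a ≠ b) (h : r a b) (x y : Ω) :
    r x y := by
  have : Nontrivial Ω := ⟨a, b, hab⟩
  let S : Submonoid G :=
    { carrier := {g | r a (g • a)}
      one_mem' := by simpa using hrefl a
      mul_mem' := fun {g h} hg hh => htrans _ _ _ hg (by rw [mul_smul]; exact hinv g _ _ hh) }
  let T : Subgroup G := { S with
    inv_mem' := fun {g} hg => by
      have := S.pow_mem hg (orderOf g - 1)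
      rwa [← eq_inv_of_mul_eq_one_left (a := g ^ (orderOf g - 1)) (b := g) (by
        rw [← pow_succ, Nat.sub_add_cancel (orderOf_pos g), pow_orderOf_eq_one])] }
  obtain ⟨k, hk⟩ := exists_smul_eq G a b
  have hT : T = ⊤ := ((isCoatom_stabilizer_iff_preprimitive G a).2 hprim).2 T
    (lt_of_le_of_ne (fun g hg => by
      change r a (g • a); rw [mem_stabilizer_iff.1 hg]; exact hrefl a) fun e => by
      have : k ∈ stabilizer G a := e ▸ (show r a (k • a) from hk ▸ h)
      exact hab (this.symm.trans hk))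
  obtain ⟨u, rfl⟩ := exists_smul_eq G a x
  obtain ⟨v, rfl⟩ := exists_smul_eq G a y
  have : u⁻¹ * v ∈ T := hT ▸ Subgroup.mem_top _
  have := hinv u _ _ this
  rwa [← mul_smul, mul_inv_cancel_left] at this

variable (G) in
/-- `(x, y)` and `(u, v)` are in the same orbital -/
def Orb (x y u v : Ω) : Prop := ∃ h : G, h • x = u ∧ h • y = v

theorem Orb.smul {x y u v : Ω} (h : Orb G x y u v) (g : G) : Orb G x y (g • u) (g • v) := by
  obtain ⟨k, rfl, rfl⟩ := h
  exact ⟨g * k, mul_smul _ _ _, mul_smul _ _ _⟩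

theorem Orb.symm {x y u v : Ω} (h : Orb G x y u v) : Orb G u v x y := by
  obtain ⟨k, rfl, rfl⟩ := h
  exact ⟨k⁻¹, inv_smul_smul _ _, inv_smul_smul _ _⟩

theorem Orb.trans {x y u v s t : Ω} (h : Orb G x y u v) (h' : Orb G u v s t) : Orb G x y s t := by
  obtain ⟨k, rfl, rfl⟩ := h'
  exact h.smul k

theorem orb_smul_iff {x y u v : Ω} (g : G) : Orb G x y (g • u) (g • v) ↔ Orb G x y u v :=
  ⟨fun h => by simpa using h.smul g⁻¹, fun h => h.smul g⟩

theorem card_filter_smul [Fintype Ω] (p q : Ω → Prop) [DecidablePred p] [DecidablePred q] (g : G) (h : ∀ x, p (g • x) ↔ q x) :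
    #(univ.filter p) = #(univ.filter q) :=
  (card_bijective (fun x => g • x) (MulAction.bijective g) (by simp [h])).symm

open Classical in
theorem rho_bound [Finite G] [Fintype Ω] (hprim : IsPreprimitive G Ω) {c x : Ω} (hcx : c ≠ x)
    (h2 : ∃ y, y ≠ c ∧ ¬ Orb G c x c y) :
    Fintype.card Ω ≤ #(univ.filter fun y => ¬ Orb G c x c y) ^ 2 := by
  obtain ⟨y, hyc, hy⟩ := h2
  have hne : ∀ u v, Orb G c x u v → u ≠ v := by
    rintro _ _ ⟨h, rfl, rfl⟩ e; exact hcx (MulAction.injective h e)
  obtain ⟨u, v, w, h1, h2, h3⟩ : ∃ u v w, ¬ Orb G c x u v ∧ ¬ Orb G c x v w ∧ Orb G c x u w := by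
    by_contra hcon
    push Not at hcon
    exact all_of_closed hprim (fun u v => ¬ Orb G c x u v) (fun g u v => mt (orb_smul_iff g).1)
      (fun u h => hne _ _ h rfl) (fun u v w h1 h2 => hcon u v w h1 h2) hyc.symm hy c x
      ⟨1, one_smul _ _, one_smul _ _⟩
  set N : Ω → Finset Ω := fun u => (univ.filter fun y => ¬ Orb G c x u y).erase u with hN
  set l := #(univ.filter fun y => ¬ Orb G c x c y) - 1 with hl
  have hcard : ∀ u, #(N u) = l := by
    intro u
    obtain ⟨g, rfl⟩ := exists_smul_eq G c u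
    rw [hN, card_erase_of_mem (by simpa using fun h => hne _ _ h rfl),
      card_filter_smul (fun y => ¬ Orb G c x (g • c) y) (fun y => ¬ Orb G c x c y) g fun y => by
        rw [orb_smul_iff]]
  have hsub : (univ.filter fun y => Orb G c x c y) ⊆ (N c).biUnion N := by
    intro z hz
    obtain ⟨g, hg1, hg2⟩ := h3.symm.trans (mem_filter.1 hz).2
    rw [← orb_smul_iff g, hg1] at h1
    rw [← orb_smul_iff g, hg2] at h2
    have hz' := (mem_filter.1 hz).2
    refine mem_biUnion.2 ⟨g • v, ?_, ?_⟩
    · simp only [hN, mem_erase, mem_filter, mem_univ, true_and]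
      exact ⟨fun e => h2 (e ▸ hz'), h1⟩
    · simp only [hN, mem_erase, mem_filter, mem_univ, true_and]
      exact ⟨fun e => h1 (e ▸ hz'), h2⟩
  have h4 := (card_le_card hsub).trans (card_biUnion_le_card_mul _ _ l fun u _ => (hcard u).le)
  rw [hcard] at h4
  have h5 := card_filter_add_card_filter_not (s := univ) (fun y => Orb G c x c y)
  have h6 : 0 < #(univ.filter fun y => ¬ Orb G c x c y) := card_pos.2 ⟨y, by simpa using hy⟩
  rw [card_univ] at h5
  obtain ⟨r, hr⟩ : ∃ r, #(univ.filter fun y => ¬ Orb G c x c y) = r + 1 := ⟨_, (Nat.sub_add_cancel h6).symm⟩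
  rw [hr] at h5 hl ⊢
  rw [hl, Nat.add_sub_cancel] at h4
  nlinarith

open Classical in
variable (G) in
/-- the set of points distinguishing `x` and `y` -/
noncomputable def D [Fintype Ω] (x y : Ω) : Finset Ω := univ.filter fun c => ¬ Orb G c x c y

theorem mem_D [Fintype Ω] {x y c : Ω} : c ∈ D G x y ↔ ¬ Orb G c x c y := by simp [D]

theorem D_comm [Fintype Ω] (x y : Ω) : D G x y = D G y x := by
  ext c; rw [mem_D, mem_D]; exact not_congr ⟨Orb.symm, Orb.symm⟩

theorem card_D_triangle [Fintype Ω] (x y z : Ω) : #(D G x z) ≤ #(D G x y) + #(D G y z) := by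
  classical
  refine le_trans (card_le_card fun c hc => ?_) (card_union_le _ _)
  rw [mem_union, mem_D, mem_D, ← not_and_or]
  exact fun h => mem_D.1 hc (h.1.trans h.2)

theorem card_D_orb [Fintype Ω] {a b x y : Ω} (h : Orb G a b x y) : #(D G x y) = #(D G a b) := by
  classical
  obtain ⟨g, rfl, rfl⟩ := h
  unfold D
  refine card_filter_smul _ _ g fun c => not_congr ⟨fun h => ?_, fun h => ?_⟩
  · exact ((Orb.smul ⟨1, one_smul _ _, one_smul _ _⟩ g).trans h).trans
      ⟨g⁻¹, inv_smul_smul _ _, inv_smul_smul _ _⟩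
  · exact (Orb.trans ⟨g⁻¹, inv_smul_smul _ _, inv_smul_smul _ _⟩ h).smul g

theorem babai [Finite G] [Fintype Ω] (hprim : IsPreprimitive G Ω) {a b : Ω} (hab : a ≠ b)
    (h2 : ∀ c x : Ω, c ≠ x → ∃ y, y ≠ c ∧ ¬ Orb G c x c y) :
    Fintype.card Ω ≤ (2 * #(D G a b) + 1) ^ 2 := by
  classical
  set m := #(D G a b) with hm
  have hconn : ∀ x y, Relation.ReflTransGen (Orb G a b) x y := fun x y =>
    all_of_closed hprim _ (fun g x y h => h.lift (fun x => g • x) fun _ _ h => h.smul g)
      (fun _ => Relation.ReflTransGen.refl) (fun _ _ _ => Relation.ReflTransGen.trans) hab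
      (Relation.ReflTransGen.single ⟨1, one_smul _ _, one_smul _ _⟩) x y
  by_cases hA : ∀ y, #(D G a y) ≤ 2 * m
  · by_contra hlt
    push Not at hlt
    have h1 : ∑ y, #(D G a y) = ∑ c, #(univ.filter fun y => ¬ Orb G c a c y) := by
      simp only [D, card_filter]
      exact sum_comm
    have h3 : ∀ c, 2 * m < #(univ.filter fun y => ¬ Orb G c a c y) := by
      intro c
      by_cases hc : c = a
      · subst hc
        have : (univ.filter fun y => ¬ Orb G c c c y) = univ.erase c := by
          ext y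
          simp only [mem_filter, mem_univ, true_and, mem_erase, and_true]
          exact not_congr ⟨fun ⟨h, h1, h2⟩ => h2.symm.trans h1,
            fun e => e ▸ ⟨1, one_smul _ _, one_smul _ _⟩⟩
        rw [this, card_erase_of_mem (mem_univ _), card_univ]
        have : 2 * m + 1 ≤ (2 * m + 1) ^ 2 := Nat.le_self_pow two_ne_zero _
        omega
      · have := lt_of_pow_lt_pow_left₀ 2 (Nat.zero_le _) (hlt.trans_le (rho_bound hprim hc (h2 c a hc)))
        omega
    have h4 : ∑ y, #(D G a y) < ∑ c, #(univ.filter fun y => ¬ Orb G c a c y) :=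
      sum_lt_sum_of_nonempty ⟨a, mem_univ _⟩ fun y _ => (hA y).trans_lt (h3 y)
    omega
  · push Not at hA
    obtain ⟨w, hw1, hw2⟩ : ∃ w, 2 * m < #(D G a w) ∧ #(D G a w) ≤ 3 * m := by
      obtain ⟨y, hy⟩ := hA
      induction hconn a y with
      | refl =>
        have : D G a a = ∅ := eq_empty_of_forall_notMem fun c hc =>
          mem_D.1 hc ⟨1, one_smul _ _, one_smul _ _⟩
        simp [this] at hy
      | @tail u v _ huv ih =>
        by_cases hu : 2 * m < #(D G a u)
        · exact ih hu
        · have := card_D_triangle (G := G) a u v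
          rw [card_D_orb huv] at this
          exact ⟨v, hy, by omega⟩
    set N := univ.filter fun y => Orb G a b a y with hN
    have h1 : N ⊆ D G a w := by
      intro z hz
      have hz' := (mem_filter.1 hz).2
      refine mem_D.2 fun ⟨h, h1, h2⟩ => ?_
      have h3 := hz'.smul h
      rw [h1, h2] at h3
      have := card_D_triangle (G := G) a z w
      rw [D_comm z w, card_D_orb hz', card_D_orb h3] at this
      omega
    have h3 : univ.erase a ⊆ N.biUnion (D G a) := by
      intro z hz
      by_contra hcon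
      have h4 : ∀ y, Orb G a b a y → Orb G z a z y := fun y hy => by
        by_contra h5
        exact hcon (mem_biUnion.2 ⟨y, by simpa [hN] using hy, mem_D.2 h5⟩)
      have h5 : ∀ y, Orb G z a z y := by
        intro y
        induction hconn a y with
        | refl => exact ⟨1, one_smul _ _, one_smul _ _⟩
        | @tail u v _ huv ih =>
          obtain ⟨h, h1, rfl⟩ := ih
          have := (h4 (h⁻¹ • v) (by simpa using huv.smul h⁻¹)).smul h
          rwa [h1, smul_inv_smul] at this
      obtain ⟨h, h6, h7⟩ := h5 z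
      exact (mem_erase.1 hz).1 (MulAction.injective h (h6.trans h7.symm))
    have h4 := (card_le_card h3).trans (card_biUnion_le_card_mul _ _ m
      fun u hu => (card_D_orb (mem_filter.1 hu).2).le)
    rw [card_erase_of_mem (mem_univ _), card_univ] at h4
    have h5 := (card_le_card h1).trans hw2
    have h6 : #N * m ≤ 3 * m * m := Nat.mul_le_mul_right _ h5
    have : Fintype.card Ω ≤ 3 * m * m + 1 := by omega
    nlinarith

theorem two_trans [Finite G] [Fintype Ω] [DecidableEq Ω] {a : Ω} (S : Finset Ω) (haS : a ∉ S)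
    (h2 : ∀ x y, x ≠ a → y ≠ a → Orb G a x a y) (hlt : #S ^ 2 < Fintype.card Ω - 1) :
    ∃ h : G, h • a = a ∧ ∀ t ∈ S, h • t ∉ S := by
  classical
  have := Fintype.ofFinite (stabilizer G a)
  by_contra hcon
  push Not at hcon
  have h1 : (univ : Finset (stabilizer G a)) ⊆
      (S ×ˢ S).biUnion fun p => univ.filter fun h => h • p.1 = p.2 := by
    intro h _
    obtain ⟨t, ht, ht'⟩ := hcon h h.2
    exact mem_biUnion.2 ⟨(t, h • t), mem_product.2 ⟨ht, ht'⟩, by simp⟩
  have h3 : ∀ t s, t ≠ a → #(univ.filter fun h : stabilizer G a => h • t = s) *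
      (Fintype.card Ω - 1) ≤ Fintype.card (stabilizer G a) := by
    intro t s ht
    have e1 : Nat.card (orbit (stabilizer G a) t) = Fintype.card Ω - 1 := by
      have : orbit (stabilizer G a) t = {a}ᶜ := by
        ext y
        constructor
        · rintro ⟨h, rfl⟩ e
          exact ht (MulAction.injective (h : G) (e.trans h.2.symm))
        · intro hy
          obtain ⟨h, e1, e2⟩ := h2 t y ht hy
          exact ⟨⟨h, e1⟩, e2⟩
      rw [this, Nat.card_eq_fintype_card, Fintype.card_compl_set, Set.card_singleton]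
    have e2 : #(univ.filter fun h : stabilizer G a => h • t = s) ≤
        Nat.card (stabilizer (stabilizer G a) t) := by
      rcases (univ.filter fun h : stabilizer G a => h • t = s).eq_empty_or_nonempty with h | ⟨k, hk⟩
      · simp [h]
      rw [← Fintype.card_coe, ← Nat.card_eq_fintype_card]
      refine Nat.card_le_card_of_injective (fun h => ⟨k⁻¹ * h.1, ?_⟩) fun h h' e => ?_
      · rw [mem_stabilizer_iff, mul_smul, (mem_filter.1 h.2).2, inv_smul_eq_iff, (mem_filter.1 hk).2]
      · exact Subtype.ext (mul_left_cancel (congrArg Subtype.val e))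
    rw [← e1, ← Nat.card_eq_fintype_card,
      ← Nat.card_congr (orbitProdStabilizerEquivGroup (stabilizer G a) t), Nat.card_prod, mul_comm]
    exact Nat.mul_le_mul_left _ e2
  have h4 := Nat.mul_le_mul_right (Fintype.card Ω - 1) ((card_le_card h1).trans card_biUnion_le)
  rw [sum_mul] at h4
  have h5 := h4.trans (sum_le_card_nsmul _ _ _ fun p hp =>
    h3 p.1 p.2 fun e => haS (e ▸ (mem_product.1 hp).1))
  rw [card_product, card_univ, smul_eq_mul, mul_comm, ← sq] at h5
  exact absurd (Nat.le_of_mul_le_mul_right h5 Fintype.card_pos) (not_le.2 hlt)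

end aux


/-- A classification-free minimal-degree bound. Let G be a finite group acting faithfully and primitively on a finite set Ω with n elements, and suppose that the image of G in the symmetric group on Ω does not contain the alternating group on Ω. Then every non-identity element of G moves at least (√n − 1)/2 points of Ω, that is, it fixes at most n − (√n − 1)/2 points. -/
theorem result {G Ω : Type*} [Group G] [Finite G] [MulAction G Ω] [FaithfulSMul G Ω] [Fintype Ω] [DecidableEq Ω]
    (hprim : MulAction.IsPreprimitive G Ω)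
    (hA : ¬ alternatingGroup Ω ≤ (MulAction.toPermHom G Ω).range)
    (g : G) (hg : g ≠ 1) :
    (Real.sqrt (Fintype.card Ω) - 1) / 2 ≤ (Fintype.card Ω : ℝ) - Nat.card (MulAction.fixedBy Ω g) := by
  classical
  obtain ⟨a, ha⟩ : ∃ a : Ω, g • a ≠ a := by
    by_contra h
    push Not at h
    exact hg (eq_of_smul_eq_smul (α := Ω) fun a => by rw [h, one_smul])
  set S := univ.filter fun x : Ω => g • x ≠ x with hS
  have hcard : (Fintype.card Ω : ℝ) - Nat.card (fixedBy Ω g) = #S := by
    have h1 := card_filter_add_card_filter_not (s := univ) (fun x : Ω => g • x = x)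
    have h2 : Nat.card (fixedBy Ω g) = #(univ.filter fun x : Ω => g • x = x) :=
      Nat.subtype_card _ (by simp)
    rw [card_univ] at h1
    rw [h2, ← h1]; push_cast; ring
  have key : Fintype.card Ω ≤ (2 * #S + 1) ^ 2 := by
    by_cases h2 : ∀ c x : Ω, c ≠ x → ∃ y, y ≠ c ∧ ¬ Orb G c x c y
    · refine (babai hprim ha.symm h2).trans (Nat.pow_le_pow_left ?_ 2)
      have : D G a (g • a) ⊆ S := fun c hc => by
        simpa [hS] using fun e => mem_D.1 hc ⟨g, e, rfl⟩
      have := card_le_card this
      omega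
    push Not at h2
    obtain ⟨c, x, hcx, h2⟩ := h2
    obtain ⟨k, rfl⟩ := exists_smul_eq G c a
    have h3 : ∀ y, y ≠ k • c → Orb G c x (k • c) y := fun y hy => by
      simpa using (h2 (k⁻¹ • y) fun e => hy (inv_smul_eq_iff.1 e)).smul k
    by_contra hlt
    obtain ⟨h, h4, h5⟩ := two_trans (G := G) (S.erase (k • c)) (notMem_erase _ _)
      (fun u v hu hv => (h3 u hu).symm.trans (h3 v hv)) (by
        have := card_erase_le (s := S) (a := k • c)
        have h6 : #(S.erase (k • c)) ^ 2 ≤ #S ^ 2 := Nat.pow_le_pow_left this 2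
        have : #S ^ 2 + 1 ≤ (2 * #S + 1) ^ 2 := by nlinarith
        omega)
    have hP : IsPreprimitive (toPermHom G Ω).range Ω :=
      IsPreprimitive.of_surjective (f := (⟨id, fun _ _ => rfl⟩ : Ω →ₑ[(toPermHom G Ω).rangeRestrict] Ω))
        Function.surjective_id
    refine hA (Equiv.Perm.alternatingGroup_le_of_isPreprimitive_of_isThreeCycle_mem hP
      (isThreeCycle_comm (toPermHom G Ω g) (toPermHom G Ω (h * g * h⁻¹)) (k • c) ha ?_ ?_)
      ⟨g * (h * g * h⁻¹) * g⁻¹ * (h * g * h⁻¹)⁻¹, by simp only [map_mul, map_inv]⟩)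
    · change (h * g * h⁻¹) • k • c ≠ k • c
      intro e
      rw [mul_smul, mul_smul, inv_smul_eq_iff.2 h4.symm] at e
      exact ha (MulAction.injective h (e.trans h4.symm))
    · intro y hy1 hy2
      by_contra hy
      refine h5 (h⁻¹ • y) (mem_erase.2 ⟨fun e => hy (by rw [← h4, ← e, smul_inv_smul]), ?_⟩)
        (by rw [smul_inv_smul]; exact mem_erase.2 ⟨hy, mem_filter.2 ⟨mem_univ _, hy1⟩⟩)
      refine mem_filter.2 ⟨mem_univ _, fun e => hy2 ?_⟩
      change (h * g * h⁻¹) • y = y
      rw [mul_smul, mul_smul, e, smul_inv_smul]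
  rw [hcard, div_le_iff₀ two_pos, sub_le_iff_le_add]
  refine Real.sqrt_le_iff.2 ⟨by positivity, ?_⟩
  have : (Fintype.card Ω : ℝ) ≤ (2 * #S + 1) ^ 2 := by exact_mod_cast key
  linarith

end Cfsg.Agent.S5713
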