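import Cfsg.Statements.S5722
import Cfsg.Agent.Lib.PermS.LayerCover
import Cfsg.Agent.Lib.Core.MinNormal

set_option autoImplicit false
open Cfsg

namespace Cfsg.Agent.S5722

open MulAction Subgroup CfsgLib.PermS CfsgLib.Core CfsgLib.Comp ArithmeticFunction

universe v

theorem numeric {p d n l : ℕ} (hp : p.Prime) (hd : 1 ≤ d) (hn : n = p ^ d) (h5 : 5 ≤ n) (h8 : n ≠ 8)
    (h : 2 ^ l ≤ n ^ (d + 1)) : 3 * l + 4 ≤ 4 * n := by
  by_contra hcon
  have h1 : 2 ^ (4 * n - 3) ≤ n ^ (3 * (d + 1)) :=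
    calc 2 ^ (4 * n - 3) ≤ (2 ^ l) ^ 3 := by
          rw [← pow_mul]; exact Nat.pow_le_pow_right two_pos (by omega)
      _ ≤ _ := by rw [mul_comm, pow_mul]; exact Nat.pow_le_pow_left h 3
  have h2 : 2 ^ d ≤ n := hn ▸ Nat.pow_le_pow_left hp.two_le d
  have h3 : 3 ^ d ≤ n ∨ n = 2 ^ d := by
    rcases hp.eq_two_or_odd' with rfl | h
    · exact Or.inr hn
    · exact Or.inl (hn ▸ Nat.pow_le_pow_left (by have := hp.two_le; obtain ⟨k, rfl⟩ := h; omega) d)
  have hle : ∀ e, d ≤ e → 2 ^ (4 * n - 3) ≤ n ^ (3 * (e + 1)) := fun e he =>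
    h1.trans (Nat.pow_le_pow_right (by omega) (by omega))
  have hd2 : ∀ e, n < 2 ^ (e + 1) → d ≤ e := fun e he =>
    Nat.lt_succ_iff.1 ((Nat.pow_lt_pow_iff_right one_lt_two).1 (h2.trans_lt he))
  by_cases h32 : n < 32
  · by_cases h16 : n < 16
    · by_cases h9 : n < 9
      · have : d ≤ 1 := by
          have := hd2 2 (by omega)
          rcases h3 with h | h <;> interval_cases d <;> omega
        have := hle 1 this
        interval_cases n <;> omega
      · have : d ≤ 2 := by
          have := hd2 3 (by omega)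
          rcases h3 with h | h <;> interval_cases d <;> omega
        have := hle 2 this
        interval_cases n <;> omega
    · have := hle 4 (hd2 4 h32)
      interval_cases n <;> omega
  · set e := Nat.log 2 n with he
    have h4 : n < 2 ^ (e + 1) := Nat.lt_pow_succ_log_self one_lt_two n
    have h6 : 2 ^ e ≤ n := Nat.pow_log_le_self 2 (by omega)
    have h7 : 5 ≤ e := by
      by_contra h7
      have : 2 ^ (e + 1) ≤ 2 ^ 5 := Nat.pow_le_pow_right two_pos (by omega)
      omega
    have h9 : ∀ e, 5 ≤ e → (e + 1) * (3 * (e + 1)) + 3 ≤ 4 * 2 ^ e := by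
      intro e he
      induction e, he using Nat.le_induction with
      | base => norm_num
      | succ e he ih => rw [pow_succ]; nlinarith
    have h10 := (hle e (hd2 e h4)).trans_lt (Nat.pow_lt_pow_left h4 (by omega))
    rw [← pow_mul, Nat.pow_lt_pow_iff_right one_lt_two] at h10
    have := h9 e h7
    omega

theorem numeric8 {m l : ℕ} (h1 : m ∣ Nat.factorial 8) (h2 : m ≤ 8 ^ 4) (h3 : l ≤ cardFactors m) :
    l ≤ 9 := by
  obtain ⟨k, hk⟩ := h1
  have h0 : m * k ≠ 0 := hk ▸ Nat.factorial_ne_zero 8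
  have h4 : cardFactors (m * k) = 11 := by
    rw [← hk, show Nat.factorial 8 = 2 ^ 7 * (3 ^ 2 * (5 ^ 1 * 7 ^ 1)) by rfl,
      cardFactors_mul (by norm_num) (by norm_num), cardFactors_mul (by norm_num) (by norm_num),
      cardFactors_mul (by norm_num) (by norm_num), cardFactors_apply_prime_pow (by norm_num),
      cardFactors_apply_prime_pow (by norm_num), cardFactors_apply_prime_pow (by norm_num),
      cardFactors_apply_prime_pow (by norm_num)]
  rw [cardFactors_mul (left_ne_zero_of_mul h0) (right_ne_zero_of_mul h0)] at h4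
  have h5 : 9 ≤ k := by
    by_contra h
    have : m * k ≤ 8 ^ 4 * 8 := Nat.mul_le_mul h2 (by omega)
    rw [← hk] at this
    exact absurd this (by decide)
  have h6 : cardFactors k ≠ 1 := fun e => by
    have := (Nat.Prime.dvd_factorial (cardFactors_eq_one_iff_prime.1 e)).1 ⟨m, hk.trans (mul_comm _ _)⟩
    omega
  have h7 : 0 < cardFactors k := cardFactors_pos_iff_one_lt.2 (by omega)
  omega

theorem card_le_pow {G : Type*} [Group G] [Finite G] {p d : ℕ} [hp : Fact p.Prime] {N H : Subgroup G}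
    [N.Normal] (hN : Nat.card N = p ^ d) (hH : H ⊓ centralizer (N : Set G) = ⊥) :
    Nat.card H ≤ Nat.card N ^ d := by
  classical
  have key : ∀ j, ∃ S : Finset G, S.card ≤ j ∧ closure (S : Set G) ≤ N ∧
      (closure (S : Set G) = N ∨ p ^ j ≤ Nat.card (closure (S : Set G))) := by
    intro j
    induction j with
    | zero => exact ⟨∅, le_rfl, by simp, Or.inr Nat.card_pos⟩
    | succ j ih =>
      obtain ⟨S, h1, h2, h3⟩ := ih
      rcases h2.eq_or_lt with h4 | h4
      · exact ⟨S, by omega, h2, Or.inl h4⟩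
      obtain ⟨x, hx, hx'⟩ := SetLike.exists_of_lt h4
      have h5 : closure ((insert x S : Finset G) : Set G) ≤ N := by
        rw [closure_le, Finset.coe_insert, Set.insert_subset_iff]
        exact ⟨hx, (closure_le N).1 h2⟩
      refine ⟨insert x S, (Finset.card_insert_le _ _).trans (by omega), h5, Or.inr ?_⟩
      obtain ⟨e, -, he⟩ := (Nat.dvd_prime_pow hp.out).1 (hN ▸ card_dvd_of_le h5)
      have h6 : closure (S : Set G) < closure ((insert x S : Finset G) : Set G) :=
        lt_of_le_of_ne (closure_mono (by simp)) fun e => hx' (e ▸ subset_closure (by simp))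
      have h7 := (h3.resolve_left h4.ne).trans_lt (card_lt_of_lt h6)
      rw [he] at h7 ⊢
      exact Nat.pow_le_pow_right hp.out.pos ((Nat.pow_lt_pow_iff_right hp.out.one_lt).1 h7)
  obtain ⟨S, h1, h2, h3⟩ := key d
  have h4 : closure (S : Set G) = N := h3.elim id fun h => eq_of_le_of_card_le h2 (hN ▸ h)
  let f : H → S → N := fun h s => ⟨h * s * (h : G)⁻¹,
    ‹N.Normal›.conj_mem _ (h2 (subset_closure s.2)) _⟩
  have hf : Function.Injective f := by
    intro h h' e
    have : ((h' : G)⁻¹ * h : G) ∈ H ⊓ centralizer (N : Set G) := by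
      refine ⟨H.mul_mem (H.inv_mem h'.2) h.2, ?_⟩
      rw [← h4, centralizer_closure]
      intro s hs
      have h5 : (h : G) * s * (h : G)⁻¹ = h' * s * (h' : G)⁻¹ := congrArg Subtype.val (congrFun e ⟨s, hs⟩)
      calc s * ((h' : G)⁻¹ * h) = (h' : G)⁻¹ * (h' * s * (h' : G)⁻¹) * h := by group
        _ = _ := by rw [← h5]; group
    rw [hH, mem_bot] at this
    exact Subtype.ext (inv_mul_eq_one.1 this).symm
  have := Nat.card_le_card_of_injective f hf
  rw [Nat.card_fun, Nat.card_eq_fintype_card (α := S), Fintype.card_coe] at this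
  exact this.trans (Nat.pow_le_pow_right Nat.card_pos h1)

theorem card_le_orbits (G : Type*) {Ω X : Type*} [Group G] [MulAction G Ω] [Finite Ω] (f : Ω → X)
    (hf : Function.Surjective f) (h : ∀ (g : G) x, f (g • x) = f x) :
    Nat.card X ≤ Nat.card (orbitRel.Quotient G Ω) :=
  Nat.card_le_card_of_surjective (Quotient.lift f (by rintro _ x ⟨g, rfl⟩; exact h g x))
    fun x => let ⟨a, ha⟩ := hf x; ⟨⟦a⟧, ha⟩

theorem affine_case {G Ω : Type*} [Group G] [Finite G] [MulAction G Ω] [FaithfulSMul G Ω] [Finite Ω]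
    (hF : fittingSubgroup G ≠ ⊥) (a : Ω)
    (htr : ∀ N : Subgroup G, N.Normal → N ≠ ⊥ → ∀ b, ∃ g ∈ N, g • a = b) {l : ℕ}
    (h : Ch (⊥ : Subgroup G) l ⊤) : 3 * l + 4 ≤ 4 * Nat.card Ω := by
  classical
  have := fit_normal (G := G)
  have := fit_solvable (G := G)
  obtain ⟨p, N, hp, hN, hN0, -, hE, -⟩ := exists_elementaryAbelian_minimal_normal_le hF
  have := Fact.mk hp
  obtain ⟨d, hd⟩ := IsPGroup.iff_card.1 (isElementaryAbelian_isPGroup hE)
  have hc : stabilizer G a ⊓ centralizer (N : Set G) = ⊥ := by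
    rw [eq_bot_iff]
    rintro x ⟨hx1, hx2⟩
    refine eq_of_smul_eq_smul (α := Ω) fun b => ?_
    obtain ⟨g, hg, rfl⟩ := htr N hN hN0 b
    rw [one_smul, ← mul_smul, ← hx2 g hg, mul_smul, mem_stabilizer_iff.1 hx1]
  have hn : Nat.card N = Nat.card Ω := by
    refine Nat.card_eq_of_bijective (fun g : N => (g : G) • a) ⟨fun g g' e => ?_, fun b => ?_⟩
    · have : ((g' : G)⁻¹ * g : G) ∈ stabilizer G a ⊓ centralizer (N : Set G) :=
        ⟨mem_stabilizer_iff.2 (by rw [mul_smul, inv_smul_eq_iff]; exact e),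
          (le_centralizer_iff_isMulCommutative.2 hE.1) (N.mul_mem (N.inv_mem g'.2) g.2)⟩
      rw [hc, mem_bot] at this
      exact Subtype.ext (inv_mul_eq_one.1 this).symm
    · obtain ⟨g, hg, rfl⟩ := htr N hN hN0 b
      exact ⟨⟨g, hg⟩, rfl⟩
  have : IsPretransitive G Ω := ⟨fun x y => by
    obtain ⟨g, -, rfl⟩ := htr N hN hN0 x
    obtain ⟨k, -, rfl⟩ := htr N hN hN0 y
    exact ⟨k * g⁻¹, by rw [mul_smul, inv_smul_smul]⟩⟩
  have h1 : Nat.card G ≤ Nat.card Ω ^ (d + 1) := by
    rw [← (stabilizer G a).card_mul_index, index_stabilizer_of_transitive, pow_succ, ← hn]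
    exact Nat.mul_le_mul_right _ (card_le_pow hd hc)
  have h2 : Nat.card G ∣ (Nat.card Ω).factorial := by
    rw [← Nat.card_perm]
    exact card_dvd_of_injective (toPermHom G Ω) toPerm_injective
  have h3 := h.two_pow_le
  have h4 := h.le_cardFactors
  rw [card_top] at h3 h4
  have hd1 : 1 ≤ d := Nat.pos_of_ne_zero fun e => hN0 (by rw [← card_eq_one, hd, e, pow_zero])
  have h5 : 2 ≤ Nat.card Ω := hn ▸ (one_lt_card_iff_ne_bot N).2 hN0
  by_cases h6 : Nat.card Ω < 5
  · have h7 := h3.trans (Nat.le_of_dvd (Nat.factorial_pos _) h2)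
    have h8 : ∀ e, 2 ^ l < 2 ^ e → l < e := fun e => (Nat.pow_lt_pow_iff_right one_lt_two).1
    interval_cases Nat.card Ω
    · have := h8 2 (h7.trans_lt (by decide)); omega
    · have := h8 3 (h7.trans_lt (by decide)); omega
    · have := h8 5 (h7.trans_lt (by decide)); omega
  by_cases h8 : Nat.card Ω = 8
  · have h9 : d ≤ 3 := by
      have : 2 ^ d ≤ 2 ^ 3 := (Nat.pow_le_pow_left hp.two_le d).trans (by rw [← hd, hn, h8]; rfl)
      exact (Nat.pow_le_pow_iff_right one_lt_two).1 this
    rw [h8] at h1 h2 ⊢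
    have := numeric8 h2 (h1.trans (Nat.pow_le_pow_right (by norm_num) (by omega))) h4
    omega
  exact numeric hp hd1 (hn ▸ hd) (by omega) h8 (h3.trans h1)

theorem layer_case {G Ω : Type*} [Group G] [Finite G] [MulAction G Ω] [Finite Ω]
    (hF : fittingSubgroup G = ⊥) (a : Ω) (htr : ∀ b, ∃ g ∈ layer G, g • a = b) {l : ℕ}
    (h : Ch (⊥ : Subgroup G) l ⊤) : ∃ m, Ch ⊥ m (stabilizer G a) ∧
      3 * l + 4 ≤ 3 * m + 4 * Nat.card (orbitRel.Quotient (stabilizer G a) Ω) := by
  classical
  have hE := layer_normal (G := G)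
  obtain ⟨l₁, l₂, h1, h2, h3⟩ := h.split (N := layer G) (normalizer_eq_top_iff.2 hE).ge
  rw [bot_inf_eq, top_inf_eq] at h2
  rw [bot_sup_eq, top_sup_eq] at h3
  have h4 := h3.inf (M := stabilizer G a) le_rfl (fun g _ => by
    obtain ⟨e, he, h⟩ := htr (g • a)
    have : e⁻¹ * g ∈ stabilizer G a := by rw [mem_stabilizer_iff, mul_smul, ← h, inv_smul_smul]
    simpa using mul_mem (mem_sup_left he) (mem_sup_right this)) (le_normalizer_of_normal)
  rw [top_inf_eq] at h4
  obtain ⟨s, h5, x, hx, h6⟩ := exists_far hF (H := layer G ⊓ stabilizer G a) inf_le_left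
  refine ⟨_, h5.trans h4, ?_⟩
  have h7 := ch_layer_le hF h2
  let d : Ω → ℕ := fun b => sInf {j | ∃ y ∈ layer G, y • a = b ∧ suppCard y = j}
  have hd1 : ∀ b, ∃ y ∈ layer G, y • a = b ∧ suppCard y = d b := fun b =>
    Nat.sInf_mem (s := {j | ∃ y ∈ layer G, y • a = b ∧ suppCard y = j})
      (let ⟨y, h1, h2⟩ := htr b; ⟨_, y, h1, h2, rfl⟩)
  have hd2 : ∀ y ∈ layer G, d (y • a) ≤ suppCard y := fun y hy => Nat.sInf_le ⟨y, hy, rfl, rfl⟩
  have hd3 : ∀ (g : stabilizer G a) b, d (g • b) ≤ d b := by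
    intro g b
    obtain ⟨y, hy, rfl, e⟩ := hd1 b
    have := hd2 _ (hE.conj_mem y hy g)
    rwa [suppCard_conj, e, mul_smul, mul_smul, mem_stabilizer_iff.1 (inv_mem g.2)] at this
  have hd4 : ∀ j b, d b = j + 1 → ∃ c, d c = j := by
    intro j b hb
    obtain ⟨y, hy, rfl, e⟩ := hd1 b
    obtain ⟨K, t, ht, h8⟩ := exists_suppCard_pred hy (e.trans hb)
    have ht' := comp_le_layer K.2 ht
    refine ⟨(t⁻¹ * y) • a, le_antisymm ((hd2 _ (mul_mem (inv_mem ht') hy)).trans h8) ?_⟩
    obtain ⟨z, hz, e1, e2⟩ := hd1 ((t⁻¹ * y) • a)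
    have h9 := hd2 _ (mul_mem ht' hz)
    have h10 := suppCard_mul_le K ht z
    rw [mul_smul, e1, ← mul_smul, mul_inv_cancel_left] at h9
    omega
  have hd5 : ∀ i j b, d b = j + i → ∃ c, d c = j := by
    intro i
    induction i with
    | zero => exact fun j b h => ⟨b, h⟩
    | succ i ih => exact fun j b h => (hd4 _ b h).elim (ih j)
  have h8 := card_le_orbits (stabilizer G a)
    (fun b => (⟨min (d b) (d (x • a)), by omega⟩ : Fin (d (x • a) + 1))) (fun j => by
      obtain ⟨c, hc⟩ := hd5 (d (x • a) - j) j (x • a) (by omega)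
      exact ⟨c, Fin.ext (by simp only [hc]; omega)⟩) fun g b => by
      have : d (g • b) = d b := le_antisymm (hd3 g b) (by simpa using hd3 g⁻¹ (g • b))
      simp only [this]
  rw [Nat.card_fin] at h8
  obtain ⟨y, hy, e1, e2⟩ := hd1 (x • a)
  have h9 := h6 (x⁻¹ * y) ⟨(layer G).mul_mem ((layer G).inv_mem hx) hy, by
    change (x⁻¹ * y) • a = a
    rw [mul_smul, e1, inv_smul_smul]⟩
  rw [mul_inv_cancel_left, e2] at h9
  omega

/-- action on the orbits of a normal subgroup -/
@[reducible] def orbitAction {G : Type*} (Ω : Type*) [Group G] [MulAction G Ω] (N : Subgroup G)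
    [hN : N.Normal] : MulAction G (orbitRel.Quotient N Ω) where
  smul g := Quotient.map' (fun x => g • x) (by
    rintro _ x ⟨n, rfl⟩
    exact ⟨⟨g * n * g⁻¹, hN.conj_mem _ n.2 g⟩, by simp [mul_smul, Subgroup.smul_def]⟩)
  one_smul x := by
    induction x using Quotient.inductionOn'
    exact congrArg Quotient.mk'' (one_smul _ _)
  mul_smul g h x := by
    induction x using Quotient.inductionOn'
    exact congrArg Quotient.mk'' (mul_smul _ _ _)

theorem main (k : ℕ) : ∀ (G Ω : Type v) [Group G] [Finite G] [MulAction G Ω] [FaithfulSMul G Ω]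
    [Finite Ω], Nat.card G + Nat.card Ω = k → ∀ l, Ch (⊥ : Subgroup G) l ⊤ →
      3 * l + 4 * Nat.card (orbitRel.Quotient G Ω) ≤ 4 * Nat.card Ω := by
  induction k using Nat.strong_induction_on with
  | _ k ih =>
  intro G Ω _ _ _ _ _ hk l h
  classical
  by_cases h1 : ∃ N : Subgroup G, N.Normal ∧ N ≠ ⊥ ∧ ∃ (a : Ω) (g : G), ∀ n ∈ N, n • a ≠ g • a
  · obtain ⟨N, hN, hN0, a, g, hg⟩ := h1
    let _ := orbitAction Ω N
    let φ := toPermHom G (orbitRel.Quotient N Ω)
    have hφ : ∀ (g : G) (x : Ω), φ g (Quotient.mk'' x) = Quotient.mk'' (g • x) := fun _ _ => rfl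
    obtain ⟨l₁, l₂, h1, h2, h3⟩ := h.split (N := φ.ker) (le_normalizer_of_normal)
    rw [bot_inf_eq, top_inf_eq] at h2
    rw [bot_sup_eq, top_sup_eq] at h3
    have hK : φ.ker ≠ ⊤ := fun e => by
      have h4 : φ g = 1 := (e ▸ mem_top g : g ∈ φ.ker)
      have h5 := hφ g a
      rw [h4] at h5
      obtain ⟨n, hn⟩ := Quotient.exact' h5.symm
      exact hg n n.2 hn
    have h4 := ih _ (by have := card_lt_of_ne_top hK; omega) φ.ker Ω rfl l₁ h2.subtype
    have h5 := h3.map φ.rangeRestrict (by simp)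
    rw [(Subgroup.map_eq_bot_iff _).2 (by simp), map_top_of_surjective _ φ.rangeRestrict_surjective] at h5
    have h6 : Nat.card (orbitRel.Quotient N Ω) < Nat.card Ω := by
      obtain ⟨⟨n, hn⟩, hn1⟩ := ne_bot_iff_exists_ne_one.1 hN0
      obtain ⟨b, hb⟩ : ∃ b : Ω, n • b ≠ b := by
        by_contra hcon
        push Not at hcon
        exact hn1 (Subtype.ext (eq_of_smul_eq_smul (α := Ω) fun b => by simp [hcon]))
      refine lt_of_le_of_ne (Nat.card_le_card_of_surjective _ Quotient.mk''_surjective) fun e => hb ?_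
      exact (Quotient.mk''_surjective.bijective_of_nat_card_le e.ge).1 (Quotient.sound' ⟨⟨n, hn⟩, rfl⟩)
    have h7 := ih _ (by
      have := Nat.card_le_card_of_surjective _ φ.rangeRestrict_surjective
      omega) φ.range (orbitRel.Quotient N Ω) rfl l₂ h5
    have h8 := card_le_orbits φ.ker (Ω := Ω) (X := orbitRel.Quotient N Ω) Quotient.mk''
      Quotient.mk''_surjective fun g x => by
        have h9 : φ g = 1 := g.2
        exact (hφ g x).symm.trans (by rw [h9]; rfl)
    have h9 := card_le_orbits φ.range (X := orbitRel.Quotient G Ω) (Ω := orbitRel.Quotient N Ω)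
      (Quotient.map' id (by rintro _ x ⟨n, rfl⟩; exact ⟨n, rfl⟩))
      (fun x => by induction x using Quotient.inductionOn'; exact ⟨Quotient.mk'' _, rfl⟩) (by
        rintro ⟨_, g, rfl⟩ x
        induction x using Quotient.inductionOn'
        exact Quotient.sound' ⟨g, rfl⟩)
    omega
  push Not at h1
  rcases subsingleton_or_nontrivial G with hG | hG
  · have := Ch.eq_zero_of_bot (Subsingleton.elim (⊤ : Subgroup G) ⊥ ▸ h)
    have : Nat.card (orbitRel.Quotient G Ω) ≤ Nat.card Ω :=
      Nat.card_le_card_of_surjective _ Quotient.mk''_surjective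
    omega
  obtain ⟨g, hg1⟩ := exists_ne (1 : G)
  obtain ⟨a, ha⟩ : ∃ a : Ω, g • a ≠ a := by
    by_contra hcon
    push Not at hcon
    exact hg1 (eq_of_smul_eq_smul (α := Ω) fun b => by simp [hcon])
  by_cases htr : ∀ b, b ∈ orbit G a
  · have h2 : ∀ N : Subgroup G, N.Normal → N ≠ ⊥ → ∀ b, ∃ g ∈ N, g • a = b := fun N hN hN0 b => by
      obtain ⟨k, rfl⟩ := htr b
      exact h1 N hN hN0 a k
    have h3 : Nat.card (orbitRel.Quotient G Ω) ≤ 1 := by
      rw [Finite.card_le_one_iff_subsingleton]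
      refine ⟨fun x y => ?_⟩
      induction x using Quotient.inductionOn'
      induction y using Quotient.inductionOn'
      exact (Quotient.sound' (htr _)).trans (Quotient.sound' (htr _)).symm
    by_cases hF : fittingSubgroup G = ⊥
    · obtain ⟨m, h4, h5⟩ := layer_case hF a (h2 _ layer_normal fun e =>
        fstar_ne_bot (G := G) (by rw [fstar_def, e, hF, bot_sup_eq])) h
      have h6 := ih _ (by
        have := card_lt_of_ne_top (H := stabilizer G a) fun e => ha (e ▸ mem_top g : g ∈ stabilizer G a)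
        omega) (stabilizer G a) Ω rfl m h4.subtype
      omega
    · have := affine_case hF a h2 h
      omega
  · push Not at htr
    obtain ⟨b, hb⟩ := htr
    have : FaithfulSMul G (orbit G a) := ⟨fun {x y} hxy => by
      by_contra hne
      obtain ⟨n, hn, e⟩ := h1 (toPermHom G (orbit G a)).ker inferInstance (fun e => hne (by
        refine (MonoidHom.ker_eq_bot_iff _).1 e (Equiv.ext hxy))) a g
      have h2 : toPermHom G (orbit G a) n = 1 := hn
      exact ha (e.symm.trans
        (congrArg (fun s : Equiv.Perm (orbit G a) => (s ⟨a, mem_orbit_self a⟩ : Ω)) h2))⟩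
    have h2 : Nat.card (orbit G a) + (orbit G a)ᶜ.ncard = Nat.card Ω := Set.ncard_add_ncard_compl _
    have h3 : 0 < (orbit G a)ᶜ.ncard := (Set.ncard_pos (Set.toFinite _)).2 ⟨b, hb⟩
    have h4 := ih _ (by omega) G (orbit G a) rfl l h
    have : Nonempty (orbitRel.Quotient G (orbit G a)) := ⟨Quotient.mk'' ⟨a, mem_orbit_self a⟩⟩
    have h5 : 0 < Nat.card (orbitRel.Quotient G (orbit G a)) := Nat.card_pos
    have h6 : Nat.card (orbitRel.Quotient G Ω) ≤ (orbit G a)ᶜ.ncard + 1 := by
      have h7 : (Set.univ : Set (orbitRel.Quotient G Ω)) ⊆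
          insert (Quotient.mk'' a) (Quotient.mk'' '' (orbit G a)ᶜ) := by
        intro x _
        induction x using Quotient.inductionOn' with | h x =>
        by_cases hx : x ∈ orbit G a
        · exact Or.inl (Quotient.sound' hx)
        · exact Or.inr ⟨x, hx, rfl⟩
      have h8 := (Set.ncard_le_ncard h7).trans (Set.ncard_insert_le _ _)
      rw [Set.ncard_univ] at h8
      exact h8.trans (Nat.add_le_add_right (Set.ncard_image_le (Set.toFinite _)) 1)
    omega


/-- If a finite group G acts faithfully on a finite set with n points and r orbits, then the composition length of G is at most 4(n − r)/3. Here the composition length is expressed through chains: the conclusion bounds the length l of every chain of subgroups 1 = H₀ < H₁ < ⋯ < H_l = G in which each term is normal in the next (the longest such chains are exactly the composition series). -/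
theorem result {G Ω : Type*} [Group G] [Finite G] [MulAction G Ω] [FaithfulSMul G Ω] [Fintype Ω]
    (l : ℕ) (H : Fin (l + 1) → Subgroup G) (h0 : H 0 = ⊥) (hl : H (Fin.last l) = ⊤)
    (hchain : ∀ i : Fin l, H i.castSucc < H i.succ ∧ ((H i.castSucc).subgroupOf (H i.succ)).Normal) :
    3 * l ≤ 4 * (Fintype.card Ω - Nat.card (Quotient (MulAction.orbitRel G Ω))) := by
  have h := Ch.of_fin l H hchain
  rw [h0, hl] at h
  have h1 := h.map (toPermHom G Ω).rangeRestrict (by
    rw [MonoidHom.ker_rangeRestrict, (MonoidHom.ker_eq_bot_iff _).2 toPerm_injective])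
  rw [Subgroup.map_bot, map_top_of_surjective _ (toPermHom G Ω).rangeRestrict_surjective] at h1
  have h2 := main _ (toPermHom G Ω).range Ω rfl l h1
  have h3 := card_le_orbits (toPermHom G Ω).range (Ω := Ω) (X := orbitRel.Quotient G Ω) Quotient.mk''
    Quotient.mk''_surjective (by rintro ⟨_, g, rfl⟩ x; exact Quotient.sound' ⟨g, rfl⟩)
  rw [Nat.card_eq_fintype_card (α := Ω)] at h2
  change 3 * l ≤ 4 * (Fintype.card Ω - Nat.card (orbitRel.Quotient G Ω))
  omega

end Cfsg.Agent.S5722
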