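import Cfsg.Statements.S5730
import Cfsg.Agent.Lib.Perm.Derange

set_option autoImplicit false
open Cfsg

namespace Cfsg.Agent.S5730

open MulAction Finset CfsgLib.Perm.Derange

section

variable {G Ω : Type*} [Group G] [Fintype G] [MulAction G Ω] [Fintype Ω] [DecidableEq Ω]

/-- the number of fixed points -/
def fx (Ω : Type*) [MulAction G Ω] [Fintype Ω] [DecidableEq Ω] (g : G) : ℤ :=
  ∑ x : Ω, if g • x = x then 1 else 0

omit [Fintype Ω] [DecidableEq Ω] [MulAction G Ω] in
theorem sum_ite_mem_sub (U : Subgroup G) [DecidablePred (· ∈ U)] :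
    (∑ g : G, if g ∈ U then 1 else 0 : ℤ) = Nat.card U := by
  rw [sum_boole, Nat.card_eq_fintype_card, Fintype.card_subtype]

theorem sum_fx : ∑ g : G, fx Ω g = ∑ x : Ω, (Nat.card (stabilizer G x) : ℤ) := by
  classical
  simp only [fx]
  rw [sum_comm]
  refine sum_congr rfl fun x _ => ?_
  rw [← sum_ite_mem_sub]
  exact sum_congr rfl fun g _ => by simp [mem_stabilizer_iff]

theorem sum_fx2 : ∑ g : G, fx Ω g ^ 2 = ∑ x : Ω, ∑ y : Ω, (Nat.card (St G x y) : ℤ) := by
  classical
  simp only [fx, pow_two, sum_mul_sum]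
  rw [sum_comm]
  refine sum_congr rfl fun x _ => ?_
  rw [sum_comm]
  refine sum_congr rfl fun y _ => ?_
  rw [← sum_ite_mem_sub]
  exact sum_congr rfl fun g _ => by simp only [mem_St]; split_ifs <;> simp_all

theorem sum_fx3 :
    ∑ g : G, fx Ω g ^ 3 = ∑ x : Ω, ∑ y : Ω, ∑ z : Ω, (Nat.card (St3 G x y z) : ℤ) := by
  classical
  simp only [fx, pow_succ, pow_zero, one_mul, sum_mul, mul_sum]
  rw [sum_comm]
  refine sum_congr rfl fun x _ => ?_
  rw [sum_comm]
  refine sum_congr rfl fun y _ => ?_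
  rw [sum_comm]
  refine sum_congr rfl fun z _ => ?_
  rw [← sum_ite_mem_sub]
  exact sum_congr rfl fun g _ => by simp only [mem_St3]; split_ifs <;> simp_all

omit [Fintype G] in
theorem fx_eq (g : G) : fx Ω g = Nat.card (fixedBy Ω g) := by
  classical
  rw [fx, sum_boole, Nat.card_eq_fintype_card, Fintype.card_subtype]
  rfl

omit [Fintype G] in
theorem fx_le (g : G) : fx Ω g ≤ Fintype.card Ω := by
  rw [fx, sum_boole]
  exact_mod_cast card_le_univ _

omit [Fintype G] in
theorem fx_one : fx Ω (1 : G) = Fintype.card Ω := by simp [fx]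

omit [Fintype G] in
theorem fx_cases (g : G) : (fx Ω g = 0 ∧ ∀ ω : Ω, g • ω ≠ ω) ∨ (1 ≤ fx Ω g ∧ ¬ ∀ ω : Ω, g • ω ≠ ω) := by
  by_cases h : ∀ ω : Ω, g • ω ≠ ω
  · exact Or.inl ⟨sum_eq_zero fun x _ => if_neg (h x), h⟩
  · refine Or.inr ⟨?_, h⟩
    push Not at h
    obtain ⟨x, hx⟩ := h
    rw [fx, sum_boole]
    exact_mod_cast card_pos.2 ⟨x, by simp [hx]⟩

theorem card_der : (Nat.card {g : G // ∀ ω : Ω, g • ω ≠ ω} : ℤ) =
    ∑ g : G, if ∀ ω : Ω, g • ω ≠ ω then 1 else 0 := by
  rw [sum_boole, Nat.card_eq_fintype_card, Fintype.card_subtype]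

end


/-- Let a finite group G act faithfully and transitively on a set with n ≥ 7 points. Then either G is a Frobenius permutation group (Frobenius as a permutation group: transitive, some non-identity element fixes a point, and no non-identity element fixes two points) of order n(n − 1)/a with a ∈ {1, 2}, in which case exactly a|G|/n of its elements are derangements, or the number of derangements is at least 2|G|/n. (Equality does occur: PSL₃(2) acting on the 7 points of the Fano plane has exactly 2|G|/7 derangements.) -/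
theorem result {G Ω : Type*} [Group G] [Finite G] [MulAction G Ω] [FaithfulSMul G Ω] [Fintype Ω] (htr : MulAction.IsPretransitive G Ω) (hn : 7 ≤ Fintype.card Ω) :
    (∃ a : ℕ, (a = 1 ∨ a = 2) ∧ (MulAction.IsPretransitive G Ω ∧ (∃ g : G, g ≠ 1 ∧ ∃ ω : Ω, g • ω = ω) ∧ ∀ g : G, g ≠ 1 → Nat.card (MulAction.fixedBy Ω g) ≤ 1) ∧ a * Nat.card G = Fintype.card Ω * (Fintype.card Ω - 1) ∧ Fintype.card Ω * Nat.card {g : G // ∀ ω : Ω, g • ω ≠ ω} = a * Nat.card G) ∨
    2 * Nat.card G ≤ Fintype.card Ω * Nat.card {g : G // ∀ ω : Ω, g • ω ≠ ω} := by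
  classical
  have := Fintype.ofFinite G
  set n := Fintype.card Ω with hn'
  set D := Nat.card {g : G // ∀ ω : Ω, g • ω ≠ ω} with hD
  obtain ⟨a, b, hab⟩ : ∃ a b : Ω, a ≠ b := Fintype.exists_pair_of_one_lt_card (by omega)
  have h1 : ∑ x : Ω, (Nat.card (stabilizer G x) : ℤ) = Nat.card G := by
    rw [← sum_orbit (H := G) a, filter_true_of_mem (p := fun y => y ∈ orbit G a) fun x _ => htr.exists_smul_eq a x]
    push_cast; rfl
  have hG : ∑ _g : G, (1 : ℤ) = Nat.card G := by simp
  by_cases tr : ∀ a b c d : Ω, a ≠ b → c ≠ d → ∃ g : G, g • a = c ∧ g • b = d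
  swap
  · right
    have h2 : ∀ x : Ω, 3 * Nat.card (stabilizer G x) ≤ ∑ y, Nat.card (St G x y) := by
      intro x
      obtain ⟨y, z, hy, hz, hyz⟩ : ∃ y z, y ≠ x ∧ z ≠ x ∧ z ∉ orbit (stabilizer G x) y := by
        by_contra h
        push Not at h
        refine tr fun a b c d hab hcd => ?_
        obtain ⟨g₁, rfl⟩ := htr.exists_smul_eq a x
        obtain ⟨g₂, rfl⟩ := htr.exists_smul_eq (g₁ • a) c
        obtain ⟨g₃, h3⟩ := h (g₁ • b) (g₂⁻¹ • d) (fun e => hab (MulAction.injective g₁ e).symm)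
          (fun e => hcd (inv_smul_eq_iff.1 e).symm)
        refine ⟨g₂ * g₃ * g₁, by rw [mul_smul, mul_smul, g₃.2], ?_⟩
        rw [mul_smul, mul_smul, ← eq_inv_smul_iff, ← h3]
        rfl
      have hx : ∀ w, w ≠ x → Disjoint (univ.filter fun v => v ∈ orbit (stabilizer G x) x)
          (univ.filter fun v => v ∈ orbit (stabilizer G x) w) := by
        intro w hw
        rw [disjoint_filter]
        rintro v - ⟨g, rfl⟩ ⟨g', hg⟩
        exact hw (MulAction.injective (g' : G) (hg.trans (g.2.trans g'.2.symm)))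
      have hyz' : Disjoint (univ.filter fun v => v ∈ orbit (stabilizer G x) y)
          (univ.filter fun v => v ∈ orbit (stabilizer G x) z) := by
        rw [disjoint_filter]
        intro v _ h3 h4
        exact hyz (orbit_eq_iff.2 h3 ▸ orbit_eq_iff.2 h4 ▸ mem_orbit_self z)
      have h3 := sum_le_sum_of_subset (f := fun v => Nat.card (stabilizer (stabilizer G x) v))
        (subset_univ ((univ.filter fun v => v ∈ orbit (stabilizer G x) x) ∪
          ((univ.filter fun v => v ∈ orbit (stabilizer G x) y) ∪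
          (univ.filter fun v => v ∈ orbit (stabilizer G x) z))))
      rw [sum_union (disjoint_union_right.2 ⟨hx y hy, hx z hz⟩), sum_union hyz', sum_orbit, sum_orbit,
        sum_orbit, ← sum_congr rfl fun c _ => card_inf_stab (stabilizer G x) c] at h3
      exact le_of_eq_of_le (by ring) h3
    have h3 : 3 * (Nat.card G : ℤ) ≤ ∑ g : G, fx Ω g ^ 2 := by
      rw [sum_fx2, ← h1, mul_sum]
      exact sum_le_sum fun x _ => by exact_mod_cast h2 x
    have h4 : ∑ g : G, (fx Ω g ^ 2 + n * 1) ≤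
        ∑ g : G, ((n + 1) * fx Ω g + n * if ∀ ω : Ω, g • ω ≠ ω then 1 else 0) := by
      refine sum_le_sum fun g _ => ?_
      rcases fx_cases (Ω := Ω) g with ⟨h, h'⟩ | ⟨h, h'⟩
      · rw [h, if_pos h']; simp
      · rw [if_neg h']
        have := fx_le (Ω := Ω) g
        nlinarith
    rw [sum_add_distrib, sum_add_distrib, ← mul_sum, ← mul_sum, ← mul_sum, sum_fx, h1, hG,
      ← card_der] at h4
    zify
    nlinarith
  have C := exists_ctx tr hab
  generalize Nat.card (St G a b) = t at C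
  generalize (Fx Ω (St G a b)).card = φ at C
  have hcG := C.card_G hab
  have ht := C.t_pos hab
  have h5 : ∑ g : G, (fx Ω g - 1 + if ∀ ω : Ω, g • ω ≠ ω then 1 else 0) = D := by
    rw [sum_add_distrib, sum_sub_distrib, sum_fx, h1, hG, ← card_der, sub_self, zero_add]
  obtain ⟨m, hm⟩ : ∃ m, n = m + 1 := ⟨n - 1, by omega⟩
  rw [← hn', hm, Nat.add_sub_cancel] at hcG
  by_cases ht1 : t = 1
  · subst ht1
    left
    have h6 : ∀ g : G, g ≠ 1 → Nat.card (fixedBy Ω g) ≤ 1 := by
      intro g hg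
      rw [Finite.card_le_one_iff_subsingleton]
      refine ⟨fun x y => Subtype.ext ?_⟩
      by_contra hxy
      have h7 : g ∈ St G x.1 y.1 := ⟨x.2, y.2⟩
      rw [Subgroup.card_eq_one.1 (C.ht _ _ hxy)] at h7
      exact hg h7
    refine ⟨1, Or.inl rfl, ⟨htr, ?_, h6⟩, by rw [hcG, hm]; simp, ?_⟩
    · obtain ⟨g, hg⟩ := Subgroup.ne_bot_iff_exists_ne_one.1 (Ctx.ne_bot_of_card
        (U := stabilizer G a) (by rw [C.card_stab hab]; omega))
      exact ⟨g, fun e => hg (Subtype.ext e), a, g.2⟩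
    · rw [sum_eq_single (1 : G), fx_one, if_neg (fun h => h a (one_smul _ _))] at h5
      · have : D = m := by omega
        rw [this, hcG, hm]; ring
      · intro g _ hg
        have h7 := h6 g hg
        rcases fx_cases (Ω := Ω) g with ⟨h, h'⟩ | ⟨h, h'⟩
        · rw [h, if_pos h']; simp
        · rw [if_neg h']
          rw [fx_eq] at h ⊢
          omega
      · simp
  right
  obtain ⟨s, rfl⟩ : ∃ s, t = s + 1 := ⟨t - 1, by omega⟩
  have hxx : ∀ x : Ω, St G x x = stabilizer G x := fun x => inf_idem _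
  have h6 : ∑ g : G, fx Ω g ^ 2 = 2 * Nat.card G := by
    rw [sum_fx2, ← h1, mul_sum]
    refine sum_congr rfl fun x _ => ?_
    rw [← add_sum_erase _ _ (mem_univ x), hxx,
      sum_congr rfl fun y hy => by rw [C.ht x y (mem_erase.1 hy).1.symm], sum_const,
      card_erase_of_mem (mem_univ x), card_univ, C.card_stab hab, ← hn', hm]
    simp only [Nat.add_sub_cancel, nsmul_eq_mul]
    push_cast; ring
  have h7 : (2 * s + 1) * (∑ g : G, fx Ω g ^ 3 - ∑ g : G, fx Ω g ^ 2) ≤ n * (m * (n * (s + 1) ^ 2)) := by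
    rw [sum_fx3, sum_fx2, ← sum_sub_distrib, mul_sum]
    refine (sum_le_card_nsmul _ _ ((m : ℤ) * (n * (s + 1) ^ 2)) fun x _ => ?_).trans
      (by rw [card_univ, nsmul_eq_mul])
    rw [← add_sum_erase _ _ (mem_univ x),
      sum_congr rfl fun z _ => by rw [St3_swap, St3_comm, St3_self, St_comm], add_sub_cancel_left, mul_sum]
    refine (sum_le_card_nsmul _ _ ((n : ℤ) * (s + 1) ^ 2) fun y hy => ?_).trans
      (by rw [card_erase_of_mem (mem_univ x), card_univ, ← hn', hm, nsmul_eq_mul]; simp)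
    have := C.sum_le (mem_erase.1 hy).1.symm hn (by omega)
    rw [show 2 * (s + 1) - 1 = 2 * s + 1 by omega] at this
    exact_mod_cast this
  have h8 : ∑ g : G, (2 * (n * s) * (2 * s + 1) * (fx Ω g ^ 2 - fx Ω g) -
      (2 * s + 1) ^ 2 * (fx Ω g ^ 3 - fx Ω g ^ 2) + if g = 1 then (m * (n * (s + 1)) ^ 2 : ℤ) else 0) ≤
      ∑ g : G, (n * s) ^ 2 * (fx Ω g - 1 + if ∀ ω : Ω, g • ω ≠ ω then 1 else 0) := by
    refine sum_le_sum fun g _ => ?_
    by_cases hg : g = 1
    · rw [hg, if_pos rfl, fx_one, if_neg (fun h => h a (one_smul _ _)), ← hn', hm]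
      push_cast
      exact le_of_eq (by ring)
    rw [if_neg hg]
    rcases fx_cases (Ω := Ω) g with ⟨h, h'⟩ | ⟨h, h'⟩
    · rw [h, if_pos h']; simp
    · rw [if_neg h']
      have := mul_nonneg (sub_nonneg.2 h) (sq_nonneg ((n * s : ℤ) - fx Ω g * (2 * s + 1)))
      nlinarith
  rw [← mul_sum, h5, sum_add_distrib, sum_sub_distrib, ← mul_sum, ← mul_sum, sum_sub_distrib,
    sum_sub_distrib, sum_ite_eq', if_pos (mem_univ _), sum_fx, h1] at h8
  rw [h6] at h7 h8
  have h9 := mul_le_mul_of_nonneg_left h7 (show (0 : ℤ) ≤ 2 * s + 1 by positivity)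
  have h10 : (n * s : ℤ) ^ 2 * (2 * (m * (s + 1))) ≤ (n * s) ^ 2 * D := by
    have h11 : (Nat.card G : ℤ) = n * (m * (s + 1)) := by rw [hcG, hm]; push_cast; ring
    rw [h11] at h8 h9
    nlinarith
  have h12 := le_of_mul_le_mul_left h10 (by
    have : (0 : ℤ) < n := by omega
    have : (0 : ℤ) < s := by omega
    positivity)
  have h13 : 2 * (m * (s + 1)) ≤ D := by exact_mod_cast h12
  rw [hcG, hm]
  nlinarith

end Cfsg.Agent.S5730
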