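import Cfsg.Statements.S5738
-- import your own Cfsg.Agent.* helpers here

set_option autoImplicit false
open Cfsg

namespace Cfsg.Agent.S5738

/-- Let F ⊆ K be finite fields with |F| = q and [K : F] = n ≥ 2, so |K| = q^n. Regard K as an n-dimensional F-vector space; the multiplications by non-zero elements of K form a cyclic subgroup of GL_F(K) of order q^n − 1 acting regularly on the non-zero vectors (a Singer group). Its normaliser in GL_F(K) has order n·(q^n − 1). -/
theorem result {F K : Type*} [Field F] [Fintype F] [Field K] [Fintype K] [Algebra F K] (n : ℕ) (hn : 2 ≤ n) (hdim : Module.finrank F K = n) :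
    Nat.card (Subgroup.normalizer (((Units.map ((Algebra.lmul F K : K →ₐ[F] Module.End F K) : K →* Module.End F K)).range : Subgroup (Module.End F K)ˣ) : Set (Module.End F K)ˣ)) = n * (Fintype.card K - 1) := by
  classical
  set ψ := Units.map ((Algebra.lmul F K : K →ₐ[F] Module.End F K) : K →* Module.End F K) with hψ
  have hψa : ∀ (c : Kˣ) (x : K), (ψ c : Module.End F K) x = c * x := fun c x => rfl
  let u : (K ≃ₐ[F] K) → (Module.End F K)ˣ := fun σ =>
    LinearMap.GeneralLinearGroup.ofLinearEquiv σ.toLinearEquiv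
  have hu : ∀ σ x, (u σ : Module.End F K) x = σ x := fun σ x => rfl
  have hconj : ∀ (σ : K ≃ₐ[F] K) (c : Kˣ), u σ * ψ c = ψ (Units.map (σ : K →* K) c) * u σ := by
    intro σ c
    ext x
    simp [hu, hψa]
  have hun : ∀ σ, u σ ∈ Subgroup.normalizer (ψ.range : Set (Module.End F K)ˣ) := by
    intro σ
    have : Finite (ψ.range : Set (Module.End F K)ˣ) := (Set.finite_range ψ).to_subtype
    refine Subgroup.mem_normalizer_fintype ?_
    rintro _ ⟨c, rfl⟩
    exact ⟨_, by rw [hconj, mul_inv_cancel_right]⟩
  let Φ : (K ≃ₐ[F] K) × Kˣ → Subgroup.normalizer (ψ.range : Set (Module.End F K)ˣ) := fun x =>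
    ⟨ψ x.2 * u x.1, Subgroup.mul_mem _ (Subgroup.le_normalizer ⟨x.2, rfl⟩) (hun x.1)⟩
  have hΦ : Function.Bijective Φ := by
    constructor
    · rintro ⟨σ, c⟩ ⟨τ, d⟩ h
      have h1 : ∀ x : K, (c : K) * σ x = d * τ x := fun x =>
        congrArg (fun g : Subgroup.normalizer (ψ.range : Set (Module.End F K)ˣ) =>
          ((g : (Module.End F K)ˣ) : Module.End F K) x) h
      have h2 : c = d := Units.ext (by simpa using h1 1)
      subst h2
      refine Prod.ext (AlgEquiv.ext fun x => ?_) rfl
      exact mul_left_cancel₀ c.ne_zero (h1 x)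
    · rintro ⟨g, hg⟩
      let e : K ≃ₗ[F] K := LinearMap.GeneralLinearGroup.toLinearEquiv g
      have he : ∀ x, e x = (g : Module.End F K) x := fun x => rfl
      have hc : e 1 ≠ 0 := by simp
      have hmul : ∀ a x : K, e 1 * e (a * x) = e a * e x := by
        intro a x
        by_cases ha : a = 0
        · simp [ha]
        obtain ⟨b, hb⟩ := (Subgroup.mem_normalizer_iff.1 hg (ψ (Units.mk0 a ha))).1 ⟨_, rfl⟩
        have h1 : ∀ y, (b : K) * e y = e (a * y) := fun y =>
          congrArg (fun g : (Module.End F K)ˣ => (g : Module.End F K) y) (eq_mul_inv_iff_mul_eq.1 hb)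
        have h2 := h1 1
        rw [mul_one] at h2
        rw [← h1, ← h2]; ring
      let e' : K ≃ₗ[F] K := e.trans (LinearMap.GeneralLinearGroup.toLinearEquiv (ψ (Units.mk0 _ hc)⁻¹))
      have he' : ∀ x, e' x = (e 1)⁻¹ * e x := fun x => rfl
      let σ : K ≃ₐ[F] K := AlgEquiv.ofLinearEquiv e' (by rw [he', inv_mul_cancel₀ hc]) (by
        intro a x
        rw [he', he', he']
        have := hmul a x
        field_simp
        exact this)
      refine ⟨(σ, Units.mk0 _ hc), Subtype.ext (Units.ext (LinearMap.ext fun x => ?_))⟩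
      change e 1 * ((e 1)⁻¹ * e x) = e x
      rw [mul_inv_cancel_left₀ hc]
  rw [← Nat.card_eq_of_bijective Φ hΦ, Nat.card_prod, IsGalois.card_aut_eq_finrank, hdim,
    Nat.card_units, Nat.card_eq_fintype_card]

end Cfsg.Agent.S5738
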