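import Cfsg.Statements.S5739
-- import your own Cfsg.Agent.* helpers here

set_option autoImplicit false
open Cfsg

namespace Cfsg.Agent.S5739

/-- Let F ⊆ K be finite fields with |F| = q and [K : F] = n ≥ 2, and let M ≤ GL_F(K) be the Singer group of multiplications by non-zero elements of K. If g ∈ GL_F(K) does not normalise M, then the order of M ∩ gMg⁻¹ divides q^r − 1 for some proper divisor r of n. In particular, when n is prime, that order divides q − 1. -/
theorem result {F K : Type*} [Field F] [Fintype F] [Field K] [Fintype K] [Algebra F K] (n : ℕ) (hn : 2 ≤ n) (hdim : Module.finrank F K = n)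
    (g : (Module.End F K)ˣ) (hg : ((Units.map ((Algebra.lmul F K : K →ₐ[F] Module.End F K) : K →* Module.End F K)).range).map (MulAut.conj g).toMonoidHom ≠ (Units.map ((Algebra.lmul F K : K →ₐ[F] Module.End F K) : K →* Module.End F K)).range) :
    ∃ r : ℕ, 1 ≤ r ∧ r ∣ n ∧ r < n ∧ Nat.card ↥(((Units.map ((Algebra.lmul F K : K →ₐ[F] Module.End F K) : K →* Module.End F K)).range).map (MulAut.conj g).toMonoidHom ⊓ (Units.map ((Algebra.lmul F K : K →ₐ[F] Module.End F K) : K →* Module.End F K)).range) ∣ Fintype.card F ^ r - 1 := by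
  classical
  set ψ := Units.map ((Algebra.lmul F K : K →ₐ[F] Module.End F K) : K →* Module.End F K) with hψ
  let L₀ : Subalgebra F K :=
    { carrier := {a | ∃ b : K, (g : Module.End F K) * Algebra.lmul F K b = Algebra.lmul F K a * g}
      mul_mem' := by
        rintro a a' ⟨b, hb⟩ ⟨b', hb'⟩
        exact ⟨b * b', by rw [map_mul, map_mul, ← mul_assoc, hb, mul_assoc, hb', mul_assoc]⟩
      add_mem' := by
        rintro a a' ⟨b, hb⟩ ⟨b', hb'⟩
        exact ⟨b + b', by rw [map_add, map_add, mul_add, add_mul, hb, hb']⟩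
      algebraMap_mem' := fun c => ⟨algebraMap F K c, by
        rw [AlgHom.commutes, Algebra.commutes]⟩ }
  let L : IntermediateField F K := Subalgebra.IsAlgebraic.toIntermediateField (S := L₀)
    (fun x _ => Algebra.IsAlgebraic.isAlgebraic x)
  have hL : ∀ a, a ∈ L ↔
      ∃ b : K, (g : Module.End F K) * Algebra.lmul F K b = Algebra.lmul F K a * g := fun a => Iff.rfl
  have hmem : ∀ a : Kˣ, ψ a ∈ ψ.range.map (MulAut.conj g).toMonoidHom ↔ (a : K) ∈ L := by
    intro a
    rw [hL]
    constructor
    · rintro ⟨_, ⟨b, rfl⟩, hb⟩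
      exact ⟨b, congrArg Units.val (mul_inv_eq_iff_eq_mul.1 hb)⟩
    · rintro ⟨b, hb⟩
      have hb0 : b ≠ 0 := by
        rintro rfl
        rw [map_zero, mul_zero] at hb
        exact (ψ a * g).ne_zero hb.symm
      exact ⟨_, ⟨Units.mk0 b hb0, rfl⟩, mul_inv_eq_iff_eq_mul.2 (Units.ext hb)⟩
  have hdvd : Module.finrank F L ∣ n := ⟨_, hdim ▸ (Module.finrank_mul_finrank F L K).symm⟩
  refine ⟨Module.finrank F L, Module.finrank_pos, hdvd,
    lt_of_le_of_ne (Nat.le_of_dvd (by omega) hdvd) fun h => hg ?_, ?_⟩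
  · have hT : L = ⊤ := IntermediateField.eq_of_le_of_finrank_eq le_top (by
      rw [h, IntermediateField.finrank_top', hdim])
    have : Finite (Module.End F K)ˣ := Finite.of_injective
      (fun x : (Module.End F K)ˣ => ((x : Module.End F K) : K → K))
      fun x y h => Units.ext (DFunLike.coe_injective h)
    refine (Subgroup.eq_of_le_of_card_ge ?_ ?_).symm
    · rintro _ ⟨a, rfl⟩
      exact (hmem a).2 (hT ▸ IntermediateField.mem_top)
    · exact (Subgroup.card_map_of_injective (MulAut.conj g).injective).le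
  · have hle : ψ.range.map (MulAut.conj g).toMonoidHom ⊓ ψ.range ≤
        (ψ.comp (Units.map (L.val : L →* K))).range := by
      rintro _ ⟨h1, a, rfl⟩
      have ha := (hmem a).1 h1
      exact ⟨Units.mk0 ⟨a, ha⟩ fun h => a.ne_zero (congrArg Subtype.val h), congrArg ψ (Units.ext rfl)⟩
    refine (Subgroup.card_dvd_of_le hle).trans ((Subgroup.card_range_dvd _).trans ?_)
    rw [Nat.card_units, Module.natCard_eq_pow_finrank (K := F), Nat.card_eq_fintype_card]

end Cfsg.Agent.S5739
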