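import Cfsg.Statements.S5747
-- import your own Cfsg.Agent.* helpers here

set_option autoImplicit false
open Cfsg

namespace Cfsg.Agent.S5747

open MulAction

section aux

variable {G Ω : Type*} [Group G] [MulAction G Ω]

/-- `f` is a base of `H` -/
def Base (H : Subgroup G) {t : ℕ} (f : Fin t → Ω) : Prop :=
  ∀ g ∈ H, (∀ i, g • f i = f i) → g = 1

/-- `f` is an irredundant base of `H` -/
def Irr (H : Subgroup G) {t : ℕ} (f : Fin t → Ω) : Prop :=
  Base H f ∧ ∀ i, ∃ g ∈ H, (∀ j, j < i → g • f j = f j) ∧ g • f i ≠ f i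

theorem irr_top {t : ℕ} (f : Fin t → Ω) : Irr (⊤ : Subgroup G) f ↔
    ((∀ g : G, (∀ i : Fin t, g • f i = f i) → g = 1) ∧
      ∀ i : Fin t, ∃ g : G, (∀ j : Fin t, j < i → g • f j = f j) ∧ g • f i ≠ f i) := by
  simp [Irr, Base]

theorem base_cons (H : Subgroup G) {t : ℕ} (a : Ω) (f : Fin t → Ω) :
    Base H (Fin.cons a f : Fin (t + 1) → Ω) ↔ Base (H ⊓ stabilizer G a) f := by
  simp only [Base, Fin.forall_fin_succ, Fin.cons_zero, Fin.cons_succ, Subgroup.mem_inf,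
    mem_stabilizer_iff]
  exact ⟨fun h g hg h' => h g hg.1 ⟨hg.2, h'⟩, fun h g hg h' => h g ⟨hg, h'.1⟩ h'.2⟩

theorem irr_cons (H : Subgroup G) {t : ℕ} (a : Ω) (f : Fin t → Ω) :
    Irr H (Fin.cons a f : Fin (t + 1) → Ω) ↔
      (∃ g ∈ H, g • a ≠ a) ∧ Irr (H ⊓ stabilizer G a) f := by
  simp only [Irr, base_cons, Fin.forall_fin_succ, Fin.cons_zero, Fin.cons_succ, Subgroup.mem_inf,
    mem_stabilizer_iff, Fin.not_lt_zero, Fin.succ_pos, Fin.succ_lt_succ_iff, false_imp_iff,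
    true_imp_iff, implies_true, true_and, and_assoc]
  tauto

theorem exists_irr_le {t : ℕ} (H : Subgroup G) (f : Fin t → Ω) (hf : Base H f) :
    ∃ (r : ℕ) (f' : Fin r → Ω), r ≤ t ∧ Irr H f' := by
  induction t generalizing H with
  | zero => exact ⟨0, f, le_rfl, hf, fun i => i.elim0⟩
  | succ t ih =>
    rw [← Fin.cons_self_tail f, base_cons] at hf
    obtain ⟨r, f', hr, hf'⟩ := ih _ _ hf
    by_cases h : ∃ g ∈ H, g • f 0 ≠ f 0
    · exact ⟨r + 1, Fin.cons (f 0) f', by omega, (irr_cons _ _ _).2 ⟨h, hf'⟩⟩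
    · push Not at h
      have : H ⊓ stabilizer G (f 0) = H := inf_eq_left.2 h
      exact ⟨r, f', by omega, this ▸ hf'⟩

/-- reorderings of irredundant bases of `H` are irredundant -/
def Reord (Ω : Type*) [MulAction G Ω] (H : Subgroup G) : Prop :=
  ∀ (t : ℕ) (f : Fin t → Ω) (σ : Equiv.Perm (Fin t)), Irr H f → Irr H (f ∘ σ)

theorem reord_stab {H : Subgroup G} (h : Reord Ω H) {a : Ω} (ha : ∃ g ∈ H, g • a ≠ a) :
    Reord Ω (H ⊓ stabilizer G a) := by
  intro t f σ hf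
  have h1 := h _ _ (Equiv.Perm.decomposeFin.symm (0, σ)) ((irr_cons H a f).2 ⟨ha, hf⟩)
  have h2 : (Fin.cons a f : Fin (t + 1) → Ω) ∘ Equiv.Perm.decomposeFin.symm (0, σ) =
      Fin.cons a (f ∘ σ) := by
    funext i
    refine Fin.cases ?_ (fun j => ?_) i <;> simp
  rw [h2] at h1
  exact ((irr_cons H a _).1 h1).2

theorem swap_irr {H : Subgroup G} (h : Reord Ω H) {t : ℕ} {a b : Ω} {f : Fin t → Ω}
    (hf : Irr H (Fin.cons a (Fin.cons b f : Fin (t + 1) → Ω) : Fin (t + 2) → Ω)) :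
    Irr H (Fin.cons b (Fin.cons a f : Fin (t + 1) → Ω) : Fin (t + 2) → Ω) := by
  have h1 := h _ _ (Equiv.swap 0 1) hf
  convert h1 using 1
  funext i
  refine Fin.cases ?_ (fun j => Fin.cases ?_ (fun k => ?_) j) i
  · simp
  · simp
  · rw [Function.comp_apply, Equiv.swap_apply_of_ne_of_ne (Fin.succ_ne_zero _)
      (Fin.succ_succ_ne_one k)]
    simp

theorem length_eq [Finite G] (n : ℕ) (H : Subgroup G) (hn : Nat.card H = n) (h : Reord Ω H)
    {t t' : ℕ} (f : Fin t → Ω) (f' : Fin t' → Ω) (hf : Irr H f) (hf' : Irr H f') : t = t' := by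
  induction n using Nat.strong_induction_on generalizing H t t' with
  | _ n ih =>
  have hzero : ∀ {s s' : ℕ} (e : Fin s → Ω) (e' : Fin s' → Ω), Irr H e → Irr H e' → s = 0 → s' = 0 := by
    intro s s' e e' he he' hs
    subst hs
    by_contra hs'
    obtain ⟨g, hg, -, hne⟩ := he'.2 ⟨0, Nat.pos_of_ne_zero hs'⟩
    exact hne (by rw [he.1 g hg fun i => i.elim0, one_smul])
  rcases t with _ | t
  · exact (hzero f f' hf hf' rfl).symm
  rcases t' with _ | t'
  · exact hzero f' f hf' hf rfl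
  have hbase := hf.1
  rw [← Fin.cons_self_tail f, irr_cons] at hf
  rw [← Fin.cons_self_tail f', irr_cons] at hf'
  set a := f 0
  set b := f' 0
  have hlt : ∀ c : Ω, (∃ g ∈ H, g • c ≠ c) → Nat.card ↥(H ⊓ stabilizer G c) < n := by
    rintro c ⟨g, hg, hc⟩
    rw [← hn]
    have hl : H ⊓ stabilizer G c < H := lt_of_le_of_ne inf_le_left fun e => hc (e.ge hg).2
    exact lt_of_le_of_ne (Subgroup.card_le_of_le hl.le) fun e =>
      hl.ne (Subgroup.eq_of_le_of_card_ge hl.le e.ge)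
  have key : ∀ c d : Ω, (∃ g ∈ H, g • c ≠ c) → (∃ g ∈ H ⊓ stabilizer G c, g • d ≠ d) →
      ∃ (r : ℕ) (e : Fin r → Ω), Irr (H ⊓ stabilizer G c) (Fin.cons d e : Fin (r + 1) → Ω) ∧
        Irr (H ⊓ stabilizer G d) (Fin.cons c e : Fin (r + 1) → Ω) := by
    intro c d hc hd
    obtain ⟨r, e, -, he⟩ := exists_irr_le (H ⊓ stabilizer G c ⊓ stabilizer G d) f
      fun g hg => hbase g hg.1.1
    have h1 := (irr_cons _ d e).2 ⟨hd, he⟩
    exact ⟨r, e, h1, ((irr_cons _ _ _).1 (swap_irr h ((irr_cons _ c _).2 ⟨hc, h1⟩))).2⟩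
  by_cases hab : ∃ g ∈ H ⊓ stabilizer G a, g • b ≠ b
  · obtain ⟨r, e, h1, h2⟩ := key a b hf.1 hab
    rw [ih _ (hlt a hf.1) _ rfl (reord_stab h hf.1) _ _ hf.2 h1,
      ih _ (hlt b hf'.1) _ rfl (reord_stab h hf'.1) _ _ hf'.2 h2]
  by_cases hba : ∃ g ∈ H ⊓ stabilizer G b, g • a ≠ a
  · obtain ⟨r, e, h1, h2⟩ := key b a hf'.1 hba
    exact absurd ((irr_cons _ _ _).1 h2).1 hab
  push Not at hab hba
  have he : H ⊓ stabilizer G a = H ⊓ stabilizer G b :=
    le_antisymm (le_inf inf_le_left hab) (le_inf inf_le_left hba)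
  rw [ih _ (hlt a hf.1) _ rfl (reord_stab h hf.1) _ _ hf.2 (he ▸ hf'.2)]

end aux

/-- Let a finite group G act on a finite set Ω. An irredundant base is a sequence of points ω₁, …, ω_t whose pointwise stabiliser is trivial and in which each ω_i is moved by some element fixing ω₁, …, ω_{i−1}. Then all irredundant bases have the same length if and only if every reordering of an irredundant base is again an irredundant base. -/
theorem result {G Ω : Type*} [Group G] [Finite G] [MulAction G Ω] [Fintype Ω] :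
    (∀ (t t' : ℕ) (f : Fin t → Ω) (f' : Fin t' → Ω), ((∀ g : G, (∀ i : Fin t, g • f i = f i) → g = 1) ∧ ∀ i : Fin t, ∃ g : G, (∀ j : Fin t, j < i → g • f j = f j) ∧ g • f i ≠ f i) → ((∀ g : G, (∀ i : Fin t', g • f' i = f' i) → g = 1) ∧ ∀ i : Fin t', ∃ g : G, (∀ j : Fin t', j < i → g • f' j = f' j) ∧ g • f' i ≠ f' i) → t = t') ↔
    (∀ (t : ℕ) (f : Fin t → Ω) (σ : Equiv.Perm (Fin t)), ((∀ g : G, (∀ i : Fin t, g • f i = f i) → g = 1) ∧ ∀ i : Fin t, ∃ g : G, (∀ j : Fin t, j < i → g • f j = f j) ∧ g • f i ≠ f i) → ((∀ g : G, (∀ i : Fin t, g • (f ∘ σ) i = (f ∘ σ) i) → g = 1) ∧ ∀ i : Fin t, ∃ g : G, (∀ j : Fin t, j < i → g • (f ∘ σ) j = (f ∘ σ) j) ∧ g • (f ∘ σ) i ≠ (f ∘ σ) i)) := by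
  constructor
  · intro h t f σ hf
    have hb : Base (⊤ : Subgroup G) (f ∘ σ) := fun g _ hg => hf.1 g fun i => by simpa using hg (σ.symm i)
    refine ⟨fun g hg => hb g trivial hg, fun i => ?_⟩
    by_contra hcon
    push Not at hcon
    obtain ⟨s, rfl⟩ : ∃ s, t = s + 1 := ⟨t - 1, by have := i.pos; omega⟩
    have hb' : Base (⊤ : Subgroup G) ((f ∘ σ) ∘ i.succAbove) := by
      intro g hg' hg
      have h1 : ∀ j, j ≠ i → g • (f ∘ σ) j = (f ∘ σ) j := by
        intro j hj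
        obtain ⟨k, rfl⟩ := Fin.exists_succAbove_eq hj
        exact hg k
      refine hb g hg' fun j => ?_
      by_cases hj : j = i
      · rw [hj]; exact hcon g fun k hk => h1 k hk.ne
      · exact h1 j hj
    obtain ⟨r, f', hr, hf'⟩ := exists_irr_le _ _ hb'
    have := h _ _ f f' hf ((irr_top f').1 hf')
    omega
  · intro h t t' f f' hf hf'
    exact length_eq _ (⊤ : Subgroup G) rfl (fun t f σ hf => (irr_top _).2 (h t f σ ((irr_top f).1 hf))) f f'
      ((irr_top f).2 hf) ((irr_top f').2 hf')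

end Cfsg.Agent.S5747
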