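import Cfsg.Statements.S5748
import Cfsg.Agent.Lib.Perm.CAGroup
import Cfsg.Agent.Lib.Dickson.Full
import Cfsg.Agent.Lib.SL2.PSL
import Cfsg.Agent.S0204

set_option autoImplicit false
open Cfsg

namespace Cfsg.Agent.S5748

open CfsgLib.Dickson CfsgLib.Perm.CAG
open scoped MatrixGroups

theorem par {F : Type*} [Field F] {u1 u2 u3 v1 v2 v3 : F} (hv : v1 ≠ 0 ∨ v2 ≠ 0 ∨ v3 ≠ 0)
    (h1 : u1 * v2 = u2 * v1) (h2 : u1 * v3 = u3 * v1) (h3 : u2 * v3 = u3 * v2) :
    ∃ a, u1 = a * v1 ∧ u2 = a * v2 ∧ u3 = a * v3 := by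
  rcases hv with h | h | h
  · exact ⟨u1 / v1, by field_simp, by field_simp; linear_combination -h1,
      by field_simp; linear_combination -h2⟩
  · exact ⟨u2 / v2, by field_simp; linear_combination h1, by field_simp,
      by field_simp; linear_combination -h3⟩
  · exact ⟨u3 / v3, by field_simp; linear_combination h2, by field_simp; linear_combination h3,
      by field_simp⟩

theorem mat_ct {F : Type*} [Field F] (A B C : Matrix (Fin 2) (Fin 2) F)
    (hB : B 0 1 ≠ 0 ∨ B 1 0 ≠ 0 ∨ B 0 0 - B 1 1 ≠ 0) (h1 : A * B = B * A) (h2 : C * B = B * C) :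
    A * C = C * A := by
  have key : ∀ A : Matrix (Fin 2) (Fin 2) F, A * B = B * A → ∃ a, A 0 1 = a * B 0 1 ∧
      A 1 0 = a * B 1 0 ∧ A 0 0 - A 1 1 = a * (B 0 0 - B 1 1) := fun A h1 => by
    have a0 := congrFun (congrFun h1 0) 0
    have a1 := congrFun (congrFun h1 0) 1
    have a2 := congrFun (congrFun h1 1) 0
    simp only [Matrix.mul_apply, Fin.sum_univ_two] at a0 a1 a2
    exact par hB (by linear_combination a0) (by linear_combination -a1) (by linear_combination a2)
  obtain ⟨a, a1, a2, a3⟩ := key A h1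
  obtain ⟨c, c1, c2, c3⟩ := key C h2
  ext i j
  fin_cases i <;> fin_cases j <;> simp [Matrix.mul_apply, Fin.sum_univ_two]
  · rw [a1, a2, c1, c2]; ring
  · linear_combination C 0 1 * a3 - A 0 1 * c3 + a * (B 0 0 - B 1 1) * c1 - c * (B 0 0 - B 1 1) * a1
  · linear_combination -C 1 0 * a3 + A 1 0 * c3 - a * (B 0 0 - B 1 1) * c2 + c * (B 0 0 - B 1 1) * a2
  · rw [a1, a2, c1, c2]; ring

theorem sl_ct {F : Type*} [Field F] (h2 : (2 : F) = 0) : CT SL(2, F) := by
  intro a b c _ hb _ h1 h3
  refine Subtype.ext (mat_ct a.1 b.1 c.1 ?_ (congrArg Subtype.val h1) (congrArg Subtype.val h3.symm))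
  by_contra! e
  obtain ⟨e1, e2, e3⟩ := e
  have hd := b.det_coe
  rw [Matrix.det_fin_two, e1, zero_mul, sub_zero] at hd
  have h4 : b.1 1 1 = 1 := by
    have : (b.1 1 1 - 1) ^ 2 = 0 := by
      linear_combination hd - b.1 1 1 * e3 + (1 - b.1 1 1) * h2
    exact sub_eq_zero.1 (pow_eq_zero_iff two_ne_zero |>.1 this)
  refine hb (Subtype.ext ?_)
  ext i j
  fin_cases i <;> fin_cases j <;> simp [e1, e2, h4]
  linear_combination e3 + h4


/-- A finite non-abelian simple group in which commuting is a transitive relation on the non-identity elements (equivalently, every non-identity element has abelian centraliser) is isomorphic to PSL₂ over a field with 2^f elements for some f ≥ 2; conversely these groups have that property. -/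
theorem result {G : Type*} [Group G] [Finite G] [IsSimpleGroup G] (hG : ¬ IsMulCommutative G) :
    (∀ a b c : G, a ≠ 1 → b ≠ 1 → c ≠ 1 → Commute a b → Commute b c → Commute a c) ↔
    ∃ (F : Type) (_ : Field F) (_ : Fintype F) (f : ℕ), 2 ≤ f ∧ Fintype.card F = 2 ^ f ∧ Nonempty (G ≃* Matrix.ProjectiveSpecialLinearGroup (Fin 2) F) := by
  constructor
  · intro h
    obtain ⟨E, hE⟩ := Cfsg.Agent.S0204.result (G := G) fun hc => hG inferInstance
    have : Fintype E := Fintype.ofFinite E
    have h4 : 2 < Fintype.card E := by rw [← Nat.card_eq_fintype_card, hE.card_four]; omega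
    obtain ⟨u, v, hu, hv, huv⟩ : ∃ u v : E, u ≠ 1 ∧ v ≠ 1 ∧ u ≠ v := by
      obtain ⟨x, y, z, hxy, hxz, hyz⟩ := Fintype.two_lt_card_iff.1 h4
      by_cases hx : x = 1
      · exact ⟨y, z, fun h => hxy (hx.trans h.symm), fun h => hxz (hx.trans h.symm), hyz⟩
      by_cases hy : y = 1
      · exact ⟨x, z, hx, fun h => hyz (hy.trans h.symm), hxz⟩
      exact ⟨x, y, hx, hy, hxy⟩
    have o : ∀ u : E, u ≠ 1 → orderOf (u : G) = 2 := fun u hu =>
      CfsgLib.StrEmb.orderOf_eq_two (congrArg Subtype.val (IsKleinFour.mul_self u))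
        fun e => hu (Subtype.ext e)
    obtain ⟨K, _, _, he, h2, ⟨φ⟩⟩ := CT.iso h (o u hu) (o v hv)
      (Subgroup.mem_centralizer_singleton_iff.2
        (congrArg Subtype.val (mul_comm_of_exponent_two hE.exponent_two u v)))
      (fun e => huv (Subtype.ext e)) hG
    have hi := index_psl_even (F := K) (by rwa [Nat.card_eq_fintype_card])
    rw [Subgroup.index_eq_one, MonoidHom.range_eq_top] at hi
    obtain ⟨n, -, hn⟩ := FiniteField.card K (ringChar K)
    rw [FiniteField.even_card_iff_char_two.2 (Nat.even_iff.1 he)] at hn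
    refine ⟨K, _, _, n, ?_, hn, ⟨φ.trans (MulEquiv.ofBijective (pslPGL K) ⟨pslPGL_injective, hi⟩).symm⟩⟩
    by_contra e
    have : (n : ℕ) = 1 := by have := n.pos; omega
    rw [hn, this] at h2
    omega
  · rintro ⟨F, _, _, f, hf, hF, ⟨φ⟩⟩ a b c ha hb hc h1 h2
    have h0 : (2 : F) = 0 := by
      have := FiniteField.cast_card_eq_zero F
      rw [hF] at this
      simpa using pow_eq_zero_iff (by omega : f ≠ 0) |>.1 (by simpa using this)
    let ψ := φ.trans (CfsgLib.SL2.pmEquiv h0).symm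
    exact ψ.injective (by
      rw [map_mul, map_mul]
      exact sl_ct h0 _ (ψ b) _ (by simpa using ha) (by simpa using hb) (by simpa using hc)
        (h1.map ψ) (h2.map ψ))

end Cfsg.Agent.S5748
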