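import Cfsg.Statements.S5751
import Cfsg.Agent.Lib.RGD.ItCore
-- import your own Cfsg.Agent.* helpers here

set_option autoImplicit false
open Cfsg

namespace Cfsg.Agent.S5751

open CfsgLib.RGD CfsgLib.Weyl CfsgLib.St

/-- An extremal example for iterated cores of conjugate maximal subgroups: there exist a finite group G and two distinct conjugate maximal subgroups M₁, M₂ of G, with M₁ having trivial core in G, such that, if we define two descending sequences of subgroups by A₀ = M₁, B₀ = M₂ and, for every i, A_{i+1} = the core in M₁ of A_i ∩ B_i and B_{i+1} = the core in M₂ of A_i ∩ B_i (the core in M of a subgroup Y ≤ M is the largest normal subgroup of M contained in Y), the subgroup A₆ is trivial while A₅ is not (so the index 6 cannot be lowered to 5). (One example is a maximal parabolic subgroup of the Chevalley group of type E₈ over a finite field and a suitable conjugate of it.) -/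
theorem result :
    ∃ (G : Type) (_ : Group G) (_ : Finite G) (M₁ M₂ : Subgroup G) (g : G) (A B : ℕ → Subgroup G),
      IsCoatom M₁ ∧ M₂ = M₁.map (MulAut.conj g).toMonoidHom ∧ M₁ ≠ M₂ ∧ M₁.normalCore = ⊥ ∧ A 0 = M₁ ∧ B 0 = M₂ ∧
      (∀ i, A (i + 1) = ((A i ⊓ B i).subgroupOf M₁).normalCore.map M₁.subtype) ∧
      (∀ i, B (i + 1) = ((A i ⊓ B i).subgroupOf M₂).normalCore.map M₂.subtype) ∧ A 6 = ⊥ ∧ A 5 ≠ ⊥ := by
  have := isSimpleGroup_E8 (F := ZMod 2)
  obtain ⟨h, H⟩ := (chevSys_nondeg rtOKE8 (ZMod 2)).exists_itCore (chevSys_grp _ _) itOK_E8 (m := 5)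
    (eq_bot_iff.2 ((Subgroup.closure_le _).2 (by
      rintro _ ⟨r, c, hc, rfl⟩
      rw [show c = 1 by revert c; decide, StSys.h_one]; exact one_mem _)))
    (fun r => (E8_h2 r r.2).2) (r := ⟨239, by decide⟩) (by change (6 : ℤ) ≤ rt Lie.chevE8 239 3; decide +kernel) (by decide)
  exact ⟨_, _, h, H⟩

end Cfsg.Agent.S5751
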