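import Cfsg.Statements.S5752
import Cfsg.Agent.Lib.PermS.TW

set_option autoImplicit false
open Cfsg

namespace Cfsg.Agent.S5752

open CfsgLib.PermS in

/-- A form of the Thompson–Wielandt Theorem on primitive permutation groups. Let G be a finite group and M₁, M₂ two distinct conjugate maximal subgroups of G with trivial core in G; define two descending sequences of subgroups by A₀ = M₁, B₀ = M₂ and, for every i, A_{i+1} = the core in M₁ of A_i ∩ B_i and B_{i+1} = the core in M₂ of A_i ∩ B_i (the core in M of a subgroup Y ≤ M is the largest normal subgroup of M contained in Y). If A₂ and B₂ are both non-trivial, then for some prime p the subgroup generated by A₂ and B₂ is a p-group, and for each j the generalized Fitting subgroups of M_j and of its first core (A₁, resp. B₁) are their largest normal p-subgroups. -/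
theorem result {G : Type*} [Group G] [Finite G] (M₁ M₂ : Subgroup G) (hmax : IsCoatom M₁) (g : G)
    (hconj : M₂ = M₁.map (MulAut.conj g).toMonoidHom) (hne : M₁ ≠ M₂) (hcore : M₁.normalCore = ⊥)
    (A B : ℕ → Subgroup G) (hA0 : A 0 = M₁) (hB0 : B 0 = M₂)
    (hA : ∀ i, A (i + 1) = ((A i ⊓ B i).subgroupOf M₁).normalCore.map M₁.subtype)
    (hB : ∀ i, B (i + 1) = ((A i ⊓ B i).subgroupOf M₂).normalCore.map M₂.subtype) (hA2 : A 2 ≠ ⊥) (hB2 : B 2 ≠ ⊥) :
    ∃ p : ℕ, p.Prime ∧ IsPGroup p ↥(A 2 ⊔ B 2) ∧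
      Cfsg.generalizedFittingSubgroup ↥M₁ = Cfsg.pCore p ↥M₁ ∧ Cfsg.generalizedFittingSubgroup ↥(A 1) = Cfsg.pCore p ↥(A 1) ∧
      Cfsg.generalizedFittingSubgroup ↥M₂ = Cfsg.pCore p ↥M₂ ∧ Cfsg.generalizedFittingSubgroup ↥(B 1) = Cfsg.pCore p ↥(B 1) := by
  have hA1 : A 1 = coreIn M₁ (M₁ ⊓ M₂) := by rw [hA 0, hA0, hB0]
  have hB1 : B 1 = coreIn M₂ (M₁ ⊓ M₂) := by rw [hB 0, hA0, hB0]
  have hA2' : A 2 = coreIn M₁ (A 1 ⊓ B 1) := hA 1
  have hB2' : B 2 = coreIn M₂ (A 1 ⊓ B 1) := hB 1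
  obtain ⟨p, hp, h1, h2, h3, h4⟩ := thompson_wielandt hmax g hconj hne hcore hA1 hB1
    (hA2' ▸ hA2) (hB2' ▸ hB2)
  have := Fact.mk hp
  have key : ∀ M Y : Subgroup G, generalizedFittingSubgroup M = pCore p M →
      generalizedFittingSubgroup (coreIn M Y) = pCore p (coreIn M Y) := fun M Y h =>
    CfsgLib.Comp.fstar_eq_pCore_congr
      ((Y.subgroupOf M).normalCore.equivMapOfInjective _ M.subtype_injective)
      (CfsgLib.Comp.fstar_eq_pCore_of_isSubnormal h (Subgroup.Normal.isSubnormal inferInstance))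
  refine ⟨p, hp, ?_, h3, hA1 ▸ key _ _ h3, h4, hB1 ▸ key _ _ h4⟩
  rw [hA2', hB2']
  refine h1.to_sup_of_normal_right' h2 (le_trans ?_ (le_normalizer_coreIn _ _))
  exact (coreIn_le_right _ _).trans (inf_le_right.trans (hB1 ▸ coreIn_le_left _ _))

end Cfsg.Agent.S5752
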