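import Cfsg.Statements.S5753
import Cfsg.Agent.Lib.BinAff.Main

set_option autoImplicit false
open Cfsg

namespace Cfsg.Agent.S5753

/-- The binary primitive permutation groups of affine type (the known proof uses the classification of the finite simple groups). Let a finite group G act faithfully and primitively on a finite set Ω, with a non-trivial abelian normal subgroup, and suppose the action is binary: for every n ≥ 2 and all n-tuples I, J of points, if for every pair of positions some element of G carries the corresponding pair of entries of I to those of J, then a single element carries I to J. Then either Ω has a prime number of points and every point stabilizer has order at most 2, or Ω can be identified with a field E that is a quadratic extension of a subfield F in such a way that the permutations induced by G are exactly the maps x ↦ a·φ(x) + b with a ∈ E of norm 1 over F, φ an automorphism of E over F and b ∈ E (the affine group of the anisotropic plane orthogonal group). -/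
theorem result {G Ω : Type*} [Group G] [Finite G] [MulAction G Ω] [FaithfulSMul G Ω] [Fintype Ω]
    (hprim : MulAction.IsPreprimitive G Ω)
    (haff : ∃ N : Subgroup G, N.Normal ∧ N ≠ ⊥ ∧ IsMulCommutative ↥N)
    (hbin : ∀ (n : ℕ) (I J : Fin n → Ω), 2 ≤ n →
      (∀ i j : Fin n, i ≠ j → ∃ g : G, g • I i = J i ∧ g • I j = J j) → ∃ g : G, ∀ i, g • I i = J i) :
    ((Fintype.card Ω).Prime ∧ ∀ ω : Ω, Nat.card ↥(MulAction.stabilizer G ω) ≤ 2) ∨
    (∃ (F E : Type) (_ : Field F) (_ : Fintype F) (_ : Field E) (_ : Fintype E) (_ : Algebra F E) (e : Ω ≃ E),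
        Module.finrank F E = 2 ∧
        ∀ σ : Equiv.Perm Ω, σ ∈ (MulAction.toPermHom G Ω).range ↔
          ∃ (a b : E) (φ : E ≃ₐ[F] E), Algebra.norm F a = 1 ∧ ∀ ω : Ω, e (σ ω) = a * φ (e ω) + b) := by
  classical
  obtain ⟨N, hN, hN1, hNc⟩ := haff
  have hfp : MulAction.fixedPoints N Ω ≠ Set.univ := fun e => hN1 (eq_bot_iff.2 fun n hn =>
    FaithfulSMul.eq_of_smul_eq_smul (α := Ω) fun x => by
      rw [one_smul]
      exact (e ▸ Set.mem_univ x : x ∈ MulAction.fixedPoints N Ω) ⟨n, hn⟩)
  have htr : MulAction.IsPretransitive N Ω := MulAction.IsQuasiPreprimitive.isPretransitive_of_normal hfp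
  obtain ⟨ω0, hω0⟩ := (Set.ne_univ_iff_exists_notMem _).1 hfp
  have hnt : Nontrivial Ω := by
    by_contra h
    rw [not_nontrivial_iff_subsingleton] at h
    exact hω0 fun _ => Subsingleton.elim _ _
  have hcomm : ∀ a b : N, a * b = b * a := fun a b => hNc.is_comm.comm a b
  have hbij : Function.Bijective fun n : Additive N => n.toMul • ω0 := by
    refine ⟨fun a b (e : a.toMul • ω0 = b.toMul • ω0) => ?_, fun x => ?_⟩
    · refine Additive.toMul.injective (FaithfulSMul.eq_of_smul_eq_smul (α := Ω) fun x => ?_)
      obtain ⟨m, rfl⟩ := MulAction.exists_smul_eq N ω0 x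
      rw [← mul_smul, hcomm, mul_smul, e, ← mul_smul, hcomm, mul_smul]
    · obtain ⟨m, rfl⟩ := MulAction.exists_smul_eq N ω0 x
      exact ⟨Additive.ofMul m, rfl⟩
  let _ : CommGroup N := { (inferInstance : Group N) with mul_comm := hcomm }
  let e : Additive N ≃ Ω := Equiv.ofBijective _ hbij
  let _ : AddCommGroup Ω := e.symm.addCommGroup
  have hadd : ∀ a b : N, a • ω0 + b • ω0 = (a * b) • ω0 := fun a b => by
    show e (e.symm (e (Additive.ofMul a)) + e.symm (e (Additive.ofMul b))) = _
    rw [e.symm_apply_apply, e.symm_apply_apply]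
    rfl
  have h0 : (0 : Ω) = ω0 := one_smul N ω0
  refine CfsgLib.BinAff.affine_main hprim (fun c => ?_) (fun g hg x y => ?_) hbin
  · obtain ⟨m, rfl⟩ := MulAction.exists_smul_eq N ω0 c
    refine ⟨m.1, fun x => ?_⟩
    obtain ⟨k, rfl⟩ := MulAction.exists_smul_eq N ω0 x
    rw [hadd, hcomm, mul_smul]
    rfl
  · rw [h0] at hg
    have key : ∀ a : N, g • a • ω0 = (⟨g * a.1 * g⁻¹, hN.conj_mem _ a.2 g⟩ : N) • ω0 := fun a => by
      show g • a.1 • ω0 = (g * a.1 * g⁻¹) • ω0
      rw [mul_smul, mul_smul, (inv_smul_eq_iff.2 hg.symm : g⁻¹ • ω0 = ω0)]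
    obtain ⟨a, rfl⟩ := MulAction.exists_smul_eq N ω0 x
    obtain ⟨b, rfl⟩ := MulAction.exists_smul_eq N ω0 y
    rw [hadd, key, key, key, hadd]
    congr 1
    exact Subtype.ext (by simp [mul_assoc])

end Cfsg.Agent.S5753
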