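import Cfsg.Statements.S5754
-- import your own Cfsg.Agent.* helpers here

set_option autoImplicit false
open Cfsg

namespace Cfsg.Agent.S5754

theorem exists_refl {F V : Type*} [Field F] [AddCommGroup V] [Module F V] (Q : QuadraticForm F V)
    (d : V) (hd : Q d ≠ 0) :
    ∃ r : Q.IsometryEquiv Q, ∀ v, r v = v - (QuadraticMap.polar Q v d / Q d) • d := by
  let L : V →ₗ[F] V := LinearMap.id - ((Q d)⁻¹ • (QuadraticMap.polarBilin Q).flip d).smulRight d
  have hL : ∀ v, L v = v - (QuadraticMap.polar Q v d / Q d) • d := by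
    intro v; simp [L, div_eq_inv_mul]
  have hinv : Function.Involutive L := by
    intro v
    rw [hL, hL, QuadraticMap.polar_sub_left, QuadraticMap.polar_smul_left, QuadraticMap.polar_self,
      sub_sub, ← add_smul]
    have : QuadraticMap.polar Q v d / Q d + (QuadraticMap.polar Q v d -
        (QuadraticMap.polar Q v d / Q d) • (2 • Q d)) / Q d = 0 := by
      simp only [smul_eq_mul, nsmul_eq_mul]; field_simp; ring
    rw [this, zero_smul, sub_zero]
  refine ⟨⟨LinearEquiv.ofInvolutive L hinv, fun v => ?_⟩, hL⟩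
  change Q (L v) = Q v
  rw [hL, sub_eq_add_neg, ← neg_smul, QuadraticMap.map_add (⇑Q), QuadraticMap.map_smul,
    QuadraticMap.polar_smul_right]
  simp only [smul_eq_mul]; field_simp; ring

theorem extend {F V ι : Type*} [Field F] [AddCommGroup V] [Module F V] [DecidableEq ι]
    (Q : QuadraticForm F V) (hQ : Q.Anisotropic) (v v' : ι → V) (h1 : ∀ i, Q (v i) = Q (v' i))
    (h2 : ∀ i j, Q (v i - v j) = Q (v' i - v' j)) (s : Finset ι) :
    ∃ φ : Q.IsometryEquiv Q, ∀ i ∈ s, φ (v i) = v' i := by
  have hpol : ∀ x y : V, QuadraticMap.polar Q x y = Q x + Q y - Q (x - y) := by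
    intro x y
    rw [sub_eq_add_neg x y, QuadraticMap.map_add (⇑Q), QuadraticMap.map_neg,
      QuadraticMap.polar_neg_right]
    ring
  induction s using Finset.induction_on with
  | empty => exact ⟨QuadraticMap.IsometryEquiv.refl Q, by simp⟩
  | insert k s hk ih =>
    obtain ⟨φ, hφ⟩ := ih
    by_cases he : φ (v k) = v' k
    · exact ⟨φ, fun i hi => (Finset.mem_insert.1 hi).elim (fun h => h ▸ he) (hφ i)⟩
    have hd : Q (φ (v k) - v' k) ≠ 0 := fun h => he (sub_eq_zero.1 (hQ _ h))
    obtain ⟨r, hr⟩ := exists_refl Q _ hd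
    refine ⟨φ.trans r, fun i hi => ?_⟩
    change r (φ (v i)) = v' i
    rcases Finset.mem_insert.1 hi with rfl | hi
    · have : QuadraticMap.polar Q (φ (v i)) (φ (v i) - v' i) = Q (φ (v i) - v' i) := by
        rw [hpol, sub_sub_cancel, φ.map_app, h1]; ring
      rw [hr, this, div_self hd, one_smul, sub_sub_cancel]
    · have : QuadraticMap.polar Q (φ (v i)) (φ (v k) - v' k) = 0 := by
        rw [QuadraticMap.polar_sub_right, hpol, hpol, ← map_sub, φ.map_app, φ.map_app, φ.map_app,
          hφ i hi, h2, h1 k]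
        ring
      rw [hr, this, zero_div, zero_smul, sub_zero, hφ i hi]

/-- Let V be a finite-dimensional vector space over a finite field F carrying an anisotropic quadratic form Q (Q(v) = 0 only for v = 0). Then the group of all maps v ↦ φ(v) + c, with φ an isometry of Q and c ∈ V, acts on V as a binary permutation group: given n ≥ 2 and two n-tuples u, u' of vectors such that every pair of corresponding entries of u is carried to that of u' by such a map, one such map carries u to u'. -/
theorem result {F V : Type*} [Field F] [Finite F] [AddCommGroup V] [Module F V] [Module.Finite F V]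
    (Q : QuadraticForm F V) (hQ : Q.Anisotropic) (n : ℕ) (hn : 2 ≤ n) (u u' : Fin n → V)
    (h2 : ∀ i j : Fin n, i ≠ j → ∃ (φ : Q.IsometryEquiv Q) (c : V), φ (u i) + c = u' i ∧ φ (u j) + c = u' j) :
    ∃ (φ : Q.IsometryEquiv Q) (c : V), ∀ i, φ (u i) + c = u' i := by
  classical
  obtain ⟨m, rfl⟩ : ∃ m, n = m + 1 := ⟨n - 1, by omega⟩
  have hQd : ∀ i j, Q (u i - u j) = Q (u' i - u' j) := by
    intro i j
    by_cases hij : i = j
    · subst hij; simp
    obtain ⟨φ, c, h1, h3⟩ := h2 i j hij
    rw [← h1, ← h3, add_sub_add_right_eq_sub, ← map_sub, φ.map_app]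
  obtain ⟨φ, hφ⟩ := extend Q hQ (fun i => u i - u 0) (fun i => u' i - u' 0) (fun i => hQd i 0)
    (fun i j => by simpa using hQd i j) Finset.univ
  refine ⟨φ, u' 0 - φ (u 0), fun i => ?_⟩
  have := hφ i (Finset.mem_univ i)
  rw [map_sub] at this
  rw [← add_sub_assoc, add_comm, add_sub_assoc, this]; abel

end Cfsg.Agent.S5754
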