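import Cfsg.Statements.S5763
-- import your own Cfsg.Agent.* helpers here

set_option autoImplicit false
open Cfsg

namespace Cfsg.Agent.S5763

def dg (c i : ℕ) : ℕ := Nat.mod (Nat.shiftRight c (Nat.mul 3 i)) 8

def enc : List ℕ → ℕ
  | [] => 0
  | c :: l => Nat.add c (Nat.mul 8 (enc l))

theorem dg_enc (l : List ℕ) (h : ∀ c ∈ l, c < 4) (i : ℕ) : dg (enc l) i = l.getD i 0 := by
  induction l generalizing i with
  | nil => simp [dg, enc]
  | cons c l ih =>
    have hc := h c (by simp)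
    have ih' := ih fun d hd => h d (by simp [hd])
    rcases i with _ | i
    · change (c + 8 * enc l) % 8 = c
      omega
    · rw [List.getD_cons_succ, ← ih']
      change (c + 8 * enc l) >>> (3 * (i + 1)) % 8 = enc l >>> (3 * i) % 8
      rw [mul_add, add_comm (3 * i), Nat.shiftRight_add, Nat.shiftRight_eq_div_pow (c + 8 * enc l)]
      congr 2
      omega

def cs : List ℕ := [16434817, 16434376, 16406152, 14599816, 14570689, 11788826, 9925146, 11788371,
  9924691, 6852524, 5017068, 6823845, 4988389, 2206526, 2177406, 371511, 342391]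

def pres (a g : ℕ → ℕ) : Bool :=
  [0, 1, 2, 3, 4, 5, 6, 7].all fun i => [0, 1, 2, 3, 4, 5, 6, 7].all fun j =>
    Nat.ble j i || !(Nat.beq (a i) (a j)) || Nat.beq (a (g i)) (a (g j))

def check (l : List ℕ) : Bool :=
  cs.any fun c => pres (dg (enc l)) (dg c) && pres (fun i => Nat.div (dg (enc l) i) 2) (dg c)

def go : ℕ → List ℕ → Bool
  | 0, l => check l
  | n + 1, l => [0, 1, 2, 3].all fun c => Nat.ble 2 (l.count c) || go n (c :: l)

theorem go_spec (n : ℕ) (l : List ℕ) (h : go n l = true) (l' : List ℕ) (hl : l'.length = n)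
    (h4 : ∀ c ∈ l', c < 4) (hc : ∀ c, (l' ++ l).count c ≤ 2) : check (l' ++ l) = true := by
  induction n generalizing l l' with
  | zero => rw [List.length_eq_zero_iff.1 hl]; exact h
  | succ n ih =>
    obtain ⟨m, c, rfl⟩ : ∃ m c, l' = m ++ [c] := by
      rcases l'.eq_nil_or_concat with rfl | ⟨m, c, rfl⟩
      · simp at hl
      · exact ⟨m, c, by simp⟩
    rw [List.append_assoc, List.singleton_append] at hc ⊢
    refine ih (c :: l) ?_ m (by simpa using hl) (fun d hd => h4 d (by simp [hd])) hc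
    have h1 := List.all_eq_true.1 h c (by have := h4 c (by simp); simp; omega)
    have h2 := hc c
    simp only [List.count_append, List.count_cons_self] at h2
    rcases Bool.or_eq_true_iff.1 h1 with h3 | h3
    · have := Nat.le_of_ble_eq_true h3; omega
    · exact h3

theorem go0 : go 7 [0] = true := by decide +kernel

def fn (c : ℕ) (i : Fin 8) : Fin 8 := ⟨dg c i, Nat.mod_lt _ (by norm_num)⟩

theorem cs_spec : ∀ c ∈ cs, Function.Involutive (fn c) ∧ (∃ i, fn c i ≠ i) ∧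
    ∀ i j : Fin 8, ((i : ℕ) / 2 = j / 2 → (fn c i : ℕ) / 2 = fn c j / 2) ∧
      ((i : ℕ) / 4 = j / 4 → (fn c i : ℕ) / 4 = fn c j / 4) := by
  unfold Function.Involutive
  decide +kernel

/-- the stabiliser of the binary tree on 8 points -/
def P₀ : Subgroup (Equiv.Perm (Fin 8)) where
  carrier := {g | ∀ i j : Fin 8, ((i : ℕ) / 2 = j / 2 ↔ (g i : ℕ) / 2 = g j / 2) ∧
      ((i : ℕ) / 4 = j / 4 ↔ (g i : ℕ) / 4 = g j / 4)}
  one_mem' := fun _ _ => ⟨Iff.rfl, Iff.rfl⟩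
  mul_mem' := fun {a b} ha hb i j => ⟨(hb i j).1.trans (ha _ _).1, (hb i j).2.trans (ha _ _).2⟩
  inv_mem' := fun {a} ha i j => by
    have := ha (a⁻¹ i) (a⁻¹ j)
    simp only [Equiv.Perm.coe_inv, Equiv.apply_symm_apply] at this
    exact ⟨this.1.symm, this.2.symm⟩

theorem mem_of_invol (g : Equiv.Perm (Fin 8)) (hg : Function.Involutive g)
    (h : ∀ i j : Fin 8, ((i : ℕ) / 2 = j / 2 → (g i : ℕ) / 2 = g j / 2) ∧
      ((i : ℕ) / 4 = j / 4 → (g i : ℕ) / 4 = g j / 4)) : g ∈ P₀ := fun i j =>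
  ⟨⟨(h i j).1, fun e => by simpa [hg i, hg j] using (h _ _).1 e⟩,
    ⟨(h i j).2, fun e => by simpa [hg i, hg j] using (h _ _).2 e⟩⟩

theorem P₀_pgroup : IsPGroup 2 P₀ := by
  intro g
  refine ⟨3, ?_⟩
  have h1 : ∀ i, ((g ^ 2 : P₀) : Equiv.Perm (Fin 8)) i / 4 = (i : ℕ) / 4 := by
    intro i
    have := (g.2 i (g.1 i)).2
    have := i.2
    have := (g.1 i).2
    have := (g.1 (g.1 i)).2
    change (g.1 (g.1 i) : ℕ) / 4 = i / 4
    omega
  have h2 : ∀ i, (((g ^ 2) ^ 2 : P₀) : Equiv.Perm (Fin 8)) i / 2 = (i : ℕ) / 2 := by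
    intro i
    set h := g ^ 2
    have := (h.2 i (h.1 i)).1
    have := h1 i
    have := h1 (h.1 i)
    change (h.1 (h.1 i) : ℕ) / 2 = i / 2
    omega
  have h3 : ((g ^ 2) ^ 2) ^ 2 = 1 := by
    set h := (g ^ 2) ^ 2
    ext i
    have h4 : (i : ℕ) = h.1 i ↔ (h.1 i : ℕ) = h.1 (h.1 i) := by
      rw [Fin.val_inj, Fin.val_inj, h.1.apply_eq_iff_eq]
    have := h2 i
    have := h2 (h.1 i)
    change (h.1 (h.1 i) : ℕ) = i
    omega
  rw [← h3, ← pow_mul, ← pow_mul]; rfl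

theorem key' (w : Equiv.Perm (Fin 8)) (hw : (w (Fin.last 7) : ℕ) / 2 = 0) :
    ∃ t ∈ P₀, t ≠ 1 ∧ w * t * w⁻¹ ∈ P₀ := by
  have h4 : ∀ c ∈ List.ofFn fun i => (w i : ℕ) / 2, c < 4 := fun c hc => by
    obtain ⟨i, rfl⟩ := List.mem_ofFn.1 hc
    have := (w i).2; omega
  have hl : (List.ofFn fun i : Fin 7 => (w i.castSucc : ℕ) / 2) ++ [0] =
      List.ofFn fun i => (w i : ℕ) / 2 := by
    rw [List.ofFn_succ_last (f := fun i : Fin 8 => (w i : ℕ) / 2), hw]
  have hck := go_spec 7 [0] go0 (List.ofFn fun i : Fin 7 => (w i.castSucc : ℕ) / 2) (by simp)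
    (fun c hc => h4 c (hl ▸ List.mem_append_left _ hc))
    (fun c => by
      rw [hl]
      have h1 : (List.ofFn fun i => (w i : ℕ) / 2).Perm (List.ofFn fun i : Fin 8 => (i : ℕ) / 2) :=
        Equiv.Perm.ofFn_comp_perm w fun i : Fin 8 => (i : ℕ) / 2
      rw [h1.count_eq]
      change List.count c [0, 0, 1, 1, 2, 2, 3, 3] ≤ 2
      simp only [List.count_cons, List.count_nil, beq_iff_eq]
      split_ifs <;> omega)
  rw [hl] at hck
  obtain ⟨c, hc, h⟩ := List.any_eq_true.1 hck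
  obtain ⟨hi, ⟨i₀, hi₀⟩, hP⟩ := cs_spec c hc
  have hget : ∀ i : Fin 8, dg (enc (List.ofFn fun i => (w i : ℕ) / 2)) i = w i / 2 := fun i => by
    rw [dg_enc _ h4, List.getD_eq_getElem _ _ (by simp), List.getElem_ofFn]
  have hpres : ∀ a : ℕ → ℕ, pres a (dg c) = true → ∀ i j : Fin 8, a i = a j →
      a (fn c i) = a (fn c j) := by
    intro a ha
    have h1 : ∀ i j : Fin 8, i < j → a i = a j → a (fn c i) = a (fn c j) := by
      intro i j hij e
      have h2 := List.all_eq_true.1 (List.all_eq_true.1 ha i (by have := i.2; simp; omega)) j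
        (by have := j.2; simp; omega)
      simp only [Bool.or_eq_true, Nat.ble_eq, Bool.not_eq_true', Nat.beq_eq] at h2
      rcases h2 with (h2 | h2) | h2
      · exact absurd hij (not_lt.2 h2)
      · exact absurd e (Nat.ne_of_beq_eq_false h2)
      · exact h2
    intro i j e
    rcases lt_trichotomy i j with h | rfl | h
    · exact h1 i j h e
    · rfl
    · exact (h1 j i h e.symm).symm
  rw [Bool.and_eq_true] at h
  have hdiv : ∀ a : ℕ, Nat.div a 2 = a / 2 := fun _ => rfl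
  refine ⟨hi.toPerm, mem_of_invol _ hi hP, fun e => hi₀ (congrArg (fun g : Equiv.Perm (Fin 8) => g i₀) e),
    mem_of_invol _ (fun i => by simp [hi _]) fun i j => ⟨fun e => ?_, fun e => ?_⟩⟩
  · have := hpres _ h.1 (w⁻¹ i) (w⁻¹ j) (by rw [hget, hget]; simpa using e)
    rw [hget, hget] at this
    exact this
  · have := hpres _ h.2 (w⁻¹ i) (w⁻¹ j) (by
      simp only [hget, Equiv.Perm.coe_inv, Equiv.apply_symm_apply, hdiv]; omega)
    simp only [hget, hdiv, Nat.div_div_eq_div_mul] at this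
    exact this

theorem key (w : Equiv.Perm (Fin 8)) : ∃ t ∈ P₀, t ≠ 1 ∧ w * t * w⁻¹ ∈ P₀ := by
  have h : ∀ k : Fin 8, (k : ℕ) / 2 = 0 ∨ ∃ c ∈ cs, (fn c k : ℕ) / 2 = 0 := by decide +kernel
  rcases h (w (Fin.last 7)) with h | ⟨c, hc, h⟩
  · exact key' w h
  obtain ⟨hi, -, hP⟩ := cs_spec c hc
  have hs := mem_of_invol hi.toPerm hi hP
  obtain ⟨t, ht, ht1, ht2⟩ := key' (hi.toPerm * w) h
  refine ⟨t, ht, ht1, ?_⟩
  have := P₀.mul_mem (P₀.mul_mem (P₀.inv_mem hs) ht2) hs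
  simpa [mul_assoc] using this


/-- In the symmetric group on 8 letters any two Sylow 2-subgroups have non-trivial intersection: for a Sylow 2-subgroup H and every element x, H ∩ xHx⁻¹ ≠ 1. -/
theorem result (H : Sylow 2 (Equiv.Perm (Fin 8))) (x : Equiv.Perm (Fin 8)) :
    (H : Subgroup (Equiv.Perm (Fin 8))) ⊓ (H : Subgroup (Equiv.Perm (Fin 8))).map (MulAut.conj x).toMonoidHom ≠ ⊥ := by
  obtain ⟨Q, hQ⟩ := P₀_pgroup.exists_le_sylow
  obtain ⟨y, rfl⟩ := MulAction.exists_smul_eq (Equiv.Perm (Fin 8)) Q H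
  obtain ⟨t, ht, ht1, ht2⟩ := key (y⁻¹ * x⁻¹ * y)
  have hm : ∀ s ∈ P₀, y * s * y⁻¹ ∈ ((y • Q : Sylow 2 (Equiv.Perm (Fin 8))) : Subgroup (Equiv.Perm (Fin 8))) :=
    fun s hs => ⟨s, hQ hs, rfl⟩
  refine (Subgroup.ne_bot_iff_exists_ne_one).2 ⟨⟨y * t * y⁻¹, hm t ht, _, hm _ ht2, ?_⟩, fun h => ht1 ?_⟩
  · simp [mul_assoc]
  · simpa using congrArg Subtype.val h

end Cfsg.Agent.S5763
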