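import Mathlib
import Cfsg.Statements.S5767
import Cfsg.Agent.Lib.WrP.Top
-- import your own Cfsg.Agent.* helpers here

set_option autoImplicit false
open Cfsg

namespace Cfsg.Agent.S5767

/-- Maximality of product-action wreath products. Let m ≥ 5 and k ≥ 2 and let W be the wreath product S_m ≀ S_k acting on the m^k functions f : {1..k} → {1..m} by (f ↦ (i ↦ τ_i(f(π⁻¹ i)))) for π ∈ S_k and τ_1, …, τ_k ∈ S_m. If W contains an odd permutation of these m^k points, then W is a maximal subgroup of the symmetric group on them. Unless k = 2 and m ≡ 2 (mod 4) (in which case the even permutations in W form the base group S_m × S_m, which is imprimitive), the even permutations in W form a maximal subgroup of the alternating group on these points. (The known proof uses the classification of the finite simple groups.) -/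
theorem result (m k : ℕ) (hm : 5 ≤ m) (hk : 2 ≤ k) :
    (¬ (k = 2 ∧ m % 4 = 2) → ∃ M : Subgroup ↥(alternatingGroup (Fin k → Fin m)), IsCoatom M ∧ ∀ σ : ↥(alternatingGroup (Fin k → Fin m)), σ ∈ M ↔ ∃ (π : Equiv.Perm (Fin k)) (τ : Fin k → Equiv.Perm (Fin m)), ∀ (f : Fin k → Fin m) (i : Fin k), (σ : Equiv.Perm (Fin k → Fin m)) f i = τ i (f (π.symm i))) ∧
    ((∃ σ : Equiv.Perm (Fin k → Fin m), Equiv.Perm.sign σ = -1 ∧ ∃ (π : Equiv.Perm (Fin k)) (τ : Fin k → Equiv.Perm (Fin m)), ∀ (f : Fin k → Fin m) (i : Fin k), σ f i = τ i (f (π.symm i))) →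
      ∃ M : Subgroup (Equiv.Perm (Fin k → Fin m)), IsCoatom M ∧ ∀ σ, σ ∈ M ↔ ∃ (π : Equiv.Perm (Fin k)) (τ : Fin k → Equiv.Perm (Fin m)), ∀ (f : Fin k → Fin m) (i : Fin k), σ f i = τ i (f (π.symm i))) := by
  refine ⟨fun hex => ⟨_, CfsgLib.WrP.coatom_alt (ι := Fin k) (X := Fin m) (by simpa using hm)
    (by simpa using hk) (by simpa using hex), fun σ => ?_⟩, fun h => ⟨_, CfsgLib.WrP.coatom_sym
    (ι := Fin k) (X := Fin m) (by simpa using hm) (by simpa using hk) ?_, fun σ => CfsgLib.WrP.mem_W'⟩⟩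
  · rw [Subgroup.mem_subgroupOf]; exact CfsgLib.WrP.mem_W'
  · obtain ⟨σ, hs, h⟩ := h
    exact ⟨σ, CfsgLib.WrP.mem_W'.2 h, hs⟩

end Cfsg.Agent.S5767
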