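import Mathlib
import Cfsg.Statements.S5769
import Cfsg.Agent.Lib.Semi.Alcove
import Cfsg.Agent.Lib.Spec.Adj

set_option autoImplicit false
open Cfsg

namespace Cfsg.Agent.S5769


open CfsgLib.RGD CfsgLib.Lang CfsgLib.Chev CfsgLib.Weyl CfsgLib.Semi CfsgLib.Spec Cfsg.Lie

/-- the root system of type `E₇` -/
abbrev Φ : RootSys (Fin 126) (Fin 7) := rootSys rtOKE7

/-- a coefficient of a root plus thirteen -/
def nb (r i : ℕ) : ℕ := tRE7 >>> (4 * (8 * r + i)) % 16 + 5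

/-- the value of a coweight on a root modulo thirteen -/
def val (a b c d e f g r : ℕ) : ℕ :=
  (nb r 0 * a + nb r 1 * b + nb r 2 * c + nb r 3 * d + nb r 4 * e + nb r 5 * f + nb r 6 * g) % 13

theorem val_eq (z : Fin 7 → ℕ) (r : Fin 126) :
    (val (z 0) (z 1) (z 2) (z 3) (z 4) (z 5) (z 6) r : ℤ) = Φ.ip (fun j => z j) r % 13 := by
  have : ∀ i : ℕ, (nb r i : ℤ) = coT tRE7 r i + 13 := fun i => by
    rw [coT, nb]
    omega
  simp only [val, RootSys.ip, Fin.sum_univ_seven, show ∀ i, Φ.rt r i = coT tRE7 r i from fun _ => rfl, Nat.cast_add,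
    Nat.cast_mul, Int.natCast_mod, this]
  exact Int.modEq_iff_dvd.2 ⟨-(z 0 + z 1 + z 2 + z 3 + z 4 + z 5 + z 6), by simp; ring⟩

/-- a finite sum -/
noncomputable def sm (f : ℕ → ℕ) (n : ℕ) : ℕ := Nat.rec 0 (fun r s => s + f r) n

theorem sm_eq (f : ℕ → ℕ) (n : ℕ) : sm f n = ∑ r : Fin n, f r := by
  rw [← Finset.sum_range]
  induction n with
  | zero => rfl
  | succ n ih => rw [Finset.sum_range_succ, ← ih]; rfl

/-- the test on a point of the alcove -/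
noncomputable def tst (a b c d e f g : ℕ) : Bool := decide (
  sm (fun r => 256 ^ val a b c d e f g r) 126 = sm (fun r => 256 ^ (2 * val a b c d e f g r % 13)) 126 →
    [a, b, c, d, e, f, g] ∈ [[0, 0, 0, 0, 0, 0, 0], [0, 0, 0, 0, 0, 0, 13], [1, 0, 0, 1, 1, 1, 2], [1, 0, 1, 1, 0, 1, 0]])

set_option synthInstance.maxSize 1024 in
theorem chk₁ : ∀ d < 4, ∀ c < 5, ∀ e < 5, 4 * d + 3 * c + 3 * e ≤ 13 → ∀ a < 7, ∀ b < 7, ∀ f < 7,
    ∀ g < 14 - (2 * a + 2 * b + 3 * c + 4 * d + 3 * e + 2 * f), tst a b c d e f g := by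
  decide +kernel

/-- the conditions on the image of a fundamental root -/
def cnd (v : ℕ → ℕ) (l : List (Fin 126 × Fin 7)) (r : Fin 126) (j : Fin 7) : Bool :=
  v r == 2 * v (Φ.simple j) % 13 &&
    l.all fun p => Φ.form (Φ.rt p.1) (Φ.rt r) == Φ.form (Φ.rt (Φ.simple p.2)) (Φ.rt (Φ.simple j))

set_option synthInstance.maxSize 1024 in
theorem chk₂ : ∀ v ∈ [val 1 0 0 1 1 1 2, val 1 0 1 1 0 1 0], ∀ a, cnd v [] a 0 → ∀ b, cnd v [(a, 0)] b 1 →
    ∀ c, cnd v [(a, 0), (b, 1)] c 2 → ∀ d, cnd v [(a, 0), (b, 1), (c, 2)] d 3 →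
    ∀ e, cnd v [(a, 0), (b, 1), (c, 2), (d, 3)] e 4 → ∀ f, cnd v [(a, 0), (b, 1), (c, 2), (d, 3), (e, 4)] f 5 →
    ∀ g, cnd v [(a, 0), (b, 1), (c, 2), (d, 3), (e, 4), (f, 5)] g 6 → ∀ j,
      horL (fun j => Φ.rt (![a, b, c, d, e, f, g] j)) j [-1, 0, 1, 0, -1, 0, 1, 0, -1, 0, 1] (·.all (· == 0)) := by
  decide +kernel

theorem ann {w : Equiv.Perm (Fin 126)} (hw : w ∈ Φ.W) {y : Fin 7 → ℤ} (h0 : ¬ ∀ r, Φ.ip y r ≡ 0 [ZMOD 13])
    (h : ∀ r, Φ.ip y (w r) ≡ 2 * Φ.ip y r [ZMOD 13]) :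
    ∃ x ∈ Φ.W, Ann Φ (x⁻¹ * w * x) [-1, 0, 1, 0, -1, 0, 1, 0, -1, 0, 1] := by
  obtain ⟨x, hx, z, h1, h2⟩ := exists_alcove Φ (N := 13) (by decide) y
  have hu := mul_mem (mul_mem (inv_mem hx) hw) hx
  refine ⟨x, hx, ann_of_horL hu ?_⟩
  set u := x⁻¹ * w * x with hu'
  set v := val (z 0) (z 1) (z 2) (z 3) (z 4) (z 5) (z 6) with hv
  have h3 : ∀ r : Fin 126, v (u r) = 2 * v r % 13 := fun r => by
    have := h1 (u r)
    rw [show x (u r) = w (x r) by simp [hu']] at this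
    have := h (x r)
    have := h1 r
    have := val_eq z r
    have := val_eq z (u r)
    simp only [Int.ModEq, ← hv, Nat.cast_ofNat] at *
    omega
  have h4 : 2 * z 0 + 2 * z 1 + 3 * z 2 + 4 * z 3 + 3 * z 4 + 2 * z 5 + z 6 ≤ 13 := by
    have := h2 125
    rw [RootSys.ip, show Φ.rt 125 = ![2, 2, 3, 4, 3, 2, 1] by decide +kernel] at this
    simp [Fin.sum_univ_seven] at this
    omega
  have h5 := of_decide_eq_true (chk₁ (z 3) (by omega) (z 2) (by omega) (z 4) (by omega) (by omega) (z 0) (by omega)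
    (z 1) (by omega) (z 5) (by omega) (z 6) (by omega)) (by
      rw [sm_eq, sm_eq, ← Equiv.sum_comp u]
      simp only [← hv, h3])
  have h6 : ∀ (L : List (Fin 7)) j, cnd v (L.map fun i => (u (Φ.simple i), i)) (u (Φ.simple j)) j := by
    simp [cnd, h3, Φ.form_apply hu]
  have h7 : v ∈ [val 1 0 0 1 1 1 2, val 1 0 1 1 0 1 0] := by
    have h8 : ∀ k, k = 0 ∨ k = 13 → v ≠ val 0 0 0 0 0 0 k := fun k hk e => h0 fun r => by
      have := h1 (x⁻¹ r)
      have := val_eq z (x⁻¹ r)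
      have : val 0 0 0 0 0 0 k (x⁻¹ r) = 0 := by rcases hk with rfl | rfl <;> simp [val]
      simp only [Int.ModEq, ← hv, e, Nat.cast_ofNat, Equiv.Perm.coe_inv, Equiv.apply_symm_apply] at *
      omega
    simp only [List.mem_cons, List.cons.injEq, List.not_mem_nil, or_false, and_true] at h5
    rcases h5 with h5 | h5 | h5 | h5 <;> simp only [h5] at hv
    exacts [absurd hv (h8 0 (by simp)), absurd hv (h8 13 (by simp)), by simp [hv], by simp [hv]]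
  have := chk₂ v h7 _ (h6 [] 0) _ (h6 [0] 1) _ (h6 [0, 1] 2) _ (h6 [0, 1, 2] 3) _ (h6 [0, 1, 2, 3] 4) _
    (h6 [0, 1, 2, 3, 4] 5) _ (h6 [0, 1, 2, 3, 4, 5] 6)
  convert this using 4 with e j
  fin_cases j <;> rfl

theorem ne_65 (g : chevE7.group (ZMod 2)) : orderOf g ≠ 65 := fun hg => by
  have hm : chevE7 ∈ [chevG2, chevB2, chevD4, chevF4, chevE6, chevE7, chevE8] := by simp
  have := good_of_mem hm
  obtain ⟨c, w, hw, h1, -, h3, -, -, k, -, h5⟩ : ∃ c : Fin 7 → (AlgebraicClosure (ZMod 2))ˣ, ∃ w ∈ Φ.W,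
      (∀ r, Φ.chr c (w r) = Φ.chr c r ^ Fintype.card (ZMod 2)) ∧ _ ∧ ¬ 2 ∣ orderOf c ∧
      ∃ u, _ ∧ ∃ k, _ ∧ orderOf g = 2 ^ k * orderOf c := exists_order_data rtOKE7 hm 2 g
  rw [ZMod.card] at h1
  have h6 : orderOf c = 65 := by
    rcases k with _ | k
    · simpa [hg] using h5.symm
    · rw [hg, pow_succ', mul_assoc] at h5
      omega
  obtain ⟨ζ, hζ⟩ := exists_primitiveRoot_units (algebraMap (ZMod 2) (AlgebraicClosure (ZMod 2))) (N := 13) (by decide)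
  have h7 : ∀ j, ∃ i : ℤ, ζ ^ i = (c ^ 5) j := fun j => Subgroup.mem_zpowers_iff.1 (hζ.zpowers_eq ▸ by
    rw [mem_rootsOfUnity, ← Pi.pow_apply, ← pow_mul, show 5 * 13 = orderOf c from h6.symm, pow_orderOf_eq_one,
      Pi.one_apply])
  choose y hy using h7
  have h8 : ∀ r, ζ ^ Φ.ip y r = Φ.chr c r ^ 5 := fun r => by rw [← Φ.chr_zpow_ip, funext hy, Φ.chr_pow]
  obtain ⟨x, hx, hA⟩ := ann hw (y := y) (fun h => by
    have : orderOf c ∣ 5 := orderOf_dvd_of_pow_eq_one (funext fun j => by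
      rw [← hy, ← Φ.ip_simple y, Pi.one_apply]
      exact (hζ.zpow_eq_one_iff_dvd _).2 (Int.modEq_zero_iff_dvd.1 (h _)))
    exact absurd (h6 ▸ this) (by decide)) fun r => by
      have := (zpow_eq_zpow_iff_modEq (x := ζ) (m := Φ.ip y (w r)) (n := 2 * Φ.ip y r)).1 (by
        rw [mul_comm, zpow_mul, h8, h8, h1, pow_right_comm, zpow_ofNat])
      rwa [← hζ.eq_orderOf] at this
  have h9 := hA.orderOf_dvd (mul_mem (mul_mem (inv_mem hx) hw) hx) (c := fun j => Φ.chr c (x (Φ.simple j))) (q := 2)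
    fun r => by simp [Φ.chr_apply hx, h1]
  have : orderOf c ∣ orderOf fun j => Φ.chr c (x (Φ.simple j)) := orderOf_dvd_of_pow_eq_one (funext fun j => by
    have := Φ.chr_pow (fun j => Φ.chr c (x (Φ.simple j))) (orderOf fun j => Φ.chr c (x (Φ.simple j)))
      (x⁻¹ (Φ.simple j))
    rw [pow_orderOf_eq_one, Φ.chr_one, Φ.chr_apply hx, Equiv.Perm.coe_inv, Equiv.apply_symm_apply,
      Φ.chr_simple] at this
    exact this.symm)
  exact absurd ((Int.natCast_dvd_natCast.2 (h6 ▸ this)).trans h9) (by decide +kernel)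

theorem lu {K : Type*} [Field K] [DecidableEq K] [IsAlgClosed K] [CharP K 2] {e : ℤ} (he : ((2 : ℕ) : ℤ) ∣ e)
    (hφ : Function.Injective fun a : K => a ^ e) {d : ℕ} (hd : 2 ≤ d) (hx : ((65 : ℕ) : ℤ) ∣ e ^ d - 1)
    (hc : IsCoprime ((65 : ℕ) : ℤ) (e - 1)) : ∃ N ∈ omegaLU K 2 e d, 65 ∣ N := by
  obtain ⟨S, e1, e2, e3, e4⟩ := exists_block (K := K) 2 he hφ hd hx hc
  obtain ⟨N, hN, -, hN'⟩ := exists_mem_omegaLU_pad (p := 2) hφ e1.le e2 e3 (j := 0) (Or.inl rfl)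
  exact ⟨N, hN, e4 N hN'.left⟩

theorem empty {G X : Type*} [Group G] [Group X] [Finite X] (h : ∀ g : G, orderOf g ≠ 65) (H : Subgroup G) {N : ℕ}
    (h1 : N ∈ Set.range (orderOf : X → ℕ)) (h2 : 65 ∣ N) : IsEmpty (H ≃* X) := ⟨fun e => by
  obtain ⟨g, hg⟩ := mem_spectrum_of_dvd h1 h2
  exact h (e.symm g) (by rw [Subgroup.orderOf_coe, e.symm.orderOf_eq, hg])⟩

/-- The Chevalley group of type E₇ over the field with two elements (generated by its root elements in the adjoint representation) has no subgroup isomorphic to any of PSL₂(64), PSp₄(8), PSL₄(8), PSU₄(8) or PSp₆(8). Here F₈ and F₆₄ denote fields with 8 and 64 elements. -/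
theorem result {F₈ F₆₄ : Type*} [Field F₈] [Fintype F₈] (h8 : Fintype.card F₈ = 8) [Field F₆₄] [Fintype F₆₄] (h64 : Fintype.card F₆₄ = 64)
    (H : Subgroup ↥(Cfsg.Lie.chevE7.group (ZMod 2))) :
    IsEmpty (↥H ≃* Matrix.ProjectiveSpecialLinearGroup (Fin 2) F₆₄) ∧ IsEmpty (↥H ≃* Cfsg.PSp 2 F₈) ∧
    IsEmpty (↥H ≃* Matrix.ProjectiveSpecialLinearGroup (Fin 4) F₈) ∧ IsEmpty (↥H ≃* Cfsg.PSU 4 F₆₄ 8) ∧ IsEmpty (↥H ≃* Cfsg.PSp 3 F₈) := by
  classical
  have : CharP F₈ 2 := charP_of_card_eq_prime_pow (f := 3) h8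
  have : CharP F₆₄ 2 := charP_of_card_eq_prime_pow (f := 6) h64
  have sp : ∀ n, 2 ≤ n → IsEmpty (H ≃* PSp n F₈) := fun n hn => by
    have hφ : Function.Injective fun x : AlgebraicClosure F₈ => x ^ Fintype.card F₈ := frob_injective
    obtain ⟨a, ha, hS⟩ := exists_sp_block (K := AlgebraicClosure F₈) 2 (char_dvd_card F₈ 2) Fintype.card_ne_zero hφ
      (x := 65) two_ne_zero (Or.inr (by rw [h8]; decide))
    obtain ⟨N, hN, -, hN'⟩ := exists_mem_omegaSp_pad (p := 2) hφ (n := n) hS (by omega) (j := 0) (Or.inl rfl)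
    exact empty ne_65 H ((spectrum_psp_eq (AlgebraicClosure F₈) 2 (F := F₈) n).ge hN)
      ((by decide : Nat.Coprime 65 2).dvd_of_dvd_mul_left (ha ▸ hN' a (self_mem_ocyc (by omega))))
  refine ⟨?_, sp 2 le_rfl, ?_, ?_, sp 3 (by decide)⟩
  · obtain ⟨N, hN, h⟩ := lu (K := AlgebraicClosure F₆₄) (by rw [h64]; decide) (zfrob_injective (F := F₆₄)) le_rfl
      (by rw [h64]; decide) (by rw [h64]; exact ⟨-31, 32, by decide⟩)
    exact empty ne_65 H ((spectrum_psl_eq (AlgebraicClosure F₆₄) 2 (F := F₆₄) 2).ge hN) h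
  · obtain ⟨N, hN, h⟩ := lu (K := AlgebraicClosure F₈) (by rw [h8]; decide) (zfrob_injective (F := F₈)) (d := 4)
      (by decide) (by rw [h8]; decide) (by rw [h8]; exact ⟨-3, 28, by decide⟩)
    exact empty ne_65 H ((spectrum_psl_eq (AlgebraicClosure F₈) 2 (F := F₈) 4).ge hN) h
  · obtain ⟨N, hN, h⟩ := lu (K := AlgebraicClosure F₆₄) (e := -(8 : ℕ)) (by decide) (ufrob_injective (q := 8) h64)
      (d := 4) (by decide) (by decide) ⟨-4, -29, by decide⟩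
    exact empty ne_65 H ((spectrum_psu_eq (q := 8) h64 (AlgebraicClosure F₆₄) 2 (n := 4) (by decide)).ge hN) h

end Cfsg.Agent.S5769
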