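import Cfsg.Statements.S5885
-- import your own Cfsg.Agent.* helpers here

set_option autoImplicit false
open Cfsg

namespace Cfsg.Agent.S5885

open MulAction

theorem exists_three_cycle {G : Type*} [Group G] [Finite G] (n : ℕ)
    (hA : ∀ P : Subgroup (Equiv.Perm (Fin n)), MulAction.IsPreprimitive P (Fin n) → alternatingGroup (Fin n) ≤ P)
    (M : Subgroup G) (hM : IsCoatom M) (hn : M.index = n) (a b c : G ⧸ M) (hab : a ≠ b) (hbc : b ≠ c)
    (hac : a ≠ c) : ∃ g : G, g • a = b ∧ g • b = c ∧ ∀ x, x ≠ a → x ≠ b → x ≠ c → g • x = x := by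
  classical
  have : Nontrivial (G ⧸ M) := ⟨a, b, hab⟩
  have hprim : IsPreprimitive G (G ⧸ M) := by
    rw [← isCoatom_stabilizer_iff_preprimitive G ((1 : G) : G ⧸ M), stabilizer_quotient]
    exact hM
  have := Fintype.ofFinite (G ⧸ M)
  let e : G ⧸ M ≃ Fin n := Finite.equivFinOfCardEq hn
  let φ : G →* Equiv.Perm (Fin n) := e.permCongrHom.toMonoidHom.comp (toPermHom G (G ⧸ M))
  let f : (G ⧸ M) →ₑ[φ.rangeRestrict] Fin n :=
    { toFun := e
      map_smul' := fun g x => by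
        change e (g • x) = φ g (e x)
        simp [φ] }
  have hP : IsPreprimitive φ.range (Fin n) := IsPreprimitive.of_surjective (f := f) e.surjective
  have hs : e.permCongr (Equiv.swap a b * Equiv.swap b c) ∈ alternatingGroup (Fin n) := by
    rw [Equiv.Perm.mem_alternatingGroup, Equiv.Perm.sign_permCongr, map_mul,
      Equiv.Perm.sign_swap hab, Equiv.Perm.sign_swap hbc]
    simp
  obtain ⟨g, hg⟩ := hA _ hP hs
  have hg' : ∀ x, g • x = Equiv.swap a b (Equiv.swap b c x) := by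
    intro x
    have := congrArg (fun s : Equiv.Perm (Fin n) => e.symm (s (e x))) hg
    simpa [φ] using this
  refine ⟨g, ?_, ?_, fun x h1 h2 h3 => ?_⟩
  · rw [hg', Equiv.swap_apply_of_ne_of_ne hab hac, Equiv.swap_apply_left]
  · rw [hg', Equiv.swap_apply_left, Equiv.swap_apply_of_ne_of_ne hac.symm hbc.symm]
  · rw [hg', Equiv.swap_apply_of_ne_of_ne h2 h3, Equiv.swap_apply_of_ne_of_ne h1 h2]


/-- Let n be an odd positive integer such that every primitive permutation group of degree n contains the alternating group (so the symmetric and alternating groups are the only primitive groups of degree n). Let G be a finite group, M a maximal subgroup of G of index n, and H a maximal subgroup of M. Then H is a second maximal subgroup of G: H is maximal in every maximal subgroup K of G containing H. -/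
theorem result {G : Type*} [Group G]
    [Finite G] (n : ℕ) (hodd : Odd n)
    (hA : ∀ P : Subgroup (Equiv.Perm (Fin n)), MulAction.IsPreprimitive P (Fin n) → alternatingGroup (Fin n) ≤ P)
    (M : Subgroup G) (hM : IsCoatom M) (hn : M.index = n) (H : Subgroup G) (hHM : H ≤ M)
    (hmax : IsCoatom (H.subgroupOf M)) (K : Subgroup G) (hK : IsCoatom K) (hHK : H ≤ K) :
    IsCoatom (H.subgroupOf K) := by
  classical
  by_cases hKM : K = M
  · subst hKM; exact hmax
  have hHmax : ∀ X : Subgroup G, H ≤ X → ¬ M ≤ X → X ⊓ M = H := by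
    intro X hX hMX
    by_contra hne
    have hlt : H.subgroupOf M < X.subgroupOf M := by
      refine lt_of_le_of_ne (Subgroup.subgroupOf_mono M hX) fun h => hne ?_
      rw [← Subgroup.subgroupOf_map_subtype, ← h, Subgroup.subgroupOf_map_subtype, inf_eq_left.2 hHM]
    exact hMX (Subgroup.subgroupOf_eq_top.1 (hmax.2 _ hlt))
  have hMK : ¬ M ≤ K := fun h => hKM ((hM.le_iff.1 h).resolve_left hK.1)
  have hKMH := hHmax K hHK hMK
  set ω : G ⧸ M := ((1 : G) : G ⧸ M) with hω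
  have hst : ∀ g : G, g • ω = ω ↔ g ∈ M := fun g => by
    rw [← mem_stabilizer_iff, hω, stabilizer_quotient]
  refine ⟨fun h => hKM ?_, fun L' hL' => ?_⟩
  · have h1 : K ≤ M := (Subgroup.subgroupOf_eq_top.1 h).trans hHM
    exact ((hK.le_iff.1 h1).resolve_left hM.1).symm
  set L := L'.map K.subtype with hL
  have hLK : L ≤ K := Subgroup.map_subtype_le _
  have hHL : H ≤ L := fun x hx => ⟨⟨x, hHK hx⟩, hL'.le hx, rfl⟩
  obtain ⟨l₀, hl₀L, hl₀M⟩ : ∃ l ∈ L, l ∉ M := by
    obtain ⟨x, hx, hx'⟩ := SetLike.exists_of_lt hL'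
    refine ⟨x, ⟨x, hx, rfl⟩, fun h => hx' ?_⟩
    have : (x : G) ∈ K ⊓ M := ⟨x.2, h⟩
    rwa [hKMH] at this
  suffices hKL : K ≤ L by
    rw [eq_top_iff]
    intro x _
    obtain ⟨y, hy, hyx⟩ := hKL x.2
    rwa [← Subtype.ext hyx]
  have hblock : ∀ k ∈ K, ∀ l ∈ L, k • ω = l • ω → k ∈ L := by
    intro k hk l hl h
    have h1 : l⁻¹ * k ∈ K ⊓ M := ⟨K.mul_mem (K.inv_mem (hLK hl)) hk,
      (hst _).1 (by rw [mul_smul, h, inv_smul_smul])⟩
    rw [hKMH] at h1
    simpa using L.mul_mem hl (hHL h1)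
  set Γ : Set (G ⧸ M) := {x | ∃ l ∈ L, l • ω = x} with hΓ
  let S : Subgroup G :=
    { carrier := {g | ∀ x, g • x ∈ Γ ↔ x ∈ Γ}
      one_mem' := fun x => by rw [one_smul]
      mul_mem' := fun {a b} ha hb x => by rw [mul_smul, ha, hb]
      inv_mem' := fun {a} ha x => by rw [← ha, smul_inv_smul] }
  have hLS : L ≤ S := by
    intro l hl x
    constructor
    · rintro ⟨m, hm, h⟩
      exact ⟨l⁻¹ * m, L.mul_mem (L.inv_mem hl) hm, by rw [mul_smul, h, inv_smul_smul]⟩
    · rintro ⟨m, hm, rfl⟩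
      exact ⟨l * m, L.mul_mem hl hm, mul_smul _ _ _⟩
  have hωΓ : ω ∈ Γ := ⟨1, L.one_mem, one_smul _ _⟩
  by_cases hMS : M ≤ S
  · have hS : S = ⊤ := hM.2 S (lt_of_le_of_ne hMS fun h => hl₀M (h ▸ hLS hl₀L))
    intro k hk
    have : k ∈ S := hS ▸ Subgroup.mem_top k
    obtain ⟨l, hl, h⟩ := (this ω).2 hωΓ
    exact hblock k hk l hl h.symm
  have hSM := hHmax S (hHL.trans hLS) hMS
  intro k hk
  by_contra hkL
  have hdisj : ∀ x ∈ Γ, k • x ∉ Γ := by
    rintro _ ⟨l, hl, rfl⟩ ⟨m, hm, h⟩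
    have := hblock (k * l) (K.mul_mem hk (hLK hl)) m hm (by rw [mul_smul, h])
    exact hkL (by simpa using L.mul_mem this (L.inv_mem hl))
  by_cases hall : ∀ x, x ∈ Γ ∨ k⁻¹ • x ∈ Γ
  · have hU : (Set.univ : Set (G ⧸ M)) = Γ ∪ (fun x => k • x) '' Γ := by
      refine (Set.eq_univ_of_forall fun x => ?_).symm
      rcases hall x with h | h
      · exact Or.inl h
      · exact Or.inr ⟨_, h, smul_inv_smul _ _⟩
    have hc := congrArg Set.ncard hU
    rw [Set.ncard_univ, Set.ncard_union_eq (Set.disjoint_right.2 (by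
      rintro _ ⟨x, hx, rfl⟩; exact hdisj x hx)),
      Set.ncard_image_of_injective _ (MulAction.injective k)] at hc
    have : Even n := ⟨Γ.ncard, by rw [← hn]; exact hc⟩
    exact (Nat.not_even_iff_odd.2 hodd) this
  push Not at hall
  obtain ⟨a, ha, ha'⟩ := hall
  have hl₀Γ : l₀ • ω ∈ Γ := ⟨l₀, hl₀L, rfl⟩
  obtain ⟨g, hg1, hg2, hg3⟩ := exists_three_cycle n hA M hM hn (k • ω) (k • l₀ • ω) a
    (fun h => hl₀M ((hst _).1 (MulAction.injective k h).symm))
    (fun h => ha' (by rw [← h, inv_smul_smul]; exact hl₀Γ))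
    (fun h => ha' (by rw [← h, inv_smul_smul]; exact hωΓ))
  have hfix : ∀ x ∈ Γ, g • x = x := fun x hx =>
    hg3 x (fun h => hdisj _ hωΓ (h ▸ hx)) (fun h => hdisj _ hl₀Γ (h ▸ hx)) (fun h => ha (h ▸ hx))
  have hgH : g ∈ H := by
    rw [← hSM]
    refine ⟨fun x => ⟨fun hx => ?_, fun hx => by rwa [hfix x hx]⟩, (hst g).1 (hfix _ hωΓ)⟩
    rwa [MulAction.injective g (hfix _ hx).symm]
  have h1 : k⁻¹ * g * k ∈ L := hblock _ (K.mul_mem (K.mul_mem (K.inv_mem hk) (hHK hgH)) hk) l₀ hl₀L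
    (by rw [mul_smul, mul_smul, hg1, inv_smul_smul])
  exact ha' ⟨k⁻¹ * g * k * l₀, L.mul_mem h1 hl₀L, by rw [mul_smul, mul_smul, mul_smul, hg2]⟩

end Cfsg.Agent.S5885
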