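import Cfsg.Statements.S5887
import Cfsg.Agent.Lib.ClMax.ExtSL

set_option autoImplicit false
open Cfsg

namespace Cfsg.Agent.S5887


/-- Let F be a finite field, n a positive integer and r a composite number (r > 1, not prime) that divides n with r < n. Let K be a subalgebra of the algebra of n × n matrices over F which is a field of degree r over F (commutative, every non-zero element invertible, of dimension r over F). Then the normaliser N of K in GL_n(F) (a group of type ΓL_{n/r}(F_{q^r})) is not a maximal subgroup of GL_n(F), and N ∩ SL_n(F) is not a maximal subgroup of SL_n(F): both lie properly inside the normaliser of an intermediate subfield of prime degree over F. -/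
theorem result {F : Type*} [Field F]
    [Fintype F] (n r : ℕ) (hr1 : 1 < r) (hrp : ¬ r.Prime) (hrn : r ∣ n) (hlt : r < n)
    (K : Subalgebra F (Matrix (Fin n) (Fin n) F)) (hK : Cfsg.Geo.IsFieldSubalgebra r K) :
    ¬ IsCoatom (Cfsg.Geo.subalgebraNormalizer K) ∧
      ¬ Cfsg.Geo.IsMaximalIn (Cfsg.Geo.specialLinear (Fin n) F)
        (Cfsg.Geo.subalgebraNormalizer K ⊓ Cfsg.Geo.specialLinear (Fin n) F) := by
  have : Nonempty (Fin n) := ⟨⟨0, by omega⟩⟩
  have hs : r.minFac.Prime := Nat.minFac_prime (by omega)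
  have hsr : r.minFac < r := (Nat.not_prime_iff_minFac_lt (by omega)).1 hrp
  obtain ⟨K₀, hK₀, hmem₀⟩ := CfsgLib.Asch.exists_subfield_of_dvd hK (Nat.minFac_dvd r)
  obtain ⟨h1, h2⟩ := CfsgLib.ClMax.subalgebraNormalizer_maximal r.minFac hs
    (by simpa using hsr.trans hlt) K₀ hK₀
  have hle : Cfsg.Geo.subalgebraNormalizer K ≤ Cfsg.Geo.subalgebraNormalizer K₀ :=
    ((CfsgLib.Asch.stab_of_le_normalizer le_rfl).of_pow hmem₀).le_normalizer
  obtain ⟨g, hg1, hg2, hg3⟩ : ∃ g, g ∈ Cfsg.Geo.subalgebraNormalizer K₀ ∧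
      g ∈ Cfsg.Geo.specialLinear (Fin n) F ∧ g ∉ Cfsg.Geo.subalgebraNormalizer K := by
    refine CfsgLib.ClMax.with_ext_field hK fun L _ _ _ _ _ hrL hdim hm1 hm2 hN => ?_
    refine CfsgLib.ClMax.with_ext_field hK₀ fun L₀ _ _ _ _ _ _ _ hm1' _ hN' => ?_
    have hfd : FiniteDimensional L₀ (Fin n → F) := Module.Finite.of_finite
    have hd : 2 ≤ Module.finrank L (Fin n → F) := by
      by_contra h3
      have h4 : Module.finrank L (Fin n → F) = 0 ∨ Module.finrank L (Fin n → F) = 1 := by omega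
      rw [Fintype.card_fin] at hdim
      rcases h4 with h4 | h4 <;> rw [h4] at hdim <;> omega
    obtain ⟨b, hb, hb'⟩ : ∃ b ∈ K, b ∉ K₀ := by
      by_contra h3
      push Not at h3
      have h4 := Submodule.finrank_mono
        (show Subalgebra.toSubmodule K ≤ Subalgebra.toSubmodule K₀ from h3)
      rw [Subalgebra.finrank_toSubmodule, Subalgebra.finrank_toSubmodule, hK.finrank_eq,
        hK₀.finrank_eq] at h4
      omega
    obtain ⟨β, hβ⟩ := hm2 b hb
    obtain ⟨u, hu⟩ := CfsgLib.ClMax.exists_not_mem_line hd (0 : Fin n → F)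
    have hu0 : u ≠ 0 := by rintro rfl; exact hu (Submodule.zero_mem _)
    obtain ⟨z, hz⟩ := CfsgLib.ClMax.exists_not_mem_line hd u
    have hlift : ∀ a : L₀, ∃ a' : L, (∀ v : Fin n → F, a • v = a' • v) ∧
        ((∀ v : Fin n → F, a' • v = β • v) → False) := by
      intro a
      obtain ⟨A, hA, hA'⟩ := hm1' a
      obtain ⟨a', ha'⟩ := hm2 A ((hmem₀ A).1 hA).1
      refine ⟨a', fun v => by rw [hA', ha'], fun h3 => hb' ?_⟩
      have : b = A := by
        rw [← sub_eq_zero]
        refine CfsgLib.Asch.eq_zero_of_forall_mulVec fun v => ?_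
        rw [Matrix.sub_mulVec, ← hβ, ← ha', h3, sub_self]
      exact this ▸ hA
    obtain ⟨ψ, h3, h4⟩ := CfsgLib.ClMax.exists_dual_one (W := Submodule.span L₀ {u, z})
      (u := β • u) (fun h3 => by
        obtain ⟨a, c, hac⟩ := Submodule.mem_span_pair.1 h3
        obtain ⟨a', ha', ha''⟩ := hlift a
        obtain ⟨c', hc', -⟩ := hlift c
        rw [ha', hc'] at hac
        by_cases hc : c' = 0
        · rw [hc, zero_smul, add_zero] at hac
          exact ha'' fun v => by rw [smul_left_injective L hu0 hac]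
        · refine hz (Submodule.mem_span_singleton.2 ⟨c'⁻¹ * (β - a'), ?_⟩)
          rw [mul_smul, sub_smul, ← hac, add_sub_cancel_left, smul_smul, inv_mul_cancel₀ hc,
            one_smul])
    have hψz := h4 z (Submodule.subset_span (by simp))
    have hψu := h4 u (Submodule.subset_span (by simp))
    obtain ⟨e, he1, he2, he3⟩ := CfsgLib.ClMax.exists_dil (F := F) ψ z (by simp [hψz])
    refine ⟨CfsgLib.ClMax.toEquiv.symm e,
      (hN' _ e fun v => (CfsgLib.ClMax.toEquiv_symm_mulVec e v).symm).2 he1, ?_, fun h5 => hz ?_⟩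
    · rw [CfsgLib.ClMax.mem_specialLinear, ← CfsgLib.ClMax.det_toEquiv]
      simpa [hψz] using he3
    · obtain ⟨k, hk⟩ := (hN _ e fun v => (CfsgLib.ClMax.toEquiv_symm_mulVec e v).symm).1 h5 β
      have h6 := hk u
      rw [he2, he2, h3, hψu] at h6
      refine Submodule.mem_span_singleton.2 ⟨k - β, ?_⟩
      rw [sub_smul]
      simpa [sub_eq_iff_eq_add'] using h6.symm
  refine ⟨fun h => h1.1 (h.2 _ (lt_of_le_of_ne hle fun h3 => hg3 (h3 ▸ hg1))),
    CfsgLib.ClMax.not_isMaximalIn_of_between ⟨_, ?_, h2.1⟩⟩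
  exact lt_of_le_of_ne (inf_le_inf_right _ hle) fun h3 =>
    hg3 (h3.ge (Subgroup.mem_inf.2 ⟨hg1, hg2⟩)).1

end Cfsg.Agent.S5887
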