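import Cfsg.Statements.S5890
import Cfsg.Agent.Lib.Dickson.Max2

set_option autoImplicit false
open Cfsg

namespace Cfsg.Agent.S5890

open CfsgLib.Dickson


/-- Let F be a finite field with q ≥ 4 elements, let L ≤ PGL₂(F) be the image of SL₂(F) (a copy of PSL₂(F), of index gcd(2, q − 1)), and let M be a maximal subgroup of PGL₂(F) that does not contain L. Suppose q ∉ {7, 9, 11} and that q is not a prime congruent to ±11 or ±19 modulo 40. Then M ∩ L is a maximal subgroup of L. (For the excluded q there are maximal subgroups of PGL₂(q) — dihedral groups of order 12 and 16 at q = 7, of order 20 and 16 at q = 9, of order 20 at q = 11, and S₄ at the excluded primes — whose intersection with L is not maximal in L.) -/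
theorem result {F : Type*} [Field F]
    [Fintype F] (h4 : 4 ≤ Fintype.card F) (h7 : Fintype.card F ≠ 7) (h9 : Fintype.card F ≠ 9) (h11 : Fintype.card F ≠ 11)
    (h40 : (Fintype.card F).Prime → Fintype.card F % 40 ∉ ({11, 19, 21, 29} : Finset ℕ))
    (M : Subgroup (Matrix.ProjGenLinGroup (Fin 2) F)) (hM : IsCoatom M)
    (hML : ¬ (Matrix.ProjGenLinGroup.mk.comp Matrix.SpecialLinearGroup.toGL).range ≤ M) :
    IsCoatom ((M ⊓ (Matrix.ProjGenLinGroup.mk.comp Matrix.SpecialLinearGroup.toGL).range).subgroupOf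
      (Matrix.ProjGenLinGroup.mk.comp Matrix.SpecialLinearGroup.toGL).range) := by
  rw [← Nat.card_eq_fintype_card] at h4 h7 h9 h11 h40
  have hP : (Matrix.ProjGenLinGroup.mk.comp Matrix.SpecialLinearGroup.toGL).range = (pslPGL F).range :=
    range_pslPGL.symm
  rw [hP] at hML ⊢
  rw [isCoatom_iff_covBy (Subgroup.subtype_injective _), Subgroup.subgroupOf_map_subtype,
    Subgroup.range_subtype, inf_assoc, inf_idem]
  rcases Nat.even_or_odd (Nat.card F) with he | ho
  · rw [Subgroup.index_eq_one.mp (index_psl_even he), inf_top_eq]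
    exact covBy_top_iff.mpr hM
  have h5 : 5 ≤ Nat.card F := by obtain ⟨j, hj⟩ := ho; omega
  rcases covBy_pgl_cases ho h5 (covBy_top_iff.mpr hM) hML with
    ⟨x, rfl⟩ | ⟨x, y, hxy, rfl, h'⟩ | ⟨x, y, hxy, rfl⟩ | h | ⟨K, k, r, h0, h1, h2, h3, rfl⟩
  · convert stab_covBy le_rfl x using 1
    ext g; simp [mem_stab, and_comm]
  · convert pairStab_emb_covBy h4 (fun ⟨j, hj⟩ => by omega) hxy using 1
    ext g; simp [mem_pairStab, and_comm]
  · convert hxy.covBy (by omega) h7 h9 using 1
    ext g; simp [mem_pairStab, and_comm]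
  · obtain ⟨A, a1, a2⟩ := exists_A4_le_S4 h.2.2
    have h6 := h40 h.1
    simp only [Finset.mem_insert, Finset.mem_singleton] at h6
    have h8 := A4_covBy h.1 h5 h.2.1 (by omega) a2
    rwa [← CovBy.eq_of_le' h8 (le_inf a1 h8.le) inf_le_right fun e => hML (e.trans inf_le_left)]
  · rw [pglSub_inf_psl h3 h2]
    exact pslSub_covBy h0 h1 h2 h3 k

end Cfsg.Agent.S5890
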