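import Cfsg.Statements.S5891
import Cfsg.Agent.Lib.Dickson.Max2

set_option autoImplicit false
open Cfsg

namespace Cfsg.Agent.S5891

open CfsgLib.Dickson


/-- Let F be a finite field of odd order q > 3 and characteristic p, and let M be a maximal subgroup of PGL₂(F) not containing the image L of SL₂(F) (a copy of PSL₂(F) of index 2). Then one of the following holds: |M| = q(q − 1) (M is the stabiliser of a point of the projective line); q ≠ 5 and M is dihedral of order 2(q − 1); M is dihedral of order 2(q + 1); q = p ≡ ±3 (mod 8) and M ≅ S₄; or q = q₀^r for an odd prime r and M ≅ PGL₂(F₀) with |F₀| = q₀. -/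
theorem result {F : Type*} [Field F] [Fintype F]
    (hodd : Odd (Fintype.card F)) (h3 : 3 < Fintype.card F) (M : Subgroup (Matrix.ProjGenLinGroup (Fin 2) F)) (hM : IsCoatom M)
    (hML : ¬ (Matrix.ProjGenLinGroup.mk.comp Matrix.SpecialLinearGroup.toGL).range ≤ M) :
    Nat.card M = Fintype.card F * (Fintype.card F - 1) ∨
    (Fintype.card F ≠ 5 ∧ Nonempty (M ≃* DihedralGroup (Fintype.card F - 1))) ∨
    Nonempty (M ≃* DihedralGroup (Fintype.card F + 1)) ∨
    ((Fintype.card F).Prime ∧ (Fintype.card F % 8 = 3 ∨ Fintype.card F % 8 = 5) ∧ Nonempty (M ≃* Equiv.Perm (Fin 4))) ∨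
    (∃ (F₀ : Type) (_ : Field F₀) (_ : Fintype F₀) (r : ℕ), r.Prime ∧ Odd r ∧ Fintype.card F = Fintype.card F₀ ^ r ∧
        Nonempty (M ≃* Matrix.ProjGenLinGroup (Fin 2) F₀)) := by
  rw [← Nat.card_eq_fintype_card] at hodd h3 ⊢
  have h5 : 5 ≤ Nat.card F := by obtain ⟨j, hj⟩ := hodd; omega
  rcases covBy_pgl_cases hodd h5 (covBy_top_iff.mpr hM) (range_pslPGL (K := F) ▸ hML) with
    ⟨x, h⟩ | ⟨x, y, hxy, h, h'⟩ | ⟨x, y, hxy, h⟩ | h | ⟨K, k, r, -, h1, h2, h4, h⟩
  · exact Or.inl (by rw [← card_stab_emb le_top x, ← h, Subgroup.index_top, mul_one])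
  · refine Or.inr (Or.inl ⟨h', ?_⟩)
    rw [← card_stab2_emb le_top hxy, Subgroup.index_top, mul_one]
    exact h ▸ (pairStab_emb_dihedral le_top hxy).2
  · refine Or.inr (Or.inr (Or.inl ?_))
    rw [← hxy.card_stab2 le_top (by omega), Subgroup.index_top, mul_one]
    exact h ▸ (hxy.dihedral le_top (by omega)).2
  · exact Or.inr (Or.inr (Or.inr (Or.inl h)))
  · obtain ⟨K₀, _, _, hc, e⟩ := exists_type_field K
    exact Or.inr (Or.inr (Or.inr (Or.inr ⟨K₀, inferInstance, inferInstance, r, h1, h2,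
      by rw [hc, h4], h ▸ pglSub_equiv' e k⟩)))

end Cfsg.Agent.S5891
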