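import Cfsg.Statements.S5892
import Cfsg.Agent.Lib.Dickson.Max2

set_option autoImplicit false
open Cfsg

namespace Cfsg.Agent.S5892

open CfsgLib.Dickson


/-- Let F be a finite field of odd order q ≥ 5 and characteristic p, and let M be a maximal subgroup of PSL₂(F). Then one of the following holds: |M| = q(q − 1)/2 (the stabiliser of a point of the projective line); q ≥ 13 and M is dihedral of order q − 1; q ∉ {7, 9} and M is dihedral of order q + 1; q = q₀² and M ≅ PGL₂(F₀) with |F₀| = q₀; q = q₀^r for an odd prime r and M ≅ PSL₂(F₀) with |F₀| = q₀; q ≡ ±1 (mod 10) with q = p or q = p², p ≡ ±3 (mod 10), and M ≅ A₅; q = p ≡ ±3 (mod 8), q ≢ ±1 (mod 10), and M ≅ A₄; or q = p ≡ ±1 (mod 8) and M ≅ S₄. -/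
theorem result {F : Type*} [Field F] [Fintype F] (p : ℕ)
    [Fact p.Prime] [CharP F p] (hodd : Odd (Fintype.card F)) (h5 : 5 ≤ Fintype.card F)
    (M : Subgroup (Matrix.ProjectiveSpecialLinearGroup (Fin 2) F)) (hM : IsCoatom M) :
    2 * Nat.card M = Fintype.card F * (Fintype.card F - 1) ∨
    (13 ≤ Fintype.card F ∧ (∃ k : ℕ, 2 * k = Fintype.card F - 1 ∧ Nonempty (M ≃* DihedralGroup k))) ∨
    (Fintype.card F ≠ 7 ∧ Fintype.card F ≠ 9 ∧ (∃ k : ℕ, 2 * k = Fintype.card F + 1 ∧ Nonempty (M ≃* DihedralGroup k))) ∨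
    (∃ (F₀ : Type) (_ : Field F₀) (_ : Fintype F₀), Fintype.card F = Fintype.card F₀ ^ 2 ∧
        Nonempty (M ≃* Matrix.ProjGenLinGroup (Fin 2) F₀)) ∨
    (∃ (F₀ : Type) (_ : Field F₀) (_ : Fintype F₀) (r : ℕ), r.Prime ∧ Odd r ∧ Fintype.card F = Fintype.card F₀ ^ r ∧
        Nonempty (M ≃* Matrix.ProjectiveSpecialLinearGroup (Fin 2) F₀)) ∨
    ((Fintype.card F % 10 = 1 ∨ Fintype.card F % 10 = 9) ∧
        (Fintype.card F = p ∨ (Fintype.card F = p ^ 2 ∧ (p % 10 = 3 ∨ p % 10 = 7))) ∧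
        Nonempty (M ≃* alternatingGroup (Fin 5))) ∨
    (Fintype.card F = p ∧ (p % 8 = 3 ∨ p % 8 = 5) ∧ ¬ (p % 10 = 1 ∨ p % 10 = 9) ∧
        Nonempty (M ≃* alternatingGroup (Fin 4))) ∨
    (Fintype.card F = p ∧ (p % 8 = 1 ∨ p % 8 = 7) ∧ Nonempty (M ≃* Equiv.Perm (Fin 4))) := by
  rw [← Nat.card_eq_fintype_card] at hodd h5 ⊢
  have ht := index_psl_odd hodd
  rw [isCoatom_iff_covBy pslPGL_injective] at hM
  rcases covBy_psl_cases p (by omega) hM with ⟨x, h⟩ | ⟨x, y, hxy, h, h'⟩ | ⟨x, y, hxy, h, h'⟩ |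
    ⟨K, k, -, h1, h⟩ | ⟨K, k, r, -, h1, h2, h3, h⟩ | h | h | h
  · exact Or.inl (by rw [← card_stab_emb le_rfl x, ← h, card_map_pslPGL, ht, mul_comm])
  · exact Or.inr (Or.inl ⟨h' hodd, _, by rw [← card_stab2_emb le_rfl hxy, ht, mul_comm],
      equiv_of_map (h ▸ (pairStab_emb_dihedral le_rfl hxy).2)⟩)
  · exact Or.inr (Or.inr (Or.inl ⟨h'.1, h'.2, _, by rw [← hxy.card_stab2 le_rfl (by omega), ht, mul_comm],
      equiv_of_map (h ▸ (hxy.dihedral le_rfl (by omega)).2)⟩))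
  · obtain ⟨K₀, _, _, hc, e⟩ := exists_type_field K
    exact Or.inr (Or.inr (Or.inr (Or.inl ⟨K₀, inferInstance, inferInstance, by rw [hc, h1],
      equiv_of_map (h ▸ pglSub_equiv' e k)⟩)))
  · obtain ⟨K₀, _, _, hc, e⟩ := exists_type_field K
    exact Or.inr (Or.inr (Or.inr (Or.inr (Or.inl ⟨K₀, inferInstance, inferInstance, r, h1, h2,
      by rw [hc, h3], equiv_of_map (h ▸ pslSub_equiv' e k)⟩))))
  · exact Or.inr (Or.inr (Or.inr (Or.inr (Or.inr (Or.inl ⟨h.2.1, h.2.2.1, equiv_of_map h.2.2.2⟩)))))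
  · exact Or.inr (Or.inr (Or.inr (Or.inr (Or.inr (Or.inr (Or.inl
      ⟨h.1, h.2.1, h.2.2.1, equiv_of_map h.2.2.2⟩))))))
  · exact Or.inr (Or.inr (Or.inr (Or.inr (Or.inr (Or.inr (Or.inr ⟨h.1, h.2.1, equiv_of_map h.2.2⟩))))))

end Cfsg.Agent.S5892
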