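import Cfsg.Statements.S5894
import Cfsg.Agent.Lib.SymMax.SwapAut
import Cfsg.Agent.Lib.SymMax.Partition

set_option autoImplicit false
open Cfsg
open scoped Pointwise

namespace Cfsg.Agent.S5894

/-- For every m ≥ 2 the symmetric group on 2m letters has a maximal subgroup M of index 2m together with a maximal subgroup H of M that is not second maximal: some maximal subgroup K of the symmetric group contains H without H being maximal in K. (One may take M the stabiliser of a letter, H ≅ S_m × S_{m−1} inside it, and K ≅ S_m ≀ S₂ the stabiliser of a partition into two m-sets, with H < S_m × S_m < K.) So the prime-index hypothesis in the second-maximality criterion cannot be relaxed to any even index ≥ 4. -/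
theorem result (m : ℕ) (hm : 2 ≤ m) :
    ∃ M H K : Subgroup (Equiv.Perm (Fin (2 * m))), IsCoatom M ∧ M.index = 2 * m ∧ H ≤ M ∧ IsCoatom (H.subgroupOf M) ∧
      IsCoatom K ∧ H ≤ K ∧ ¬ IsCoatom (H.subgroupOf K) := by
  classical
  have hnt : Nontrivial (Fin (2 * m)) := Fin.nontrivial_iff_two_le.2 (by omega)
  set pt : Fin (2 * m) := ⟨m, by omega⟩ with hpt
  set f : Fin (2 * m) → Bool := fun x => decide (x.val < m) with hf
  set O : Set (Fin (2 * m)) := {x | x.val < m} with hO
  have hcO : O.ncard = m := by
    have : O = (Finset.Iio pt : Finset (Fin (2 * m))) := by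
      ext x; simp [hO, hpt, Fin.lt_def]
    rw [this, Set.ncard_coe_finset, Fin.card_Iio]
  have hcO' : Oᶜ.ncard = m := by
    have := Set.ncard_add_ncard_compl O
    rw [hcO, Nat.card_eq_fintype_card, Fintype.card_fin] at this
    omega
  have hfib : ∀ i, Nat.card {x // f x = i} = m := by
    intro i
    cases i
    · refine Eq.trans ?_ hcO'
      rw [← Nat.card_coe_set_eq]
      exact Nat.card_congr (Equiv.subtypeEquivRight fun x => by simp [hf, hO])
    · refine Eq.trans ?_ hcO
      rw [← Nat.card_coe_set_eq]
      exact Nat.card_congr (Equiv.subtypeEquivRight fun x => by simp [hf, hO])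
  have hK := CfsgLib.SymMax.isCoatom_partStab hm hfib
  have hlt : MulAction.stabilizer (Equiv.Perm (Fin (2 * m))) O < CfsgLib.SymMax.partStab f := by
    obtain ⟨g, hg⟩ := CfsgLib.SymMax.exists_lift hfib (Equiv.swap true false)
    refine SetLike.lt_iff_le_and_exists.2 ⟨fun k hk => ?_, g,
      CfsgLib.SymMax.mem_partStab_of_comp _ (Equiv.swap true false).injective hg, fun hk => ?_⟩
    · refine CfsgLib.SymMax.mem_partStab_of_comp id Function.injective_id fun x => ?_
      have := MulAction.mem_stabilizer_set.1 hk x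
      simpa [hf, hO] using this
    · have h1 := hg pt
      have := MulAction.mem_stabilizer_set.1 hk pt
      simp [hf, hO, hpt] at h1 this
      omega
  set φ : Equiv.Perm {x : Fin (2 * m) // x ≠ pt} →* Equiv.Perm (Fin (2 * m)) := Equiv.Perm.ofSubtype
  set O' : Set {x : Fin (2 * m) // x ≠ pt} := Subtype.val ⁻¹' O with hO'
  have hcO'' : O'.ncard = m := by
    refine Eq.trans ?_ hcO
    apply Set.ncard_preimage_of_injective_subset_range Subtype.val_injective
    intro x hx
    refine ⟨⟨x, ?_⟩, rfl⟩
    rintro rfl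
    simp [hO, hpt] at hx
  have hS : IsCoatom (MulAction.stabilizer (Equiv.Perm {x : Fin (2 * m) // x ≠ pt}) O') := by
    apply Equiv.Perm.isCoatom_stabilizer
    · exact ⟨⟨⟨0, by omega⟩, by simp [hpt, Fin.ext_iff]; omega⟩, by simp [hO', hO]; omega⟩
    · exact ⟨⟨⟨m + 1, by omega⟩, by simp [hpt, Fin.ext_iff]⟩, by simp [hO', hO]⟩
    · rw [hcO'']
      simp
      omega
  have hco := CfsgLib.SymMax.isCoatom_map_subgroupOf_range φ Equiv.Perm.ofSubtype_injective hS
  have hr : φ.range = MulAction.stabilizer _ pt := CfsgLib.SymMax.range_ofSubtype_ne pt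
  have hHlt : (MulAction.stabilizer (Equiv.Perm {x : Fin (2 * m) // x ≠ pt}) O').map φ <
      MulAction.stabilizer (Equiv.Perm (Fin (2 * m))) O := by
    refine SetLike.lt_iff_le_and_exists.2 ⟨?_, Equiv.swap pt ⟨m + 1, by omega⟩, ?_, fun h => ?_⟩
    · rintro _ ⟨k, hk, rfl⟩
      rw [MulAction.mem_stabilizer_set]
      intro x
      by_cases hx : x = pt
      · rw [hx]
        have : φ k pt = pt := Equiv.Perm.ofSubtype_apply_of_not_mem k (by simp)
        rw [Equiv.Perm.smul_def, this]
      · have := MulAction.mem_stabilizer_set.1 hk ⟨x, hx⟩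
        rw [Equiv.Perm.smul_def, Equiv.Perm.ofSubtype_apply_of_mem k hx]
        exact this
    · rw [← stabilizer_compl]
      apply Equiv.Perm.swap_mem_stabilizer <;> simp [hO, hpt]
    · have h1 := Subgroup.map_le_range φ _ h
      rw [hr] at h1
      have h2 : Equiv.swap pt ⟨m + 1, by omega⟩ pt = pt := h1
      rw [Equiv.swap_apply_left] at h2
      simp [hpt, Fin.ext_iff] at h2
  refine ⟨φ.range, _, CfsgLib.SymMax.partStab f, ?_, ?_, Subgroup.map_le_range φ _, hco, hK,
    (hHlt.trans hlt).le, CfsgLib.SymMax.not_isCoatom_subgroupOf hHlt hlt⟩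
  · rw [hr]
    exact MulAction.IsPreprimitive.isCoatom_stabilizer_of_isPreprimitive _ pt
  · rw [hr, MulAction.index_stabilizer_of_transitive]
    simp

end Cfsg.Agent.S5894
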