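import Cfsg.Statements.S5896


set_option autoImplicit false
open Cfsg

namespace Cfsg.Agent.S5896

open RegularWreathProduct
open scoped commutatorElement

theorem ds_ne_of_le {W D : Type*} [Group W] [Group D] {B X : Subgroup W} (h : B ≤ X) (f : B →* D)
    (hf : Function.Surjective f) (d : ℕ) (hd : derivedSeries D d ≠ ⊥) : derivedSeries X d ≠ ⊥ := by
  intro hX
  apply hd
  have h1 := map_derivedSeries_le_derivedSeries (Subgroup.inclusion h) d
  rw [hX, le_bot_iff, Subgroup.map_eq_bot_iff_of_injective _ (Subgroup.inclusion_injective h)] at h1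
  rw [← map_derivedSeries_eq hf d, h1, Subgroup.map_bot]

theorem pi_solvable {ι D : Type*} [Group D] [h : Group.IsSolvable D] : Group.IsSolvable (ι → D) := by
  obtain ⟨n, hn⟩ := h
  refine ⟨⟨n, ?_⟩⟩
  rw [eq_bot_iff]
  intro x hx
  rw [Subgroup.mem_bot]
  funext i
  have := map_derivedSeries_le_derivedSeries (Pi.evalMonoidHom (fun _ : ι => D) i) n ⟨x, hx, rfl⟩
  rw [hn, Subgroup.mem_bot] at this
  exact this

/-- the base group -/
def baseHom (D Q : Type*) [Group D] [Group Q] : (Q → D) →* D ≀ᵣ Q where
  toFun x := ⟨x, 1⟩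
  map_one' := rfl
  map_mul' x y := by ext <;> simp

theorem ker_le (D Q : Type*) [Group D] [Group Q] :
    (rightHom : D ≀ᵣ Q →* Q).ker ≤ (baseHom D Q).range := by
  intro x hx
  refine ⟨x.left, ?_⟩
  have : x.right = 1 := hx
  ext
  · rfl
  · exact this.symm

theorem ker_solvable (D Q : Type*) [Group D] [Group Q] [Group.IsSolvable D] :
    Group.IsSolvable (rightHom : D ≀ᵣ Q →* Q).ker := by
  have := pi_solvable (ι := Q) (D := D)
  have h1 : Group.IsSolvable (baseHom D Q).range :=
    Group.isSolvable_of_surjective (baseHom D Q).rangeRestrict_surjective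
  exact Group.isSolvable_of_isSolvable_injective (Subgroup.inclusion_injective (ker_le D Q))

theorem wreath_ne {D Q : Type*} [Group D] [Group Q] (q : Q) (hq : q ≠ 1) (X : Subgroup (D ≀ᵣ Q))
    (hX : ∀ b : Q → D, ⁅baseHom D Q b, inl q⁆ ∈ X) (d : ℕ) (hd : derivedSeries D d ≠ ⊥) :
    derivedSeries X d ≠ ⊥ := by
  classical
  let B : Subgroup (D ≀ᵣ Q) := X ⊓ (rightHom : D ≀ᵣ Q →* Q).ker
  let f : B →* D :=
    { toFun := fun x => x.1.left 1
      map_one' := rfl
      map_mul' := by
        intro x y
        have : x.1.right = 1 := x.2.2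
        simp [this] }
  refine ds_ne_of_le (B := B) inf_le_left f ?_ d hd
  intro s
  refine ⟨⟨⁅baseHom D Q (Pi.mulSingle 1 s), inl q⁆, hX _, ?_⟩, ?_⟩
  · show rightHom _ = (1 : Q)
    rw [map_commutatorElement]
    have : rightHom (baseHom D Q (Pi.mulSingle 1 s)) = (1 : Q) := rfl
    rw [this, commutatorElement_one_left]
  · show (⁅baseHom D Q (Pi.mulSingle 1 s), inl q⁆ : D ≀ᵣ Q).left 1 = s
    have hq' : q⁻¹ ≠ 1 := inv_ne_one.2 hq
    simp [commutatorElement_def, baseHom, hq']

theorem ds_succ {W : Type*} [Group W] (d : ℕ) :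
    (derivedSeries (commutator W) d).map (commutator W).subtype ≤ derivedSeries W (d + 1) := by
  induction d with
  | zero => rw [derivedSeries_zero, ← MonoidHom.range_eq_map, Subgroup.range_subtype]; exact le_rfl
  | succ d ih =>
    rw [derivedSeries_succ, Subgroup.map_commutator, derivedSeries_succ]
    exact Subgroup.commutator_mono ih ih

theorem exists_solv (d : ℕ) : ∃ (S : Type) (_ : Group S) (_ : Finite S), Group.IsSolvable S ∧
    derivedSeries S d ≠ ⊥ := by
  induction d with
  | zero => exact ⟨Multiplicative (ZMod 2), inferInstance, inferInstance, inferInstance, top_ne_bot⟩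
  | succ d ih =>
    obtain ⟨S, _, _, hS, hd⟩ := ih
    refine ⟨S ≀ᵣ Multiplicative (ZMod 2), inferInstance, inferInstance, ?_, ?_⟩
    · have := ker_solvable S (Multiplicative (ZMod 2))
      exact Group.isSolvable_of_ker_le_range (rightHom : S ≀ᵣ Multiplicative (ZMod 2) →* _).ker.subtype
        rightHom (by simp)
    · intro h
      have h1 := ds_succ (W := S ≀ᵣ Multiplicative (ZMod 2)) d
      rw [h, le_bot_iff, Subgroup.map_eq_bot_iff_of_injective _ Subtype.val_injective] at h1
      exact wreath_ne (Multiplicative.ofAdd (1 : ZMod 2)) (by decide) _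
        (fun b => Subgroup.commutator_mem_commutator (Subgroup.mem_top _) (Subgroup.mem_top _)) d hd h1

theorem exists_minperf : ∃ (Q : Type) (_ : Group Q) (_ : Finite Q) (_ : Nontrivial Q),
    commutator Q = ⊤ ∧ ∀ H : Subgroup Q, H ≠ ⊤ → Group.IsSolvable H := by
  have h0 := Equiv.Perm.not_isSolvable_fin_5
  rw [Group.isSolvable_iff_commutator_lt] at h0
  push Not at h0
  obtain ⟨Q, ⟨hQ0, hQ⟩, hmin⟩ := Set.exists_min_image
    {H : Subgroup (Equiv.Perm (Fin 5)) | H ≠ ⊥ ∧ ¬ ⁅H, H⁆ < H} (fun H => Nat.card H) (Set.toFinite _) h0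
  refine ⟨Q, inferInstance, inferInstance, (Subgroup.nontrivial_iff_ne_bot Q).2 hQ0, ?_, ?_⟩
  · have h1 : ⁅Q, Q⁆ = Q := by
      by_contra h
      exact hQ (lt_of_le_of_ne (Subgroup.commutator_le_self Q) h)
    apply Subgroup.map_injective Q.subtype_injective
    rw [commutator_def, Subgroup.map_commutator, ← MonoidHom.range_eq_map, Subgroup.range_subtype, h1]
  · intro H hH
    rw [Group.isSolvable_iff_commutator_lt]
    intro K hK
    by_contra hc
    have h1 : ⁅K, K⁆ = K := by
      by_contra h
      exact hc (lt_of_le_of_ne (Subgroup.commutator_le_self K) h)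
    have hinj : Function.Injective (Q.subtype.comp H.subtype) :=
      Q.subtype_injective.comp H.subtype_injective
    have h2 := hmin (K.map (Q.subtype.comp H.subtype)) ⟨by
      rwa [Ne, Subgroup.map_eq_bot_iff_of_injective _ hinj], by
      rw [← Subgroup.map_commutator, h1]; exact lt_irrefl _⟩
    simp only [Subgroup.card_map_of_injective hinj] at h2
    exact hH (Subgroup.eq_top_of_le_card H (h2.trans (Subgroup.card_le_card_group K)))

/-- Finite perfect groups have solvable maximal subgroups of unbounded derived length: for every d there is a finite perfect group G (equal to its commutator subgroup) with a solvable maximal subgroup H whose derived length exceeds d, i.e. the d-th term of the derived series of H is non-trivial. (Take the derived subgroup of a wreath product S ≀ A₅ with S solvable of large derived length, and H the preimage of a maximal subgroup of A₅.) -/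
theorem result (d : ℕ) :
    ∃ (G : Type) (_ : Group G) (_ : Finite G) (H : Subgroup G), commutator G = ⊤ ∧ IsCoatom H ∧ Group.IsSolvable H ∧
      derivedSeries H d ≠ ⊥ := by
  obtain ⟨S, _, _, hS, hd⟩ := exists_solv d
  obtain ⟨Q, _, _, _, hQ, hsol⟩ := exists_minperf
  let A : Subgroup (S ≀ᵣ Q) := (inl : Q →* S ≀ᵣ Q).range
  let P : Subgroup (S ≀ᵣ Q) := Subgroup.normalClosure (A : Set (S ≀ᵣ Q))
  have hAP : A ≤ P := Subgroup.le_normalClosure
  have hA : ⁅A, A⁆ = A := by
    simp only [A]
    rw [MonoidHom.range_eq_map, ← Subgroup.map_commutator, ← commutator_def, hQ]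
  have hP : ⁅P, P⁆ = P := by
    apply le_antisymm (Subgroup.commutator_le_self P)
    apply Subgroup.normalClosure_le_normal
    intro x hx
    have hx' : x ∈ ⁅A, A⁆ := hA.symm ▸ hx
    exact Subgroup.commutator_mono hAP hAP hx'
  let π : P →* Q := (rightHom : S ≀ᵣ Q →* Q).comp P.subtype
  have hπ : Function.Surjective π := fun q => ⟨⟨inl q, hAP ⟨q, rfl⟩⟩, rfl⟩
  obtain ⟨M, hM, -⟩ := (eq_top_or_exists_le_coatom (⊥ : Subgroup Q)).resolve_left bot_ne_top
  refine ⟨P, inferInstance, inferInstance, M.comap π, ?_, Subgroup.isCoatom_comap_of_surjective hπ hM,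
    ?_, ?_⟩
  · apply Subgroup.map_injective P.subtype_injective
    rw [commutator_def, Subgroup.map_commutator, ← MonoidHom.range_eq_map, Subgroup.range_subtype, hP]
  · have h1 := hsol M hM.1
    have h2 := ker_solvable S Q
    let ρ : (M.comap π) →* M := (π.comp (M.comap π).subtype).codRestrict M fun x => x.2
    let κ : ρ.ker →* (rightHom : S ≀ᵣ Q →* Q).ker :=
      (P.subtype.comp ((M.comap π).subtype.comp ρ.ker.subtype)).codRestrict _ fun x =>
        congrArg Subtype.val x.2
    have hκ : Function.Injective κ := by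
      intro x y h
      have h' : (κ x).1 = (κ y).1 := congrArg Subtype.val h
      exact Subtype.ext (Subtype.ext (Subtype.ext h'))
    have h3 : Group.IsSolvable ρ.ker := Group.isSolvable_of_isSolvable_injective hκ
    exact Group.isSolvable_of_ker_le_range ρ.ker.subtype ρ (by simp)
  · obtain ⟨q, hq⟩ := exists_ne (1 : Q)
    have h1 := wreath_ne q hq ((M.comap π).map P.subtype) (fun b => by
      have hm : ⁅baseHom S Q b, inl q⁆ ∈ P := by
        rw [commutatorElement_def, mul_assoc]
        have hn : P.Normal := inferInstance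
        rw [← mul_assoc]
        exact P.mul_mem (hn.conj_mem _ (hAP ⟨q, rfl⟩) _) (P.inv_mem (hAP ⟨q, rfl⟩))
      refine ⟨⟨_, hm⟩, ?_, rfl⟩
      show rightHom ⁅baseHom S Q b, inl q⁆ ∈ M
      rw [map_commutatorElement]
      have : rightHom (baseHom S Q b) = (1 : Q) := rfl
      rw [this, commutatorElement_one_left]
      exact M.one_mem) d hd
    intro h
    apply h1
    have e := Subgroup.equivMapOfInjective (M.comap π) P.subtype P.subtype_injective
    rw [← map_derivedSeries_eq (f := e.toMonoidHom) e.surjective d, h, Subgroup.map_bot]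

end Cfsg.Agent.S5896
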