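import Cfsg.Statements.S5902
import Cfsg.Agent.Lib.KLat.Basic

set_option autoImplicit false
open Cfsg

namespace Cfsg.Agent.S5902

/-- Let G be a finite group, X a subgroup whose own subgroup lattice is complemented, and suppose X lies in exactly one maximal subgroup M of G. Then every subgroup H of G not contained in the normal core of M has a complement in the subgroup lattice of G (some C with H ⊔ C = G and H ⊓ C = 1); in particular the subgroup lattice of G modulo the normal core of M is complemented. -/
theorem result {G : Type*} [Group G] [Finite G] (X M : Subgroup G)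
    (hK : ComplementedLattice (Subgroup X))
    (hM : IsCoatom M) (hXM : X ≤ M) (huniq : ∀ M' : Subgroup G, IsCoatom M' → X ≤ M' → M' = M) :
    (∀ H : Subgroup G, ¬ H ≤ M.normalCore → ∃ C : Subgroup G, H ⊔ C = ⊤ ∧ H ⊓ C = ⊥) ∧
    ComplementedLattice (Subgroup (G ⧸ M.normalCore)) := by
  constructor
  · intro H hH
    obtain ⟨g, hg⟩ := CfsgLib.KLat.exists_conj_not_le_of_not_le_normalCore H M hH
    have hint := CfsgLib.KLat.interval_of_complemented ⊥ X hK
    rw [sup_bot_eq] at hint
    obtain ⟨C, -, h2, h3⟩ := CfsgLib.KLat.exists_rel_complement_conj ⊥ X M bot_le hint huniq H g hg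
    refine ⟨C, h2, ?_⟩
    rwa [Subgroup.map_bot, le_bot_iff] at h3
  · refine ⟨fun Hb => ?_⟩
    by_cases hb : Hb = ⊥
    · exact ⟨⊤, hb ▸ isCompl_bot_top⟩
    set N := M.normalCore with hN
    set π := QuotientGroup.mk' N with hπ
    have hsurj : Function.Surjective π := QuotientGroup.mk'_surjective _
    have hker : π.ker = N := QuotientGroup.ker_mk' _
    have hH : ¬ Hb.comap π ≤ N := by
      intro h
      apply hb
      rw [← Subgroup.map_comap_eq_self_of_surjective hsurj Hb, Subgroup.map_eq_bot_iff, hker]
      exact h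
    obtain ⟨g, hg⟩ := CfsgLib.KLat.exists_conj_not_le_of_not_le_normalCore _ M hH
    have hint := CfsgLib.KLat.interval_of_complemented N X hK
    have huniq' : ∀ M' : Subgroup G, IsCoatom M' → X ⊔ N ≤ M' → M' = M :=
      fun M' h1 h2 => huniq M' h1 (le_sup_left.trans h2)
    obtain ⟨C, h1, h2, h3⟩ :=
      CfsgLib.KLat.exists_rel_complement_conj N (X ⊔ N) M le_sup_right hint huniq' _ g hg
    have hNg : N.map (MulAut.conj g).toMonoidHom = N := by
      apply le_antisymm
      · rintro _ ⟨n, hn, rfl⟩
        exact (inferInstance : N.Normal).conj_mem n hn g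
      · intro n hn
        refine ⟨g⁻¹ * n * g, ?_, by simp [mul_assoc]⟩
        simpa using (inferInstance : N.Normal).conj_mem n hn g⁻¹
    rw [hNg] at h1 h3
    refine ⟨C.map π, ?_, ?_⟩
    · rw [disjoint_iff, eq_bot_iff]
      rintro y ⟨hy1, c, hc, rfl⟩
      have : c ∈ N := h3 ⟨hy1, hc⟩
      rw [Subgroup.mem_bot, ← MonoidHom.mem_ker, hker]
      exact this
    · rw [codisjoint_iff, ← Subgroup.map_comap_eq_self_of_surjective hsurj Hb, ← Subgroup.map_sup, h2,
        Subgroup.map_top_of_surjective _ hsurj]

end Cfsg.Agent.S5902
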