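import Cfsg.Statements.S5903
import Cfsg.Agent.Lib.KLat.Basic

set_option autoImplicit false
open Cfsg

namespace Cfsg.Agent.S5903

/-- Let G be a finite simple group, X a subgroup lying in exactly one maximal subgroup M of G, and N a subgroup of prime order with N ≤ X that is central in M. If the subgroup lattice of X/N is complemented, then the subgroup lattice of G is complemented. -/
theorem result {G : Type*} [Group G] [Finite G] [IsSimpleGroup G] (X M N : Subgroup G)
    (hM : IsCoatom M) (hXM : X ≤ M) (huniq : ∀ M' : Subgroup G, IsCoatom M' → X ≤ M' → M' = M)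
    (hNX : N ≤ X) (hN : (Nat.card N).Prime) (hcen : ∀ n ∈ N, ∀ m ∈ M, m * n = n * m)
    [(N.subgroupOf X).Normal] (hK : ComplementedLattice (Subgroup (X ⧸ N.subgroupOf X))) :
    ComplementedLattice (Subgroup G) := by
  have hint := CfsgLib.KLat.interval_of_quotient N X hNX hK
  haveI : Fact (Nat.card N).Prime := ⟨hN⟩
  have hNbot : N ≠ ⊥ := by
    intro h
    rw [h] at hN
    simp at hN
    exact Nat.not_prime_one hN
  refine ⟨fun H => ?_⟩
  by_cases hb : H = ⊥
  · exact ⟨⊤, hb ▸ isCompl_bot_top⟩
  by_cases ht : H = ⊤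
  · exact ⟨⊥, ht ▸ isCompl_top_bot⟩
  by_cases hex : ∃ g : G, ¬ H ≤ M.map (MulAut.conj g).toMonoidHom ∧
      H ⊓ N.map (MulAut.conj g).toMonoidHom = ⊥
  · obtain ⟨g, hg1, hg2⟩ := hex
    obtain ⟨C, -, h2, h3⟩ := CfsgLib.KLat.exists_rel_complement_conj N X M hNX hint huniq H g hg1
    refine ⟨C, ?_, codisjoint_iff.2 h2⟩
    rw [disjoint_iff, eq_bot_iff, ← hg2]
    exact le_inf inf_le_left h3
  exfalso
  push Not at hex
  -- every conjugate of `N` normalizes `H`
  have hnorm : ∀ g : G, N.map (MulAut.conj g).toMonoidHom ≤ H ⊔ Subgroup.centralizer (H : Set G) := by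
    intro g
    by_cases hg : H ≤ M.map (MulAut.conj g).toMonoidHom
    · refine le_sup_of_le_right ?_
      rintro _ ⟨n, hn, rfl⟩ h hh
      obtain ⟨m, hm, rfl⟩ := hg hh
      rw [← map_mul, ← map_mul, hcen n hn m hm]
    · have h1 := hex g hg
      refine le_sup_of_le_left ?_
      set N' := N.map (MulAut.conj g).toMonoidHom with hN'
      have hcard : Nat.card N' = Nat.card N :=
        Subgroup.card_map_of_injective (MulAut.conj g).injective
      haveI : Fact (Nat.card N').Prime := ⟨hcard ▸ hN⟩
      rcases (H.subgroupOf N').eq_bot_or_eq_top_of_prime_card with h | h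
      · exact absurd (disjoint_iff.1 (Subgroup.subgroupOf_eq_bot.1 h)) h1
      · exact Subgroup.subgroupOf_eq_top.1 h
  have hcl : Subgroup.normalClosure (N : Set G) ≤ H ⊔ Subgroup.centralizer (H : Set G) := by
    rw [Subgroup.normalClosure, Subgroup.closure_le]
    intro x hx
    rw [Group.mem_conjugatesOfSet_iff] at hx
    obtain ⟨n, hn, hc⟩ := hx
    obtain ⟨g, rfl⟩ := isConj_iff.1 hc
    exact hnorm g ⟨n, hn, rfl⟩
  have htop : Subgroup.normalClosure (N : Set G) = ⊤ := by
    rcases (inferInstance : (Subgroup.normalClosure (N : Set G)).Normal).eq_bot_or_eq_top with h | h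
    · exact absurd (le_bot_iff.1 (h ▸ Subgroup.le_normalClosure)) hNbot
    · exact h
  have hHn : H.Normal := by
    rw [← Subgroup.normalizer_eq_top_iff, eq_top_iff, ← htop]
    exact hcl.trans (sup_le Subgroup.le_normalizer (Subgroup.centralizer_le_normalizer _))
  rcases hHn.eq_bot_or_eq_top with h | h
  · exact hb h
  · exact ht h

end Cfsg.Agent.S5903
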