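import Cfsg.Statements.S5904
import Cfsg.Agent.Lib.SymMax.Partition

set_option autoImplicit false
open scoped Pointwise
open Cfsg

namespace Cfsg.Agent.S5904

/-- Let Ω be a finite set with more than two elements and O ⊆ Ω a subset with exactly as many elements as its complement. Then the setwise stabilizer of O in the symmetric group on Ω is not a maximal subgroup (it is properly contained in the stabilizer of the partition {O, Ω ∖ O}, which is proper). -/
theorem result {Ω : Type*} [Fintype Ω] [DecidableEq Ω] (hΩ : 2 < Fintype.card Ω)
    (O : Set Ω) (hO : Nat.card O = Nat.card ↥Oᶜ) :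
    ¬ IsCoatom (MulAction.stabilizer (Equiv.Perm Ω) O) := by
  classical
  intro h
  set f : Ω → Bool := fun x => decide (x ∈ O) with hf
  have hsum : Nat.card O + Nat.card ↥Oᶜ = Fintype.card Ω := by
    rw [Nat.card_coe_set_eq, Nat.card_coe_set_eq, Set.ncard_add_ncard_compl, Nat.card_eq_fintype_card]
  have hfib : ∀ i, Nat.card {x : Ω // f x = i} = Nat.card O := by
    intro i
    cases i
    · rw [hO]; exact Nat.card_congr (Equiv.subtypeEquivRight fun x => by simp [hf])
    · exact Nat.card_congr (Equiv.subtypeEquivRight fun x => by simp [hf])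
  have h2 : 2 ≤ Nat.card O := by omega
  have hK := CfsgLib.SymMax.isCoatom_partStab h2 hfib
  have hlt : MulAction.stabilizer (Equiv.Perm Ω) O < CfsgLib.SymMax.partStab f := by
    obtain ⟨g, hg⟩ := CfsgLib.SymMax.exists_lift hfib (Equiv.swap true false)
    refine SetLike.lt_iff_le_and_exists.2 ⟨fun k hk => ?_, g,
      CfsgLib.SymMax.mem_partStab_of_comp _ (Equiv.swap true false).injective hg, fun hk => ?_⟩
    · refine CfsgLib.SymMax.mem_partStab_of_comp id Function.injective_id fun x => ?_
      have := MulAction.mem_stabilizer_set.1 hk x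
      simpa [hf] using this
    · obtain ⟨x, -, -, hx, -⟩ := CfsgLib.SymMax.exists_pair_in_fibre (f := f) (i := true)
        (by rw [hfib]; exact h2)
      have h1 := hg x
      rw [hx, Equiv.swap_apply_left] at h1
      have := MulAction.mem_stabilizer_set.1 hk x
      simp only [hf, decide_eq_true_eq, decide_eq_false_iff_not] at hx h1
      exact h1 (this.2 hx)
  exact hK.1 (h.2 _ hlt)

end Cfsg.Agent.S5904
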