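import Cfsg.Statements.S5908
import Cfsg.Agent.S0827

set_option autoImplicit false
open Cfsg

namespace Cfsg.Agent.S5908

/-- The subgroup lattice of PSU₃(2) (the solvable group of order 72, realised over the field with 4 elements) is not complemented: some subgroup H has no subgroup X with H ⊔ X = ⊤ and H ⊓ X = ⊥. -/
theorem result {F : Type*} [Field F] [Fintype F] (hF : Fintype.card F = 4) :
    ¬ ComplementedLattice (Subgroup (Cfsg.PSU 3 F 2)) := by
  intro hc
  obtain ⟨N, hN, -, -, ⟨e⟩⟩ := Cfsg.Agent.S0827.result hF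
  let π : Cfsg.PSU 3 F 2 →* QuaternionGroup 2 := e.toMonoidHom.comp (QuotientGroup.mk' N)
  have hπ : Function.Surjective π := e.surjective.comp (QuotientGroup.mk'_surjective N)
  let Z : Subgroup (QuaternionGroup 2) :=
    { carrier := {y | y ^ 2 = 1}
      mul_mem' := by
        intro a b
        simp only [Set.mem_setOf_eq]
        revert a b
        decide
      one_mem' := by simp
      inv_mem' := by
        intro a ha
        simp only [Set.mem_setOf_eq] at ha ⊢
        rw [inv_pow, ha, inv_one] }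
  have h4 : ∀ y : QuaternionGroup 2, (y ^ 2) ^ 2 = 1 := by decide
  obtain ⟨X, hX⟩ := exists_isCompl (Z.comap π)
  have hXb : X = ⊥ := by
    rw [eq_bot_iff]
    intro x hx
    have h1 : x ^ 2 ∈ Z.comap π ⊓ X := ⟨by
      show (π (x ^ 2)) ^ 2 = 1
      rw [map_pow]; exact h4 _, X.pow_mem hx 2⟩
    rw [hX.inf_eq_bot, Subgroup.mem_bot] at h1
    have h2 : x ∈ Z.comap π ⊓ X := ⟨by
      show (π x) ^ 2 = 1
      rw [← map_pow, h1, map_one], hx⟩
    rwa [hX.inf_eq_bot] at h2
  have ht := hX.sup_eq_top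
  rw [hXb, sup_bot_eq] at ht
  obtain ⟨g, hg⟩ := hπ (QuaternionGroup.a 1)
  have h3 : g ∈ Z.comap π := ht ▸ Subgroup.mem_top g
  have h5 : (π g) ^ 2 = 1 := h3
  rw [hg] at h5
  revert h5
  decide

end Cfsg.Agent.S5908
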