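import Cfsg.Statements.S5909
import Cfsg.Agent.Lib.SymMax.PartitionAlt

set_option autoImplicit false
open Cfsg

namespace Cfsg.Agent.S5909

/-- Let Ω be a finite set whose size is not 8, and f : Ω → Fin b a labelling with b ≥ 2 whose fibres all have the same size a ≥ 2 (a partition into b blocks of size a). Then the even permutations preserving the partition — the intersection of the imprimitive wreath product S_a ≀ S_b with the alternating group — form a maximal subgroup of the alternating group on Ω. -/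
theorem result {Ω : Type*} [Fintype Ω] [DecidableEq Ω] (h8 : Fintype.card Ω ≠ 8) (a b : ℕ) (ha : 2 ≤ a) (hb : 2 ≤ b)
    (f : Ω → Fin b) (hf : ∀ i : Fin b, Nat.card {x : Ω // f x = i} = a) :
    IsCoatom ((Subgroup.closure {g : Equiv.Perm Ω | ∀ x y : Ω, f x = f y ↔ f (g x) = f (g y)} ⊓ alternatingGroup Ω).subgroupOf (alternatingGroup Ω)) := by
  rw [CfsgLib.SymMax.closure_eq_partStab, Subgroup.inf_subgroupOf_right,
    CfsgLib.SymMax.isCoatom_subgroupOf_iff]
  have : Nontrivial (Fin b) := Fin.nontrivial_iff_two_le.2 hb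
  refine ⟨CfsgLib.SymMax.alt_not_le_partStab ha hf, fun G h1 h2 => ?_⟩
  have hcard : Fintype.card Ω = b * a := by
    rw [← Fintype.card_congr (Equiv.sigmaFiberEquiv f), Fintype.card_sigma]
    simp only [← Nat.card_eq_fintype_card, hf]
    simp
  by_cases h22 : a = 2 ∧ b = 2
  · obtain ⟨rfl, rfl⟩ := h22
    exact CfsgLib.SymMax.alt_eq_of_lt_four hcard hf h1 h2
  obtain ⟨g, hg, hgK⟩ := SetLike.exists_of_lt h1
  refine le_antisymm h2 (CfsgLib.SymMax.alt_le_of_lt ha hf ?_ h1.le hg fun h => hgK ⟨h, h2 hg⟩)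
  by_cases ha3 : 3 ≤ a
  · exact Or.inl ha3
  obtain rfl : a = 2 := by omega
  have hb3 : 3 ≤ b := by omega
  have hb4 : b ≠ 4 := by rintro rfl; exact h8 hcard
  have key : ∀ s : Finset (Fin b), s.card < b → ∃ m, m ∉ s := by
    intro s hs
    by_contra hcon
    push Not at hcon
    have := Finset.eq_univ_iff_forall.2 hcon
    rw [this] at hs
    simp at hs
  refine Or.inr ⟨fun i j => ?_, fun i j k l h1 h2 h3 h4 h5 h6 => ?_⟩
  · obtain ⟨m, hm⟩ := key {i, j} (lt_of_le_of_lt Finset.card_le_two (by omega))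
    exact ⟨m, by simpa [not_or] using hm⟩
  · have h4' : ({i, j, k, l} : Finset (Fin b)).card = 4 := by
      rw [Finset.card_eq_four]
      exact ⟨i, j, k, l, h1, h2.symm, h4.symm, h3.symm, h5.symm, h6.symm, rfl⟩
    have h4'' : 4 ≤ b := by
      have := Finset.card_le_univ ({i, j, k, l} : Finset (Fin b))
      rw [h4'] at this
      simpa using this
    obtain ⟨m, hm⟩ := key {i, j, k, l} (by omega)
    exact ⟨m, by simpa [not_or] using hm⟩

end Cfsg.Agent.S5909
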