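import Cfsg.Statements.S5910
import Cfsg.Agent.Lib.SymMax.Partition

set_option autoImplicit false
open Cfsg

namespace Cfsg.Agent.S5910

open Equiv Equiv.Perm CfsgLib.SymMax

/-- Four labels summing to zero in the Klein four-group. -/
def r4 (a b c d : Fin 4) : Prop := a.val ^^^ b.val ^^^ c.val ^^^ d.val = 0

instance decR4 (a b c d : Fin 4) : Decidable (r4 a b c d) := inferInstanceAs (Decidable (_ = _))

/-- Affine planes of the model. -/
def rel (x y z w : Fin 4 × Fin 2) : Prop := r4 x.1 y.1 z.1 w.1 ∧ x.2 + y.2 + z.2 + w.2 = 0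

instance decRel (x y z w : Fin 4 × Fin 2) : Decidable (rel x y z w) :=
  inferInstanceAs (Decidable (_ ∧ _))

/-- The affine group of the model. -/
def L0 : Subgroup (Perm (Fin 4 × Fin 2)) where
  carrier := {g | ∀ x y z w, rel x y z w ↔ rel (g x) (g y) (g z) (g w)}
  one_mem' := fun _ _ _ _ => Iff.rfl
  mul_mem' := fun {a b} ha hb x y z w => (hb x y z w).trans (ha _ _ _ _)
  inv_mem' := fun {a} ha x y z w => by
    have := ha (a⁻¹ x) (a⁻¹ y) (a⁻¹ z) (a⁻¹ w)
    simpa using this.symm

theorem h_sigma : ∀ σ : Fin 4 → Fin 4, Function.Injective σ → ∀ a b c d : Fin 4,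
    r4 a b c d ↔ r4 (σ a) (σ b) (σ c) (σ d) := by decide +kernel

theorem h_eps : ∀ ε : Fin 4 → Fin 2, ∏ i, sign (Equiv.addRight (ε i)) = 1 → ∀ a b c d : Fin 4,
    r4 a b c d → ε a + ε b + ε c + ε d = 0 := by decide +kernel

theorem mem_L0 (g : Perm (Fin 4 × Fin 2)) (hg : g ∈ partStab Prod.fst) (hs : sign g = 1) : g ∈ L0 := by
  set σ : Fin 4 → Fin 4 := fun i => (g (i, 0)).1 with hσ
  set ε : Fin 4 → Fin 2 := fun i => (g (i, 0)).2 with hε
  have hσi : Function.Injective σ := fun i j h => (hg (i, 0) (j, 0)).2 h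
  have hform : ∀ x, g x = (σ x.1, x.2 + ε x.1) := by
    rintro ⟨i, t⟩
    have h1 : (g (i, t)).1 = σ i := (hg (i, t) (i, 0)).1 rfl
    refine Prod.ext h1 ?_
    have h2 : t ≠ 0 → (g (i, t)).2 ≠ ε i := by
      intro ht h
      exact ht (congrArg Prod.snd (g.injective (Prod.ext h1 h : g (i, t) = g (i, 0))))
    by_cases ht : t = 0
    · subst ht; simp [hε]
    · exact (by decide : ∀ t u v : Fin 2, t ≠ 0 → u ≠ v → u = t + v) _ _ _ ht (h2 ht)
  have hg' : g = (Equiv.prodCongrLeft fun _ => Equiv.ofBijective σ (Finite.injective_iff_bijective.1 hσi)) *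
      Equiv.prodCongrRight fun i => Equiv.addRight (ε i) := by
    ext x : 1
    rw [hform]; rfl
  have hε' : ∏ i, sign (Equiv.addRight (ε i)) = 1 := by
    rw [hg', map_mul, sign_prodCongrLeft, sign_prodCongrRight] at hs
    simpa using hs
  intro x y z w
  simp only [hform, rel]
  rw [← h_sigma σ hσi]
  refine and_congr_right fun h => ?_
  have := h_eps ε hε' _ _ _ _ h
  rw [show x.2 + ε x.1 + (y.2 + ε y.1) + (z.2 + ε z.1) + (w.2 + ε w.1) =
    (x.2 + y.2 + z.2 + w.2) + (ε x.1 + ε y.1 + ε z.1 + ε w.1) by abel, this, add_zero]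

theorem s0_mem : (swap (0, 1) (1, 0) * swap (2, 1) (3, 0) : Perm (Fin 4 × Fin 2)) ∈ L0 := by
  change ∀ x y z w, rel x y z w ↔ _
  decide +kernel

theorem s1_not_mem : (swap (0, 0) (0, 1) * swap (0, 0) (1, 0) : Perm (Fin 4 × Fin 2)) ∉ L0 := by
  intro h
  have := (h (0, 0) (0, 1) (2, 0) (2, 1)).1 (by decide)
  revert this
  decide


/-- Let Ω be a set with 8 elements and f : Ω → Fin 4 a labelling whose four fibres all have size 2 (a partition of the 8 points into 4 pairs). Then the group of even permutations preserving this partition, (S₂ ≀ S₄) ∩ A₈, is not a maximal subgroup of the alternating group A₈ (it lies in a subgroup isomorphic to the affine group AGL₃(2)). -/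
theorem result {Ω : Type*} [Fintype Ω] [DecidableEq Ω] (h8 : Fintype.card Ω = 8)
    (f : Ω → Fin 4) (hf : ∀ i : Fin 4, Nat.card {x : Ω // f x = i} = 2) :
    ¬ IsCoatom ((Subgroup.closure {g : Equiv.Perm Ω | ∀ x y : Ω, f x = f y ↔ f (g x) = f (g y)} ⊓ alternatingGroup Ω).subgroupOf (alternatingGroup Ω)) := by
  rw [closure_eq_partStab]
  obtain ⟨e, he⟩ : ∃ e : Ω ≃ Fin 4 × Fin 2, ∀ x, (e x).1 = f x := by
    have : ∀ c, Nonempty ({x : Ω // f x = c} ≃ {y : Fin 4 × Fin 2 // y.1 = c}) := by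
      intro c
      rw [← Finite.card_eq, hf, Nat.card_eq_fintype_card]
      revert c; decide
    exact ⟨Equiv.ofFiberEquiv fun c => (this c).some, fun x => Equiv.ofFiberEquiv_map _ x⟩
  have hK : ∀ g : Perm Ω, g ∈ partStab f ↔ e.permCongr g ∈ partStab Prod.fst := by
    intro g
    simp only [mem_partStab, ← he]
    constructor
    · intro h x y
      simpa using h (e.symm x) (e.symm y)
    · intro h x y
      simpa using h (e x) (e y)
  apply not_isCoatom_subgroupOf (S := L0.comap e.permCongrHom.toMonoidHom ⊓ alternatingGroup Ω)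
  · refine SetLike.lt_iff_le_and_exists.2 ⟨fun g hg => ⟨mem_L0 _ ((hK g).1 hg.1) ?_, hg.2⟩,
      e.symm.permCongr (swap (0, 1) (1, 0) * swap (2, 1) (3, 0)), ⟨?_, ?_⟩, fun h => ?_⟩
    · exact (sign_permCongr e g).trans hg.2
    · change e.permCongr (e.permCongr.symm _) ∈ L0
      rw [Equiv.apply_symm_apply]; exact s0_mem
    · change sign _ = 1
      rw [sign_permCongr]; decide
    · have h1 := (hK _).1 h.1
      change e.permCongr (e.permCongr.symm _) ∈ _ at h1
      rw [Equiv.apply_symm_apply] at h1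
      have := (h1 (0, 0) (0, 1)).1 rfl
      revert this; decide
  · refine SetLike.lt_iff_le_and_exists.2 ⟨inf_le_right,
      e.symm.permCongr (swap (0, 0) (0, 1) * swap (0, 0) (1, 0)), ?_, fun h => ?_⟩
    · change sign _ = 1
      rw [sign_permCongr]; decide
    · have h1 := h.1
      change e.permCongr (e.permCongr.symm _) ∈ L0 at h1
      rw [Equiv.apply_symm_apply] at h1
      exact s1_not_mem h1

end Cfsg.Agent.S5910
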