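import Cfsg.Statements.S5912
import Cfsg.Agent.Lib.SymMax.SmallIndex

set_option autoImplicit false
open Cfsg

namespace Cfsg.Agent.S5912

/-- The symmetric group on a 6-element set Ω has exactly two conjugacy classes of subgroups of index 6: there are two non-conjugate subgroups of index 6 (a point stabilizer and a transitive subgroup isomorphic to S₅), and every subgroup of index 6 is conjugate to one of them. -/
theorem result {Ω : Type*} [Fintype Ω] [DecidableEq Ω] (h6 : Fintype.card Ω = 6) :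
    ∃ H₁ H₂ : Subgroup (Equiv.Perm Ω), H₁.index = 6 ∧ H₂.index = 6 ∧
      (¬ ∃ g : Equiv.Perm Ω, Subgroup.map (MulAut.conj g).toMonoidHom H₁ = H₂) ∧
      ∀ H : Subgroup (Equiv.Perm Ω), H.index = 6 →
        ∃ g : Equiv.Perm Ω, Subgroup.map (MulAut.conj g).toMonoidHom H₁ = H ∨ Subgroup.map (MulAut.conj g).toMonoidHom H₂ = H := by
  obtain ⟨ψ, hψ, hall⟩ := CfsgLib.SymMax.exists_outer_six h6
  have : Nontrivial Ω := Fintype.one_lt_card_iff_nontrivial.1 (by omega)
  obtain ⟨x⟩ : Nonempty Ω := inferInstance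
  have hidx : (MulAction.stabilizer (Equiv.Perm Ω) x).index = 6 := by
    rw [MulAction.index_stabilizer_of_transitive, Nat.card_eq_fintype_card, h6]
  have hconj : ∀ (y : Ω) (g : Equiv.Perm Ω), Subgroup.map (MulAut.conj g).toMonoidHom
      (MulAction.stabilizer (Equiv.Perm Ω) y) = MulAction.stabilizer (Equiv.Perm Ω) (g y) :=
    fun y g => (MulAction.stabilizer_smul_eq_stabilizer_map_conj g y).symm
  refine ⟨MulAction.stabilizer _ x, (MulAction.stabilizer _ x).map ψ.toMonoidHom, hidx, ?_, ?_, ?_⟩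
  · rw [← hidx]
    exact Subgroup.index_map_of_bijective ψ.bijective _
  · rintro ⟨g, hg⟩
    rw [hconj] at hg
    obtain ⟨a, b, c, hab, hac, hbc⟩ := Fintype.two_lt_card_iff.1 (by omega : 2 < Fintype.card Ω)
    obtain ⟨u, v, huv, hu, hv⟩ : ∃ u v : Ω, u ≠ v ∧ x ≠ u ∧ x ≠ v := by
      by_cases h1 : x = a
      · exact ⟨b, c, hbc, h1 ▸ hab, h1 ▸ hac⟩
      by_cases h2 : x = b
      · exact ⟨a, c, hac, h1, h2 ▸ hbc⟩
      · exact ⟨a, b, hab, h1, h2⟩
    have : ψ (Equiv.swap u v) ∈ MulAction.stabilizer (Equiv.Perm Ω) (g x) := by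
      rw [hg]
      exact ⟨_, Equiv.swap_apply_of_ne_of_ne hu hv, rfl⟩
    exact hψ _ (Equiv.Perm.swap_isSwap_iff.2 huv) _ this
  · intro H hH
    obtain ⟨y, rfl | rfl⟩ := hall H hH
    · exact ⟨Equiv.swap x y, Or.inl (by rw [hconj, Equiv.swap_apply_left])⟩
    · refine ⟨ψ (Equiv.swap x y), Or.inr ?_⟩
      have := hconj x (Equiv.swap x y)
      rw [Equiv.swap_apply_left] at this
      rw [← this, Subgroup.map_map, Subgroup.map_map]
      congr 1
      ext g : 1
      simp only [MonoidHom.comp_apply, MulEquiv.coe_toMonoidHom, MulAut.conj_apply, map_mul, map_inv]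

end Cfsg.Agent.S5912
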