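import Cfsg.Statements.S5939
import Cfsg.Agent.Lib.Dickson.Max

set_option autoImplicit false
open Cfsg

namespace Cfsg.Agent.S5939

open CfsgLib.Dickson


/-- Let p be a prime and F a finite field of characteristic p such that either F has p elements and p ≡ ±1 (mod 10), or F has p² elements and p ≡ ±3 (mod 10). Then PSL_2(F) has a maximal subgroup isomorphic to the alternating group A_5. -/
theorem result {F : Type*} [Field F] [Fintype F] (p : ℕ) [Fact p.Prime] [CharP F p] (h : (Fintype.card F = p ∧ (p % 10 = 1 ∨ p % 10 = 9)) ∨ (Fintype.card F = p ^ 2 ∧ (p % 10 = 3 ∨ p % 10 = 7))) : ∃ H : Subgroup (Matrix.ProjectiveSpecialLinearGroup (Fin 2) F), IsCoatom H ∧ Nonempty (H ≃* alternatingGroup (Fin 5)) := by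
  rw [← Nat.card_eq_fintype_card] at h
  have hp : p.Prime := Fact.out
  have h1 := hp.two_le
  have h5 : ∀ n : ℕ, n % 5 = 1 ∨ n % 5 = 4 → 5 ∣ n * (n ^ 2 - 1) := by
    intro n hn
    have : n ^ 2 % 5 = 1 := by rcases hn with e | e <;> rw [Nat.pow_mod, e]
    exact Dvd.dvd.mul_left (by omega) _
  rcases h with ⟨hF, h⟩ | ⟨hF, h⟩
  · obtain ⟨M, hM⟩ := (exists_A5_iff (K := F)).mpr (h5 _ (by omega))
    exact exists_isCoatom_of_covBy (A5_covBy (Nat.odd_iff.mpr (by omega)) (by omega)
      (fun K _ => subfield_eq_top_of_prime (hF ▸ hp) K) hM) hM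
  · have h2 : p ^ 2 % 10 = 9 := by rcases h with e | e <;> rw [Nat.pow_mod, e]
    obtain ⟨M, hM⟩ := (exists_A5_iff (K := F)).mpr (h5 _ (by omega))
    refine exists_isCoatom_of_covBy (A5_covBy (Nat.odd_iff.mpr (by omega)) (by omega)
      (fun K hK => ?_) hM) hM
    have := Fintype.ofFinite F
    have h3 : Nat.card (⊥ : Subfield F) = p := Subfield.card_bot F p
    rcases subfield_eq_of_prime Nat.prime_two (h3 ▸ hF) (bot_le : ⊥ ≤ K) with rfl | e
    · rw [h3] at hK
      rcases (Nat.Prime.dvd_mul Nat.prime_five).mp hK with e | e <;> omega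
    · exact e

end Cfsg.Agent.S5939
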