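import Cfsg.Statements.S5940
import Cfsg.Agent.Lib.Dickson.Max

set_option autoImplicit false
open Cfsg

namespace Cfsg.Agent.S5940

open CfsgLib.Dickson


/-- Let p ≥ 5 be a prime with p ≡ ±3 (mod 8) and p ≢ ±1 (mod 10), and F a field with p elements. Then PSL_2(F) has a maximal subgroup isomorphic to the alternating group A_4. -/
theorem result {F : Type*} [Field F] [Fintype F] (p : ℕ) [Fact p.Prime] (hF : Fintype.card F = p) (h5 : 5 ≤ p) (h8 : p % 8 = 3 ∨ p % 8 = 5) (h10 : p % 10 ≠ 1 ∧ p % 10 ≠ 9) : ∃ H : Subgroup (Matrix.ProjectiveSpecialLinearGroup (Fin 2) F), IsCoatom H ∧ Nonempty (H ≃* alternatingGroup (Fin 4)) := by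
  rw [← Nat.card_eq_fintype_card] at hF
  subst hF
  obtain ⟨M, hM⟩ := exists_A4 (two_ne_zero_of_odd_card (F := F) (Nat.odd_iff.mpr (by omega)))
  exact exists_isCoatom_of_covBy (A4_covBy Fact.out h5 h8 h10 hM) hM

end Cfsg.Agent.S5940
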