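import Cfsg.Statements.S5947
import Cfsg.Agent.Lib.Elusive.SL
import Cfsg.Agent.Lib.Spec.Zsig

set_option autoImplicit false
open Cfsg

namespace Cfsg.Agent.S5947

theorem eq_one_of_pow_add_one {r k b : ℕ} (hr : r.Prime) (hr2 : r ≠ 2) (hk : k ≠ 0)
    (h : r ^ k + 1 = 2 ^ b) : k = 1 := by
  have ho := hr.odd_of_ne_two hr2
  rcases Nat.even_or_odd' k with ⟨m, rfl | rfl⟩
  · have h2 : 1 < r ^ m := Nat.one_lt_pow (by omega) hr.one_lt
    obtain ⟨c, hc⟩ : Odd (r ^ m) := ho.pow
    rw [mul_comm, pow_mul, hc] at h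
    have h3 : 2 ^ b = 4 * (c * c + c) + 2 := by nlinarith
    rcases b with _ | _ | b
    · omega
    · omega
    · rw [pow_succ, pow_succ] at h3
      omega
  have hp : Odd (r : ℤ) := ho.natCast
  obtain ⟨t, ht, e⟩ : ∃ t : ℤ, Odd t ∧ (r : ℤ) ^ (2 * m + 1) + 1 = (r + 1) * t := by
    clear h hk
    induction m with
    | zero => exact ⟨1, odd_one, by simp⟩
    | succ m ih =>
      obtain ⟨t, ht, e⟩ := ih
      refine ⟨r * r * t - r + 1, (((hp.mul hp).mul ht).sub_odd hp).add_one, ?_⟩
      rw [show 2 * (m + 1) + 1 = 2 * m + 1 + 2 by ring, pow_add]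
      linear_combination (r : ℤ) ^ 2 * e
  have h0 : (0 : ℤ) < t := (mul_pos_iff_of_pos_left (a := (r : ℤ) + 1) (by positivity)).1 (by
    rw [← e]; positivity)
  have h1 : t.natAbs = 1 := Nat.eq_one_of_dvd_coprimes
    ((Nat.coprime_two_right.2 (Int.natAbs_odd.2 ht)).pow_right b) dvd_rfl (by
      rw [← Int.natCast_dvd_natCast, Int.natAbs_dvd, ← h]
      push_cast
      rw [e]
      exact Dvd.intro_left _ rfl)
  obtain rfl : t = 1 := by omega
  rw [mul_one, add_left_inj] at e
  exact Nat.pow_right_injective hr.two_le (by exact_mod_cast e.trans (pow_one _).symm)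

/-- Let F ⊆ K be finite fields with |F| = q and [K : F] = n ≥ 2, regard K as an n-dimensional F-vector space, and let M ≤ GL_F(K) be the Singer group of multiplications by non-zero elements of K (cyclic of order q^n − 1). Assume (n, q) ≠ (6, 2), and that it is not the case that n = 2 with q a prime such that q + 1 is a power of 2. Then every abelian subgroup of GL_F(K) of order q^n − 1 is conjugate to M. -/
theorem result {F K : Type*} [Field F] [Fintype F] [Field K] [Fintype K] [Algebra F K] (n : ℕ) (hn : 2 ≤ n) (hdim : Module.finrank F K = n)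
    (hex1 : ¬ (n = 6 ∧ Fintype.card F = 2))
    (hex2 : ¬ (n = 2 ∧ (Fintype.card F).Prime ∧ ∃ a : ℕ, Fintype.card F + 1 = 2 ^ a))
    (U : Subgroup (Module.End F K)ˣ) (hU : IsMulCommutative U) (hcard : Nat.card U = Fintype.card K - 1) :
    ∃ g : (Module.End F K)ˣ, U.map (MulAut.conj g).toMonoidHom = (Units.map ((Algebra.lmul F K : K →ₐ[F] Module.End F K) : K →* Module.End F K)).range := by
  open CfsgLib.Elusive CfsgLib.MatConj Polynomial Module in
  classical
  obtain ⟨p, hchar, k, hp, hk⟩ := FiniteField.card' F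
  haveI : Fact p.Prime := ⟨hp⟩
  have hq1 : 1 < Fintype.card F := Fintype.one_lt_card
  have hK : Fintype.card K = Fintype.card F ^ n := by rw [← hdim, Module.card_eq_pow_finrank (K := F)]
  obtain ⟨r, hr, h1, h2⟩ := CfsgLib.Spec.zsigmondy hq1 (n := n) (by omega) (fun h => hex1 h.symm) (by
    rintro ⟨hn2, m, hm⟩
    refine hex2 ⟨hn2, ?_, m, hm⟩
    rw [hk] at hm ⊢
    have hp2 : p ≠ 2 := by
      rintro rfl
      have h3 : 2 ∣ 2 ^ (k : ℕ) := dvd_pow_self 2 k.ne_zero
      rcases m with _ | m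
      · have := Nat.two_pow_pos (k : ℕ); omega
      · rw [pow_succ] at hm; omega
    rwa [eq_one_of_pow_add_one hp hp2 k.ne_zero hm, pow_one])
  haveI : Fact r.Prime := ⟨hr⟩
  have hrp : r ≠ p := by
    rintro rfl
    have : r ∣ Fintype.card F ^ n := dvd_pow char_dvd_card (by omega)
    have h3 := (Nat.dvd_sub_iff_right (Nat.one_le_pow _ _ (by omega)) this).1 h1
    exact hr.one_lt.ne' (Nat.dvd_one.1 h3)
  have ho : orderOf (Fintype.card F : ZMod r) = n := by
    refine le_antisymm (Nat.le_of_dvd (by omega) ((dvd_pow_sub_one_iff (by omega) n).1 h1)) ?_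
    by_contra h
    exact h2 _ (ord_pos hrp) (by omega) ((dvd_pow_sub_one_iff (by omega) _).2 dvd_rfl)
  haveI : Finite U := Nat.finite_of_card_ne_zero (by
    rw [hcard]; have := Fintype.one_lt_card (α := K); omega)
  obtain ⟨u, hu⟩ := exists_prime_orderOf_dvd_card' (G := U) r (by rwa [hcard, hK])
  let T : End F K := (u : (End F K)ˣ)
  have hT : T ^ r = 1 := by
    have := congrArg (fun x : U => ((x : (End F K)ˣ) : End F K)) (hu ▸ pow_orderOf_eq_one u)
    simpa using this
  have hT1 : T ≠ (1 : F) • 1 := fun h => by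
    have : u = 1 := Subtype.ext (Units.ext (h.trans (one_smul _ _)))
    rw [this, orderOf_one] at hu
    exact hr.one_lt.ne hu
  obtain ⟨e, t, ht, hE⟩ := ed_ssEd hrp hT
  have h3 := finrank_eq_mdeg_ed T
  rw [hE, mdeg_ssEd hrp e ht, ho, hdim] at h3
  have h4 := Multiset.card_pos.2 (ne_zero_of_ssEd hE hT1)
  have h5 : Multiset.card t = 1 := by
    by_contra h
    have := Nat.mul_le_mul_left n (show 2 ≤ Multiset.card t by omega)
    omega
  obtain ⟨f, rfl⟩ := Multiset.card_eq_one.1 h5
  obtain rfl : e = 0 := by simp at h3; omega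
  have hf := ht f (by simp)
  obtain ⟨i1, i2, -⟩ := mem_cyc.1 hf
  haveI : Fact (Irreducible f) := ⟨i1⟩
  have h6 : finrank F (AdjoinRoot f) = finrank F K := by
    rw [finrank_adjoinRoot, natDegree_of_mem_cyc hrp hf, ho, hdim]
  obtain ⟨φ⟩ := FiniteField.nonempty_algHom_of_finrank_dvd h6.dvd
  haveI := finite_adjoinRoot i1.ne_zero
  have hφ : Function.Surjective φ :=
    (LinearMap.injective_iff_surjective_of_finrank_eq_finrank (f := φ.toLinearMap) h6).1
      φ.toRingHom.injective
  let x := φ (AdjoinRoot.root f)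
  have hx : ∀ a : K, ∃ w : F[X], aeval x w = a := fun a => by
    obtain ⟨b, rfl⟩ := hφ a
    obtain ⟨w, rfl⟩ := AdjoinRoot.mk_surjective b
    exact ⟨w, by rw [aeval_algHom_apply, AdjoinRoot.aeval_eq]⟩
  have h7 := eq_replicate_of_irreducible (ed_valid (Algebra.lmul F K x)) i1 i2
    ((aeval_eq_zero_iff_ed _ f).1 (by
      rw [aeval_algHom_apply, aeval_algHom_apply, AdjoinRoot.aeval_eq, AdjoinRoot.mk_self, map_zero,
        map_zero]))
  have h8 := finrank_eq_mdeg_ed (Algebra.lmul F K x)
  rw [h7, mdeg_replicate, natDegree_of_mem_cyc hrp hf, ho, hdim, mul_one] at h8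
  rw [show Multiset.card (ed (Algebra.lmul F K x)) = 1 from
    Nat.eq_of_mul_eq_mul_right (m := n) (by omega) (by rw [← h8, one_mul])] at h7
  obtain ⟨ε, hε⟩ := sim_of_ed_eq (S := T) (T := Algebra.lmul F K x) (by rw [hE, h7]; simp [ssEd])
  let g : (End F K)ˣ := (LinearMap.GeneralLinearGroup.generalLinearEquiv F K).symm ε
  have hg : ∀ v, (g : End F K) v = ε v := fun v => rfl
  have hgT : (g : End F K) * T = Algebra.lmul F K x * g := LinearMap.ext hε
  refine ⟨g, Subgroup.eq_of_le_of_card_ge ?_ ?_⟩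
  · rintro _ ⟨y, hy, rfl⟩
    let h : End F K := (g * y * g⁻¹ : (End F K)ˣ)
    have c1 : Commute (y : End F K) T :=
      congrArg (fun x : U => ((x : (End F K)ˣ) : End F K)) (hU.1.1 ⟨y, hy⟩ u)
    have c2 : Commute (Algebra.lmul F K x) h := by
      have : Algebra.lmul F K x = g * T * (g⁻¹ : (End F K)ˣ) := by
        rw [hgT, mul_assoc, Units.mul_inv, mul_one]
      rw [this]
      simp only [h, Units.val_mul, Commute, SemiconjBy, mul_assoc, Units.inv_mul_cancel_left]
      rw [← mul_assoc T, ← c1.eq, mul_assoc]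
    have c3 : ∀ a, h a = h 1 * a := fun a => by
      obtain ⟨w, rfl⟩ := hx a
      have := intertwine_aeval (S := Algebra.lmul F K x) (T := Algebra.lmul F K x) h
        (fun v => (LinearMap.congr_fun c2.eq v).symm) w 1
      rw [aeval_algHom_apply] at this
      simpa [mul_comm] using this
    have c4 : h 1 ≠ 0 := fun h0 => one_ne_zero (α := K)
      (((Module.End.isUnit_iff h).1 (Units.isUnit _)).1 (by rw [h0, map_zero]))
    exact ⟨Units.mk0 _ c4, Units.ext (LinearMap.ext fun a => (c3 a).symm)⟩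
  · rw [Subgroup.card_map_of_injective (MulAut.conj g).injective, hcard, ← Fintype.card_units,
      ← Nat.card_eq_fintype_card]
    exact Nat.le_of_dvd Nat.card_pos (Subgroup.card_range_dvd _)

end Cfsg.Agent.S5947
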